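import Cfsg.Statements.S3375

set_option autoImplicit false
open Cfsg

namespace Cfsg.Agent.S3375

/-- Let γ be an automorphism of order 2 of a finite group H. (i) If γ fixes only the identity, then H is abelian and γ inverts every element. (ii) If γ has exactly two fixed points and H has a subgroup of index 2, then H has a γ-invariant abelian subgroup of index 2 on which γ acts by inversion. -/
theorem result {H : Type*} [Group H] [Finite H] (γ : MulAut H) (hγ : orderOf γ = 2) :
    ((∀ h : H, γ h = h → h = 1) → (∀ a b : H, a * b = b * a) ∧ ∀ h : H, γ h = h⁻¹) ∧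
    ((Nat.card {h : H // γ h = h} = 2 ∧ ∃ M : Subgroup H, M.index = 2) →
      ∃ A : Subgroup H, A.index = 2 ∧ IsMulCommutative A ∧ (∀ a ∈ A, γ a ∈ A) ∧ ∀ a ∈ A, γ a = a⁻¹) := by
  have hγ2 : ∀ h : H, γ (γ h) = h := by
    intro h
    have h1 : γ ^ 2 = 1 := by rw [← hγ]; exact pow_orderOf_eq_one γ
    have h2 : (γ ^ 2) h = h := by rw [h1]; rfl
    simpa [pow_two] using h2
  -- the map ψ h = h * (γ h)⁻¹
  have hψinv : ∀ h : H, γ (h * (γ h)⁻¹) = (h * (γ h)⁻¹)⁻¹ := by
    intro h
    simp [hγ2]
  have hψeq : ∀ h k : H, h * (γ h)⁻¹ = k * (γ k)⁻¹ ↔ γ (k⁻¹ * h) = k⁻¹ * h := by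
    intro h k
    constructor
    · intro e
      have : h = k * (γ k)⁻¹ * γ h := by rw [← e]; group
      have e2 : k⁻¹ * h = (γ k)⁻¹ * γ h := by
        conv_lhs => rw [this]
        group
      rw [map_mul, map_inv, e2]
    · intro e
      rw [map_mul, map_inv] at e
      have : γ h = γ k * (k⁻¹ * h) := by rw [← e]; group
      rw [this]; group
  -- commutativity from inversion
  have hcomm : ∀ a b : H, γ a = a⁻¹ → γ b = b⁻¹ → γ (a * b) = (a * b)⁻¹ → a * b = b * a := by
    intro a b ha hb hab
    rw [map_mul, ha, hb, mul_inv_rev] at hab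
    have := congrArg (fun x => x⁻¹) hab
    simpa using this.symm
  refine ⟨?_, ?_⟩
  · intro hfix
    have hinj : Function.Injective (fun h : H => h * (γ h)⁻¹) := by
      intro h k e
      have e' := (hψeq h k).1 e
      have := hfix _ e'
      exact (inv_mul_eq_one.1 this).symm
    have hsurj : Function.Surjective (fun h : H => h * (γ h)⁻¹) :=
      Finite.injective_iff_surjective.1 hinj
    have hinvall : ∀ h : H, γ h = h⁻¹ := by
      intro g
      obtain ⟨h, rfl⟩ := hsurj g
      exact hψinv h
    exact ⟨fun a b => hcomm a b (hinvall a) (hinvall b) (hinvall _), hinvall⟩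
  · rintro ⟨hcard, M, hM⟩
    -- a γ-invariant subgroup of index 2
    obtain ⟨A, hA, hAinv⟩ : ∃ A : Subgroup H, A.index = 2 ∧ ∀ a ∈ A, γ a ∈ A := by
      by_cases hinvM : ∀ a ∈ M, γ a ∈ M
      · exact ⟨M, hM, hinvM⟩
      · push Not at hinvM
        obtain ⟨m, hm, hγm⟩ := hinvM
        let A : Subgroup H :=
          { carrier := {h | h ∈ M ↔ γ h ∈ M}
            mul_mem' := by
              intro a b ha hb
              simp only [Set.mem_ofPred_eq] at ha hb ⊢
              rw [map_mul, Subgroup.mul_mem_iff_of_index_two hM, Subgroup.mul_mem_iff_of_index_two hM,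
                ha, hb]
            one_mem' := by simp [M.one_mem]
            inv_mem' := by
              intro a ha
              simp only [Set.mem_ofPred_eq] at ha ⊢
              rw [map_inv, inv_mem_iff, inv_mem_iff, ha] }
        have hmemA : ∀ h : H, h ∈ A ↔ (h ∈ M ↔ γ h ∈ M) := fun h => Iff.rfl
        refine ⟨A, ?_, ?_⟩
        · rw [Subgroup.index_eq_two_iff]
          refine ⟨m, fun b => ?_⟩
          rw [hmemA, hmemA, map_mul, Subgroup.mul_mem_iff_of_index_two hM,
            Subgroup.mul_mem_iff_of_index_two hM]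
          by_cases h1 : b ∈ M <;> by_cases h2 : γ b ∈ M <;> simp [h1, h2, hm, hγm, Xor]
        · intro a ha
          rw [hmemA] at ha ⊢
          rw [hγ2]
          exact ha.symm
    have hAinv' : ∀ a : H, a ∈ A ↔ γ a ∈ A := by
      intro a
      refine ⟨hAinv a, fun h => ?_⟩
      have := hAinv _ h
      rwa [hγ2] at this
    have hψA : ∀ h : H, h * (γ h)⁻¹ ∈ A := by
      intro h
      rw [Subgroup.mul_mem_iff_of_index_two hA, inv_mem_iff]
      exact hAinv' h
    -- the fixed-point subgroup
    let C : Subgroup H :=
      { carrier := {h | γ h = h}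
        mul_mem' := by
          intro a b ha hb
          simp only [Set.mem_ofPred_eq] at ha hb ⊢
          rw [map_mul, ha, hb]
        one_mem' := by simp
        inv_mem' := by
          intro a ha
          simp only [Set.mem_ofPred_eq] at ha ⊢
          rw [map_inv, ha] }
    have hC : Nat.card C = 2 := hcard
    have hmemC : ∀ h : H, h ∈ C ↔ γ h = h := fun h => Iff.rfl
    -- the induced map on cosets
    let f : H ⧸ C → A := Quotient.lift (fun h : H => (⟨h * (γ h)⁻¹, hψA h⟩ : A)) (by
      intro a b hab
      have hab' : a⁻¹ * b ∈ C := QuotientGroup.leftRel_apply.1 hab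
      apply Subtype.ext
      show a * (γ a)⁻¹ = b * (γ b)⁻¹
      rw [hψeq]
      have : b⁻¹ * a ∈ C := by
        have := C.inv_mem hab'
        simpa using this
      exact this)
    have hf : ∀ h : H, f (QuotientGroup.mk h) = ⟨h * (γ h)⁻¹, hψA h⟩ := fun h => rfl
    have hfinj : Function.Injective f := by
      intro x y
      induction x using QuotientGroup.induction_on with
      | H a =>
        induction y using QuotientGroup.induction_on with
        | H b =>
          intro e
          rw [hf, hf] at e
          have e' : a * (γ a)⁻¹ = b * (γ b)⁻¹ := congrArg Subtype.val e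
          rw [hψeq] at e'
          rw [QuotientGroup.eq]
          have h1 : b⁻¹ * a ∈ C := e'
          have := C.inv_mem h1
          simpa using this
    have hcardeq : Nat.card (H ⧸ C) = Nat.card A := by
      have h1 : C.index * Nat.card C = Nat.card H := Subgroup.index_mul_card C
      have h2 : A.index * Nat.card A = Nat.card H := Subgroup.index_mul_card A
      have h3 : Nat.card (H ⧸ C) = C.index := rfl
      rw [h3]
      rw [hC] at h1
      rw [hA] at h2
      omega
    have hfsurj : Function.Surjective f := by
      have : Function.Bijective f := by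
        rw [Nat.bijective_iff_injective_and_card]
        exact ⟨hfinj, hcardeq⟩
      exact this.2
    have hAinvert : ∀ a ∈ A, γ a = a⁻¹ := by
      intro a ha
      obtain ⟨x, hx⟩ := hfsurj ⟨a, ha⟩
      induction x using QuotientGroup.induction_on with
      | H h =>
        rw [hf] at hx
        have : h * (γ h)⁻¹ = a := congrArg Subtype.val hx
        rw [← this]
        exact hψinv h
    refine ⟨A, hA, ⟨⟨fun a b => ?_⟩⟩, hAinv, hAinvert⟩
    apply Subtype.ext
    exact hcomm a b (hAinvert a a.2) (hAinvert b b.2) (hAinvert _ (A.mul_mem a.2 b.2))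

end Cfsg.Agent.S3375
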