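import Mathlib
import Cfsg.Statements.S0298
import Cfsg.Agent.H7.Omega3

set_option autoImplicit false
open Cfsg

namespace Cfsg.Agent.S0298

open Matrix
open scoped MatrixGroups

/-- `PSL₂(F)` has trivial centre when `2 ≠ 0`. -/
theorem center_PSL2_eq_bot {F : Type*} [Field F] (h2 : (2 : F) ≠ 0) :
    Subgroup.center (Matrix.ProjectiveSpecialLinearGroup (Fin 2) F) = ⊥ := by
  rw [Subgroup.eq_bot_iff_forall]
  intro x hx
  induction x using QuotientGroup.induction_on with
  | H g =>
    rw [QuotientGroup.eq_one_iff, H7.sl2_mem_center_iff]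
    have key : ∀ h : SL(2, F), ∃ ε : F, (ε = 1 ∨ ε = -1) ∧ (g * h).1 = ε • (h * g).1 := by
      intro h
      have h1 := Subgroup.mem_center_iff.mp hx (QuotientGroup.mk h)
      rw [← QuotientGroup.mk_mul, ← QuotientGroup.mk_mul, QuotientGroup.eq,
        H7.sl2_mem_center_iff] at h1
      obtain ⟨z01, z10, z00⟩ := h1
      set z := (h * g)⁻¹ * (g * h) with hz
      have hzdet := H7.sl2_det z
      rw [z01, zero_mul, sub_zero, ← z00] at hzdet
      obtain ⟨c, hc⟩ : ∃ c, z.1 0 0 = c := ⟨_, rfl⟩
      rw [hc] at hzdet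
      refine ⟨c, mul_self_eq_one_iff.mp hzdet, ?_⟩
      have e1 : g * h = (h * g) * z := by rw [hz]; group
      rw [e1, Matrix.SpecialLinearGroup.coe_mul]
      have e2 : z.1 = c • (1 : Matrix (Fin 2) (Fin 2) F) := by
        ext i j
        fin_cases i <;> fin_cases j <;> simp [z01, z10, ← z00, hc]
      rw [e2, Matrix.mul_smul, mul_one]
    have hdet := H7.sl2_det g
    obtain ⟨ε, hε, e1⟩ := key (H7.slUpper 1)
    obtain ⟨L, hL⟩ : ∃ L : SL(2, F), L.1 = !![1, 0; 1, 1] :=
      ⟨⟨!![1, 0; 1, 1], by simp [Matrix.det_fin_two_of]⟩, rfl⟩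
    obtain ⟨ε', hε', e2⟩ := key L
    have a1 := congrFun (congrFun e1 0) 0
    have a2 := congrFun (congrFun e1 0) 1
    have a3 := congrFun (congrFun e1 1) 0
    have b1 := congrFun (congrFun e2 0) 0
    have b2 := congrFun (congrFun e2 0) 1
    simp only [Matrix.smul_apply, smul_eq_mul, H7.sl2_mul_apply] at a1 a2 a3 b1 b2
    simp [H7.slUpper, hL] at a1 a2 a3 b1 b2
    have hc : g.1 1 0 = 0 ∧ g.1 0 0 = g.1 1 1 := by
      rcases hε with rfl | rfl
      · refine ⟨?_, ?_⟩
        · linear_combination -a1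
        · linear_combination a2
      · exfalso
        have hc0 : g.1 1 0 = 0 := by
          have : (2 : F) * g.1 1 0 = 0 := by linear_combination a3
          exact (mul_eq_zero.mp this).resolve_left h2
        have ha0 : g.1 0 0 = 0 := by
          have : (2 : F) * g.1 0 0 = 0 := by linear_combination a1 - hc0
          exact (mul_eq_zero.mp this).resolve_left h2
        rw [ha0, hc0] at hdet
        simp at hdet
    have hb : g.1 0 1 = 0 := by
      rcases hε' with rfl | rfl
      · linear_combination b1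
      · exfalso
        have hb0 : g.1 0 1 = 0 := by
          have : (2 : F) * g.1 0 1 = 0 := by linear_combination b2
          exact (mul_eq_zero.mp this).resolve_left h2
        have ha0 : g.1 0 0 = 0 := by
          have : (2 : F) * g.1 0 0 = 0 := by linear_combination b1 - hb0
          exact (mul_eq_zero.mp this).resolve_left h2
        rw [ha0, hb0] at hdet
        simp at hdet
    exact ⟨hb, hc.1, hc.2⟩

/-- PΩ_3(q) is isomorphic to PSL_2(q) for q odd. -/
theorem result {F : Type*} [Field F] [Fintype F] (hodd : Odd (Fintype.card F)) : Nonempty (Cfsg.POmega F (Cfsg.quadFormOdd 1 F) ≃* Matrix.ProjectiveSpecialLinearGroup (Fin 2) F) := by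
  classical
  have h2 : (2 : F) ≠ 0 := H7.two_ne_zero_of_odd_card hodd
  have hF : ∃ a : F, a ≠ 0 ∧ a ≠ 1 :=
    ⟨-1, neg_ne_zero.mpr one_ne_zero, fun h => h2 (by linear_combination -h)⟩
  let e1 : SL(2, F) ⧸ (H7.sigma3 hF).ker ≃* ↥(Omega F (quadFormOdd 1 F)) :=
    QuotientGroup.quotientKerEquivOfSurjective _ (H7.sigma3_surjective hodd hF)
  let e2 : Matrix.ProjectiveSpecialLinearGroup (Fin 2) F ≃* SL(2, F) ⧸ (H7.sigma3 hF).ker :=
    QuotientGroup.quotientMulEquivOfEq (H7.sigma3_ker hF).symm
  let e : Matrix.ProjectiveSpecialLinearGroup (Fin 2) F ≃* ↥(Omega F (quadFormOdd 1 F)) :=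
    e2.trans e1
  have hc : Subgroup.center (Omega F (quadFormOdd 1 F)) = ⊥ := by
    rw [Subgroup.eq_bot_iff_forall]
    intro c hc
    have h3 : e.symm c ∈ Subgroup.center (Matrix.ProjectiveSpecialLinearGroup (Fin 2) F) := by
      rw [Subgroup.mem_center_iff]
      intro y
      have h4 := Subgroup.mem_center_iff.mp hc (e y)
      apply e.injective
      rw [map_mul, map_mul, MulEquiv.apply_symm_apply, h4]
    rw [center_PSL2_eq_bot h2, Subgroup.mem_bot] at h3
    have h5 := congrArg e h3
    rw [MulEquiv.apply_symm_apply, map_one] at h5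
    exact h5
  exact ⟨((QuotientGroup.quotientMulEquivOfEq hc).trans QuotientGroup.quotientBot).trans e.symm⟩

end Cfsg.Agent.S0298
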