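import Mathlib
import Cfsg.Statements.S0292
import Cfsg.Agent.H7.OmegaCenter
import Cfsg.Agent.S0286

set_option autoImplicit false
open Cfsg

namespace Cfsg.Agent.S0292

open Matrix

/-- The centre of `Ω_{2m+1}(q)` is trivial for `q` odd, `m ≥ 2`. -/
theorem center_eq_bot {F : Type*} [Field F] (h2 : (2 : F) ≠ 0) (m : ℕ) (hm : 2 ≤ m) :
    Subgroup.center (Omega F ⇑(H7.qOdd m F)) = ⊥ := by
  classical
  rw [Subgroup.eq_bot_iff_forall]
  intro c hc
  have hz : H7.CentOmega (H7.qOdd m F) c.1 := by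
    intro h hh
    have := Subgroup.mem_center_iff.mp hc ⟨h, hh⟩
    exact congrArg Subtype.val this
  obtain ⟨l, hl⟩ := H7.cent_qOdd_scalar m h2 hm c.1 hz
  have h1 := Cfsg.Agent.H49.isometry_apply c.1 (Pi.single (Sum.inl ()) 1)
  rw [hl, Matrix.smul_mulVec, Matrix.one_mulVec, QuadraticMap.map_smul, H7.qOdd_zero] at h1
  have hl2 : l * l = 1 := by simpa using h1
  have hdet := H7.det_eq_one_of_mem_commutator (H7.qOdd m F) c.1 c.2
  rw [hl, Matrix.det_smul, Matrix.det_one] at hdet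
  simp only [Fintype.card_sum, Fintype.card_unit, Fintype.card_fin, mul_one] at hdet
  have hl1 : l = 1 := by
    rw [pow_add, pow_one, ← two_mul, pow_mul, pow_two, hl2, one_pow, mul_one] at hdet
    exact hdet
  apply Subtype.ext
  apply Subtype.ext
  apply Units.ext
  rw [hl, hl1, one_smul]
  rfl

/-- 2 |PΩ_{2m+1}(q)| = q^(m^2) prod_{i=1}^{m} (q^(2i) - 1), for q odd and m at least 3 (type B_m). -/
theorem result {F : Type*} [Field F] [Fintype F] {q : ℕ} (hF : Fintype.card F = q) (hodd : Odd q) (m : ℕ) (hm : 3 ≤ m) : 2 * Nat.card (Cfsg.POmega F (Cfsg.quadFormOdd m F)) = q ^ (m ^ 2) * ∏ i ∈ Finset.range m, (q ^ (2 * (i + 1)) - 1) := by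
  classical
  have h2 : (2 : F) ≠ 0 := H7.two_ne_zero_of_odd_card (by rw [hF]; exact hodd)
  have hO := Cfsg.Agent.S0286.result hF hodd m
  rw [← H7.qOdd_coe] at hO ⊢
  have hidx := Cfsg.Agent.H18.index_commutator (H7.qOdd m F) h2 (H7.qOdd_nondeg m h2) (by
    simp only [Fintype.card_sum, Fintype.card_unit, Fintype.card_fin]
    omega)
  have hcenter := center_eq_bot (F := F) h2 m (by omega)
  have h1 : Nat.card (POmega F ⇑(H7.qOdd m F)) = Nat.card (Omega F ⇑(H7.qOdd m F)) := by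
    have := Subgroup.card_eq_card_quotient_mul_card_subgroup
      (Subgroup.center (Omega F ⇑(H7.qOdd m F)))
    have hc1 : Nat.card (Subgroup.center (Omega F ⇑(H7.qOdd m F))) = 1 := by
      rw [hcenter, Subgroup.card_bot]
    rw [hc1, mul_one] at this
    exact this.symm
  have h3 : Nat.card (Omega F ⇑(H7.qOdd m F)) * 4 =
      Nat.card (isometryGroup F ⇑(H7.qOdd m F)) := by
    rw [← hidx]
    exact Subgroup.card_mul_index _
  rw [h1]
  rw [hO, mul_assoc] at h3
  omega

end Cfsg.Agent.S0292
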