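import Cfsg.Statements.S0088

set_option autoImplicit false
open Cfsg

namespace Cfsg.Agent.S0088

open scoped IsMulCommutative in
/-- An abelian Hall subgroup meets G' ∩ Z(G) trivially. -/
theorem result {G : Type*} [Group G] [Finite G] (H : Subgroup G) (hc : IsMulCommutative H) (hHall : Nat.Coprime (Nat.card H) H.index) : H ⊓ commutator G ⊓ Subgroup.center G = ⊥ := by
  rw [eq_bot_iff]
  rintro z ⟨⟨hzH, hzC⟩, hzZ⟩
  rw [Subgroup.mem_bot]
  have key : ∀ (k : ℕ) (g₀ : G), g₀⁻¹ * z ^ k * g₀ ∈ H → g₀⁻¹ * z ^ k * g₀ = z ^ k := by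
    intro k g₀ _
    have hzk : z ^ k ∈ Subgroup.center G := Subgroup.pow_mem _ hzZ k
    have := (Subgroup.mem_center_iff.mp hzk) g₀
    rw [mul_assoc, ← this, inv_mul_cancel_left]
  have h1 := MonoidHom.transfer_eq_pow (MonoidHom.id H) z key
  have h2 : MonoidHom.transfer (MonoidHom.id H) z = 1 :=
    Abelianization.commutator_subset_ker (MonoidHom.transfer (MonoidHom.id H)) hzC
  rw [h2] at h1
  have h3 : z ^ H.index = 1 := by
    have := congrArg (Subtype.val) h1
    simpa using this.symm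
  have h4 : z ^ Nat.card H = 1 := by
    have h40 : (⟨z, hzH⟩ : H) ^ Nat.card H = 1 := pow_card_eq_one'
    have h41 : ((⟨z, hzH⟩ : H) ^ Nat.card H : H).1 = z ^ Nat.card H := rfl
    rw [← h41, h40]; rfl
  have h5 : orderOf z ∣ Nat.gcd (Nat.card H) H.index :=
    Nat.dvd_gcd (orderOf_dvd_of_pow_eq_one h4) (orderOf_dvd_of_pow_eq_one h3)
  rw [hHall] at h5
  exact orderOf_eq_one_iff.mp (Nat.dvd_one.mp h5)

end Cfsg.Agent.S0088
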