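import Cfsg.Statements.S0105
import Cfsg.Agent.H3.AbelianSylow

set_option autoImplicit false
open Cfsg

namespace Cfsg.Agent.S0105

/-- With an abelian Sylow p-subgroup P, some quotient of G is isomorphic to the part of P central in N_G(P). -/
theorem result {G : Type*} [Group G] [Finite G] {p : ℕ} [Fact p.Prime] (P : Sylow p G) (hP : IsMulCommutative P) : ∃ (N : Subgroup G) (hN : N.Normal), Nonempty (G ⧸ N ≃* ((P : Subgroup G) ⊓ Subgroup.centralizer (Subgroup.normalizer (P : Set G) : Set G) : Subgroup G)) := by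
  have hbot := Cfsg.Agent.H3.focal_inf_central_eq_bot P hP
  have hsup := Cfsg.Agent.H3.le_focal_sup_central P hP
  set Z : Subgroup G := (P : Subgroup G) ⊓
    Subgroup.centralizer (Subgroup.normalizer ((P : Subgroup G) : Set G) : Set G) with hZ
  have hZP : Z ≤ (P : Subgroup G) := inf_le_left
  let e1 := Subgroup.transferFocal.quotientKerMulEquivQuotientFocalSubroupOf P
  let ψ : Z →* (P : Subgroup G) ⧸ (P : Subgroup G).focalSubgroupOf :=
    (QuotientGroup.mk' _).comp (Subgroup.inclusion hZP)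
  have hinj : Function.Injective ψ := by
    rw [← MonoidHom.ker_eq_bot_iff, eq_bot_iff]
    intro z hz
    rw [MonoidHom.mem_ker] at hz
    have h1 : Subgroup.inclusion hZP z ∈ (P : Subgroup G).focalSubgroupOf :=
      (QuotientGroup.eq_one_iff _).mp hz
    have h2 : (z : G) ∈ (P : Subgroup G).focalSubgroup := h1
    have h3 : (z : G) ∈ (P : Subgroup G).focalSubgroup ⊓ Z := Subgroup.mem_inf.mpr ⟨h2, z.2⟩
    rw [hbot, Subgroup.mem_bot] at h3
    rw [Subgroup.mem_bot]
    exact Subtype.ext h3
  have hsurj : Function.Surjective ψ := by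
    have h1 : ((P : Subgroup G).focalSubgroup ⊔ Z).subgroupOf (P : Subgroup G) = ⊤ :=
      Subgroup.subgroupOf_eq_top.mpr hsup
    rw [Subgroup.subgroupOf_sup (Subgroup.focalSubgroup_le _) hZP] at h1
    have h2 : ((P : Subgroup G).focalSubgroup.subgroupOf (P : Subgroup G) ⊔ Z.subgroupOf (P : Subgroup G)).map
        (QuotientGroup.mk' (P : Subgroup G).focalSubgroupOf) = ⊤ := by
      rw [h1]
      exact Subgroup.map_top_of_surjective _ (QuotientGroup.mk'_surjective _)
    rw [Subgroup.map_sup] at h2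
    have h3 : ((P : Subgroup G).focalSubgroup.subgroupOf (P : Subgroup G)).map
        (QuotientGroup.mk' (P : Subgroup G).focalSubgroupOf) = ⊥ := QuotientGroup.map_mk'_self _
    rw [h3, bot_sup_eq] at h2
    intro q
    have hq : q ∈ (Z.subgroupOf (P : Subgroup G)).map
        (QuotientGroup.mk' (P : Subgroup G).focalSubgroupOf) := by rw [h2]; trivial
    obtain ⟨y, hy, rfl⟩ := hq
    exact ⟨⟨(y : G), hy⟩, rfl⟩
  let e2 : Z ≃* (P : Subgroup G) ⧸ (P : Subgroup G).focalSubgroupOf :=
    MulEquiv.ofBijective ψ ⟨hinj, hsurj⟩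
  exact ⟨(P : Subgroup G).transferFocal.ker, inferInstance, ⟨e1.trans e2.symm⟩⟩

end Cfsg.Agent.S0105
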