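import Cfsg.Statements.S0808
import Cfsg.Agent.H18.KleinConj
import Cfsg.Agent.S0807

set_option autoImplicit false
open Cfsg

namespace Cfsg.Agent.S0808

open Matrix Cfsg.Agent.S0809 Cfsg.Agent.S0807 Cfsg.Agent.H18

section
variable {F : Type*} [Field F] [Fintype F]

omit [Fintype F] in
theorem inv_coe_of_trace_zero (g : Matrix.SpecialLinearGroup (Fin 2) F)
    (hg : (g : Matrix (Fin 2) (Fin 2) F).trace = 0) :
    ((g⁻¹ : Matrix.SpecialLinearGroup (Fin 2) F) : Matrix (Fin 2) (Fin 2) F) =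
      -(g : Matrix (Fin 2) (Fin 2) F) := by
  rw [trace_eq] at hg
  ext i j
  fin_cases i <;> fin_cases j
  · show (g⁻¹).1 0 0 = -(g.1 0 0)
    rw [Cfsg.Agent.H7.sl2_inv_00]; linear_combination hg
  · show (g⁻¹).1 0 1 = -(g.1 0 1)
    rw [Cfsg.Agent.H7.sl2_inv_01]
  · show (g⁻¹).1 1 0 = -(g.1 1 0)
    rw [Cfsg.Agent.H7.sl2_inv_10]
  · show (g⁻¹).1 1 1 = -(g.1 1 1)
    rw [Cfsg.Agent.H7.sl2_inv_11]; linear_combination hg

/-- an element centralising a quaternion pair is central -/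
theorem cent_pair (h2 : (2 : F) ≠ 0) (g h γ : Matrix.SpecialLinearGroup (Fin 2) F)
    (hg : (g : Matrix (Fin 2) (Fin 2) F).trace = 0) (hgh : h * g * h⁻¹ = g⁻¹)
    (c1 : γ * g * γ⁻¹ = g) (c2 : γ * h * γ⁻¹ = h) :
    γ ∈ Subgroup.center (Matrix.SpecialLinearGroup (Fin 2) F) := by
  have c1' : γ * g = g * γ := mul_inv_eq_iff_eq_mul.mp c1
  have c2' : γ * h = h * γ := mul_inv_eq_iff_eq_mul.mp c2
  have hm : ((γ * g : Matrix.SpecialLinearGroup (Fin 2) F) : Matrix (Fin 2) (Fin 2) F).trace = 0 := by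
    have e1 : h * (γ * g) * h⁻¹ = γ * g⁻¹ := by
      calc h * (γ * g) * h⁻¹ = (h * γ) * g * h⁻¹ := by group
        _ = (γ * h) * g * h⁻¹ := by rw [c2']
        _ = γ * (h * g * h⁻¹) := by group
        _ = γ * g⁻¹ := by rw [hgh]
    have e2 := Cfsg.Agent.H44.SL2_trace_of_isConj
      (isConj_iff.mpr ⟨h, rfl⟩ : IsConj (γ * g) (h * (γ * g) * h⁻¹))
    rw [e1] at e2
    have e3 : ((γ * g⁻¹ : Matrix.SpecialLinearGroup (Fin 2) F) : Matrix (Fin 2) (Fin 2) F) =
        -((γ * g : Matrix.SpecialLinearGroup (Fin 2) F) : Matrix (Fin 2) (Fin 2) F) := by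
      rw [Matrix.SpecialLinearGroup.coe_mul, inv_coe_of_trace_zero g hg, Matrix.mul_neg,
        ← Matrix.SpecialLinearGroup.coe_mul]
    rw [e3, Matrix.trace_neg] at e2
    have : 2 * ((γ * g : Matrix.SpecialLinearGroup (Fin 2) F) : Matrix (Fin 2) (Fin 2) F).trace = 0 := by
      linear_combination e2
    exact (mul_eq_zero.mp this).resolve_left h2
  have hmm := Cfsg.Agent.H46.sl2_sq_of_trace_zero (γ * g) hm
  have hgg := Cfsg.Agent.H46.sl2_sq_of_trace_zero g hg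
  have e3 : (γ * g) * (γ * g) = (γ * γ) * (g * g) := by
    calc (γ * g) * (γ * g) = γ * (g * γ) * g := by group
      _ = γ * (γ * g) * g := by rw [c1']
      _ = (γ * γ) * (g * g) := by group
  have e4 : γ * γ = 1 := by
    apply Subtype.ext
    have e5 : ((γ * g) * (γ * g) : Matrix.SpecialLinearGroup (Fin 2) F).1 =
        ((γ * γ) * (g * g) : Matrix.SpecialLinearGroup (Fin 2) F).1 := congrArg Subtype.val e3
    have e6 : ((γ * g) * (γ * g) : Matrix.SpecialLinearGroup (Fin 2) F).1 = -1 := hmm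
    have e7 : ((γ * γ) * (g * g) : Matrix.SpecialLinearGroup (Fin 2) F).1 =
        (γ * γ : Matrix.SpecialLinearGroup (Fin 2) F).1 * (-1) := by
      show (γ * γ : Matrix.SpecialLinearGroup (Fin 2) F).1 *
        (g * g : Matrix.SpecialLinearGroup (Fin 2) F).1 = _
      congr 1
    rw [e6, e7, Matrix.mul_neg, mul_one, neg_inj] at e5
    rw [← e5]
    rfl
  rcases eq_one_or_neg_of_sq h2 γ e4 with h1 | h1
  · rw [h1]; exact Subgroup.one_mem _
  · exact neg_one_mem_center γ h1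

theorem conj_dichotomy (hodd : Odd (Fintype.card F)) (g γ : Matrix.SpecialLinearGroup (Fin 2) F)
    (hg : (g : Matrix (Fin 2) (Fin 2) F).trace = 0)
    (hc : (QuotientGroup.mk γ : Matrix.ProjectiveSpecialLinearGroup (Fin 2) F) * QuotientGroup.mk g =
      QuotientGroup.mk g * QuotientGroup.mk γ) :
    γ * g * γ⁻¹ = g ∨ γ * g * γ⁻¹ = g⁻¹ := by
  have h2 : (2 : F) ≠ 0 := Cfsg.Agent.H7.two_ne_zero_of_odd_card hodd
  have hu : γ * g * γ⁻¹ * g⁻¹ ∈ Subgroup.center (Matrix.SpecialLinearGroup (Fin 2) F) := by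
    rw [← QuotientGroup.eq_one_iff]
    rw [QuotientGroup.mk_mul, QuotientGroup.mk_mul, QuotientGroup.mk_mul, QuotientGroup.mk_inv,
      QuotientGroup.mk_inv, hc]
    group
  have huu := Cfsg.Agent.H46.sl2_center_mul_self hu
  have hgg := Cfsg.Agent.H46.sl2_sq_of_trace_zero g hg
  rcases eq_one_or_neg_of_sq h2 _ huu with h1 | h1
  · left; exact mul_inv_eq_one.mp h1
  · right
    have hz : γ * g * γ⁻¹ * g⁻¹ = g * g := by
      apply Subtype.ext
      rw [h1, Matrix.SpecialLinearGroup.coe_mul, hgg]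
    rw [inv_eq_cube h2 g hg]
    rw [mul_inv_eq_iff_eq_mul] at hz
    rw [hz]

/-- the common centraliser of a pair of distinct commuting involutions is their four-group -/
theorem stab_mem (hodd : Odd (Fintype.card F))
    (x y c : Matrix.ProjectiveSpecialLinearGroup (Fin 2) F) (hxy : InvPair x y)
    (hcx : c * x = x * c) (hcy : c * y = y * c) :
    c = 1 ∨ c = x ∨ c = y ∨ c = x * y := by
  have h2 : (2 : F) ≠ 0 := Cfsg.Agent.H7.two_ne_zero_of_odd_card hodd
  obtain ⟨g, rfl⟩ := QuotientGroup.mk_surjective x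
  obtain ⟨h, rfl⟩ := QuotientGroup.mk_surjective y
  obtain ⟨γ, rfl⟩ := QuotientGroup.mk_surjective c
  have hg := (orderOf_mk_iff hodd g).mp hxy.1
  have hh := (orderOf_mk_iff hodd h).mp hxy.2.1
  have hgh : h * g * h⁻¹ = g⁻¹ := (anti_iff hodd g h hg).mpr hxy
  have hhg : g * h * g⁻¹ = h⁻¹ :=
    (anti_iff hodd h g hh).mpr ⟨hxy.2.1, hxy.1, hxy.2.2.1.symm, hxy.2.2.2.symm⟩
  have hgh' : h⁻¹ * g * h = g⁻¹ := by
    have : g = h⁻¹ * g⁻¹ * h := by rw [← hgh]; group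
    calc h⁻¹ * g * h = (h⁻¹ * g⁻¹ * h)⁻¹ := by group
      _ = g⁻¹ := by rw [← this]
  have hhg' : g⁻¹ * h * g = h⁻¹ := by
    have : h = g⁻¹ * h⁻¹ * g := by rw [← hhg]; group
    calc g⁻¹ * h * g = (g⁻¹ * h⁻¹ * g)⁻¹ := by group
      _ = h⁻¹ := by rw [← this]
  rcases conj_dichotomy hodd g γ hg hcx with a1 | a1 <;>
    rcases conj_dichotomy hodd h γ hh hcy with a2 | a2
  · left
    rw [QuotientGroup.eq_one_iff]
    exact cent_pair h2 g h γ hg hgh a1 a2
  · right; left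
    symm
    rw [QuotientGroup.eq]
    apply cent_pair h2 g h (g⁻¹ * γ) hg hgh
    · calc g⁻¹ * γ * g * (g⁻¹ * γ)⁻¹ = g⁻¹ * (γ * g * γ⁻¹) * g := by group
        _ = g⁻¹ * g * g := by rw [a1]
        _ = g := by group
    · calc g⁻¹ * γ * h * (g⁻¹ * γ)⁻¹ = g⁻¹ * (γ * h * γ⁻¹) * g := by group
        _ = g⁻¹ * h⁻¹ * g := by rw [a2]
        _ = (g⁻¹ * h * g)⁻¹ := by group
        _ = h := by rw [hhg', inv_inv]
  · right; right; left
    symm
    rw [QuotientGroup.eq]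
    apply cent_pair h2 g h (h⁻¹ * γ) hg hgh
    · calc h⁻¹ * γ * g * (h⁻¹ * γ)⁻¹ = h⁻¹ * (γ * g * γ⁻¹) * h := by group
        _ = h⁻¹ * g⁻¹ * h := by rw [a1]
        _ = (h⁻¹ * g * h)⁻¹ := by group
        _ = g := by rw [hgh', inv_inv]
    · calc h⁻¹ * γ * h * (h⁻¹ * γ)⁻¹ = h⁻¹ * (γ * h * γ⁻¹) * h := by group
        _ = h⁻¹ * h * h := by rw [a2]
        _ = h := by group
  · right; right; right
    symm
    rw [← QuotientGroup.mk_mul, QuotientGroup.eq]
    apply cent_pair h2 g h ((g * h)⁻¹ * γ) hg hgh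
    · calc (g * h)⁻¹ * γ * g * ((g * h)⁻¹ * γ)⁻¹ = h⁻¹ * (g⁻¹ * (γ * g * γ⁻¹) * g) * h := by group
        _ = h⁻¹ * (g⁻¹ * g⁻¹ * g) * h := by rw [a1]
        _ = (h⁻¹ * g * h)⁻¹ := by group
        _ = g := by rw [hgh', inv_inv]
    · calc (g * h)⁻¹ * γ * h * ((g * h)⁻¹ * γ)⁻¹ = h⁻¹ * (g⁻¹ * (γ * h * γ⁻¹) * g) * h := by group
        _ = h⁻¹ * (g⁻¹ * h⁻¹ * g) * h := by rw [a2]
        _ = h⁻¹ * (g⁻¹ * h * g)⁻¹ * h := by group
        _ = h⁻¹ * h * h := by rw [hhg', inv_inv]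
        _ = h := by group

theorem card_stab_le (hodd : Odd (Fintype.card F))
    (p : Matrix.ProjectiveSpecialLinearGroup (Fin 2) F × Matrix.ProjectiveSpecialLinearGroup (Fin 2) F)
    (hp : InvPair p.1 p.2) :
    Nat.card {c : Matrix.ProjectiveSpecialLinearGroup (Fin 2) F //
      c * p.1 = p.1 * c ∧ c * p.2 = p.2 * c} ≤ 4 := by
  rw [← card_pairSubgroup p.1 p.2 hp]
  apply Nat.card_le_card_of_injective
    (fun c : {c : Matrix.ProjectiveSpecialLinearGroup (Fin 2) F //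
      c * p.1 = p.1 * c ∧ c * p.2 = p.2 * c} =>
      (⟨c.1, stab_mem hodd p.1 p.2 c.1 hp c.2.1 c.2.2⟩ : pairSubgroup p.1 p.2 hp))
  intro a b hab
  apply Subtype.ext
  exact congrArg (fun z : pairSubgroup p.1 p.2 hp => (z : Matrix.ProjectiveSpecialLinearGroup (Fin 2) F)) hab

theorem card_pairs' (hodd : Odd (Fintype.card F)) :
    2 * Nat.card {p : Matrix.ProjectiveSpecialLinearGroup (Fin 2) F ×
        Matrix.ProjectiveSpecialLinearGroup (Fin 2) F // InvPair p.1 p.2} =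
      Nat.card (Matrix.ProjectiveSpecialLinearGroup (Fin 2) F) := by
  have h1 := card_pairs hodd
  have h2 := card_PSL2 hodd
  omega

/-- at most two classes -/
theorem three_kleinFour (hodd : Odd (Fintype.card F))
    (V₁ V₂ W : Subgroup (Matrix.ProjectiveSpecialLinearGroup (Fin 2) F))
    (h1 : IsKleinFour V₁) (h2 : IsKleinFour V₂) (h3 : IsKleinFour W) :
    (∃ g : Matrix.ProjectiveSpecialLinearGroup (Fin 2) F, V₂ = V₁.map (MulAut.conj g).toMonoidHom) ∨
    (∃ g : Matrix.ProjectiveSpecialLinearGroup (Fin 2) F, W = V₁.map (MulAut.conj g).toMonoidHom) ∨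
    (∃ g : Matrix.ProjectiveSpecialLinearGroup (Fin 2) F, W = V₂.map (MulAut.conj g).toMonoidHom) := by
  obtain ⟨x1, y1, hp1, rfl⟩ := exists_pair_of_kleinFour V₁ h1
  obtain ⟨x2, y2, hp2, rfl⟩ := exists_pair_of_kleinFour V₂ h2
  obtain ⟨x3, y3, hp3, rfl⟩ := exists_pair_of_kleinFour W h3
  have key := conj_of_three_pairs
    (fun p : Matrix.ProjectiveSpecialLinearGroup (Fin 2) F ×
        Matrix.ProjectiveSpecialLinearGroup (Fin 2) F => InvPair p.1 p.2)
    (fun g p hp => invPair_conj g p.1 p.2 hp) (card_pairs' hodd)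
    (fun p hp => card_stab_le hodd p hp) (x1, y1) (x2, y2) (x3, y3) hp1 hp2 hp3
  rcases key with ⟨g, hg⟩ | ⟨g, hg⟩ | ⟨g, hg⟩
  · left
    refine ⟨g, ?_⟩
    obtain ⟨rfl, rfl⟩ := Prod.mk.inj hg
    exact pairSubgroup_conj g x1 y1 hp1 hp2
  · right; left
    refine ⟨g, ?_⟩
    obtain ⟨rfl, rfl⟩ := Prod.mk.inj hg
    exact pairSubgroup_conj g x1 y1 hp1 hp3
  · right; right
    refine ⟨g, ?_⟩
    obtain ⟨rfl, rfl⟩ := Prod.mk.inj hg
    exact pairSubgroup_conj g x2 y2 hp2 hp3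


theorem card_mod8_35 (hq : Fintype.card F % 8 = 3 ∨ Fintype.card F % 8 = 5) :
    ∃ m : ℕ, Odd m ∧ Nat.card (Matrix.ProjectiveSpecialLinearGroup (Fin 2) F) = 4 * m := by
  have hodd : Odd (Fintype.card F) := by
    rw [Nat.odd_iff]; omega
  have h := Cfsg.Agent.H7.card_PSL2_odd hodd
  rcases hq with hq | hq
  · obtain ⟨k, hk⟩ : ∃ k, Fintype.card F = 8 * k + 3 := ⟨Fintype.card F / 8, by omega⟩
    rw [hk] at h
    have e : (8 * k + 3) ^ 2 - 1 = (8 * k + 2) * (8 * k + 4) := by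
      apply Nat.sub_eq_of_eq_add
      ring
    rw [e] at h
    refine ⟨(8 * k + 3) * ((4 * k + 1) * (2 * k + 1)), ?_, ?_⟩
    · exact Odd.mul ⟨4 * k + 1, by ring⟩ (Odd.mul ⟨2 * k, by ring⟩ ⟨k, by ring⟩)
    · apply Nat.eq_of_mul_eq_mul_left (by norm_num : 0 < 2)
      rw [h]
      ring
  · obtain ⟨k, hk⟩ : ∃ k, Fintype.card F = 8 * k + 5 := ⟨Fintype.card F / 8, by omega⟩
    rw [hk] at h
    have e : (8 * k + 5) ^ 2 - 1 = (8 * k + 4) * (8 * k + 6) := by
      apply Nat.sub_eq_of_eq_add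
      ring
    rw [e] at h
    refine ⟨(8 * k + 5) * ((2 * k + 1) * (4 * k + 3)), ?_, ?_⟩
    · exact Odd.mul ⟨4 * k + 2, by ring⟩ (Odd.mul ⟨k, by ring⟩ ⟨2 * k + 1, by ring⟩)
    · apply Nat.eq_of_mul_eq_mul_left (by norm_num : 0 < 2)
      rw [h]
      ring

theorem card_mod8_17 (hq : Fintype.card F % 8 = 1 ∨ Fintype.card F % 8 = 7) :
    2 ^ (2 + 1) ∣ Nat.card (Matrix.ProjectiveSpecialLinearGroup (Fin 2) F) := by
  have hodd : Odd (Fintype.card F) := by
    rw [Nat.odd_iff]; omega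
  have h := Cfsg.Agent.H7.card_PSL2_odd hodd
  rcases hq with hq | hq
  · obtain ⟨k, hk⟩ : ∃ k, Fintype.card F = 8 * k + 1 := ⟨Fintype.card F / 8, by omega⟩
    rw [hk] at h
    have e : (8 * k + 1) ^ 2 - 1 = (8 * k) * (8 * k + 2) := by
      apply Nat.sub_eq_of_eq_add
      ring
    rw [e] at h
    refine ⟨(8 * k + 1) * (k * (4 * k + 1)), ?_⟩
    apply Nat.eq_of_mul_eq_mul_left (by norm_num : 0 < 2)
    rw [h]
    ring
  · obtain ⟨k, hk⟩ : ∃ k, Fintype.card F = 8 * k + 7 := ⟨Fintype.card F / 8, by omega⟩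
    rw [hk] at h
    have e : (8 * k + 7) ^ 2 - 1 = (8 * k + 6) * (8 * k + 8) := by
      apply Nat.sub_eq_of_eq_add
      ring
    rw [e] at h
    refine ⟨(8 * k + 7) * ((4 * k + 3) * (k + 1)), ?_⟩
    apply Nat.eq_of_mul_eq_mul_left (by norm_num : 0 < 2)
    rw [h]
    ring

/-- one class when the Sylow 2-subgroups are four-groups -/
theorem part1 (hq : Fintype.card F % 8 = 3 ∨ Fintype.card F % 8 = 5)
    (V W : Subgroup (Matrix.ProjectiveSpecialLinearGroup (Fin 2) F))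
    (hV : IsKleinFour V) (hW : IsKleinFour W) :
    ∃ g : Matrix.ProjectiveSpecialLinearGroup (Fin 2) F, W = V.map (MulAut.conj g).toMonoidHom := by
  obtain ⟨m, hm, hcard⟩ := card_mod8_35 hq
  haveI : Fact (Nat.Prime 2) := ⟨Nat.prime_two⟩
  have hm0 : m ≠ 0 := by
    rintro rfl
    simp at hm
  have hfac : (Nat.card (Matrix.ProjectiveSpecialLinearGroup (Fin 2) F)).factorization 2 = 2 := by
    rw [hcard, Nat.factorization_mul (by norm_num) hm0, Finsupp.add_apply]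
    have e4 : (4 : ℕ) = 2 ^ 2 := by norm_num
    rw [e4, Nat.Prime.factorization_pow Nat.prime_two, Finsupp.single_eq_same,
      Nat.factorization_eq_zero_of_not_dvd]
    rw [Nat.two_dvd_ne_zero]
    exact Nat.odd_iff.mp hm
  have hcV : Nat.card V = 2 ^ (Nat.card (Matrix.ProjectiveSpecialLinearGroup (Fin 2) F)).factorization 2 := by
    rw [hfac, hV.card_four]; norm_num
  have hcW : Nat.card W = 2 ^ (Nat.card (Matrix.ProjectiveSpecialLinearGroup (Fin 2) F)).factorization 2 := by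
    rw [hfac, hW.card_four]; norm_num
  obtain ⟨g, hg⟩ := MulAction.exists_smul_eq (Matrix.ProjectiveSpecialLinearGroup (Fin 2) F)
    (Sylow.ofCard V hcV) (Sylow.ofCard W hcW)
  refine ⟨g, ?_⟩
  have := congrArg (fun R : Sylow 2 (Matrix.ProjectiveSpecialLinearGroup (Fin 2) F) =>
    (R : Subgroup (Matrix.ProjectiveSpecialLinearGroup (Fin 2) F))) hg
  exact this.symm

/-- not all four-groups are conjugate when `8 ∣ |G|` -/
theorem not_all_conj (hodd : Odd (Fintype.card F))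
    (hq : Fintype.card F % 8 = 1 ∨ Fintype.card F % 8 = 7)
    (V : Subgroup (Matrix.ProjectiveSpecialLinearGroup (Fin 2) F)) (hV : IsKleinFour V) :
    ∃ W : Subgroup (Matrix.ProjectiveSpecialLinearGroup (Fin 2) F), IsKleinFour W ∧
      ¬ ∃ g : Matrix.ProjectiveSpecialLinearGroup (Fin 2) F, W = V.map (MulAut.conj g).toMonoidHom := by
  by_contra hcon
  push Not at hcon
  haveI : Fact (Nat.Prime 2) := ⟨Nat.prime_two⟩
  have h8 := card_mod8_17 hq
  have hN := Sylow.prime_pow_dvd_card_normalizer h8 (H := V) (by rw [hV.card_four]; norm_num)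
  have hos := card_conj_mul_card_normalizer V
  have hcount := Cfsg.Agent.S0807.main hodd
  have e : Nat.card {W : Subgroup (Matrix.ProjectiveSpecialLinearGroup (Fin 2) F) //
        ∃ g : Matrix.ProjectiveSpecialLinearGroup (Fin 2) F, W = V.map (MulAut.conj g).toMonoidHom} =
      Nat.card {W : Subgroup (Matrix.ProjectiveSpecialLinearGroup (Fin 2) F) // IsKleinFour W} := by
    apply Nat.card_congr
    apply Equiv.subtypeEquivRight
    intro W
    constructor
    · rintro ⟨g, rfl⟩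
      exact isKleinFour_map_conj V hV g
    · intro hW
      exact hcon W hW
  rw [e] at hos
  have hpos : 0 < Nat.card (Matrix.ProjectiveSpecialLinearGroup (Fin 2) F) := Nat.card_pos
  have hkpos : 0 < Nat.card {W : Subgroup (Matrix.ProjectiveSpecialLinearGroup (Fin 2) F) //
      IsKleinFour W} := by
    by_contra h0
    have : Nat.card {W : Subgroup (Matrix.ProjectiveSpecialLinearGroup (Fin 2) F) //
      IsKleinFour W} = 0 := by omega
    rw [this] at hcount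
    omega
  have h12 : Nat.card (Subgroup.normalizer (V : Set (Matrix.ProjectiveSpecialLinearGroup (Fin 2) F))) = 12 := by
    apply Nat.eq_of_mul_eq_mul_left hkpos
    rw [hos, ← hcount, mul_comm]
  rw [h12] at hN
  norm_num at hN

theorem part2 (hodd : Odd (Fintype.card F))
    (hq : Fintype.card F % 8 = 1 ∨ Fintype.card F % 8 = 7) :
    ∃ V₁ V₂ : Subgroup (Matrix.ProjectiveSpecialLinearGroup (Fin 2) F),
      IsKleinFour V₁ ∧ IsKleinFour V₂ ∧
      (¬ ∃ g : Matrix.ProjectiveSpecialLinearGroup (Fin 2) F, V₂ = V₁.map (MulAut.conj g).toMonoidHom) ∧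
      ∀ W : Subgroup (Matrix.ProjectiveSpecialLinearGroup (Fin 2) F), IsKleinFour W →
        (∃ g : Matrix.ProjectiveSpecialLinearGroup (Fin 2) F, W = V₁.map (MulAut.conj g).toMonoidHom) ∨
        (∃ g : Matrix.ProjectiveSpecialLinearGroup (Fin 2) F, W = V₂.map (MulAut.conj g).toMonoidHom) := by
  have hcount := Cfsg.Agent.S0807.main hodd
  have hpos : 0 < Nat.card (Matrix.ProjectiveSpecialLinearGroup (Fin 2) F) := Nat.card_pos
  have hne : Nonempty {W : Subgroup (Matrix.ProjectiveSpecialLinearGroup (Fin 2) F) //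
      IsKleinFour W} := by
    by_contra h0
    rw [not_nonempty_iff] at h0
    rw [Nat.card_of_isEmpty] at hcount
    omega
  obtain ⟨⟨V₁, hV₁⟩⟩ := hne
  obtain ⟨V₂, hV₂, hnc⟩ := not_all_conj hodd hq V₁ hV₁
  refine ⟨V₁, V₂, hV₁, hV₂, hnc, ?_⟩
  intro W hW
  rcases three_kleinFour hodd V₁ V₂ W hV₁ hV₂ hW with h | h | h
  · exact absurd h hnc
  · left; exact h
  · right; exact h

end

theorem result {F : Type*} [Field F] [Fintype F] {q : ℕ} (hF : Fintype.card F = q) (hodd : Odd q) : ((q % 8 = 3 ∨ q % 8 = 5) → ∀ V W : Subgroup (Matrix.ProjectiveSpecialLinearGroup (Fin 2) F), IsKleinFour V → IsKleinFour W → ∃ g : Matrix.ProjectiveSpecialLinearGroup (Fin 2) F, W = V.map (MulAut.conj g).toMonoidHom) ∧ ((q % 8 = 1 ∨ q % 8 = 7) → ∃ V₁ V₂ : Subgroup (Matrix.ProjectiveSpecialLinearGroup (Fin 2) F), IsKleinFour V₁ ∧ IsKleinFour V₂ ∧ (¬ ∃ g : Matrix.ProjectiveSpecialLinearGroup (Fin 2) F, V₂ = V₁.map (MulAut.conj g).toMonoidHom)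 ∧ ∀ W : Subgroup (Matrix.ProjectiveSpecialLinearGroup (Fin 2) F), IsKleinFour W → (∃ g : Matrix.ProjectiveSpecialLinearGroup (Fin 2) F, W = V₁.map (MulAut.conj g).toMonoidHom) ∨ (∃ g : Matrix.ProjectiveSpecialLinearGroup (Fin 2) F, W = V₂.map (MulAut.conj g).toMonoidHom)) := by
  subst hF
  exact ⟨fun hq V W hV hW => part1 hq V W hV hW, fun hq => part2 hodd hq⟩

end Cfsg.Agent.S0808
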