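import Cfsg.Statements.S4501
import Cfsg.Agent.H2.BrDefs
import Cfsg.Agent.H2.BrKlein
import Cfsg.Agent.H3.BrKillK
import Cfsg.Agent.H3.BrArith4
import Cfsg.Agent.H34.BrCentralInv
import Cfsg.Agent.H54.BrFpfInv
import Cfsg.Agent.H54.BrTwoOdd
import Cfsg.Agent.H73.BrZ3
import Cfsg.Agent.H73.BrFaith
import Cfsg.Agent.H75.BrDeg3Cent
import Cfsg.Agent.H75.BrExc3
import Cfsg.Agent.H35.BrArith3
import Cfsg.Agent.H35.BrNoSix
import Cfsg.Agent.H86.BrDeg4
import Cfsg.Agent.H68.BrCent4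
import Cfsg.Agent.H68.BrCount3
import Cfsg.Agent.H25.BrFormula3
import Cfsg.Agent.H25.BrSmallP
import Cfsg.Agent.H4.BrAsm1
import Cfsg.Agent.H4.BrAsm2

set_option autoImplicit false
open Cfsg

namespace Cfsg.Agent.S4501

/-- Let G be a non-abelian finite simple group and p, q distinct primes. If the order of G is 4·p^a·q^b with a ≤ 2, then G is isomorphic to the alternating group of degree 5. If the order of G is 3·p^a·q^b with a ≤ 2, then G is isomorphic to the alternating group of degree 5 or to PSL(2,7). -/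
theorem result {G : Type*} [Group G] [Finite G] [IsSimpleGroup G] (hna : ∃ x y : G, x * y ≠ y * x) (p q a b : ℕ) (hp : p.Prime) (hq : q.Prime) (hpq : p ≠ q) (ha : a ≤ 2) : (Nat.card G = 4 * p ^ a * q ^ b → Nonempty (G ≃* alternatingGroup (Fin 5))) ∧ (Nat.card G = 3 * p ^ a * q ^ b → Nonempty (G ≃* alternatingGroup (Fin 5)) ∨ Nonempty (G ≃* Matrix.ProjectiveSpecialLinearGroup (Fin 2) (ZMod 7))) := by
  have hP1 := Cfsg.Agent.H4.Br.part1 Cfsg.Agent.H73.Br.faith Cfsg.Agent.H2.Br.klein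
    Cfsg.Agent.H3.Br.arith4 Cfsg.Agent.H68.Br.cent4 Cfsg.Agent.H54.Br.fpfInv
    Cfsg.Agent.H75.Br.deg3Cent Cfsg.Agent.H86.Br.deg4 Cfsg.Agent.H3.Br.killK
  have hP2 := Cfsg.Agent.H4.Br.part2 hP1 Cfsg.Agent.H73.Br.faith Cfsg.Agent.H75.Br.exc3
    (Cfsg.Agent.H25.Br.formula3 Cfsg.Agent.H73.Br.faith Cfsg.Agent.H68.Br.count3)
    Cfsg.Agent.H35.Br.arith3 Cfsg.Agent.H25.Br.smallP Cfsg.Agent.H34.Br.centralInv
    Cfsg.Agent.H35.Br.noSix Cfsg.Agent.H73.Br.z3 Cfsg.Agent.H54.Br.twoOdd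
  exact ⟨fun h => hP1 G hna p q a b hp hq hpq ha h, fun h => hP2 G hna p q a b hp hq hpq ha h⟩

end Cfsg.Agent.S4501
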