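import Cfsg.Statements.S2366
import Cfsg.Agent.H62.PSU3a
import Cfsg.Agent.H62.PSU3b
import Cfsg.Agent.H62.PSU3c
import Cfsg.Agent.H62.PSU3d
import Cfsg.Agent.H62.PSU3e
import Cfsg.Agent.H62.PSU3f

set_option autoImplicit false
open Cfsg

namespace Cfsg.Agent.S2366

/-- The set of element orders of PSU(3, q) for an odd prime power q = p^n: writing d = gcd(3, q + 1), a positive integer is the order of some element exactly when it divides one of q + 1, p(q + 1)/d, (q² − 1)/d, (q² − q + 1)/d. -/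
theorem result {F : Type*} [Field F] [Fintype F] (p : ℕ) [Fact p.Prime] [CharP F p] (hp : p ≠ 2) (q : ℕ) (hF : Fintype.card F = q ^ 2) :
    Set.range (orderOf : Cfsg.PSU 3 F q → ℕ) =
      {s : ℕ | s ∣ q + 1} ∪ {s : ℕ | s ∣ p * (q + 1) / Nat.gcd 3 (q + 1)} ∪
        {s : ℕ | s ∣ (q ^ 2 - 1) / Nat.gcd 3 (q + 1)} ∪ {s : ℕ | s ∣ (q ^ 2 - q + 1) / Nat.gcd 3 (q + 1)} := by
  have hpp : p.Prime := Fact.out
  obtain ⟨m, hq⟩ : ∃ m, q = p ^ m := by
    obtain ⟨n, hn⟩ := FiniteField.card F p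
    rw [hF] at hn
    have hdvd : q ∣ p ^ (n : ℕ) := ⟨q, by rw [← hn.2]; ring⟩
    obtain ⟨m, -, hm⟩ := (Nat.dvd_prime_pow hpp).1 hdvd
    exact ⟨m, hm⟩
  obtain ⟨hq3, hodd, hm, hp3, hFq, hFqq, hadd, hsub⟩ := Cfsg.Agent.H62.su3_basic p hp m q hq hF
  have hfin : Finite (Matrix.SpecialLinearGroup (Fin 3) F) := inferInstance
  apply Set.Subset.antisymm
  · rintro _ ⟨x, rfl⟩
    obtain ⟨g, rfl⟩ := QuotientGroup.mk_surjective x
    obtain ⟨N, c, hN, hc⟩ := Cfsg.Agent.H62.su3_pow_scalar p hp3 m hm q hq hFq _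
      (Cfsg.Agent.H62.su3_isU3 q (by omega) g)
    have hdvd : orderOf (QuotientGroup.mk g : Cfsg.PSU 3 F q) ∣ N :=
      orderOf_dvd_of_pow_eq_one (Cfsg.Agent.H62.psu3_pow_eq_one_of_scalar q g N c hc)
    rcases hN with rfl | rfl | rfl | rfl
    · left; left; left
      exact hdvd
    · left; left; right
      exact hdvd
    · left; right
      exact hdvd
    · right
      exact hdvd
  · intro s hs
    rcases hs with ((hs | hs) | hs) | hs
    · obtain ⟨x, hx⟩ := Cfsg.Agent.H62.psu3_exists_1 p hp m q hq hF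
      exact Cfsg.Agent.H62.exists_orderOf_of_dvd x s (dvd_trans hs hx) (orderOf_pos x)
    · obtain ⟨x, hx⟩ := Cfsg.Agent.H62.psu3_exists_2 p hp m q hq hF
      exact Cfsg.Agent.H62.exists_orderOf_of_dvd x s (dvd_trans hs hx) (orderOf_pos x)
    · obtain ⟨x, hx⟩ := Cfsg.Agent.H62.psu3_exists_3 p hp m q hq hF
      exact Cfsg.Agent.H62.exists_orderOf_of_dvd x s (dvd_trans hs hx) (orderOf_pos x)
    · obtain ⟨x, hx⟩ := Cfsg.Agent.H62.psu3_exists_4 p hp m q hq hF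
      exact Cfsg.Agent.H62.exists_orderOf_of_dvd x s (dvd_trans hs hx) (orderOf_pos x)

end Cfsg.Agent.S2366
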