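import Mathlib
import Cfsg.Statements.S2427
import Cfsg.Agent.H65.SL23

set_option autoImplicit false
open Cfsg

namespace Cfsg.Agent.S2427

open Cfsg.Agent.H65

theorem card_sylow_three (P : Sylow 3 (Matrix.SpecialLinearGroup (Fin 2) (ZMod 3))) :
    Nat.card (P : Subgroup (Matrix.SpecialLinearGroup (Fin 2) (ZMod 3))) = 3 := by
  have h24 : (24 : ℕ).factorization 3 = 1 := by
    have : (24 : ℕ) = 3 * 8 := by norm_num
    rw [this, Nat.factorization_mul (by norm_num) (by norm_num), Finsupp.add_apply,
      Nat.Prime.factorization_self Nat.prime_three,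
      Nat.factorization_eq_zero_of_not_dvd (by norm_num)]
  rw [P.card_eq_multiplicity, SL23.card_G3, h24, pow_one]

/-- The group SL₂ over the field with 3 elements has order 24 and centre of order 2; its commutator subgroup has order 8, is isomorphic to the quaternion group of order 8 and is complemented by every Sylow 3-subgroup (so the group is a semidirect product of a quaternion group of order 8 by a cyclic group of order 3); and its only normal subgroups besides the trivial subgroup and the whole group are the centre and the commutator subgroup. -/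
theorem result :
    Nat.card (Matrix.SpecialLinearGroup (Fin 2) (ZMod 3)) = 24 ∧
    Nat.card (Subgroup.center (Matrix.SpecialLinearGroup (Fin 2) (ZMod 3))) = 2 ∧
    Nat.card (commutator (Matrix.SpecialLinearGroup (Fin 2) (ZMod 3))) = 8 ∧
    Nonempty (commutator (Matrix.SpecialLinearGroup (Fin 2) (ZMod 3)) ≃* QuaternionGroup 2) ∧
    (∀ P : Sylow 3 (Matrix.SpecialLinearGroup (Fin 2) (ZMod 3)),
      Subgroup.IsComplement' (commutator (Matrix.SpecialLinearGroup (Fin 2) (ZMod 3)))
        (P : Subgroup (Matrix.SpecialLinearGroup (Fin 2) (ZMod 3)))) ∧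
    ∀ N : Subgroup (Matrix.SpecialLinearGroup (Fin 2) (ZMod 3)), N.Normal →
      N = ⊥ ∨ N = ⊤ ∨ N = Subgroup.center (Matrix.SpecialLinearGroup (Fin 2) (ZMod 3)) ∨
        N = commutator (Matrix.SpecialLinearGroup (Fin 2) (ZMod 3)) := by
  have hc : commutator (Matrix.SpecialLinearGroup (Fin 2) (ZMod 3)) = SL23.Q := SL23.commutator_eq
  refine ⟨SL23.card_G3, SL23.card_center, ?_, ?_, ?_, ?_⟩
  · rw [hc]
    exact SL23.card_Q
  · obtain ⟨e⟩ := SL23.Q_struct.2.2
    exact ⟨(MulEquiv.subgroupCongr hc).trans e⟩
  · intro P
    apply Subgroup.isComplement'_of_coprime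
    · rw [hc, SL23.card_Q, card_sylow_three P, SL23.card_G3]
    · rw [hc, SL23.card_Q, card_sylow_three P]
      norm_num
  · intro N hN
    rw [hc]
    exact SL23.normal_class N hN

end Cfsg.Agent.S2427
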