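import Mathlib
import Cfsg.Statements.S3742

set_option autoImplicit false
open Cfsg

namespace Cfsg.Agent.S3742
open QuaternionGroup

/-- the quaternion group of order 8 -/
abbrev Q := QuaternionGroup 2

/-- all elements of `Q` -/
def allQ : List Q := [a 0, a 1, a 2, a 3, xa 0, xa 1, xa 2, xa 3]

lemma mem_allQ (g : Q) : g ∈ allQ := by
  have h1 : ∀ i : ZMod 4, (a i : Q) ∈ allQ := by decide
  have h2 : ∀ i : ZMod 4, (xa i : Q) ∈ allQ := by decide
  cases g with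
  | a i => exact h1 i
  | xa i => exact h2 i

/-- the endomorphism candidate determined by the images of the generators -/
def F (x y : Q) : Q → Q
  | a i => x ^ i.val
  | xa i => y * x ^ i.val

/-- index of an element -/
def idx : Q → ℕ
  | a i => i.val
  | xa i => 4 + i.val

/-- the table of the isomorphism -/
def tab : List (List ℕ) :=
  [[0,1,2,3], [0,1,2,3], [0,1,2,3], [0,1,2,3], [0,1,2,3], [0,1,2,3], [0,1,2,3], [0,1,2,3],
  [0,1,2,3], [0,1,2,3], [0,1,2,3], [0,1,2,3], [0,1,2,3], [2,0,3,1], [3,2,1,0], [1,3,0,2],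
  [0,1,2,3], [0,1,2,3], [0,1,2,3], [0,1,2,3], [0,1,2,3], [0,1,2,3], [0,1,2,3], [0,1,2,3],
  [0,1,2,3], [0,1,2,3], [0,1,2,3], [0,1,2,3], [2,3,0,1], [3,1,2,0], [1,0,3,2], [0,2,1,3],
  [0,1,2,3], [1,0,2,3], [0,1,2,3], [3,2,0,1], [0,1,2,3], [0,3,1,2], [0,1,2,3], [2,1,3,0],
  [0,1,2,3], [0,2,3,1], [0,1,2,3], [1,3,2,0], [3,0,1,2], [0,1,2,3], [2,1,0,3], [0,1,2,3],
  [0,1,2,3], [2,3,1,0], [0,1,2,3], [0,1,3,2], [0,1,2,3], [1,2,0,3], [0,1,2,3], [3,0,2,1],
  [0,1,2,3], [3,1,0,2], [0,1,2,3], [2,0,1,3], [1,2,3,0], [0,1,2,3], [0,3,2,1], [0,1,2,3]]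

/-- the permutation of `Fin 4` attached to a pair of generator images -/
def T (x y : Q) (i : Fin 4) : Fin 4 :=
  Fin.ofNat 4 ((tab.getD (8 * idx x + idx y) []).getD i.val 0)

/-- the list of generator images of the automorphisms -/
def L : List (Q × Q) :=
  [(a 1, xa 0), (a 1, xa 1), (a 1, xa 2), (a 1, xa 3), (a 3, xa 0), (a 3, xa 1), (a 3, xa 2), (a 3, xa 3), (xa 0, a 1), (xa 0, a 3), (xa 0, xa 1), (xa 0, xa 3), (xa 1, a 1), (xa 1, a 3), (xa 1, xa 0), (xa 1, xa 2), (xa 2, a 1), (xa 2, a 3), (xa 2, xa 1), (xa 2, xa 3), (xa 3, a 1), (xa 3, a 3), (xa 3, xa 0), (xa 3, xa 2)]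

/-- the conditions on the images of the generators -/
def C (x y : Q) : Prop := x ^ 4 = 1 ∧ x ^ 2 ≠ 1 ∧ y ^ 2 = x ^ 2 ∧ y ≠ x ∧ y ≠ x ^ 3

instance (x y : Q) : Decidable (C x y) := by unfold C; infer_instance

set_option maxRecDepth 100000 in
lemma c1 : ∀ x ∈ allQ, ∀ y ∈ allQ, C x y → (x, y) ∈ L := by decide

set_option maxRecDepth 100000 in
lemma c2 : ∀ p ∈ L, ∀ g ∈ allQ, ∀ h ∈ allQ, F p.1 p.2 (g * h) = F p.1 p.2 g * F p.1 p.2 h := by
  decide

set_option maxRecDepth 100000 in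
lemma c3 : ∀ p ∈ L, ∀ g ∈ allQ, ∀ h ∈ allQ, F p.1 p.2 g = F p.1 p.2 h → g = h := by decide

set_option maxRecDepth 100000 in
lemma c4 : ∀ p ∈ L, ∀ q ∈ L, ∀ i : Fin 4,
    T (F p.1 p.2 q.1) (F p.1 p.2 q.2) i = T p.1 p.2 (T q.1 q.2 i) := by decide

set_option maxRecDepth 100000 in
lemma c5 : ∀ p ∈ L, ∀ q ∈ L, (∀ i : Fin 4, T p.1 p.2 i = T q.1 q.2 i) → p = q := by decide

set_option maxRecDepth 100000 in
lemma c6 : ∀ p ∈ L, ∀ i j : Fin 4, T p.1 p.2 i = T p.1 p.2 j → i = j := by decide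

lemma c8 (x y : Q) : F x y (a 1) = x ∧ F x y (xa 0) = y := by
  constructor
  · show x ^ (1 : ZMod (2 * 2)).val = x
    have : (1 : ZMod (2 * 2)).val = 1 := by decide
    rw [this, pow_one]
  · show y * x ^ (0 : ZMod (2 * 2)).val = y
    have : (0 : ZMod (2 * 2)).val = 0 := by decide
    rw [this, pow_zero, mul_one]

lemma L_nodup : L.Nodup := by decide

lemma L_length : L.length = 24 := by decide

/-- every automorphism is given by `F` -/
lemma aut_eq (φ : MulAut Q) (g : Q) : φ g = F (φ (a 1)) (φ (xa 0)) g := by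
  cases g with
  | a i =>
    show φ (a i) = (φ (a 1)) ^ i.val
    rw [← map_pow, a_one_pow]
    congr 2
    exact (ZMod.natCast_zmod_val i).symm
  | xa i =>
    show φ (xa i) = φ (xa 0) * (φ (a 1)) ^ i.val
    rw [← map_pow, ← map_mul, a_one_pow, xa_mul_a, zero_add]
    congr 2
    exact (ZMod.natCast_zmod_val i).symm

lemma pair_mem (φ : MulAut Q) : (φ (a 1), φ (xa 0)) ∈ L := by
  apply c1 _ (mem_allQ _) _ (mem_allQ _)
  have e1 : (a 1 : Q) ^ 4 = 1 := by decide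
  have e2 : (a 1 : Q) ^ 2 ≠ 1 := by decide
  have e3 : (xa 0 : Q) ^ 2 = (a 1 : Q) ^ 2 := by decide
  have e4 : (xa 0 : Q) ≠ a 1 := by decide
  have e5 : (xa 0 : Q) ≠ (a 1 : Q) ^ 3 := by decide
  refine ⟨?_, ?_, ?_, ?_, ?_⟩
  · rw [← map_pow, e1, map_one]
  · rw [← map_pow]
    intro h
    exact e2 (φ.injective (h.trans (map_one φ).symm))
  · rw [← map_pow, ← map_pow, e3]
  · intro h
    exact e4 (φ.injective h)
  · rw [← map_pow]
    intro h
    exact e5 (φ.injective h)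

/-- the automorphism attached to a pair in `L` -/
noncomputable def ψ (p : Q × Q) (hp : p ∈ L) : MulAut Q :=
  MulEquiv.ofBijective
    (MonoidHom.mk' (F p.1 p.2) (fun g h => c2 p hp g (mem_allQ g) h (mem_allQ h)))
    ((Finite.injective_iff_bijective).mp
      (fun g h hgh => c3 p hp g (mem_allQ g) h (mem_allQ h) hgh))

lemma ψ_apply (p : Q × Q) (hp : p ∈ L) (g : Q) : ψ p hp g = F p.1 p.2 g := rfl

/-- the permutation attached to an automorphism -/
noncomputable def Φ (φ : MulAut Q) : Equiv.Perm (Fin 4) :=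
  Equiv.ofBijective (T (φ (a 1)) (φ (xa 0)))
    ((Finite.injective_iff_bijective).mp (fun i j h => c6 _ (pair_mem φ) i j h))

lemma Φ_apply (φ : MulAut Q) (i : Fin 4) : Φ φ i = T (φ (a 1)) (φ (xa 0)) i := rfl

lemma Φ_mul (φ χ : MulAut Q) : Φ (φ * χ) = Φ φ * Φ χ := by
  ext i
  rw [Equiv.Perm.mul_apply, Φ_apply, Φ_apply, Φ_apply]
  have h := c4 _ (pair_mem φ) _ (pair_mem χ) i
  rw [MulAut.mul_apply, MulAut.mul_apply, aut_eq φ (χ (a 1)), aut_eq φ (χ (xa 0))]
  rw [h]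

lemma Φ_injective : Function.Injective Φ := by
  intro φ χ h
  have h1 : ∀ i : Fin 4, T (φ (a 1)) (φ (xa 0)) i = T (χ (a 1)) (χ (xa 0)) i := by
    intro i
    rw [← Φ_apply, ← Φ_apply, h]
  have h2 := c5 _ (pair_mem φ) _ (pair_mem χ) h1
  have h3 : φ (a 1) = χ (a 1) := congrArg Prod.fst h2
  have h4 : φ (xa 0) = χ (xa 0) := congrArg Prod.snd h2
  ext g
  rw [aut_eq φ g, aut_eq χ g, h3, h4]

lemma Φ_surjective : Function.Surjective Φ := by
  classical
  let f : Fin 24 → Equiv.Perm (Fin 4) := fun k =>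
    Φ (ψ (L.get (k.cast L_length.symm)) (List.get_mem _ _))
  have hf : Function.Injective f := by
    intro k k' h
    have h0 : Φ (ψ (L.get (k.cast L_length.symm)) (List.get_mem _ _))
        = Φ (ψ (L.get (k'.cast L_length.symm)) (List.get_mem _ _)) := h
    have h1 := Φ_injective h0
    have h2 : L.get (k.cast L_length.symm) = L.get (k'.cast L_length.symm) := by
      have ha := congrArg (fun φ : MulAut Q => φ (a 1)) h1
      have hb := congrArg (fun φ : MulAut Q => φ (xa 0)) h1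
      simp only [ψ_apply] at ha hb
      rw [(c8 _ _).1, (c8 _ _).1] at ha
      rw [(c8 _ _).2, (c8 _ _).2] at hb
      exact Prod.ext ha hb
    have h3 := (List.Nodup.get_inj_iff L_nodup).mp h2
    exact Fin.cast_injective _ h3
  have hcard : Fintype.card (Fin 24) = Fintype.card (Equiv.Perm (Fin 4)) := by
    rw [Fintype.card_perm, Fintype.card_fin, Fintype.card_fin]
    rfl
  have hbij := (Fintype.bijective_iff_injective_and_card f).mpr ⟨hf, hcard⟩
  intro σ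
  obtain ⟨k, hk⟩ := hbij.2 σ
  exact ⟨_, hk⟩

/-- The automorphism group of the quaternion group of order 8 is isomorphic to the symmetric group of degree 4. -/
theorem result : Nonempty (MulAut (QuaternionGroup 2) ≃* Equiv.Perm (Fin 4)) := by
  exact ⟨MulEquiv.ofBijective (MonoidHom.mk' Φ Φ_mul) ⟨Φ_injective, Φ_surjective⟩⟩

end Cfsg.Agent.S3742
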