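import Cfsg.Statements.S4400
import Mathlib
import Cfsg.Agent.H3.PGroup
import Cfsg.Agent.H38.PGroupBasic
import Cfsg.Agent.H1.Basic

set_option autoImplicit false
open Cfsg

namespace Cfsg.Agent.S4400


open scoped commutatorElement

/-- A proper subgroup has at most half the order. -/
theorem two_mul_card_le {S : Type*} [Group S] [Finite S] {H K : Subgroup S} (h : H < K) :
    2 * Nat.card H ≤ Nat.card K := by
  obtain ⟨k, hk⟩ := Subgroup.card_dvd_of_le h.le
  have hlt := H1.card_lt_card_of_lt h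
  have hpos : 0 < Nat.card H := Nat.card_pos
  rw [hk] at hlt ⊢
  have : 2 ≤ k := by
    by_contra hk2
    have : k = 0 ∨ k = 1 := by omega
    rcases this with rfl | rfl <;> simp at hlt
  nlinarith

/-- In a group of order two, every element is `1` or the given nonidentity element. -/
theorem eq_one_or_eq {Z : Type*} [Group Z] (hZ : Nat.card Z = 2) {z : Z} (hz : z ≠ 1) (w : Z) :
    w = 1 ∨ w = z := by
  obtain ⟨y, hy, hy'⟩ := (Nat.card_eq_two_iff' (1 : Z)).mp hZ
  by_cases hw : w = 1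
  · exact Or.inl hw
  · right
    rw [hy' w hw, hy' z hz]

/-- The Frattini subgroup of a non-abelian finite group has index at least four. -/
theorem four_mul_card_frattini_le {P : Type*} [Group P] [Finite P] (hP : ¬ IsMulCommutative P) :
    4 * Nat.card (frattini P) ≤ Nat.card P := by
  have hnt : Nontrivial P := by
    by_contra h
    rw [not_nontrivial_iff_subsingleton] at h
    exact hP ⟨⟨fun a b => Subsingleton.elim _ _⟩⟩
  obtain ⟨M₁, hM₁⟩ : ∃ M : Subgroup P, IsCoatom M := by
    obtain h | ⟨M, hM, _⟩ := eq_top_or_exists_le_coatom (⊥ : Subgroup P)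
    · exact absurd h bot_ne_top
    · exact ⟨M, hM⟩
  obtain ⟨x, hx⟩ : ∃ x, x ∉ M₁ := by
    by_contra h
    push Not at h
    exact hM₁.ne_top (eq_top_iff.mpr fun y _ => h y)
  have hx2 : Subgroup.zpowers x ≠ ⊤ := by
    intro h
    apply hP
    have : IsCyclic P := ⟨⟨x, fun y => by
      have : y ∈ Subgroup.zpowers x := by rw [h]; trivial
      exact this⟩⟩
    exact ⟨⟨IsCyclic.commGroup.mul_comm⟩⟩
  obtain h | ⟨M₂, hM₂, hle⟩ := eq_top_or_exists_le_coatom (Subgroup.zpowers x)
  · exact absurd h hx2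
  have hne : M₁ ≠ M₂ := by
    rintro rfl; exact hx (hle (Subgroup.mem_zpowers x))
  have h1 : frattini P ≤ M₁ ⊓ M₂ := le_inf (frattini_le_coatom hM₁) (frattini_le_coatom hM₂)
  have h2 : M₁ ⊓ M₂ < M₁ := by
    refine lt_of_le_of_ne inf_le_left fun h => ?_
    have h' : M₁ ≤ M₂ := by rw [← h]; exact inf_le_right
    exact hne ((hM₁.le_iff_eq hM₂.ne_top).mp h').symm
  have h3 : M₁ < ⊤ := hM₁.lt_top
  have c1 := two_mul_card_le h2
  have c2 := two_mul_card_le h3
  have c3 := Subgroup.card_le_of_le h1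
  rw [Subgroup.card_top] at c2
  omega

/-- In a non-abelian finite `p`-group with centre of order two, the centre lies in the Frattini
subgroup. -/
theorem center_le_frattini {P : Type*} [Group P] [Finite P] (h2 : IsPGroup 2 P)
    (hP : ¬ IsMulCommutative P) (hZ : Nat.card (Subgroup.center P) = 2) :
    Subgroup.center P ≤ frattini P := by
  have : Fact (Nat.Prime 2) := ⟨Nat.prime_two⟩
  have hc : commutator P ≠ ⊥ := by
    intro h
    apply hP
    refine ⟨⟨fun a b => ?_⟩⟩
    have h1 : ⁅a, b⁆ ∈ commutator P := by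
      rw [commutator_def]
      exact Subgroup.commutator_mem_commutator (Subgroup.mem_top a) (Subgroup.mem_top b)
    rw [h, Subgroup.mem_bot] at h1
    exact commutatorElement_eq_one_iff_mul_comm.mp h1
  obtain ⟨z, hzc, hzZ, hz1⟩ := H38.exists_mem_center_of_normal_ne_bot h2 (commutator P) hc
  intro w hw
  have hz1' : (⟨z, hzZ⟩ : Subgroup.center P) ≠ 1 := by
    intro h; exact hz1 (congrArg Subtype.val h)
  rcases eq_one_or_eq hZ hz1' ⟨w, hw⟩ with h | h
  · have : w = 1 := congrArg Subtype.val h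
    rw [this]; exact Subgroup.one_mem _
  · have : w = z := congrArg Subtype.val h
    rw [this]; exact H3.commutator_le_frattini h2 hzc

variable {S : Type*} [Group S] [Finite S]

/-- A normal subgroup of `S` meeting `P` nontrivially contains `Z(P)` when `Z(P)` has order 2. -/
theorem center_le_of_inf_ne_bot (h2 : IsPGroup 2 S) (P : Subgroup S)
    (hZP : Nat.card (Subgroup.center P) = 2) (K : Subgroup S) [K.Normal] (hK : P ⊓ K ≠ ⊥) :
    (Subgroup.center P).map P.subtype ≤ K := by
  have : Fact (Nat.Prime 2) := ⟨Nat.prime_two⟩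
  have hN : K.subgroupOf P ≠ ⊥ := by
    intro h
    apply hK
    rw [eq_bot_iff]
    intro g hg
    have : (⟨g, hg.1⟩ : P) ∈ K.subgroupOf P := hg.2
    rw [h, Subgroup.mem_bot] at this
    exact congrArg Subtype.val this
  obtain ⟨z, hzN, hzZ, hz1⟩ :=
    H38.exists_mem_center_of_normal_ne_bot (h2.to_subgroup P) (K.subgroupOf P) hN
  rintro _ ⟨w, hw, rfl⟩
  have hz1' : (⟨z, hzZ⟩ : Subgroup.center P) ≠ 1 := by
    intro h; exact hz1 (congrArg Subtype.val h)
  rcases eq_one_or_eq hZP hz1' ⟨w, hw⟩ with h | h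
  · have : w = 1 := congrArg Subtype.val h
    rw [this]; simp
  · have : w = z := congrArg Subtype.val h
    rw [this]; exact hzN

omit [Finite S] in
/-- `Z(P)` is central in `S` when `P` is normal and `Z(P)` has order 2. -/
theorem center_map_le_center (P : Subgroup S) [P.Normal]
    (hZP : Nat.card (Subgroup.center P) = 2) :
    (Subgroup.center P).map P.subtype ≤ Subgroup.center S := by
  have hn : ((Subgroup.center P).map P.subtype).Normal := inferInstance
  rintro _ ⟨w, hw, rfl⟩
  rw [Subgroup.mem_center_iff]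
  intro g
  by_cases hw1 : w = 1
  · rw [hw1]; simp
  have hw1' : (⟨w, hw⟩ : Subgroup.center P) ≠ 1 := by
    intro h; exact hw1 (congrArg Subtype.val h)
  have hmem : g * (P.subtype w) * g⁻¹ ∈ (Subgroup.center P).map P.subtype :=
    hn.conj_mem _ ⟨w, hw, rfl⟩ g
  obtain ⟨v, hv, hveq⟩ := hmem
  rcases eq_one_or_eq hZP hw1' ⟨v, hv⟩ with h | h
  · have hv1 : v = 1 := congrArg Subtype.val h
    rw [hv1, map_one] at hveq
    exfalso
    apply hw1
    have h3 : P.subtype w = 1 := by
      have := congrArg (fun t => g⁻¹ * t * g) hveq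
      simp only [mul_one, inv_mul_cancel] at this
      rw [this]; group
    exact Subtype.ext (by simpa using h3)
  · have hvw : v = w := congrArg Subtype.val h
    rw [hvw] at hveq
    calc g * P.subtype w = g * P.subtype w * g⁻¹ * g := by group
      _ = P.subtype w * g := by rw [← hveq]

theorem inf_eq_bot (h2 : IsPGroup 2 S) (P Q : Subgroup S) [P.Normal] [Q.Normal]
    (hZP : Nat.card (Subgroup.center P) = 2) (hZQ : Nat.card (Subgroup.center Q) = 2)
    (hne : (Subgroup.center P).map P.subtype ≠ (Subgroup.center Q).map Q.subtype) :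
    P ⊓ Q = ⊥ := by
  by_contra h
  apply hne
  have h1 : (Subgroup.center P).map P.subtype ≤ Q := center_le_of_inf_ne_bot h2 P hZP Q h
  have h3 := center_map_le_center P hZP
  have hle : (Subgroup.center P).map P.subtype ≤ (Subgroup.center Q).map Q.subtype := by
    intro w hw
    have hwQ : w ∈ Q := h1 hw
    have hwc := h3 hw
    refine ⟨⟨w, hwQ⟩, ?_, rfl⟩
    show (⟨w, hwQ⟩ : Q) ∈ Subgroup.center Q
    rw [Subgroup.mem_center_iff]
    intro g
    apply Subtype.ext
    have := Subgroup.mem_center_iff.mp hwc (g : S)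
    simpa using this
  apply Subgroup.eq_of_le_of_card_ge hle
  rw [Subgroup.card_map_of_injective P.subtype_injective,
    Subgroup.card_map_of_injective Q.subtype_injective, hZP, hZQ]



omit [Finite S] in
/-- In a `2`-group, a subgroup `C` not contained in `N` has an element outside `N` whose square
lies in `N`. -/
theorem exists_sq_mem (h2 : IsPGroup 2 S) (N C : Subgroup S) (h : ¬ C ≤ N) :
    ∃ c ∈ C, c ∉ N ∧ c ^ 2 ∈ N := by
  obtain ⟨c₀, hc₀, hc₀N⟩ := SetLike.not_le_iff_exists.mp h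
  obtain ⟨k, hk⟩ := h2 c₀
  have hex : ∃ j, c₀ ^ 2 ^ j ∈ N := ⟨k, by rw [hk]; exact N.one_mem⟩
  classical
  have hj := Nat.find_spec hex
  have hj0 : Nat.find hex ≠ 0 := by
    intro h0
    rw [h0] at hj
    simp at hj
    exact hc₀N hj
  obtain ⟨j', hj'⟩ := Nat.exists_eq_succ_of_ne_zero hj0
  refine ⟨c₀ ^ 2 ^ j', C.pow_mem hc₀ _, ?_, ?_⟩
  · exact Nat.find_min hex (by omega)
  · rw [← pow_mul, ← pow_succ, ← Nat.succ_eq_add_one, ← hj']
    exact hj

theorem centralizer_le (h2 : IsPGroup 2 S) (hr : Cfsg.SectionalPRankLE 2 4 S)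
    (P Q : Subgroup S) [P.Normal] [Q.Normal] (hP : ¬ IsMulCommutative ↥P)
    (hQ : ¬ IsMulCommutative ↥Q)
    (hZP : Nat.card ↥(Subgroup.center ↥P) = 2) (hZQ : Nat.card ↥(Subgroup.center ↥Q) = 2)
    (hinf : P ⊓ Q = ⊥) (hcomm : ⁅P, Q⁆ = ⊥) :
    Subgroup.centralizer ((P ⊔ Q : Subgroup S) : Set S) ≤ P ⊔ Q := by
  have : Fact (Nat.Prime 2) := ⟨Nat.prime_two⟩
  by_contra hcon
  obtain ⟨c, hcC, hcN, hc2⟩ := exists_sq_mem h2 (P ⊔ Q) _ hcon
  have hPQ : ∀ x ∈ P, ∀ y ∈ Q, x * y = y * x := by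
    intro x hx y hy
    have := Subgroup.commutator_eq_bot_iff_le_centralizer.mp hcomm hx
    exact (Subgroup.mem_centralizer_iff.mp this y hy).symm
  have hcc : ∀ n ∈ P ⊔ Q, n * c = c * n := fun n hn => Subgroup.mem_centralizer_iff.mp hcC n hn
  have hΦPn : ((frattini P).map P.subtype).Normal := inferInstance
  have hΦQn : ((frattini Q).map Q.subtype).Normal := inferInstance
  have hΦPle : (frattini P).map P.subtype ≤ P := by rintro _ ⟨w, _, rfl⟩; exact w.2
  have hΦQle : (frattini Q).map Q.subtype ≤ Q := by rintro _ ⟨w, _, rfl⟩; exact w.2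
  have hsqP : ∀ x ∈ P, x ^ 2 ∈ (frattini P).map P.subtype := by
    intro x hx
    exact ⟨⟨x, hx⟩ ^ 2, H3.pow_mem_frattini (h2.to_subgroup P) ⟨x, hx⟩, rfl⟩
  have hsqQ : ∀ y ∈ Q, y ^ 2 ∈ (frattini Q).map Q.subtype := by
    intro y hy
    exact ⟨⟨y, hy⟩ ^ 2, H3.pow_mem_frattini (h2.to_subgroup Q) ⟨y, hy⟩, rfl⟩
  have hZPle : ∀ x (hx : x ∈ P), (∀ g ∈ P, g * x = x * g) → x ∈ (frattini P).map P.subtype := by
    intro x hx hg
    refine ⟨⟨x, hx⟩, center_le_frattini (h2.to_subgroup P) hP hZP ?_, rfl⟩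
    rw [Subgroup.mem_center_iff]
    intro g
    exact Subtype.ext (hg g g.2)
  have hZQle : ∀ x (hx : x ∈ Q), (∀ g ∈ Q, g * x = x * g) → x ∈ (frattini Q).map Q.subtype := by
    intro x hx hg
    refine ⟨⟨x, hx⟩, center_le_frattini (h2.to_subgroup Q) hQ hZQ ?_, rfl⟩
    rw [Subgroup.mem_center_iff]
    intro g
    exact Subtype.ext (hg g g.2)
  -- the square of `c` lies in `Φ(P)Φ(Q)`
  have hc2' : c ^ 2 ∈ (frattini P).map P.subtype ⊔ (frattini Q).map Q.subtype := by
    obtain ⟨x, hx, y, hy, hxy⟩ := Subgroup.mem_sup_of_normal_right.mp hc2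
    have hcg : ∀ g ∈ P ⊔ Q, g * (x * y) = (x * y) * g := by
      intro g hg
      rw [hxy, sq, ← mul_assoc, hcc g hg, mul_assoc, hcc g hg, mul_assoc]
    rw [← hxy]
    refine Subgroup.mul_mem_sup (hZPle x hx fun g hg => ?_) (hZQle y hy fun g hg => ?_)
    · have h1 := hcg g (Subgroup.mem_sup_left hg)
      have h2' := hPQ g hg y hy
      apply mul_right_cancel (b := y)
      rw [mul_assoc, h1, mul_assoc, mul_assoc, h2']
    · have h1 := hcg g (Subgroup.mem_sup_right hg)
      have h2' := hPQ x hx g hg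
      apply mul_left_cancel (a := x)
      rw [← mul_assoc, ← mul_assoc, h2', mul_assoc, h1]
  set N' : Subgroup S := (frattini P).map P.subtype ⊔ (frattini Q).map Q.subtype with hN'
  have hN'n : N'.Normal := inferInstance
  set T : Subgroup S := (P ⊔ Q) ⊔ Subgroup.zpowers c with hTdef
  have hT : ∀ t ∈ T, t ^ 2 ∈ N' := by
    intro t ht
    obtain ⟨n, hn, z, hz, rfl⟩ := Subgroup.mem_sup_of_normal_left.mp ht
    obtain ⟨i, rfl⟩ := Subgroup.mem_zpowers_iff.mp hz
    obtain ⟨x, hx, y, hy, rfl⟩ := Subgroup.mem_sup_of_normal_right.mp hn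
    have h1 : Commute (x * y) (c ^ i) := Commute.zpow_right (hcc _ hn) i
    rw [h1.mul_pow, (show Commute x y from hPQ x hx y hy).mul_pow]
    refine Subgroup.mul_mem _ (Subgroup.mul_mem_sup (hsqP x hx) (hsqQ y hy)) ?_
    have h3 : (c ^ i) ^ 2 = (c ^ 2) ^ i := by
      rw [← zpow_natCast (c ^ i) 2, ← zpow_mul, mul_comm, zpow_mul, zpow_natCast]
    rw [h3]
    exact Subgroup.zpow_mem _ hc2' i
  have hN'T : N' ≤ T :=
    le_trans (sup_le_sup hΦPle hΦQle) le_sup_left
  have hexp : ∀ a : T ⧸ N'.subgroupOf T, a ^ 2 = 1 := by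
    intro a
    induction a using QuotientGroup.induction_on with
    | H t =>
      rw [← QuotientGroup.mk_pow, QuotientGroup.eq_one_iff, Subgroup.mem_subgroupOf]
      simpa using hT t t.2
  have hcommG : ∀ a b : T ⧸ N'.subgroupOf T, a * b = b * a := by
    intro a b
    have hinv : ∀ a : T ⧸ N'.subgroupOf T, a⁻¹ = a := fun a =>
      inv_eq_of_mul_eq_one_left (by rw [← sq]; exact hexp a)
    calc a * b = (a * b)⁻¹ := (hinv _).symm
      _ = b⁻¹ * a⁻¹ := mul_inv_rev a b
      _ = b * a := by rw [hinv, hinv]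
  have hrk := hr T (N'.subgroupOf T) ⊤ ⟨⟨fun a b => Subtype.ext (hcommG a b)⟩⟩
    (fun a _ => hexp a)
  rw [Subgroup.card_top] at hrk
  have hcard1 : Nat.card T = Nat.card (T ⧸ N'.subgroupOf T) * Nat.card (N'.subgroupOf T) :=
    Subgroup.card_eq_card_quotient_mul_card_subgroup _
  have hK : Nat.card (N'.subgroupOf T) = Nat.card N' :=
    Nat.card_congr (Subgroup.subgroupOfEquivOfLe hN'T).toEquiv
  have hN'c : Nat.card N' = Nat.card (frattini P) * Nat.card (frattini Q) := by
    rw [hN', H1.card_sup_of_disjoint_normal _ _ (by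
      rw [eq_bot_iff, ← hinf]; exact inf_le_inf hΦPle hΦQle),
      Subgroup.card_map_of_injective P.subtype_injective,
      Subgroup.card_map_of_injective Q.subtype_injective]
  have c4P := four_mul_card_frattini_le hP
  have c4Q := four_mul_card_frattini_le hQ
  have hNc : Nat.card (P ⊔ Q : Subgroup S) = Nat.card P * Nat.card Q :=
    H1.card_sup_of_disjoint_normal P Q hinf
  have hlt : P ⊔ Q < T := by
    refine lt_of_le_of_ne le_sup_left fun h => hcN ?_
    rw [h]
    exact Subgroup.mem_sup_right (Subgroup.mem_zpowers c)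
  have hT2 := two_mul_card_le hlt
  have hposP : 0 < Nat.card (frattini P) := Nat.card_pos
  have hposQ : 0 < Nat.card (frattini Q) := Nat.card_pos
  have h16 : 16 * (Nat.card (frattini P) * Nat.card (frattini Q)) ≤ Nat.card P * Nat.card Q := by
    have := Nat.mul_le_mul c4P c4Q
    nlinarith
  have hpos : 0 < Nat.card (frattini P) * Nat.card (frattini Q) := Nat.mul_pos hposP hposQ
  rw [hK, hN'c] at hcard1
  rw [hNc] at hT2
  have hle : Nat.card (T ⧸ N'.subgroupOf T) * (Nat.card (frattini P) * Nat.card (frattini Q))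
      ≤ 16 * (Nat.card (frattini P) * Nat.card (frattini Q)) :=
    Nat.mul_le_mul_right _ (by simpa using hrk)
  nlinarith

/-- Let S be a finite 2-group of sectional 2-rank at most 4, and let P and Q be normal non-abelian subgroups of S whose centres have order 2 and are different. Then P and Q commute elementwise and intersect trivially, and PQ contains its own centralizer in S. -/
theorem result {S : Type*} [Group S] [Finite S] (h2 : IsPGroup 2 S) (hr : Cfsg.SectionalPRankLE 2 4 S)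
    (P Q : Subgroup S) [P.Normal] [Q.Normal] (hP : ¬ IsMulCommutative ↥P) (hQ : ¬ IsMulCommutative ↥Q)
    (hZP : Nat.card ↥(Subgroup.center ↥P) = 2) (hZQ : Nat.card ↥(Subgroup.center ↥Q) = 2)
    (hne : (Subgroup.center ↥P).map P.subtype ≠ (Subgroup.center ↥Q).map Q.subtype) :
    ⁅P, Q⁆ = ⊥ ∧ P ⊓ Q = ⊥ ∧ Subgroup.centralizer ((P ⊔ Q : Subgroup S) : Set S) ≤ P ⊔ Q := by
  have hinf := inf_eq_bot h2 P Q hZP hZQ hne
  have hcomm : ⁅P, Q⁆ = ⊥ := by
    rw [eq_bot_iff, ← hinf]; exact Subgroup.commutator_le_inf P Q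
  exact ⟨hcomm, hinf, centralizer_le h2 hr P Q hP hQ hZP hZQ hinf hcomm⟩

end Cfsg.Agent.S4400
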