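import Cfsg.Statements.S0711
import Cfsg.Agent.H16.JordanCycle

set_option autoImplicit false
open Cfsg

namespace Cfsg.Agent.S0711

open Equiv Equiv.Perm MulAction

variable {α : Type*} [Fintype α] [DecidableEq α]

/-- In a `k`-transitive group one can prescribe a transposition on a set of at most `k` points. -/
theorem exists_mem_swap_on (G : Subgroup (Equiv.Perm α)) {k : ℕ} (hkn : k ≤ Fintype.card α)
    (hG : IsMultiplyPretransitive G α k) (P : Finset α) (hP : P.card ≤ k) (u u' : α) :
    ∃ x ∈ G, ∀ z ∈ P, x z = swap u u' z := by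
  have : IsMultiplyPretransitive G α P.card :=
    isMultiplyPretransitive_of_le (n := k) hP (by rw [Nat.card_eq_fintype_card]; exact hkn)
  exact Cfsg.Agent.H16.exists_mem_eq_on_finset G P rfl this (swap u u')

/-- The commutator of `g` with an element `x` acting as a transposition on a suitable set is
non-trivial and has small support. -/
theorem comm_bound (g x : Equiv.Perm α) (F P : Finset α) (y u u' : α)
    (hy : y ∈ F) (hgy : g y = u) (huF : u ∉ F)
    (hexit : ∀ z ∈ F, z ≠ y → g z ∈ F) (hFP : F ⊆ P) (hu'F : u' ∉ F) (huu' : u ≠ u')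
    (hx : ∀ z ∈ P, x z = swap u u' z) (huP : u ∈ P) :
    g⁻¹ * x⁻¹ * g * x ≠ 1 ∧ (g⁻¹ * x⁻¹ * g * x).support ⊆
      (g.support \ F.erase y) ∪ (Finset.univ.filter fun z => z ∉ g.support ∧ x z ∈ g.support) := by
  have hxF : ∀ z ∈ F, x z = z := by
    intro z hz
    rw [hx z (hFP hz)]
    exact swap_apply_of_ne_of_ne (fun h => huF (h ▸ hz)) (fun h => hu'F (h ▸ hz))
  have hxu : x u = u' := by rw [hx u huP, swap_apply_left]
  constructor
  · intro h1
    have h2 := congrArg (fun f : Equiv.Perm α => f y) h1
    simp only [Equiv.Perm.mul_apply, Equiv.Perm.one_apply] at h2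
    rw [hxF y hy, hgy, Equiv.Perm.inv_eq_iff_eq, hgy, Equiv.Perm.inv_eq_iff_eq, hxu] at h2
    exact huu' h2
  · intro z hz
    rw [Equiv.Perm.mem_support] at hz
    by_contra hcon
    apply hz
    rw [Finset.mem_union, not_or] at hcon
    obtain ⟨h1, h2⟩ := hcon
    simp only [Equiv.Perm.mul_apply]
    by_cases hzA : z ∈ g.support
    · have hzF' : z ∈ F.erase y := by
        by_contra hne
        exact h1 (Finset.mem_sdiff.mpr ⟨hzA, hne⟩)
      obtain ⟨hzy, hzF⟩ := Finset.mem_erase.mp hzF'
      have hgz : g z ∈ F := hexit z hzF hzy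
      rw [hxF z hzF, Equiv.Perm.inv_eq_iff_eq, Equiv.Perm.inv_eq_iff_eq, hxF _ hgz]
    · have hxz : x z ∉ g.support := by
        intro hxz
        exact h2 (Finset.mem_filter.mpr ⟨Finset.mem_univ _, hzA, hxz⟩)
      rw [Equiv.Perm.notMem_support] at hxz hzA
      rw [hxz, Equiv.Perm.inv_eq_iff_eq, Equiv.Perm.inv_eq_iff_eq, hzA]

/-- Cardinality form of `comm_bound`. -/
theorem comm_card (g x : Equiv.Perm α) (F P P' : Finset α) (y u u' : α)
    (hFA : F ⊆ g.support) (hy : y ∈ F) (hgy : g y = u) (huF : u ∉ F)
    (hexit : ∀ z ∈ F, z ≠ y → g z ∈ F) (hFP : F ⊆ P) (hu'F : u' ∉ F) (huu' : u ≠ u')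
    (hx : ∀ z ∈ P, x z = swap u u' z) (huP : u ∈ P)
    (hP'A : P' ⊆ g.support) (hxP' : ∀ z ∈ P', x z ∈ g.support) :
    g⁻¹ * x⁻¹ * g * x ≠ 1 ∧
      (g⁻¹ * x⁻¹ * g * x).support.card + F.card + P'.card ≤ 2 * g.support.card + 1 := by
  obtain ⟨h1, h2⟩ := comm_bound g x F P y u u' hy hgy huF hexit hFP hu'F huu' hx huP
  refine ⟨h1, ?_⟩
  set Q := Finset.univ.filter fun z => z ∉ g.support ∧ x z ∈ g.support with hQ
  have hc1 : (g.support \ F.erase y).card + (F.card - 1) = g.support.card := by
    rw [← Finset.card_erase_of_mem hy]
    exact Finset.card_sdiff_add_card_eq_card ((Finset.erase_subset y F).trans hFA)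
  have hFpos : 1 ≤ F.card := Finset.card_pos.mpr ⟨y, hy⟩
  have hc2 : Q.card + P'.card ≤ g.support.card := by
    have hdisj : Disjoint Q P' := by
      rw [Finset.disjoint_left]
      intro z hzQ hzP
      exact (Finset.mem_filter.mp hzQ).2.1 (hP'A hzP)
    rw [← Finset.card_union_of_disjoint hdisj]
    apply Finset.card_le_card_of_injOn (fun z => x z)
    · intro z hz
      rcases Finset.mem_union.mp (Finset.mem_coe.mp hz) with hz | hz
      · exact (Finset.mem_filter.mp hz).2.2
      · exact hxP' z hz
    · intro a _ b _ hab
      exact x.injective hab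
  have hc3 := Finset.card_le_card h2
  have hc4 := Finset.card_union_le (g.support \ F.erase y) Q
  omega

/-- Sets with at most one exit point under `g`, of every size up to the size of the support. -/
theorem exists_chain (g : Equiv.Perm α) : ∀ f : ℕ, f ≤ g.support.card →
    ∃ F : Finset α, F ⊆ g.support ∧ F.card = f ∧
      ∀ z ∈ F, ∀ z' ∈ F, g z ∉ F → g z' ∉ F → z = z' := by
  intro f
  induction f with
  | zero =>
    intro _
    exact ⟨∅, Finset.empty_subset _, rfl, fun z hz => absurd hz (Finset.notMem_empty z)⟩
  | succ f ih =>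
    intro hf
    obtain ⟨F, hFA, hFc, hF⟩ := ih (by omega)
    by_cases hex : ∃ y ∈ F, g y ∉ F
    · obtain ⟨y, hy, hgy⟩ := hex
      refine ⟨insert (g y) F, ?_, ?_, ?_⟩
      · intro z hz
        rcases Finset.mem_insert.mp hz with rfl | hz
        · exact Equiv.Perm.apply_mem_support.mpr (hFA hy)
        · exact hFA hz
      · rw [Finset.card_insert_of_notMem hgy, hFc]
      · have key : ∀ z ∈ insert (g y) F, g z ∉ insert (g y) F → z = g y := by
          intro z hz hgz
          rcases Finset.mem_insert.mp hz with rfl | hz
          · rfl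
          · exfalso
            have hgzF : g z ∉ F := fun h => hgz (Finset.mem_insert_of_mem h)
            have := hF z hz y hy hgzF hgy
            rw [this] at hgz
            exact hgz (Finset.mem_insert_self _ _)
        intro z hz z' hz' hgz hgz'
        rw [key z hz hgz, key z' hz' hgz']
    · push Not at hex
      obtain ⟨z0, hz0A, hz0F⟩ : ∃ z0, z0 ∈ g.support ∧ z0 ∉ F := by
        by_contra hcon
        push Not at hcon
        have : g.support ⊆ F := fun z hz => hcon z hz
        have := Finset.card_le_card this
        omega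
      refine ⟨insert z0 F, ?_, ?_, ?_⟩
      · intro z hz
        rcases Finset.mem_insert.mp hz with rfl | hz
        · exact hz0A
        · exact hFA hz
      · rw [Finset.card_insert_of_notMem hz0F, hFc]
      · have key : ∀ z ∈ insert z0 F, g z ∉ insert z0 F → z = z0 := by
          intro z hz hgz
          rcases Finset.mem_insert.mp hz with rfl | hz
          · rfl
          · exact absurd (Finset.mem_insert_of_mem (hex z hz)) hgz
        intro z hz z' hz' hgz hgz'
        rw [key z hz hgz, key z' hz' hgz']

/-- Existence of a set with exactly one exit, of size `k - 1`, or of size `k - 2` when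
`m ≤ 2k - 4`. -/
theorem exists_exit_set (g : Equiv.Perm α) {k : ℕ} (hm1 : k + 1 ≤ g.support.card)
    (hm2 : g.support.card + 3 ≤ 2 * k) :
    ∃ (F : Finset α) (y : α), F ⊆ g.support ∧ y ∈ F ∧ g y ∉ F ∧ (∀ z ∈ F, z ≠ y → g z ∈ F) ∧
      (F.card = k - 1 ∨ (F.card = k - 2 ∧ g.support.card + 4 ≤ 2 * k)) := by
  obtain ⟨F₀, hFA, hFc, hF⟩ := exists_chain g (k - 1) (by omega)
  by_cases hex : ∃ y ∈ F₀, g y ∉ F₀
  · obtain ⟨y, hy, hgy⟩ := hex
    refine ⟨F₀, y, hFA, hy, hgy, ?_, Or.inl hFc⟩
    intro z hz hzy
    by_contra hgz
    exact hzy (hF z hz y hy hgz hgy)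
  · push Not at hex
    -- `F₀` is invariant under `g` and `g⁻¹`
    have hinv : ∀ y ∈ F₀, g⁻¹ y ∈ F₀ := by
      have himg : F₀.image g = F₀ := by
        apply Finset.eq_of_subset_of_card_le
        · intro z hz
          obtain ⟨w, hw, rfl⟩ := Finset.mem_image.mp hz
          exact hex w hw
        · rw [Finset.card_image_of_injective _ g.injective]
      intro y hy
      rw [← himg] at hy
      obtain ⟨w, hw, rfl⟩ := Finset.mem_image.mp hy
      simpa using hw
    by_cases h4 : g.support.card + 4 ≤ 2 * k
    · obtain ⟨y', hy'⟩ : ∃ y', y' ∈ F₀ := Finset.card_pos.mp (by omega)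
      have hne : g⁻¹ y' ≠ y' := by
        intro h
        have : g y' = y' := by
          have := congrArg g h
          simpa using this.symm
        exact (Equiv.Perm.mem_support.mp (hFA hy')) this
      refine ⟨F₀.erase y', g⁻¹ y', (Finset.erase_subset _ _).trans hFA,
        Finset.mem_erase.mpr ⟨hne, hinv y' hy'⟩, ?_, ?_, Or.inr ⟨?_, h4⟩⟩
      · simp
      · intro z hz hzy
        obtain ⟨hzy', hzF⟩ := Finset.mem_erase.mp hz
        refine Finset.mem_erase.mpr ⟨?_, hex z hzF⟩
        intro h
        apply hzy
        rw [← h]; simp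
      · rw [Finset.card_erase_of_mem hy', hFc]; omega
    · obtain ⟨z0, hz0⟩ : ∃ z0, z0 ∈ F₀ := Finset.card_pos.mp (by omega)
      have hgz0 : g z0 ≠ z0 := Equiv.Perm.mem_support.mp (hFA hz0)
      refine ⟨insert z0 (g.support \ F₀), z0, ?_, Finset.mem_insert_self _ _, ?_, ?_, Or.inl ?_⟩
      · intro z hz
        rcases Finset.mem_insert.mp hz with rfl | hz
        · exact hFA hz0
        · exact (Finset.mem_sdiff.mp hz).1
      · intro h
        rcases Finset.mem_insert.mp h with h | h
        · exact hgz0 h
        · exact (Finset.mem_sdiff.mp h).2 (hex z0 hz0)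
      · intro z hz hzz0
        rcases Finset.mem_insert.mp hz with rfl | hz
        · exact absurd rfl hzz0
        · obtain ⟨hzA, hzF⟩ := Finset.mem_sdiff.mp hz
          apply Finset.mem_insert_of_mem
          refine Finset.mem_sdiff.mpr ⟨Equiv.Perm.apply_mem_support.mpr hzA, ?_⟩
          intro hgz
          apply hzF
          have := hinv _ hgz
          simpa using this
      · have hnot : z0 ∉ g.support \ F₀ := fun h => (Finset.mem_sdiff.mp h).2 hz0
        rw [Finset.card_insert_of_notMem hnot, Finset.card_sdiff_of_subset hFA, hFc]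
        omega

theorem main_induction (G : Subgroup (Equiv.Perm α)) {k : ℕ} (hk : 3 ≤ k)
    (hkn : k ≤ Fintype.card α) (hG : MulAction.IsMultiplyPretransitive G α k) :
    ∀ m : ℕ, ∀ g ∈ G, g ≠ 1 → g.support.card = m → m < 2 * k - 2 →
      ∃ h : Equiv.Perm α, h ∈ G ∧ h ≠ 1 ∧ h.support.card ≤ 3 := by
  intro m
  induction m using Nat.strong_induction_on with
  | _ m ih =>
    intro g hg hg1 hm hlt
    by_cases h3 : m ≤ 3
    · exact ⟨g, hg, hg1, hm ▸ h3⟩
    push Not at h3
    by_cases hmk : m ≤ k
    · -- small support: prescribe `x` on the whole support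
      obtain ⟨u, hu⟩ : ∃ u, u ∈ g.support := Finset.card_pos.mp (by omega)
      by_cases hw : ∃ w, w ∉ g.support
      · obtain ⟨w, hw⟩ := hw
        obtain ⟨x, hxG, hx⟩ := exists_mem_swap_on G hkn hG g.support (by omega) u w
        have huw : u ≠ w := fun h => hw (h ▸ hu)
        have hyne : g⁻¹ u ≠ u := by
          intro h
          have : g u = u := by
            have := congrArg g h
            simpa using this.symm
          exact (Equiv.Perm.mem_support.mp hu) this
        have hyA : g⁻¹ u ∈ g.support := by
          rw [Equiv.Perm.mem_support]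
          intro h
          apply hyne
          have h2 : g (g⁻¹ u) = u := by simp
          rw [h2] at h
          exact h.symm
        have hcard := comm_card g x (g.support.erase u) g.support (g.support.erase u) (g⁻¹ u) u w
          (Finset.erase_subset _ _) (Finset.mem_erase.mpr ⟨hyne, hyA⟩) (by simp) (by simp)
          (by
            intro z hz hzy
            obtain ⟨hzu, hzA⟩ := Finset.mem_erase.mp hz
            refine Finset.mem_erase.mpr ⟨?_, Equiv.Perm.apply_mem_support.mpr hzA⟩
            intro h
            apply hzy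
            rw [← h]; simp)
          (Finset.erase_subset _ _) (fun h => hw (Finset.mem_erase.mp h).2) huw hx hu
          (Finset.erase_subset _ _)
          (by
            intro z hz
            obtain ⟨hzu, hzA⟩ := Finset.mem_erase.mp hz
            rw [hx z hzA, swap_apply_of_ne_of_ne hzu (fun h : z = w => hw (by rw [← h]; exact hzA))]
            exact hzA)
        refine ⟨g⁻¹ * x⁻¹ * g * x, ?_, hcard.1, ?_⟩
        · exact G.mul_mem (G.mul_mem (G.mul_mem (G.inv_mem hg) (G.inv_mem hxG)) hg) hxG
        · have := hcard.2
          rw [Finset.card_erase_of_mem hu] at this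
          omega
      · -- the support is everything: `G` contains a transposition
        push Not at hw
        obtain ⟨u', hu'⟩ : ∃ u', u' ∈ g.support.erase u := Finset.card_pos.mp (by
          rw [Finset.card_erase_of_mem hu]; omega)
        have huu' : u' ≠ u := (Finset.mem_erase.mp hu').1
        obtain ⟨x, hxG, hx⟩ := exists_mem_swap_on G hkn hG g.support (by omega) u u'
        have hxeq : x = swap u u' := by
          ext z
          exact hx z (hw z)
        refine ⟨swap u u', hxeq ▸ hxG, ?_, ?_⟩
        · intro h
          have := congrArg (fun f : Equiv.Perm α => f u) h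
          simp at this
          exact huu' this
        · rw [Equiv.Perm.card_support_swap (Ne.symm huu')]
          norm_num
    · -- large support
      push Not at hmk
      obtain ⟨F, y, hFA, hy, hgy, hexit, hFc⟩ := exists_exit_set (k := k) g (by omega) (by omega)
      have hcardF : F.card + 2 ≤ g.support.card := by
        rcases hFc with h | ⟨h, _⟩ <;> omega
      obtain ⟨u', hu'⟩ : ∃ u', u' ∈ (g.support \ F).erase (g y) := Finset.card_pos.mp (by
        have h1 : g y ∈ g.support \ F :=
          Finset.mem_sdiff.mpr ⟨Equiv.Perm.apply_mem_support.mpr (hFA hy), hgy⟩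
        rw [Finset.card_erase_of_mem h1, Finset.card_sdiff_of_subset hFA]
        omega)
      obtain ⟨hu'ne, hu'2⟩ := Finset.mem_erase.mp hu'
      obtain ⟨hu'A, hu'F⟩ := Finset.mem_sdiff.mp hu'2
      have hgyA : g y ∈ g.support := Equiv.Perm.apply_mem_support.mpr (hFA hy)
      rcases hFc with hFc | ⟨hFc, h4⟩
      · -- option A
        have hPc : (insert (g y) F).card ≤ k := by
          rw [Finset.card_insert_of_notMem hgy, hFc]; omega
        obtain ⟨x, hxG, hx⟩ := exists_mem_swap_on G hkn hG (insert (g y) F) hPc (g y) u'
        have hcard := comm_card g x F (insert (g y) F) (insert (g y) F) y (g y) u' hFA hy rfl hgy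
          hexit (Finset.subset_insert _ _) hu'F (Ne.symm hu'ne) hx (Finset.mem_insert_self _ _)
          (by
            intro z hz
            rcases Finset.mem_insert.mp hz with rfl | hz
            · exact hgyA
            · exact hFA hz)
          (by
            intro z hz
            rw [hx z hz]
            rcases Finset.mem_insert.mp hz with rfl | hz
            · rw [swap_apply_left]; exact hu'A
            · rw [swap_apply_of_ne_of_ne (fun h : z = g y => hgy (by rw [← h]; exact hz))
                (fun h : z = u' => hu'F (by rw [← h]; exact hz))]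
              exact hFA hz)
        have hcG : g⁻¹ * x⁻¹ * g * x ∈ G :=
          G.mul_mem (G.mul_mem (G.mul_mem (G.inv_mem hg) (G.inv_mem hxG)) hg) hxG
        have hc2 := hcard.2
        rw [Finset.card_insert_of_notMem hgy, hFc] at hc2
        exact ih _ (by omega) _ hcG hcard.1 rfl (by omega)
      · -- option S
        have hu'notin : u' ∉ insert (g y) F := by
          intro h
          rcases Finset.mem_insert.mp h with h | h
          · exact hu'ne h
          · exact hu'F h
        have hPc : (insert u' (insert (g y) F)).card ≤ k := by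
          rw [Finset.card_insert_of_notMem hu'notin, Finset.card_insert_of_notMem hgy, hFc]; omega
        obtain ⟨x, hxG, hx⟩ := exists_mem_swap_on G hkn hG (insert u' (insert (g y) F)) hPc (g y) u'
        have hcard := comm_card g x F (insert u' (insert (g y) F)) (insert u' (insert (g y) F))
          y (g y) u' hFA hy rfl hgy hexit
          ((Finset.subset_insert _ _).trans (Finset.subset_insert _ _)) hu'F (Ne.symm hu'ne) hx
          (Finset.mem_insert_of_mem (Finset.mem_insert_self _ _))
          (by
            intro z hz
            rcases Finset.mem_insert.mp hz with rfl | hz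
            · exact hu'A
            · rcases Finset.mem_insert.mp hz with rfl | hz
              · exact hgyA
              · exact hFA hz)
          (by
            intro z hz
            rw [hx z hz]
            rcases Finset.mem_insert.mp hz with rfl | hz
            · rw [swap_apply_right]; exact hgyA
            · rcases Finset.mem_insert.mp hz with rfl | hz
              · rw [swap_apply_left]; exact hu'A
              · rw [swap_apply_of_ne_of_ne (fun h : z = g y => hgy (by rw [← h]; exact hz))
                (fun h : z = u' => hu'F (by rw [← h]; exact hz))]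
                exact hFA hz)
        have hcG : g⁻¹ * x⁻¹ * g * x ∈ G :=
          G.mul_mem (G.mul_mem (G.mul_mem (G.inv_mem hg) (G.inv_mem hxG)) hg) hxG
        have hc2 := hcard.2
        rw [Finset.card_insert_of_notMem hu'notin, Finset.card_insert_of_notMem hgy, hFc] at hc2
        exact ih _ (by omega) _ hcG hcard.1 rfl (by omega)

/-- A `k`-transitive permutation group (`k ≥ 3`) with a non-identity element of support smaller than `2k - 2` contains a non-identity element of support at most 3, and therefore contains the alternating group. -/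
theorem result {α : Type*} [Fintype α] [DecidableEq α] (G : Subgroup (Equiv.Perm α)) {k : ℕ} (hk : 3 ≤ k) (hkn : k ≤ Fintype.card α) (hG : MulAction.IsMultiplyPretransitive G α k) (g : Equiv.Perm α) (hg : g ∈ G) (hg1 : g ≠ 1) (hsupp : g.support.card < 2 * k - 2) : (∃ h : Equiv.Perm α, h ∈ G ∧ h ≠ 1 ∧ h.support.card ≤ 3) ∧ alternatingGroup α ≤ G := by
  have hmain := main_induction G hk hkn hG _ g hg hg1 rfl hsupp
  refine ⟨hmain, ?_⟩
  obtain ⟨h, hhG, hh1, hh3⟩ := hmain
  have h2 : IsMultiplyPretransitive G α 2 :=
    isMultiplyPretransitive_of_le (n := k) (by omega) (by rw [Nat.card_eq_fintype_card]; exact hkn)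
  have hprim : IsPreprimitive G α := isPreprimitive_of_is_two_pretransitive h2
  have hcases : h.support.card = 2 ∨ h.support.card = 3 := by
    have h0 : h.support.card ≠ 0 := by
      rw [Ne, Finset.card_eq_zero, Equiv.Perm.support_eq_empty_iff]
      exact hh1
    have h1 : h.support.card ≠ 1 := Equiv.Perm.card_support_ne_one h
    omega
  rcases hcases with hc | hc
  · have hswap : h.IsSwap := Equiv.Perm.card_support_eq_two.mp hc
    have := Equiv.Perm.subgroup_eq_top_of_isPreprimitive_of_isSwap_mem hprim h hswap hhG
    rw [this]; exact le_top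
  · have h3c : h.IsThreeCycle := card_support_eq_three_iff.mp hc
    exact Equiv.Perm.alternatingGroup_le_of_isPreprimitive_of_isThreeCycle_mem hprim h3c hhG

end Cfsg.Agent.S0711
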