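import Cfsg.Statements.S0526
import Mathlib
import Cfsg.Agent.H12.Supersolvable

set_option autoImplicit false
open Cfsg

namespace Cfsg.Agent.S0526

open scoped commutatorElement

/-- In a finite supersolvable group the commutator subgroup is nilpotent. -/
theorem result {G : Type*} [Group G] [Finite G] (hG : Cfsg.IsSupersolvable G) : Group.IsNilpotent (commutator G) := by
  rw [H12.isSupersolvable_iff] at hG
  have key : ∀ K : Subgroup G, H12.SSChain K →
      ∃ n, K.subgroupOf (commutator G) ≤ Subgroup.upperCentralSeries (commutator G) n := by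
    intro K hK
    induction hK with
    | bot => exact ⟨0, by rw [Subgroup.bot_subgroupOf]; exact bot_le⟩
    | step H g hH hn ih =>
      obtain ⟨n, ih⟩ := ih
      refine ⟨n + 1, ?_⟩
      intro x hx
      rw [Subgroup.mem_upperCentralSeries_succ_iff]
      intro y
      apply ih
      rw [Subgroup.mem_subgroupOf]
      have hHn : H.Normal := hH.normal
      let π := QuotientGroup.mk' H
      let Cbar : Subgroup (G ⧸ H) := (H ⊔ Subgroup.zpowers g).map π
      have hCn : Cbar.Normal := hn.map π (QuotientGroup.mk'_surjective H)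
      have hCe : Cbar = Subgroup.zpowers (π g) := by
        show (H ⊔ Subgroup.zpowers g).map π = _
        rw [Subgroup.map_sup, MonoidHom.map_zpowers, QuotientGroup.map_mk'_self, bot_sup_eq]
      have hCc : IsCyclic Cbar := by rw [hCe]; infer_instance
      have h1 : π (y : G) ∈ commutator (G ⧸ H) := H12.map_mem_commutator π y.2
      have h2 : π (x : G) ∈ Cbar := ⟨x, hx, rfl⟩
      have h3 := H12.commutator_le_centralizer_of_isCyclic Cbar h1 (π (x : G)) h2
      rw [← QuotientGroup.eq_one_iff]
      show π ((⁅x, y⁆ : commutator G) : G) = 1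
      have h4 : ((⁅x, y⁆ : commutator G) : G) = ⁅(x : G), (y : G)⁆ := rfl
      rw [h4, map_commutatorElement, commutatorElement_eq_one_iff_commute]
      exact h3
  obtain ⟨n, hn⟩ := key ⊤ hG
  rw [Subgroup.top_subgroupOf] at hn
  exact ⟨⟨n, top_le_iff.mp hn⟩⟩

end Cfsg.Agent.S0526
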