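import Cfsg.Statements.S0175
import Cfsg.Agent.H4.Chars
import Cfsg.Agent.H4.Induction
import Cfsg.Agent.H4.IrrCount
import Cfsg.Agent.H83.Basic

set_option autoImplicit false
open Cfsg

namespace Cfsg.Agent.S0175

open Cfsg.Agent.H4
open scoped ComplexConjugate

section
variable {G : Type*} [Group G] [Fintype G]

/-- value of an induced linear character at 1 -/
theorem indFun_lin_one (H : Subgroup G) (lam : H →* ℂˣ) :
    indFun H (fun h => (lam h : ℂ)) 1 = (Nat.card H : ℂ)⁻¹ * (Nat.card G : ℂ) := by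
  rw [indFun_apply]
  congr 1
  have : ∀ x : G, extendByZero H (fun h => (lam h : ℂ)) (x⁻¹ * 1 * x) = 1 := by
    intro x
    have hx : x⁻¹ * 1 * x ∈ H := by simp
    rw [extendByZero_of_mem H _ hx]
    have : (⟨x⁻¹ * 1 * x, hx⟩ : H) = 1 := by apply Subtype.ext; simp
    rw [this, map_one]; rfl
  rw [Finset.sum_congr rfl (fun x _ => this x)]
  simp [Nat.card_eq_fintype_card]

/-- `K` normal with `K ≤ H` and `lam` trivial on `K`: the induced function is constant on `K`. -/
theorem indFun_lin_of_mem (H : Subgroup G) (lam : H →* ℂˣ) (K : Subgroup G) [hKn : K.Normal]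
    (hK : ∀ k ∈ K, ∃ hk : k ∈ H, lam ⟨k, hk⟩ = 1) {g : G} (hg : g ∈ K) :
    indFun H (fun h => (lam h : ℂ)) g = indFun H (fun h => (lam h : ℂ)) 1 := by
  rw [indFun_lin_one, indFun_apply]
  congr 1
  have : ∀ x : G, extendByZero H (fun h => (lam h : ℂ)) (x⁻¹ * g * x) = 1 := by
    intro x
    have hx : x⁻¹ * g * x ∈ K := by
      have := hKn.conj_mem g hg x⁻¹
      simpa using this
    obtain ⟨hx', h1⟩ := hK _ hx
    rw [extendByZero_of_mem H _ hx', h1]; rfl
  rw [Finset.sum_congr rfl (fun x _ => this x)]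
  simp [Nat.card_eq_fintype_card]

theorem indFun_triv_one (H : Subgroup G) :
    indFun H (fun _ => (1 : ℂ)) 1 = (Nat.card H : ℂ)⁻¹ * (Nat.card G : ℂ) := by
  have := indFun_lin_one H (1 : H →* ℂˣ)
  simpa using this

/-- If `Ind 1_H (g) = Ind 1_H (1)` then `g ∈ H`. -/
theorem mem_of_indFun_one_eq (H : Subgroup G) {g : G}
    (h : indFun H (fun _ => (1 : ℂ)) g = indFun H (fun _ => (1 : ℂ)) 1) : g ∈ H := by
  classical
  rw [indFun_triv_one, indFun_apply] at h
  have hH : (Nat.card H : ℂ)⁻¹ ≠ 0 := inv_ne_zero (neZero_card_complex H).out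
  have h1 := mul_left_cancel₀ hH h
  have h2 : ∀ x : G, extendByZero H (fun _ => (1 : ℂ)) (x⁻¹ * g * x) =
      if x⁻¹ * g * x ∈ H then 1 else 0 := by
    intro x
    split_ifs with hx
    · rw [extendByZero_of_mem H _ hx]
    · rw [extendByZero_of_not_mem H _ hx]
  simp only [h2] at h1
  rw [Finset.sum_boole, Nat.card_eq_fintype_card] at h1
  have h3 : (Finset.univ.filter (fun x : G => x⁻¹ * g * x ∈ H)).card =
      (Finset.univ : Finset G).card := by
    rw [Finset.card_univ]; exact_mod_cast h1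
  have h4 := Finset.card_filter_eq_iff.mp h3 1 (Finset.mem_univ 1)
  simpa using h4

theorem key (hM : ∀ χ : G → ℂ, Cfsg.IsIrrCharacter G χ → ∃ (H : Subgroup G) (lam : H →* ℂˣ), χ = Cfsg.indFun H (fun h => (lam h : ℂ))) :
    ∀ n : ℕ, ∃ m : ℕ, ∀ χ : IrrCharacter G, ∀ d : ℕ, χ.1 1 = d → d ≤ n →
      ∀ g ∈ derivedSeries G m, χ.1 g = χ.1 1 := by
  classical
  letI := fintypeIrr G
  intro n
  induction n with
  | zero =>
    refine ⟨0, fun χ d hd hd0 => ?_⟩
    exfalso
    obtain ⟨n', hn', h1⟩ := irr_one_eq_natCast χ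
    rw [h1] at hd
    have : n' = d := by exact_mod_cast hd
    omega
  | succ n ih =>
    obtain ⟨m, hm⟩ := ih
    refine ⟨m + 1, fun χ d hd hdn g hg => ?_⟩
    have hle : derivedSeries G (m + 1) ≤ derivedSeries G m := by
      rw [derivedSeries_succ]
      haveI := derivedSeries_normal G m
      exact Subgroup.commutator_le_right _ _
    by_cases hdn' : d ≤ n
    · exact hm χ d hd hdn' g (hle hg)
    have hdeq : d = n + 1 := by omega
    obtain ⟨H, lam, hχ⟩ := hM χ.1 χ.2
    set π : G → ℂ := indFun H (fun _ => (1 : ℂ)) with hπ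
    have hπ1 : π 1 = χ.1 1 := by
      rw [hπ, indFun_triv_one, hχ, indFun_lin_one]
    have hπchar : IsCharacter G π :=
      isCharacter_indFun H _ (isCharacter_of_isIrrCharacter (Cfsg.Agent.H83.isIrrCharacter_one H))
    obtain ⟨a, ha⟩ := isCharacter_iff.mp hπchar
    set triv : IrrCharacter G := Cfsg.Agent.H83.trivChar G with htriv
    have ha_triv : a triv = 1 := by
      have h1 : classInner π triv.1 = a triv := by rw [ha, classInner_finsum_irr]
      have h2 : classInner π triv.1 = 1 := by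
        haveI : Fintype H := Fintype.ofFinite H
        have hcf : IsClassFunction G triv.1 := irr_isClassFunction triv
        rw [hπ, frobenius_reciprocity H _ _ hcf]
        exact irr_inner_self (Cfsg.Agent.H83.trivChar H)
      rw [h2] at h1
      exact_mod_cast h1.symm
    have hdeg : ∀ ψ : IrrCharacter G, ∃ k : ℕ, 0 < k ∧ ψ.1 1 = k := fun ψ => irr_one_eq_natCast ψ
    choose deg hdeg_pos hdeg using hdeg
    have hπapp : ∀ x : G, π x = ∑ ψ : IrrCharacter G, (a ψ : ℂ) * ψ.1 x := by
      intro x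
      have := congrFun ha x
      rw [finsum_irr_eq_sum, Finset.sum_apply] at this
      rw [this]
      rfl
    have hsum : ∑ ψ : IrrCharacter G, a ψ * deg ψ = n + 1 := by
      have h1 := hπapp 1
      rw [hπ1, hd, hdeq] at h1
      have h2 : ((n + 1 : ℕ) : ℂ) = ((∑ ψ : IrrCharacter G, a ψ * deg ψ : ℕ) : ℂ) := by
        rw [h1]; push_cast
        refine Finset.sum_congr rfl fun ψ _ => ?_
        rw [hdeg]
      exact_mod_cast h2.symm
    have hdeg_triv : deg triv = 1 := by
      have := hdeg triv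
      have h1 : triv.1 1 = 1 := rfl
      rw [h1] at this
      exact_mod_cast this.symm
    have hconst : ∀ ψ : IrrCharacter G, a ψ ≠ 0 → ∀ x ∈ derivedSeries G m, ψ.1 x = ψ.1 1 := by
      intro ψ hψ x hx
      by_cases hψt : ψ = triv
      · rw [hψt]; rfl
      · have h1 : a triv * deg triv + a ψ * deg ψ ≤ n + 1 := by
          rw [← hsum, ← Finset.add_sum_erase Finset.univ _ (Finset.mem_univ triv)]
          apply Nat.add_le_add_left
          exact Finset.single_le_sum (f := fun ψ => a ψ * deg ψ) (fun _ _ => Nat.zero_le _)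
            (Finset.mem_erase.mpr ⟨hψt, Finset.mem_univ ψ⟩)
        rw [ha_triv, hdeg_triv] at h1
        have h2 : deg ψ ≤ a ψ * deg ψ := Nat.le_mul_of_pos_left _ (Nat.pos_of_ne_zero hψ)
        exact hm ψ (deg ψ) (hdeg ψ) (by omega) x hx
    have hπconst : ∀ x ∈ derivedSeries G m, π x = π 1 := by
      intro x hx
      rw [hπapp x, hπapp 1]
      refine Finset.sum_congr rfl fun ψ _ => ?_
      by_cases hψ : a ψ = 0
      · rw [hψ]; simp
      · rw [hconst ψ hψ x hx]
    have hDH : ∀ x ∈ derivedSeries G m, x ∈ H := fun x hx => mem_of_indFun_one_eq H (hπconst x hx)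
    have hK : ∀ k ∈ derivedSeries G (m + 1), ∃ hk : k ∈ H, lam ⟨k, hk⟩ = 1 := by
      have hle2 : derivedSeries G (m + 1) ≤ (lam.ker).map H.subtype := by
        rw [derivedSeries_succ, Subgroup.commutator_le]
        intro x hx y hy
        refine ⟨(⟨x, hDH x hx⟩ : H) * ⟨y, hDH y hy⟩ * (⟨x, hDH x hx⟩ : H)⁻¹ * (⟨y, hDH y hy⟩ : H)⁻¹,
          ?_, rfl⟩
        rw [SetLike.mem_coe, MonoidHom.mem_ker]
        simp only [map_mul, map_inv]
        rw [mul_comm (lam ⟨x, hDH x hx⟩), mul_inv_cancel_right, mul_inv_cancel]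
      intro k hk
      obtain ⟨k', hk', rfl⟩ := hle2 hk
      exact ⟨k'.2, hk'⟩
    haveI := derivedSeries_normal G (m + 1)
    have := indFun_lin_of_mem H lam (derivedSeries G (m + 1)) hK hg
    rw [← hχ] at this
    exact this

end

/-- Taketa's Theorem on M-groups: if every irreducible complex character of a finite group is induced from a linear character (a homomorphism to ℂˣ) of some subgroup, the group is solvable. -/
theorem result {G : Type*} [Group G] [Fintype G] (hM : ∀ χ : G → ℂ, Cfsg.IsIrrCharacter G χ → ∃ (H : Subgroup G) (lam : H →* ℂˣ), χ = Cfsg.indFun H (fun h => (lam h : ℂ))) : Group.IsSolvable G := by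
  classical
  letI := fintypeIrr G
  have hdeg : ∀ ψ : IrrCharacter G, ∃ k : ℕ, 0 < k ∧ ψ.1 1 = k := fun ψ => irr_one_eq_natCast ψ
  choose deg hdeg_pos hdeg using hdeg
  obtain ⟨m, hm⟩ := key hM (Finset.univ.sup deg)
  rw [Group.isSolvable_def]
  refine ⟨m, ?_⟩
  rw [eq_bot_iff]
  intro g hg
  rw [Subgroup.mem_bot]
  have h1 : IsConj g 1 := by
    rw [isConj_iff_irr]
    intro χ
    exact hm χ (deg χ) (hdeg χ) (Finset.le_sup (Finset.mem_univ χ)) g hg
  exact isConj_one_left.mp h1

end Cfsg.Agent.S0175
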