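import Cfsg.Statements.S0855
import Cfsg.Agent.Lib.ThompsonDeg

set_option autoImplicit false
open Cfsg

namespace Cfsg.Agent.S0855

open scoped commutatorElement

/-- A finite group all of whose irreducible characters are linear is abelian. -/
theorem comm_of_all_linear {G : Type*} [Group G] [Finite G]
    (hlin : ∀ χ : Cfsg.IrrCharacter G, Cfsg.charDegree χ.1 = 1) : ∀ a b : G, a * b = b * a := by
  classical
  letI := Cfsg.Agent.H4.fintypeIrr G
  have hsum := Cfsg.Agent.H82.index_add_sum_nonlinear (G := G)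
  have hempty : Finset.univ.filter (fun χ : Cfsg.IrrCharacter G => ¬ Cfsg.charDegree χ.1 = 1) = ∅ := by
    apply Finset.filter_eq_empty_iff.mpr
    intro χ _
    simp [hlin χ]
  rw [hempty, Finset.sum_empty, add_zero] at hsum
  have hcard : Nat.card (commutator G) = 1 := by
    have h1 := Subgroup.card_mul_index (commutator G)
    rw [hsum] at h1
    have hpos : 0 < Nat.card G := Nat.card_pos
    exact Nat.eq_of_mul_eq_mul_right hpos (by rw [h1, one_mul])
  have hbot : commutator G = ⊥ := Subgroup.eq_bot_of_card_eq _ hcard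
  intro a b
  have hmem : ⁅a, b⁆ ∈ commutator G := by
    rw [commutator_def]
    exact Subgroup.commutator_mem_commutator (Subgroup.mem_top a) (Subgroup.mem_top b)
  rw [hbot, Subgroup.mem_bot] at hmem
  exact commutatorElement_eq_one_iff_mul_comm.mp hmem

/-- For a finite group G and a prime p: every irreducible character of G has degree a power of p if and only if G has an abelian normal subgroup whose order is prime to p and whose index is a power of p. -/
theorem result {G : Type*} [Group G] [Finite G] (p : ℕ) (hp : p.Prime) : (∀ χ : Cfsg.IrrCharacter G, ∃ k : ℕ, (χ : G → ℂ) 1 = (p : ℂ) ^ k) ↔ ∃ A : Subgroup G, A.Normal ∧ (∀ a ∈ A, ∀ b ∈ A, a * b = b * a) ∧ Nat.Coprime (Nat.card A) p ∧ ∃ k : ℕ, A.index = p ^ k := by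
  classical
  haveI := Fintype.ofFinite G
  constructor
  · intro hall
    have hpow : ∀ χ : Cfsg.IrrCharacter G, ∃ k : ℕ, Cfsg.charDegree χ.1 = p ^ k := by
      intro χ
      obtain ⟨k, hk⟩ := hall χ
      refine ⟨k, ?_⟩
      rw [Cfsg.Agent.H82.irr_one_eq_charDegree] at hk
      exact_mod_cast hk
    have hdeg : ∀ χ : Cfsg.IrrCharacter G, Cfsg.charDegree (χ : G → ℂ) ≠ 1 →
        p ∣ Cfsg.charDegree (χ : G → ℂ) := by
      intro χ hne
      obtain ⟨k, hk⟩ := hpow χ
      rw [hk]
      rcases Nat.eq_zero_or_pos k with h0 | h0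
      · exfalso; apply hne; rw [hk, h0, pow_zero]
      · exact dvd_pow_self p h0.ne'
    obtain ⟨N, hN, hcop, k, hk⟩ := Cfsg.Agent.ThompsonDeg.thompson p hp hdeg
    haveI := hN
    haveI : Fintype N := Fintype.ofFinite N
    refine ⟨N, hN, ?_, hcop, k, hk⟩
    have hlin : ∀ θ : Cfsg.IrrCharacter N, Cfsg.charDegree θ.1 = 1 := by
      intro θ
      obtain ⟨χ, hχ, hne⟩ := Cfsg.Agent.ItoConv.exists_irr_over N θ.2
      obtain ⟨f, hf⟩ := Cfsg.Agent.ItoConv.degree_over N θ ⟨χ, hχ⟩ hne
      obtain ⟨j, hj⟩ := hpow ⟨χ, hχ⟩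
      have h1 : Cfsg.charDegree θ.1 ∣ p ^ j := by
        rw [← hj]
        exact ⟨(Cfsg.Agent.Clifford.inertia N θ.1).index * f, by rw [hf]; ring⟩
      have h2 : Cfsg.charDegree θ.1 ∣ Nat.card N := Cfsg.Agent.H82.charDegree_dvd_card θ
      have h3 : (Cfsg.charDegree θ.1).Coprime (p ^ j) :=
        Nat.Coprime.pow_right j (Nat.Coprime.coprime_dvd_left h2 hcop)
      exact Nat.Coprime.eq_one_of_dvd h3 h1
    intro a ha b hb
    have := comm_of_all_linear hlin ⟨a, ha⟩ ⟨b, hb⟩
    exact congrArg Subtype.val this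
  · rintro ⟨A, hA, hab, -, k, hk⟩ χ
    haveI := hA
    obtain ⟨n, ρ, hirr, hχ, hn, h1, h2⟩ := Cfsg.Agent.H82.irr_rep χ
    haveI := hirr
    have h3 := Cfsg.Agent.H4.ito_dvd_index ρ A hab
    rw [Module.finrank_fin_fun, hk] at h3
    obtain ⟨j, -, hj⟩ := (Nat.dvd_prime_pow hp).mp h3
    refine ⟨j, ?_⟩
    rw [h1, hj]
    push_cast
    rfl

end Cfsg.Agent.S0855
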