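import Cfsg.Statements.S0989
import Mathlib

set_option autoImplicit false
open Cfsg

namespace Cfsg.Agent.S0989

open Subgroup Equiv

theorem card_subgroupOf_eq_card_of_le {G : Type*} [Group G] {H K : Subgroup G} (h : H ≤ K) :
    Nat.card (H.subgroupOf K) = Nat.card H :=
  Nat.card_congr (Subgroup.subgroupOfEquivOfLe h).toEquiv

theorem factorization_factorial_self_or_succ (p n : ℕ) (hp : p.Prime) (hn : n = p ∨ n = p + 1) :
    (n.factorial).factorization p = 1 := by
  have h0 : ((p - 1).factorial).factorization p = 0 := by
    apply Nat.factorization_eq_zero_of_not_dvd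
    rw [hp.dvd_factorial]
    have := hp.pos
    omega
  have h1 : (p.factorial).factorization p = 1 := by
    have : p.factorial = p * (p - 1).factorial := (Nat.mul_factorial_pred hp.ne_zero).symm
    rw [this, Nat.factorization_mul hp.ne_zero (Nat.factorial_ne_zero _)]
    simp [hp.factorization_self, h0]
  rcases hn with hn | hn
  · rw [hn]; exact h1
  · rw [hn, Nat.factorial_succ, Nat.factorization_mul (by omega) (Nat.factorial_ne_zero _)]
    have : (p + 1).factorization p = 0 := by
      apply Nat.factorization_eq_zero_of_not_dvd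
      intro h
      have h2 : p ∣ 1 := (Nat.dvd_add_right (dvd_refl p)).1 h
      have := hp.one_lt
      have := Nat.le_of_dvd (by norm_num) h2
      omega
    simp [this, h1]

/-- In the symmetric group on p or p + 1 letters, p a prime, the normalizer of a Sylow p-subgroup has order p * (p - 1). -/
theorem result {α : Type*} [Fintype α] [DecidableEq α] (p : ℕ) [Fact p.Prime] (hα : Fintype.card α = p ∨ Fintype.card α = p + 1) (P : Sylow p (Equiv.Perm α)) : Nat.card ↥(Subgroup.normalizer ((P : Subgroup (Equiv.Perm α)) : Set (Equiv.Perm α))) = p * (p - 1) := by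
  have hp : p.Prime := Fact.out
  have hPcard : Nat.card (P : Subgroup (Perm α)) = p := by
    rw [Sylow.card_eq_multiplicity, Nat.card_perm, Nat.card_eq_fintype_card,
      factorization_factorial_self_or_succ p _ hp hα, pow_one]
  obtain ⟨σ', hσ'⟩ := exists_prime_orderOf_dvd_card' (G := (P : Subgroup (Perm α))) p (by rw [hPcard])
  obtain ⟨σ, hσP⟩ := σ'
  have hσord : orderOf σ = p := by
    rw [← hσ']; exact (Subgroup.orderOf_mk σ hσP).symm
  have hlt : Fintype.card α < 2 * p := by
    have := hp.one_lt
    rcases hα with h | h <;> omega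
  -- every element of order p is a p-cycle with cycle type {p}
  have hct : ∀ τ : Perm α, orderOf τ = p → τ.cycleType = {p} := by
    intro τ hτ
    have hc : τ.IsCycle := Equiv.Perm.isCycle_of_prime_order' (hτ ▸ hp) (hτ ▸ hlt)
    rw [hc.cycleType, ← hc.orderOf, hτ]
  have hzp : Subgroup.zpowers σ = (P : Subgroup (Perm α)) := by
    apply Subgroup.eq_of_le_of_card_ge
    · rw [Subgroup.zpowers_le]; exact hσP
    · rw [Nat.card_zpowers, hσord, hPcard]
  -- centralizer
  have hCeq : centralizer ((P : Subgroup (Perm α)) : Set (Perm α)) = centralizer {σ} := by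
    ext g
    constructor
    · intro hg
      exact Subgroup.mem_centralizer_singleton_iff.2 (hg σ hσP).symm
    · intro hg x hx
      rw [← hzp] at hx
      obtain ⟨k, rfl⟩ := Subgroup.mem_zpowers_iff.1 hx
      have hc : Commute g σ := Subgroup.mem_centralizer_singleton_iff.1 hg
      exact ((hc.zpow_right k).eq).symm
  have hCcard : Nat.card (centralizer ((P : Subgroup (Perm α)) : Set (Perm α))) = p := by
    rw [hCeq, Equiv.Perm.nat_card_centralizer, hct σ hσord]
    have h01 : (Fintype.card α - p).factorial = 1 := by
      rcases hα with h | h <;> simp [h]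
    simp [h01]
  set N := normalizer ((P : Subgroup (Perm α)) : Set (Perm α)) with hN
  have hCN : centralizer ((P : Subgroup (Perm α)) : Set (Perm α)) ≤ N := Subgroup.centralizer_le_normalizer _
  -- the hom N → Aut P
  let f : N →* MulAut (P : Subgroup (Perm α)) := (P : Subgroup (Perm α)).normalizerMonoidHom
  have hker : Nat.card f.ker = p := by
    rw [Subgroup.normalizerMonoidHom_ker, card_subgroupOf_eq_card_of_le hCN, hCcard]
  have hcyc : IsCyclic (P : Subgroup (Perm α)) := isCyclic_of_prime_card hPcard
  have hgen : Subgroup.closure {(⟨σ, hσP⟩ : (P : Subgroup (Perm α)))} = ⊤ := by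
    rw [← Subgroup.zpowers_eq_closure]
    apply Subgroup.eq_top_of_card_eq
    rw [Nat.card_zpowers, hσ', hPcard]
  have hsurj : Function.Surjective f := by
    intro φ
    set τ : (P : Subgroup (Perm α)) := φ ⟨σ, hσP⟩ with hτ
    have hτord : orderOf (τ : Perm α) = p := by
      rw [Subgroup.orderOf_coe, hτ, MulEquiv.orderOf_eq, hσ']
    have hconj : IsConj σ (τ : Perm α) := by
      rw [Equiv.Perm.isConj_iff_cycleType_eq, hct σ hσord, hct _ hτord]
    obtain ⟨g, hg⟩ := isConj_iff.1 hconj
    have hzτ : Subgroup.zpowers (τ : Perm α) = (P : Subgroup (Perm α)) := by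
      apply Subgroup.eq_of_le_of_card_ge
      · rw [Subgroup.zpowers_le]; exact τ.2
      · rw [Nat.card_zpowers, hτord, hPcard]
    have hgN : g ∈ N := by
      rw [hN, Subgroup.mem_normalizer_iff]
      intro x
      constructor
      · intro hx
        rw [← hzp] at hx
        obtain ⟨k, rfl⟩ := Subgroup.mem_zpowers_iff.1 hx
        have : g * σ ^ k * g⁻¹ = (τ : Perm α) ^ k := by
          rw [← hg, conj_zpow]
        rw [this]
        exact Subgroup.zpow_mem _ τ.2 k
      · intro hx
        rw [← hzτ] at hx
        obtain ⟨k, hk⟩ := Subgroup.mem_zpowers_iff.1 hx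
        have : x = σ ^ k := by
          have h2 : g * σ ^ k * g⁻¹ = g * x * g⁻¹ := by
            rw [← hk, ← hg, conj_zpow]
          have h3 := mul_right_cancel (mul_left_cancel h2)
          exact h3.symm
        rw [this]
        exact Subgroup.zpow_mem _ hσP k
    refine ⟨⟨g, hgN⟩, ?_⟩
    have : (f ⟨g, hgN⟩).toMonoidHom = φ.toMonoidHom := by
      apply MonoidHom.eq_of_eqOn_dense hgen
      intro x hx
      rw [Set.mem_singleton_iff] at hx
      subst hx
      apply Subtype.ext
      show g * σ * g⁻¹ = (τ : Perm α)
      exact hg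
    apply MulEquiv.ext
    intro x
    exact DFunLike.congr_fun this x
  have hrange : Nat.card f.range = p - 1 := by
    rw [MonoidHom.range_eq_top.2 hsurj, Subgroup.card_top, IsCyclic.card_mulAut, hPcard,
      Nat.totient_prime hp]
  rw [← f.ker.card_mul_index, Subgroup.index_ker, hker, hrange]

end Cfsg.Agent.S0989
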