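import Cfsg.Statements.S4219

set_option autoImplicit false
open Cfsg

namespace Cfsg.Agent.S4219

open scoped Pointwise

/-- Two subgroups of `B` of full `p`-power order are conjugate by an element of `B`. -/
theorem exists_conj_of_card {G : Type*} [Group G] [Finite G] {p : ℕ} [Fact p.Prime]
    (B Q₁ Q₂ : Subgroup G) (h₁ : Q₁ ≤ B) (h₂ : Q₂ ≤ B)
    (c₁ : Nat.card Q₁ = p ^ (Nat.card B).factorization p)
    (c₂ : Nat.card Q₂ = p ^ (Nat.card B).factorization p) :
    ∃ k ∈ B, Q₂.map (MulAut.conj k).toMonoidHom = Q₁ := by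
  have d₁ : Nat.card (Q₁.subgroupOf B) = p ^ (Nat.card B).factorization p := by
    rw [← c₁]; exact Nat.card_congr (Subgroup.subgroupOfEquivOfLe h₁).toEquiv
  have d₂ : Nat.card (Q₂.subgroupOf B) = p ^ (Nat.card B).factorization p := by
    rw [← c₂]; exact Nat.card_congr (Subgroup.subgroupOfEquivOfLe h₂).toEquiv
  set S₁ : Sylow p B := Sylow.ofCard (Q₁.subgroupOf B) d₁ with hS₁
  set S₂ : Sylow p B := Sylow.ofCard (Q₂.subgroupOf B) d₂ with hS₂
  obtain ⟨k, hk⟩ := MulAction.exists_smul_eq B S₂ S₁
  have key : ∀ y : B, (y : G) ∈ Q₁ ↔ ((k : G)⁻¹ * y * k) ∈ Q₂ := by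
    intro y
    have e1 : y ∈ (S₁ : Subgroup B) ↔ y ∈ ((k • S₂ : Sylow p B) : Subgroup B) := by rw [hk]
    rw [Sylow.coe_subgroup_smul, Subgroup.mem_pointwise_smul_iff_inv_smul_mem] at e1
    rw [hS₁, hS₂, Sylow.coe_ofCard, Sylow.coe_ofCard, Subgroup.mem_subgroupOf,
      Subgroup.mem_subgroupOf] at e1
    rw [e1]
    simp [MulAut.smul_def]
  refine ⟨k, k.2, ?_⟩
  ext n
  rw [Subgroup.mem_map]
  constructor
  · rintro ⟨m, hm, rfl⟩
    have hmB : (MulAut.conj (k : G)).toMonoidHom m ∈ B := by
      simp only [MulEquiv.coe_toMonoidHom, MulAut.conj_apply]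
      exact B.mul_mem (B.mul_mem k.2 (h₂ hm)) (B.inv_mem k.2)
    have := (key ⟨_, hmB⟩).mpr (by simpa [mul_assoc] using hm)
    exact this
  · intro hn
    have := (key ⟨n, h₁ hn⟩).mp hn
    exact ⟨_, this, by simp [mul_assoc]⟩

/-- Let a finite group `G` act `t`-fold transitively on a finite set, let `H` be the stabilizer of `t` distinct points and `P` a Sylow `p`-subgroup of `H`. Then the normalizer of `P` in `G` is `t`-fold transitive on the fixed points of `P`: any `t` distinct fixed points of `P` can be carried to any other `t` distinct fixed points of `P` by an element normalizing `P`. -/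
theorem result {G : Type*} [Group G] [Finite G] {α : Type*} [Fintype α] [MulAction G α] {t : ℕ} (hG : MulAction.IsMultiplyPretransitive G α t) (x : Fin t ↪ α) {p : ℕ} [Fact p.Prime] (P : Sylow p (MulAction.stabilizer G x)) (a b : Fin t ↪ α) (ha : ∀ i, a i ∈ MulAction.fixedPoints ((P : Subgroup (MulAction.stabilizer G x)).map (MulAction.stabilizer G x).subtype) α) (hb : ∀ i, b i ∈ MulAction.fixedPoints ((P : Subgroup (MulAction.stabilizer G x)).map (MulAction.stabilizer G x).subtype) α) : ∃ g ∈ Subgroup.normalizer ((((P : Subgroup (MulAction.stabilizer G x)).map (MulAction.stabilizer G x).subtype) : Subgroup G) : Set G), g • a = b := by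
  set P' : Subgroup G := (P : Subgroup (MulAction.stabilizer G x)).map (MulAction.stabilizer G x).subtype
    with hP'
  have hcardP' : Nat.card P' = p ^ (Nat.card (MulAction.stabilizer G x)).factorization p := by
    rw [hP', Subgroup.card_map_of_injective (Subgroup.subtype_injective _)]
    exact P.card_eq_multiplicity
  have hstab : ∀ y : Fin t ↪ α, Nat.card (MulAction.stabilizer G y) = Nat.card (MulAction.stabilizer G x) := by
    intro y
    obtain ⟨g, rfl⟩ := MulAction.exists_smul_eq G x y
    rw [MulAction.stabilizer_smul_eq_stabilizer_map_conj]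
    exact Subgroup.card_map_of_injective (MulAut.conj g).injective
  have hPa : P' ≤ MulAction.stabilizer G a := by
    intro g hg
    rw [MulAction.mem_stabilizer_iff]
    ext i
    exact ha i ⟨g, hg⟩
  have hPb : P' ≤ MulAction.stabilizer G b := by
    intro g hg
    rw [MulAction.mem_stabilizer_iff]
    ext i
    exact hb i ⟨g, hg⟩
  obtain ⟨h, hh⟩ := MulAction.exists_smul_eq G a b
  have hQ2 : P'.map (MulAut.conj h).toMonoidHom ≤ MulAction.stabilizer G b := by
    rw [← hh, MulAction.stabilizer_smul_eq_stabilizer_map_conj]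
    exact Subgroup.map_mono hPa
  have c1 : Nat.card P' = p ^ (Nat.card (MulAction.stabilizer G b)).factorization p := by
    rw [hstab b]; exact hcardP'
  have c2 : Nat.card (P'.map (MulAut.conj h).toMonoidHom) =
      p ^ (Nat.card (MulAction.stabilizer G b)).factorization p := by
    rw [Subgroup.card_map_of_injective (MulAut.conj h).injective]; exact c1
  obtain ⟨k, hkB, hk⟩ := exists_conj_of_card (MulAction.stabilizer G b) P'
    (P'.map (MulAut.conj h).toMonoidHom) hPb hQ2 c1 c2
  refine ⟨k * h, ?_, ?_⟩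
  · rw [Subgroup.mem_normalizer_iff_map_conj_eq]
    rw [Subgroup.map_map] at hk
    rw [← hk]
    congr 1
    ext n
    simp [mul_assoc]
  · rw [mul_smul, hh]
    exact hkB

end Cfsg.Agent.S4219
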