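import Mathlib
import Cfsg.Statements.S4220
import Cfsg.Agent.H70.Mil8

set_option autoImplicit false
open Cfsg

namespace Cfsg.Agent.S4220

open Equiv Equiv.Perm Cfsg.Agent.H70.Mil

universe u

/-- Miller's theorem, by strong induction on `k` (with `r ≥ 3`). -/
theorem miller (p : ℕ) [Fact p.Prime] (r : ℕ) (hr : 3 ≤ r) : ∀ (k : ℕ), 1 ≤ k → k < p → k < r →
    ∀ (α : Type u) [Fintype α] [DecidableEq α] (G : Subgroup (Perm α)),
      Fintype.card α = k * p + r → MulAction.IsMultiplyPretransitive ↥G α (r + 1) →
      alternatingGroup α ≤ G := by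
  intro k
  induction k using Nat.strong_induction_on with
  | _ k IH =>
    intro hk hkp hkr α _ _ G hn hG
    have hp := (Fact.out : p.Prime)
    have h2p := hp.two_le
    have hcard : r + 1 ≤ Fintype.card α := by
      rw [hn]
      nlinarith
    have hTT : TT G (r + 1) := tt_of_mp G (r + 1) hG
    have hTT2 : TT G 2 := tt_mono G (by omega) hcard hTT
    have hTT4 : TT G 4 := tt_mono G (by omega) hcard hTT
    have hTTr : TT G r := tt_mono G (by omega) hcard hTT
    by_cases hsmallkp : k * p ≤ 3
    · apply IsMultiplyPretransitive.alternatingGroup_le α G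
      have hle : Nat.card α - 2 ≤ r + 1 := by
        rw [Nat.card_eq_fintype_card, hn]
        omega
      exact MulAction.isMultiplyPretransitive_of_le hle
        (by rw [Nat.card_eq_fintype_card]; exact hcard)
    push Not at hsmallkp
    obtain ⟨x'⟩ : Nonempty (Fin (r + 1) ↪ α) :=
      Function.Embedding.nonempty_of_card_le (by simpa using hcard)
    by_cases hdvd : p ∣ Nat.card (MulAction.stabilizer ↥G x')
    · obtain ⟨g, hg, h3⟩ := caseA G p k r hn hkp hkr hr hG
        (fun i hi hi1 β _ _ G' hβ hG' =>
          IH i hi hi1 (lt_trans hi hkp) (lt_trans hi hkr) β G' hβ hG') x' default hdvd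
      exact alt_le_of_three G hTT2 h3 hg
    · obtain ⟨x, Q, hQG, hQ, hfix, hQcard, hW⟩ := caseB_setup G p k r hn hk hkp hG x' hdvd
      by_cases h5 : 5 ≤ r
      · obtain ⟨g, hg, h3⟩ := caseB_big G Q p k r hn hkp hkr h5 x hQ hfix hW
        exact alt_le_of_three G hTT2 h3 hg
      · rcases caseB_small G Q p k r hn hk hkp hkr hr (by omega) hTTr hTT4 x hQ hfix hQcard hW
          with ⟨g, hg, h3⟩ | ⟨hr3, hp3⟩
        · exact alt_le_of_three G hTT2 h3 hg
        · subst hr3
          subst hp3
          have hk2 : k = 2 := by omega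
          subst hk2
          exact nine G (by rw [hn]) hG x' hdvd

/-- Let `n = kp + r` with `p` prime, `1 ≤ k < p` and `r > k`, excluding the case `k = 1, r = 2`. Then a permutation group of degree `n` that is `(r + 1)`-fold transitive contains the alternating group. -/
theorem result {α : Type*} [Fintype α] [DecidableEq α] (G : Subgroup (Equiv.Perm α)) {k p r : ℕ} (hp : p.Prime) (hn : Fintype.card α = k * p + r) (hk : 1 ≤ k) (hpk : k < p) (hrk : k < r) (hex : ¬ (k = 1 ∧ r = 2)) (hG : MulAction.IsMultiplyPretransitive G α (r + 1)) : alternatingGroup α ≤ G := by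
  have hfact : Fact p.Prime := ⟨hp⟩
  have hr : 3 ≤ r := by
    by_contra hcon
    push Not at hcon
    apply hex
    omega
  exact miller p r hr k hk hpk hrk α G hn hG

end Cfsg.Agent.S4220
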