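import Cfsg.Statements.S0213
import Cfsg.Agent.H5.Involutions

set_option autoImplicit false
open Cfsg

namespace Cfsg.Agent.S0213

open Cfsg.Agent.H5

variable {G : Type*} [Group G]

theorem sq_one_of_isConj {x t : G} (hx : x * x = 1) (h : IsConj x t) : t * t = 1 := by
  obtain ⟨g, rfl⟩ := isConj_iff.mp h
  calc g * x * g⁻¹ * (g * x * g⁻¹) = g * (x * x) * g⁻¹ := by group
    _ = 1 := by rw [hx]; group

theorem orderOf_of_isConj {x t : G} (hx : orderOf x = 2) (h : IsConj x t) : orderOf t = 2 := by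
  obtain ⟨g, rfl⟩ := isConj_iff.mp h
  have := orderOf_injective (MulAut.conj g).toMonoidHom (MulAut.conj g).injective x
  rw [← hx, ← this]
  simp [MulAut.conj_apply]

/-- conjugating a pair -/
def conjPair (g : G) (p : G × G) : G × G := (g * p.1 * g⁻¹, g * p.2 * g⁻¹)

theorem conjPair_injective (g : G) : Function.Injective (conjPair g) := by
  intro p q h
  simp only [conjPair, Prod.mk.injEq] at h
  obtain ⟨h1, h2⟩ := h
  ext
  · simpa using h1
  · simpa using h2

theorem conjPair_mem {x₁ x₂ : G} (g t : G) (p : G × G)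
    (hp : IsConj x₁ p.1 ∧ IsConj x₂ p.2 ∧ t ∈ Subgroup.zpowers (p.1 * p.2)) :
    IsConj x₁ (conjPair g p).1 ∧ IsConj x₂ (conjPair g p).2 ∧
      g * t * g⁻¹ ∈ Subgroup.zpowers ((conjPair g p).1 * (conjPair g p).2) := by
  obtain ⟨h1, h2, k, hk⟩ := hp
  refine ⟨h1.trans (isConj_iff.mpr ⟨g, rfl⟩), h2.trans (isConj_iff.mpr ⟨g, rfl⟩), k, ?_⟩
  simp only [conjPair] at hk ⊢
  rw [← hk]
  have : g * p.1 * g⁻¹ * (g * p.2 * g⁻¹) = g * (p.1 * p.2) * g⁻¹ := by group
  rw [this, conj_zpow]

/-- Thompson Order Formula, two-class case: if every involution of the finite group G is conjugate to exactly one of the non-conjugate involutions x₁, x₂, and nᵢ is the number of pairs (u, v) with u conjugate to x₁, v conjugate to x₂ and xᵢ in the cyclic group generated by uv, then |G| = |C(x₂)| n₁ + |C(x₁)| n₂. -/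
theorem result {G : Type*} [Group G] [Finite G] (x₁ x₂ : G) (h₁ : orderOf x₁ = 2) (h₂ : orderOf x₂ = 2) (hnc : ¬ IsConj x₁ x₂) (hall : ∀ t : G, orderOf t = 2 → IsConj x₁ t ∨ IsConj x₂ t) : Nat.card G = Nat.card (Subgroup.centralizer ({x₂} : Set G)) * Nat.card {p : G × G // IsConj x₁ p.1 ∧ IsConj x₂ p.2 ∧ x₁ ∈ Subgroup.zpowers (p.1 * p.2)} + Nat.card (Subgroup.centralizer ({x₁} : Set G)) * Nat.card {p : G × G // IsConj x₁ p.1 ∧ IsConj x₂ p.2 ∧ x₂ ∈ Subgroup.zpowers (p.1 * p.2)} := by
  classical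
  have := Fintype.ofFinite G
  have hx1 := sq_eq_one_of_orderOf_two h₁
  have hx2 := sq_eq_one_of_orderOf_two h₂
  -- finsets
  let S : Finset (G × G) := Finset.univ.filter (fun p => IsConj x₁ p.1 ∧ IsConj x₂ p.2)
  let Inv : Finset G := Finset.univ.filter (fun t => orderOf t = 2)
  let C₁ : Finset G := Finset.univ.filter (fun t => IsConj x₁ t)
  let C₂ : Finset G := Finset.univ.filter (fun t => IsConj x₂ t)
  let N : G → Finset (G × G) := fun t =>
    Finset.univ.filter (fun p => IsConj x₁ p.1 ∧ IsConj x₂ p.2 ∧ t ∈ Subgroup.zpowers (p.1 * p.2))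
  let f : G × G → G := fun p => (p.1 * p.2) ^ (orderOf (p.1 * p.2) / 2)
  -- Step A
  have hA : S.card = C₁.card * C₂.card := by
    rw [← Finset.card_product]
    congr 1
    ext p
    simp [S, C₁, C₂]
  -- key facts about pairs in S
  have hpair : ∀ p ∈ S, Even (orderOf (p.1 * p.2)) := by
    intro p hp
    simp only [S, Finset.mem_filter, Finset.mem_univ, true_and] at hp
    by_contra hodd
    rw [Nat.not_even_iff_odd] at hodd
    have := isConj_of_odd_orderOf_mul (sq_one_of_isConj hx1 hp.1) (sq_one_of_isConj hx2 hp.2) hodd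
    exact hnc ((hp.1.trans this).trans hp.2.symm)
  have hpos : ∀ c : G, orderOf c ≠ 0 := fun c => (orderOf_pos c).ne'
  -- Step B
  have hB : S.card = ∑ t ∈ Inv, (N t).card := by
    rw [Finset.card_eq_sum_card_fiberwise (f := f) (t := Inv)]
    · apply Finset.sum_congr rfl
      intro t ht
      simp only [Inv, Finset.mem_filter, Finset.mem_univ, true_and] at ht
      congr 1
      ext p
      simp only [S, N, Finset.mem_filter, Finset.mem_univ, true_and, f]
      constructor
      · rintro ⟨⟨hp1, hp2⟩, rfl⟩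
        exact ⟨hp1, hp2, Subgroup.npow_mem_zpowers _ _⟩
      · rintro ⟨hp1, hp2, hmem⟩
        refine ⟨⟨hp1, hp2⟩, ?_⟩
        have hev := hpair p (Finset.mem_filter.mpr ⟨Finset.mem_univ _, hp1, hp2⟩)
        exact (eq_pow_half_of_mem_zpowers (hpos _) hev hmem ht).symm
    · intro p hp
      have hev := hpair p hp
      exact Finset.mem_coe.mpr (Finset.mem_filter.mpr ⟨Finset.mem_univ _, orderOf_pow_half (hpos _) hev⟩)
  -- Step C
  have hle : ∀ g t : G, (N t).card ≤ (N (g * t * g⁻¹)).card := by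
    intro g t
    apply Finset.card_le_card_of_injOn (conjPair g)
    · intro p hp
      have hp' : p ∈ N t := hp
      have hp'' := (Finset.mem_filter.mp hp').2
      exact Finset.mem_coe.mpr (Finset.mem_filter.mpr ⟨Finset.mem_univ _, conjPair_mem g t p hp''⟩)
    · exact (conjPair_injective g).injOn
  have hC : ∀ x t : G, IsConj x t → (N t).card = (N x).card := by
    intro x t h
    obtain ⟨g, rfl⟩ := isConj_iff.mp h
    apply le_antisymm
    · have := hle g⁻¹ (g * x * g⁻¹)
      have e : g⁻¹ * (g * x * g⁻¹) * g⁻¹⁻¹ = x := by group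
      rwa [e] at this
    · exact hle g x
  -- Step D
  have hInv : Inv = C₁ ∪ C₂ := by
    ext t
    simp only [Inv, C₁, C₂, Finset.mem_filter, Finset.mem_univ, true_and, Finset.mem_union]
    constructor
    · exact hall t
    · rintro (h | h)
      · exact orderOf_of_isConj h₁ h
      · exact orderOf_of_isConj h₂ h
  have hdisj : Disjoint C₁ C₂ := by
    rw [Finset.disjoint_left]
    intro t ht1 ht2
    simp only [C₁, C₂, Finset.mem_filter, Finset.mem_univ, true_and] at ht1 ht2
    exact hnc (ht1.trans ht2.symm)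
  have hD : S.card = C₁.card * (N x₁).card + C₂.card * (N x₂).card := by
    rw [hB, hInv, Finset.sum_union hdisj]
    congr 1
    · rw [Finset.sum_congr rfl (fun t ht => hC x₁ t (by simpa [C₁] using ht))]
      simp
    · rw [Finset.sum_congr rfl (fun t ht => hC x₂ t (by simpa [C₂] using ht))]
      simp
  -- cardinalities
  have hk1 := card_conj_mul_card_centralizer x₁
  have hk2 := card_conj_mul_card_centralizer x₂
  have hc1 : Nat.card {t : G // IsConj x₁ t} = C₁.card := by
    rw [Nat.card_eq_fintype_card, Fintype.card_subtype]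
  have hc2 : Nat.card {t : G // IsConj x₂ t} = C₂.card := by
    rw [Nat.card_eq_fintype_card, Fintype.card_subtype]
  have hn1 : Nat.card {p : G × G // IsConj x₁ p.1 ∧ IsConj x₂ p.2 ∧ x₁ ∈ Subgroup.zpowers (p.1 * p.2)} = (N x₁).card := by
    rw [Nat.card_eq_fintype_card, Fintype.card_subtype]
  have hn2 : Nat.card {p : G × G // IsConj x₁ p.1 ∧ IsConj x₂ p.2 ∧ x₂ ∈ Subgroup.zpowers (p.1 * p.2)} = (N x₂).card := by
    rw [Nat.card_eq_fintype_card, Fintype.card_subtype]
  rw [hn1, hn2]
  rw [hc1] at hk1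
  rw [hc2] at hk2
  rw [hA] at hD
  have hGpos : 0 < Nat.card G := Nat.card_pos
  apply Nat.eq_of_mul_eq_mul_left hGpos
  -- |G| * |G| = |G| * (c₂ n₁ + c₁ n₂)
  generalize Nat.card ↥(Subgroup.centralizer ({x₁} : Set G)) = c₁ at *
  generalize Nat.card ↥(Subgroup.centralizer ({x₂} : Set G)) = c₂ at *
  generalize Nat.card G = n at *
  generalize C₁.card = k₁ at *
  generalize C₂.card = k₂ at *
  generalize (N x₁).card = n₁ at *
  generalize (N x₂).card = n₂ at *
  calc n * n = (k₁ * c₁) * (k₂ * c₂) := by rw [hk1, hk2]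
    _ = (k₁ * k₂) * (c₁ * c₂) := by ring
    _ = (k₁ * n₁ + k₂ * n₂) * (c₁ * c₂) := by rw [hD]
    _ = (k₁ * c₁) * (c₂ * n₁) + (k₂ * c₂) * (c₁ * n₂) := by ring
    _ = n * (c₂ * n₁ + c₁ * n₂) := by rw [hk1, hk2]; ring

end Cfsg.Agent.S0213
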