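import Mathlib
import Cfsg.Statements.S0305
import Cfsg.Agent.H7.OrthStd
import Cfsg.Agent.H3.Dihedral
import Cfsg.Agent.S0287

set_option autoImplicit false
open Cfsg

namespace Cfsg.Agent.S0305

open Matrix

variable {F : Type*} [Field F]

theorem qp1 (v : Fin 1 ⊕ Fin 1 → F) : quadFormPlus 1 F v = v (Sum.inl 0) * v (Sum.inr 0) := by
  simp [quadFormPlus]

/-- `t ↦ diag(t, t⁻¹)`. -/
noncomputable def diagHom : F →* Matrix (Fin 1 ⊕ Fin 1) (Fin 1 ⊕ Fin 1) F where
  toFun t := Matrix.diagonal (Sum.elim (fun _ => t) (fun _ => t⁻¹))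
  map_one' := by
    rw [← Matrix.diagonal_one]
    congr 1
    funext i
    rcases i with i | i <;> simp
  map_mul' s t := by
    rw [Matrix.diagonal_mul_diagonal]
    congr 1
    funext i
    rcases i with i | i <;> simp [mul_comm]

theorem diagHom_mulVec (t : F) (u : Fin 1 ⊕ Fin 1 → F) :
    diagHom t *ᵥ u = Sum.elim (fun _ => t * u (Sum.inl 0)) (fun _ => t⁻¹ * u (Sum.inr 0)) := by
  funext i
  rcases i with i | i
  · obtain rfl : i = 0 := Subsingleton.elim _ _
    simp [diagHom, Matrix.mulVec_diagonal]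
  · obtain rfl : i = 0 := Subsingleton.elim _ _
    simp [diagHom, Matrix.mulVec_diagonal]

/-- The rotation subgroup. -/
noncomputable def rotHom : Fˣ →* ↥(isometryGroup F (quadFormPlus 1 F)) :=
  (Units.map diagHom).codRestrict _ (fun t => by
    rw [Cfsg.Agent.H49.mem_isometryGroup_iff]
    intro u
    show quadFormPlus 1 F (diagHom (t : F) *ᵥ u) = _
    rw [qp1, qp1, diagHom_mulVec]
    simp only [Sum.elim_inl, Sum.elim_inr]
    field_simp)

theorem rotHom_mulVec (t : Fˣ) (u : Fin 1 ⊕ Fin 1 → F) :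
    ((rotHom t : GL (Fin 1 ⊕ Fin 1) F) : Matrix (Fin 1 ⊕ Fin 1) (Fin 1 ⊕ Fin 1) F) *ᵥ u =
      Sum.elim (fun _ => (t : F) * u (Sum.inl 0)) (fun _ => (t : F)⁻¹ * u (Sum.inr 0)) :=
  diagHom_mulVec (t : F) u

theorem rotHom_injective : Function.Injective (rotHom (F := F)) := by
  intro s t h
  have h1 := congrArg (fun g : ↥(isometryGroup F (quadFormPlus 1 F)) =>
    (((g : GL (Fin 1 ⊕ Fin 1) F) : Matrix (Fin 1 ⊕ Fin 1) (Fin 1 ⊕ Fin 1) F) *ᵥ
      (fun _ => (1 : F))) (Sum.inl 0)) h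
  simp only [rotHom_mulVec, Sum.elim_inl, mul_one] at h1
  exact Units.ext h1

/-- The swap permutation. -/
def sw : Equiv.Perm (Fin 1 ⊕ Fin 1) := Equiv.sumComm (Fin 1) (Fin 1)

theorem sw_mul_self : sw * sw = 1 := by
  ext i
  rcases i with i | i <;> rfl

/-- The swap of the two coordinates. -/
noncomputable def swapG : ↥(isometryGroup F (quadFormPlus 1 F)) :=
  ⟨⟨sw.permMatrix F, sw.permMatrix F, by
      rw [← Matrix.permMatrix_mul, sw_mul_self]; simp, by
      rw [← Matrix.permMatrix_mul, sw_mul_self]; simp⟩,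
    Cfsg.Agent.H49.mem_isometryGroup_iff.mpr (fun v => by
      show quadFormPlus 1 F (sw.permMatrix F *ᵥ v) = _
      rw [Matrix.permMatrix_mulVec, qp1, qp1]
      simp [sw, mul_comm])⟩

theorem swapG_mulVec (u : Fin 1 ⊕ Fin 1 → F) :
    (((swapG : ↥(isometryGroup F (quadFormPlus 1 F))) : GL (Fin 1 ⊕ Fin 1) F) :
      Matrix (Fin 1 ⊕ Fin 1) (Fin 1 ⊕ Fin 1) F) *ᵥ u = u ∘ Sum.swap := by
  show sw.permMatrix F *ᵥ u = _
  rw [Matrix.permMatrix_mulVec]
  rfl

theorem swapG_mul_self : (swapG : ↥(isometryGroup F (quadFormPlus 1 F))) * swapG = 1 := by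
  apply Cfsg.Agent.H49.isometry_ext
  intro x
  rw [Cfsg.Agent.H49.coe_mul_mulVec, swapG_mulVec, swapG_mulVec]
  funext i
  rcases i with i | i <;> simp

/-- GO^+_2(q) is dihedral of order 2(q-1). -/
theorem result {F : Type*} [Field F] [Fintype F] {q : ℕ} (hF : Fintype.card F = q) : Nonempty (Cfsg.isometryGroup F (Cfsg.quadFormPlus 1 F) ≃* DihedralGroup (q - 1)) := by
  classical
  have hq : 2 ≤ q := by rw [← hF]; exact Fintype.one_lt_card
  haveI : NeZero (q - 1) := ⟨by omega⟩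
  have hcard : Nat.card (Cfsg.isometryGroup F (Cfsg.quadFormPlus 1 F)) = 2 * (q - 1) := by
    rw [Cfsg.Agent.S0287.result hF 1 le_rfl]
    simp
  obtain ⟨t, ht⟩ := IsCyclic.exists_generator (α := Fˣ)
  have hot : orderOf t = q - 1 := by
    rw [orderOf_eq_card_of_forall_mem_zpowers ht, Nat.card_eq_fintype_card, Fintype.card_units, hF]
  have hinv : (swapG : ↥(isometryGroup F (quadFormPlus 1 F)))⁻¹ = swapG :=
    inv_eq_of_mul_eq_one_left swapG_mul_self
  refine Cfsg.Agent.H3.dihedral_of_gens (q - 1) hcard (rotHom t) swapG ?_ ?_ swapG_mul_self ?_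
  · rw [orderOf_injective rotHom rotHom_injective t, hot]
  · intro hmem
    rw [Subgroup.mem_zpowers_iff] at hmem
    obtain ⟨k, hk⟩ := hmem
    rw [← map_zpow] at hk
    have h1 := congrArg (fun g : ↥(isometryGroup F (quadFormPlus 1 F)) =>
      (((g : GL (Fin 1 ⊕ Fin 1) F) : Matrix (Fin 1 ⊕ Fin 1) (Fin 1 ⊕ Fin 1) F) *ᵥ
        (Sum.elim (fun _ => (1 : F)) (fun _ => 0))) (Sum.inl 0)) hk
    simp only [rotHom_mulVec, swapG_mulVec, Sum.elim_inl, mul_one, Function.comp_apply,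
      Sum.swap_inl, Sum.elim_inr] at h1
    exact (Units.ne_zero _) h1
  · rw [hinv, ← map_inv]
    apply Cfsg.Agent.H49.isometry_ext
    intro x
    rw [Cfsg.Agent.H49.coe_mul_mulVec, Cfsg.Agent.H49.coe_mul_mulVec, swapG_mulVec, rotHom_mulVec,
      swapG_mulVec, rotHom_mulVec]
    funext i
    rcases i with i | i <;> simp

end Cfsg.Agent.S0305
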