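import Cfsg.Statements.S2561
import Cfsg.Agent.H48.QuadF2d

set_option autoImplicit false
open Cfsg

namespace Cfsg.Agent.S2561

open Cfsg.Agent.H48

theorem result_succ (k : ℕ) :
    Nat.card {q : (Fin (k + 1) ⊕ Fin (k + 1) → ZMod 2) → ZMod 2 // Polarizes (k + 1) q} = 2 ^ (2 * (k + 1)) ∧
    (∀ q : (Fin (k + 1) ⊕ Fin (k + 1) → ZMod 2) → ZMod 2, Polarizes (k + 1) q →
      IsPlusType (k + 1) q ∨ IsMinusType k q) ∧
    Nat.card {q : (Fin (k + 1) ⊕ Fin (k + 1) → ZMod 2) → ZMod 2 // Polarizes (k + 1) q ∧ IsPlusType (k + 1) q} = 2 ^ (2 * (k + 1) - 1) + 2 ^ k ∧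
    Nat.card {q : (Fin (k + 1) ⊕ Fin (k + 1) → ZMod 2) → ZMod 2 // Polarizes (k + 1) q ∧ IsMinusType k q} = 2 ^ (2 * (k + 1) - 1) - 2 ^ k := by
  have hZN := card_zeros_ones (k + 1)
  have e1 : (2 : ℤ) ^ (2 * (k + 1)) = 2 * 2 ^ (2 * (k + 1) - 1) := by
    have : 2 * (k + 1) = (2 * (k + 1) - 1) + 1 := by omega
    conv_lhs => rw [this]
    rw [pow_succ]; ring
  have e2 : (2 : ℤ) ^ (k + 1) = 2 * 2 ^ k := by rw [pow_succ]; ring
  have hle : (2 : ℤ) ^ k ≤ 2 ^ (2 * (k + 1) - 1) :=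
    pow_le_pow_right₀ (by norm_num) (by omega)
  refine ⟨card_polarizes (k + 1), ?_, ?_, ?_⟩
  · intro q hq
    obtain ⟨w, rfl⟩ := exists_qw_eq hq
    rcases zmod2_eq_zero_or_one (Cfsg.quadFormPlus (k + 1) (ZMod 2) w) with h | h
    · exact Or.inl (qw_plus_of_zero (k + 1) w h)
    · exact Or.inr (qw_minus_of_one k w h)
  · rw [card_polarizes_and (k + 1) (IsPlusType (k + 1))
      (fun w => Cfsg.quadFormPlus (k + 1) (ZMod 2) w = 0) (qw_plus_iff (k + 1))]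
    have : (Nat.card {w : Fin (k + 1) ⊕ Fin (k + 1) → ZMod 2 // Cfsg.quadFormPlus (k + 1) (ZMod 2) w = 0} : ℤ)
        = ((2 ^ (2 * (k + 1) - 1) + 2 ^ k : ℕ) : ℤ) := by
      push_cast
      linarith [hZN.1, hZN.2]
    exact_mod_cast this
  · rw [card_polarizes_and (k + 1) (IsMinusType k)
      (fun w => Cfsg.quadFormPlus (k + 1) (ZMod 2) w = 1) (qw_minus_iff k)]
    have hle' : 2 ^ k ≤ 2 ^ (2 * (k + 1) - 1) := by exact_mod_cast hle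
    have : (Nat.card {w : Fin (k + 1) ⊕ Fin (k + 1) → ZMod 2 // Cfsg.quadFormPlus (k + 1) (ZMod 2) w = 1} : ℤ)
        = ((2 ^ (2 * (k + 1) - 1) - 2 ^ k : ℕ) : ℤ) := by
      rw [Nat.cast_sub hle']
      push_cast
      linarith [hZN.1, hZN.2]
    exact_mod_cast this

/-- Fix the non-singular alternating form on the 2m-dimensional space over the field of two elements obtained by polarizing the plus-type form Σ xᵢyᵢ (m ≥ 1). The functions q on the space with q(u + v) = q(u) + q(v) + f(u, v) (the quadratic forms polarizing to f) number 2^(2m); each is equivalent under an invertible linear map either to the plus-type form or to the minus-type form Σ xᵢyᵢ + (z₁² + z₁z₂ + z₂²); and those of plus type number 2^(2m−1) + 2^(m−1), those of minus type 2^(2m−1) − 2^(m−1). -/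
theorem result (m : ℕ) (hm : 1 ≤ m) :
    Nat.card {q : (Fin m ⊕ Fin m → ZMod 2) → ZMod 2 // (∀ u v : (Fin m ⊕ Fin m → ZMod 2), q (u + v) = q u + q v + (Cfsg.quadFormPlus m (ZMod 2) (u + v) - Cfsg.quadFormPlus m (ZMod 2) u - Cfsg.quadFormPlus m (ZMod 2) v))} = 2 ^ (2 * m) ∧
    (∀ q : (Fin m ⊕ Fin m → ZMod 2) → ZMod 2, (∀ u v : (Fin m ⊕ Fin m → ZMod 2), q (u + v) = q u + q v + (Cfsg.quadFormPlus m (ZMod 2) (u + v) - Cfsg.quadFormPlus m (ZMod 2) u - Cfsg.quadFormPlus m (ZMod 2) v)) →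
      (∃ g : (Fin m ⊕ Fin m → ZMod 2) ≃ₗ[ZMod 2] (Fin m ⊕ Fin m → ZMod 2), ∀ v, q v = Cfsg.quadFormPlus m (ZMod 2) (g v)) ∨
      (∃ g : (Fin m ⊕ Fin m → ZMod 2) ≃ₗ[ZMod 2] ((Fin (m - 1) ⊕ Fin (m - 1)) ⊕ Fin 2 → ZMod 2), ∀ v, q v = Cfsg.quadFormMinus (m - 1) (ZMod 2) 1 1 (g v))) ∧
    Nat.card {q : (Fin m ⊕ Fin m → ZMod 2) → ZMod 2 // (∀ u v : (Fin m ⊕ Fin m → ZMod 2), q (u + v) = q u + q v + (Cfsg.quadFormPlus m (ZMod 2) (u + v) - Cfsg.quadFormPlus m (ZMod 2) u - Cfsg.quadFormPlus m (ZMod 2) v)) ∧ ∃ g : (Fin m ⊕ Fin m → ZMod 2) ≃ₗ[ZMod 2] (Fin m ⊕ Fin m → ZMod 2), ∀ v, q v = Cfsg.quadFormPlus m (ZMod 2) (g v)} = 2 ^ (2 * m - 1) + 2 ^ (m - 1) ∧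
    Nat.card {q : (Fin m ⊕ Fin m → ZMod 2) → ZMod 2 // (∀ u v : (Fin m ⊕ Fin m → ZMod 2), q (u + v) = q u + q v + (Cfsg.quadFormPlus m (ZMod 2) (u + v) - Cfsg.quadFormPlus m (ZMod 2) u - Cfsg.quadFormPlus m (ZMod 2) v)) ∧ ∃ g : (Fin m ⊕ Fin m → ZMod 2) ≃ₗ[ZMod 2] ((Fin (m - 1) ⊕ Fin (m - 1)) ⊕ Fin 2 → ZMod 2), ∀ v, q v = Cfsg.quadFormMinus (m - 1) (ZMod 2) 1 1 (g v)} = 2 ^ (2 * m - 1) - 2 ^ (m - 1) := by
  obtain ⟨k, rfl⟩ : ∃ k, m = k + 1 := ⟨m - 1, by omega⟩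
  exact result_succ k

end Cfsg.Agent.S2561
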