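import Cfsg.Statements.S4835
import Cfsg.Agent.H83.Gagola

set_option autoImplicit false
open Cfsg

namespace Cfsg.Agent.S4835

open Cfsg.Agent.H83

/-- Let G be a finite group of order greater than 2 with an irreducible character χ that is nonzero on exactly two conjugacy classes. Then G has a unique minimal normal subgroup N; N is an elementary abelian p-group for some prime p; χ is nonzero exactly at the elements of N; and any two nonidentity elements of N are conjugate in G. -/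
theorem result {G : Type*} [Group G] [Finite G] (hG : 2 < Nat.card G) (χ : Cfsg.IrrCharacter G) (hχ : Nat.card {C : ConjClasses G // ∃ g ∈ C.carrier, (χ : G → ℂ) g ≠ 0} = 2) :
    ∃ N : Subgroup G, N.Normal ∧ N ≠ ⊥ ∧ (∀ K : Subgroup G, K.Normal → K ≠ ⊥ → N ≤ K) ∧
      (∃ p : ℕ, p.Prime ∧ Cfsg.IsElementaryAbelian p N) ∧
      (∀ g : G, (χ : G → ℂ) g ≠ 0 ↔ g ∈ N) ∧
      (∀ x ∈ N, ∀ y ∈ N, x ≠ 1 → y ≠ 1 → ∃ g : G, g * x * g⁻¹ = y) := by
  obtain ⟨N, g₀, k, hNn, hg₀1, hg₀N, hmem, hconj, hker, hk0, hkz, hE1, hE3⟩ :=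
    gagola_subgroup hG χ hχ
  have hsupp : ∀ x : G, (χ : G → ℂ) x ≠ 0 → x = 1 ∨ IsConj g₀ x := by
    intro x hx
    by_cases hx1 : x = 1
    · exact Or.inl hx1
    · exact Or.inr (hconj x ((hmem x).mpr hx) hx1)
  refine ⟨N, hNn, ?_, ?_, ?_, fun g => (hmem g).symm, ?_⟩
  · intro h
    rw [h, Subgroup.mem_bot] at hg₀N
    exact hg₀1 hg₀N
  · intro K hKn hK x hx
    have hg₀K : g₀ ∈ K := gagola_mem_of_normal χ hsupp K hKn hK
    by_cases hx1 : x = 1
    · rw [hx1]; exact K.one_mem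
    · obtain ⟨u, rfl⟩ := isConj_iff.mp (hconj x hx hx1)
      exact hKn.conj_mem _ hg₀K u
  · obtain ⟨p, hp, _, hel⟩ := gagola_elementary N hNn hg₀1 hg₀N hconj
    exact ⟨p, hp, hel⟩
  · intro x hx y hy hx1 hy1
    exact isConj_iff.mp ((hconj x hx hx1).symm.trans (hconj y hy hy1))

end Cfsg.Agent.S4835
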