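import Cfsg.Statements.S3495
import Cfsg.Agent.H62.Manning

set_option autoImplicit false
open Cfsg

namespace Cfsg.Agent.S3495

open MulAction Cfsg.Agent.H62

theorem mem_orbit_subgroup_iff {G : Type*} [Group G] {Ω : Type*} [MulAction G Ω] (M : Subgroup G)
    (y w : Ω) : w ∈ orbit M y ↔ ∃ s ∈ M, s • y = w := by
  constructor
  · rintro ⟨s, rfl⟩; exact ⟨s.1, s.2, rfl⟩
  · rintro ⟨s, hs, rfl⟩; exact ⟨⟨s, hs⟩, rfl⟩

theorem invariant_of_stabilizer_and_elt {G : Type*} [Group G] {Ω : Type*} [MulAction G Ω]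
    [IsPreprimitive G Ω] (x : Ω) (S : Set Ω)
    (h1 : ∀ g ∈ stabilizer G x, ∀ a ∈ S, g • a ∈ S) (l : G) (hl : l • x ≠ x)
    (h2 : ∀ a, l • a ∈ S ↔ a ∈ S) : ∀ g : G, ∀ a ∈ S, g • a ∈ S := by
  have : Nontrivial Ω := ⟨⟨l • x, x, hl⟩⟩
  let T : Subgroup G :=
    { carrier := {g | ∀ a, g • a ∈ S ↔ a ∈ S}
      mul_mem' := by
        intro g h hg hh a
        rw [mul_smul, hg, hh]
      one_mem' := by
        intro a
        rw [one_smul]
      inv_mem' := by
        intro g hg a
        rw [← hg (g⁻¹ • a), smul_inv_smul] }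
  have hxT : stabilizer G x ≤ T := by
    intro g hg a
    constructor
    · intro h
      have := h1 g⁻¹ (inv_mem hg) _ h
      rwa [inv_smul_smul] at this
    · exact h1 g hg a
  have hcx : IsCoatom (stabilizer G x) := IsPreprimitive.isCoatom_stabilizer_of_isPreprimitive G x
  have hlT : l ∈ T := h2
  have hT : T = ⊤ := by
    apply hcx.2 T
    refine lt_of_le_of_ne hxT ?_
    intro h
    rw [← h] at hlT
    exact hl (mem_stabilizer_iff.1 hlT)
  intro g a ha
  have hg : g ∈ T := hT ▸ Subgroup.mem_top g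
  exact (hg a).2 ha

/-- Let a finite group G act faithfully and primitively on a finite set Ω with non-trivial point stabilizers, each acting primitively on every one of its orbits (an extremely primitive group), and suppose G has an elementary abelian normal p-subgroup N acting regularly on Ω (affine type). Then every non-trivial subgroup M of a point stabilizer G_α that is normal in G_α has the same orbits on Ω as G_α, and normalizes no subgroup of N other than 1 and N. -/
theorem result {G : Type*} [Group G] [Finite G] {Ω : Type*} [Fintype Ω] [MulAction G Ω] [FaithfulSMul G Ω] (hprim : MulAction.IsPreprimitive G Ω) (hH : ∀ α : Ω, MulAction.stabilizer G α ≠ ⊥) (hep : ∀ (α : Ω) (ω : Ω), MulAction.IsPreprimitive (MulAction.stabilizer G α) (MulAction.orbit (MulAction.stabilizer G α) ω))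
    (N : Subgroup G) [N.Normal] (hNc : IsMulCommutative N) (p : ℕ) (hp : p.Prime) (hNp : ∀ n ∈ N, n ^ p = 1)
    (hNtr : MulAction.IsPretransitive N Ω) (hNreg : ∀ ω : Ω, MulAction.stabilizer N ω = ⊥) (α : Ω) (M : Subgroup G) (hM : M ≠ ⊥) (hMle : M ≤ MulAction.stabilizer G α)
    (hMn : MulAction.stabilizer G α ≤ Subgroup.normalizer (M : Set G)) :
    (∀ ω : Ω, MulAction.orbit M ω = MulAction.orbit (MulAction.stabilizer G α) ω) ∧
    (∀ L : Subgroup G, L ≤ N → M ≤ Subgroup.normalizer (L : Set G) → L = ⊥ ∨ L = N) := by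
  have partA : ∀ ω : Ω, MulAction.orbit M ω = MulAction.orbit (MulAction.stabilizer G α) ω := by
    intro ω
    apply Set.Subset.antisymm
    · intro w hw
      rw [mem_orbit_subgroup_iff] at hw
      rw [mem_orbit_stab_iff]
      obtain ⟨s, hs, rfl⟩ := hw
      exact ⟨s, hMle hs, rfl⟩
    · intro w hw
      rw [mem_orbit_stab_iff] at hw
      rw [mem_orbit_subgroup_iff]
      obtain ⟨s, hs, rfl⟩ := hw
      by_cases hωα : ω = α
      · subst hωα
        exact ⟨1, one_mem _, by rw [one_smul, mem_stabilizer_iff.1 hs]⟩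
      · have hmove : ∃ k ∈ M, k • ω ≠ ω := by
          by_contra hcon
          push Not at hcon
          exact hM (manning_core hprim hep α ω hωα M hMle hMn hcon)
        exact normal_transitive_on_orbit α ω M hMle hMn (hep α ω) hmove s hs
  refine ⟨partA, ?_⟩
  intro L hLN hML
  by_cases hL : L = ⊥
  · left; exact hL
  · right
    apply le_antisymm hLN
    obtain ⟨l, hl1⟩ := Subgroup.ne_bot_iff_exists_ne_one.1 hL
    have hlα : (l : G) • α ≠ α := by
      intro h
      have hmem : (⟨l.1, hLN l.2⟩ : N) ∈ MulAction.stabilizer N α := by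
        rw [mem_stabilizer_iff]
        exact h
      rw [hNreg α, Subgroup.mem_bot] at hmem
      apply hl1
      apply Subtype.ext
      have h5 : (l : G) = 1 := congrArg (Subtype.val : N → G) hmem
      exact h5
    let S : Set Ω := {a | ∃ l ∈ L, l • α = a}
    have hS1 : ∀ g ∈ stabilizer G α, ∀ a ∈ S, g • a ∈ S := by
      rintro g hg a ⟨l', hl', rfl⟩
      have h1 : g • l' • α ∈ MulAction.orbit (MulAction.stabilizer G α) (l' • α) := by
        rw [mem_orbit_stab_iff]
        exact ⟨g, hg, rfl⟩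
      rw [← partA, mem_orbit_subgroup_iff] at h1
      obtain ⟨m, hm, hm'⟩ := h1
      refine ⟨m * l' * m⁻¹, ?_, ?_⟩
      · exact (Subgroup.mem_normalizer_iff.1 (hML hm) l').1 hl'
      · rw [← hm', mul_smul, mul_smul]
        have : m⁻¹ • α = α := mem_stabilizer_iff.1 (inv_mem (hMle hm))
        rw [this]
    have hS2 : ∀ a, (l : G) • a ∈ S ↔ a ∈ S := by
      intro a
      constructor
      · rintro ⟨l', hl', h⟩
        refine ⟨(l : G)⁻¹ * l', mul_mem (inv_mem l.2) hl', ?_⟩
        rw [mul_smul, h, inv_smul_smul]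
      · rintro ⟨l', hl', rfl⟩
        exact ⟨l * l', mul_mem l.2 hl', mul_smul _ _ _⟩
    have hS3 := invariant_of_stabilizer_and_elt α S hS1 l hlα hS2
    intro n hn
    have hnS : n • α ∈ S := hS3 n α ⟨1, one_mem _, one_smul _ _⟩
    obtain ⟨l', hl', h⟩ := hnS
    have hmem : (⟨l'⁻¹ * n, mul_mem (inv_mem (hLN hl')) hn⟩ : N) ∈ MulAction.stabilizer N α := by
      rw [mem_stabilizer_iff]
      show (l'⁻¹ * n) • α = α
      rw [mul_smul, ← h, inv_smul_smul]
    rw [hNreg α, Subgroup.mem_bot] at hmem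
    have h3 : l'⁻¹ * n = 1 := congrArg (Subtype.val : N → G) hmem
    have h4 : n = l' := by
      rw [inv_mul_eq_one] at h3
      exact h3.symm
    rw [h4]
    exact hl'

end Cfsg.Agent.S3495
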