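import Mathlib
import Cfsg.Statements.S0276
import Cfsg.Agent.H7.PSL2

set_option autoImplicit false
open Cfsg

namespace Cfsg.Agent.S0276

/-- For q = 3 or 5 mod 8 the Sylow 2-subgroups of PSL_2(q) are elementary abelian of order 4. -/
theorem result {F : Type*} [Field F] [Fintype F] {q : ℕ} (hF : Fintype.card F = q) (hq : q % 8 = 3 ∨ q % 8 = 5) (P : Sylow 2 (Matrix.ProjectiveSpecialLinearGroup (Fin 2) F)) : IsKleinFour (P : Subgroup (Matrix.ProjectiveSpecialLinearGroup (Fin 2) F)) := by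
  have hodd : Odd (Fintype.card F) := by
    rw [hF]; rcases hq with h | h <;> exact Nat.odd_iff.mpr (by omega)
  have h2sq : ¬ IsSquare (2 : F) := by
    rw [FiniteField.isSquare_two_iff, hF]; omega
  have hcardPSL := H7.card_PSL2_odd hodd
  rw [hF] at hcardPSL
  obtain ⟨m, hm, hmodd⟩ : ∃ m, Nat.card (Matrix.ProjectiveSpecialLinearGroup (Fin 2) F) = 4 * m ∧
      ¬ 2 ∣ m := by
    rcases hq with h | h
    · obtain ⟨t, ht⟩ : ∃ t, q = 8 * t + 3 := ⟨q / 8, by omega⟩
      refine ⟨q * (8 * t ^ 2 + 6 * t + 1), ?_, ?_⟩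
      · have e : q ^ 2 - 1 = 8 * (8 * t ^ 2 + 6 * t + 1) := by
          have : q ^ 2 = 8 * (8 * t ^ 2 + 6 * t + 1) + 1 := by rw [ht]; ring
          omega
        rw [e] at hcardPSL
        have : 2 * Nat.card (Matrix.ProjectiveSpecialLinearGroup (Fin 2) F) =
            2 * (4 * (q * (8 * t ^ 2 + 6 * t + 1))) := by rw [hcardPSL]; ring
        exact Nat.eq_of_mul_eq_mul_left (by norm_num) this
      · rw [Nat.Prime.dvd_mul Nat.prime_two]
        rintro (h2 | h2) <;> omega
    · obtain ⟨t, ht⟩ : ∃ t, q = 8 * t + 5 := ⟨q / 8, by omega⟩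
      refine ⟨q * (8 * t ^ 2 + 10 * t + 3), ?_, ?_⟩
      · have e : q ^ 2 - 1 = 8 * (8 * t ^ 2 + 10 * t + 3) := by
          have : q ^ 2 = 8 * (8 * t ^ 2 + 10 * t + 3) + 1 := by rw [ht]; ring
          omega
        rw [e] at hcardPSL
        have : 2 * Nat.card (Matrix.ProjectiveSpecialLinearGroup (Fin 2) F) =
            2 * (4 * (q * (8 * t ^ 2 + 10 * t + 3))) := by rw [hcardPSL]; ring
        exact Nat.eq_of_mul_eq_mul_left (by norm_num) this
      · rw [Nat.Prime.dvd_mul Nat.prime_two]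
        rintro (h2 | h2) <;> omega
  have hcard : Nat.card (P : Subgroup (Matrix.ProjectiveSpecialLinearGroup (Fin 2) F)) = 4 := by
    have h := Sylow.card_eq_multiplicity P
    have hm0 : m ≠ 0 := by rintro rfl; exact hmodd (dvd_zero 2)
    rw [hm, Nat.factorization_mul (by norm_num) hm0] at h
    have h4 : (4 : ℕ).factorization 2 = 2 := by
      have : (4 : ℕ) = 2 ^ 2 := by norm_num
      rw [this, Nat.Prime.factorization_pow Nat.prime_two]; simp
    simp only [Finsupp.coe_add, Pi.add_apply, h4,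
      Nat.factorization_eq_zero_of_not_dvd hmodd] at h
    exact h
  have hexp : ∀ x : (P : Subgroup (Matrix.ProjectiveSpecialLinearGroup (Fin 2) F)), x ^ 2 = 1 := by
    intro x
    have h4 : x ^ 4 = 1 := by rw [← hcard]; exact pow_card_eq_one'
    obtain ⟨g, hg⟩ := QuotientGroup.mk_surjective x.1
    have h4' : g ^ 4 ∈ Subgroup.center (Matrix.SpecialLinearGroup (Fin 2) F) := by
      rw [← QuotientGroup.eq_one_iff, QuotientGroup.mk_pow, hg]
      have := congrArg Subtype.val h4
      simpa using this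
    have h2' := H7.sl2_sq_mem_center h2sq g h4'
    apply Subtype.ext
    rw [Subgroup.coe_pow, ← hg, ← QuotientGroup.mk_pow]
    exact (QuotientGroup.eq_one_iff _).mpr h2'
  constructor
  · exact hcard
  · have hdvd : Monoid.exponent (P : Subgroup (Matrix.ProjectiveSpecialLinearGroup (Fin 2) F)) ∣ 2 :=
      Monoid.exponent_dvd_iff_forall_pow_eq_one.mpr hexp
    have hne1 : Monoid.exponent (P : Subgroup (Matrix.ProjectiveSpecialLinearGroup (Fin 2) F)) ≠ 1 := by
      intro h1
      rw [Monoid.exp_eq_one_iff] at h1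
      have := Nat.card_of_subsingleton (1 : (P : Subgroup (Matrix.ProjectiveSpecialLinearGroup (Fin 2) F)))
      omega
    exact ((Nat.dvd_prime Nat.prime_two).mp hdvd).resolve_left hne1

end Cfsg.Agent.S0276
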