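import Mathlib
import Cfsg.Statements.S0268

set_option autoImplicit false
open Cfsg

namespace Cfsg.Agent.S0268

/-- For q odd, -1 is the unique involution of SL_2(q). -/
theorem result {F : Type*} [Field F] [Fintype F] (hF : Odd (Fintype.card F)) (g : Matrix.SpecialLinearGroup (Fin 2) F) (h1 : g ≠ 1) (h2 : g * g = 1) : (g : Matrix (Fin 2) (Fin 2) F) = -1 := by
  have h2F : (2 : F) ≠ 0 := by
    intro h
    have hc : ringChar F = 2 := by
      have : CharP F 2 := CharTwo.of_one_ne_zero_of_two_eq_zero one_ne_zero h
      exact ringChar.eq F 2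
    have := FiniteField.even_card_of_char_two hc
    rcases hF with ⟨k, hk⟩
    omega
  have hdet : (g : Matrix (Fin 2) (Fin 2) F).det = 1 := g.2
  rw [Matrix.det_fin_two] at hdet
  have hm : (g : Matrix (Fin 2) (Fin 2) F) * (g : Matrix (Fin 2) (Fin 2) F) = 1 := by
    have := congrArg (fun x : Matrix.SpecialLinearGroup (Fin 2) F => (x : Matrix (Fin 2) (Fin 2) F)) h2
    simpa using this
  have e00 := congrFun (congrFun hm 0) 0
  have e01 := congrFun (congrFun hm 0) 1
  have e10 := congrFun (congrFun hm 1) 0
  have e11 := congrFun (congrFun hm 1) 1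
  simp only [Matrix.mul_apply, Fin.sum_univ_two, Matrix.one_apply_eq, Matrix.one_apply_ne,
    ne_eq, Fin.isValue, zero_ne_one, one_ne_zero, not_false_eq_true] at e00 e01 e10 e11
  set a := (g : Matrix (Fin 2) (Fin 2) F) 0 0 with ha
  set b := (g : Matrix (Fin 2) (Fin 2) F) 0 1 with hb
  set c := (g : Matrix (Fin 2) (Fin 2) F) 1 0 with hc
  set d := (g : Matrix (Fin 2) (Fin 2) F) 1 1 with hd
  -- (a + d) * a = 2
  have hs : (a + d) * a = 2 := by linear_combination e00 + hdet
  have had : a + d ≠ 0 := by
    intro h
    rw [h, zero_mul] at hs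
    exact h2F hs.symm
  have hb0 : b = 0 := by
    have : (a + d) * b = 0 := by linear_combination e01
    exact (mul_eq_zero.mp this).resolve_left had
  have hc0 : c = 0 := by
    have : (a + d) * c = 0 := by linear_combination e10
    exact (mul_eq_zero.mp this).resolve_left had
  have haa : a * a = 1 := by rw [hb0] at e00; linear_combination e00
  have hdd : d * d = 1 := by rw [hb0] at e11; linear_combination e11
  have hadd : a * d = 1 := by rw [hb0] at hdet; linear_combination hdet
  have had' : a = d := by
    have : a * (a - d) = 0 := by linear_combination haa - hadd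
    have ha0 : a ≠ 0 := by
      intro h; rw [h] at haa; simp at haa
    have := (mul_eq_zero.mp this).resolve_left ha0
    exact sub_eq_zero.mp this
  have ha1 : a = 1 ∨ a = -1 := by
    have : (a - 1) * (a + 1) = 0 := by linear_combination haa
    rcases mul_eq_zero.mp this with h | h
    · left; exact sub_eq_zero.mp h
    · right; exact eq_neg_of_add_eq_zero_left h
  rcases ha1 with h | h
  · exfalso
    apply h1
    ext i j
    fin_cases i <;> fin_cases j
    · simpa [ha] using h
    · simpa [hb] using hb0
    · simpa [hc] using hc0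
    · simpa [hd] using (had'.symm.trans h)
  · ext i j
    fin_cases i <;> fin_cases j
    · simpa [ha] using h
    · simpa [hb] using hb0
    · simpa [hc] using hc0
    · simpa [hd] using (had'.symm.trans h)

end Cfsg.Agent.S0268
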