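import Cfsg.Statements.S0985
import Cfsg.Agent.H21.Orbits

set_option autoImplicit false
open Cfsg

namespace Cfsg.Agent.S0985

/-- If the number of Sylow p-subgroups of a finite group is not congruent to 1 modulo p^k, then there are two distinct Sylow p-subgroups P and R such that the index of P ∩ R in P is at most p^(k-1). -/
theorem result {G : Type*} [Group G] [Finite G] (p k : ℕ) [Fact p.Prime] (h : ¬ Nat.card (Sylow p G) ≡ 1 [MOD p ^ k]) : ∃ P R : Sylow p G, P ≠ R ∧ ((R : Subgroup G).subgroupOf (P : Subgroup G)).index ≤ p ^ (k - 1) := by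
  have hp : p.Prime := Fact.out
  obtain ⟨P⟩ : Nonempty (Sylow p G) := inferInstance
  by_contra hcon
  push Not at hcon
  apply h
  refine Cfsg.Agent.H21.card_modEq_one_of_orbits (P := (P : Subgroup G)) (p ^ k) P ?_ ?_
  · intro g
    show (g : G) • P = P
    rw [Sylow.smul_eq_iff_mem_normalizer]
    exact Subgroup.le_normalizer g.2
  · intro R hR
    have hlt := hcon P R (Ne.symm hR)
    have hstab : MulAction.stabilizer (P : Subgroup G) R = (R : Subgroup G).subgroupOf (P : Subgroup G) := by
      have h1 : MulAction.stabilizer (P : Subgroup G) R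
          = (Subgroup.normalizer ((R : Subgroup G) : Set G)).subgroupOf (P : Subgroup G) := by
        ext g
        rw [MulAction.mem_stabilizer_iff, Subgroup.mem_subgroupOf]
        show (g : G) • R = R ↔ _
        rw [Sylow.smul_eq_iff_mem_normalizer]
        exact Iff.rfl
      rw [h1, Subgroup.subgroupOf_inj, inf_comm]
      have := P.2.inf_normalizer_sylow R
      rw [inf_comm (R : Subgroup G)]
      exact this
    rw [Nat.card_coe_set_eq, ← MulAction.index_stabilizer, hstab]
    obtain ⟨j, hj⟩ := P.2.index ((R : Subgroup G).subgroupOf (P : Subgroup G))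
    rw [hj] at hlt ⊢
    apply pow_dvd_pow
    by_contra hjk
    have : j ≤ k - 1 := by omega
    have := Nat.pow_le_pow_right hp.pos this
    omega

end Cfsg.Agent.S0985
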