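import Cfsg.Statements.S0801
import Cfsg.Agent.H29.Dk11

set_option autoImplicit false
open Cfsg

namespace Cfsg.Agent.S0801

open Matrix Cfsg.Agent.H65.SL2 Cfsg.Agent.H29.Dk

set_option maxHeartbeats 800000 in
/-- Dickson's generation theorem for the standard pair `uT 1`, `lT μ`. -/
theorem core {F : Type*} [Field F] [Fintype F] (h2 : (2 : F) ≠ 0) (μ : F) (hμ0 : μ ≠ 0)
    (hgen : Subfield.closure ({μ} : Set F) = ⊤) :
    (Subgroup.closure ({uT (1 : F), lT μ} : Set (Matrix.SpecialLinearGroup (Fin 2) F)) = ⊤ ∧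
      ¬ (Fintype.card F = 9 ∧ μ ^ 2 = -1)) ∨
    (Fintype.card F = 9 ∧ μ ^ 2 = -1 ∧
      Nat.card (Subgroup.closure
        ({uT (1 : F), lT μ} : Set (Matrix.SpecialLinearGroup (Fin 2) F))) = 120) := by
  classical
  obtain ⟨p, hchar⟩ := CharP.exists F
  have : Fact p.Prime := ⟨CharP.char_is_prime F p⟩
  have hp : p ≠ 2 := by
    rintro rfl
    apply h2
    have := CharP.cast_eq_zero F 2
    exact_mod_cast this
  obtain ⟨L, hL⟩ : ∃ L, L = Subgroup.closure
    ({uT (1 : F), lT μ} : Set (Matrix.SpecialLinearGroup (Fin 2) F)) := ⟨_, rfl⟩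
  rw [← hL]
  have h1 : uT (1 : F) ∈ L := by rw [hL]; exact Subgroup.subset_closure (by simp)
  have hl : lT μ ∈ L := by rw [hL]; exact Subgroup.subset_closure (by simp)
  rcases class_eq L p hp h1 hl hμ0 with hmain | ⟨hq, hexc⟩
  · have htop := main_top L p hp h1 hl hμ0 hgen hmain
    left
    refine ⟨htop, ?_⟩
    rintro ⟨hc9, hμ2⟩
    have hp3 : p = 3 := by
      obtain ⟨n, -, hn⟩ := FiniteField.card F p
      rw [hc9] at hn
      have hd : p ∣ 3 ^ 2 := by
        rw [show (3 : ℕ) ^ 2 = 9 by norm_num, hn]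
        exact dvd_pow_self p n.ne_zero
      exact (Nat.prime_dvd_prime_iff_eq Fact.out Nat.prime_three).1
        ((Fact.out : p.Prime).dvd_of_dvd_pow hd)
    subst hp3
    rw [hL] at htop
    exact f9_ne_top hμ2 htop
  · have h3 : (3 : F) = 0 := three_eq_zero_of L h1 hq
    have hp3 : p = 3 := by
      have h3' : ((3 : ℕ) : F) = 0 := by exact_mod_cast h3
      have hdvd := (CharP.cast_eq_zero_iff F p 3).1 h3'
      exact (Nat.prime_dvd_prime_iff_eq Fact.out Nat.prime_three).1 hdvd
    subst hp3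
    have hprime : (μ = 1 ∨ μ = -1) → (L = ⊤ ∧ ¬ (Fintype.card F = 9 ∧ μ ^ 2 = -1)) := by
      intro hμ
      have hμr : μ ∈ (io F).fieldRange := by
        rcases hμ with rfl | rfl
        · exact ⟨1, map_one _⟩
        · exact ⟨-1, by rw [map_neg, map_one]⟩
      have hle : Subfield.closure ({μ} : Set F) ≤ (io F).fieldRange := by
        rw [Subfield.closure_le]
        intro y hy
        rw [Set.mem_singleton_iff] at hy
        subst hy
        exact hμr
      rw [hgen] at hle
      have hall : ∀ s : F, uT s ∈ L := by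
        intro s
        obtain ⟨k, rfl⟩ := hle (Subfield.mem_top s)
        rcases zmod3_cases k with rfl | rfl | rfl
        · rw [map_zero, uT_zero]; exact L.one_mem
        · rw [map_one]; exact h1
        · rw [map_neg, map_one, uT_neg]; exact L.inv_mem h1
      refine ⟨top_of_all_uT L hμ0 hl hall, ?_⟩
      rintro ⟨_, hμ2⟩
      apply h2
      rcases hμ with rfl | rfl <;> linear_combination hμ2
    rcases exc_cases L 3 hp h1 hl hμ0 hq hexc with h | h | h | h | h
    · exact Or.inl (hprime (Or.inl h))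
    · exact Or.inl (hprime (Or.inr h))
    · exact (no_exc L h1 hl hq h2 h).elim
    · have hlm : lT (-μ) ∈ L := by rw [lT_neg]; exact L.inv_mem hl
      exact (no_exc L h1 hlm hq h2 (by linear_combination h)).elim
    · right
      refine ⟨f9_card h hgen, h, ?_⟩
      rw [hexc, borel_card12 L h1 hl hq h2 h]

/-- Let F be a finite field of odd characteristic and λ ≠ 0 an element generating F as a field. Then the lower and upper unitriangular matrices with off-diagonal entries 1 and λ generate SL_2(F), unless |F| = 9 and λ² = −1, in which case they generate a subgroup of order 120. -/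
theorem result {F : Type*} [Field F] [Fintype F] (h2 : (2 : F) ≠ 0) (lam : F) (hlam : lam ≠ 0) (hgen : Subfield.closure ({lam} : Set F) = ⊤) : (Subgroup.closure {g : Matrix.SpecialLinearGroup (Fin 2) F | (g : Matrix (Fin 2) (Fin 2) F) = !![1, 0; 1, 1] ∨ (g : Matrix (Fin 2) (Fin 2) F) = !![1, lam; 0, 1]} = ⊤ ∧ ¬ (Fintype.card F = 9 ∧ lam ^ 2 = -1)) ∨ (Fintype.card F = 9 ∧ lam ^ 2 = -1 ∧ Nat.card ↥(Subgroup.closure {g : Matrix.SpecialLinearGroup (Fin 2) F | (g : Matrix (Fin 2) (Fin 2) F) = !![1, 0; 1, 1] ∨ (g : Matrix (Fin 2) (Fin 2) F) = !![1, lam; 0, 1]}) = 120) := by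
  classical
  have hS : {g : Matrix.SpecialLinearGroup (Fin 2) F | (g : Matrix (Fin 2) (Fin 2) F) = !![1, 0; 1, 1] ∨ (g : Matrix (Fin 2) (Fin 2) F) = !![1, lam; 0, 1]} = {lT (1 : F), uT lam} := by
    ext g
    simp only [Set.mem_ofPred_eq, Set.mem_insert_iff, Set.mem_singleton_iff]
    constructor
    · rintro (h | h)
      · left; exact Subtype.ext h
      · right; exact Subtype.ext h
    · rintro (h | h)
      · left; rw [h]; rfl
      · right; rw [h]; rfl
  rw [hS]
  let w : Matrix.SpecialLinearGroup (Fin 2) F := ⟨!![0, 1; -1, 0], by simp [Matrix.det_fin_two_of]⟩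
  have hw00 : w.1 0 0 = 0 := rfl
  have hw01 : w.1 0 1 = 1 := rfl
  have hw10 : w.1 1 0 = -1 := rfl
  have hw11 : w.1 1 1 = 0 := rfl
  let e : Matrix.SpecialLinearGroup (Fin 2) F ≃* Matrix.SpecialLinearGroup (Fin 2) F := MulAut.conj w
  have e1 : e.toMonoidHom (lT 1) = uT (-1) := by
    show w * lT 1 * w⁻¹ = uT (-1)
    rw [mul_inv_eq_iff_eq_mul]
    apply ext4 <;>
      simp only [mul00, mul01, mul10, mul11, uT00, uT01, uT10, uT11, lT00, lT01, lT10, lT11,
        hw00, hw01, hw10, hw11] <;> ring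
  have e2 : e.toMonoidHom (uT lam) = lT (-lam) := by
    show w * uT lam * w⁻¹ = lT (-lam)
    rw [mul_inv_eq_iff_eq_mul]
    apply ext4 <;>
      simp only [mul00, mul01, mul10, mul11, uT00, uT01, uT10, uT11, lT00, lT01, lT10, lT11,
        hw00, hw01, hw10, hw11] <;> ring
  have hmap : (Subgroup.closure ({lT (1 : F), uT lam} : Set (Matrix.SpecialLinearGroup (Fin 2) F))).map
      e.toMonoidHom = Subgroup.closure ({uT (1 : F), lT (-lam)} : Set _) := by
    rw [MonoidHom.map_closure, Set.image_pair, e1, e2]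
    apply le_antisymm
    · rw [Subgroup.closure_le]
      rintro x (rfl | rfl)
      · rw [uT_neg]; exact Subgroup.inv_mem _ (Subgroup.subset_closure (by simp))
      · exact Subgroup.subset_closure (by simp)
    · rw [Subgroup.closure_le]
      rintro x (rfl | rfl)
      · have : uT (1 : F) = (uT (-1))⁻¹ := by rw [← uT_neg, neg_neg]
        rw [this]; exact Subgroup.inv_mem _ (Subgroup.subset_closure (by simp))
      · exact Subgroup.subset_closure (by simp)
  have hinj : Function.Injective e.toMonoidHom := e.injective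
  have htop : Subgroup.closure ({lT (1 : F), uT lam} : Set (Matrix.SpecialLinearGroup (Fin 2) F)) = ⊤ ↔
      Subgroup.closure ({uT (1 : F), lT (-lam)} : Set (Matrix.SpecialLinearGroup (Fin 2) F)) = ⊤ := by
    rw [← hmap]
    constructor
    · intro h; rw [h]; exact Subgroup.map_top_of_surjective _ e.surjective
    · intro h
      have := congrArg (Subgroup.comap e.toMonoidHom) h
      rwa [Subgroup.comap_map_eq_self_of_injective hinj, Subgroup.comap_top] at this
  have hcard : Nat.card (Subgroup.closure ({lT (1 : F), uT lam} : Set (Matrix.SpecialLinearGroup (Fin 2) F))) =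
      Nat.card (Subgroup.closure ({uT (1 : F), lT (-lam)} : Set (Matrix.SpecialLinearGroup (Fin 2) F))) := by
    rw [← hmap, Subgroup.card_map_of_injective hinj]
  have hμ2 : (-lam) ^ 2 = lam ^ 2 := by ring
  have hgen' : Subfield.closure ({-lam} : Set F) = ⊤ := by
    rw [eq_top_iff, ← hgen, Subfield.closure_le]
    intro x hx
    rw [Set.mem_singleton_iff] at hx
    rw [hx]
    have hm : -lam ∈ Subfield.closure ({-lam} : Set F) :=
      Subfield.subset_closure (Set.mem_singleton _)
    have hm' := neg_mem hm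
    rwa [neg_neg] at hm'
  rcases core h2 (-lam) (neg_ne_zero.2 hlam) hgen' with ⟨h, hn⟩ | ⟨hc, hm, hcd⟩
  · left
    rw [hμ2] at hn
    exact ⟨htop.2 h, hn⟩
  · right
    rw [hμ2] at hm
    exact ⟨hc, hm, by rw [hcard]; exact hcd⟩

end Cfsg.Agent.S0801
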