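import Cfsg.Statements.S0887
import Cfsg.Agent.Lib.CliffordCorr
import Cfsg.Agent.H4.Clifford
import Cfsg.Agent.Lib.Helper96.ProjLift

set_option autoImplicit false
open Cfsg

namespace Cfsg.Agent.S0887

open Cfsg.Agent Cfsg.Agent.H4

/-- Let N be a normal subgroup of the finite group G, χ an irreducible character of G and ϑ an irreducible character of N having nonzero inner product with the restriction of χ. If χ 1 = c and ϑ 1 = d as natural numbers, then d divides c and c / d divides the index of N. -/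
theorem result {G : Type*} [Group G] [Fintype G] (N : Subgroup G) [N.Normal] [Fintype N] (χ : G → ℂ) (hχ : Cfsg.IsIrrCharacter G χ) (ϑ : N → ℂ) (hϑ : Cfsg.IsIrrCharacter N ϑ) (hcon : Cfsg.classInner (fun n : N => χ n) ϑ ≠ 0) (c d : ℕ) (hc : χ 1 = c) (hd : ϑ 1 = d) : d ∣ c ∧ c / d ∣ N.index := by
  classical
  have hϑc := isCharacter_of_isIrrCharacter hϑ
  have hϑcf : IsClassFunction N ϑ := isClassFunction_of_isCharacter hϑc
  have hNT : N ≤ Clifford.inertia N ϑ := Clifford.le_inertia N hϑcf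
  letI : Fintype (Clifford.inertia N ϑ) := Fintype.ofFinite _
  obtain ⟨ψ, hψ, hind, hmult⟩ := Clifford.clifford_corr_surj hϑ hNT rfl hχ hcon
  have h1 : classInner (fun n : N => ψ ⟨n, hNT n.2⟩) ϑ ≠ 0 := by rw [hmult]; exact hcon
  have hsmul := Clifford.res_eq_smul_of_le_inertia hϑ hNT le_rfl hψ h1
  obtain ⟨e, he⟩ := classInner_isCharacter_nat
    (isCharacter_comp (Subgroup.inclusion hNT) (isCharacter_of_isIrrCharacter hψ)) hϑc
  have he' : classInner (fun n : N => ψ ⟨n, hNT n.2⟩) ϑ = e := he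
  rw [he'] at hsmul
  have hψ1 : ψ 1 = (e : ℂ) * d := by
    have := congrFun hsmul 1
    simp only [Pi.smul_apply, smul_eq_mul] at this
    rw [hd] at this
    exact this
  have hχ1 : χ 1 = ((Clifford.inertia N ϑ).index : ℂ) * ψ 1 := by
    rw [← hind]; exact indFun_one_eq _ ψ
  have hcN : c = (Clifford.inertia N ϑ).index * e * d := by
    rw [hc, hψ1] at hχ1
    exact_mod_cast hχ1.trans (mul_assoc _ _ _).symm
  obtain ⟨m, ρ, hρirr, hρχ⟩ := hψ
  obtain ⟨d', σ, hσirr, hσχ⟩ := hϑ
  haveI := hρirr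
  haveI := hσirr
  have hchar : ∀ n : N, ρ.character ⟨n, hNT n.2⟩ = (e : ℂ) * σ.character n := by
    intro n
    rw [hρχ, hσχ]
    have := congrFun hsmul n
    simp only [Pi.smul_apply, smul_eq_mul] at this
    exact this
  have hdvd := Lib.Helper96.mult_dvd_relIndex N (Clifford.inertia N ϑ) hNT ρ σ e hchar
  have hd0 : d ≠ 0 := by
    intro h0
    have h2 : σ.character 1 = Module.finrank ℂ (Fin d' → ℂ) := Representation.char_one σ
    rw [hσχ, hd, h0] at h2
    have h3 : Module.finrank ℂ (Fin d' → ℂ) = 0 := by exact_mod_cast h2.symm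
    have h4 := finrank_pos_of_irreducible σ
    omega
  refine ⟨⟨(Clifford.inertia N ϑ).index * e, by rw [hcN]; ring⟩, ?_⟩
  rw [hcN, Nat.mul_div_cancel _ (Nat.pos_of_ne_zero hd0), ← Subgroup.relIndex_mul_index hNT,
    mul_comm]
  exact Nat.mul_dvd_mul_right hdvd _

end Cfsg.Agent.S0887
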