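import Cfsg.Statements.S4723
import Cfsg.Agent.H79.HeightZeroInertia

set_option autoImplicit false
open Cfsg

namespace Cfsg.Agent.S4723

/-- Let p be a prime, M a maximal ideal of the algebraic integers containing p, H a normal subgroup of the finite group G and b a p-block of H. Let T be the stabilizer of b in G. Then b contains a character θ of height zero whose own stabilizer in G (the elements g with θ(g h g⁻¹) = θ(h) for all h ∈ H) has index prime to p in T, i.e. contains a Sylow p-subgroup of T. -/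
theorem result {G : Type*} [Group G] [Finite G] (p : ℕ) [Fact p.Prime] (M : Ideal Cfsg.AlgInt) (hM : Cfsg.IsPModular p M) (H : Subgroup G) [H.Normal] (b : Set (Cfsg.IrrCharacter ↥H)) (hb : Cfsg.IsPBlock M b) (T : Subgroup G) (hT : (∀ g : G, g ∈ T ↔ ∀ θ ∈ b, ∀ θ' : Cfsg.IrrCharacter ↥H, (∀ h h' : ↥H, (h' : G) = g * h * g⁻¹ → (θ' : ↥H → ℂ) h' = (θ : ↥H → ℂ) h) → θ' ∈ b)) : ∃ θ ∈ b, Cfsg.blockHeight p b (θ : ↥H → ℂ) = 0 ∧ ∃ S : Subgroup G, S ≤ T ∧ (∀ g : G, g ∈ S ↔ (g ∈ T ∧ ∀ h h' : ↥H, (h' : G) = g * h * g⁻¹ → (θ : ↥H → ℂ) h' = (θ : ↥H → ℂ) h)) ∧ ¬ p ∣ S.relIndex T := by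
  classical
  have hfG : Fintype G := Fintype.ofFinite G
  have hfH : Fintype H := Fintype.ofFinite H
  have hfT : Fintype T := Fintype.ofFinite T
  have hMp := Cfsg.Agent.H20.isPrime_of_isPModular hM
  obtain ⟨θ₀, rfl⟩ := hb
  -- conjugation by elements of `T` preserves the block
  have hconj : ∀ g : G, g ∈ T → ∀ θ : Cfsg.IrrCharacter H, θ ∈ Cfsg.blockOf M (θ₀ : H → ℂ) →
      Cfsg.Agent.H79.conjIrr H g⁻¹ θ ∈ Cfsg.blockOf M (θ₀ : H → ℂ) := by
    intro g hg θ hθ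
    apply (hT g).mp hg θ hθ
    intro h h' hh'
    rw [Cfsg.Agent.H79.conjIrr_apply]
    refine congrArg θ.1 (Subtype.ext ?_)
    show g⁻¹ * (h' : G) * g⁻¹⁻¹ = (h : G)
    rw [hh']
    group
  have hconj' : ∀ g : G, g ∈ T → ∀ θ : Cfsg.IrrCharacter H,
      (Cfsg.Agent.H79.conjIrr H g θ ∈ Cfsg.blockOf M (θ₀ : H → ℂ) ↔
        θ ∈ Cfsg.blockOf M (θ₀ : H → ℂ)) := by
    intro g hg θ
    constructor
    · intro h
      have h1 := hconj g hg _ h
      rw [Cfsg.Agent.H79.conjIrr_conjIrr, mul_inv_cancel, Cfsg.Agent.H79.conjIrr_one] at h1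
      exact h1
    · intro h
      have h1 := hconj g⁻¹ (T.inv_mem hg) θ h
      rw [inv_inv] at h1
      exact h1
  -- `H ≤ T`
  have hHT : H ≤ T := by
    intro x hx
    rw [hT]
    intro θ hθ θ' hθ'
    have : θ' = θ := by
      apply Subtype.ext
      funext h'
      have h1 := hθ' ⟨x⁻¹ * (h' : G) * x, by
        have := H.mul_mem (H.mul_mem (H.inv_mem hx) h'.2) hx
        exact this⟩ h' (by show (h' : G) = x * (x⁻¹ * (h' : G) * x) * x⁻¹; group)
      rw [h1]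
      have h2 := Cfsg.Agent.H4.irr_isClassFunction θ h' (⟨x, hx⟩ : H)⁻¹
      rw [← h2]
      refine congrArg θ.1 (Subtype.ext ?_)
      show x⁻¹ * (h' : G) * x = x⁻¹ * (h' : G) * x⁻¹⁻¹
      group
    rw [this]; exact hθ
  have hN' : (H.subgroupOf T).Normal := inferInstance
  have hfN' : Fintype (H.subgroupOf T) := Fintype.ofFinite _
  -- the block of `H.subgroupOf T` is `T`-stable
  have hbst : ∀ (g : T) (μ : Cfsg.IrrCharacter (H.subgroupOf T)),
      Cfsg.Agent.H79.conjIrr (H.subgroupOf T) g μ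
          ∈ Cfsg.blockOf M (Cfsg.Agent.H79.liftIrr T H hHT θ₀).1 ↔
        μ ∈ Cfsg.blockOf M (Cfsg.Agent.H79.liftIrr T H hHT θ₀).1 := by
    intro g μ
    obtain ⟨θ, rfl⟩ := Cfsg.Agent.H79.liftIrr_surjective T H hHT μ
    rw [Cfsg.Agent.H79.conjIrr_liftIrr]
    show Cfsg.SameBlock M _ _ ↔ Cfsg.SameBlock M _ _
    rw [Cfsg.Agent.H79.sameBlock_liftIrr, Cfsg.Agent.H79.sameBlock_liftIrr]
    exact hconj' (g : G) g.2 θ
  obtain ⟨μ, hμ, hmin, hidx⟩ := Cfsg.Agent.H79.exists_minimal_inertia (H.subgroupOf T) hM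
    (Cfsg.Agent.H79.liftIrr T H hHT θ₀) hbst
  obtain ⟨θ, rfl⟩ := Cfsg.Agent.H79.liftIrr_surjective T H hHT μ
  have hθb : θ ∈ Cfsg.blockOf M (θ₀ : H → ℂ) :=
    (Cfsg.Agent.H79.sameBlock_liftIrr T H hHT θ₀ θ).mp hμ
  refine ⟨θ, hθb, ?_, ?_⟩
  · -- height zero
    unfold Cfsg.blockHeight
    apply Nat.sub_eq_zero_of_le
    have hne : ((fun ψ : Cfsg.IrrCharacter H =>
        (Cfsg.charDegree (ψ : H → ℂ)).factorization p) '' Cfsg.blockOf M (θ₀ : H → ℂ)).Nonempty :=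
      ⟨_, θ, hθb, rfl⟩
    apply le_csInf hne
    rintro _ ⟨ψ, hψ, rfl⟩
    have h1 := hmin (Cfsg.Agent.H79.liftIrr T H hHT ψ)
      ((Cfsg.Agent.H79.sameBlock_liftIrr T H hHT θ₀ ψ).mpr hψ)
    rw [Cfsg.Agent.H79.charDegree_liftIrr, Cfsg.Agent.H79.charDegree_liftIrr] at h1
    exact h1
  · refine ⟨(Cfsg.Agent.Clifford.inertia (H.subgroupOf T)
      (Cfsg.Agent.H79.liftIrr T H hHT θ).1).map T.subtype, Subgroup.map_subtype_le _, ?_, ?_⟩
    · intro g
      constructor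
      · rintro ⟨t, ht, rfl⟩
        refine ⟨t.2, ?_⟩
        intro h h' hh'
        have h1 := congrFun ((Cfsg.Agent.Clifford.mem_inertia (H.subgroupOf T)).mp ht)
          ⟨⟨(h : G), hHT h.2⟩, h.2⟩
        rw [Cfsg.Agent.Clifford.conjChar_apply, Cfsg.Agent.H79.liftIrr_apply,
          Cfsg.Agent.H79.liftIrr_apply] at h1
        have e1 : (⟨(h : G), h.2⟩ : H) = h := Subtype.ext rfl
        rw [e1] at h1
        rw [← h1]
        refine congrArg θ.1 (Subtype.ext ?_)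
        exact hh'
      · rintro ⟨hgT, hg⟩
        refine ⟨⟨g, hgT⟩, ?_, rfl⟩
        show (⟨g, hgT⟩ : T) ∈ Cfsg.Agent.Clifford.inertia (H.subgroupOf T)
          (Cfsg.Agent.H79.liftIrr T H hHT θ).1
        rw [Cfsg.Agent.Clifford.mem_inertia]
        funext k
        rw [Cfsg.Agent.Clifford.conjChar_apply, Cfsg.Agent.H79.liftIrr_apply,
          Cfsg.Agent.H79.liftIrr_apply]
        exact hg _ _ rfl
    · have h1 : ((Cfsg.Agent.Clifford.inertia (H.subgroupOf T)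
          (Cfsg.Agent.H79.liftIrr T H hHT θ).1).map T.subtype).subgroupOf T
          = Cfsg.Agent.Clifford.inertia (H.subgroupOf T)
            (Cfsg.Agent.H79.liftIrr T H hHT θ).1 :=
        Subgroup.comap_map_eq_self_of_injective T.subtype_injective _
      unfold Subgroup.relIndex
      rw [h1]
      exact hidx

end Cfsg.Agent.S4723
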