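import Cfsg.Statements.S4657
import Cfsg.Agent.H80.Brauer

set_option autoImplicit false
set_option linter.style.haveILetI false
open Cfsg

namespace Cfsg.Agent.S4657

open Cfsg.Agent.H20 Cfsg.Agent.H4 Cfsg.Agent.H80

/-- Fix a prime p and a maximal ideal M of the algebraic integers containing p. Every Brauer pair (P, e) of the finite group G is a Brauer pair of exactly one p-block B of G. -/
theorem result {G : Type*} [Group G] [Fintype G] (p : ℕ) [Fact p.Prime] (M : Ideal Cfsg.AlgInt) (hM : Cfsg.IsPModular p M) (P : Subgroup G) (e : Set (Cfsg.IrrCharacter (Subgroup.centralizer (P : Set G)))) (hPe : Cfsg.IsBrauerPair p M P e) : ∃! B : Set (Cfsg.IrrCharacter G), Cfsg.IsBrauerPairOf p M B P e := by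
  classical
  haveI : Fintype ↥(Subgroup.centralizer (P : Set G)) := Fintype.ofFinite _
  have hMp := isPrime_of_isPModular hM
  obtain ⟨hP, ξ₀, rfl⟩ := hPe
  have hmem : ∀ B : Set (IrrCharacter G), IsPBlock M B → blockElt B ∈ brRing P hMp := by
    rintro B ⟨χ, rfl⟩
    exact cfSubring_le_brRing P hMp (blockElt_mem hMp χ)
  have hbo : ∀ (B : Set (IrrCharacter G)) (ξ : Subgroup.centralizer (P : Set G) → ℂ),
      brauerOmega P (blockCoeff B) ξ = brLam P ξ (blockElt B) := fun B ξ =>
    brauerOmega_eq P (blockCoeff B) (blockElt B) (fun g => (coeff_blockElt B g).symm) ξ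
  have hsum : MemLocalIdeal M (∑ B ∈ blocksFinset M G, brLam P ξ₀.1 (blockElt B) - 1) := by
    rw [← brLam_sum, sum_blockElt_blocks hMp, brLam_one, sub_self]
    exact memLocalIdeal_zero hMp
  obtain ⟨B, hB, hBn⟩ := exists_brLam_not_mem P hMp (blocksFinset M G) (fun B => blockElt B)
    ξ₀.1 hsum
  have hBblock : IsPBlock M B := mem_blocksFinset.mp hB
  have hB1 := brLam_idem P p hM hP (hmem B hBblock) (blockElt_mul_self B) ξ₀ hBn
  refine ⟨B, ⟨⟨hP, ξ₀, rfl⟩, hBblock, fun ξ hξ => ?_⟩, ?_⟩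
  · rw [hbo]
    have h1 := brLam_congr_block P (hmem B hBblock) (ξ := ξ) (ξ' := ξ₀) (sameBlock_symm hξ)
    have := memLocalIdeal_add hMp h1 hB1
    rwa [sub_add_sub_cancel] at this
  · rintro B' ⟨-, hB'block, hB'⟩
    by_contra hne
    have h2 := hB' ξ₀ (mem_blockOf_self hMp ξ₀)
    rw [hbo] at h2
    have hzero : blockElt B * blockElt B' = 0 := by
      rw [blockElt_mul_blockElt, blocks_inter_eq_empty hMp hBblock hB'block (Ne.symm hne),
        blockElt_empty]
    exact brLam_orth P p hM hP (hmem B hBblock) (hmem B' hB'block) hzero ξ₀ hB1 h2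

end Cfsg.Agent.S4657
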