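import Cfsg.Statements.S0888
import Cfsg.Agent.Lib.CliffordCorr
import Cfsg.Agent.H4.Clifford
import Cfsg.Agent.Lib.Helper96.ProjLift2

set_option autoImplicit false
open Cfsg

namespace Cfsg.Agent.S0888

open Cfsg.Agent Cfsg.Agent.H4

/-- Let N be a normal subgroup of the finite group G and ϑ an irreducible character of N invariant under conjugation by G. Suppose that for every prime p there are a subgroup P containing N, of index prime to p and with the index of N in P a power of p, and an irreducible character of P restricting to ϑ. Then ϑ is the restriction of an irreducible character of G. -/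
theorem result {G : Type*} [Group G] [Finite G] (N : Subgroup G) [hN : N.Normal] (ϑ : N → ℂ) (hϑ : Cfsg.IsIrrCharacter N ϑ) (hinv : ∀ (g : G) (n : N), ϑ ⟨g * n * g⁻¹, hN.conj_mem (n : G) n.2 g⟩ = ϑ n) (hsyl : ∀ p : ℕ, p.Prime → ∃ (P : Subgroup G) (hNP : N ≤ P) (η : P → ℂ), Nat.Coprime P.index p ∧ (∃ k : ℕ, N.relIndex P = p ^ k) ∧ Cfsg.IsIrrCharacter P η ∧ ∀ n : N, η ⟨(n : G), hNP n.2⟩ = ϑ n) : ∃ χ : G → ℂ, Cfsg.IsIrrCharacter G χ ∧ ∀ n : N, χ n = ϑ n := by
  classical
  haveI := Fintype.ofFinite G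
  haveI : Fintype N := Fintype.ofFinite N
  obtain ⟨d', σ, hσirr, hσχ⟩ := hϑ
  haveI := hσirr
  have hinv' : ∀ (g : G) (n : N), σ.character (Lib.Helper96.cjG N g n) = σ.character n := by
    intro g n
    rw [hσχ]
    exact hinv g n
  have hmem : ∀ p : ℕ, p.Prime → ∃ P : Subgroup G, Nat.Coprime P.index p ∧
      ((P.index : ℕ) : ℤ) ∈ Lib.Helper96.expSet N σ := by
    intro p hp
    obtain ⟨P, hNP, η, hcop, -, hη, hηϑ⟩ := hsyl p hp
    refine ⟨P, hcop, ?_⟩
    obtain ⟨m, ρ, hρ⟩ := isCharacter_indFun P η (isCharacter_of_isIrrCharacter hη)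
    apply Lib.Helper96.natCast_mem_expSet N σ ρ P.index
    intro n
    rw [hρ, hσχ]
    have h1 := congrFun (Clifford.indFun_res_of_le hNP η) n
    have h2 : (fun n : N => η ⟨n, hNP n.2⟩) = ϑ := funext hηϑ
    have h3 : ∀ x : G, Clifford.conjChar N ϑ x = ϑ := by
      intro x
      funext n
      rw [Clifford.conjChar_apply]
      exact hinv x n
    rw [h2] at h1
    have h4 : (∑ x : G, Clifford.conjChar N ϑ x) n = (Fintype.card G : ℂ) * ϑ n := by
      rw [Finset.sum_apply]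
      simp only [h3, Finset.sum_const, Finset.card_univ, nsmul_eq_mul]
    rw [Pi.smul_apply, h4, smul_eq_mul] at h1
    rw [h1, ← Nat.card_eq_fintype_card, ← Subgroup.card_mul_index P]
    have hP0 : (Nat.card P : ℂ) ≠ 0 := (neZero_card_complex P).out
    push_cast
    field_simp
  obtain ⟨a, ha⟩ := Int.subgroup_cyclic (Lib.Helper96.expSet N σ)
  rw [← AddSubgroup.zmultiples_eq_closure] at ha
  have hdvd : ∀ p : ℕ, p.Prime → ∃ P : Subgroup G, Nat.Coprime P.index p ∧ a ∣ (P.index : ℤ) := by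
    intro p hp
    obtain ⟨P, hcop, hP⟩ := hmem p hp
    rw [ha, Int.mem_zmultiples_iff] at hP
    exact ⟨P, hcop, hP⟩
  have ha1 : a.natAbs = 1 := by
    by_contra hne
    obtain ⟨p, hp, hpa⟩ := Nat.exists_prime_and_dvd hne
    obtain ⟨P, hcop, hP⟩ := hdvd p hp
    have h3 : a.natAbs ∣ P.index := by
      have := Int.natAbs_dvd_natAbs.mpr hP
      simpa using this
    have h4 : p ∣ P.index := hpa.trans h3
    have h5 : p ∣ Nat.gcd P.index p := Nat.dvd_gcd h4 dvd_rfl
    rw [hcop] at h5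
    exact hp.one_lt.ne' (Nat.dvd_one.mp h5)
  have h1 : (1 : ℤ) ∈ Lib.Helper96.expSet N σ := by
    rw [ha, Int.mem_zmultiples_iff]
    exact Int.natAbs_dvd_natAbs.mp (by rw [ha1]; simp)
  obtain ⟨τ, hτ⟩ := Lib.Helper96.ext_of_one_mem N σ hinv' h1
  have hτirr : τ.IsIrreducible := by
    rw [isIrreducible_iff]
    obtain ⟨hW, hσ2⟩ := (isIrreducible_iff σ).mp hσirr
    refine ⟨hW, fun U hU => hσ2 U (fun n v hv => ?_)⟩
    rw [← hτ n]
    exact hU n v hv
  refine ⟨τ.character, isIrrCharacter_of_irreducible τ hτirr, fun n => ?_⟩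
  rw [← hσχ]
  show LinearMap.trace ℂ _ (τ n) = LinearMap.trace ℂ _ (σ n)
  rw [hτ n]

end Cfsg.Agent.S0888
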