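-- Statement S3972: Burnside's theorem on regular cyclic subgroups of composite prime-power order (helper74).
import Cfsg.Statements.S3972
import Cfsg.Agent.H74.SRingBurnside

set_option autoImplicit false
open Cfsg

namespace Cfsg.Agent.S3972

open Cfsg.Agent.H74.SR
open scoped Pointwise

/-- Let `p` be a prime, `m ≥ 2`, and `G` a transitive but not doubly transitive permutation group on `p ^ m` points containing a permutation of order `p ^ m` (necessarily a full cycle). Then `G` is imprimitive, and the normal closure in `G` of the `p ^ (m - 1)`-th power of that permutation is an intransitive normal subgroup. -/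
theorem result {Ω : Type*} [Fintype Ω] [DecidableEq Ω] (p m : ℕ) (hp : p.Prime) (hm : 2 ≤ m) (hΩ : Fintype.card Ω = p ^ m) (G : Subgroup (Equiv.Perm Ω)) (htr : MulAction.IsPretransitive G Ω) (h2 : ¬ MulAction.IsMultiplyPretransitive G Ω 2) (g : G) (hg : orderOf g = p ^ m) : ¬ MulAction.IsPreprimitive G Ω ∧ ¬ MulAction.IsPretransitive (Subgroup.normalClosure ({g ^ (p ^ (m - 1))} : Set G)) Ω := by
  haveI : NeZero (p ^ m) := ⟨(pow_pos hp.pos m).ne'⟩
  -- z ≠ 1
  have hz1 : g ^ (p ^ (m - 1)) ≠ 1 := by
    intro h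
    have h1 := orderOf_dvd_of_pow_eq_one h
    rw [hg] at h1
    have h2' : p ^ m ≤ p ^ (m - 1) := Nat.le_of_dvd (pow_pos hp.pos _) h1
    have h3 : p ^ (m - 1) < p ^ m := Nat.pow_lt_pow_right hp.one_lt (by omega)
    omega
  -- a point moved by z
  obtain ⟨ω₀, hω₀⟩ : ∃ ω₀ : Ω, g ^ (p ^ (m - 1)) • ω₀ ≠ ω₀ := by
    by_contra hcon
    push_neg at hcon
    apply hz1
    apply Subtype.ext
    apply Equiv.ext
    intro ω
    exact hcon ω
  have hper : MulAction.period g ω₀ = p ^ m := by
    have h1 : MulAction.period g ω₀ ∣ p ^ m := hg ▸ MulAction.period_dvd_orderOf g ω₀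
    obtain ⟨k, hk, hk'⟩ := (Nat.dvd_prime_pow hp).1 h1
    rcases Nat.lt_or_ge k m with hlt | hge
    · exfalso
      apply hω₀
      rw [MulAction.pow_smul_eq_iff_period_dvd, hk']
      exact pow_dvd_pow p (by omega)
    · have : k = m := le_antisymm hk hge
      rw [hk', this]
  have hinj : ∀ a b : ℕ, a < p ^ m → b < p ^ m → g ^ a • ω₀ = g ^ b • ω₀ → a = b := by
    have key : ∀ a b : ℕ, a ≤ b → b < p ^ m → g ^ a • ω₀ = g ^ b • ω₀ → a = b := by
      intro a b hab hb h
      have h1 : g ^ (b - a) • ω₀ = ω₀ := by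
        have : g ^ b = g ^ a * g ^ (b - a) := by rw [← pow_add]; congr 1; omega
        rw [this, mul_smul] at h
        exact (smul_left_cancel _ h).symm
      rw [MulAction.pow_smul_eq_iff_period_dvd, hper] at h1
      have : b - a = 0 := Nat.eq_zero_of_dvd_of_lt h1 (by omega)
      omega
    intro a b ha hb h
    rcases le_total a b with hab | hab
    · exact key a b hab hb h
    · exact (key b a hab ha h.symm).symm
  have hcn : g ^ (p ^ m) = 1 := by rw [← hg]; exact pow_orderOf_eq_one g
  have hcard : p ^ m = Nat.card Ω := by rw [Nat.card_eq_fintype_card, hΩ]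
  let S : CSetup G Ω (p ^ m) := CSetup.ofRegular g ω₀ hcard hcn hinj
  have hnotprim : ¬ MulAction.IsPreprimitive G Ω := by
    intro hprim
    exact h2 (two_trans_of S (fun i j hi hj => burnside_trans (S := S) hp hm rfl i j hi hj))
  refine ⟨hnotprim, ?_⟩
  intro hNtr
  -- a nontrivial block
  obtain ⟨B, hB, hBnt⟩ : ∃ B : Set Ω, MulAction.IsBlock G B ∧ ¬ MulAction.IsTrivialBlock B := by
    by_contra hcon
    push_neg at hcon
    exact hnotprim
      { toIsPretransitive := htr, isTrivialBlock_of_isBlock := fun {B} hB => hcon B hB }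
  -- key: z stabilizes every block with two distinct points
  have hkey : ∀ B' : Set Ω, MulAction.IsBlock G B' → ¬ B'.Subsingleton →
      g ^ (p ^ (m - 1)) • B' = B' := by
    intro B' hB' hns
    rw [Set.not_subsingleton_iff] at hns
    obtain ⟨a, ha, b, hb, hab⟩ := hns
    obtain ⟨i, hi⟩ : ∃ i, S.e i = a := S.e.surjective a
    obtain ⟨j, hj⟩ : ∃ j, S.e j = b := S.e.surjective b
    have hij : j - i ≠ 0 := by
      intro h
      apply hab
      have : i = j := (sub_eq_zero.1 h).symm
      rw [← hi, ← hj, this]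
    obtain ⟨k, hk⟩ : ∃ k : ℕ, k = (j - i).val := ⟨_, rfl⟩
    have hk0 : 0 < k := by
      rw [hk]; exact Nat.pos_of_ne_zero (fun h => hij ((ZMod.val_eq_zero _).1 h))
    have hklt : k < p ^ m := by rw [hk]; exact ZMod.val_lt _
    have hgk : g ^ k • a = b := by
      have h1 : S.act (g ^ k) i = i + (k : ZMod (p ^ m)) := S.act_c_pow k i
      have h2 : S.e (S.act (g ^ k) i) = g ^ k • S.e i := S.e_act _ _
      rw [h1, hk, ZMod.natCast_zmod_val, add_sub_cancel, hi, hj] at h2
      rw [hk]; exact h2.symm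
    have hstab : g ^ k ∈ MulAction.stabilizer G B' := by
      rw [MulAction.mem_stabilizer_iff]
      exact (MulAction.isBlock_iff_smul_eq_of_mem.1 hB') ha (hgk ▸ hb)
    have hd : g ^ (Nat.gcd k (p ^ m)) ∈ MulAction.stabilizer G B' := by
      have h1 : (g ^ (Nat.gcd k (p ^ m)) : G) = (g ^ k) ^ (Nat.gcdA k (p ^ m)) := by
        rw [← zpow_natCast g (Nat.gcd k (p ^ m)), Nat.gcd_eq_gcd_ab, zpow_add, zpow_mul,
          zpow_mul, zpow_natCast, zpow_natCast, hcn, one_zpow, mul_one]
      rw [h1]
      exact Subgroup.zpow_mem _ hstab _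
    obtain ⟨e, he, he'⟩ := (Nat.dvd_prime_pow hp).1 (Nat.gcd_dvd_right k (p ^ m))
    have helt : e < m := by
      by_contra hcon
      have hem : e = m := by omega
      rw [hem] at he'
      have : p ^ m ≤ k := he' ▸ Nat.gcd_le_left _ hk0
      omega
    have hz : g ^ (p ^ (m - 1)) ∈ MulAction.stabilizer G B' := by
      have : g ^ (p ^ (m - 1)) = (g ^ (Nat.gcd k (p ^ m))) ^ (p ^ (m - 1 - e)) := by
        rw [← pow_mul, he', ← pow_add]; congr 2; omega
      rw [this]
      exact Subgroup.pow_mem _ hd _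
    exact MulAction.mem_stabilizer_iff.1 hz
  -- the kernel of the action on the block system
  let K : Subgroup G :=
    { carrier := {x | ∀ h : G, x • (h • B) = h • B}
      one_mem' := fun h => one_smul _ _
      mul_mem' := fun {x y} hx hy h => by rw [mul_smul, hy h, hx h]
      inv_mem' := fun {x} hx h => by
        have := hx h
        rw [inv_smul_eq_iff]; exact this.symm }
  have hKn : K.Normal := ⟨fun x hx y h => by
    show (y * x * y⁻¹) • (h • B) = h • B
    have := hx (y⁻¹ * h)
    rw [mul_smul, mul_smul, ← mul_smul y⁻¹ h B, this, mul_smul, smul_inv_smul]⟩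
  have hBns : ¬ B.Subsingleton := fun h => hBnt (Or.inl h)
  have hBuniv : B ≠ Set.univ := fun h => hBnt (Or.inr h)
  have hzK : g ^ (p ^ (m - 1)) ∈ K := by
    intro h
    apply hkey (h • B) (hB.translate h)
    intro hsub
    apply hBns
    intro a ha b hb
    have := hsub (Set.smul_mem_smul_set (a := h) ha) (Set.smul_mem_smul_set (a := h) hb)
    exact smul_left_cancel h this
  have hNK : Subgroup.normalClosure ({g ^ (p ^ (m - 1))} : Set G) ≤ K :=
    Subgroup.normalClosure_le_normal (Set.singleton_subset_iff.2 hzK)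
  rw [Set.not_subsingleton_iff] at hBns
  obtain ⟨a, ha, -⟩ := hBns
  obtain ⟨c, hc⟩ : ∃ c, c ∉ B := by
    by_contra hcon
    push_neg at hcon
    exact hBuniv (Set.eq_univ_of_forall hcon)
  obtain ⟨ν, hν⟩ := hNtr.exists_smul_eq a c
  have h1 := hNK ν.2 1
  rw [one_smul] at h1
  apply hc
  rw [← h1, ← hν]
  exact Set.smul_mem_smul_set ha
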