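import Cfsg.Statements.S1486
import Cfsg.Agent.H31.Char
import Cfsg.Agent.S1485

set_option autoImplicit false
open Cfsg

namespace Cfsg.Agent.S1486

open Cfsg.Agent.H31
open scoped ComplexConjugate

/-- Let H be a normal subgroup of the finite group G and θ, φ irreducible characters of H. If φ is a G-conjugate of θ then the functions induced from θ and φ coincide; if φ is not a G-conjugate of θ then the induced functions are orthogonal. -/
theorem result {G : Type*} [Group G] [Fintype G] (H : Subgroup G) [hN : H.Normal] (θ φ : H → ℂ) (hθ : Cfsg.IsIrrCharacter H θ) (hφ : Cfsg.IsIrrCharacter H φ) : ((∃ g : G, φ = fun h : H => θ ⟨g * h * g⁻¹, hN.conj_mem h h.2 g⟩) → Cfsg.indFun H φ = Cfsg.indFun H θ) ∧ ((¬ ∃ g : G, φ = fun h : H => θ ⟨g * h * g⁻¹, hN.conj_mem h h.2 g⟩) → Cfsg.classInner (Cfsg.indFun H φ) (Cfsg.indFun H θ) = 0) := by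
  classical
  constructor
  · rintro ⟨g, rfl⟩
    funext y
    unfold Cfsg.indFun
    congr 1
    rw [← Equiv.sum_comp (Equiv.mulRight g⁻¹) (fun x => Cfsg.extendByZero H θ (x⁻¹ * y * x))]
    apply Finset.sum_congr rfl
    intro x _
    simp only [Equiv.coe_mulRight]
    by_cases hx : x⁻¹ * y * x ∈ H
    · have hx' : (x * g⁻¹)⁻¹ * y * (x * g⁻¹) ∈ H := by
        have := hN.conj_mem _ hx g
        convert this using 1
        group
      rw [extendByZero_mem H _ _ hx, extendByZero_mem H _ _ hx']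
      congr 1
      apply Subtype.ext
      simp only
      group
    · have hx' : (x * g⁻¹)⁻¹ * y * (x * g⁻¹) ∉ H := by
        intro h
        apply hx
        have := hN.conj_mem _ h g⁻¹
        convert this using 1
        group
      rw [extendByZero_not_mem H _ _ hx, extendByZero_not_mem H _ _ hx']
  · intro hnc
    have hfinH : Fintype H := Fintype.ofFinite H
    unfold Cfsg.classInner
    have hcl : ∀ y z : G, conj (Cfsg.indFun H θ (z * y * z⁻¹)) = conj (Cfsg.indFun H θ y) := by
      intro y z; rw [indFun_conj]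
    rw [sum_indFun_mul H φ (fun g => conj (Cfsg.indFun H θ g)) hcl]
    have hres := Cfsg.Agent.S1485.result H θ hθ
    have hres' : ∀ h : H, Cfsg.indFun H θ h =
        ((Nat.card {g : G // ∀ h : H, θ ⟨g * h * g⁻¹, hN.conj_mem h h.2 g⟩ = θ h} : ℂ) / (Nat.card H : ℂ)) *
          ∑ ψ ∈ Finset.univ.image (fun g : G => fun h : H => θ ⟨g * h * g⁻¹, hN.conj_mem h h.2 g⟩), ψ h := by
      intro h
      have h1 := congrFun hres h
      have hS : {ψ : H → ℂ | ∃ g : G, ψ = fun h : H => θ ⟨g * h * g⁻¹, hN.conj_mem h h.2 g⟩} =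
          ↑(Finset.univ.image (fun g : G => fun h : H => θ ⟨g * h * g⁻¹, hN.conj_mem h h.2 g⟩)) := by
        ext ψ
        simp only [Set.mem_ofPred_eq, Finset.coe_image, Finset.coe_univ, Set.image_univ, Set.mem_range]
        constructor
        · rintro ⟨g, rfl⟩; exact ⟨g, rfl⟩
        · rintro ⟨g, rfl⟩; exact ⟨g, rfl⟩
      rw [hS, finsum_mem_coe_finset] at h1
      simp only [Pi.smul_apply, smul_eq_mul, Finset.sum_apply] at h1
      exact h1
    have hzero : ∑ h : H, φ h * conj (Cfsg.indFun H θ h) = 0 := by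
      simp only [hres', map_mul, map_sum]
      simp only [Finset.mul_sum]
      rw [Finset.sum_comm]
      apply Finset.sum_eq_zero
      intro ψ hψ
      obtain ⟨g, -, rfl⟩ := Finset.mem_image.mp hψ
      have hirr := conj_irr H θ hθ g
      have hne : φ ≠ (fun h : H => θ ⟨g * h * g⁻¹, hN.conj_mem h h.2 g⟩) := fun h => hnc ⟨g, h⟩
      have h0 := irr_sum_mul_conj_eq_zero φ _ hφ hirr hne
      have : ∀ h : H, φ h * (conj ((Nat.card {g : G // ∀ h : H, θ ⟨g * h * g⁻¹, hN.conj_mem h h.2 g⟩ = θ h} : ℂ) / (Nat.card H : ℂ)) * conj (θ ⟨g * h * g⁻¹, hN.conj_mem h h.2 g⟩)) =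
          conj ((Nat.card {g : G // ∀ h : H, θ ⟨g * h * g⁻¹, hN.conj_mem h h.2 g⟩ = θ h} : ℂ) / (Nat.card H : ℂ)) * (φ h * conj (θ ⟨g * h * g⁻¹, hN.conj_mem h h.2 g⟩)) := by
        intro h; ring
      rw [Finset.sum_congr rfl (fun h _ => this h), ← Finset.mul_sum, h0, mul_zero]
    rw [hzero]
    simp

end Cfsg.Agent.S1486
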