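import Cfsg.Statements.S0174
import Cfsg.Agent.H4.Chars
import Cfsg.Agent.H4.Induction
import Cfsg.Agent.H83.Gagola2
import Cfsg.Agent.S1486

set_option autoImplicit false
open Cfsg

namespace Cfsg.Agent.S0174

open Cfsg.Agent.H4
open scoped ComplexConjugate

/-- Two characters with inner product zero have no common irreducible constituent. -/
theorem disjoint_of_inner_zero {G : Type*} [Group G] [Fintype G] {α β : G → ℂ}
    (hα : IsCharacter G α) (hβ : IsCharacter G β) (h0 : classInner α β = 0)
    (χ : IrrCharacter G) : classInner α χ.1 = 0 ∨ classInner β χ.1 = 0 := by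
  classical
  letI := fintypeIrr G
  obtain ⟨m, hm⟩ := isCharacter_iff.mp hα
  have hn : ∀ ψ : IrrCharacter G, ∃ n : ℕ, classInner ψ.1 β = n := fun ψ =>
    classInner_isCharacter_nat (isCharacter_of_isIrrCharacter ψ.2) hβ
  choose n hn using hn
  have h1 : classInner α β = ((∑ ψ : IrrCharacter G, m ψ * n ψ : ℕ) : ℂ) := by
    rw [hm, finsum_irr_eq_sum, classInner_sum_left]
    push_cast
    refine Finset.sum_congr rfl fun ψ _ => ?_
    rw [classInner_smul_left, hn]
  rw [h0] at h1
  have h2 : (∑ ψ : IrrCharacter G, m ψ * n ψ : ℕ) = 0 := by exact_mod_cast h1.symm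
  have h3 : m χ * n χ = 0 := by
    have := (Finset.sum_eq_zero_iff (s := (Finset.univ : Finset (IrrCharacter G)))
      (f := fun ψ => m ψ * n ψ)).mp h2 χ (Finset.mem_univ χ)
    exact this
  have h4 : classInner α χ.1 = m χ := by rw [hm, classInner_finsum_irr]
  have h5 : classInner β χ.1 = n χ := by
    rw [← classInner_conj_symm, hn, Complex.conj_natCast]
  rcases Nat.mul_eq_zero.mp h3 with h | h
  · left; rw [h4, h]; simp
  · right; rw [h5, h]; simp

/-- The Clifford Theorem for characters: if θ is an irreducible character of a finite group G, N is a normal subgroup and χ is an irreducible character of N occurring in the restriction of θ, then θ restricted to N equals e times the sum of the distinct G-conjugates of χ, where e is the inner product of the restriction with χ. -/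
theorem result {G : Type*} [Group G] [Fintype G] (N : Subgroup G) [Fintype N] (hN : N.Normal) (θ : G → ℂ) (hθ : Cfsg.IsIrrCharacter G θ) (χ : N → ℂ) (hχ : Cfsg.IsIrrCharacter N χ) (hconst : Cfsg.classInner (fun n : N => θ n) χ ≠ 0) : (fun n : N => θ n) = Cfsg.classInner (fun n : N => θ n) χ • ∑ᶠ ψ ∈ {ψ : N → ℂ | ∃ g : G, ψ = fun n : N => χ ⟨g * n * g⁻¹, hN.conj_mem n n.2 g⟩}, ψ := by
  classical
  haveI : N.Normal := hN
  letI := fintypeIrr N
  set θN : N → ℂ := fun n : N => θ n with hθN
  set S : Set (N → ℂ) := {ψ : N → ℂ | ∃ g : G, ψ = fun n : N => χ ⟨g * n * g⁻¹, hN.conj_mem n n.2 g⟩}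
    with hS
  have hcfθ : IsClassFunction G θ := irr_isClassFunction ⟨θ, hθ⟩
  have hθNchar : IsCharacter N θN := isCharacter_restrict N (isCharacter_of_isIrrCharacter hθ)
  have hcfθN : IsClassFunction N θN := isClassFunction_of_isCharacter hθNchar
  -- elements of S are irreducible
  have hSirr : ∀ ψ ∈ S, IsIrrCharacter N ψ := by
    rintro ψ ⟨g, rfl⟩
    exact Cfsg.Agent.H83.isIrrCharacter_comp_mulEquiv (MulAut.conjNormal g : N ≃* N) hχ
  -- Step C
  have hC : ∀ ψ ∈ S, classInner θN ψ = classInner θN χ := by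
    rintro ψ ⟨g, rfl⟩
    unfold classInner
    congr 1
    rw [← Equiv.sum_comp (MulAut.conjNormal g : N ≃* N).toEquiv
      (fun m : N => θN m * conj (χ m))]
    refine Finset.sum_congr rfl fun n _ => ?_
    have h1 : θN ((MulAut.conjNormal g : N ≃* N).toEquiv n) = θN n := by
      simp only [hθN]
      have := hcfθ (n : G) g
      rw [← this]
      rfl
    rw [h1]
    rfl
  -- Step B
  have hB : ∀ ψ : IrrCharacter N, ψ.1 ∉ S → classInner θN ψ.1 = 0 := by
    intro ψ hψ
    have h0 := (Cfsg.Agent.S1486.result N χ ψ.1 hχ ψ.2).2 hψ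
    have h1 := disjoint_of_inner_zero
      (isCharacter_indFun N ψ.1 (isCharacter_of_isIrrCharacter ψ.2))
      (isCharacter_indFun N χ (isCharacter_of_isIrrCharacter hχ)) h0 ⟨θ, hθ⟩
    rw [frobenius_reciprocity N ψ.1 θ hcfθ, frobenius_reciprocity N χ θ hcfθ] at h1
    rcases h1 with h | h
    · rw [← classInner_conj_symm, h, map_zero]
    · exfalso
      apply hconst
      rw [← classInner_conj_symm, h, map_zero]
  -- Step D
  have hSfin : S = ↑((Finset.univ.filter (fun ψ : IrrCharacter N => ψ.1 ∈ S)).image Subtype.val) := by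
    ext ψ
    simp only [Finset.coe_image, Finset.coe_filter, Finset.mem_univ, true_and, Set.mem_image,
      Set.mem_setOf_eq]
    constructor
    · intro h; exact ⟨⟨ψ, hSirr ψ h⟩, h, rfl⟩
    · rintro ⟨ψ', h, rfl⟩; exact h
  have hdecomp := classFunction_eq_finsum hcfθN
  rw [finsum_irr_eq_sum] at hdecomp
  rw [hSfin, finsum_mem_coe_finset, Finset.sum_image (fun a _ b _ h => Subtype.ext h),
    Finset.smul_sum, Finset.sum_filter]
  conv_lhs => rw [hdecomp]
  refine Finset.sum_congr rfl fun ψ _ => ?_
  split_ifs with h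
  · rw [hC ψ.1 h]
  · rw [hB ψ h, zero_smul]

end Cfsg.Agent.S0174
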