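import Cfsg.Statements.S0300
import Cfsg.Agent.H17.O4MinusB
import Cfsg.Agent.S0288
import Cfsg.Agent.H18.Spin
import Cfsg.Agent.H7.OmegaMinus
import Cfsg.Agent.H7.Omega4
import Cfsg.Agent.H7.PSL2
import Cfsg.Agent.H7.SL2

set_option autoImplicit false
open Cfsg

namespace Cfsg.Agent.S0300

/-- PΩ^-_4(q) is isomorphic to PSL_2(q^2). -/
theorem result {F K : Type*} [Field F] [Fintype F] [Field K] [Fintype K] {q : ℕ} (hF : Fintype.card F = q) (hK : Fintype.card K = q ^ 2) (a b : F) (hab : ∀ z₁ z₂ : F, z₁ ^ 2 + a * z₁ * z₂ + b * z₂ ^ 2 = 0 → z₁ = 0 ∧ z₂ = 0) : Nonempty (Cfsg.POmega F (Cfsg.quadFormMinus 1 F a b) ≃* Matrix.ProjectiveSpecialLinearGroup (Fin 2) K) := by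
  classical
  obtain ⟨φ, α, β, hQE, ha, hb⟩ := H17.exists_qext hF hK a b hab
  have hq2 : 2 ≤ q := H17.two_le_of_card_sq hK
  have hK4 : 4 ≤ Fintype.card K := by
    rw [hK]
    nlinarith
  have hperf := H17.sl2_perfect hK4
  obtain ⟨f, hf⟩ : ∃ f : Matrix.SpecialLinearGroup (Fin 2) K →*
      ↥(Cfsg.isometryGroup F (Cfsg.quadFormMinus 1 F a b)), f = H17.o4hom hQE a b ha hb :=
    ⟨_, rfl⟩
  have hker : f.ker = Subgroup.center (Matrix.SpecialLinearGroup (Fin 2) K) := by
    rw [hf]
    exact H17.o4hom_ker hQE a b ha hb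
  have hRC : f.range ≤ commutator ↥(Cfsg.isometryGroup F (Cfsg.quadFormMinus 1 F a b)) := by
    rw [MonoidHom.range_eq_map, ← hperf, commutator_def, Subgroup.map_commutator, commutator_def]
    exact Subgroup.commutator_mono le_top le_top
  -- cardinalities
  obtain ⟨M, hM⟩ : ∃ M, q ^ 2 = M + 1 :=
    ⟨q ^ 2 - 1, by have : 1 ≤ q ^ 2 := Nat.one_le_pow _ _ (by omega); omega⟩
  have hcardSL : Nat.card (Matrix.SpecialLinearGroup (Fin 2) K) = (M + 1) * (M * (M + 2)) := by
    rw [H7.card_SL2, hK, hM]
    have : (M + 1) ^ 2 - 1 = M * (M + 2) := by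
      have : (M + 1) ^ 2 = M * (M + 2) + 1 := by ring
      omega
    rw [this]
  have hcardO : Nat.card ↥(Cfsg.isometryGroup F (Cfsg.quadFormMinus 1 F a b)) =
      2 * Nat.card (Matrix.SpecialLinearGroup (Fin 2) K) := by
    have h1 := S0288.result hF 2 (by norm_num) a b hab
    simp only [Nat.add_one_sub_one, Finset.prod_range_one, zero_add, mul_one] at h1
    have h1' : Nat.card ↥(Cfsg.isometryGroup F (Cfsg.quadFormMinus 1 F a b)) =
        2 * q ^ 2 * (q ^ 2 + 1) * (q ^ 2 - 1) := h1
    rw [h1', hcardSL, hM, Nat.add_sub_cancel]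
    ring
  have hcardK : Nat.card f.ker * Nat.card f.range =
      Nat.card (Matrix.SpecialLinearGroup (Fin 2) K) := by
    have h1 := Subgroup.card_mul_index f.ker
    rw [Subgroup.index_ker] at h1
    exact h1
  have hposR : 0 < Nat.card f.range := Nat.card_pos
  have hC : commutator ↥(Cfsg.isometryGroup F (Cfsg.quadFormMinus 1 F a b)) = f.range := by
    by_cases h2 : (2 : F) = 0
    · have h2K : (2 : K) = 0 := by
        have := congrArg φ h2
        rw [map_ofNat, map_zero] at this
        exact this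
      rw [hker, H7.center_SL2_eq_bot_of_two h2K, Subgroup.card_bot, one_mul] at hcardK
      have hidx : f.range.index = 2 := by
        have h1 := Subgroup.card_mul_index f.range
        rw [hcardO, ← hcardK] at h1
        have h3 : Nat.card f.range * f.range.index = Nat.card f.range * 2 := by linarith
        exact Nat.eq_of_mul_eq_mul_left hposR h3
      exact le_antisymm (H17.commutator_le_of_index_two _ hidx) hRC
    · have h2K : (2 : K) ≠ 0 := by
        intro h
        apply h2
        apply φ.injective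
        rw [map_ofNat, map_zero]
        exact h
      have hoddK : Odd (Fintype.card K) := by
        rw [Nat.odd_iff]
        exact FiniteField.odd_card_of_char_ne_two (fun h => h2K (by
          have := ringChar.of_eq h
          exact CharTwo.two_eq_zero))
      rw [hker, H7.card_center_SL2 hoddK] at hcardK
      have hidx := H18.index_commutator (H7.qMinus 1 a b) h2 (H7.qMinus_nondeg 1 a b hab)
        (by simp [Fintype.card_sum])
      rw [H7.qMinus_coe] at hidx
      have h1 := Subgroup.card_mul_index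
        (commutator ↥(Cfsg.isometryGroup F (Cfsg.quadFormMinus 1 F a b)))
      rw [hidx, hcardO, ← hcardK] at h1
      have hle : Nat.card ↥(commutator ↥(Cfsg.isometryGroup F (Cfsg.quadFormMinus 1 F a b))) ≤
          Nat.card f.range := by omega
      exact (Subgroup.eq_of_le_of_card_ge hRC hle).symm
  -- the isomorphisms
  have e1 : Matrix.ProjectiveSpecialLinearGroup (Fin 2) K ≃* ↥f.range :=
    (QuotientGroup.quotientMulEquivOfEq hker.symm).trans (QuotientGroup.quotientKerEquivRange f)
  have e2 : ↥f.range ≃* ↥(Cfsg.Omega F (Cfsg.quadFormMinus 1 F a b)) :=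
    MulEquiv.subgroupCongr hC.symm
  have hcenter : Subgroup.center ↥(Cfsg.Omega F (Cfsg.quadFormMinus 1 F a b)) = ⊥ :=
    H17.center_eq_bot_of_mulEquiv (e1.trans e2) H7.center_PSL2_eq_bot
  exact ⟨((QuotientGroup.quotientMulEquivOfEq hcenter).trans QuotientGroup.quotientBot).trans
    (e1.trans e2).symm⟩

end Cfsg.Agent.S0300
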