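import Cfsg.Statements.S0303
import Cfsg.Agent.H17.O6MinusB
import Cfsg.Agent.H17.SUSimple
import Cfsg.Agent.S0278
import Cfsg.Agent.S0288
import Cfsg.Agent.H18.Spin
import Cfsg.Agent.H7.OmegaMinus
import Cfsg.Agent.H7.Omega4

set_option autoImplicit false
open Cfsg

namespace Cfsg.Agent.S0303

/-- PΩ^-_6(q) is isomorphic to PSU_4(q). -/
theorem result {F K : Type*} [Field F] [Fintype F] [Field K] [Fintype K] {q : ℕ} (hF : Fintype.card F = q) (hK : Fintype.card K = q ^ 2) (a b : F) (hab : ∀ z₁ z₂ : F, z₁ ^ 2 + a * z₁ * z₂ + b * z₂ ^ 2 = 0 → z₁ = 0 ∧ z₂ = 0) : Nonempty (Cfsg.POmega F (Cfsg.quadFormMinus 2 F a b) ≃* Cfsg.PSU 4 K q) := by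
  classical
  obtain ⟨φ, α, β, u, s, hG, ha, hb⟩ := H17.exists_klgood hF hK a b hab
  have hq2 : 2 ≤ q := H17.two_le_of_card_sq hK
  have hperf : commutator ↥(Cfsg.SU 4 K q) = ⊤ :=
    H17.su_perfect hK (by norm_num) (by omega)
  have hsimple : IsSimpleGroup (↥(Cfsg.SU 4 K q) ⧸ Subgroup.center ↥(Cfsg.SU 4 K q)) :=
    H17.psu_simple hK (by norm_num) (by omega)
  obtain ⟨f, hf⟩ : ∃ f : ↥(Cfsg.SU 4 K q) →*
      ↥(Cfsg.isometryGroup F (Cfsg.quadFormMinus 2 F a b)), f = H17.homF hG a b ha hb := ⟨_, rfl⟩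
  have hne : ∃ g, f g ≠ 1 := by
    rw [hf]
    exact H17.homF_ne_one hG a b ha hb
  have hkerc : f.ker ≤ Subgroup.center ↥(Cfsg.SU 4 K q) :=
    H17.ker_le_center_of_simple f hsimple hperf hne
  have hker2 : ∀ g ∈ f.ker,
      ((g : Matrix.SpecialLinearGroup (Fin 4) K) : Matrix (Fin 4) (Fin 4) K) = 1 ∨
      ((g : Matrix.SpecialLinearGroup (Fin 4) K) : Matrix (Fin 4) (Fin 4) K) = -1 := by
    intro g hg
    have hg' : H17.homF hG a b ha hb g = 1 := by
      rw [← hf]
      exact hg
    exact H17.homF_ker_pm hG a b ha hb g hg' (hkerc hg)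
  have hRC : f.range ≤ commutator ↥(Cfsg.isometryGroup F (Cfsg.quadFormMinus 2 F a b)) := by
    rw [MonoidHom.range_eq_map, ← hperf, commutator_def, Subgroup.map_commutator, commutator_def]
    exact Subgroup.commutator_mono le_top le_top
  -- cardinalities
  have hcardO : Nat.card ↥(Cfsg.isometryGroup F (Cfsg.quadFormMinus 2 F a b)) =
      2 * Nat.card ↥(Cfsg.SU 4 K q) := by
    have hSU := S0278.result hK 4 (by norm_num)
    have hO := S0288.result hF 3 (by norm_num) a b hab
    have hO' : Nat.card ↥(Cfsg.isometryGroup F (Cfsg.quadFormMinus 2 F a b)) =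
        2 * q ^ 6 * (q ^ 3 + 1) * ((q ^ 2 - 1) * (q ^ 4 - 1)) := by
      have : (3 : ℕ) - 1 = 2 := rfl
      rw [this] at hO
      rw [hO]
      simp [Finset.prod_range_succ]
    have hSU' : (q + 1) * Nat.card ↥(Cfsg.SU 4 K q) =
        q ^ 6 * ((q + 1) * (q ^ 2 - 1) * (q ^ 3 + 1) * (q ^ 4 - 1)) := by
      rw [hSU]
      simp [Finset.prod_range_succ, Nat.even_add_one]
    have hpos : 0 < q + 1 := by omega
    apply Nat.eq_of_mul_eq_mul_left hpos
    rw [hO']
    calc (q + 1) * (2 * q ^ 6 * (q ^ 3 + 1) * ((q ^ 2 - 1) * (q ^ 4 - 1)))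
        = 2 * (q ^ 6 * ((q + 1) * (q ^ 2 - 1) * (q ^ 3 + 1) * (q ^ 4 - 1))) := by ring
      _ = (q + 1) * (2 * Nat.card ↥(Cfsg.SU 4 K q)) := by
          rw [← hSU']
          ring
  have hcardK : Nat.card f.ker * Nat.card f.range = Nat.card ↥(Cfsg.SU 4 K q) := by
    have h1 := Subgroup.card_mul_index f.ker
    rw [Subgroup.index_ker] at h1
    exact h1
  have hposR : 0 < Nat.card f.range := Nat.card_pos
  have hC : commutator ↥(Cfsg.isometryGroup F (Cfsg.quadFormMinus 2 F a b)) = f.range := by
    by_cases h2 : (2 : F) = 0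
    · have h2K : (2 : K) = 0 := by
        have := congrArg φ h2
        rw [map_ofNat, map_zero] at this
        exact this
      have hbot : f.ker = ⊥ := by
        rw [eq_bot_iff]
        intro g hg
        rw [Subgroup.mem_bot]
        apply Subtype.ext
        apply Subtype.ext
        rcases hker2 g hg with h' | h'
        · exact h'
        · rw [h']
          have : (-1 : K) = 1 := by linear_combination (-1 : K) * h2K
          ext i j
          simp [Matrix.neg_apply, Matrix.one_apply]
          split_ifs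
          · exact this
          · exact neg_zero
      rw [hbot, Subgroup.card_bot, one_mul] at hcardK
      have hidx : f.range.index = 2 := by
        have h1 := Subgroup.card_mul_index f.range
        rw [hcardO, ← hcardK] at h1
        have h3 : Nat.card f.range * f.range.index = Nat.card f.range * 2 := by linarith
        exact Nat.eq_of_mul_eq_mul_left hposR h3
      exact le_antisymm (H17.commutator_le_of_index_two _ hidx) hRC
    · have hk2 : Nat.card f.ker ≤ 2 := by
        have hinj : Function.Injective (fun g : f.ker =>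
            decide ((((g : ↥(Cfsg.SU 4 K q)) : Matrix.SpecialLinearGroup (Fin 4) K) :
              Matrix (Fin 4) (Fin 4) K) = 1)) := by
          intro g g' hgg'
          apply Subtype.ext
          apply Subtype.ext
          apply Subtype.ext
          simp only [decide_eq_decide] at hgg'
          rcases hker2 g g.2 with h' | h'
          · rw [h', hgg'.mp h']
          · rcases hker2 g' g'.2 with h'' | h''
            · rw [hgg'.mpr h'', h'']
            · rw [h', h'']
        have := Nat.card_le_card_of_injective _ hinj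
        simpa using this
      have hidx := H18.index_commutator (H7.qMinus 2 a b) h2 (H7.qMinus_nondeg 2 a b hab)
        (by simp [Fintype.card_sum])
      rw [H7.qMinus_coe] at hidx
      have h1 := Subgroup.card_mul_index
        (commutator ↥(Cfsg.isometryGroup F (Cfsg.quadFormMinus 2 F a b)))
      rw [hidx, hcardO, ← hcardK] at h1
      have hle : Nat.card ↥(commutator ↥(Cfsg.isometryGroup F (Cfsg.quadFormMinus 2 F a b))) ≤
          Nat.card f.range := by nlinarith
      exact (Subgroup.eq_of_le_of_card_ge hRC hle).symm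
  -- the isomorphism
  have hZne : Subgroup.center ↥(Cfsg.SU 4 K q) ≠ ⊤ := by
    intro h
    have h1 := (commutator_eq_bot_iff_center_eq_top (G := ↥(Cfsg.SU 4 K q))).mpr h
    rw [hperf] at h1
    obtain ⟨g, hg⟩ := hne
    have : g ∈ (⊥ : Subgroup ↥(Cfsg.SU 4 K q)) := by
      rw [← h1]
      trivial
    rw [Subgroup.mem_bot] at this
    rw [this, map_one] at hg
    exact hg rfl
  have hcenterPSU : Subgroup.center (↥(Cfsg.SU 4 K q) ⧸ Subgroup.center ↥(Cfsg.SU 4 K q)) = ⊥ :=
    H17.center_quot_eq_bot hsimple hperf hZne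
  have key := H7.quotient_center_equiv f.rangeRestrict f.rangeRestrict_surjective
    (QuotientGroup.mk' (Subgroup.center ↥(Cfsg.SU 4 K q)))
    (QuotientGroup.mk'_surjective _)
    (by rw [MonoidHom.ker_rangeRestrict, QuotientGroup.ker_mk']; exact hkerc)
    (by rw [QuotientGroup.ker_mk']) hcenterPSU
  show Nonempty (↥(commutator ↥(Cfsg.isometryGroup F (Cfsg.quadFormMinus 2 F a b))) ⧸
    Subgroup.center ↥(commutator ↥(Cfsg.isometryGroup F (Cfsg.quadFormMinus 2 F a b))) ≃*
    (↥(Cfsg.SU 4 K q) ⧸ Subgroup.center ↥(Cfsg.SU 4 K q)))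
  rw [hC]
  exact key

end Cfsg.Agent.S0303
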