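-- Statement S0436 (helper10).
import Cfsg.Statements.S0436
import Cfsg.Agent.H10.ThreeTransp

set_option autoImplicit false
open Cfsg

namespace Cfsg.Agent.S0436

/-- For distinct commuting members a, b of a set of 3-transpositions E, a member e of E centralises the product a * b if and only if it centralises both a and b. -/
theorem result {G : Type*} [Group G] {E : Set G} (hE : Cfsg.IsThreeTranspositionSet E) {a b e : G} (ha : a ∈ E) (hb : b ∈ E) (he : e ∈ E) (hab : a ≠ b) (hcomm : Commute a b) : Commute e (a * b) ↔ (Commute e a ∧ Commute e b) := by
  have ha2 := Cfsg.Agent.H10.tts_mul_self hE ha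
  have hb2 := Cfsg.Agent.H10.tts_mul_self hE hb
  have he2 := Cfsg.Agent.H10.tts_mul_self hE he
  constructor
  · intro h
    -- key: if e commutes with a then with b
    have key : Commute e a → Commute e b := by
      intro hea
      have : b = a * (a * b) := by rw [← mul_assoc, ha2, one_mul]
      rw [this]
      exact hea.mul_right h
    have key' : Commute e b → Commute e a := by
      intro heb
      have : a = (a * b) * b := by rw [mul_assoc, hb2, mul_one]
      rw [this]
      exact h.mul_right heb
    rcases Cfsg.Agent.H10.tts_commute_or_braid hE he ha with h1 | h1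
    · exact ⟨h1, key h1⟩
    · rcases Cfsg.Agent.H10.tts_commute_or_braid hE he hb with h2 | h2
      · exact ⟨key' h2, h2⟩
      · exfalso
        apply hab
        -- e a e = a e a, e b e = b e b, e (ab) = (ab) e
        have h3 : e * (a * b) * e = a * b := by
          rw [h.eq, mul_assoc, he2, mul_one]
        have h4 : e * (a * b) * e = (e * a * e) * (e * b * e) := by
          calc e * (a * b) * e = e * a * (1 * b) * e := by simp [mul_assoc]
            _ = e * a * ((e * e) * b) * e := by rw [he2]
            _ = (e * a * e) * (e * b * e) := by simp [mul_assoc]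
        have h5 : (e * a * e) * (e * b * e) = 1 := by
          rw [h1, h2]
          calc a * e * a * (b * e * b) = a * (e * (a * b)) * e * b := by simp [mul_assoc]
            _ = a * ((a * b) * e) * e * b := by rw [h.eq]
            _ = (a * a) * b * (e * e) * b := by simp [mul_assoc]
            _ = 1 := by rw [ha2, he2]; simp [hb2]
        have h6 : a * b = 1 := by rw [← h3, h4, h5]
        have : a = b⁻¹ := eq_inv_of_mul_eq_one_left h6
        rw [this, Cfsg.Agent.H10.inv_eq_self_of_mul_self hb2]
  · rintro ⟨h1, h2⟩
    exact h1.mul_right h2

end Cfsg.Agent.S0436
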