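-- Statement S0437 (helper10).
import Cfsg.Statements.S0437
import Cfsg.Agent.H10.ThreeTransp

set_option autoImplicit false
open Cfsg

namespace Cfsg.Agent.S0437

/-- For three distinct, pairwise commuting members a, b, c of a set of 3-transpositions E, a member e of E centralises a * b * c if and only if it centralises each of a, b and c. -/
theorem result {G : Type*} [Group G] {E : Set G} (hE : Cfsg.IsThreeTranspositionSet E) {a b c e : G} (ha : a ∈ E) (hb : b ∈ E) (hc : c ∈ E) (he : e ∈ E) (hab : a ≠ b) (hac : a ≠ c) (hbc : b ≠ c) (h₁ : Commute a b) (h₂ : Commute a c) (h₃ : Commute b c) : Commute e (a * b * c) ↔ (Commute e a ∧ Commute e b ∧ Commute e c) := by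
  have ha2 := Cfsg.Agent.H10.tts_mul_self hE ha
  have hb2 := Cfsg.Agent.H10.tts_mul_self hE hb
  have hc2 := Cfsg.Agent.H10.tts_mul_self hE hc
  have he2 := Cfsg.Agent.H10.tts_mul_self hE he
  have ca := Cfsg.Agent.H10.invol_cancel ha2
  have cb := Cfsg.Agent.H10.invol_cancel hb2
  have cc := Cfsg.Agent.H10.invol_cancel hc2
  have ce := Cfsg.Agent.H10.invol_cancel he2
  -- the two-element version (S0436), reproved locally
  have two : ∀ {x y : G}, x ∈ E → y ∈ E → x ≠ y → Commute x y → Commute e (x * y) →
      (Commute e x ∧ Commute e y) := by
    intro x y hx hy hxy hcomm h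
    have hx2 := Cfsg.Agent.H10.tts_mul_self hE hx
    have hy2 := Cfsg.Agent.H10.tts_mul_self hE hy
    have key : Commute e x → Commute e y := by
      intro hea
      have : y = x * (x * y) := by rw [← mul_assoc, hx2, one_mul]
      rw [this]
      exact hea.mul_right h
    have key' : Commute e y → Commute e x := by
      intro heb
      have : x = (x * y) * y := by rw [mul_assoc, hy2, mul_one]
      rw [this]
      exact h.mul_right heb
    rcases Cfsg.Agent.H10.tts_commute_or_braid hE he hx with h1 | h1
    · exact ⟨h1, key h1⟩
    · rcases Cfsg.Agent.H10.tts_commute_or_braid hE he hy with h2 | h2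
      · exact ⟨key' h2, h2⟩
      · exfalso
        apply hxy
        have h3 : e * (x * y) * e = x * y := by
          rw [h.eq, mul_assoc, he2, mul_one]
        have h4 : e * (x * y) * e = (e * x * e) * (e * y * e) := by
          calc e * (x * y) * e = e * x * (1 * y) * e := by simp [mul_assoc]
            _ = e * x * ((e * e) * y) * e := by rw [he2]
            _ = (e * x * e) * (e * y * e) := by simp [mul_assoc]
        have h5 : (e * x * e) * (e * y * e) = 1 := by
          rw [h1, h2]
          calc x * e * x * (y * e * y) = x * (e * (x * y)) * e * y := by simp [mul_assoc]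
            _ = x * ((x * y) * e) * e * y := by rw [h.eq]
            _ = (x * x) * y * (e * e) * y := by simp [mul_assoc]
            _ = 1 := by rw [hx2, he2]; simp [hy2]
        have h6 : x * y = 1 := by rw [← h3, h4, h5]
        have : x = y⁻¹ := eq_inv_of_mul_eq_one_left h6
        rw [this, Cfsg.Agent.H10.inv_eq_self_of_mul_self hy2]
  constructor
  · intro h
    rcases Cfsg.Agent.H10.tts_commute_or_braid hE he ha with h1 | h1
    · -- e commutes with a, hence with b * c
      have hbc' : Commute e (b * c) := by
        have : b * c = a * (a * b * c) := by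
          rw [mul_assoc a b c, ← mul_assoc a a, ha2, one_mul]
        rw [this]
        exact h1.mul_right h
      obtain ⟨h2, h3⟩ := two hb hc hbc h₃ hbc'
      exact ⟨h1, h2, h3⟩
    rcases Cfsg.Agent.H10.tts_commute_or_braid hE he hb with h2 | h2
    · have hac' : Commute e (a * c) := by
        have : a * c = b * (a * b * c) := by
          rw [h₁.eq, mul_assoc b a c, ← mul_assoc b b, hb2, one_mul]
        rw [this]
        exact h2.mul_right h
      obtain ⟨h1', h3⟩ := two ha hc hac h₂ hac'
      exact ⟨h1', h2, h3⟩
    rcases Cfsg.Agent.H10.tts_commute_or_braid hE he hc with h3 | h3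
    · have hab' : Commute e (a * b) := by
        have : a * b = (a * b * c) * c := by
          rw [mul_assoc (a * b) c c, hc2, mul_one]
        rw [this]
        exact h.mul_right h3
      obtain ⟨h1', h2'⟩ := two ha hb hab h₁ hab'
      exact ⟨h1', h2', h3⟩
    -- now all three braid relations hold; derive e = c
    have h4 : (e * a * e) * (e * b * e) * (e * c * e) = a * b * c := by
      calc (e * a * e) * (e * b * e) * (e * c * e)
          = e * (a * b * c) * e := by simp only [mul_assoc, ce]
        _ = a * b * c := by rw [h.eq, mul_assoc, he2, mul_one]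
    rw [h1, h2, h3] at h4
    -- h4 : a e a * (b e b) * (c e c) = a b c
    have h5 := congrArg (fun t => a * t * c) h4
    simp only [mul_assoc, ca, cc, hc2, mul_one] at h5
    -- h5 : e a b e b c e = b
    rw [h₁.left_comm, h₃.left_comm] at h5
    have h6 : a * (e * c) = b * (e * ((e * (b * (a * (e * (c * (b * e)))))) * (e * b))) := by
      simp only [mul_assoc, ce, cb, hb2, he2, mul_one]
    rw [h5] at h6
    have h2' : e * (b * e) = b * (e * b) := by simpa only [mul_assoc] using h2
    rw [← h2'] at h6
    simp only [ce, cb] at h6
    -- h6 : a * (e * c) = e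
    have h8 : c = e * (a * e) := by
      have := congrArg (fun t => e * (a * t)) h6
      simp only [ca, ce, he2] at this
      simpa only [mul_assoc, mul_one] using this
    have h1' : e * (a * e) = a * (e * a) := by simpa only [mul_assoc] using h1
    rw [h1'] at h8
    have h9 : e = c := by
      have := congrArg (fun t => a * (t * a)) h8
      simp only [mul_assoc, ca, ha2, mul_one] at this
      rw [← this, ← mul_assoc, h₂.eq, mul_assoc, ha2, mul_one]
    subst h9
    exact ⟨h₂.symm, h₃.symm, Commute.refl _⟩
  · rintro ⟨h1, h2, h3⟩
    exact (h1.mul_right h2).mul_right h3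

end Cfsg.Agent.S0437
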