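import Cfsg.Statements.S0496
-- import your own Cfsg.Agent.* helpers here
import Cfsg.Agent.H21.SmallTable
import Cfsg.Agent.H21.Ord612
import Cfsg.Agent.H21.Ord720
import Cfsg.Agent.H64.NoSimpleBT
import Cfsg.Agent.H64.NoSimplePaqb
import Cfsg.Agent.H59.Ord760
import Cfsg.Agent.H11.Ord900
import Cfsg.Agent.H11.Ord420
import Cfsg.Agent.H65.Ord756
import Cfsg.Agent.H70.Fixc

set_option autoImplicit false
open Cfsg

namespace Cfsg.Agent.S0496

/-- A non-abelian finite simple group of order at most 1092 has order 60, 168, 360, 504, 660 or 1092. -/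
theorem result {G : Type*} [Group G] [Finite G] [IsSimpleGroup G]
    (hG : ¬ IsMulCommutative G) (h : Nat.card G ≤ 1092) :
    Nat.card G = 60 ∨ Nat.card G = 168 ∨ Nat.card G = 360 ∨ Nat.card G = 504 ∨ Nat.card G = 660 ∨
      Nat.card G = 1092 := by
  have hnc : ¬ IsCyclic G := Cfsg.Agent.H11.not_isCyclic_of_not_isMulCommutative hG
  have hnt : Nontrivial G := IsSimpleGroup.toNontrivial
  have h2 : 2 ≤ Nat.card G := Finite.one_lt_card
  have : Fact (Nat.Prime 7) := ⟨by norm_num⟩
  rcases Cfsg.Agent.H21.Small.small_table _ h2 h with ⟨p, hp⟩ | ⟨p, hp⟩ | hsp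
  · exact absurd hp (Cfsg.Agent.H11.not_sylowKills hnc p)
  · exact absurd hp (Cfsg.Agent.H11.not_burnsideKills hnc p)
  · by_contra hne
    have hbt : Nat.card G ∉ ([120, 180, 240, 264, 336, 480, 528, 560, 672, 792, 1008, 1040, 1056,
        1080] : List ℕ) := fun hm => Cfsg.Agent.H64.NS.no_simple_bt hm
    have hpq : Nat.card G ∉ ([112, 144, 288, 400, 432, 576, 800, 864, 1053] : List ℕ) :=
      fun hm => Cfsg.Agent.H64.NS.no_simple_paqb hm
    have h612 : Nat.card G ≠ 612 := fun hm => Cfsg.Agent.H21.Small.no_simple_612 hm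
    have h960 : Nat.card G ≠ 960 := fun hm => Cfsg.Agent.H21.Small.no_simple_960 hm
    have h720 : Nat.card G ≠ 720 := fun hm => Cfsg.Agent.H21.Small.no_simple_720 hm
    have h760 : Nat.card G ≠ 760 := fun hm => Cfsg.Agent.H59.Ord760.no_simple_760 hm
    have h900 : Nat.card G ≠ 900 := fun hm => Cfsg.Agent.H11.SmallOrd.no_simple_900 hm
    have h756 : Nat.card G ≠ 756 := fun hm => Cfsg.Agent.H65.Ord756.no_simple_756 hm
    have hfix : ∀ (P : Sylow 7 G), Nat.card (P : Subgroup G) = 7 →
        ∀ c ∈ Subgroup.centralizer ((P : Subgroup G) : Set G),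
          Nat.card (MulAction.fixedBy (G ⧸ Subgroup.normalizer ((P : Subgroup G) : Set G)) c) % 7
            = 1 :=
      fun P hP c hc => Cfsg.Agent.H70.Fixc.card_fixedBy_centralizer_mod 7 P hP c hc
    have h420 : Nat.card G ≠ 420 := fun hm => Cfsg.Agent.H11.SmallOrd.no_simple_420 hfix hm
    have h840 : Nat.card G ≠ 840 := fun hm => Cfsg.Agent.H11.SmallOrd.no_simple_840 hfix hm
    simp only [Cfsg.Agent.H21.Small.special, List.mem_cons, List.not_mem_nil, or_false] at hsp hbt hpq
    omega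

end Cfsg.Agent.S0496
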