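import Cfsg.Statements.S0508
import Cfsg.Agent.S0107
import Cfsg.Agent.H54.GW1
import Cfsg.Agent.H54.GW2
import Cfsg.Agent.H54.GW3
import Cfsg.Agent.H54.GW4

set_option autoImplicit false
open Cfsg

namespace Cfsg.Agent.S0508

/-- Let G be a finite simple group with a dihedral Sylow 2-subgroup S (of order at least 4), t an involution in the
centre of S, C the centralizer of t and O the core of C (its largest normal subgroup of odd order). Suppose that: if O
is nontrivial then the centralizer of O in S is cyclic of index 2 in S; every element of S not centralizing O inverts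
every element of O; and the normalizer of every nontrivial subgroup of O lies in C. Then G is isomorphic to a projective
special linear group of dimension 2 over a field of odd order. -/
theorem result {G : Type*} [Group G] [Finite G] [IsSimpleGroup G] (S : Sylow 2 G) (n : ℕ)
    (hn : 2 ≤ n) (hS : Nonempty ((S : Subgroup G) ≃* DihedralGroup n)) (t : G) (ht : orderOf t = 2)
    (htS : t ∈ (S : Subgroup G))
    (htZ : ∀ s ∈ (S : Subgroup G), s * t = t * s) (O : Subgroup G)
    (hO : O = (Cfsg.oddCore (Subgroup.centralizer ({t} : Set G))).map (Subgroup.centralizer ({t} : Set G)).subtype)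
    (ha : O ≠ ⊥ → IsCyclic ((S : Subgroup G) ⊓ Subgroup.centralizer (O : Set G) : Subgroup G) ∧
      ((S : Subgroup G) ⊓ Subgroup.centralizer (O : Set G)).relIndex (S : Subgroup G) = 2)
    (hb : ∀ s ∈ (S : Subgroup G), s ∉ Subgroup.centralizer (O : Set G) → ∀ y ∈ O, s * y * s⁻¹ = y⁻¹)
    (hc : ∀ Y : Subgroup G, Y ≤ O → Y ≠ ⊥ → Subgroup.normalizer (Y : Set G) ≤ Subgroup.centralizer ({t} : Set G)) :
    ∃ (F : Type) (_ : Field F) (_ : Fintype F), Odd (Fintype.card F) ∧ Nonempty (G ≃* Matrix.ProjectiveSpecialLinearGroup (Fin 2) F) := by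
  classical
  haveI : Fact (Nat.Prime 2) := ⟨Nat.prime_two⟩
  obtain ⟨e⟩ := hS
  have hcardS : Nat.card (S : Subgroup G) = 2 * n := by
    rw [Nat.card_congr e.toEquiv, DihedralGroup.nat_card]
  have hSle : (S : Subgroup G) ≤ Subgroup.centralizer ({t} : Set G) := by
    intro σ hσ
    rw [Cfsg.Agent.H54.BSW.mem_cent]
    exact htZ σ hσ
  obtain ⟨htt, ht1⟩ := Cfsg.Agent.H54.BSW.ord2_iff.mp ht
  -- `S` is a proper nontrivial subgroup
  have hSne : (S : Subgroup G) ≠ ⊤ := by
    intro hStop
    have hcen : ∀ g : G, g * t = t * g := fun g =>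
      htZ g (by rw [hStop]; exact Subgroup.mem_top g)
    have hnorm : (Subgroup.zpowers t).Normal := by
      constructor
      intro x hx g
      obtain ⟨k, rfl⟩ := Subgroup.mem_zpowers_iff.mp hx
      have h1 : Commute g (t ^ k) := (show Commute g t from hcen g).zpow_right k
      rw [h1.eq, mul_inv_cancel_right]
      exact Subgroup.zpow_mem_zpowers t k
    rcases hnorm.eq_bot_or_eq_top with h | h
    · exact ht1 (Subgroup.zpowers_eq_bot.mp h)
    · have h2 : Nat.card (Subgroup.zpowers t) = 2 := by rw [Nat.card_zpowers, ht]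
      rw [h, Subgroup.card_top] at h2
      have h3 : Nat.card (S : Subgroup G) = Nat.card G := by rw [hStop, Subgroup.card_top]
      omega
  have hSbot : (S : Subgroup G) ≠ ⊥ := by
    intro h
    rw [h, Subgroup.card_bot] at hcardS
    omega
  obtain ⟨hOle, hOodd, hOmem, hdec⟩ :=
    Cfsg.Agent.H54.GW.core_facts S n hn ⟨e⟩ t ht hSle O hO
  -- the cyclic subgroup `S₀` of index 2
  obtain ⟨S₀, hS₀le, htS₀, hS₀cyc, hS₀idx, hS₀O, hout⟩ : ∃ S₀ : Subgroup G,
      S₀ ≤ (S : Subgroup G) ∧ t ∈ S₀ ∧ IsCyclic ↥S₀ ∧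
      (S₀.subgroupOf (S : Subgroup G)).index = 2 ∧ (∀ c ∈ S₀, ∀ y ∈ O, c * y = y * c) ∧
      (∀ s ∈ (S : Subgroup G), s ∉ S₀ → ∀ y ∈ O, s * y * s⁻¹ = y⁻¹) := by
    by_cases hO1 : O = ⊥
    · obtain ⟨ρ, hρS, hρn, htρ⟩ :=
        Cfsg.Agent.H54.GW.exists_cyclic_of_central (S : Subgroup G) hn e t htS ht htZ
      have hle : Subgroup.zpowers ρ ≤ (S : Subgroup G) := Subgroup.zpowers_le.mpr hρS
      refine ⟨Subgroup.zpowers ρ, hle, htρ, inferInstance, ?_, ?_, ?_⟩
      · have h1 := Subgroup.index_mul_card ((Subgroup.zpowers ρ).subgroupOf (S : Subgroup G))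
        rw [Nat.card_congr (Subgroup.subgroupOfEquivOfLe hle).toEquiv, Nat.card_zpowers, hρn,
          hcardS] at h1
        exact Nat.eq_of_mul_eq_mul_right (by omega) h1
      · intro c hc y hy
        rw [hO1, Subgroup.mem_bot] at hy
        rw [hy, mul_one, one_mul]
      · intro s hs hs0 y hy
        rw [hO1, Subgroup.mem_bot] at hy
        rw [hy]; group
    · obtain ⟨hcyc, hidx⟩ := ha hO1
      refine ⟨(S : Subgroup G) ⊓ Subgroup.centralizer (O : Set G), inf_le_left, ?_, hcyc, hidx,
        ?_, ?_⟩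
      · refine Subgroup.mem_inf.mpr ⟨htS, ?_⟩
        rw [Subgroup.mem_centralizer_iff]
        intro y hy
        exact Cfsg.Agent.H54.BSW.mem_cent.mp (hOle hy)
      · intro c hc y hy
        exact ((Subgroup.mem_centralizer_iff.mp (Subgroup.mem_inf.mp hc).2) y hy).symm
      · intro s hs hs0 y hy
        apply hb s hs _ y hy
        intro h
        exact hs0 (Subgroup.mem_inf.mpr ⟨hs, h⟩)
  have hcardS₀ : Nat.card S₀ = n := by
    have h1 := Subgroup.index_mul_card (S₀.subgroupOf (S : Subgroup G))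
    rw [hS₀idx, Nat.card_congr (Subgroup.subgroupOfEquivOfLe hS₀le).toEquiv, hcardS] at h1
    omega
  have hout2 := Cfsg.Agent.H54.GW.out_of_cyclic (S : Subgroup G) hn e S₀ hS₀le hS₀cyc hcardS₀
  -- the package
  have P : Cfsg.Agent.H54.GW.Pk t (S : Subgroup G) O S₀ := by
    refine ⟨ht, hSle, hOle, hOodd, hOmem, hdec, S.isPGroup', hS₀le, htS₀, ?_, ?_, hS₀O, ?_, ?_,
      hout, ?_, hc⟩
    · intro a ha b hb
      obtain ⟨γ, hγ⟩ := hS₀cyc.exists_generator
      obtain ⟨i, hi⟩ := Subgroup.mem_zpowers_iff.mp (hγ ⟨a, ha⟩)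
      obtain ⟨j, hj⟩ := Subgroup.mem_zpowers_iff.mp (hγ ⟨b, hb⟩)
      have h1 : (⟨a, ha⟩ : S₀) * ⟨b, hb⟩ = ⟨b, hb⟩ * ⟨a, ha⟩ := by
        rw [← hi, ← hj, ← zpow_add, ← zpow_add, add_comm]
      exact congrArg Subtype.val h1
    · intro c hc hcc
      exact Cfsg.Agent.H54.GW.cyc_invol S₀ hS₀cyc htS₀ htt ht1 hc hcc
    · intro s hs hs0
      exact (hout2 s hs hs0).1
    · intro s hs hs0 c hc
      exact (hout2 s hs hs0).2 c hc
    · intro s hs hs0 s' hs' hs0'
      have h1 := Subgroup.mul_mem_iff_of_index_two hS₀idx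
        (a := (⟨s', hs'⟩ : (S : Subgroup G))) (b := ⟨s, hs⟩)
      have h2 : (⟨s', hs'⟩ : (S : Subgroup G)) * ⟨s, hs⟩ ∈ S₀.subgroupOf (S : Subgroup G) := by
        rw [h1, Subgroup.mem_subgroupOf, Subgroup.mem_subgroupOf]
        exact ⟨fun h => absurd h hs0', fun h => absurd h hs0⟩
      exact Subgroup.mem_subgroupOf.mp h2
  obtain ⟨s, hsS, hsS₀⟩ : ∃ s ∈ (S : Subgroup G), s ∉ S₀ := by
    by_contra hcon
    push Not at hcon
    have h1 : S₀.subgroupOf (S : Subgroup G) = ⊤ := Subgroup.subgroupOf_eq_top.mpr hcon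
    rw [h1, Subgroup.index_top] at hS₀idx
    omega
  -- all involutions are conjugate
  have hconj : ∀ x y : G, orderOf x = 2 → orderOf y = 2 → IsConj x y := by
    by_cases hn2 : n = 2
    · subst hn2
      have h4 : Nat.card (S : Subgroup G) = 4 := by rw [hcardS]
      have he : ∀ c ∈ (S : Subgroup G), c * c = 1 := by
        intro c hc
        have h1 := (Cfsg.Agent.H54.GW.dih_two (e ⟨c, hc⟩) 1).1
        have h2 : (⟨c, hc⟩ : (S : Subgroup G)) * ⟨c, hc⟩ = 1 :=
          e.injective (by rw [map_mul, h1, map_one])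
        exact congrArg Subtype.val h2
      exact Cfsg.Agent.H54.GW.conj_of_four S h4 he
        (Cfsg.Agent.H54.GW.not_normalizer_le_centralizer S hSne hSbot)
    · obtain ⟨a, ha⟩ := IsPGroup.iff_card.mp S.isPGroup'
      rw [hcardS] at ha
      have ha1 : 2 ≤ a - 1 ∧ n = 2 ^ (a - 1) := by
        rcases a with _ | b
        · exfalso
          rw [pow_zero] at ha
          omega
        · rw [pow_succ] at ha
          have hnb : n = 2 ^ b := by omega
          refine ⟨?_, hnb⟩
          rcases b with _ | _ | b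
          · exfalso
            rw [pow_zero] at hnb
            omega
          · exfalso
            rw [zero_add, pow_one] at hnb
            exact hn2 hnb
          · omega
      obtain ⟨hk2, hnk⟩ := ha1
      subst hnk
      have hres := Cfsg.Agent.H54.GW.pResidual_eq_top_of_simple S hSne
      intro x y hx hy
      rw [isConj_iff]
      exact Cfsg.Agent.S0107.result S (a - 1) hk2 ⟨e⟩ hres x y hx hy
  obtain ⟨Q, D, h1, h2, h4, h5, h6⟩ := P.concl hsS hsS₀ hconj
  have hq : 3 < Nat.card Q := by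
    by_contra hq
    push Not at hq
    have hqpos : 0 < Nat.card Q := Nat.card_pos
    have hdpos : 0 < Nat.card D := Nat.card_pos
    have hq3 : Nat.card Q = 3 := by omega
    rw [hq3] at h1
    have hG : Nat.card G = 12 := by omega
    have hdvd := Subgroup.card_subgroup_dvd_card (S : Subgroup G)
    rw [hcardS, hG] at hdvd
    obtain ⟨a, ha⟩ := IsPGroup.iff_card.mp S.isPGroup'
    rw [hcardS] at ha
    have hn6 : n ≤ 6 := by
      have := Nat.le_of_dvd (by norm_num) hdvd
      omega
    have ha4 : a < 4 := by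
      by_contra h
      push Not at h
      have h16 : 2 ^ 4 ≤ 2 ^ a := Nat.pow_le_pow_right (by norm_num) h
      omega
    have hn4 : n ≠ 4 := by
      rintro rfl
      norm_num at hdvd
    have hn2 : n = 2 := by
      interval_cases a <;> omega
    have hidx : (S : Subgroup G).index = 3 := by
      have h7 := Subgroup.index_mul_card (S : Subgroup G)
      rw [hcardS, hn2, hG] at h7
      omega
    have h8 := Cfsg.Agent.H54.GW.simple_card_dvd_factorial (S : Subgroup G) hSne
    rw [hidx, hG] at h8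
    revert h8
    decide
  exact Cfsg.Agent.H54.GW.psl_of_struct Q D h1 h2 h4 h5 h6 hq

end Cfsg.Agent.S0508
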