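import Cfsg.Statements.S0824
import Cfsg.Agent.H48.SymOrth
import Cfsg.Agent.H48.FieldTwo
import Cfsg.Agent.S0288

set_option autoImplicit false
open Cfsg

namespace Cfsg.Agent.S0824

/-- O⁻_4(2) is isomorphic to the symmetric group S_5. -/
theorem result {F : Type*} [Field F] [Fintype F] (hF : Fintype.card F = 2) : Nonempty (↥(Cfsg.isometryGroup F (Cfsg.quadFormMinus 1 F 1 1)) ≃* Equiv.Perm (Fin 5)) := by
  classical
  have hcard : Fintype.card (Fin 4) = 4 := Fintype.card_fin _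
  have hκ : Even (Fintype.card (Fin 4)) := by
    rw [hcard]
    exact ⟨2, by norm_num⟩
  have h3 : 3 ≤ Fintype.card (Fin 4) := by
    rw [hcard]
    norm_num
  let emb : Fin 5 ↪ Fin 4 ⊕ Fin 2 :=
    ((finSumFinEquiv (m := 4) (n := 1)).symm.toEmbedding).trans
      ⟨Sum.map id Fin.castSucc, Sum.map_injective.mpr ⟨Function.injective_id,
        Fin.castSucc_injective 1⟩⟩
  have hnot : (Sum.inr 1 : Fin 4 ⊕ Fin 2) ∉ Set.range emb := by
    rintro ⟨a, ha⟩
    have ha' : Sum.map id Fin.castSucc ((finSumFinEquiv (m := 4) (n := 1)).symm a) =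
        (Sum.inr 1 : Fin 4 ⊕ Fin 2) := ha
    generalize (finSumFinEquiv (m := 4) (n := 1)).symm a = x at ha'
    rcases x with i | t
    · exact Sum.inl_ne_inr ha'
    · have h1 : Fin.castSucc t = (1 : Fin 2) := Sum.inr_injective ha'
      have h2 : (t : ℕ) = 1 := by
        have := congrArg Fin.val h1
        simpa using this
      omega
  obtain ⟨h, hQ⟩ := Cfsg.Agent.H48.exists_weight_equiv_minus_four (Fin 4) hcard
  obtain ⟨φ, hφ⟩ := Cfsg.Agent.H48.exists_perm_hom_of_weight (Fin 4) hκ h3 emb (Or.inr hnot) _ h hQ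
  let σ : ZMod 2 ≃+* F := ZMod.ringEquivOfPrime F Nat.prime_two hF
  obtain ⟨τ, hτ⟩ := Cfsg.Agent.H48.exists_hom_isometryGroup_of_ringEquiv σ
    (Cfsg.quadFormMinus 1 (ZMod 2) 1 1) (Cfsg.quadFormMinus 1 F 1 1)
    (Cfsg.Agent.H48.quadFormMinus_map σ 1)
  have hinj : Function.Injective (τ.comp φ) := hτ.comp hφ
  have hc1 : Nat.card ↥(Cfsg.isometryGroup F (Cfsg.quadFormMinus 1 F 1 1)) = 120 := by
    have h1 := Cfsg.Agent.S0288.result hF 2 (by norm_num) 1 1
      (Cfsg.Agent.H48.anisotropic_of_card_two hF)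
    have h2 : Nat.card ↥(Cfsg.isometryGroup F (Cfsg.quadFormMinus 1 F 1 1)) =
        2 * 2 ^ (2 * (2 - 1)) * (2 ^ 2 + 1) * ∏ i ∈ Finset.range (2 - 1), (2 ^ (2 * (i + 1)) - 1) :=
      h1
    rw [h2]
    decide
  have hc2 : Nat.card (Equiv.Perm (Fin 5)) = 120 := by
    rw [Nat.card_eq_fintype_card, Fintype.card_perm, Fintype.card_fin]
    decide
  have hbij : Function.Bijective (τ.comp φ) :=
    hinj.bijective_of_nat_card_le (by rw [hc1, hc2])
  exact ⟨(MulEquiv.ofBijective (τ.comp φ) hbij).symm⟩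

end Cfsg.Agent.S0824
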