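import Mathlib
import Cfsg.Statements.S0949
import Cfsg.Agent.H59.HCMain
import Cfsg.Agent.H4.PSection2

set_option autoImplicit false
set_option linter.style.haveILetI false
open Cfsg

namespace Cfsg.Agent.S0949

open Cfsg.Agent.H59.HC

universe u

/-- odd-order normal subgroups of a normal subgroup are trivial, if the group has no nontrivial
normal subgroup of odd order -/
theorem odd_normal_of_normal {G : Type u} [Group G] [Finite G]
    (hO : ∀ N : Subgroup G, N.Normal → Odd (Nat.card N) → N = ⊥) (K : Subgroup G) [hK : K.Normal] :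
    ∀ N : Subgroup K, N.Normal → Odd (Nat.card N) → N = ⊥ := by
  intro N hN hodd
  have hle : N ≤ pPrimeCore 2 K :=
    Cfsg.Agent.H40.le_pPrimeCore N hN (Nat.coprime_two_right.mpr hodd)
  haveI : (pPrimeCore 2 K).Characteristic := Cfsg.Agent.H11.pPrimeCore_characteristic 2
  have hnorm : ((pPrimeCore 2 K).map K.subtype).Normal :=
    ConjAct.normal_of_characteristic_of_normal
  have hcard : Nat.card ((pPrimeCore 2 K).map K.subtype) = Nat.card (pPrimeCore 2 K) :=
    Subgroup.card_map_of_injective (Subgroup.subtype_injective K)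
  have hodd' : Odd (Nat.card ((pPrimeCore 2 K).map K.subtype)) := by
    rw [hcard]
    exact Nat.coprime_two_right.mp (Cfsg.Agent.H40.card_pPrimeCore_coprime 2 K)
  have hbot := hO _ hnorm hodd'
  have hbot' : pPrimeCore 2 K = ⊥ :=
    (Subgroup.map_eq_bot_iff_of_injective _ (Subgroup.subtype_injective K)).mp hbot
  rw [hbot'] at hle
  exact le_bot_iff.mp hle

/-- Burnside: a Sylow 2-subgroup central in its normalizer is everything, in a group without
nontrivial normal subgroups of odd order -/
theorem sylow_top_of_central {H : Type u} [Group H] [Finite H] (Q : Sylow 2 H)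
    (hQ : Subgroup.normalizer ((Q : Subgroup H) : Set H) ≤
      Subgroup.centralizer ((Q : Subgroup H) : Set H))
    (hO : ∀ N : Subgroup H, N.Normal → Odd (Nat.card N) → N = ⊥) : (Q : Subgroup H) = ⊤ := by
  haveI : Fact (Nat.Prime 2) := ⟨Nat.prime_two⟩
  have hc := MonoidHom.ker_transferSylow_isComplement' Q hQ
  have hodd : Odd (Nat.card (MonoidHom.transferSylow Q hQ).ker) := by
    rw [← hc.index_eq_card]
    exact Nat.odd_iff.mpr (Nat.two_dvd_ne_zero.mp Q.not_dvd_index)
  have hbot := hO _ (MonoidHom.normal_ker _) hodd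
  rw [hbot] at hc
  exact Subgroup.isComplement'_bot_left.mp hc

/-- the key step: `P` is everything or lies in a proper normal subgroup -/
theorem key_step {G : Type u} [Group G] [Finite G] (P : Sylow 2 G) (m : ℕ) (hm : 2 ≤ m)
    (e : (P : Subgroup G) ≃* Multiplicative (ZMod (2 ^ m) × ZMod (2 ^ m)))
    (hO : ∀ N : Subgroup G, N.Normal → Odd (Nat.card N) → N = ⊥) :
    (P : Subgroup G) = ⊤ ∨ ∃ K : Subgroup G, K.Normal ∧ K ≠ ⊤ ∧ (P : Subgroup G) ≤ K := by
  classical
  haveI : Fact (Nat.Prime 2) := ⟨Nat.prime_two⟩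
  rcases Cfsg.Agent.H21.homocyclic_relIndex P m (by omega) e with h1 | h3
  · left
    rw [Subgroup.relIndex_eq_one] at h1
    exact sylow_top_of_central P h1 hO
  · right
    obtain ⟨ψ, τ, n, hψ, hP, hτ, hτ3, hfix, hfus, hnc⟩ := homocyclic_setup P m (by omega) e h3
    obtain ⟨a, u, ha1, ha, hu, huu, hcard⟩ := exists_inv_four m hm
    obtain ⟨M, hM⟩ := Cfsg.Agent.H4.exists_isPModular Nat.prime_two
    haveI : Finite (IrrCharacter G) := Cfsg.Agent.H4.finite_irr G
    have hfin : (principalBlock M G).Finite := Set.toFinite _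
    have hu4 : orderOf (ψ u) = 4 := by
      rw [orderOf_injective ψ hψ u]
      have h4 : orderOf u = 2 ^ (1 + 1) := by
        apply orderOf_eq_prime_pow
        · rw [pow_one, pow_two]
          exact hu
        · have : (2 : ℕ) ^ (1 + 1) = 2 + 2 := by norm_num
          rw [this, pow_add, pow_two]
          exact huu
      rw [h4]
      norm_num
    letI : Fintype (Multiplicative (ZMod (2 ^ m) × ZMod (2 ^ m))) := Fintype.ofFinite _
    haveI : Finite (Multiplicative (ZMod (2 ^ m) × ZMod (2 ^ m)) →* ℂˣ) := finite_dual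
    letI : Fintype (Multiplicative (ZMod (2 ^ m) × ZMod (2 ^ m)) →* ℂˣ) := Fintype.ofFinite _
    exact exists_proper_normal P ψ hψ hP τ n hτ hτ3 hfix hfus hnc M hM hfin.toFinset
      (fun χ => Set.Finite.mem_toFinset hfin) a u ha1 ha hu hu4 hcard

/-- normality of the Sylow 2-subgroup, by induction on the order -/
theorem normal_aux : ∀ (n : ℕ) (G : Type u) [Group G] [Finite G], Nat.card G ≤ n →
    ∀ (P : Sylow 2 G) (m : ℕ), 2 ≤ m →
    ((P : Subgroup G) ≃* Multiplicative (ZMod (2 ^ m) × ZMod (2 ^ m))) →
    (∀ N : Subgroup G, N.Normal → Odd (Nat.card N) → N = ⊥) → (P : Subgroup G).Normal := by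
  intro n
  induction n with
  | zero =>
    intro G _ _ hn
    exact absurd hn (by have := Nat.card_pos (α := G); omega)
  | succ n ih =>
    intro G _ _ hn P m hm e hO
    haveI : Fact (Nat.Prime 2) := ⟨Nat.prime_two⟩
    rcases key_step P m hm e hO with htop | ⟨K, hKn, hKtop, hPK⟩
    · rw [htop]
      infer_instance
    · haveI := hKn
      have hcardK : Nat.card K ≤ n := by
        have hlt : Nat.card K < Nat.card G := by
          by_contra hcon
          exact hKtop (Subgroup.eq_top_of_le_card K (not_lt.mp hcon))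
        omega
      have hP' := ih K hcardK (P.subtype hPK) m hm
        ((Subgroup.subgroupOfEquivOfLe hPK).trans e) (odd_normal_of_normal hO K)
      haveI hchar : ((P.subtype hPK : Sylow 2 K) : Subgroup K).Characteristic :=
        Sylow.characteristic_of_normal (P.subtype hPK) hP'
      have hmap : (((P.subtype hPK : Sylow 2 K) : Subgroup K).map K.subtype).Normal :=
        ConjAct.normal_of_characteristic_of_normal
      have heq : ((P.subtype hPK : Sylow 2 K) : Subgroup K).map K.subtype = (P : Subgroup G) := by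
        rw [Sylow.coe_subtype, Subgroup.subgroupOf_map_subtype, inf_eq_left.mpr hPK]
      rw [heq] at hmap
      exact hmap

/-- Let the finite group G have a Sylow 2-subgroup P isomorphic to Z/2^m × Z/2^m with m ≥ 2, and suppose G has no nontrivial normal subgroup of odd order. Then P is normal in G, C_G(P) = P, and the index of P is 1 or 3. -/
theorem result {G : Type*} [Group G] [Finite G] (P : Sylow 2 G) (m : ℕ) (hm : 2 ≤ m) (e : (P : Subgroup G) ≃* Multiplicative (ZMod (2 ^ m) × ZMod (2 ^ m))) (hO : ∀ N : Subgroup G, N.Normal → Odd (Nat.card N) → N = ⊥) : (P : Subgroup G).Normal ∧ Subgroup.centralizer (P : Set G) = (P : Subgroup G) ∧ ((P : Subgroup G).index = 1 ∨ (P : Subgroup G).index = 3) := by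
  haveI : Fact (Nat.Prime 2) := ⟨Nat.prime_two⟩
  have hnormal : (P : Subgroup G).Normal := normal_aux (Nat.card G) G le_rfl P m hm e hO
  haveI := hnormal
  obtain ⟨hab, -, -⟩ := Cfsg.Agent.H21.homocyclic_sylow_data (P : Subgroup G) m (by omega) e
  have hPC : (P : Subgroup G) ≤ Subgroup.centralizer ((P : Subgroup G) : Set G) := by
    intro x hx
    rw [Subgroup.mem_centralizer_iff]
    intro y hy
    exact hab y hy x hx
  have hCn : (Subgroup.centralizer ((P : Subgroup G) : Set G)).Normal :=
    Subgroup.normal_centralizer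
  have hCeq : Subgroup.centralizer ((P : Subgroup G) : Set G) = (P : Subgroup G) := by
    apply le_antisymm _ hPC
    obtain ⟨C, hC⟩ : ∃ C : Subgroup G, C = Subgroup.centralizer ((P : Subgroup G) : Set G) :=
      ⟨_, rfl⟩
    rw [← hC] at hPC hCn ⊢
    haveI := hCn
    have htop : ((P.subtype hPC : Sylow 2 C) : Subgroup C) = ⊤ := by
      apply sylow_top_of_central (P.subtype hPC) _ (odd_normal_of_normal hO C)
      intro x _
      rw [Subgroup.mem_centralizer_iff]
      intro y hy
      have hy' : (y : G) ∈ (P : Subgroup G) := by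
        rw [SetLike.mem_coe, Sylow.coe_subtype, Subgroup.mem_subgroupOf] at hy
        exact hy
      have hx := hC.le x.2
      rw [Subgroup.mem_centralizer_iff] at hx
      exact Subtype.ext (hx (y : G) hy')
    intro x hx
    have hx' : (⟨x, hx⟩ : C) ∈ ((P.subtype hPC : Sylow 2 C) : Subgroup C) := by
      rw [htop]
      exact Subgroup.mem_top _
    rw [Sylow.coe_subtype, Subgroup.mem_subgroupOf] at hx'
    exact hx'
  refine ⟨hnormal, hCeq, ?_⟩
  have hrel := Cfsg.Agent.H21.homocyclic_relIndex P m (by omega) e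
  rw [hCeq, Subgroup.normalizer_eq_top, Subgroup.relIndex_top_right] at hrel
  exact hrel

end Cfsg.Agent.S0949
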