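import Mathlib
import Cfsg.Statements.S0951
import Cfsg.Agent.H59.BSQ8Block

set_option autoImplicit false
open Cfsg

namespace Cfsg.Agent.S0951

/-- Let S be a Sylow 2-subgroup of the finite group G isomorphic to the quaternion group of order 8. Suppose G has no nontrivial normal subgroup of odd order and G ≠ S. Then, relative to any maximal ideal M of the algebraic integers containing 2, the principal block of G consists of exactly 7 irreducible characters. -/
theorem result {G : Type*} [Group G] [Finite G] (M : Ideal Cfsg.AlgInt) (hM : Cfsg.IsPModular 2 M) (S : Sylow 2 G) (e : (S : Subgroup G) ≃* QuaternionGroup 2) (hO : ∀ N : Subgroup G, N.Normal → Odd (Nat.card N) → N = ⊥) (hG : (S : Subgroup G) ≠ ⊤) : Nat.card (Cfsg.principalBlock M G) = 7 := by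
  obtain ⟨ψ, hψd⟩ : ∃ ψ : QuaternionGroup 2 →* G,
      ψ = (S : Subgroup G).subtype.comp e.symm.toMonoidHom := ⟨_, rfl⟩
  have hψ : Function.Injective ψ := by
    rw [hψd]
    exact (Subgroup.subtype_injective _).comp e.symm.injective
  have hS : ψ.range = (S : Subgroup G) := by
    rw [hψd, MonoidHom.range_comp, MonoidHom.range_eq_top.mpr e.symm.surjective,
      ← MonoidHom.range_eq_map, Subgroup.range_subtype]
  have hc := Cfsg.Agent.H59.BSQ8.center_mem Cfsg.Agent.H59.BSQ8.charStep (Nat.card G) G rfl
    S ψ hψ hS hO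
  have hfoc := Cfsg.Agent.H59.BSQ8.focal_eq_of_ne_top S ψ hψ hS hO hG
  have hfus := Cfsg.Agent.H59.BSQ8.fusion_of_focal S ψ hψ hS hfoc
  exact Cfsg.Agent.H59.BSQ8.card_principalBlock S ψ hψ hS hfus hc M hM

end Cfsg.Agent.S0951
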