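import Cfsg.Statements.S0974
import Cfsg.Agent.H5.PrimeTI

set_option autoImplicit false
open Cfsg

namespace Cfsg.Agent.S0974

open Cfsg.Agent.H5.PrimeTI

theorem sylow_count (n : ℕ) (hn : n ∣ 192) (hmod : n % 19 = 1) (hne : n ≠ 1) : n = 96 := by
  have hle : n ≤ 192 := Nat.le_of_dvd (by norm_num) hn
  interval_cases n <;> omega

theorem deg_options (x : ℕ) (hx : x ∣ 192) (hx1 : x ≠ 1) (t : ℤ) :
    ((x : ℤ) = 1 + t * 19 → x = 96) ∧ ((x : ℤ) = -1 + t * 19 → False) := by
  have hle : x ≤ 192 := Nat.le_of_dvd (by norm_num) hx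
  interval_cases x <;> omega

/-- No finite simple group has order 3648 = 2^6 * 3 * 19. -/
theorem result {G : Type*} [Group G] [Finite G] [IsSimpleGroup G] : Nat.card G ≠ 3648 := by
  intro hcard
  have hG : ¬ IsMulCommutative G :=
    Cfsg.Agent.H21.not_comm_of_not_prime (by rw [hcard]; norm_num)
  obtain ⟨ε, hε, d, hd, -, l, hl, hsq, hsum⟩ := simple_sylow_degree_equation hG (p := 19)
    (by norm_num) (M := 192) (by rw [hcard]) (by norm_num) 96 2 9 sylow_count (by norm_num)
    (by norm_num) (by norm_num) (by norm_num)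
  have hsq' : (l.map (fun q => q.1 ^ 2)).sum = 1 := by rw [hsq]; norm_num
  obtain ⟨q, rfl, hq⟩ := list_sq_one l (fun q hq => (hl q hq).1) hsq'
  obtain ⟨-, hqdvd, hq1, t, ht⟩ := hl q (by simp)
  simp only [List.map_cons, List.map_nil, List.sum_cons, List.sum_nil, add_zero] at hsum
  rw [hcard] at hqdvd hd
  have hx19 : ¬ 19 ∣ q.2 := by
    intro h
    rcases hq with h1 | h1 <;> rw [h1] at ht <;> omega
  have hx192 : q.2 ∣ 192 :=
    dvd_of_dvd_mul_prime (p := 19) (by norm_num) (by norm_num; exact hqdvd) hx19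
  obtain ⟨o1, o2⟩ := deg_options q.2 hx192 hq1 t
  rcases hq with h1 | h1
  · rw [h1] at ht hsum
    have hx := o1 (by push_cast at ht ⊢; linarith)
    rw [hx] at hsum
    have hd97 : d = 97 := by
      rcases hε with h | h <;> rw [h] at hsum <;> push_cast at hsum <;> omega
    rw [hd97] at hd
    omega
  · rw [h1] at ht
    exact o2 (by push_cast at ht ⊢; linarith)

end Cfsg.Agent.S0974
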