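import Cfsg.Statements.S0979
import Cfsg.Agent.H5.PrimeTI

set_option autoImplicit false
open Cfsg

namespace Cfsg.Agent.S0979

open Cfsg.Agent.H5.PrimeTI

theorem sylow_count (n : ℕ) (hn : n ∣ 288) (hmod : n % 19 = 1) (hne : n ≠ 1) : n = 96 := by
  have hle : n ≤ 288 := Nat.le_of_dvd (by norm_num) hn
  interval_cases n <;> omega

theorem deg_options (x : ℕ) (hx : x ∣ 288) (hx1 : x ≠ 1) (t : ℤ) :
    ((x : ℤ) = 1 + t * 19 → x = 96) ∧ ((x : ℤ) = -1 + t * 19 → x = 18) := by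
  have hle : x ≤ 288 := Nat.le_of_dvd (by norm_num) hx
  interval_cases x <;> omega

/-- The contribution `δ x` of a non-exceptional character is `96` or `-18`. -/
theorem contrib {G : Type*} [Group G] (hcard : Nat.card G = 5472) (q : ℤ × ℕ)
    (hq : q.1 = 1 ∨ q.1 = -1)
    (h : q.1 ≠ 0 ∧ q.2 ∣ Nat.card G ∧ q.2 ≠ 1 ∧ ∃ t : ℤ, (q.2 : ℤ) = q.1 + t * (19 : ℕ)) :
    q.1 * (q.2 : ℤ) = 96 ∨ q.1 * (q.2 : ℤ) = -18 := by
  obtain ⟨-, hqdvd, hq1, t, ht⟩ := h
  rw [hcard] at hqdvd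
  have hx19 : ¬ 19 ∣ q.2 := by
    intro h
    rcases hq with h1 | h1 <;> rw [h1] at ht <;> omega
  have hx288 : q.2 ∣ 288 :=
    dvd_of_dvd_mul_prime (p := 19) (by norm_num) (by norm_num; exact hqdvd) hx19
  obtain ⟨o1, o2⟩ := deg_options q.2 hx288 hq1 t
  rcases hq with h1 | h1
  · rw [h1] at ht ⊢
    have hx := o1 (by push_cast at ht ⊢; linarith)
    left; rw [hx]; norm_num
  · rw [h1] at ht ⊢
    have hx := o2 (by push_cast at ht ⊢; linarith)
    right; rw [hx]; norm_num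

/-- No finite simple group has order 5472 = 2^5 * 3^2 * 19. -/
theorem result {G : Type*} [Group G] [Finite G] [IsSimpleGroup G] : Nat.card G ≠ 5472 := by
  intro hcard
  have hG : ¬ IsMulCommutative G :=
    Cfsg.Agent.H21.not_comm_of_not_prime (by rw [hcard]; norm_num)
  obtain ⟨ε, hε, d, hd, -, l, hl, hsq, hsum⟩ := simple_sylow_degree_equation hG (p := 19)
    (by norm_num) (M := 288) (by rw [hcard]) (by norm_num) 96 3 6 sylow_count (by norm_num)
    (by norm_num) (by norm_num) (by norm_num)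
  have hsq' : (l.map (fun q => q.1 ^ 2)).sum = 2 := by rw [hsq]; norm_num
  obtain ⟨q₁, q₂, rfl, hq₁, hq₂⟩ := list_sq_two l (fun q hq => (hl q hq).1) hsq'
  have c1 := contrib hcard q₁ hq₁ (hl q₁ (by simp))
  have c2 := contrib hcard q₂ hq₂ (hl q₂ (by simp))
  simp only [List.map_cons, List.map_nil, List.sum_cons, List.sum_nil, add_zero] at hsum
  rw [hcard] at hd
  have hdval : d = 193 ∨ d = 79 ∨ d = 35 := by
    rcases hε with h | h <;> rw [h] at hsum <;> rcases c1 with h1 | h1 <;>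
      rcases c2 with h2 | h2 <;> rw [h1, h2] at hsum <;> omega
  rcases hdval with h | h | h <;> rw [h] at hd <;> omega

end Cfsg.Agent.S0979
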