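import Cfsg.Statements.S0981
import Cfsg.Agent.H51.PSL16Main
import Cfsg.Agent.S0243

set_option autoImplicit false
open Cfsg

namespace Cfsg.Agent.S0981

/-- A simple group of order 4080 is isomorphic to the projective special linear group of dimension 2 over the field with 16 elements. -/
theorem result {G : Type*} [Group G] [Finite G] [IsSimpleGroup G] (h : Nat.card G = 4080) {F : Type*} [Field F] [Fintype F] (hF : Fintype.card F = 16) : Nonempty (G ≃* Matrix.ProjectiveSpecialLinearGroup (Fin 2) F) := by
  classical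
  have hs : IsSimpleGroup (Matrix.ProjectiveSpecialLinearGroup (Fin 2) F) := by
    apply Matrix.ProjectiveSpecialLinearGroup.rank_two_simple
    rw [Nat.card_eq_fintype_card, hF]
    norm_num
  have hcard : Nat.card (Matrix.ProjectiveSpecialLinearGroup (Fin 2) F) = 4080 := by
    have h8 := Cfsg.Agent.S0243.result hF 2 (le_refl 2)
    simp only [Fin.prod_univ_two, Fin.val_zero, Fin.val_one, pow_zero, pow_one] at h8
    have e3 : Nat.gcd 2 (16 - 1) = 1 := by decide
    rw [e3] at h8
    omega
  obtain ⟨e1⟩ := Cfsg.Agent.H51.PSL16.iso_K16 h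
  obtain ⟨e2⟩ := Cfsg.Agent.H51.PSL16.iso_K16 hcard
  exact ⟨e1.trans e2.symm⟩

end Cfsg.Agent.S0981
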