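import Cfsg.Statements.S0996
import Cfsg.Agent.H21.BRMaster
import Cfsg.Agent.H29.BRMRSimple
import Cfsg.Agent.H5.BRMRSyl
import Cfsg.Agent.H86.BRMRnd

set_option autoImplicit false
open Cfsg

namespace Cfsg.Agent.S0996

/-- Let G be a finite perfect group containing an element z of prime order p whose centralizer is the cyclic group it generates, and suppose the number 1 + n * p of Sylow p-subgroups satisfies n < (p + 3) / 2. Then p > 3 and G is isomorphic to the projective special linear group of dimension 2 over the field with p elements, or p - 1 is a power of 2 and G is isomorphic to that group over the field with p - 1 elements. -/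
theorem result {G : Type*} [Group G] [Finite G] (hperf : commutator G = ⊤) (p : ℕ) [Fact p.Prime] (z : G) (hz : orderOf z = p) (hC : Subgroup.centralizer ({z} : Set G) = Subgroup.zpowers z) (hn : 2 * Nat.card (Sylow p G) < (p + 1) * (p + 2)) : (∃ (F : Type) (_ : Field F) (_ : Fintype F), Fintype.card F = p ∧ 3 < p ∧ Nonempty (G ≃* Matrix.ProjectiveSpecialLinearGroup (Fin 2) F)) ∨ (∃ (m : ℕ) (F : Type) (_ : Field F) (_ : Fintype F), Fintype.card F = 2 ^ m ∧ p = 2 ^ m + 1 ∧ 3 < p ∧ Nonempty (G ≃* Matrix.ProjectiveSpecialLinearGroup (Fin 2) F)) := by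
  classical
  have hp : p.Prime := Fact.out
  obtain ⟨P, hPz⟩ := Cfsg.Agent.H5.BRM.sylow_of_self_centralizing p z hz hC
  have hPc : Nat.card (P : Subgroup G) = p := by
    rw [hPz, Nat.card_zpowers, hz]
  have hCP : Subgroup.centralizer ((P : Subgroup G) : Set G) = (P : Subgroup G) := by
    rw [hPz]
    conv_rhs => rw [← hC]
    ext g
    rw [Subgroup.mem_centralizer_iff, Subgroup.mem_centralizer_iff]
    constructor
    · intro h x hx
      rw [Set.mem_singleton_iff] at hx
      rw [hx]
      exact h z (Subgroup.mem_zpowers z)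
    · intro h x hx
      obtain ⟨k, rfl⟩ := Subgroup.mem_zpowers_iff.1 (SetLike.mem_coe.1 hx)
      have h1 : Commute z g := h z (Set.mem_singleton z)
      exact (h1.zpow_left k).eq
  have hmod := card_sylow_modEq_one p G
  obtain ⟨n, hnp⟩ : ∃ n, Nat.card (Sylow p G) = 1 + n * p := by
    refine ⟨Nat.card (Sylow p G) / p, ?_⟩
    have h1 := Nat.div_add_mod (Nat.card (Sylow p G)) p
    have h2 : Nat.card (Sylow p G) % p = 1 := by
      have h3 : Nat.card (Sylow p G) % p = 1 % p := hmod
      rwa [Nat.mod_eq_of_lt hp.one_lt] at h3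
    rw [h2] at h1
    linarith
  have hlt : Nat.card (Sylow p G) < (p + 1) ^ 2 := by nlinarith
  haveI : IsSimpleGroup G :=
    Cfsg.Agent.H29.BRM.simple_of_perfect_self_centralizing hperf p P hPc hCP hlt
  have hG : ¬ IsCyclic G := by
    intro hcyc
    have hcomm : ∀ a b : G, a * b = b * a := fun a b => by
      obtain ⟨g, hg⟩ := hcyc.exists_generator
      obtain ⟨i, rfl⟩ := Subgroup.mem_zpowers_iff.1 (hg a)
      obtain ⟨j, rfl⟩ := Subgroup.mem_zpowers_iff.1 (hg b)
      rw [← zpow_add, ← zpow_add, add_comm]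
    have h1 : commutator G = ⊥ := by
      rw [commutator_def, Subgroup.commutator_eq_bot_iff_le_centralizer]
      intro a _
      rw [Subgroup.mem_centralizer_iff]
      intro b _
      exact hcomm b a
    rw [hperf] at h1
    have h2 : z ∈ (⊥ : Subgroup G) := h1 ▸ Subgroup.mem_top z
    rw [Subgroup.mem_bot] at h2
    rw [h2, orderOf_one] at hz
    have := hp.two_le
    omega
  have hND : Cfsg.Agent.H21.BR.ND p n := by
    apply Cfsg.Agent.H86.BRM.nd_of_lt p n hp
    rw [← hnp]
    exact hn
  rcases Cfsg.Agent.H21.BR.master hG p P hPc hCP n hnp hND with h | ⟨a, F, instF, instFt, hF, hpa, h3, ⟨iso⟩⟩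
  · exact Or.inl h
  · right
    letI := instF
    letI := instFt
    obtain ⟨iso2⟩ := Cfsg.Agent.H62.BR.sl2_equiv_psl2 F a hF
    exact ⟨a, F, instF, instFt, hF, hpa, h3, ⟨iso.trans iso2⟩⟩

end Cfsg.Agent.S0996
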