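import Cfsg.Statements.S0997
import Cfsg.Agent.H74.BTMain
import Cfsg.Agent.S4504
import Cfsg.Agent.H11.BTArithFin
import Cfsg.Agent.H11.BTB1Syl
import Cfsg.Agent.H2.BTB2Prod
import Cfsg.Agent.H63.BTB2MomFin
import Cfsg.Agent.H63.BTB2Sing
import Cfsg.Agent.H65.BTB1Ord
import Cfsg.Agent.H65.BTB2Int
import Cfsg.Agent.H65.BTB2MomSum
import Cfsg.Agent.H65.BTB2Pos
import Cfsg.Agent.H65.BTB2Struct
import Cfsg.Agent.H78.BTArith1
import Cfsg.Agent.H78.BTArith2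
import Cfsg.Agent.H78.BTSmall1
import Cfsg.Agent.H78.BTSmall2
import Cfsg.Agent.H87.BTB2Glob
import Cfsg.Agent.H87.BTB2Id
import Cfsg.Agent.H87.BTB2Two
import Cfsg.Agent.Helper55.BTB1Class
import Cfsg.Agent.Helper55.BTB1Tau
import Cfsg.Agent.Helper55.BTB2Real

set_option autoImplicit false
open Cfsg

namespace Cfsg.Agent.S0997

/-- Let G be a non-cyclic finite simple group of order p * q^b * g₀, where p and q are distinct primes and g₀ < p - 1. Then either p has the form 2^m + 1 or 2^m - 1 and G is isomorphic to the projective special linear group of dimension 2 over the field with p elements, or p = 2^m + 1 > 3 and G is isomorphic to that group over the field with 2^m elements. -/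
theorem result {G : Type*} [Group G] [Finite G] [IsSimpleGroup G] (hG : ¬ IsCyclic G) (p q b g₀ : ℕ) (hp : p.Prime) (hq : q.Prime) (hpq : p ≠ q) (hG' : Nat.card G = p * q ^ b * g₀) (hg : g₀ < p - 1) : (∃ (m : ℕ) (F : Type) (_ : Field F) (_ : Fintype F), Fintype.card F = p ∧ (p = 2 ^ m + 1 ∨ p = 2 ^ m - 1) ∧ Nonempty (G ≃* Matrix.ProjectiveSpecialLinearGroup (Fin 2) F)) ∨ (∃ (m : ℕ) (F : Type) (_ : Field F) (_ : Fintype F), Fintype.card F = 2 ^ m ∧ p = 2 ^ m + 1 ∧ 3 < p ∧ Nonempty (G ≃* Matrix.ProjectiveSpecialLinearGroup (Fin 2) F)) := by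
  exact Cfsg.Agent.H74.BT.bt_of
    Cfsg.Agent.H78.BT.small1
    Cfsg.Agent.H78.BT.small2
    Cfsg.Agent.H78.BT.arith1
    Cfsg.Agent.H78.BT.arith2
    Cfsg.Agent.H11.BT.arithFin
    (fun p hp hdiv hsq hnn χ hχ hf hd => Cfsg.Agent.S4504.result p hp hdiv hsq hnn χ hχ hf hd)
    Cfsg.Agent.Helper55.BT.b1Tau
    Cfsg.Agent.H65.BT.b1Ord
    Cfsg.Agent.Helper55.BT.b1Class
    Cfsg.Agent.H11.BT.b1Syl
    Cfsg.Agent.H63.BT.b2Sing
    Cfsg.Agent.Helper55.BT.b2Real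
    Cfsg.Agent.H87.BT.b2Two
    Cfsg.Agent.H65.BT.b2Int
    Cfsg.Agent.H2.BT.b2Prod
    Cfsg.Agent.H87.BT.b2Id
    Cfsg.Agent.H65.BT.b2Struct
    Cfsg.Agent.H87.BT.b2Glob
    Cfsg.Agent.H65.BT.b2Pos
    Cfsg.Agent.H65.BT.b2MomSum
    Cfsg.Agent.H63.BT.b2MomFin
    hG p q b g₀ hp hq hpq hG' hg

end Cfsg.Agent.S0997
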