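import Cfsg.Statements.S0998
import Cfsg.Agent.H2.PrqAsm
import Cfsg.Agent.H3.PrqOdd
import Cfsg.Agent.H28.PrqPar
import Cfsg.Agent.H18.PrqArithB
import Cfsg.Agent.H18.PrqParB
import Cfsg.Agent.H4.PrqTypeA
import Cfsg.Agent.H35.PrqArithA

set_option autoImplicit false
open Cfsg

namespace Cfsg.Agent.S0998

/-- A non-cyclic finite simple group whose order has the form p * r * q^b for distinct primes p, q, r is isomorphic to the projective special linear group of dimension 2 over the field with 5 or with 7 elements. -/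
theorem result {G : Type*} [Group G] [Finite G] [IsSimpleGroup G] (hG : ¬ IsCyclic G) (p q r b : ℕ) (hp : p.Prime) (hq : q.Prime) (hr : r.Prime) (hpq : p ≠ q) (hpr : p ≠ r) (hqr : q ≠ r) (hG' : Nat.card G = p * r * q ^ b) : (∃ (F : Type) (_ : Field F) (_ : Fintype F), Fintype.card F = 5 ∧ Nonempty (G ≃* Matrix.ProjectiveSpecialLinearGroup (Fin 2) F)) ∨ (∃ (F : Type) (_ : Field F) (_ : Fintype F), Fintype.card F = 7 ∧ Nonempty (G ≃* Matrix.ProjectiveSpecialLinearGroup (Fin 2) F)) := by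
  exact Cfsg.Agent.H2.Prq.s0998_of Cfsg.Agent.H3.Prq.odd Cfsg.Agent.H28.Prq.par Cfsg.Agent.H18.Prq.arithB
    Cfsg.Agent.H18.Prq.parB Cfsg.Agent.H4.Prq.typeA Cfsg.Agent.H35.Prq.arithA hG p q r b hp hq hr hpq hpr hqr hG'

end Cfsg.Agent.S0998
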