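import Cfsg.Statements.S1022
import Cfsg.Agent.H21.Ord459648
import Cfsg.Agent.H20.O459BDE
import Cfsg.Agent.H82.O459E3
import Cfsg.Agent.H35.O459L38
import Cfsg.Agent.H35.O459Fix96
import Cfsg.Agent.H24.O459E1
import Cfsg.Agent.H56.O459CT
import Cfsg.Agent.H24.O459SYLH
import Cfsg.Agent.H24.O459CAB

set_option autoImplicit false
open Cfsg

namespace Cfsg.Agent.S1022

open Subgroup Cfsg.Agent.H21

/-- No finite simple group has order 459648 = 2^7 * 3^3 * 7 * 19. -/
theorem result {G : Type*} [Group G] [Finite G] [IsSimpleGroup G] : Nat.card G ≠ 459648 := by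
  intro h
  have hG : ¬ IsMulCommutative G := not_comm_of_not_prime (by rw [h]; norm_num)
  have : Fact (Nat.Prime 19) := ⟨by norm_num⟩
  have : Fact (Nat.Prime 2) := ⟨by norm_num⟩
  have hna : ∃ u v : G, u * v ≠ v * u := by
    by_contra hcon
    push Not at hcon
    exact hG ⟨⟨hcon⟩⟩
  obtain ⟨P⟩ : Nonempty (Sylow 19 G) := inferInstance
  have hN : Nat.card G = 19 ^ 1 * 24192 := by rw [h]; norm_num
  obtain ⟨hPc, -, -, hnd, hnm, hn1, -, hNn, -⟩ :=
    simple_sylow_facts hG hN (by norm_num) one_ne_zero P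
  rw [pow_one] at hPc
  have hn96 := Cfsg.Agent.H35.O459.card_sylow19_ne_96 (G := G) h
  have hn : Nat.card (Sylow 19 G) = 1008 := by
    rcases Ord459648.dvd_24192_mod19 _ hnd hnm with h1 | h1 | h1
    · exact absurd h1 hn1
    · exact absurd h1 hn96
    · exact h1
  have hNc : Nat.card (normalizer ((P : Subgroup G) : Set G)) = 456 := by
    rw [hn, h] at hNn
    omega
  obtain ⟨d, hd, hd1, hd18, hdN⟩ := simple_sylow_prime_card_NC hG P hPc
  rw [hNc] at hdN
  have hd6 : d = 6 := by
    have hd2 : d ≠ 2 := fun h2 => Cfsg.Agent.H20.O459.relIndex_ne_two_three h P hPc d hd.symm (Or.inl h2)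
    have hd3 : d ≠ 3 := fun h3 => Cfsg.Agent.H20.O459.relIndex_ne_two_three h P hPc d hd.symm (Or.inr h3)
    have h24 : d ∣ 24 := by
      have : 19 * d ∣ 19 * 24 := hdN
      exact (Nat.mul_dvd_mul_iff_left (by norm_num)).mp this
    have hd6' : d ∣ 6 := by
      have := Nat.dvd_gcd hd18 h24
      simpa using this
    have hle := Nat.le_of_dvd (by norm_num) hd6'
    interval_cases d <;> first | rfl | omega
  have hrel : (centralizer ((P : Subgroup G) : Set G)).relIndex
      (normalizer ((P : Subgroup G) : Set G)) = 6 := by rw [← hd, hd6]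
  have hCc : Nat.card (centralizer ((P : Subgroup G) : Set G)) = 76 := by
    have := card_centralizer_mul_relIndex_normalizer (P : Subgroup G)
    rw [hrel, hNc] at this
    omega
  obtain ⟨χ, χ', ε, ε', hne, hdχ, hdχ', hχ, hχ'⟩ := Cfsg.Agent.H20.O459.exists_two_characters h P hPc hrel
  obtain ⟨t, htC, ht⟩ := exists_mem_orderOf_eq_prime
    (centralizer ((P : Subgroup G) : Set G)) 2 (by rw [hCc]; norm_num)
  obtain ⟨x, hxP, hx⟩ := exists_mem_orderOf_eq_prime (P : Subgroup G) 19 (by rw [hPc])
  have hxt : x * t = t * x := (Subgroup.mem_centralizer_iff.mp htC) x hxP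
  have hxi : ∀ i : ℕ, ¬ 19 ∣ i → x ^ i ∈ (P : Subgroup G) ∧ x ^ i ≠ 1 := by
    intro i hi
    refine ⟨Subgroup.pow_mem _ hxP i, fun h1 => hi ?_⟩
    rw [← hx]
    exact orderOf_dvd_of_pow_eq_one h1
  have h19t : ¬ 19 ∣ orderOf t := by rw [ht]; norm_num
  have h19one : ¬ 19 ∣ orderOf (1 : G) := by rw [orderOf_one]; norm_num
  have h1 : ∀ i : ℕ, ¬ 19 ∣ i → (χ : G → ℂ) (x ^ i) = ε ∧ (χ : G → ℂ) (x ^ i * t) = ε := by
    intro i hi
    obtain ⟨ha, hb⟩ := hxi i hi
    refine ⟨?_, hχ _ ha hb t htC h19t⟩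
    have := hχ _ ha hb 1 (Subgroup.one_mem _) h19one
    rwa [mul_one] at this
  have h1' : ∀ i : ℕ, ¬ 19 ∣ i → (χ' : G → ℂ) (x ^ i) = ε' ∧ (χ' : G → ℂ) (x ^ i * t) = ε' := by
    intro i hi
    obtain ⟨ha, hb⟩ := hxi i hi
    refine ⟨?_, hχ' _ ha hb t htC h19t⟩
    have := hχ' _ ha hb 1 (Subgroup.one_mem _) h19one
    rwa [mul_one] at this
  have hge : 649 ≤ Nat.card (centralizer ({t} : Set G)) :=
    Cfsg.Agent.H56.O459.card_centralizer_ge hna χ χ' ε ε' hne hdχ hdχ' x t hx ht hxt h1 h1'
      (fun ψ hψ n hn a c ha h1 h2 =>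
        Cfsg.Agent.H35.O459.two_mul_dvd_sub ψ hψ 19 (by norm_num) (by norm_num) x t hx ht hxt n hn a c ha h1 h2)
  have hab := Cfsg.Agent.H24.O459.centralizer_comm_of_card P hPc hCc
  have hCH : centralizer ((P : Subgroup G) : Set G) ≤ centralizer ({t} : Set G) := by
    intro c hc
    rw [Subgroup.mem_centralizer_iff]
    intro g hg
    rw [Set.mem_singleton_iff] at hg
    subst hg
    exact hab _ htC c hc
  have hPC : (P : Subgroup G) ≤ centralizer ((P : Subgroup G) : Set G) := by
    have : IsCyclic (P : Subgroup G) := isCyclic_of_prime_card hPc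
    have hcomm : ∀ a b : (P : Subgroup G), a * b = b * a := fun a b =>
      (IsCyclic.commGroup (α := (P : Subgroup G))).mul_comm a b
    intro a ha b hb
    have := hcomm ⟨b, hb⟩ ⟨a, ha⟩
    exact congrArg Subtype.val this
  have hPH : (P : Subgroup G) ≤ centralizer ({t} : Set G) := hPC.trans hCH
  obtain ⟨nH, hnH, hHcard⟩ := Cfsg.Agent.H24.O459.card_eq_mul_of_sylow_le 19 P (centralizer ({t} : Set G)) hPH
  have hCNH : centralizer ((P : Subgroup G) : Set G) ≤
      normalizer ((P : Subgroup G) : Set G) ⊓ centralizer ({t} : Set G) :=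
    le_inf (Subgroup.centralizer_le_normalizer _) hCH
  have h76 : 76 ∣ Nat.card ↥(normalizer ((P : Subgroup G) : Set G) ⊓ centralizer ({t} : Set G)) := by
    have := Subgroup.card_dvd_of_le hCNH
    rwa [hCc] at this
  have hm456 : Nat.card ↥(normalizer ((P : Subgroup G) : Set G) ⊓ centralizer ({t} : Set G))
      ∣ 456 := by
    have := Subgroup.card_dvd_of_le
      (inf_le_left : normalizer ((P : Subgroup G) : Set G) ⊓ centralizer ({t} : Set G) ≤ _)
    rwa [hNc] at this
  have hHdvd : nH * Nat.card ↥(normalizer ((P : Subgroup G) : Set G) ⊓ centralizer ({t} : Set G))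
      ∣ 459648 := by
    rw [← hHcard, ← h]
    exact Subgroup.card_subgroup_dvd_card _
  have hge' : 649 ≤
      nH * Nat.card ↥(normalizer ((P : Subgroup G) : Set G) ⊓ centralizer ({t} : Set G)) := by
    rw [← hHcard]; exact hge
  have hno3 : ∀ u : G, u ∈ centralizer ((P : Subgroup G) : Set G) → orderOf u = 3 → False := by
    intro u hu h3
    have := orderOf_dvd_card_of_mem _ u hu
    rw [h3, hCc] at this
    revert this
    norm_num
  rcases Ord459648.centralizer_arith nH _ h76 hm456 hnH hHdvd hge' with ⟨hn96', hm | hm⟩ | hn1008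
  · -- |H| = 2^7 * 3 * 19, N ⊓ H = C
    have hHc : Nat.card (centralizer ({t} : Set G)) = 2 ^ 7 * 3 * 19 := by
      rw [hHcard, hn96', hm]; norm_num
    have heq : centralizer ((P : Subgroup G) : Set G) =
        normalizer ((P : Subgroup G) : Set G) ⊓ centralizer ({t} : Set G) :=
      Subgroup.eq_of_le_of_card_ge hCNH (by rw [hm, hCc])
    obtain ⟨u, -, hu3, huC⟩ := Cfsg.Agent.H24.O459.exists_three_of_transfer (centralizer ({t} : Set G))
      (P : Subgroup G) hPH hPc 7 hHc heq.ge
    exact hno3 u huC hu3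
  · -- |H| = 2^7 * 3^2 * 19
    have hHc : Nat.card (centralizer ({t} : Set G)) = 2 ^ 7 * 3 ^ 2 * 19 := by
      rw [hHcard, hn96', hm]; norm_num
    have hinf : centralizer ((P : Subgroup G) : Set G) ⊓ centralizer ({t} : Set G) =
        centralizer ((P : Subgroup G) : Set G) := inf_eq_left.mpr hCH
    obtain ⟨u, -, hu3, huC⟩ := Cfsg.Agent.H82.O459.exists_three_of_index_three (centralizer ({t} : Set G))
      (P : Subgroup G) hPH hPc hHc (by rw [hinf, hm, hCc])
      (fun K hPK hK hNK => Cfsg.Agent.H24.O459.exists_three_of_transfer K (P : Subgroup G) hPK hPc 7 hK hNK)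
    exact hno3 u huC hu3
  · -- index of H at most 6
    have hHtop : centralizer ({t} : Set G) ≠ ⊤ := by
      intro htop
      have htc : t ∈ Subgroup.center G := by
        rw [Subgroup.mem_center_iff]
        intro g
        have hg : g ∈ centralizer ({t} : Set G) := htop ▸ Subgroup.mem_top g
        exact ((Subgroup.mem_centralizer_iff.mp hg) t rfl).symm
      have hnorm : (Subgroup.center G).Normal := inferInstance
      rcases hnorm.eq_bot_or_eq_top with hc | hc
      · rw [hc, Subgroup.mem_bot] at htc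
        rw [htc, orderOf_one] at ht
        exact absurd ht (by norm_num)
      · apply hG
        refine ⟨⟨fun a b => ?_⟩⟩
        have hb : b ∈ Subgroup.center G := hc ▸ Subgroup.mem_top b
        exact (Subgroup.mem_center_iff.1 hb a)
    have hfac := two_mul_card_dvd_factorial_index hG _ hHtop
    have hidx := Subgroup.card_mul_index (centralizer ({t} : Set G))
    rw [hHcard, hn1008, h] at hidx
    have hm76 : 76 ≤ Nat.card
        ↥(normalizer ((P : Subgroup G) : Set G) ⊓ centralizer ({t} : Set G)) :=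
      Nat.le_of_dvd (Nat.pos_of_ne_zero (by
        intro h0; rw [h0] at hm456; revert hm456; norm_num)) h76
    have hi6 : (centralizer ({t} : Set G)).index ≤ 6 := by
      by_contra hcon
      push Not at hcon
      have : 1008 * 76 * 7 ≤ 1008 * Nat.card
          ↥(normalizer ((P : Subgroup G) : Set G) ⊓ centralizer ({t} : Set G)) *
          (centralizer ({t} : Set G)).index :=
        Nat.mul_le_mul (Nat.mul_le_mul_left _ hm76) hcon
      omega
    have hf720 : (centralizer ({t} : Set G)).index.factorial ≤ 720 := by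
      have := Nat.factorial_le hi6
      simpa [Nat.factorial] using this
    have hpos : 0 < (centralizer ({t} : Set G)).index.factorial := Nat.factorial_pos _
    have := Nat.le_of_dvd hpos hfac
    rw [h] at this
    omega

end Cfsg.Agent.S1022
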