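import Cfsg.Statements.S1307
import Cfsg.Agent.S0215
import Cfsg.Agent.S0016
import Cfsg.Agent.H27.ZStarRankOne
import Cfsg.Agent.H27.Comp
import Cfsg.Agent.H6.CyclicSylow

set_option autoImplicit false
open Cfsg

namespace Cfsg.Agent.S1307

/-- Let G be finite, x an involution and L ≤ C_G(x) a component of C_G(x) of even order and 2-rank 1, such that L is a component of C_G(y) for every involution y ∈ C_G(L). Then some involution of L is a classical involution of G. -/
theorem result {G : Type*} [Group G] [Finite G] (x : G) (hx : orderOf x = 2) (L : Subgroup G) (hLx : L ≤ Subgroup.centralizer ({x} : Set G)) (hL : Cfsg.IsComponent (L.subgroupOf (Subgroup.centralizer ({x} : Set G)))) (heven : Even (Nat.card ↥L)) (hrk : Cfsg.PRankLE 2 1 ↥L) (hne : ∀ y : G, orderOf y = 2 → y ∈ Subgroup.centralizer (L : Set G) → L ≤ Subgroup.centralizer ({y} : Set G) ∧ Cfsg.IsComponent (L.subgroupOf (Subgroup.centralizer ({y} : Set G)))) : ∃ t ∈ L, Cfsg.IsClassicalInvolution t := by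
  classical
  haveI : Fact (Nat.Prime 2) := ⟨Nat.prime_two⟩
  have hQ : IsQuasisimple ↥L :=
    Cfsg.Agent.H27.quasisimple_of_mulEquiv (Subgroup.subgroupOfEquivOfLe hLx) hL.2
  haveI hperf : Group.IsPerfect ↥L := hQ.1
  have hKlein : ∀ E : Subgroup ↥L, ¬ IsKleinFour E := by
    intro E hE
    have h1 := hrk E (IsKleinFour.isMulCommutative) (fun a ha => by
      have h2 := IsKleinFour.mul_self (⟨a, ha⟩ : ↥E)
      have h3 := congrArg Subtype.val h2
      simp only [Subgroup.coe_mul, Subgroup.coe_one] at h3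
      rw [pow_two]; exact h3)
    have h4 : Nat.card ↥E = 4 := IsKleinFour.card_four
    rw [h4] at h1
    norm_num at h1
  obtain ⟨z, hz, N, hN, hNodd, hzN⟩ := Cfsg.Agent.H27.rank_one_of_zstar
    (fun G _ _ P x hx hxP hiso => Cfsg.Agent.S0215.result P x hx hxP hiso) heven hKlein
  have hNc : N ≤ Subgroup.center ↥L := by
    rcases Cfsg.Agent.H27.quasisimple_normal hQ N with h | h
    · exact h
    · exfalso
      rw [h, Subgroup.card_top] at hNodd
      exact (Nat.not_even_iff_odd.mpr hNodd) heven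
  -- `z` is central in `L`
  let f : ↥L →* ↥(Subgroup.center ↥L) :=
    { toFun := fun g => ⟨z * g * z⁻¹ * g⁻¹, hNc (hzN g)⟩
      map_one' := by
        apply Subtype.ext
        show z * 1 * z⁻¹ * 1⁻¹ = 1
        group
      map_mul' := by
        intro g h
        apply Subtype.ext
        show z * (g * h) * z⁻¹ * (g * h)⁻¹ = (z * g * z⁻¹ * g⁻¹) * (z * h * z⁻¹ * h⁻¹)
        have hc := Subgroup.mem_center_iff.mp (hNc (hzN h)) g
        calc z * (g * h) * z⁻¹ * (g * h)⁻¹
            = z * g * z⁻¹ * (z * h * z⁻¹ * h⁻¹) * g⁻¹ := by group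
          _ = z * g * z⁻¹ * g⁻¹ * (g * (z * h * z⁻¹ * h⁻¹)) * g⁻¹ := by group
          _ = z * g * z⁻¹ * g⁻¹ * ((z * h * z⁻¹ * h⁻¹) * g) * g⁻¹ := by rw [hc]
          _ = (z * g * z⁻¹ * g⁻¹) * (z * h * z⁻¹ * h⁻¹) := by group }
  have hker : f.ker = ⊤ := by
    have h1 : commutator ↥L ≤ f.ker := by
      rw [commutator_def, Subgroup.commutator_le]
      intro a _ b _
      rw [MonoidHom.mem_ker, map_commutatorElement, commutatorElement_eq_one_iff_commute]
      exact Subtype.ext (Subgroup.mem_center_iff.mp (f b).2 (f a).1)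
    rw [hperf.commutator_eq_top] at h1
    exact top_le_iff.mp h1
  have hzc : ∀ g : ↥L, g * z = z * g := by
    intro g
    have h1 : g ∈ f.ker := by rw [hker]; trivial
    have h2 : f g = 1 := MonoidHom.mem_ker.mp h1
    have h3 : z * g * z⁻¹ * g⁻¹ = 1 := congrArg Subtype.val h2
    have h4 : z * g * z⁻¹ = g := mul_inv_eq_one.mp h3
    calc g * z = z * g * z⁻¹ * z := by rw [h4]
      _ = z * g := by group
  have hzz : z * z = 1 := by
    have := pow_orderOf_eq_one z
    rw [hz, pow_two] at this; exact this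
  have hz1 : z ≠ 1 := by
    intro h
    rw [h, orderOf_one] at hz
    exact absurd hz (by norm_num)
  -- every involution of `L` is `z`
  have hinv : ∀ u : ↥L, orderOf u = 2 → u = z := by
    intro u hu
    by_contra hne'
    have huu : u * u = 1 := by
      have := pow_orderOf_eq_one u
      rw [hu, pow_two] at this; exact this
    have hu1 : u ≠ 1 := by
      intro h
      rw [h, orderOf_one] at hu
      exact absurd hu (by norm_num)
    exact hKlein _ (Cfsg.Agent.H11.fourSub_isKleinFour z u hzz huu (hzc u).symm hz1 hu1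
      (fun h => hne' h.symm))
  have hzG : orderOf (z : G) = 2 := by rw [Subgroup.orderOf_coe]; exact hz
  have hzcent : (z : G) ∈ Subgroup.centralizer (L : Set G) := by
    rw [Subgroup.mem_centralizer_iff]
    intro l hl
    have h1 := hzc ⟨l, hl⟩
    exact congrArg Subtype.val h1
  obtain ⟨hLz, hLcomp⟩ := hne (z : G) hzG hzcent
  -- Sylow 2-subgroup of `L`
  let S : Sylow 2 ↥L := default
  have hHz : ∀ H : Subgroup ↥(S : Subgroup ↥L), Nat.card H = 2 →
      ∃ h0 : ↥(S : Subgroup ↥L), (h0 : ↥L) = z ∧ H = Subgroup.zpowers h0 := by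
    intro H hH
    have h2 : 2 ∣ Nat.card H := by rw [hH]
    obtain ⟨h0, hh0⟩ := exists_prime_orderOf_dvd_card' 2 h2
    refine ⟨(h0 : ↥(S : Subgroup ↥L)), ?_, ?_⟩
    · apply hinv
      rw [Subgroup.orderOf_coe, Subgroup.orderOf_coe]; exact hh0
    · symm
      apply Subgroup.eq_of_le_of_card_ge
      · rw [Subgroup.zpowers_le]; exact h0.2
      · rw [hH, Nat.card_zpowers, Subgroup.orderOf_coe, hh0]
  have huniq : ∀ H K : Subgroup ↥(S : Subgroup ↥L), Nat.card H = 2 → Nat.card K = 2 → H = K := by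
    intro H K hH hK
    obtain ⟨h0, hh0, rfl⟩ := hHz H hH
    obtain ⟨k0, hk0, rfl⟩ := hHz K hK
    have : h0 = k0 := Subtype.ext (hh0.trans hk0.symm)
    rw [this]
  have hnotcyc : ¬ IsCyclic ↥(S : Subgroup ↥L) := by
    intro hcyc
    obtain ⟨H, hH⟩ := Cfsg.Agent.H6.exists_index_two_of_cyclic_sylow heven S hcyc
    haveI hHn : H.Normal := Subgroup.normal_of_index_eq_two hH
    have hcard : Nat.card (↥L ⧸ H) = 2 := hH
    haveI : Fact (Nat.Prime 2) := ⟨Nat.prime_two⟩
    haveI hcq : IsCyclic (↥L ⧸ H) := isCyclic_of_prime_card hcard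
    have hcomm : ∀ a b : ↥L ⧸ H, a * b = b * a :=
      fun a b => (IsCyclic.commGroup (α := ↥L ⧸ H)).mul_comm a b
    have h1 : commutator ↥L ≤ (QuotientGroup.mk' H).ker := by
      rw [commutator_def, Subgroup.commutator_le]
      intro a _ b _
      rw [MonoidHom.mem_ker, map_commutatorElement, commutatorElement_eq_one_iff_commute]
      exact hcomm _ _
    rw [hperf.commutator_eq_top, QuotientGroup.ker_mk'] at h1
    have h2 : H = ⊤ := top_le_iff.mp h1
    rw [h2, Subgroup.index_top] at hH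
    exact absurd hH (by norm_num)
  rcases Cfsg.Agent.S0016.result 2 S.isPGroup' huniq with hcyc | ⟨-, n, ⟨e⟩⟩
  · exact absurd hcyc hnotcyc
  · rcases n with _ | n
    · exfalso
      apply hnotcyc
      haveI := QuaternionGroup.quaternionGroup_one_isCyclic
      have e' : ↥(S : Subgroup ↥L) ≃* QuaternionGroup 1 := by simpa using e
      exact isCyclic_of_surjective e'.symm e'.symm.surjective
    · exact ⟨(z : G), z.2, hzG, L, hLz, z.2, hLcomp.1, S, n, ⟨e⟩⟩

end Cfsg.Agent.S1307
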