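import Cfsg.Statements.S1349
import Cfsg.Agent.H29.ThompsonAux
import Cfsg.Agent.H29.Dihedral

set_option autoImplicit false
open Cfsg

namespace Cfsg.Agent.S1349

theorem commute_sup_zpowers {G : Type*} [Group G] {a x c y : G} (h1 : a * c = c * a)
    (h2 : a * y = y * a) (h3 : x * c = c * x) (h4 : x * y = y * x) :
    ∀ u ∈ Subgroup.zpowers a ⊔ Subgroup.zpowers x, ∀ v ∈ Subgroup.zpowers c ⊔ Subgroup.zpowers y,
      u * v = v * u := by
  have key : ∀ v ∈ Subgroup.zpowers c ⊔ Subgroup.zpowers y, a * v = v * a ∧ x * v = v * x := by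
    intro v hv
    have hle : Subgroup.zpowers c ⊔ Subgroup.zpowers y ≤
        Subgroup.centralizer ({a} : Set G) ⊓ Subgroup.centralizer ({x} : Set G) := by
      apply sup_le
      · rw [Subgroup.zpowers_le, Subgroup.mem_inf, Subgroup.mem_centralizer_singleton_iff,
          Subgroup.mem_centralizer_singleton_iff]
        exact ⟨h1.symm, h3.symm⟩
      · rw [Subgroup.zpowers_le, Subgroup.mem_inf, Subgroup.mem_centralizer_singleton_iff,
          Subgroup.mem_centralizer_singleton_iff]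
        exact ⟨h2.symm, h4.symm⟩
    have := hle hv
    rw [Subgroup.mem_inf, Subgroup.mem_centralizer_singleton_iff,
      Subgroup.mem_centralizer_singleton_iff] at this
    exact ⟨this.1.symm, this.2.symm⟩
  intro u hu v hv
  have hle : Subgroup.zpowers a ⊔ Subgroup.zpowers x ≤ Subgroup.centralizer ({v} : Set G) := by
    apply sup_le
    · rw [Subgroup.zpowers_le, Subgroup.mem_centralizer_singleton_iff]
      exact (key v hv).1
    · rw [Subgroup.zpowers_le, Subgroup.mem_centralizer_singleton_iff]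
      exact (key v hv).2
  exact Subgroup.mem_centralizer_singleton_iff.mp (hle hu)

/-- Let G be finite, L ≤ G solvable of odd order, and A an elementary abelian 2-subgroup of order 2^d (d ≥ 1) normalizing L with C_A(L) = 1. Then there are subgroups A_1, …, A_d of A of order 2 generating A and subgroups L_1, …, L_d of L such that each A_i ⊔ L_i is dihedral of order 2 n_i with n_i odd and at least 3, and A_i ⊔ L_i commutes elementwise with A_j ⊔ L_j for i ≠ j. -/
theorem result {G : Type*} [Group G] [Finite G] (L A : Subgroup G) (hLs : Group.IsSolvable ↥L) (hLodd : Odd (Nat.card ↥L)) (hA : Cfsg.IsElementaryAbelian 2 A) (d : ℕ) (hd : 1 ≤ d) (hAd : Nat.card ↥A = 2 ^ d) (hAL : A ≤ Subgroup.normalizer (L : Set G)) (hfaith : A ⊓ Subgroup.centralizer (L : Set G) = ⊥) : ∃ (Ai : Fin d → Subgroup G) (Li : Fin d → Subgroup G) (n : Fin d → ℕ), (∀ i, Ai i ≤ A ∧ Nat.card ↥(Ai i) = 2 ∧ Li i ≤ L ∧ Odd (n i) ∧ 3 ≤ n i ∧ Nonempty (↥(Ai i ⊔ Li i) ≃* DihedralGroup (n i))) ∧ (⨆ i, Ai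 i) = A ∧ ∀ i j, i ≠ j → ∀ x ∈ Ai i ⊔ Li i, ∀ y ∈ Ai j ⊔ Li j, x * y = y * x := by
  obtain ⟨hAcomm, hAexp⟩ := hA
  have hAc : ∀ a ∈ A, ∀ b ∈ A, a * b = b * a := by
    intro a ha b hb
    have := (isMulCommutative_iff.mp hAcomm) ⟨a, ha⟩ ⟨b, hb⟩
    exact congrArg Subtype.val this
  have hAsq : ∀ a ∈ A, a * a = 1 := by
    intro a ha
    have := hAexp a ha
    rwa [pow_two] at this
  obtain ⟨E, hEL, hEc, hAE, hAEL⟩ :=
    Cfsg.Agent.H29.exists_abelian_faithful A hAc hAsq (Nat.card L) L rfl hAL hLs hLodd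
  have hfaithE : A ⊓ Subgroup.centralizer (E : Set G) = ⊥ := by
    rw [eq_bot_iff, ← hfaith]
    exact le_inf inf_le_left hAEL
  have hoddL : ∀ x ∈ L, x * x = 1 → x = 1 := by
    intro x hx hxx
    have h1 : orderOf x ∣ 2 := orderOf_dvd_of_pow_eq_one (by rw [pow_two]; exact hxx)
    have h2 : orderOf x ∣ Nat.card L := by
      have := Subgroup.orderOf_dvd_natCard L hx
      exact this
    have h3 : orderOf x ∣ Nat.gcd 2 (Nat.card L) := Nat.dvd_gcd h1 h2
    have h4 : Nat.gcd 2 (Nat.card L) = 1 := Nat.coprime_two_left.mpr hLodd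
    rw [h4] at h3
    exact orderOf_eq_one_iff.mp (Nat.dvd_one.mp h3)
  have hEodd : ∀ x ∈ E, x * x = 1 → x = 1 := fun x hx => hoddL x (hEL hx)
  obtain ⟨b, x, hbx, hoff, -, hgen⟩ :=
    Cfsg.Agent.H29.exists_dual_basis A E hAc hAsq hEc hEodd hAE d A le_rfl hAd hfaithE
  have hb1 : ∀ i, b i ≠ 1 := by
    intro i h1
    obtain ⟨-, hxE, hx1, hinv, -⟩ := hbx i
    rw [h1] at hinv
    simp only [one_mul, inv_one, mul_one] at hinv
    apply hx1
    apply hEodd _ hxE
    calc x i * x i = (x i)⁻¹ * x i := by rw [← hinv]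
      _ = 1 := inv_mul_cancel _
  have hxodd : ∀ i, Odd (orderOf (x i)) := by
    intro i
    obtain ⟨-, hxE, -, -, -⟩ := hbx i
    have h2 : orderOf (x i) ∣ Nat.card L := Subgroup.orderOf_dvd_natCard L (hEL hxE)
    exact hLodd.of_dvd_nat h2
  refine ⟨fun i => Subgroup.zpowers (b i), fun i => Subgroup.zpowers (x i),
    fun i => orderOf (x i), ?_, ?_, ?_⟩
  · intro i
    obtain ⟨hbA, hxE, hx1, hinv, -⟩ := hbx i
    refine ⟨?_, ?_, ?_, hxodd i, ?_, ?_⟩
    · rw [Subgroup.zpowers_le]; exact hbA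
    · rw [Nat.card_zpowers]
      exact orderOf_eq_prime (by rw [pow_two]; exact hAsq _ hbA) (hb1 i)
    · rw [Subgroup.zpowers_le]; exact hEL hxE
    · show 3 ≤ orderOf (x i)
      have h1 : orderOf (x i) ≠ 1 := fun h => hx1 (orderOf_eq_one_iff.mp h)
      have h0 : 0 < orderOf (x i) := orderOf_pos (x i)
      have h2 : orderOf (x i) ≠ 2 := by
        intro h
        have := hxodd i
        rw [h] at this
        exact absurd this (by decide)
      omega
    · exact Cfsg.Agent.H29.nonempty_dihedral_equiv (x i) (b i) (hxodd i) (hAsq _ hbA) (hb1 i) hinv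
  · apply le_antisymm
    · apply iSup_le
      intro i
      rw [Subgroup.zpowers_le]; exact (hbx i).1
    · refine hgen.trans ?_
      rw [Subgroup.closure_le]
      rintro _ ⟨i, rfl⟩
      exact (le_iSup (fun i => Subgroup.zpowers (b i)) i) (Subgroup.mem_zpowers (b i))
  · intro i j hij
    have hji : j ≠ i := fun h => hij h.symm
    -- generators commute
    have hbb : b i * b j = b j * b i := hAc _ (hbx i).1 _ (hbx j).1
    have hbxij : b i * x j = x j * b i :=
      Cfsg.Agent.H29.conj_eq_iff_mul_comm.mp (hoff i j hij)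
    have hxbij : x i * b j = b j * x i :=
      (Cfsg.Agent.H29.conj_eq_iff_mul_comm.mp (hoff j i hji)).symm
    have hxx : x i * x j = x j * x i := hEc _ (hbx i).2.1 _ (hbx j).2.1
    exact commute_sup_zpowers hbb hbxij hxbij hxx

end Cfsg.Agent.S1349
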