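import Cfsg.Statements.S1892
import Cfsg.Agent.H38.HallHigmanPSolv
import Cfsg.Agent.H38.CoprimeAction

set_option autoImplicit false
open Cfsg

namespace Cfsg.Agent.S1892

open Cfsg.Agent.H38
open scoped commutatorElement

/-- Let S be a finite p-solvable group with no nontrivial normal subgroup of order prime to p, A a p-subgroup of S, and Q a nontrivial A-invariant subgroup of order prime to p with [A, Q] = Q. Then the commutator [O_p(S), A, Q] is nontrivial. -/
theorem result {S : Type*} [Group S] [Finite S] {p : ℕ} [Fact p.Prime]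
    (hS : Cfsg.IsPSolvable p S) (hred : Cfsg.pPrimeCore p S = ⊥)
    (A Q : Subgroup S) (hA : IsPGroup p A) (hQ : ¬ p ∣ Nat.card Q) (hQ1 : Q ≠ ⊥)
    (hinv : ∀ a ∈ A, ∀ x ∈ Q, a * x * a⁻¹ ∈ Q) (hAQ : ⁅A, Q⁆ = Q) :
    ⁅⁅Cfsg.pCore p S, A⁆, Q⁆ ≠ ⊥ := by
  intro hcon
  have hHH := centralizer_pCore_le_of_isPSolvable hS hred
  have hRn : (pCore p S).Normal := Subgroup.sSup_normal _ (fun _ hN => hN.1)
  have hRp : IsPGroup p (pCore p S) := isPGroup_pCore p
  set R := pCore p S with hR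
  set N := ⁅R, A⁆ with hN
  -- Q centralizes N
  have hQN : ∀ n ∈ N, ∀ q ∈ Q, q * n = n * q := by
    intro n hn q hq
    have h1 := Subgroup.commutator_eq_bot_iff_le_centralizer.mp hcon hn
    rw [Subgroup.mem_centralizer_iff] at h1
    exact h1 q hq
  have hNR : N ≤ R := by
    rw [hN]
    exact Subgroup.commutator_le_left R A
  -- the kernel of the action on R / N
  let K₀ : Subgroup S :=
    { carrier := {g | (∀ n ∈ N, g * n * g⁻¹ ∈ N) ∧ (∀ n ∈ N, g⁻¹ * n * g ∈ N) ∧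
        ∀ r ∈ R, g * r * g⁻¹ * r⁻¹ ∈ N}
      mul_mem' := by
        intro g h hg hh
        refine ⟨fun n hn => ?_, fun n hn => ?_, fun r hr => ?_⟩
        · have := hg.1 _ (hh.1 n hn)
          simpa [mul_assoc] using this
        · have := hh.2.1 _ (hg.2.1 n hn)
          simpa [mul_assoc] using this
        · have h1 := hg.1 _ (hh.2.2 r hr)
          have h2 := hg.2.2 r hr
          have := N.mul_mem h1 h2
          have e : g * (h * r * h⁻¹ * r⁻¹) * g⁻¹ * (g * r * g⁻¹ * r⁻¹) = g * h * r * (g * h)⁻¹ * r⁻¹ := by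
            group
          rwa [e] at this
      one_mem' := by
        refine ⟨fun n hn => by simpa using hn, fun n hn => by simpa using hn, fun r _ => ?_⟩
        simp
      inv_mem' := by
        intro g hg
        refine ⟨fun n hn => ?_, fun n hn => ?_, fun r hr => ?_⟩
        · have := hg.2.1 n hn
          simpa using this
        · have := hg.1 n hn
          simpa using this
        · have hr' : g⁻¹ * r * g ∈ R := by
            have := hRn.conj_mem r hr g⁻¹
            simpa using this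
          have h1 := hg.2.2 _ hr'
          have h2 := N.inv_mem h1
          have e : (g * (g⁻¹ * r * g) * g⁻¹ * (g⁻¹ * r * g)⁻¹)⁻¹ = g⁻¹ * r * g⁻¹⁻¹ * r⁻¹ := by group
          rwa [e] at h2 }
  have hK₀conj : ∀ t : S, (∀ n ∈ N, t * n * t⁻¹ ∈ N) → (∀ n ∈ N, t⁻¹ * n * t ∈ N) →
      ∀ g ∈ K₀, t * g * t⁻¹ ∈ K₀ := by
    intro t ht1 ht2 g hg
    refine ⟨fun n hn => ?_, fun n hn => ?_, fun r hr => ?_⟩
    · have := ht1 _ (hg.1 _ (ht2 n hn))
      have e : t * (g * (t⁻¹ * n * t) * g⁻¹) * t⁻¹ = t * g * t⁻¹ * n * (t * g * t⁻¹)⁻¹ := by group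
      rwa [e] at this
    · have := ht1 _ (hg.2.1 _ (ht2 n hn))
      have e : t * (g⁻¹ * (t⁻¹ * n * t) * g) * t⁻¹ = (t * g * t⁻¹)⁻¹ * n * (t * g * t⁻¹) := by group
      rwa [e] at this
    · have hr' : t⁻¹ * r * t ∈ R := by
        have := hRn.conj_mem r hr t⁻¹
        simpa using this
      have := ht1 _ (hg.2.2 _ hr')
      have e : t * (g * (t⁻¹ * r * t) * g⁻¹ * (t⁻¹ * r * t)⁻¹) * t⁻¹ =
          t * g * t⁻¹ * r * (t * g * t⁻¹)⁻¹ * r⁻¹ := by group
      rwa [e] at this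
  -- A normalizes N
  have hAN : ∀ a ∈ A, ∀ n ∈ N, a * n * a⁻¹ ∈ N := by
    intro a ha n hn
    have h1 : N.map (MulAut.conj a).toMonoidHom = N := by
      rw [hN, Subgroup.map_commutator]
      have e1 : R.map (MulAut.conj a).toMonoidHom = R := by
        apply le_antisymm
        · rintro _ ⟨r, hr, rfl⟩
          exact hRn.conj_mem r hr a
        · intro r hr
          refine ⟨a⁻¹ * r * a, ?_, ?_⟩
          · have := hRn.conj_mem r hr a⁻¹
            simpa using this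
          · change a * (a⁻¹ * r * a) * a⁻¹ = r
            group
      have e2 : A.map (MulAut.conj a).toMonoidHom = A := by
        apply le_antisymm
        · rintro _ ⟨b, hb, rfl⟩
          exact A.mul_mem (A.mul_mem ha hb) (A.inv_mem ha)
        · intro b hb
          refine ⟨a⁻¹ * b * a, A.mul_mem (A.mul_mem (A.inv_mem ha) hb) ha, ?_⟩
          change a * (a⁻¹ * b * a) * a⁻¹ = b
          group
      rw [e1, e2]
    rw [← h1]
    exact ⟨n, hn, rfl⟩
  have hAK : A ≤ K₀ := by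
    intro a ha
    refine ⟨hAN a ha, fun n hn => ?_, fun r hr => ?_⟩
    · have := hAN a⁻¹ (A.inv_mem ha) n hn
      simpa using this
    · -- a r a⁻¹ r⁻¹ ∈ ⁅R, A⁆
      have h1 : ⁅r, a⁆ ∈ N := Subgroup.commutator_mem_commutator hr ha
      have h2 := N.inv_mem h1
      have e : ⁅r, a⁆⁻¹ = a * r * a⁻¹ * r⁻¹ := by
        rw [commutatorElement_def]; group
      rwa [e] at h2
  have hQK : Q ≤ K₀ := by
    rw [← hAQ, Subgroup.commutator_le]
    intro a ha q hq
    have hq1 : ∀ n ∈ N, q * n * q⁻¹ ∈ N := by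
      intro n hn
      rw [hQN n hn q hq, mul_inv_cancel_right]; exact hn
    have hq2 : ∀ n ∈ N, q⁻¹ * n * q ∈ N := by
      intro n hn
      rw [mul_assoc, ← hQN n hn q hq, inv_mul_cancel_left]; exact hn
    have h1 := hK₀conj q hq1 hq2 a⁻¹ (K₀.inv_mem (hAK ha))
    have h2 := K₀.mul_mem (hAK ha) h1
    have e : a * (q * a⁻¹ * q⁻¹) = ⁅a, q⁆ := by
      rw [commutatorElement_def]; group
    rwa [e] at h2
  -- Q centralizes R
  have hQR : Q ≤ Subgroup.centralizer (R : Set S) := by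
    intro q hq
    rw [Subgroup.mem_centralizer_iff]
    intro r hr
    -- c(q) = q r q⁻¹ r⁻¹ ∈ N, and c(q^k) = c(q)^k
    have hc : ∀ q' ∈ Q, q' * r * q'⁻¹ * r⁻¹ ∈ N := fun q' hq' => (hQK hq').2.2 r hr
    have hpow : ∀ k : ℕ, q ^ k * r * (q ^ k)⁻¹ * r⁻¹ = (q * r * q⁻¹ * r⁻¹) ^ k := by
      intro k
      induction k with
      | zero => simp
      | succ k ih =>
        have hcomm : q * (q * r * q⁻¹ * r⁻¹) ^ k = (q * r * q⁻¹ * r⁻¹) ^ k * q := by
          have h1 := hQN _ (N.pow_mem (hc q hq) k) q hq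
          exact h1
        calc q ^ (k + 1) * r * (q ^ (k + 1))⁻¹ * r⁻¹
            = q * (q ^ k * r * (q ^ k)⁻¹ * r⁻¹) * q⁻¹ * (q * r * q⁻¹ * r⁻¹) := by
              rw [pow_succ']; group
          _ = q * (q * r * q⁻¹ * r⁻¹) ^ k * q⁻¹ * (q * r * q⁻¹ * r⁻¹) := by rw [ih]
          _ = (q * r * q⁻¹ * r⁻¹) ^ k * q * q⁻¹ * (q * r * q⁻¹ * r⁻¹) := by rw [hcomm]
          _ = (q * r * q⁻¹ * r⁻¹) ^ (k + 1) := by rw [mul_inv_cancel_right, pow_succ]
    have h1 := hpow (Nat.card Q)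
    have hqcard : q ^ Nat.card Q = 1 := by
      have := pow_card_eq_one' (G := Q) (x := ⟨q, hq⟩)
      exact congrArg Subtype.val this
    rw [hqcard] at h1
    have h2 : (q * r * q⁻¹ * r⁻¹) ^ Nat.card Q = 1 := by
      rw [← h1]; simp
    -- c is a p-element with c^|Q| = 1
    obtain ⟨k, hk⟩ := hRp ⟨q * r * q⁻¹ * r⁻¹, hNR (hc q hq)⟩
    have hk' : (q * r * q⁻¹ * r⁻¹) ^ p ^ k = 1 := by
      have := congrArg Subtype.val hk
      simpa using this
    have hcop : Nat.Coprime (Nat.card Q) (p ^ k) := by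
      apply Nat.Coprime.pow_right
      rw [Nat.coprime_comm]
      exact (Nat.Prime.coprime_iff_not_dvd Fact.out).mpr hQ
    have h3 : orderOf (q * r * q⁻¹ * r⁻¹) = 1 :=
      Nat.eq_one_of_dvd_coprimes hcop (orderOf_dvd_of_pow_eq_one h2) (orderOf_dvd_of_pow_eq_one hk')
    have h4 : q * r * q⁻¹ * r⁻¹ = 1 := orderOf_eq_one_iff.mp h3
    rw [mul_inv_eq_one, mul_inv_eq_iff_eq_mul] at h4
    exact h4.symm
  -- hence Q ≤ R, a p'-subgroup of a p-group
  have hQR' : Q ≤ R := hQR.trans hHH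
  apply hQ1
  rw [eq_bot_iff]
  intro q hq
  obtain ⟨k, hk⟩ := hRp ⟨q, hQR' hq⟩
  have hk' : q ^ p ^ k = 1 := by
    have := congrArg Subtype.val hk
    simpa using this
  exact eq_one_of_pow_prime_pow_of_not_dvd Q hQ hq hk'

end Cfsg.Agent.S1892
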