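import Cfsg.Statements.S1893
import Cfsg.Agent.H37.ScnCent
import Cfsg.Agent.S4309

set_option autoImplicit false
open Cfsg

namespace Cfsg.Agent.S1893

open Cfsg.Agent.H38

/-- Key step: `C_S(A) ≤ A · O_{π'}(S)`. -/
theorem centralizer_le_sup {S : Type*} [Group S] [Finite S] [Group.IsSolvable S]
    (π : Set ℕ) (h2 : 2 ∉ π) (h3 : 3 ∉ π) (H : Subgroup S) (hH : Cfsg.IsPiHall π H)
    (A : Subgroup S) (hA : Cfsg.IsSCN ((Cfsg.fittingSubgroup H).map H.subtype) A) :
    H ⊓ piCore πᶜ S = ⊥ ∧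
    ∀ c ∈ Subgroup.centralizer (A : Set S), ∃ a ∈ A, a⁻¹ * c ∈ piCore πᶜ S := by
  obtain ⟨hAF, hFN, hFC⟩ := hA
  set F : Subgroup S := (Cfsg.fittingSubgroup H).map H.subtype with hF
  set T : Subgroup S := piCore πᶜ S with hT
  have hFH : F ≤ H := Subgroup.map_subtype_le _
  have hTpi : PiNat πᶜ (Nat.card T) := piNat_card_piCore πᶜ
  have hHT : H ⊓ T = ⊥ := by
    apply Disjoint.eq_bot
    apply Subgroup.disjoint_of_coprime_natCard
    by_contra hcon
    obtain ⟨q, hq, hq1, hq2⟩ := Nat.Prime.not_coprime_iff_dvd.mp hcon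
    exact hTpi q hq hq2 (hH.1 q hq hq1)
  refine ⟨hHT, ?_⟩
  set mk := QuotientGroup.mk' T with hmk
  have hmk1 : ∀ x : S, mk x = 1 ↔ x ∈ T := fun x => QuotientGroup.eq_one_iff x
  have hAC : A ≤ Subgroup.centralizer (A : Set S) := by
    intro a ha
    rw [← hFC] at ha
    exact (Subgroup.mem_inf.mp ha).2
  -- hypotheses of the abstract lemma in the quotient
  have hFN' : F.map mk ≤ Subgroup.normalizer ((A.map mk : Subgroup (S ⧸ T)) : Set (S ⧸ T)) :=
    (Subgroup.map_mono hFN).trans (Subgroup.le_normalizer_map mk)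
  have hFC' : F.map mk ⊓ Subgroup.centralizer ((A.map mk : Subgroup (S ⧸ T)) : Set (S ⧸ T)) =
      A.map mk := by
    apply le_antisymm
    · rintro y hy
      obtain ⟨hy1, hy2⟩ := Subgroup.mem_inf.mp hy
      obtain ⟨f, hf, rfl⟩ := hy1
      refine ⟨f, ?_, rfl⟩
      rw [← hFC]
      refine Subgroup.mem_inf.mpr ⟨hf, ?_⟩
      rw [Subgroup.mem_centralizer_iff]
      intro a ha
      have h1 : mk a * mk f = mk f * mk a :=
        Subgroup.mem_centralizer_iff.mp hy2 (mk a) ⟨a, ha, rfl⟩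
      have h4 : f * a * f⁻¹ ∈ A := (Subgroup.mem_normalizer_iff.mp (hFN hf) a).mp ha
      have h5 : f * a * f⁻¹ * a⁻¹ ∈ H ⊓ T := by
        refine Subgroup.mem_inf.mpr ⟨hFH (hAF (mul_mem h4 (inv_mem ha))), ?_⟩
        rw [← hmk1, map_mul, map_mul, map_mul, map_inv, map_inv, ← h1]
        group
      rw [hHT, Subgroup.mem_bot] at h5
      calc a * f = (f * a * f⁻¹ * a⁻¹)⁻¹ * (f * a) := by group
        _ = f * a := by rw [h5]; group
    · apply le_inf (Subgroup.map_mono hAF)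
      rintro _ ⟨a, ha, rfl⟩
      rw [Subgroup.mem_centralizer_iff]
      rintro _ ⟨b, hb, rfl⟩
      have := Subgroup.mem_centralizer_iff.mp (hAC ha) b hb
      rw [← map_mul, ← map_mul, this]
  have hbot : ∀ p : ℕ, p.Prime → p ∉ π → pCore p (S ⧸ T) = ⊥ := by
    intro p hp hpπ
    have hfp : Fact p.Prime := ⟨hp⟩
    rw [eq_bot_iff, ← piCore_quotient_piCore (G := S) πᶜ]
    apply le_piCore _ (pCore_normal p _)
    obtain ⟨j, hj⟩ := (isPGroup_pCore (G := S ⧸ T) p).exists_card_eq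
    intro q hq hqd
    rw [hj] at hqd
    have : q = p := (Nat.prime_dvd_prime_iff_eq hq hp).mp (hq.dvd_of_dvd_pow hqd)
    rw [this]; exact hpπ
  have hcore : ∀ p : ℕ, p.Prime → pCore p (S ⧸ T) ≤ F.map mk := by
    intro p hp
    have hfp : Fact p.Prime := ⟨hp⟩
    by_cases hpπ : p ∈ π
    · have hVp : IsPGroup p (pCore p (S ⧸ T)) := isPGroup_pCore p
      have hHall : Cfsg.IsPiHall π (H.map mk) := (Cfsg.Agent.S4309.result π H T hH).2
      have hVH : pCore p (S ⧸ T) ≤ H.map mk := by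
        rw [← Subgroup.relIndex_eq_one]
        have hd1 : (H.map mk).relIndex (pCore p (S ⧸ T)) ∣ (H.map mk).index :=
          Cfsg.Agent.S4309.relIndex_dvd_index_of_normal_right _ _
        have hd2 : (H.map mk).relIndex (pCore p (S ⧸ T)) ∣ Nat.card (pCore p (S ⧸ T)) :=
          Subgroup.relIndex_dvd_card _ _
        obtain ⟨j, hj⟩ := hVp.exists_card_eq
        rw [hj] at hd2
        obtain ⟨i, -, hi⟩ := (Nat.dvd_prime_pow hp).mp hd2
        rcases Nat.eq_zero_or_pos i with h0 | hpos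
        · rw [hi, h0, pow_zero]
        · exfalso
          apply hHall.2 p hp hpπ
          refine dvd_trans ?_ hd1
          rw [hi]
          exact dvd_pow_self p hpos.ne'
      -- the preimage in H is a normal p-subgroup of H
      set Q : Subgroup S := (pCore p (S ⧸ T)).comap mk with hQ
      have hQn : Q.Normal := (pCore_normal p (S ⧸ T)).comap mk
      have hQHn : (Q.subgroupOf H).Normal := hQn.subgroupOf H
      have hQHp : IsPGroup p ↥(Q.subgroupOf H) := by
        rintro ⟨y, hy⟩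
        have hy' : mk (y : S) ∈ pCore p (S ⧸ T) := hy
        obtain ⟨k, hk⟩ := hVp ⟨mk (y : S), hy'⟩
        have hk' : mk ((y : S) ^ p ^ k) = 1 := by
          have := congrArg Subtype.val hk
          simpa using this
        have h1 : (y : S) ^ p ^ k ∈ H ⊓ T :=
          Subgroup.mem_inf.mpr ⟨pow_mem y.2 _, (hmk1 _).mp hk'⟩
        rw [hHT, Subgroup.mem_bot] at h1
        refine ⟨k, Subtype.ext (Subtype.ext ?_)⟩
        simpa using h1
      have hnil : Group.IsNilpotent ↥(Q.subgroupOf H) := hQHp.isNilpotent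
      have hle : Q.subgroupOf H ≤ Cfsg.fittingSubgroup ↥H :=
        Cfsg.Agent.H1.le_fitting (Q.subgroupOf H) hnil
      rintro y hy
      obtain ⟨h, hh, rfl⟩ := hVH hy
      have h1 : (⟨h, hh⟩ : ↥H) ∈ Q.subgroupOf H := by
        rw [Subgroup.mem_subgroupOf]
        exact hy
      exact ⟨h, ⟨⟨h, hh⟩, hle h1, rfl⟩, rfl⟩
    · rw [hbot p hp hpπ]; exact bot_le
  have hmain := Cfsg.Agent.H37.ScnCent.centralizer_le_of_scn hFN' hFC' hcore
    (hbot 2 Nat.prime_two h2) (hbot 3 Nat.prime_three h3)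
  intro c hc
  have hc' : mk c ∈ Subgroup.centralizer ((A.map mk : Subgroup (S ⧸ T)) : Set (S ⧸ T)) := by
    rw [Subgroup.mem_centralizer_iff]
    rintro _ ⟨a, ha, rfl⟩
    have := Subgroup.mem_centralizer_iff.mp hc a ha
    rw [← map_mul, ← map_mul, this]
  obtain ⟨a, ha, hac⟩ := hmain hc'
  refine ⟨a, ha, ?_⟩
  rw [← hmk1, map_mul, map_inv, hac]
  group

/-- Let S be a finite solvable group, π a set of primes containing neither 2 nor 3, H a Hall π-subgroup of S, and A a self-centralizing normal subgroup of the Fitting subgroup F(H). Then C_S(A) = A × D for a normal subgroup D of C_S(A) whose order has no prime divisor in π. -/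
theorem result {S : Type*} [Group S] [Finite S] [Group.IsSolvable S]
    (π : Set ℕ) (h2 : 2 ∉ π) (h3 : 3 ∉ π) (H : Subgroup S) (hH : Cfsg.IsPiHall π H)
    (A : Subgroup S) (hA : Cfsg.IsSCN ((Cfsg.fittingSubgroup H).map H.subtype) A) :
    ∃ D : Subgroup S, D ≤ Subgroup.centralizer (A : Set S) ∧
      (∀ c ∈ Subgroup.centralizer (A : Set S), ∀ d ∈ D, c * d * c⁻¹ ∈ D) ∧
      A ⊓ D = ⊥ ∧ A ⊔ D = Subgroup.centralizer (A : Set S) ∧
      ∀ q : ℕ, q.Prime → q ∣ Nat.card D → q ∉ π := by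
  obtain ⟨hHT, hkey⟩ := centralizer_le_sup π h2 h3 H hH A hA
  obtain ⟨hAF, hFN, hFC⟩ := hA
  have hAH : A ≤ H := hAF.trans (Subgroup.map_subtype_le _)
  have hAC : A ≤ Subgroup.centralizer (A : Set S) := by
    intro a ha
    rw [← hFC] at ha
    exact (Subgroup.mem_inf.mp ha).2
  refine ⟨Subgroup.centralizer (A : Set S) ⊓ piCore πᶜ S, inf_le_left, ?_, ?_, ?_, ?_⟩
  · intro c hc d hd
    obtain ⟨hd1, hd2⟩ := Subgroup.mem_inf.mp hd
    exact Subgroup.mem_inf.mpr ⟨mul_mem (mul_mem hc hd1) (inv_mem hc),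
      (piCore_normal πᶜ S).conj_mem d hd2 c⟩
  · rw [eq_bot_iff, ← hHT]
    exact inf_le_inf hAH inf_le_right
  · apply le_antisymm (sup_le hAC inf_le_left)
    intro c hc
    obtain ⟨a, ha, hac⟩ := hkey c hc
    have h1 : a⁻¹ * c ∈ Subgroup.centralizer (A : Set S) ⊓ piCore πᶜ S :=
      Subgroup.mem_inf.mpr ⟨mul_mem (inv_mem (hAC ha)) hc, hac⟩
    have h2' : c = a * (a⁻¹ * c) := by group
    rw [h2']
    exact Subgroup.mul_mem_sup ha h1
  · intro q hq hqd hqπ
    have hTpi : PiNat πᶜ (Nat.card (piCore πᶜ S)) := piNat_card_piCore πᶜ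
    exact hTpi q hq (hqd.trans (Subgroup.card_dvd_of_le inf_le_right)) hqπ

end Cfsg.Agent.S1893
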