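import Cfsg.Statements.S1894
import Cfsg.Agent.H38.PGroupBasic

set_option autoImplicit false
open Cfsg

namespace Cfsg.Agent.S1894

theorem result {P : Type*} [Group P] [Finite P] {p : ℕ} [Fact p.Prime] (hP : IsPGroup p P)
    (A : Subgroup P) [A.Normal] (B : Subgroup P) [B.Normal] (hBA : B ≤ A) (hB : IsMulCommutative B) :
    ∃ C : Subgroup P, C.Normal ∧ B ≤ C ∧ Cfsg.IsSCN A C := by
  classical
  -- commutativity as an elementwise statement
  have hBcomm : ∀ a ∈ B, ∀ b ∈ B, a * b = b * a := by
    intro a ha b hb
    have := hB.is_comm.comm (⟨a, ha⟩ : B) ⟨b, hb⟩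
    exact congrArg Subtype.val this
  -- a maximal normal abelian subgroup of A containing B
  obtain ⟨C, -, hC⟩ := Finite.exists_le_maximal
    (p := fun C : Subgroup P => C.Normal ∧ B ≤ C ∧ C ≤ A ∧ ∀ a ∈ C, ∀ b ∈ C, a * b = b * a)
    (a := B) ⟨inferInstance, le_rfl, hBA, hBcomm⟩
  obtain ⟨⟨hCn, hBC, hCA, hCc⟩, hCmax⟩ := hC
  refine ⟨C, hCn, hBC, hCA, ?_, ?_⟩
  · rw [Subgroup.normalizer_eq_top]; exact le_top
  · -- A ⊓ centralizer C = C
    apply le_antisymm
    · by_contra hnot
      -- D = A ⊓ C_P(C) is normal and strictly bigger than C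
      set D : Subgroup P := A ⊓ Subgroup.centralizer (C : Set P) with hD
      have hDn : D.Normal := inferInstance
      have hCD : C ≤ D := le_inf hCA (fun c hc => by
        rw [Subgroup.mem_centralizer_iff]; intro h hh; exact hCc h hh c hc)
      -- pass to the quotient P ⧸ C
      let π := QuotientGroup.mk' C
      have hπsurj : Function.Surjective π := QuotientGroup.mk'_surjective C
      set Dbar : Subgroup (P ⧸ C) := D.map π with hDbar
      have hDbarn : Dbar.Normal := Subgroup.Normal.map hDn π hπsurj
      have hDbar_ne : Dbar ≠ ⊥ := by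
        intro h
        apply hnot
        intro x hx
        have : π x ∈ Dbar := Subgroup.mem_map_of_mem π hx
        rw [h, Subgroup.mem_bot] at this
        exact (QuotientGroup.eq_one_iff x).mp this
      have hQ : IsPGroup p (P ⧸ C) := hP.to_quotient C
      obtain ⟨zbar, hzD, hzc, hz1⟩ := Cfsg.Agent.H38.exists_mem_center_of_normal_ne_bot hQ Dbar hDbar_ne
      obtain ⟨x, hxD, rfl⟩ := Subgroup.mem_map.mp hzD
      have hxC : x ∉ C := fun h => hz1 ((QuotientGroup.eq_one_iff x).mpr h)
      have hxA : x ∈ A := (Subgroup.mem_inf.mp hxD).1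
      have hxcent : ∀ c ∈ C, c * x = x * c := fun c hc =>
        Subgroup.mem_centralizer_iff.mp (Subgroup.mem_inf.mp hxD).2 c hc
      -- E = closure (C ∪ {x})
      set E : Subgroup P := Subgroup.closure ((C : Set P) ∪ {x}) with hE
      have hCE : C ≤ E := fun c hc => Subgroup.subset_closure (Or.inl hc)
      have hxE : x ∈ E := Subgroup.subset_closure (Or.inr rfl)
      have hEA : E ≤ A := by
        rw [hE, Subgroup.closure_le]
        rintro y (hy | hy)
        · exact hCA hy
        · rw [Set.mem_singleton_iff] at hy; rw [hy]; exact hxA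
      -- generators commute pairwise
      have hgen : ∀ a ∈ ((C : Set P) ∪ {x}), ∀ b ∈ ((C : Set P) ∪ {x}), a * b = b * a := by
        rintro a (ha | ha) b (hb | hb)
        · exact hCc a ha b hb
        · rw [Set.mem_singleton_iff] at hb; rw [hb]; exact hxcent a ha
        · rw [Set.mem_singleton_iff] at ha; rw [ha]; exact (hxcent b hb).symm
        · rw [Set.mem_singleton_iff] at ha hb; rw [ha, hb]
      have hEc : ∀ a ∈ E, ∀ b ∈ E, a * b = b * a := by
        have h1 : E ≤ Subgroup.centralizer ((C : Set P) ∪ {x}) := by
          rw [hE, Subgroup.closure_le]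
          intro a ha
          rw [SetLike.mem_coe, Subgroup.mem_centralizer_iff]
          intro b hb
          exact hgen b hb a ha
        have h2 : E ≤ Subgroup.centralizer (E : Set P) := by
          rw [hE, Subgroup.closure_le]
          intro a ha
          rw [SetLike.mem_coe, Subgroup.mem_centralizer_iff]
          intro b hb
          have := Subgroup.mem_centralizer_iff.mp (h1 hb) a ha
          exact this.symm
        intro a ha b hb
        exact (Subgroup.mem_centralizer_iff.mp (h2 hb) a ha)
      have hEn : E.Normal := by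
        constructor
        intro e he g
        have hcl : E ≤ (E.comap (MulAut.conj g).toMonoidHom) := by
          rw [hE, Subgroup.closure_le]
          rintro y (hy | hy)
          · show g * y * g⁻¹ ∈ E
            exact hCE (hCn.conj_mem y hy g)
          · rw [Set.mem_singleton_iff] at hy
            show g * y * g⁻¹ ∈ E
            rw [hy]
            -- g x g⁻¹ x⁻¹ ∈ C since π x is central
            have h1 : π (g * x * g⁻¹ * x⁻¹) = 1 := by
              have hc := Subgroup.mem_center_iff.mp hzc (π g)
              simp only [map_mul, map_inv]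
              rw [hc]; group
            have h2 : g * x * g⁻¹ * x⁻¹ ∈ C := (QuotientGroup.eq_one_iff _).mp h1
            have : g * x * g⁻¹ = (g * x * g⁻¹ * x⁻¹) * x := by group
            rw [this]
            exact E.mul_mem (hCE h2) hxE
        exact hcl he
      have hle : C ≤ E := hCE
      have := hCmax ⟨hEn, hBC.trans hCE, hEA, hEc⟩ hle
      exact hxC (this hxE)
    · exact le_inf hCA (fun c hc => by
        rw [Subgroup.mem_centralizer_iff]; intro h hh; exact hCc h hh c hc)

end Cfsg.Agent.S1894
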