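import Cfsg.Statements.S4208
import Cfsg.Agent.H73.ElemAb
import Cfsg.Agent.H76.FrattiniAut
import Cfsg.Agent.H3.PGroup

set_option autoImplicit false
open Cfsg
open scoped commutatorElement

namespace Cfsg.Agent.S4208

/-- A set-theoretic splitting of a group along a subgroup with the first coordinate the class. -/
noncomputable def splitEquiv {P : Type*} [Group P] (N : Subgroup P) : P ≃ (P ⧸ N) × N where
  toFun x := ((QuotientGroup.mk x : P ⧸ N), ⟨(QuotientGroup.mk x : P ⧸ N).out⁻¹ * x, by
    have h : (QuotientGroup.mk ((QuotientGroup.mk x : P ⧸ N).out) : P ⧸ N) = QuotientGroup.mk x :=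
      QuotientGroup.out_eq' _
    exact QuotientGroup.eq.mp h⟩)
  invFun z := z.1.out * z.2.1
  left_inv x := by simp
  right_inv z := by
    obtain ⟨q, φ⟩ := z
    have h1 : (QuotientGroup.mk (q.out * φ.1) : P ⧸ N) = q := by
      have : (QuotientGroup.mk (q.out * φ.1) : P ⧸ N) = QuotientGroup.mk q.out :=
        (QuotientGroup.eq.mpr (by simp)).symm
      rw [this]
      exact QuotientGroup.out_eq' _
    refine Prod.ext h1 ?_
    apply Subtype.ext
    show (QuotientGroup.mk (q.out * φ.1) : P ⧸ N).out⁻¹ * (q.out * φ.1) = φ.1
    rw [h1]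
    simp

theorem splitEquiv_fst {P : Type*} [Group P] (N : Subgroup P) (x : P) :
    (splitEquiv N x).1 = QuotientGroup.mk x := rfl

/-- Let `P` be a group of order `p^n` whose Frattini subgroup has index `p^r`. Then the order of the automorphism group of `P` divides `p^(r(n-r)) · (p^r - 1)(p^r - p) ⋯ (p^r - p^(r-1))`. -/
theorem result {P : Type*} [Group P] [Finite P] {p n r : ℕ} [Fact p.Prime] (hP : Nat.card P = p ^ n) (hr : (frattini P).index = p ^ r) : Nat.card (MulAut P) ∣ p ^ (r * (n - r)) * ∏ i ∈ Finset.range r, (p ^ r - p ^ i) := by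
  classical
  have hp : p.Prime := Fact.out
  have hPG : IsPGroup p P := IsPGroup.of_card hP
  have hQ : Nat.card (P ⧸ frattini P) = p ^ r := hr
  -- the set of generating tuples
  let Y : SubMulAction (MulAut P) (Fin r → P) :=
    { carrier := {y | Subgroup.closure (Set.range y) = ⊤}
      smul_mem' := by
        intro a y hy
        have hy' : Subgroup.closure (Set.range y) = ⊤ := hy
        show Subgroup.closure (Set.range (a • y)) = ⊤
        have h1 : Set.range (a • y) = (a.toMonoidHom : P →* P) '' Set.range y := by
          ext z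
          constructor
          · rintro ⟨i, rfl⟩
            exact ⟨y i, ⟨i, rfl⟩, rfl⟩
          · rintro ⟨_, ⟨i, rfl⟩, rfl⟩
            exact ⟨i, rfl⟩
        rw [h1, ← MonoidHom.map_closure, hy', ← MonoidHom.range_eq_map]
        exact MonoidHom.range_eq_top.mpr a.surjective }
  have hfree : ∀ b : Y, MulAction.stabilizer (MulAut P) b = ⊥ := by
    intro b
    rw [eq_bot_iff]
    intro a ha
    rw [MulAction.mem_stabilizer_iff] at ha
    have hb : Subgroup.closure (Set.range b.1) = ⊤ := b.2
    have hfix : ∀ i, a (b.1 i) = b.1 i := by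
      intro i
      have := congrArg (fun z : Y => z.1 i) ha
      exact this
    have h1 : (a : P →* P) = MonoidHom.id P := by
      apply MonoidHom.eq_of_eqOn_dense hb
      rintro _ ⟨i, rfl⟩
      exact hfix i
    rw [Subgroup.mem_bot]
    ext x
    exact DFunLike.congr_fun h1 x
  -- the quotient is elementary abelian
  let instQ : CommGroup (P ⧸ frattini P) :=
    { (inferInstance : Group (P ⧸ frattini P)) with
      mul_comm := by
        intro a b
        induction a using QuotientGroup.induction_on with
        | H a =>
        induction b using QuotientGroup.induction_on with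
        | H b =>
        rw [← QuotientGroup.mk_mul, ← QuotientGroup.mk_mul]
        apply QuotientGroup.eq.mpr
        apply Cfsg.Agent.H3.commutator_le_frattini hPG
        have : (a * b)⁻¹ * (b * a) = ⁅b⁻¹, a⁻¹⁆ := by
          simp [commutatorElement_def, mul_assoc]
        rw [this]
        exact Subgroup.commutator_mem_commutator (Subgroup.mem_top _) (Subgroup.mem_top _) }
  have hexp : ∀ a : P ⧸ frattini P, a ^ p = 1 := by
    intro a
    induction a using QuotientGroup.induction_on with
    | H a =>
    rw [← QuotientGroup.mk_pow, QuotientGroup.eq_one_iff]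
    exact Cfsg.Agent.H3.pow_mem_frattini hPG a
  have hNr := @Cfsg.Agent.H73.card_generating_tuples (P ⧸ frattini P) instQ _ p r _ hexp hQ
  have hrn : r ≤ n := by
    have h1 : p ^ r ∣ p ^ n := by
      rw [← hr, ← hP]
      exact Subgroup.index_dvd_card _
    exact (Nat.pow_dvd_pow_iff_le_right hp.one_lt).mp h1
  have hΦ : Nat.card (frattini P) = p ^ (n - r) := by
    have h1 := Subgroup.card_mul_index (frattini P)
    rw [hr, hP] at h1
    have h2 : p ^ n = p ^ (n - r) * p ^ r := by
      rw [← pow_add]
      congr 1
      omega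
    rw [h2] at h1
    exact Nat.eq_of_mul_eq_mul_right (pow_pos hp.pos r) h1
  have hcardY : Nat.card Y = (∏ i ∈ Finset.range r, (p ^ r - p ^ i)) * p ^ (r * (n - r)) := by
    have e0 : Nat.card Y = Nat.card {y : Fin r → P // Subgroup.closure (Set.range y) = ⊤} := rfl
    let E : (Fin r → P) ≃ (Fin r → P ⧸ frattini P) × (Fin r → frattini P) :=
      (Equiv.piCongrRight (fun _ => splitEquiv (frattini P))).trans
        (Equiv.arrowProdEquivProdArrow (Fin r) (fun _ => P ⧸ frattini P) (fun _ => frattini P))
    have hE : ∀ y : Fin r → P, (E y).1 = fun i => (QuotientGroup.mk (y i) : P ⧸ frattini P) := by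
      intro y
      rfl
    have e1 : {y : Fin r → P // Subgroup.closure (Set.range y) = ⊤} ≃
        {z : (Fin r → P ⧸ frattini P) × (Fin r → frattini P) //
          Subgroup.closure (Set.range z.1) = ⊤} := by
      refine Equiv.subtypeEquiv E ?_
      intro y
      rw [hE]
      constructor
      · intro h
        have h1 : Set.range (fun i => (QuotientGroup.mk (y i) : P ⧸ frattini P))
            = (QuotientGroup.mk' (frattini P)) '' Set.range y := by
          ext z
          constructor
          · rintro ⟨i, rfl⟩
            exact ⟨y i, ⟨i, rfl⟩, rfl⟩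
          · rintro ⟨_, ⟨i, rfl⟩, rfl⟩
            exact ⟨i, rfl⟩
        rw [h1, ← MonoidHom.map_closure, h, ← MonoidHom.range_eq_map]
        exact MonoidHom.range_eq_top.mpr (QuotientGroup.mk'_surjective _)
      · intro h
        exact Cfsg.Agent.H76.closure_eq_top_of_map_mk_frattini y h
    have e2 : {z : (Fin r → P ⧸ frattini P) × (Fin r → frattini P) //
          Subgroup.closure (Set.range z.1) = ⊤} ≃
        {f : Fin r → P ⧸ frattini P // Subgroup.closure (Set.range f) = ⊤} ×
          (Fin r → frattini P) :=
      Equiv.prodSubtypeFstEquivSubtypeProd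
        (p := fun f : Fin r → P ⧸ frattini P => Subgroup.closure (Set.range f) = ⊤)
    rw [e0, Nat.card_congr e1, Nat.card_congr e2, Nat.card_prod, Nat.card_fun, Nat.card_fin, hΦ,
      ← pow_mul, mul_comm (n - r) r]
    congr 1
  have hcard := Nat.card_congr (MulAction.selfEquivOrbitsQuotientProd hfree)
  rw [Nat.card_prod] at hcard
  rw [mul_comm, ← hcardY, hcard]
  exact Dvd.intro_left _ rfl

end Cfsg.Agent.S4208
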