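import Cfsg.Statements.S1896
import Cfsg.Agent.H11.Meta2CaseB
import Cfsg.Agent.S0014
import Cfsg.Agent.S4207
import Cfsg.Agent.S4208
import Cfsg.Agent.H3.PGroup
import Cfsg.Agent.H59.Quaternion

set_option autoImplicit false
open Cfsg

namespace Cfsg.Agent.S1896

open Cfsg.Agent.H11.Meta2
open scoped commutatorElement

/-- A group of order 4 with an automorphism of order dividing 3 moving `q0` is
`{1, q0, b q0, b (b q0)}`. -/
theorem orbit4 {Q : Type*} [Group Q] [Finite Q] (hQ : Nat.card Q = 4) (b : Q ≃* Q)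
    (hb3 : ∀ q, b (b (b q)) = q) (q0 : Q) (h : b q0 ≠ q0) :
    ∀ q : Q, q = 1 ∨ q = q0 ∨ q = b q0 ∨ q = b (b q0) := by
  classical
  haveI : Fintype Q := Fintype.ofFinite Q
  have h01 : q0 ≠ b q0 := fun e => h e.symm
  have h12 : b q0 ≠ b (b q0) := fun e => h01 (b.injective e)
  have h20 : b (b q0) ≠ q0 := by
    intro e
    apply h12
    apply b.injective
    rw [hb3]; exact e
  have h0 : q0 ≠ 1 := by
    intro e; apply h; rw [e, map_one]
  have h1 : b q0 ≠ 1 := by
    intro e; apply h0; apply b.injective; rw [e, map_one]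
  have h2 : b (b q0) ≠ 1 := by
    intro e; apply h1; apply b.injective; rw [e, map_one]
  have e3 : ({b q0, b (b q0)} : Finset Q).card = 2 := Finset.card_pair h12
  have e2 : ({q0, b q0, b (b q0)} : Finset Q).card = 3 := by
    rw [Finset.card_insert_of_notMem (by
      rw [Finset.mem_insert, Finset.mem_singleton]
      rintro (e | e)
      · exact h01 e
      · exact h20 e.symm), e3]
  have e1 : ({1, q0, b q0, b (b q0)} : Finset Q).card = 4 := by
    rw [Finset.card_insert_of_notMem (by
      rw [Finset.mem_insert, Finset.mem_insert, Finset.mem_singleton]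
      rintro (e | e | e)
      · exact h0 e.symm
      · exact h1 e.symm
      · exact h2 e.symm), e2]
  have huniv : ({1, q0, b q0, b (b q0)} : Finset Q) = Finset.univ := by
    apply Finset.eq_univ_of_card
    rw [e1, ← Nat.card_eq_fintype_card, hQ]
  intro q
  have hq : q ∈ ({1, q0, b q0, b (b q0)} : Finset Q) := by rw [huniv]; exact Finset.mem_univ q
  rw [Finset.mem_insert, Finset.mem_insert, Finset.mem_insert, Finset.mem_singleton] at hq
  exact hq

theorem fpf_of_orbit4 {Q : Type*} [Group Q] [Finite Q] (hQ : Nat.card Q = 4) (b : Q ≃* Q)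
    (hb3 : ∀ q, b (b (b q)) = q) (q0 : Q) (h : b q0 ≠ q0) :
    ∀ q : Q, q ≠ 1 → b q ≠ q := by
  intro q hq
  rcases orbit4 hQ b hb3 q0 h q with e | e | e | e
  · exact absurd e hq
  · rw [e]; exact h
  · rw [e]; intro e'; exact h (b.injective e')
  · rw [e]; intro e'; exact h (b.injective (b.injective e'))

/-- A finite metacyclic 2-group whose automorphism group is not a 2-group is isomorphic to the quaternion group of order 8 or to a homocyclic abelian group Z_{2^n} × Z_{2^n}. -/
theorem result {X : Type*} [Group X] [Finite X] (hX : IsPGroup 2 X)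
    (hm : Cfsg.IsMetacyclic X) (hA : ¬ IsPGroup 2 (MulAut X)) :
    Nonempty (X ≃* QuaternionGroup 2) ∨
      ∃ n : ℕ, Nonempty (X ≃* Multiplicative (ZMod (2 ^ n)) × Multiplicative (ZMod (2 ^ n))) := by
  classical
  haveI : Fact (Nat.Prime 2) := ⟨Nat.prime_two⟩
  obtain ⟨n, hn⟩ := IsPGroup.iff_card.mp hX
  obtain ⟨r, hr⟩ : ∃ r, (frattini X).index = 2 ^ r := by
    have hdvd : (frattini X).index ∣ 2 ^ n := hn ▸ Subgroup.index_dvd_card _
    obtain ⟨r, -, hr⟩ := (Nat.dvd_prime_pow Nat.prime_two).mp hdvd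
    exact ⟨r, hr⟩
  obtain ⟨a, b, hab⟩ := two_gen hm
  have hr2 : r ≤ 2 := by
    have := (Cfsg.Agent.S0014.result 2 r hX hr).2 ({a, b} : Finset X)
      (by rw [Finset.coe_pair]; exact hab)
    exact this.trans Finset.card_le_two
  have hAut := Cfsg.Agent.S4208.result hn hr
  have h3 : 3 ∣ Nat.card (MulAut X) ∧ r = 2 := by
    by_contra hcon
    apply hA
    have hpow : ∃ k, Nat.card (MulAut X) ∣ 2 ^ k := by
      interval_cases r
      · exact ⟨0, by simpa using hAut⟩
      · exact ⟨_, by simpa using hAut⟩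
      · have h3n : ¬ 3 ∣ Nat.card (MulAut X) := fun h => hcon ⟨h, rfl⟩
        have hprod : ∏ i ∈ Finset.range 2, (2 ^ 2 - 2 ^ i) = 3 * 2 := by
          simp [Finset.prod_range_succ]
        rw [hprod] at hAut
        have hco : Nat.Coprime (Nat.card (MulAut X)) 3 :=
          ((Nat.Prime.coprime_iff_not_dvd Nat.prime_three).mpr h3n).symm
        refine ⟨2 * (n - 2) + 1, ?_⟩
        have : Nat.card (MulAut X) ∣ 3 * 2 ^ (2 * (n - 2) + 1) := by
          have e : 2 ^ (2 * (n - 2)) * (3 * 2) = 3 * 2 ^ (2 * (n - 2) + 1) := by ring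
          rw [← e]; exact hAut
        exact hco.dvd_of_dvd_mul_left this
    obtain ⟨k, hk⟩ := hpow
    obtain ⟨j, -, hj⟩ := (Nat.dvd_prime_pow Nat.prime_two).mp hk
    exact IsPGroup.of_card hj
  obtain ⟨h3, rfl⟩ := h3
  haveI : Fact (Nat.Prime 3) := ⟨Nat.prime_three⟩
  obtain ⟨α₀, hα₀⟩ := exists_prime_orderOf_dvd_card' 3 h3
  have hex : ∃ β ∈ Subgroup.zpowers α₀, ∃ x₀ : X, β x₀ * x₀⁻¹ ∉ frattini X := by
    by_contra hcon
    have hall : ∀ β ∈ Subgroup.zpowers α₀, ∀ x : X, β x * x⁻¹ ∈ frattini X := by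
      intro β hβ x
      by_contra hx
      exact hcon ⟨β, hβ, x, hx⟩
    have hdv := Cfsg.Agent.S4207.result hn hr (Subgroup.zpowers α₀) hall
    rw [Nat.card_zpowers, hα₀] at hdv
    have hdv2 := Nat.Prime.dvd_of_dvd_pow Nat.prime_three hdv
    norm_num at hdv2
  obtain ⟨β, hβ, x₀, hx₀⟩ := hex
  have hβ3 : ∀ x : X, β (β (β x)) = x := by
    obtain ⟨k, rfl⟩ := Subgroup.mem_zpowers_iff.mp hβ
    have h1 : (α₀ ^ k) ^ 3 = 1 := by
      rw [← zpow_natCast, ← zpow_mul, mul_comm, zpow_mul, zpow_natCast, ← hα₀,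
        pow_orderOf_eq_one, one_zpow]
    intro x
    have h2 : ((α₀ ^ k) ^ 3) x = x := by rw [h1]; rfl
    rw [pow_succ, pow_succ, pow_one, MulAut.mul_apply, MulAut.mul_apply] at h2
    exact h2
  haveI hΦn : (frattini X).Normal := inferInstance
  have hch : (frattini X).Characteristic := inferInstance
  have hΦchar : ∀ (γ : X ≃* X) (x : X), x ∈ frattini X ↔ γ x ∈ frattini X := by
    intro γ x
    have h1 := Subgroup.characteristic_iff_comap_eq.mp hch γ
    constructor
    · intro hx; rw [← h1] at hx; exact hx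
    · intro hx; rw [← h1]; exact hx
  have hΦmap : (frattini X).map (β : X →* X) = frattini X :=
    Subgroup.characteristic_iff_map_eq.mp hch β
  have hQ : Nat.card (X ⧸ frattini X) = 4 := by
    have : (frattini X).index = 4 := by rw [hr]; norm_num
    exact this
  have hβ' : ∀ g : X, QuotientGroup.congr (frattini X) (frattini X) β hΦmap (QuotientGroup.mk g)
      = QuotientGroup.mk (β g) :=
    fun g => QuotientGroup.congr_mk (frattini X) (frattini X) β hΦmap g
  have hβ'3 : ∀ q, QuotientGroup.congr (frattini X) (frattini X) β hΦmap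
      (QuotientGroup.congr (frattini X) (frattini X) β hΦmap
        (QuotientGroup.congr (frattini X) (frattini X) β hΦmap q)) = q := by
    intro q
    obtain ⟨g, rfl⟩ := QuotientGroup.mk_surjective q
    rw [hβ', hβ', hβ', hβ3]
  have hq0 : QuotientGroup.congr (frattini X) (frattini X) β hΦmap (QuotientGroup.mk x₀)
      ≠ QuotientGroup.mk x₀ := by
    rw [hβ']
    intro h
    apply hx₀
    rw [← QuotientGroup.eq_one_iff, QuotientGroup.mk_mul, QuotientGroup.mk_inv, h,
      mul_inv_cancel]
  have hfpf' := fpf_of_orbit4 hQ _ hβ'3 _ hq0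
  have hfpf : ∀ x : X, x ∉ frattini X → β x * x⁻¹ ∉ frattini X := by
    intro x hx h
    have h1 : (QuotientGroup.mk x : X ⧸ frattini X) ≠ 1 := by
      rw [Ne, QuotientGroup.eq_one_iff]; exact hx
    apply hfpf' _ h1
    rw [hβ']
    rw [← QuotientGroup.eq_one_iff, QuotientGroup.mk_mul, QuotientGroup.mk_inv] at h
    exact mul_inv_eq_one.mp h
  have hsq : ∀ x : X, x * x ∈ frattini X := by
    intro x
    have := Cfsg.Agent.H3.pow_mem_frattini hX x
    rwa [pow_two] at this
  have hcomm : ∀ x y : X, x * y * x⁻¹ * y⁻¹ ∈ frattini X := by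
    intro x y
    apply Cfsg.Agent.H3.commutator_le_frattini hX
    rw [← commutatorElement_def, commutator_def]
    exact Subgroup.commutator_mem_commutator (Subgroup.mem_top x) (Subgroup.mem_top y)
  have hxyz : ∀ x : X, x * β x * β (β x) ∈ frattini X := by
    intro x
    by_contra hu
    apply hfpf _ hu
    have h := hcomm (β x * β (β x)) x
    have e : β (x * β x * β (β x)) * (x * β x * β (β x))⁻¹
        = β x * β (β x) * x * (β x * β (β x))⁻¹ * x⁻¹ := by
      rw [map_mul, map_mul, hβ3]; group
    rw [e]; exact h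
  have hgen : ∀ x : X, x ∉ frattini X → Subgroup.closure {x, β x} = ⊤ := by
    intro x hx
    apply frattini_nongenerating
    rw [eq_top_iff]
    intro g _
    have hq : QuotientGroup.congr (frattini X) (frattini X) β hΦmap (QuotientGroup.mk x)
        ≠ QuotientGroup.mk x :=
      hfpf' _ (by rw [Ne, QuotientGroup.eq_one_iff]; exact hx)
    have hxK : x ∈ Subgroup.closure {x, β x} := Subgroup.subset_closure (by simp)
    have hyK : β x ∈ Subgroup.closure {x, β x} := Subgroup.subset_closure (by simp)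
    have key : ∀ u ∈ Subgroup.closure {x, β x} ⊔ frattini X,
        (QuotientGroup.mk g : X ⧸ frattini X) = QuotientGroup.mk u →
        g ∈ Subgroup.closure {x, β x} ⊔ frattini X := by
      intro u hu h
      have h1 : u⁻¹ * g ∈ frattini X := QuotientGroup.eq.mp h.symm
      have e : g = u * (u⁻¹ * g) := by group
      rw [e]
      exact mul_mem hu (Subgroup.mem_sup_right h1)
    rcases orbit4 hQ _ hβ'3 _ hq (QuotientGroup.mk g) with h | h | h | h
    · exact Subgroup.mem_sup_right ((QuotientGroup.eq_one_iff g).mp h)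
    · exact key x (Subgroup.mem_sup_left hxK) h
    · rw [hβ'] at h; exact key (β x) (Subgroup.mem_sup_left hyK) h
    · rw [hβ', hβ'] at h
      refine key (β (β x)) ?_ h
      have e : β (β x) = (x * β x)⁻¹ * (x * β x * β (β x)) := by group
      rw [e]
      exact mul_mem (Subgroup.mem_sup_left (inv_mem (mul_mem hxK hyK)))
        (Subgroup.mem_sup_right (hxyz x))
  have S : Setup X (frattini X) β :=
    ⟨hΦn, by rw [hr]; norm_num, hsq, hcomm, hβ3, hΦchar β, hfpf, hgen⟩
  have C := main (Nat.card X) X rfl hX hm (frattini X) β S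
  obtain ⟨x, hx⟩ := S.exists_not_mem
  rcases C with ⟨hc, m, hm1, hcard, hexp, -, -⟩ | ⟨hcard, hnc, hsq'⟩
  · right
    exact ⟨m, ab_iso hc (S.gen x hx) (by positivity) (by rw [hcard, two_mul, pow_add])
      (hexp x) (hexp (β x))⟩
  · left
    have hcardΦ : Nat.card (frattini X) = 2 := by
      have := Subgroup.card_mul_index (frattini X)
      rw [S.index, hcard] at this
      omega
    haveI : IsCyclic (frattini X) := isCyclic_of_prime_card hcardΦ
    have hΦ2 : ∀ f ∈ frattini X, f * f = 1 := by
      intro f hf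
      have h1 := pow_card_eq_one' (G := frattini X) (x := ⟨f, hf⟩)
      rw [hcardΦ] at h1
      have h2 := congrArg Subtype.val h1
      simpa [pow_two] using h2
    have hΦu : ∀ f ∈ frattini X, f ≠ 1 → f = x * x := by
      intro f hf hf1
      exact congrArg Subtype.val (Cfsg.Agent.H11.involution_unique_of_isCyclic
        (C := frattini X) (a := ⟨f, hf⟩) (b := ⟨x * x, hsq x⟩)
        (by rw [Subgroup.orderOf_mk]
            exact orderOf_eq_prime (by rw [pow_two]; exact hΦ2 f hf) hf1)
        (by rw [Subgroup.orderOf_mk]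
            exact orderOf_eq_prime (by rw [pow_two]; exact hΦ2 _ (hsq x)) (hsq' x hx)))
    have hy : β x ∉ frattini X := S.alpha_not_mem hx
    have hb : β x * β x = x ^ 2 := by
      rw [pow_two]
      exact hΦu _ (hsq (β x)) (hsq' _ hy)
    have hord : orderOf x = 2 * 2 := by
      have := orderOf_eq_prime_pow (p := 2) (n := 1) (x := x)
        (by rw [pow_one, pow_two]; exact hsq' x hx)
        (by
          rw [show (2 : ℕ) ^ (1 + 1) = 2 * 2 from rfl, pow_mul, pow_two, pow_two]
          exact hΦ2 _ (hsq x))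
      exact this
    have hnxy : β x * x ≠ x * β x := by
      intro h
      exact hnc (comm_of_gen (S.gen x hx) h.symm)
    have hcc : β x * x * (β x)⁻¹ * x⁻¹ = x * x := by
      apply hΦu _ (hcomm (β x) x)
      intro h
      apply hnxy
      calc β x * x = (β x * x * (β x)⁻¹ * x⁻¹) * (x * β x) := by group
        _ = x * β x := by rw [h, one_mul]
    have hconj : β x * x * (β x)⁻¹ = x⁻¹ := by
      calc β x * x * (β x)⁻¹ = (β x * x * (β x)⁻¹ * x⁻¹) * x := by group
        _ = (x * x) * x := by rw [hcc]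
        _ = x⁻¹ * ((x * x) * (x * x)) := by group
        _ = x⁻¹ := by rw [hΦ2 _ (hsq x), mul_one]
    have hba : β x ∉ Subgroup.zpowers x := by
      intro h
      obtain ⟨k, hk⟩ := Subgroup.mem_zpowers_iff.mp h
      apply hnxy
      rw [← hk]
      exact ((Commute.refl x).zpow_left k).eq
    have hidx : (Subgroup.zpowers x).index = 2 := by
      have := Subgroup.card_mul_index (Subgroup.zpowers x)
      rw [Nat.card_zpowers, hord, hcard] at this
      omega
    have hcos : ∀ g : X, g ∈ Subgroup.zpowers x ∨ (β x)⁻¹ * g ∈ Subgroup.zpowers x := by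
      intro g
      by_cases hg : g ∈ Subgroup.zpowers x
      · exact Or.inl hg
      · right
        rw [Subgroup.mul_mem_iff_of_index_two hidx, inv_mem_iff]
        exact ⟨fun h => absurd h hba, fun h => absurd h hg⟩
    exact Cfsg.Agent.H59.quaternionEquiv hord hconj hb hba hcos

end Cfsg.Agent.S1896
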