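import Cfsg.Statements.S1898
set_option autoImplicit false
open Cfsg
open scoped commutatorElement

namespace Cfsg.Agent.S1898

theorem sq_central_aux {X : Type*} [Group X] (x y c : X) (h : y * x = c * x * y)
    (hc : ∀ g : X, g * c = c * g) (hcc : c * c = 1) : y * y * x = x * (y * y) := by
  calc y * y * x = y * (y * x) := by rw [mul_assoc]
    _ = y * (c * x * y) := by rw [h]
    _ = y * c * (x * y) := by simp only [mul_assoc]
    _ = c * y * (x * y) := by rw [hc y]
    _ = c * (y * x) * y := by simp only [mul_assoc]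
    _ = c * (c * x * y) * y := by rw [h]
    _ = (c * c) * (x * (y * y)) := by simp only [mul_assoc]
    _ = x * (y * y) := by rw [hcc, one_mul]

theorem mul_sq_aux {X : Type*} [Group X] (x y c : X) (h : y * x = c * x * y)
    (hc : ∀ g : X, g * c = c * g) : (x * y) * (x * y) = c * (x * x) * (y * y) := by
  calc (x * y) * (x * y) = x * (y * x) * y := by simp only [mul_assoc]
    _ = x * (c * x * y) * y := by rw [h]
    _ = (x * c) * (x * (y * y)) := by simp only [mul_assoc]
    _ = (c * x) * (x * (y * y)) := by rw [hc x]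
    _ = c * (x * x) * (y * y) := by simp only [mul_assoc]

theorem mul_pow_four_aux {X : Type*} [Group X] (x y c : X) (h : y * x = c * x * y)
    (hc : ∀ g : X, g * c = c * g) (hcc : c * c = 1) (hsq : ∀ a b : X, b * b * a = a * (b * b)) :
    (x * y) ^ 4 = x ^ 4 * y ^ 4 := by
  have e4 : ∀ a : X, a ^ 4 = (a * a) * (a * a) := fun a => by
    rw [show (4 : ℕ) = 2 + 2 from rfl, pow_add, pow_two]
  rw [e4, e4, e4, mul_sq_aux x y c h hc]
  calc c * (x * x) * (y * y) * (c * (x * x) * (y * y))
      = c * (x * x) * ((y * y) * c) * ((x * x) * (y * y)) := by simp only [mul_assoc]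
    _ = c * (x * x) * (c * (y * y)) * ((x * x) * (y * y)) := by rw [hc (y * y)]
    _ = c * ((x * x) * c) * ((y * y) * (x * x)) * (y * y) := by simp only [mul_assoc]
    _ = c * (c * (x * x)) * ((x * x) * (y * y)) * (y * y) := by rw [hc (x * x), hsq (x * x) y]
    _ = (c * c) * ((x * x) * (x * x) * ((y * y) * (y * y))) := by simp only [mul_assoc]
    _ = x * x * (x * x) * (y * y * (y * y)) := by rw [hcc, one_mul]

theorem result {X : Type*} [Group X] [Finite X] (hX : IsPGroup 2 X)
    (hel : Cfsg.IsElementaryAbelian 2 (commutator X)) (hcen : commutator X ≤ Subgroup.center X) :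
    (∀ x ∈ Subgroup.closure {g : X | g ^ 4 = 1}, x ^ 4 = 1) ∧
      ∀ φ : MulAut X, (∀ g : X, g ^ 4 = 1 → φ g = g) → ∃ k : ℕ, φ ^ (2 ^ k) = 1 := by
  -- commutators are central of order dividing 2
  have hcomm_mem : ∀ a b : X, ⁅a, b⁆ ∈ commutator X := fun a b => by
    rw [commutator_def]
    exact Subgroup.commutator_mem_commutator (Subgroup.mem_top a) (Subgroup.mem_top b)
  have hc_central : ∀ a b g : X, g * ⁅a, b⁆ = ⁅a, b⁆ * g := fun a b g =>
    Subgroup.mem_center_iff.mp (hcen (hcomm_mem a b)) g
  have hc_sq : ∀ a b : X, ⁅a, b⁆ * ⁅a, b⁆ = 1 := fun a b => by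
    rw [← pow_two]; exact hel.2 _ (hcomm_mem a b)
  have hyx : ∀ x y : X, y * x = ⁅y, x⁆ * x * y := fun x y => by
    rw [commutatorElement_def]; group
  -- squares are central
  have hsq_central : ∀ x y : X, y * y * x = x * (y * y) := fun x y =>
    sq_central_aux x y ⁅y, x⁆ (hyx x y) (hc_central y x) (hc_sq y x)
  have hmul4 : ∀ x y : X, (x * y) ^ 4 = x ^ 4 * y ^ 4 := fun x y =>
    mul_pow_four_aux x y ⁅y, x⁆ (hyx x y) (hc_central y x) (hc_sq y x) hsq_central
  constructor
  · intro x hx
    induction hx using Subgroup.closure_induction with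
    | mem y hy => exact hy
    | one => simp
    | mul a b _ _ ha hb => rw [hmul4, ha, hb, one_mul]
    | inv a _ ha => rw [inv_pow, ha, inv_one]
  · intro φ hφ
    have : Finite (MulAut X) :=
      Finite.of_injective (fun f : MulAut X => (f : X → X)) DFunLike.coe_injective
    have hN : 0 < orderOf φ := orderOf_pos φ
    obtain ⟨k, m, hm, hkm⟩ := Nat.exists_eq_two_pow_mul_odd hN.ne'
    refine ⟨k, ?_⟩
    set ψ : MulAut X := φ ^ (2 ^ k) with hψ
    have hψm : ψ ^ m = 1 := by
      rw [hψ, ← pow_mul, ← hkm, pow_orderOf_eq_one]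
    have hφpow : ∀ (j : ℕ) (g : X), g ^ 4 = 1 → (φ ^ j) g = g := by
      intro j
      induction j with
      | zero => intro g _; simp
      | succ j ih =>
        intro g hg
        rw [pow_succ, MulAut.mul_apply, hφ g hg, ih g hg]
    have hψfix : ∀ g : X, g ^ 4 = 1 → ψ g = g := fun g hg => hφpow _ g hg
    -- ψ fixes everything
    have key : ∀ (j : ℕ) (x : X), x ^ (2 ^ j) = 1 → ψ x = x := by
      intro j
      induction j with
      | zero =>
        intro x hx
        apply hψfix
        have : x = 1 := by simpa using hx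
        rw [this]; simp
      | succ j ih =>
        intro x hx
        have hx2 : (x ^ 2) ^ (2 ^ j) = 1 := by
          rw [← pow_mul, ← pow_succ']; exact hx
        have h2 : ψ (x ^ 2) = x ^ 2 := ih _ hx2
        set c : X := x⁻¹ * ψ x with hc
        have hψx : ψ x = x * c := by rw [hc]; group
        have h3 : (x * c) * (x * c) = x * x := by
          rw [← pow_two, ← pow_two, ← hψx, ← map_pow, h2]
        -- c x c = x
        have h4 : c * x * c = x := by
          have : x * (c * x * c) = x * x := by
            rw [← h3]; simp only [mul_assoc]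
          exact mul_left_cancel this
        -- c^2 is a commutator
        have h5 : c * c = ⁅c, x⁻¹⁆ := by
          rw [commutatorElement_def]
          have h6' : x⁻¹ * c * x = c⁻¹ := by
            calc x⁻¹ * c * x = x⁻¹ * (c * x * c) * c⁻¹ := by group
              _ = c⁻¹ := by rw [h4]; group
          have h6 : x⁻¹ * c⁻¹ * x = c := by
            have h66 : (x⁻¹ * c * x)⁻¹ = (c⁻¹)⁻¹ := by rw [h6']
            rw [inv_inv] at h66
            calc x⁻¹ * c⁻¹ * x = (x⁻¹ * c * x)⁻¹ := by group
              _ = c := h66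
          calc c * c = c * (x⁻¹ * c⁻¹ * x) := by rw [h6]
            _ = c * x⁻¹ * c⁻¹ * x⁻¹⁻¹ := by group
        have hc4 : c ^ 4 = 1 := by
          rw [show (4 : ℕ) = 2 + 2 from rfl, pow_add, pow_two, h5]
          exact hc_sq _ _
        have hψc : ψ c = c := hψfix c hc4
        have hpow : ∀ i : ℕ, (ψ ^ i) x = x * c ^ i := by
          intro i
          induction i with
          | zero => simp
          | succ i ih2 =>
            rw [pow_succ', MulAut.mul_apply, ih2, map_mul, map_pow, hψc, hψx, pow_succ', mul_assoc]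
        have hcm : c ^ m = 1 := by
          have := hpow m
          rw [hψm] at this
          have h7 : x = x * c ^ m := this
          exact (mul_eq_left.mp h7.symm)
        have hc1 : c = 1 := by
          have h8 : orderOf c ∣ m := orderOf_dvd_of_pow_eq_one hcm
          have h9 : orderOf c ∣ 4 := orderOf_dvd_of_pow_eq_one hc4
          have h10 : orderOf c ∣ Nat.gcd m 4 := Nat.dvd_gcd h8 h9
          have h11 : Nat.gcd m 4 = 1 := by
            have : Nat.Coprime m (2 ^ 2) := Nat.Coprime.pow_right 2 (Nat.Coprime.symm (Nat.coprime_two_left.mpr hm))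
            exact this
          rw [h11] at h10
          exact orderOf_eq_one_iff.mp (Nat.dvd_one.mp h10)
        rw [hψx, hc1, mul_one]
    ext x
    obtain ⟨j, hj⟩ := hX x
    simpa using key j x hj

end Cfsg.Agent.S1898
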