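import Cfsg.Statements.S1899
set_option autoImplicit false
open Cfsg

namespace Cfsg.Agent.S1899

theorem result {A : Type*} [CommGroup A] [Finite A] (hA : IsPGroup 2 A)
    {n : ℕ} (hn : Odd n) (hn1 : 1 < n) (d t : MulAut A) (hd : d ^ n = 1) (ht : t ^ 2 = 1) (hdt : t * d * t⁻¹ = d⁻¹)
    (hfix : ∀ a : A, d a = a → a = 1) :
    (MulEquiv.toMonoidHom t).eqLocus (MonoidHom.id A) ⊓ ((MulEquiv.toMonoidHom t).eqLocus (MonoidHom.id A)).map d.toMonoidHom = ⊥ ∧
      (MulEquiv.toMonoidHom t).eqLocus (MonoidHom.id A) ⊔ ((MulEquiv.toMonoidHom t).eqLocus (MonoidHom.id A)).map d.toMonoidHom = ⊤ := by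
  -- basic relations
  have htt : ∀ a : A, t (t a) = a := fun a => by
    have : (t ^ 2) a = a := by rw [ht]; rfl
    simpa [pow_two] using this
  have htd : ∀ a : A, t (d a) = d⁻¹ (t a) := fun a => by
    have h1 : t * d = d⁻¹ * t := by
      have := congrArg (· * t) hdt
      simpa [mul_assoc] using this
    have := congrArg (fun f : MulAut A => f a) h1
    simpa using this
  have htdinv : ∀ a : A, t (d⁻¹ a) = d (t a) := fun a => by
    have h := htd (d⁻¹ a)
    have h2 : d (d⁻¹ a) = a := by simp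
    rw [h2] at h
    -- h : t a = d⁻¹ (t (d⁻¹ a))
    rw [h]; simp
  -- d² has no fixed point except 1
  have hfix2 : ∀ a : A, d (d a) = a → a = 1 := by
    intro a ha
    apply hfix
    obtain ⟨k, hk⟩ := hn
    -- d = (d^2)^(k+1)
    have h2 : ∀ m : ℕ, (d ^ (2 * m)) a = a := by
      intro m
      induction m with
      | zero => simp
      | succ m ih =>
        have : d ^ (2 * (m + 1)) = d ^ (2 * m) * d ^ 2 := by rw [← pow_add]; congr 1
        rw [this, MulAut.mul_apply, pow_two, MulAut.mul_apply, ha, ih]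
    have h3 : d ^ (2 * (k + 1)) = d := by
      have : 2 * (k + 1) = n + 1 := by omega
      rw [this, pow_succ, hd, one_mul]
    have := h2 (k + 1)
    rw [h3] at this
    exact this
  constructor
  · rw [eq_bot_iff]
    intro a ha
    rw [Subgroup.mem_inf] at ha
    obtain ⟨h1, h2⟩ := ha
    rw [Subgroup.mem_map] at h2
    obtain ⟨c, hc, rfl⟩ := h2
    have hc' : t c = c := hc
    have h1' : t (d c) = d c := h1
    rw [htd, hc'] at h1'
    -- d⁻¹ c = d c, so d (d c) = c
    have h3 : d (d c) = c := by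
      rw [← h1']; simp
    have hc1 : c = 1 := hfix2 c h3
    rw [Subgroup.mem_bot]
    show d c = 1
    rw [hc1]; simp
  · rw [eq_top_iff]
    intro a _
    -- the map β ↦ β / d⁻¹ (d⁻¹ β) is injective hence surjective
    let f : A →* A :=
      { toFun := fun β => β * (d⁻¹ (d⁻¹ β))⁻¹
        map_one' := by simp
        map_mul' := fun x y => by
          simp only [map_mul, mul_inv]
          exact mul_mul_mul_comm _ _ _ _ }
    have hfinj : Function.Injective f := by
      rw [injective_iff_map_eq_one]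
      intro β hβ
      have h1 : β = d⁻¹ (d⁻¹ β) := by
        have : β * (d⁻¹ (d⁻¹ β))⁻¹ = 1 := hβ
        exact mul_inv_eq_one.mp this
      apply hfix2
      have h2 : d (d β) = d (d (d⁻¹ (d⁻¹ β))) := congrArg (fun x => d (d x)) h1
      rw [h2, MulAut.apply_inv_self, MulAut.apply_inv_self]
    have hfsurj : Function.Surjective f := Finite.injective_iff_surjective.mp hfinj
    obtain ⟨β, hβ⟩ := hfsurj a
    have hβ' : β * (d⁻¹ (d⁻¹ β))⁻¹ = a := hβ
    set α : A := (d⁻¹ (d⁻¹ β))⁻¹ with hα
    -- b = α * t α ∈ C(t)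
    have hb : α * t α ∈ (MulEquiv.toMonoidHom t).eqLocus (MonoidHom.id A) := by
      show t (α * t α) = α * t α
      rw [map_mul, htt, mul_comm]
    -- c = β * d (d (t β)) = d (d⁻¹ β * d (t β)) and d⁻¹ β * d (t β) ∈ C(t)
    have hc0 : d⁻¹ β * d (t β) ∈ (MulEquiv.toMonoidHom t).eqLocus (MonoidHom.id A) := by
      show t (d⁻¹ β * d (t β)) = d⁻¹ β * d (t β)
      rw [map_mul, htdinv, htd, htt, mul_comm]
    have hc : β * d (d (t β)) ∈ ((MulEquiv.toMonoidHom t).eqLocus (MonoidHom.id A)).map d.toMonoidHom := by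
      rw [Subgroup.mem_map]
      refine ⟨_, hc0, ?_⟩
      show d (d⁻¹ β * d (t β)) = β * d (d (t β))
      rw [map_mul]; simp
    have hsum : a = (α * t α) * (β * d (d (t β))) := by
      have h1 : t α * d (d (t β)) = 1 := by
        rw [hα, map_inv, htdinv, htdinv]
        simp
      calc a = β * α := hβ'.symm
        _ = (α * β) * (t α * d (d (t β))) := by rw [h1, mul_one, mul_comm]
        _ = (α * t α) * (β * d (d (t β))) := by
          rw [mul_mul_mul_comm]
    rw [hsum]
    exact Subgroup.mul_mem _ (Subgroup.mem_sup_left hb) (Subgroup.mem_sup_right hc)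

end Cfsg.Agent.S1899
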