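import Cfsg.Statements.S1900
import Cfsg.Agent.H28.Coprime
import Cfsg.Agent.H38.FpfAction
import Cfsg.Agent.H38.SylowConj

set_option autoImplicit false
open Cfsg

namespace Cfsg.Agent.S1900

open Cfsg.Agent.H38

/-- A subgroup of prime order is generated by any of its nonidentity elements. -/
theorem exists_gen_of_prime_card {S : Type*} [Group S] {q : ℕ} [hq : Fact q.Prime] (X : Subgroup S)
    (hX : Nat.card X = q) : ∃ x ∈ X, x ≠ 1 ∧ ∀ y ∈ X, ∃ k : ℤ, y = x ^ k := by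
  have hne : X ≠ ⊥ := by
    intro h
    rw [h, Subgroup.card_bot] at hX
    exact hq.out.one_lt.ne hX
  obtain ⟨x, hxX, hx1⟩ : ∃ x : S, x ∈ X ∧ x ≠ 1 := by
    obtain ⟨x, hx⟩ := (Subgroup.ne_bot_iff_exists_ne_one).mp hne
    exact ⟨x, x.2, fun h1 => hx (Subtype.ext h1)⟩
  refine ⟨x, hxX, hx1, fun y hy => ?_⟩
  have htop := zpowers_eq_top_of_prime_card (G := X) hX (g := ⟨x, hxX⟩) (fun h => hx1 (congrArg Subtype.val h))
  have hmem : (⟨y, hy⟩ : X) ∈ Subgroup.zpowers (⟨x, hxX⟩ : X) := by rw [htop]; exact Subgroup.mem_top _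
  obtain ⟨k, hk⟩ := Subgroup.mem_zpowers_iff.mp hmem
  refine ⟨k, ?_⟩
  have := congrArg Subtype.val hk
  simpa using this.symm

/-- Let S = PQ be a finite group with P a normal Sylow p-subgroup and Q elementary abelian of order q², q a prime different from p. If exactly two subgroups X₁, X₂ of order q in Q have a nontrivial centralizer in P, then P is the internal direct product of C_P(X₁) and C_P(X₂): they commute elementwise, meet trivially and generate P. -/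
theorem result {S : Type*} [Group S] [Finite S] {p q : ℕ} [Fact p.Prime] [Fact q.Prime] (hpq : p ≠ q)
    (P : Sylow p S) [(P : Subgroup S).Normal] (Q : Subgroup S) (hQ : Cfsg.IsElementaryAbelian q Q) (hQc : Nat.card Q = q ^ 2)
    (hS : (P : Subgroup S) ⊔ Q = ⊤)
    (X₁ X₂ : Subgroup S) (h₁ : X₁ ≤ Q) (h₂ : X₂ ≤ Q) (h₁₂ : X₁ ≠ X₂) (hc₁ : Nat.card X₁ = q) (hc₂ : Nat.card X₂ = q)
    (hf₁ : (P : Subgroup S) ⊓ Subgroup.centralizer (X₁ : Set S) ≠ ⊥)
    (hf₂ : (P : Subgroup S) ⊓ Subgroup.centralizer (X₂ : Set S) ≠ ⊥)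
    (honly : ∀ X : Subgroup S, X ≤ Q → Nat.card X = q →
      (P : Subgroup S) ⊓ Subgroup.centralizer (X : Set S) ≠ ⊥ → X = X₁ ∨ X = X₂) :
    ⁅(P : Subgroup S) ⊓ Subgroup.centralizer (X₁ : Set S), (P : Subgroup S) ⊓ Subgroup.centralizer (X₂ : Set S)⁆ = ⊥ ∧
      ((P : Subgroup S) ⊓ Subgroup.centralizer (X₁ : Set S)) ⊓ ((P : Subgroup S) ⊓ Subgroup.centralizer (X₂ : Set S)) = ⊥ ∧
      ((P : Subgroup S) ⊓ Subgroup.centralizer (X₁ : Set S)) ⊔ ((P : Subgroup S) ⊓ Subgroup.centralizer (X₂ : Set S)) = P := by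
  classical
  have hp : p.Prime := Fact.out
  have hq : q.Prime := Fact.out
  have hPn : (P : Subgroup S).Normal := inferInstance
  have hQcomm : ∀ a ∈ Q, ∀ b ∈ Q, a * b = b * a := fun a ha b hb =>
    congrArg Subtype.val ((isMulCommutative_iff.mp hQ.1) ⟨a, ha⟩ ⟨b, hb⟩)
  have hQexp : ∀ a ∈ Q, a ^ q = 1 := hQ.2
  have hPq : ∀ U : Subgroup S, U ≤ P → ¬ q ∣ Nat.card U := by
    intro U hU hdiv
    obtain ⟨k, hk⟩ := IsPGroup.iff_card.mp P.2
    have h1 : q ∣ p ^ k := by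
      rw [← hk]; exact hdiv.trans (Subgroup.card_dvd_of_le hU)
    have := (Nat.prime_dvd_prime_iff_eq hq hp).mp (hq.dvd_of_dvd_pow h1)
    exact hpq this.symm
  -- generators
  obtain ⟨x₁, hx₁X, hx₁ne, hx₁g⟩ := exists_gen_of_prime_card X₁ hc₁
  obtain ⟨x₂, hx₂X, hx₂ne, hx₂g⟩ := exists_gen_of_prime_card X₂ hc₂
  have hx₁Q : x₁ ∈ Q := h₁ hx₁X
  have hx₂Q : x₂ ∈ Q := h₂ hx₂X
  have hcent₁ : ∀ g : S, x₁ * g = g * x₁ → g ∈ Subgroup.centralizer (X₁ : Set S) := by
    intro g hg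
    rw [Subgroup.mem_centralizer_iff]
    intro y hy
    obtain ⟨k, rfl⟩ := hx₁g y hy
    have : Commute x₁ g := hg
    exact (this.zpow_left k).eq
  have hcent₂ : ∀ g : S, x₂ * g = g * x₂ → g ∈ Subgroup.centralizer (X₂ : Set S) := by
    intro g hg
    rw [Subgroup.mem_centralizer_iff]
    intro y hy
    obtain ⟨k, rfl⟩ := hx₂g y hy
    have : Commute x₂ g := hg
    exact (this.zpow_left k).eq
  have hcomm₁ : ∀ g ∈ Subgroup.centralizer (X₁ : Set S), x₁ * g = g * x₁ := by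
    intro g hg
    rw [Subgroup.mem_centralizer_iff] at hg
    exact hg x₁ hx₁X
  have hcomm₂ : ∀ g ∈ Subgroup.centralizer (X₂ : Set S), x₂ * g = g * x₂ := by
    intro g hg
    rw [Subgroup.mem_centralizer_iff] at hg
    exact hg x₂ hx₂X
  have hx₂notX₁ : x₂ ∉ X₁ := by
    intro h
    apply h₁₂
    have hle : X₂ ≤ X₁ := by
      intro y hy
      obtain ⟨k, rfl⟩ := hx₂g y hy
      exact X₁.zpow_mem h k
    exact (Subgroup.eq_of_le_of_card_ge hle (by rw [hc₁, hc₂])).symm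
  have hx₁notX₂ : x₁ ∉ X₂ := by
    intro h
    apply h₁₂
    have hle : X₁ ≤ X₂ := by
      intro y hy
      obtain ⟨k, rfl⟩ := hx₁g y hy
      exact X₂.zpow_mem h k
    exact Subgroup.eq_of_le_of_card_ge hle (by rw [hc₁, hc₂])
  -- the third subgroup
  have h3ne : x₁ * x₂ ≠ 1 := by
    intro h
    apply hx₂notX₁
    have : x₂ = x₁⁻¹ := eq_inv_of_mul_eq_one_right h
    rw [this]; exact X₁.inv_mem hx₁X
  have h3ord : orderOf (x₁ * x₂) = q := orderOf_eq_prime (hQexp _ (Q.mul_mem hx₁Q hx₂Q)) h3ne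
  have h3bot : (P : Subgroup S) ⊓ Subgroup.centralizer ((Subgroup.zpowers (x₁ * x₂) : Subgroup S) : Set S) = ⊥ := by
    by_contra hne
    have hle : Subgroup.zpowers (x₁ * x₂) ≤ Q := by
      rw [Subgroup.zpowers_le]; exact Q.mul_mem hx₁Q hx₂Q
    have hcard : Nat.card (Subgroup.zpowers (x₁ * x₂)) = q := by rw [Nat.card_zpowers, h3ord]
    rcases honly _ hle hcard hne with h | h
    · apply hx₂notX₁
      have hm : x₁ * x₂ ∈ X₁ := by rw [← h]; exact Subgroup.mem_zpowers _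
      have := X₁.mul_mem (X₁.inv_mem hx₁X) hm
      rwa [inv_mul_cancel_left] at this
    · apply hx₁notX₂
      have hm : x₁ * x₂ ∈ X₂ := by rw [← h]; exact Subgroup.mem_zpowers _
      have := X₂.mul_mem hm (X₂.inv_mem hx₂X)
      rwa [mul_inv_cancel_right] at this
  have hinf : ∀ g ∈ (P : Subgroup S), x₁ * g = g * x₁ → x₂ * g = g * x₂ → g = 1 := by
    intro g hgP h1 h2
    have hmem : g ∈ (P : Subgroup S) ⊓ Subgroup.centralizer ((Subgroup.zpowers (x₁ * x₂) : Subgroup S) : Set S) := by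
      refine Subgroup.mem_inf.mpr ⟨hgP, ?_⟩
      rw [Subgroup.mem_centralizer_iff]
      intro y hy
      obtain ⟨k, rfl⟩ := Subgroup.mem_zpowers_iff.mp hy
      have hc : Commute (x₁ * x₂) g := by
        have c1 : Commute x₁ g := h1
        have c2 : Commute x₂ g := h2
        exact c1.mul_left c2
      exact (hc.zpow_left k).eq
    rw [h3bot] at hmem
    exact hmem
  -- conjugation facts
  have hconj : ∀ U : Subgroup S, Q ≤ Subgroup.normalizer (U : Set S) → ∀ y ∈ Q, ∀ u ∈ U, y * u * y⁻¹ ∈ U := by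
    intro U hQU y hy u hu
    have := hQU hy
    rw [Subgroup.mem_normalizer_iff] at this
    exact (this u).mp hu
  have hconjC₁ : ∀ y ∈ Q, ∀ g ∈ Subgroup.centralizer (X₁ : Set S), y * g * y⁻¹ ∈ Subgroup.centralizer (X₁ : Set S) := by
    intro y hy g hg
    apply hcent₁
    have h1 := hcomm₁ g hg
    have h2 := hQcomm x₁ hx₁Q y hy
    calc x₁ * (y * g * y⁻¹) = (x₁ * y) * g * y⁻¹ := by simp only [mul_assoc]
      _ = y * (x₁ * g) * y⁻¹ := by rw [h2]; simp only [mul_assoc]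
      _ = y * g * (x₁ * y⁻¹) := by rw [h1]; simp only [mul_assoc]
      _ = y * g * (y⁻¹ * x₁) := by
          have : x₁ * y⁻¹ = y⁻¹ * x₁ := by
            have c : Commute x₁ y := h2
            exact (c.inv_right).eq
          rw [this]
      _ = y * g * y⁻¹ * x₁ := by simp only [mul_assoc]
  have hconjC₂ : ∀ y ∈ Q, ∀ g ∈ Subgroup.centralizer (X₂ : Set S), y * g * y⁻¹ ∈ Subgroup.centralizer (X₂ : Set S) := by
    intro y hy g hg
    apply hcent₂
    have h1 := hcomm₂ g hg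
    have h2 := hQcomm x₂ hx₂Q y hy
    calc x₂ * (y * g * y⁻¹) = (x₂ * y) * g * y⁻¹ := by simp only [mul_assoc]
      _ = y * (x₂ * g) * y⁻¹ := by rw [h2]; simp only [mul_assoc]
      _ = y * g * (x₂ * y⁻¹) := by rw [h1]; simp only [mul_assoc]
      _ = y * g * (y⁻¹ * x₂) := by
          have : x₂ * y⁻¹ = y⁻¹ * x₂ := by
            have c : Commute x₂ y := h2
            exact (c.inv_right).eq
          rw [this]
      _ = y * g * y⁻¹ * x₂ := by simp only [mul_assoc]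
  -- generation
  have hgenU : ∀ U : Subgroup S, U ≤ P → Q ≤ Subgroup.normalizer (U : Set S) →
      U ≤ (U ⊓ Subgroup.centralizer (X₁ : Set S)) ⊔ (U ⊓ Subgroup.centralizer (X₂ : Set S)) := by
    intro U hUP hQU
    have h1 := Cfsg.Agent.H28.le_iSup_hyperplane_centralizers q Q U hQ (by rw [hQc]) (hPq U hUP) hQU
    refine h1.trans (iSup_le ?_)
    rintro ⟨D, hDQ, hDrel⟩
    change U ⊓ Subgroup.centralizer (D : Set S) ≤ _
    have hDcard : Nat.card D = q := by
      have h2 := Subgroup.card_mul_index (D.subgroupOf Q)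
      have h3 : Nat.card (D.subgroupOf Q) = Nat.card D :=
        Nat.card_congr (Subgroup.subgroupOfEquivOfLe hDQ).toEquiv
      rw [h3, hQc] at h2
      have h4 : (D.subgroupOf Q).index = q := hDrel
      rw [h4, pow_two] at h2
      exact Nat.eq_of_mul_eq_mul_right hq.pos h2
    by_cases hbot : (P : Subgroup S) ⊓ Subgroup.centralizer (D : Set S) = ⊥
    · have hle : U ⊓ Subgroup.centralizer (D : Set S) ≤ ⊥ := by
        rw [← hbot]; exact inf_le_inf_right _ hUP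
      exact hle.trans bot_le
    · rcases honly D hDQ hDcard hbot with h | h
      · rw [h]; exact le_sup_left
      · rw [h]; exact le_sup_right
  -- the key induction
  have key : ∀ n : ℕ, ∀ U : Subgroup S, Nat.card U ≤ n → U ≤ P → Q ≤ Subgroup.normalizer (U : Set S) →
      ∀ a ∈ U ⊓ Subgroup.centralizer (X₁ : Set S), ∀ b ∈ U ⊓ Subgroup.centralizer (X₂ : Set S),
        a * b = b * a := by
    intro n
    induction n with
    | zero =>
      intro U hU
      exfalso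
      have := Nat.card_pos (α := U)
      omega
    | succ n ih =>
      intro U hUn hUP hQU
      have hUp : IsPGroup p U := P.2.to_le hUP
      -- x₂ acts fixed-point-freely on U₁, x₁ on U₂
      have hfpf₁ : ∀ a ∈ U ⊓ Subgroup.centralizer (X₁ : Set S), x₂ * a = a * x₂ → a = 1 :=
        fun a ha h => hinf a (hUP ha.1) (hcomm₁ a ha.2) h
      have hfpf₂ : ∀ b ∈ U ⊓ Subgroup.centralizer (X₂ : Set S), x₁ * b = b * x₁ → b = 1 :=
        fun b hb h => hinf b (hUP hb.1) h (hcomm₂ b hb.2)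
      have hx₂U₁ : ∀ a ∈ U ⊓ Subgroup.centralizer (X₁ : Set S),
          x₂ * a * x₂⁻¹ ∈ U ⊓ Subgroup.centralizer (X₁ : Set S) :=
        fun a ha => ⟨hconj U hQU x₂ hx₂Q a ha.1, hconjC₁ x₂ hx₂Q a ha.2⟩
      have hx₁U₂ : ∀ b ∈ U ⊓ Subgroup.centralizer (X₂ : Set S),
          x₁ * b * x₁⁻¹ ∈ U ⊓ Subgroup.centralizer (X₂ : Set S) :=
        fun b hb => ⟨hconj U hQU x₁ hx₁Q b hb.1, hconjC₂ x₁ hx₁Q b hb.2⟩
      have hsurj₁ := exists_eq_inv_mul_conj_of_fpf (U ⊓ Subgroup.centralizer (X₁ : Set S)) x₂ hx₂U₁ hfpf₁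
      have hsurj₂ := exists_eq_inv_mul_conj_of_fpf (U ⊓ Subgroup.centralizer (X₂ : Set S)) x₁ hx₁U₂ hfpf₂
      -- it suffices that U₁ normalizes U₂
      have hF3 : (∀ a ∈ U ⊓ Subgroup.centralizer (X₁ : Set S), ∀ b ∈ U ⊓ Subgroup.centralizer (X₂ : Set S),
          a * b * a⁻¹ ∈ U ⊓ Subgroup.centralizer (X₂ : Set S)) →
          ∀ a ∈ U ⊓ Subgroup.centralizer (X₁ : Set S), ∀ b ∈ U ⊓ Subgroup.centralizer (X₂ : Set S),
            a * b = b * a := by
        intro hnorm a ha b hb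
        obtain ⟨a₀, ha₀, rfl⟩ := hsurj₁ a ha
        have hc := hnorm a₀ ha₀ b hb
        have hcU₂ : a₀ * b * a₀⁻¹ * b⁻¹ ∈ U ⊓ Subgroup.centralizer (X₂ : Set S) :=
          Subgroup.mul_mem _ hc (Subgroup.inv_mem _ hb)
        have hb2 : x₂ * b * x₂⁻¹ = b := by rw [hcomm₂ b hb.2, mul_inv_cancel_right]
        have hc2 : x₂ * (a₀ * b * a₀⁻¹ * b⁻¹) * x₂⁻¹ = a₀ * b * a₀⁻¹ * b⁻¹ := by
          rw [hcomm₂ _ hcU₂.2, mul_inv_cancel_right]
        have e1 : x₂ * (a₀ * b * a₀⁻¹ * b⁻¹) * x₂⁻¹ =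
            (x₂ * a₀ * x₂⁻¹) * b * (x₂ * a₀ * x₂⁻¹)⁻¹ * b⁻¹ := by
          calc x₂ * (a₀ * b * a₀⁻¹ * b⁻¹) * x₂⁻¹
              = (x₂ * a₀ * x₂⁻¹) * (x₂ * b * x₂⁻¹) * (x₂ * a₀ * x₂⁻¹)⁻¹ * (x₂ * b * x₂⁻¹)⁻¹ := by group
            _ = (x₂ * a₀ * x₂⁻¹) * b * (x₂ * a₀ * x₂⁻¹)⁻¹ * b⁻¹ := by rw [hb2]
        rw [hc2] at e1
        have e2 : a₀ * b * a₀⁻¹ = (x₂ * a₀ * x₂⁻¹) * b * (x₂ * a₀ * x₂⁻¹)⁻¹ := mul_right_cancel e1
        calc a₀⁻¹ * (x₂ * a₀ * x₂⁻¹) * b
            = a₀⁻¹ * ((x₂ * a₀ * x₂⁻¹) * b * (x₂ * a₀ * x₂⁻¹)⁻¹) * (x₂ * a₀ * x₂⁻¹) := by group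
          _ = a₀⁻¹ * (a₀ * b * a₀⁻¹) * (x₂ * a₀ * x₂⁻¹) := by rw [← e2]
          _ = b * (a₀⁻¹ * (x₂ * a₀ * x₂⁻¹)) := by group
      apply hF3
      intro a ha b hb
      by_cases hU₂ : U ⊓ Subgroup.centralizer (X₂ : Set S) = U
      · have ha' : a ∈ U ⊓ Subgroup.centralizer (X₂ : Set S) := by rw [hU₂]; exact ha.1
        have h1 : a = 1 := hinf a (hUP ha.1) (hcomm₁ a ha.2) (hcomm₂ a ha'.2)
        rw [h1]; simpa using hb
      · -- a maximal proper Q-invariant subgroup M containing U₂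
        have hQU₂ : Q ≤ Subgroup.normalizer ((U ⊓ Subgroup.centralizer (X₂ : Set S) : Subgroup S) : Set S) := by
          intro y hy
          apply mem_normalizer_of_conj_mem
          intro u hu
          exact ⟨hconj U hQU y hy u hu.1, hconjC₂ y hy u hu.2⟩
        obtain ⟨M, hU₂M, hM⟩ := Finite.exists_le_maximal
          (p := fun W : Subgroup S => U ⊓ Subgroup.centralizer (X₂ : Set S) ≤ W ∧ W ≤ U ∧ W ≠ U ∧
            Q ≤ Subgroup.normalizer (W : Set S))
          (a := U ⊓ Subgroup.centralizer (X₂ : Set S)) ⟨le_rfl, inf_le_left, hU₂, hQU₂⟩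
        obtain ⟨⟨-, hMU, hMne, hQM⟩, hMmax⟩ := hM
        -- M is normal in U
        have hUM : ∀ u ∈ U, ∀ m ∈ M, u * m * u⁻¹ ∈ M := by
          by_contra hcon
          have hNne : U ⊓ Subgroup.normalizer (M : Set S) ≠ U := by
            intro h
            apply hcon
            intro u hu m hm
            have hu' : u ∈ U ⊓ Subgroup.normalizer (M : Set S) := by rw [h]; exact hu
            have := (Subgroup.mem_inf.mp hu').2
            rw [Subgroup.mem_normalizer_iff] at this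
            exact (this m).mp hm
          have hMN : M ≤ U ⊓ Subgroup.normalizer (M : Set S) := le_inf hMU Subgroup.le_normalizer
          have hQN : Q ≤ Subgroup.normalizer ((U ⊓ Subgroup.normalizer (M : Set S) : Subgroup S) : Set S) := by
            intro y hy
            apply mem_normalizer_of_conj_mem
            intro u hu
            refine ⟨hconj U hQU y hy u hu.1, ?_⟩
            exact Subgroup.mul_mem _ (Subgroup.mul_mem _ (hQM hy) hu.2) (Subgroup.inv_mem _ (hQM hy))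
          have hle := hMmax (y := U ⊓ Subgroup.normalizer (M : Set S))
            ⟨hU₂M.trans hMN, inf_le_left, hNne, hQN⟩ hMN
          obtain ⟨u, huU, huM, hunorm⟩ := exists_mem_normalizer_not_mem_of_isPGroup U M hUp hMU hMne
          apply huM
          apply hle
          exact ⟨huU, mem_normalizer_of_conj_mem M u hunorm⟩
        -- induction hypothesis for M
        have hMcard : Nat.card M ≤ n := by
          have hlt : Nat.card M < Nat.card U := by
            by_contra hge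
            push Not at hge
            exact hMne (Subgroup.eq_of_le_of_card_ge hMU hge)
          omega
        have hMP : M ≤ P := hMU.trans hUP
        have ihM := ih M hMcard hMP hQM
        have hgenM := hgenU M hMP hQM
        have hdecomp := exists_mul_of_mem_sup_of_commute _ _ ihM
        -- conjugate of ψ(b₀) by a stays in U₂
        have hstep : ∀ b₀ ∈ U ⊓ Subgroup.centralizer (X₂ : Set S),
            a * (b₀⁻¹ * (x₁ * b₀ * x₁⁻¹)) * a⁻¹ ∈ U ⊓ Subgroup.centralizer (X₂ : Set S) := by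
          intro b₀ hb₀
          have hb₀M : b₀ ∈ M := hU₂M hb₀
          have hconjM : a * b₀ * a⁻¹ ∈ M := hUM a ha.1 b₀ hb₀M
          obtain ⟨m, hm, b', hb', hmb⟩ := hdecomp _ (hgenM hconjM)
          have hb'U₂ : b' ∈ U ⊓ Subgroup.centralizer (X₂ : Set S) := ⟨hMU hb'.1, hb'.2⟩
          have hxa : x₁ * a * x₁⁻¹ = a := by rw [hcomm₁ a ha.2, mul_inv_cancel_right]
          have hxm : x₁ * m * x₁⁻¹ = m := by rw [hcomm₁ m hm.2, mul_inv_cancel_right]
          have e1 : a * (x₁ * b₀ * x₁⁻¹) * a⁻¹ = m * (x₁ * b' * x₁⁻¹) := by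
            calc a * (x₁ * b₀ * x₁⁻¹) * a⁻¹
                = (x₁ * a * x₁⁻¹) * (x₁ * b₀ * x₁⁻¹) * (x₁ * a * x₁⁻¹)⁻¹ := by rw [hxa]
              _ = x₁ * (a * b₀ * a⁻¹) * x₁⁻¹ := by group
              _ = x₁ * (m * b') * x₁⁻¹ := by rw [hmb]
              _ = (x₁ * m * x₁⁻¹) * (x₁ * b' * x₁⁻¹) := by group
              _ = m * (x₁ * b' * x₁⁻¹) := by rw [hxm]
          have e2 : a * (b₀⁻¹ * (x₁ * b₀ * x₁⁻¹)) * a⁻¹ = b'⁻¹ * (x₁ * b' * x₁⁻¹) := by
            calc a * (b₀⁻¹ * (x₁ * b₀ * x₁⁻¹)) * a⁻¹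
                = (a * b₀ * a⁻¹)⁻¹ * (a * (x₁ * b₀ * x₁⁻¹) * a⁻¹) := by group
              _ = (m * b')⁻¹ * (m * (x₁ * b' * x₁⁻¹)) := by rw [hmb, e1]
              _ = b'⁻¹ * (x₁ * b' * x₁⁻¹) := by group
          rw [e2]
          exact Subgroup.mul_mem _ (Subgroup.inv_mem _ hb'U₂) (hx₁U₂ b' hb'U₂)
        obtain ⟨b₀, hb₀, rfl⟩ := hsurj₂ b hb
        exact hstep b₀ hb₀
  have hQnP : Q ≤ Subgroup.normalizer ((P : Subgroup S) : Set S) := by
    intro y _
    apply mem_normalizer_of_conj_mem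
    intro u hu
    exact hPn.conj_mem u hu y
  refine ⟨?_, ?_, ?_⟩
  · rw [Subgroup.commutator_eq_bot_iff_le_centralizer]
    intro a ha
    rw [Subgroup.mem_centralizer_iff]
    intro b hb
    exact (key (Nat.card (P : Subgroup S)) P le_rfl le_rfl hQnP a ha b hb).symm
  · rw [eq_bot_iff]
    intro g hg
    exact hinf g hg.1.1 (hcomm₁ g hg.1.2) (hcomm₂ g hg.2.2)
  · apply le_antisymm
    · exact sup_le inf_le_left inf_le_left
    · exact hgenU P le_rfl hQnP

end Cfsg.Agent.S1900
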