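import Cfsg.Statements.S1901
import Cfsg.Agent.H38.SylowConj
import Cfsg.Agent.H38.CoprimeAction

set_option autoImplicit false
open Cfsg

namespace Cfsg.Agent.S1901

open Cfsg.Agent.H38

/-- One step of the induction along a `p`-solvable series, in a quotient: if a `p`-element `x`
normalizing a `p'`-subgroup `Q` (which normalizes a Sylow `p`-subgroup) centralizes `Q` modulo a
normal subgroup `M` that is a `p`-group or a `p'`-group, then `x` centralizes `Q`. -/
theorem lemmaL {G : Type*} [Group G] [Finite G] {p : ℕ} [Fact p.Prime]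
    (M : Subgroup G) [hMn : M.Normal] (hM : (∃ m : ℕ, Nat.card M = p ^ m) ∨ (Nat.card M).Coprime p)
    (Q : Subgroup G) (hQ : ¬ p ∣ Nat.card Q) (P : Sylow p G)
    (hQP : Q ≤ Subgroup.normalizer ((P : Subgroup G) : Set G))
    (x : G) (k : ℕ) (hx : x ^ p ^ k = 1) (hxQ : ∀ q ∈ Q, x * q * x⁻¹ ∈ Q)
    (hxM : ∀ q ∈ Q, x * q * x⁻¹ * q⁻¹ ∈ M) :
    ∀ q ∈ Q, x * q * x⁻¹ = q := by
  have hp : p.Prime := Fact.out
  intro q hq
  have hcQ : x * q * x⁻¹ * q⁻¹ ∈ Q := Q.mul_mem (hxQ q hq) (Q.inv_mem hq)
  have hcM := hxM q hq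
  suffices h : x * q * x⁻¹ * q⁻¹ = 1 by
    rw [mul_inv_eq_one] at h; exact h
  rcases hM with ⟨m, hm⟩ | hcop
  · -- M is a p-group
    have hMp : IsPGroup p M := IsPGroup.of_card hm
    have := inf_eq_bot_of_isPGroup_of_not_dvd M Q hMp hQ
    have hmem : x * q * x⁻¹ * q⁻¹ ∈ M ⊓ Q := ⟨hcM, hcQ⟩
    rw [this] at hmem
    exact hmem
  · -- M is a p'-group
    have hMp' : ¬ p ∣ Nat.card M := fun h => by
      have := Nat.Coprime.eq_one_of_dvd hcop.symm h
      exact hp.one_lt.ne' this
    have hPM : (P : Subgroup G) ⊓ M = ⊥ := inf_eq_bot_of_isPGroup_of_not_dvd _ M P.2 hMp'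
    -- Q ∩ M centralizes P
    have hcent : ∀ c ∈ Q ⊓ M, ∀ y ∈ (P : Subgroup G), y * c = c * y := by
      intro c hc y hy
      have h1 : c * y * c⁻¹ ∈ (P : Subgroup G) := by
        have hcn := hQP hc.1
        rw [Subgroup.mem_normalizer_iff] at hcn
        exact (hcn y).mp hy
      have h2 : c * y * c⁻¹ * y⁻¹ ∈ (P : Subgroup G) := (P : Subgroup G).mul_mem h1 ((P : Subgroup G).inv_mem hy)
      have h3 : c * y * c⁻¹ * y⁻¹ ∈ M := by
        have : y * c⁻¹ * y⁻¹ ∈ M := hMn.conj_mem _ (M.inv_mem hc.2) y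
        have := M.mul_mem hc.2 this
        simpa [mul_assoc] using this
      have h4 : c * y * c⁻¹ * y⁻¹ ∈ (P : Subgroup G) ⊓ M := ⟨h2, h3⟩
      rw [hPM] at h4
      have h5 : c * y * c⁻¹ * y⁻¹ = 1 := h4
      rw [mul_inv_eq_one, mul_inv_eq_iff_eq_mul] at h5
      exact h5.symm
    -- x normalizes Q ∩ M
    have hxN : x ∈ Subgroup.normalizer ((Q ⊓ M : Subgroup G) : Set G) := by
      apply mem_normalizer_of_conj_mem
      intro c hc
      exact ⟨hxQ c hc.1, hMn.conj_mem _ hc.2 x⟩
    have hPN : (P : Subgroup G) ≤ Subgroup.normalizer ((Q ⊓ M : Subgroup G) : Set G) := by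
      intro y hy
      apply mem_normalizer_of_conj_mem
      intro c hc
      have := hcent c hc y hy
      rw [this, mul_inv_cancel_right]
      exact hc
    obtain ⟨n, hnN, hnP⟩ := exists_conj_mem_sylow_of_le P _ hPN x hxN k hx
    -- x centralizes Q ∩ M
    have hxc : ∀ c ∈ Q ⊓ M, x * c = c * x := by
      intro c hc
      have hc' : n * c * n⁻¹ ∈ Q ⊓ M := by
        rw [Subgroup.mem_normalizer_iff] at hnN
        exact (hnN c).mp hc
      have h1 := hcent _ hc' _ hnP
      -- n x n⁻¹ * (n c n⁻¹) = (n c n⁻¹) * (n x n⁻¹)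
      have h2 : n * (x * c) * n⁻¹ = n * (c * x) * n⁻¹ := by
        calc n * (x * c) * n⁻¹ = (n * x * n⁻¹) * (n * c * n⁻¹) := by group
          _ = (n * c * n⁻¹) * (n * x * n⁻¹) := h1
          _ = n * (c * x) * n⁻¹ := by group
      exact mul_left_cancel (mul_right_cancel h2)
    -- the commutator c = x q x⁻¹ q⁻¹ is centralized by x
    set c := x * q * x⁻¹ * q⁻¹ with hc
    have hcx : x * c = c * x := hxc c ⟨hcQ, hcM⟩
    have hxq : x * q = c * q * x := by
      rw [hc]; group
    have hpow : ∀ j : ℕ, x ^ j * q = c ^ j * q * x ^ j := by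
      intro j
      induction j with
      | zero => simp
      | succ j ih =>
        have hcomm : x * c ^ j = c ^ j * x := by
          have : Commute x c := hcx
          exact (this.pow_right j).eq
        calc x ^ (j + 1) * q = x * (x ^ j * q) := by rw [pow_succ', mul_assoc]
          _ = x * (c ^ j * q * x ^ j) := by rw [ih]
          _ = (x * c ^ j) * q * x ^ j := by simp only [mul_assoc]
          _ = c ^ j * (x * q) * x ^ j := by rw [hcomm]; simp only [mul_assoc]
          _ = c ^ j * (c * q * x) * x ^ j := by rw [hxq]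
          _ = c ^ (j + 1) * q * x ^ (j + 1) := by
              rw [pow_succ c j, pow_succ' x j]; simp only [mul_assoc]
    have h1 := hpow (p ^ k)
    rw [hx, one_mul, mul_one] at h1
    have h2 : c ^ p ^ k = 1 := by
      have : c ^ p ^ k * q = 1 * q := by rw [one_mul]; exact h1.symm
      exact mul_right_cancel this
    exact eq_one_of_pow_prime_pow_of_not_dvd Q hQ hcQ h2

/-- Let G be a finite p-solvable group and Q a subgroup of order prime to p such that p divides the index of C_G(Q) in N_G(Q). Then Q normalizes no Sylow p-subgroup of G. -/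
theorem result {G : Type*} [Group G] [Finite G] {p : ℕ} [Fact p.Prime]
    (hG : Cfsg.IsPSolvable p G) (Q : Subgroup G) (hQ : ¬ p ∣ Nat.card Q)
    (hA : p ∣ (Subgroup.centralizer (Q : Set G)).relIndex (Subgroup.normalizer (Q : Set G)))
    (P : Sylow p G) : ¬ Q ≤ Subgroup.normalizer ((P : Subgroup G) : Set G) := by
  intro hQP
  have hp : p.Prime := Fact.out
  obtain ⟨n, H, hH0, hHlast, hHmono, hHnormal, hHstep⟩ := hG
  -- every p-element of N(Q) centralizes Q
  have key : ∀ x ∈ Subgroup.normalizer (Q : Set G), ∀ k : ℕ, x ^ p ^ k = 1 →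
      x ∈ Subgroup.centralizer (Q : Set G) := by
    intro x hxN k hx
    have hxQ : ∀ q ∈ Q, x * q * x⁻¹ ∈ Q := by
      intro q hq
      rw [Subgroup.mem_normalizer_iff] at hxN
      exact (hxN q).mp hq
    have hchain : ∀ i : Fin (n + 1), ∀ q ∈ Q, x * q * x⁻¹ * q⁻¹ ∈ H i := by
      intro i
      induction i using Fin.reverseInduction with
      | last =>
        intro q _
        rw [hHlast]; exact Subgroup.mem_top _
      | cast i ih =>
        intro q hq
        have := hHnormal i.castSucc
        have hle : H i.castSucc ≤ H i.succ := hHmono (Fin.castSucc_le_succ i)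
        let π := QuotientGroup.mk' (H i.castSucc)
        have hπ : Function.Surjective π := QuotientGroup.mk'_surjective _
        have : ((H i.succ).map π).Normal := (hHnormal i.succ).map π hπ
        have hcard : Nat.card ((H i.succ).map π) = (H i.castSucc).relIndex (H i.succ) := by
          have := Subgroup.relIndex_ker (H i.succ) π
          rw [QuotientGroup.ker_mk'] at this
          exact this.symm
        have hM : (∃ m : ℕ, Nat.card ((H i.succ).map π) = p ^ m) ∨
            (Nat.card ((H i.succ).map π)).Coprime p := by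
          rw [hcard]; exact hHstep i
        have hQ' : ¬ p ∣ Nat.card (Q.map π) := fun h => hQ (h.trans (Subgroup.card_map_dvd Q π))
        have hQP' : Q.map π ≤ Subgroup.normalizer (((P.mapSurjective hπ : Sylow p (G ⧸ H i.castSucc)) : Subgroup (G ⧸ H i.castSucc)) : Set (G ⧸ H i.castSucc)) := by
          rw [Sylow.coe_mapSurjective]
          exact (Subgroup.map_mono hQP).trans (Subgroup.le_normalizer_map π)
        have hres := lemmaL ((H i.succ).map π) hM (Q.map π) hQ' (P.mapSurjective hπ) hQP' (π x) k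
          (by rw [← map_pow, hx, map_one])
          (by
            rintro _ ⟨q', hq', rfl⟩
            refine ⟨x * q' * x⁻¹, hxQ q' hq', ?_⟩
            simp only [map_mul, map_inv])
          (by
            rintro _ ⟨q', hq', rfl⟩
            refine ⟨x * q' * x⁻¹ * q'⁻¹, ih q' hq', ?_⟩
            simp only [map_mul, map_inv])
          (π q) ⟨q, hq, rfl⟩
        have h1 : π (x * q * x⁻¹ * q⁻¹) = 1 := by
          simp only [map_mul, map_inv] at hres ⊢
          rw [hres, mul_inv_cancel]
        exact (QuotientGroup.eq_one_iff _).mp h1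
    rw [Subgroup.mem_centralizer_iff]
    intro q hq
    have h0 := hchain 0 q hq
    rw [hH0, Subgroup.mem_bot, mul_inv_eq_one, mul_inv_eq_iff_eq_mul] at h0
    exact h0.symm
  -- a Sylow p-subgroup of N(Q) lies in C(Q)
  obtain ⟨S⟩ : Nonempty (Sylow p (Subgroup.normalizer (Q : Set G))) := inferInstance
  have hSle : (S : Subgroup (Subgroup.normalizer (Q : Set G))) ≤
      (Subgroup.centralizer (Q : Set G)).subgroupOf (Subgroup.normalizer (Q : Set G)) := by
    intro s hs
    rw [Subgroup.mem_subgroupOf]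
    obtain ⟨k, hk⟩ := S.2 ⟨s, hs⟩
    have hk' : (s : G) ^ p ^ k = 1 := by
      have := congrArg Subtype.val hk
      have h2 := congrArg Subtype.val this
      simpa using h2
    exact key s s.2 k hk'
  have hdvd := Subgroup.index_dvd_of_le hSle
  exact S.not_dvd_index (hA.trans hdvd)

end Cfsg.Agent.S1901
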