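import Cfsg.Statements.S1903
import Cfsg.Agent.H60.G320
import Cfsg.Agent.H60.SuzCent

set_option autoImplicit false
open Cfsg

namespace Cfsg.Agent.S1903

/-- A finite group of order 320 whose derived subgroup has order 64 and has centre a Klein four-group is isomorphic to the centralizer of an involution in PSU₃(4). -/
theorem result {G : Type*} [Group G] [Finite G] (hG : Nat.card G = 320) (hD : Nat.card (commutator G) = 64)
    (hZ : IsKleinFour (Subgroup.center (commutator G)))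
    {F : Type*} [Field F] [Fintype F] (hF : Fintype.card F = 16) :
    ∃ t : Cfsg.PSU 3 F 4, orderOf t = 2 ∧ Nonempty (G ≃* Subgroup.centralizer ({t} : Set (Cfsg.PSU 3 F 4))) := by
  haveI hS2 : Cfsg.Agent.H60.SuzFin F 2 := ⟨hF.trans (by norm_num), by norm_num⟩
  obtain ⟨s, x, E, hSp, n1, n2, n12⟩ := Cfsg.Agent.H60.g320_struct hG hD hZ
  obtain ⟨l, hl, hl1⟩ := Cfsg.Agent.H60.exists_fifth_root (F := F)
  have hl0 : l ^ 2 ≠ 0 := by
    intro h0
    have : l = 0 := pow_eq_zero_iff (two_ne_zero) |>.mp h0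
    rw [this] at hl
    norm_num at hl
  have hζ5 : (l ^ 2) ^ 5 = 1 := by rw [← pow_mul, mul_comm, pow_mul, hl, one_pow]
  have hζ1 : l ^ 2 ≠ 1 := by
    intro h
    apply hl1
    linear_combination hl - l * (l ^ 2 + 1) * h
  have hP := Cfsg.Agent.H60.par_sp5 (l ^ 2) hζ5 hζ1 hl0
  obtain ⟨m1, m2, m12⟩ := Cfsg.Agent.H60.par_sp5_ne (l ^ 2) hζ5 hζ1 hl0
  obtain ⟨Φ, hΦ⟩ := Cfsg.Agent.H60.Sp5.iso hSp hP n1 n2 n12 m1 m2 m12
  have E' := E.transport Φ _ hΦ
  exact Cfsg.Agent.H60.cent_iso_of_ext5 l hl hl1 hl0 E'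

end Cfsg.Agent.S1903
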