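import Cfsg.Statements.S1905
import Cfsg.Agent.H38.Dihedral

set_option autoImplicit false
open Cfsg

namespace Cfsg.Agent.S1905

open Cfsg.Agent.H38

theorem orderOf_conj_eq {S : Type*} [Group S] (g x : S) : orderOf (g * x * g⁻¹) = orderOf x :=
  (MulAut.conj g).orderOf_eq x

/-- If conjugation by `n` maps a finite subgroup into itself, `n` normalizes it. -/
theorem mem_normalizer_of_conj_mem {S : Type*} [Group S] [Finite S] (H : Subgroup S) (n : S)
    (h : ∀ x ∈ H, n * x * n⁻¹ ∈ H) : n ∈ Subgroup.normalizer (H : Set S) := by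
  rw [Subgroup.mem_normalizer_iff_map_conj_eq]
  have hle : H.map (MulAut.conj n : S →* S) ≤ H := by
    rintro y ⟨x, hx, rfl⟩
    exact h x hx
  apply Subgroup.eq_of_le_of_card_ge hle
  rw [Subgroup.card_map_of_injective (MulAut.conj n).injective]

theorem result {S : Type*} [Group S] [Finite S] (M : Subgroup S) (hM : Even (Nat.card M))
    (hC : ∀ i ∈ M, orderOf i = 2 → Subgroup.centralizer ({i} : Set S) ≤ M) (hcore : Odd (Nat.card M.normalCore)) :
    (∀ x y : S, orderOf x = 2 → orderOf y = 2 → IsConj x y) ∧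
      ∀ (X : Sylow 2 M) (I : M), I ∈ (Subgroup.center ↥(X : Subgroup ↥M)).map (X : Subgroup ↥M).subtype → orderOf I = 2 →
        Subgroup.normalizer (((X : Subgroup M).map M.subtype : Subgroup S) : Set S) ≤ M →
        (∀ x y : M, orderOf x = 2 → orderOf y = 2 → IsConj x y) ∧
          ∃ M₀ : Subgroup M, Odd (Nat.card M₀) ∧
            ∀ m : M, ∃ a ∈ M₀, ∃ c ∈ Subgroup.centralizer ({I} : Set M), m = a * c := by
  classical
  have : Fact (Nat.Prime 2) := ⟨Nat.prime_two⟩
  -- an involution of M
  obtain ⟨i₀, hi₀⟩ := exists_prime_orderOf_dvd_card' (G := M) 2 (even_iff_two_dvd.mp hM)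
  have hi₀S : orderOf (i₀ : S) = 2 := by rw [Subgroup.orderOf_coe]; exact hi₀
  -- membership in a centralizer of a singleton
  have hmemC : ∀ a b : S, a * b = b * a → a ∈ Subgroup.centralizer ({b} : Set S) := by
    intro a b hab
    rw [Subgroup.mem_centralizer_iff]
    intro h hh
    rw [Set.mem_singleton_iff] at hh
    rw [hh]; exact hab.symm
  -- Part 1: every involution is conjugate to i₀
  have hconj₀ : ∀ j : S, orderOf j = 2 → IsConj (i₀ : S) j := by
    intro j hj
    by_contra hnc
    -- every involution not conjugate to i₀ lies in M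
    have hinM : ∀ j' : S, orderOf j' = 2 → ¬ IsConj (i₀ : S) j' → j' ∈ M := by
      intro j' hj' hnc'
      rcases isConj_or_exists_invol_commute hi₀S hj' with h | ⟨z, hz2, hzi, hzj, -⟩
      · exact absurd h hnc'
      · have hzM : z ∈ M := hC i₀ i₀.2 hi₀S (hmemC z i₀ hzi)
        exact hC z hzM hz2 (hmemC j' z hzj.symm)
    have hjcore : j ∈ M.normalCore := by
      rw [Subgroup.normalCore]
      show ∀ b : S, b * j * b⁻¹ ∈ M
      intro b
      apply hinM
      · rw [orderOf_conj_eq]; exact hj
      · intro hcon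
        apply hnc
        exact hcon.trans (isConj_iff.mpr ⟨b⁻¹, by group⟩)
    have h2 : 2 ∣ Nat.card M.normalCore := by
      have := orderOf_dvd_natCard (⟨j, hjcore⟩ : M.normalCore)
      rwa [← Subgroup.orderOf_coe, hj] at this
    exact (Nat.not_even_iff_odd.mpr hcore) (even_iff_two_dvd.mpr h2)
  have part1 : ∀ x y : S, orderOf x = 2 → orderOf y = 2 → IsConj x y := fun x y hx hy =>
    (hconj₀ x hx).symm.trans (hconj₀ y hy)
  refine ⟨part1, ?_⟩
  intro X I hI hI2 hN
  -- notation
  set X' : Subgroup S := (X : Subgroup M).map M.subtype with hX'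
  have hI2S : orderOf (I : S) = 2 := by rw [Subgroup.orderOf_coe]; exact hI2
  have hII : (I : S) * (I : S) = 1 := invol_of_orderOf hI2S
  -- I is in X and central in X
  obtain ⟨c, hc, hcI⟩ := Subgroup.mem_map.mp hI
  have hIX : I ∈ (X : Subgroup M) := by rw [← hcI]; exact c.2
  have hIc : ∀ x ∈ X', x * (I : S) = (I : S) * x := by
    intro x hx
    obtain ⟨y, hy, rfl⟩ := Subgroup.mem_map.mp hx
    have h1 := Subgroup.mem_center_iff.mp hc ⟨y, hy⟩
    have h2 : y * I = I * y := by
      have := congrArg (X : Subgroup M).subtype h1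
      rw [map_mul, map_mul, hcI] at this
      exact this
    exact congrArg Subtype.val h2
  have hX'M : X' ≤ M := by
    rw [hX']; exact Subgroup.map_subtype_le _
  have hcardX' : Nat.card X' = Nat.card (X : Subgroup M) := by
    rw [hX']; exact Subgroup.card_map_of_injective (Subgroup.subtype_injective _)
  -- fusion control for I
  have FC : ∀ g : S, g * (I : S) * g⁻¹ ∈ M → g ∈ M := by
    intro g hg
    set j : S := g * (I : S) * g⁻¹ with hj
    have hj2 : orderOf j = 2 := by rw [hj, orderOf_conj_eq]; exact hI2S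
    have hCj : Subgroup.centralizer ({j} : Set S) ≤ M := hC j hg hj2
    -- the conjugate of X' by g lies in M
    have hconjM : ∀ x ∈ X', g * x * g⁻¹ ∈ M := by
      intro x hx
      apply hCj
      apply hmemC
      rw [hj]
      calc g * x * g⁻¹ * (g * (I : S) * g⁻¹) = g * (x * (I : S)) * g⁻¹ := by group
        _ = g * ((I : S) * x) * g⁻¹ := by rw [hIc x hx]
        _ = g * (I : S) * g⁻¹ * (g * x * g⁻¹) := by group
    -- Y: the conjugate of X by g, as a subgroup of M
    set Y : Subgroup M := (X'.map (MulAut.conj g).toMonoidHom).subgroupOf M with hY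
    have hYle : X'.map (MulAut.conj g).toMonoidHom ≤ M := by
      rintro y ⟨x, hx, rfl⟩
      exact hconjM x hx
    have hYcard : Nat.card Y = Nat.card (X : Subgroup M) := by
      rw [hY, Nat.card_congr (Subgroup.subgroupOfEquivOfLe hYle).toEquiv,
        Subgroup.card_map_of_injective (MulAut.conj g).injective, hcardX']
    let Q : Sylow 2 M := Sylow.ofCard Y (by rw [hYcard, X.card_eq_multiplicity])
    obtain ⟨m, hm⟩ := MulAction.exists_smul_eq M X Q
    -- g⁻¹ m normalizes X'
    have hnorm : g⁻¹ * (m : S) ∈ Subgroup.normalizer (X' : Set S) := by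
      apply mem_normalizer_of_conj_mem
      intro x hx
      obtain ⟨y, hy, rfl⟩ := Subgroup.mem_map.mp hx
      have h1 : m * y * m⁻¹ ∈ (Q : Subgroup M) := by
        rw [← hm, Sylow.coe_subgroup_smul]
        have := Subgroup.smul_mem_pointwise_smul y (MulAut.conj m) (X : Subgroup M) hy
        simpa [MulAut.smul_def] using this
      have h2 : m * y * m⁻¹ ∈ Y := h1
      rw [hY, Subgroup.mem_subgroupOf] at h2
      obtain ⟨x₁, hx₁, hx₁e⟩ := Subgroup.mem_map.mp h2
      have h3 : g * x₁ * g⁻¹ = (m : S) * (y : S) * (m : S)⁻¹ := by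
        simpa using hx₁e
      have h4 : g⁻¹ * (m : S) * (M.subtype y) * (g⁻¹ * (m : S))⁻¹ = x₁ := by
        calc g⁻¹ * (m : S) * (M.subtype y) * (g⁻¹ * (m : S))⁻¹
            = g⁻¹ * ((m : S) * (y : S) * (m : S)⁻¹) * g := by simp [mul_assoc]
          _ = g⁻¹ * (g * x₁ * g⁻¹) * g := by rw [h3]
          _ = x₁ := by group
      rw [h4]; exact hx₁
    have h5 : g⁻¹ * (m : S) ∈ M := hN hnorm
    have h6 : g⁻¹ ∈ M := by
      have := M.mul_mem h5 (M.inv_mem m.2)
      simpa [mul_assoc] using this
    simpa using M.inv_mem h6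
  -- every involution of M is M-conjugate to I
  have hMconj : ∀ u : S, u ∈ M → orderOf u = 2 → ∃ h ∈ M, h * (I : S) * h⁻¹ = u := by
    intro u hu hu2
    obtain ⟨g, hg⟩ := isConj_iff.mp (part1 (I : S) u hI2S hu2)
    exact ⟨g, FC g (by rw [hg]; exact hu), hg⟩
  -- fusion control for all involutions of M
  have FC' : ∀ u : S, u ∈ M → orderOf u = 2 → ∀ g : S, g * u * g⁻¹ ∈ M → g ∈ M := by
    intro u hu hu2 g hg
    obtain ⟨h, hh, rfl⟩ := hMconj u hu hu2
    have h1 : (g * h) * (I : S) * (g * h)⁻¹ ∈ M := by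
      have : (g * h) * (I : S) * (g * h)⁻¹ = g * (h * (I : S) * h⁻¹) * g⁻¹ := by group
      rw [this]; exact hg
    have h2 := FC (g * h) h1
    have := M.mul_mem h2 (M.inv_mem hh)
    simpa [mul_assoc] using this
  constructor
  · -- all involutions of M are conjugate in M
    have hto : ∀ x : M, orderOf x = 2 → IsConj I x := by
      intro x hx
      have hxS : orderOf (x : S) = 2 := by rw [Subgroup.orderOf_coe]; exact hx
      obtain ⟨h, hh, he⟩ := hMconj x x.2 hxS
      rw [isConj_iff]
      exact ⟨⟨h, hh⟩, Subtype.ext (by simpa using he)⟩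
    intro x y hx hy
    exact (hto x hx).symm.trans (hto y hy)
  · -- M ≠ ⊤
    have hMtop : M ≠ ⊤ := by
      intro h
      rw [h, Subgroup.normalCore_eq_self] at hcore
      rw [h] at hM
      exact (Nat.not_even_iff_odd.mpr hcore) hM
    obtain ⟨g, hg⟩ : ∃ g : S, g ∉ M := by
      by_contra hall
      push Not at hall
      exact hMtop (eq_top_iff.mpr (fun x _ => hall x))
    set t : S := g * (I : S) * g⁻¹ with ht
    have ht2 : orderOf t = 2 := by rw [ht, orderOf_conj_eq]; exact hI2S
    have htt : t * t = 1 := invol_of_orderOf ht2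
    have htinv : t⁻¹ = t := invol_inv htt
    have htM : t ∉ M := fun h => hg (FC g h)
    -- s = t I t⁻¹
    set s : S := t * (I : S) * t⁻¹ with hs
    have hs2 : orderOf s = 2 := by rw [hs, orderOf_conj_eq]; exact hI2S
    have hss : s * s = 1 := invol_of_orderOf hs2
    have hsM : s ∉ M := fun h => htM (FC t h)
    -- D = M ⊓ t M t⁻¹
    set D : Subgroup S := M ⊓ M.map (MulAut.conj t).toMonoidHom with hD
    refine ⟨D.subgroupOf M, ?_, ?_⟩
    · -- D has odd order
      rw [Nat.card_congr (Subgroup.subgroupOfEquivOfLe (inf_le_left : D ≤ M)).toEquiv]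
      rw [← Nat.not_even_iff_odd]
      intro heven
      obtain ⟨j, hj⟩ := exists_prime_orderOf_dvd_card' (G := D) 2 (even_iff_two_dvd.mp heven)
      have hjS : orderOf (j : S) = 2 := by rw [Subgroup.orderOf_coe]; exact hj
      have hjD : (j : S) ∈ M ⊓ M.map (MulAut.conj t).toMonoidHom := j.2
      obtain ⟨hjM, hjt⟩ := Subgroup.mem_inf.mp hjD
      obtain ⟨m, hmM, hme⟩ := Subgroup.mem_map.mp hjt
      have hme' : t * m * t⁻¹ = (j : S) := by simpa using hme
      have hm2 : orderOf m = 2 := by
        rw [← orderOf_conj_eq t m, hme']; exact hjS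
      exact htM (FC' m hmM hm2 t (by rw [hme']; exact hjM))
    · intro m
      -- u = m I m⁻¹
      set u : S := (m : S) * (I : S) * (m : S)⁻¹ with hu
      have huM : u ∈ M := M.mul_mem (M.mul_mem m.2 I.2) (M.inv_mem m.2)
      have hu2 : orderOf u = 2 := by rw [hu, orderOf_conj_eq]; exact hI2S
      have huu : u * u = 1 := invol_of_orderOf hu2
      -- products with s have odd order
      have hodd : ∀ v : S, v ∈ M → orderOf v = 2 → Odd (orderOf (v * s)) := by
        intro v hv hv2
        rw [← Nat.not_even_iff_odd]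
        intro heven
        obtain ⟨z, hz2, hzv, hzs, -⟩ := exists_invol_commute_of_even (invol_of_orderOf hv2) hss
          (orderOf_pos _).ne' heven
        have hzM : z ∈ M := hC v hv hv2 (hmemC z v hzv)
        exact hsM (hC z hzM hz2 (hmemC s z hzs.symm))
      -- swapping involutions
      have hswap : ∀ v : S, v ∈ M → orderOf v = 2 →
          ∃ a : S, a * v * a⁻¹ = s ∧ t⁻¹ * a ∈ M ∧ a * t ∈ M := by
        intro v hv hv2
        obtain ⟨k, hk⟩ := hodd v hv hv2
        have hpow : (v * s) ^ (2 * k + 1) = 1 := by rw [← hk, pow_orderOf_eq_one]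
        obtain ⟨a, haa, hav, has⟩ := exists_swap_of_pow_eq_one (invol_of_orderOf hv2) hss k hpow
        refine ⟨a, hav, ?_, ?_⟩
        · apply FC' v hv hv2
          have : t⁻¹ * a * v * (t⁻¹ * a)⁻¹ = t⁻¹ * (a * v * a⁻¹) * t := by group
          rw [this, hav, hs]
          have : t⁻¹ * (t * (I : S) * t⁻¹) * t = (I : S) := by group
          rw [this]; exact I.2
        · apply FC
          have : a * t * (I : S) * (a * t)⁻¹ = a * (t * (I : S) * t⁻¹) * a⁻¹ := by group
          rw [this, ← hs, has]; exact hv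
      obtain ⟨a, hau, hta, hat⟩ := hswap u huM hu2
      obtain ⟨b, hbI, htb, hbt⟩ := hswap (I : S) I.2 hI2S
      -- d = b⁻¹ a
      set d : S := b⁻¹ * a with hd
      have hdM : d ∈ M := by
        have : d = (t⁻¹ * b)⁻¹ * (t⁻¹ * a) := by rw [hd]; group
        rw [this]; exact M.mul_mem (M.inv_mem htb) hta
      have hdt : d ∈ M.map (MulAut.conj t).toMonoidHom := by
        rw [Subgroup.mem_map]
        refine ⟨(b * t)⁻¹ * (a * t), M.mul_mem (M.inv_mem hbt) hat, ?_⟩
        show t * ((b * t)⁻¹ * (a * t)) * t⁻¹ = d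
        rw [hd]; group
      have hdD : d ∈ D := by rw [hD]; exact ⟨hdM, hdt⟩
      have hdu : d * u * d⁻¹ = (I : S) := by
        have : d * u * d⁻¹ = b⁻¹ * (a * u * a⁻¹) * b := by rw [hd]; group
        rw [this, hau, ← hbI]; group
      -- m = d⁻¹ * (d m)
      refine ⟨⟨d⁻¹, M.inv_mem hdM⟩, ?_, ⟨d, hdM⟩ * m, ?_, ?_⟩
      · rw [Subgroup.mem_subgroupOf]
        exact D.inv_mem hdD
      · rw [Subgroup.mem_centralizer_iff]
        intro h hh
        rw [Set.mem_singleton_iff] at hh
        rw [hh]
        apply Subtype.ext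
        show (I : S) * (d * (m : S)) = d * (m : S) * (I : S)
        have h1 : d * ((m : S) * (I : S) * (m : S)⁻¹) * d⁻¹ = (I : S) := hdu
        calc (I : S) * (d * (m : S)) = (d * ((m : S) * (I : S) * (m : S)⁻¹) * d⁻¹) * (d * (m : S)) := by rw [h1]
          _ = d * (m : S) * (I : S) := by group
      · apply Subtype.ext
        show (m : S) = d⁻¹ * (d * (m : S))
        group

end Cfsg.Agent.S1905
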