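import Cfsg.Statements.S1906
import Cfsg.Agent.H63.EigenBasis
import Cfsg.Agent.H63.CentralTransfer
import Cfsg.Agent.H3.Critical

set_option autoImplicit false
open Cfsg

namespace Cfsg.Agent.S1906

/-- Let G be a finite group with no subgroup of index 2 whose Sylow 2-subgroup X embeds in GL₃(F) for a finite field F of odd order. If X contains an elementary abelian subgroup of order 8, then X is abelian. -/
theorem result {G : Type*} [Group G] [Finite G] (hG : ∀ H : Subgroup G, H.index ≠ 2) (X : Sylow 2 G)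
    {F : Type*} [Field F] [Fintype F] (hF : Odd (Fintype.card F))
    (f : ↥(X : Subgroup G) →* GL (Fin 3) F) (hf : Function.Injective f)
    (E : Subgroup G) (hE : E ≤ (X : Subgroup G)) (hEa : Cfsg.IsElementaryAbelian 2 E) (hE8 : Nat.card E = 8) :
    IsMulCommutative (X : Subgroup G) := by
  classical
  have hp2 : Fact (Nat.Prime 2) := ⟨Nat.prime_two⟩
  have h2 : (2 : F) ≠ 0 := by
    intro h
    have hchar : ringChar F = 2 :=
      CharP.ringChar_of_prime_eq_zero Nat.prime_two (by exact_mod_cast h)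
    have := FiniteField.even_card_of_char_two hchar
    rcases hF with ⟨m, hm⟩
    omega
  have hneg1 : (-1 : Fˣ) ≠ 1 := by
    intro h
    have h' := congrArg Units.val h
    simp only [Units.val_neg, Units.val_one] at h'
    apply h2
    linear_combination -h'
  by_contra hX
  -- the representation
  obtain ⟨φ, hφval⟩ : ∃ φ : ↥(X : Subgroup G) →* Module.End F (Fin 3 → F), ∀ x, φ x =
      Matrix.toLinAlgEquiv' ((f x : GL (Fin 3) F) : Matrix (Fin 3) (Fin 3) F) :=
    ⟨((Matrix.toLinAlgEquiv' : Matrix (Fin 3) (Fin 3) F ≃ₐ[F] Module.End F (Fin 3 → F)) :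
        Matrix (Fin 3) (Fin 3) F →* Module.End F (Fin 3 → F)).comp
      ((Units.coeHom (Matrix (Fin 3) (Fin 3) F)).comp f), fun x => rfl⟩
  have hφ : Function.Injective φ := by
    intro x y hxy
    apply hf
    apply Units.ext
    rw [hφval, hφval] at hxy
    exact (Matrix.toLinAlgEquiv' :
      Matrix (Fin 3) (Fin 3) F ≃ₐ[F] Module.End F (Fin 3 → F)).injective hxy
  -- E inside X
  obtain ⟨E', hE'⟩ : ∃ E' : Subgroup ↥(X : Subgroup G), E' = E.subgroupOf (X : Subgroup G) :=
    ⟨_, rfl⟩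
  have hE'mem : ∀ x : ↥(X : Subgroup G), x ∈ E' ↔ (x : G) ∈ E := by
    intro x; rw [hE']; exact Subgroup.mem_subgroupOf
  have hE'8 : Nat.card E' = 8 := by
    rw [hE', ← hE8]
    exact Nat.card_congr (Subgroup.subgroupOfEquivOfLe hE).toEquiv
  have hE'c : ∀ g ∈ E', ∀ g' ∈ E', g * g' = g' * g := by
    intro g hg g' hg'
    rw [hE'mem] at hg hg'
    apply Subtype.ext
    have h1 := hEa.1.is_comm.comm ⟨(g : G), hg⟩ ⟨(g' : G), hg'⟩
    have h3 := congrArg Subtype.val h1
    exact h3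
  have hE'2 : ∀ g ∈ E', g * g = 1 := by
    intro g hg
    rw [hE'mem] at hg
    apply Subtype.ext
    have := hEa.2 (g : G) hg
    simpa [pow_two] using this
  have hV : Module.finrank F (Fin 3 → F) = 3 := by simp
  obtain ⟨⟨c, hcE, hc⟩, hZE, hab⟩ :=
    Cfsg.Agent.H63.EigenBasis.e8_structure h2 hV φ hφ E' hE'8 hE'c hE'2
  have hcc : ∀ x : ↥(X : Subgroup G), x * c = c * x := by
    intro x
    apply hφ
    rw [map_mul, map_mul, hc]
    exact (Commute.neg_one_right (φ x)).eq
  have hc2 : c * c = 1 := hE'2 c hcE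
  have hcZ : c ∈ Subgroup.center ↥(X : Subgroup G) := Subgroup.mem_center_iff.mpr (fun x => hcc x)
  have hfc : ((f c : GL (Fin 3) F) : Matrix (Fin 3) (Fin 3) F) = -1 := by
    apply (Matrix.toLinAlgEquiv' :
      Matrix (Fin 3) (Fin 3) F ≃ₐ[F] Module.End F (Fin 3 → F)).injective
    rw [← hφval, hc, map_neg, map_one]
  obtain ⟨lam, hlam⟩ : ∃ lam : ↥(X : Subgroup G) →* Fˣ,
      lam = Matrix.GeneralLinearGroup.det.comp f := ⟨_, rfl⟩
  have hlamc : lam c = -1 := by
    apply Units.ext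
    rw [hlam]
    show Matrix.det ((f c : GL (Fin 3) F) : Matrix (Fin 3) (Fin 3) F) = ((-1 : Fˣ) : F)
    rw [hfc, Matrix.det_neg, Matrix.det_one, Fintype.card_fin]
    norm_num
  have hcomm_ne : commutator ↥(X : Subgroup G) ≠ ⊥ := by
    intro hbot
    apply hX
    refine ⟨⟨fun x y => ?_⟩⟩
    have h3 : x * y * x⁻¹ * y⁻¹ ∈ commutator ↥(X : Subgroup G) := by
      rw [commutator_def]
      exact Subgroup.commutator_mem_commutator (Subgroup.mem_top x) (Subgroup.mem_top y)
    rw [hbot, Subgroup.mem_bot] at h3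
    have h4 : x * y * x⁻¹ = y := mul_inv_eq_one.mp h3
    exact mul_inv_eq_iff_eq_mul.mp h4
  have hEnc : ¬ ∀ g ∈ E', g ∈ Subgroup.center ↥(X : Subgroup G) := by
    intro h
    exact hX ⟨⟨fun x y => hab h x y⟩⟩
  obtain ⟨Z₁, hZ₁mem⟩ : ∃ Z₁ : Subgroup ↥(X : Subgroup G), ∀ t, t ∈ Z₁ ↔
      (t ∈ Subgroup.center ↥(X : Subgroup G) ∧ t * t = 1) :=
    ⟨{ carrier := {t | t ∈ Subgroup.center ↥(X : Subgroup G) ∧ t * t = 1}
       mul_mem' := by
         rintro s t ⟨hs, hs2⟩ ⟨ht, ht2⟩
         refine ⟨mul_mem hs ht, ?_⟩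
         have hst : t * s = s * t := Subgroup.mem_center_iff.mp hs t
         calc s * t * (s * t) = s * (t * s) * t := by group
           _ = s * (s * t) * t := by rw [hst]
           _ = (s * s) * (t * t) := by group
           _ = 1 := by rw [hs2, ht2, one_mul]
       one_mem' := ⟨one_mem _, one_mul 1⟩
       inv_mem' := by
         rintro s ⟨hs, hs2⟩
         have : s⁻¹ = s := inv_eq_of_mul_eq_one_left hs2
         rw [this]; exact ⟨hs, hs2⟩ }, fun t => Iff.rfl⟩
  have hZ₁E : Z₁ ≤ E' := fun t ht => hZE t ((hZ₁mem t).mp ht).1 ((hZ₁mem t).mp ht).2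
  have hZ₁ne : Z₁ ≠ E' := by
    intro h
    apply hEnc
    intro g hg
    rw [← h] at hg
    exact ((hZ₁mem g).mp hg).1
  obtain ⟨K, hK⟩ : ∃ K : Subgroup ↥(X : Subgroup G), K = Z₁ ⊓ lam.ker := ⟨_, rfl⟩
  obtain ⟨Y₀, hY₀⟩ : ∃ Y₀ : Subgroup ↥(X : Subgroup G),
      Y₀ = Z₁ ⊓ commutator ↥(X : Subgroup G) := ⟨_, rfl⟩
  have hY₀K : Y₀ ≤ K := by
    rw [hY₀, hK]
    exact inf_le_inf_left _ (Abelianization.commutator_subset_ker lam)
  have hKZ : K ≤ Z₁ := by rw [hK]; exact inf_le_left
  have hKne : K ≠ Z₁ := by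
    intro h
    have h1 : c ∈ K := by rw [h]; exact (hZ₁mem c).mpr ⟨hcZ, hc2⟩
    rw [hK] at h1
    have h3 : lam c = 1 := MonoidHom.mem_ker.mp h1.2
    rw [hlamc] at h3
    exact hneg1 h3
  have hY₀ne : Y₀ ≠ ⊥ := by
    obtain ⟨z₀, hz₀c, hz₀Z, hz₀1⟩ := Cfsg.Agent.H3.normal_inf_center_ne_bot X.2
      (commutator ↥(X : Subgroup G)) hcomm_ne
    obtain ⟨W, hW⟩ : ∃ W : Subgroup ↥(X : Subgroup G),
        W = commutator ↥(X : Subgroup G) ⊓ Subgroup.center ↥(X : Subgroup G) := ⟨_, rfl⟩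
    have hWne : W ≠ ⊥ := by
      intro h
      have : z₀ ∈ W := by rw [hW]; exact ⟨hz₀c, hz₀Z⟩
      rw [h, Subgroup.mem_bot] at this
      exact hz₀1 this
    have : Nontrivial ↥W := (Subgroup.nontrivial_iff_ne_bot W).mpr hWne
    obtain ⟨n, hn0, hn⟩ := (X.2.to_subgroup W).nontrivial_iff_card.mp inferInstance
    have hdvd : 2 ∣ Nat.card ↥W := by rw [hn]; exact dvd_pow_self 2 (by omega)
    obtain ⟨z, hz⟩ := exists_prime_orderOf_dvd_card' 2 hdvd
    have hzW : (z : ↥(X : Subgroup G)) ∈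
        commutator ↥(X : Subgroup G) ⊓ Subgroup.center ↥(X : Subgroup G) := by
      rw [← hW]; exact z.2
    have hz2 : (z : ↥(X : Subgroup G)) * (z : ↥(X : Subgroup G)) = 1 := by
      have h1 : z ^ 2 = 1 := by
        have h0 := pow_orderOf_eq_one z
        rwa [hz] at h0
      have h2' := congrArg Subtype.val h1
      simpa [pow_two] using h2'
    have hz1 : (z : ↥(X : Subgroup G)) ≠ 1 := by
      intro h
      have h1 : z = 1 := Subtype.ext h
      rw [h1, orderOf_one] at hz
      omega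
    intro hbot
    have : (z : ↥(X : Subgroup G)) ∈ Y₀ := by
      rw [hY₀]; exact ⟨(hZ₁mem _).mpr ⟨hzW.2, hz2⟩, hzW.1⟩
    rw [hbot, Subgroup.mem_bot] at this
    exact hz1 this
  have d1 : Nat.card Y₀ ∣ Nat.card K := Subgroup.card_dvd_of_le hY₀K
  have d2 : Nat.card K ∣ Nat.card Z₁ := Subgroup.card_dvd_of_le hKZ
  have d3 : Nat.card Z₁ ∣ 8 := hE'8 ▸ Subgroup.card_dvd_of_le hZ₁E
  have n1 : Nat.card K ≠ Nat.card Z₁ := fun h => hKne (Subgroup.eq_of_le_of_card_ge hKZ h.ge)
  have n2 : Nat.card Z₁ ≠ 8 := fun h =>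
    hZ₁ne (Subgroup.eq_of_le_of_card_ge hZ₁E (by rw [hE'8, h]))
  have n3 : Nat.card Y₀ ≠ 1 := fun h => hY₀ne (Subgroup.card_eq_one.mp h)
  have hYK : Y₀ = K := by
    apply Subgroup.eq_of_le_of_card_ge hY₀K
    have hc8 : Nat.card Z₁ ∈ Nat.divisors 8 := Nat.mem_divisors.mpr ⟨d3, by norm_num⟩
    have hdiv8 : Nat.divisors 8 = {1, 2, 4, 8} := by decide
    rw [hdiv8] at hc8
    simp only [Finset.mem_insert, Finset.mem_singleton] at hc8
    rcases hc8 with h | h | h | h
    · rw [h] at d2 n1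
      exact absurd (Nat.dvd_one.mp d2) n1
    · rw [h] at d2 n1
      have hb : Nat.card K = 1 := by
        rcases (Nat.dvd_prime Nat.prime_two).mp d2 with h' | h'
        · exact h'
        · exact absurd h' n1
      rw [hb] at d1
      exact absurd (Nat.dvd_one.mp d1) n3
    · rw [h] at d2 n1
      have hb : Nat.card K ∈ Nat.divisors 4 := Nat.mem_divisors.mpr ⟨d2, by norm_num⟩
      have hdiv4 : Nat.divisors 4 = {1, 2, 4} := by decide
      rw [hdiv4] at hb
      simp only [Finset.mem_insert, Finset.mem_singleton] at hb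
      rcases hb with hb | hb | hb
      · rw [hb] at d1
        exact absurd (Nat.dvd_one.mp d1) n3
      · rw [hb] at d1 ⊢
        rcases (Nat.dvd_prime Nat.prime_two).mp d1 with h' | h'
        · exact absurd h' n3
        · rw [h']
      · exact absurd hb n1
    · exact absurd h n2
  have hkey : ∀ t : ↥(X : Subgroup G), t ∈ Subgroup.center ↥(X : Subgroup G) → t * t = 1 →
      t ∉ commutator ↥(X : Subgroup G) → lam t = -1 := by
    intro t htZ ht2 htc
    have hsq : lam t * lam t = 1 := by rw [← map_mul, ht2, map_one]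
    have hne1 : lam t ≠ 1 := by
      intro h1
      have h3 : t ∈ K := by
        rw [hK]; exact ⟨(hZ₁mem t).mpr ⟨htZ, ht2⟩, MonoidHom.mem_ker.mpr h1⟩
      rw [← hYK, hY₀] at h3
      exact htc h3.2
    apply Units.ext
    have h3 : ((lam t : Fˣ) : F) * ((lam t : Fˣ) : F) = 1 := by
      have := congrArg Units.val hsq
      simpa using this
    have h4 : ((lam t : Fˣ) : F) ≠ 1 := fun h => hne1 (Units.ext h)
    have h5 : (((lam t : Fˣ) : F) - 1) * (((lam t : Fˣ) : F) + 1) = 0 := by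
      linear_combination h3
    rcases mul_eq_zero.mp h5 with h | h
    · exact absurd (sub_eq_zero.mp h) h4
    · simp only [Units.val_neg, Units.val_one]
      exact eq_neg_of_add_eq_zero_left h
  have hc_nc : c ∉ commutator ↥(X : Subgroup G) := by
    intro h
    have h3 : lam c = 1 := MonoidHom.mem_ker.mp (Abelianization.commutator_subset_ker lam h)
    rw [hlamc] at h3
    exact hneg1 h3
  have htr : MonoidHom.transfer lam (c : G) = -1 := by
    apply Cfsg.Agent.H63.CentralTransfer.transfer_central_involution X lam (c : G) c.2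
    · exact congrArg Subtype.val hc2
    · intro x hx
      exact congrArg Subtype.val (hcc ⟨x, hx⟩)
    · simp
    · intro k hk hmem
      obtain ⟨κ₀, hκ₀⟩ : ∃ κ₀ : ↥(X : Subgroup G) →* ↥(X : Subgroup G),
          ∀ x : ↥(X : Subgroup G), ((κ₀ x : ↥(X : Subgroup G)) : G) = k⁻¹ * (x : G) * k :=
        ⟨{ toFun := fun x => ⟨k⁻¹ * x * k, hk x x.2⟩
           map_one' := by apply Subtype.ext; simp
           map_mul' := by intro x y; apply Subtype.ext; simp [mul_assoc] }, fun x => rfl⟩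
      have hinj : Function.Injective κ₀ := by
        intro x y hxy
        have h' := congrArg Subtype.val hxy
        rw [hκ₀, hκ₀] at h'
        apply Subtype.ext
        simpa using h'
      obtain ⟨κ, hκ⟩ : ∃ κ : ↥(X : Subgroup G) ≃* ↥(X : Subgroup G), ∀ x, κ x = κ₀ x :=
        ⟨MulEquiv.ofBijective κ₀ ⟨hinj, Finite.surjective_of_injective hinj⟩, fun x => rfl⟩
      have hκc : κ c = ⟨k⁻¹ * c * k, hmem⟩ := by
        apply Subtype.ext
        rw [hκ, hκ₀]
      rw [← hκc]
      apply hkey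
      · exact Subgroup.characteristic_iff_le_comap.mp Subgroup.centerCharacteristic κ hcZ
      · rw [← map_mul, hc2, map_one]
      · intro h
        apply hc_nc
        have h' := Subgroup.characteristic_iff_le_comap.mp
          (inferInstance : (commutator ↥(X : Subgroup G)).Characteristic) κ.symm h
        simpa using h'
  -- a subgroup of index two
  obtain ⟨τ, hτ⟩ : ∃ τ : G →* Fˣ, τ = MonoidHom.transfer lam := ⟨_, rfl⟩
  rw [← hτ] at htr
  have hmem : (-1 : Fˣ) ∈ τ.range := ⟨c, htr⟩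
  have hQ : Even (Nat.card τ.range) := by
    have ho : orderOf (⟨-1, hmem⟩ : τ.range) = 2 := by
      apply orderOf_eq_prime
      · apply Subtype.ext; simp
      · intro h; exact hneg1 (congrArg Subtype.val h)
    have := orderOf_dvd_natCard (⟨-1, hmem⟩ : τ.range)
    rw [ho] at this
    exact even_iff_two_dvd.mpr this
  obtain ⟨H₀, hH₀⟩ : ∃ H₀ : Subgroup τ.range, H₀.index = 2 := by
    refine ⟨(powMonoidHom 2 : τ.range →* τ.range).range, ?_⟩
    rw [IsCyclic.index_powMonoidHom_range]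
    exact Nat.gcd_eq_right (even_iff_two_dvd.mp hQ)
  apply hG (H₀.comap τ.rangeRestrict)
  rw [Subgroup.index_comap_of_surjective _ τ.rangeRestrict_surjective]
  exact hH₀

end Cfsg.Agent.S1906
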