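import Cfsg.Statements.S1907
import Cfsg.Agent.H38.PiCore
import Cfsg.Agent.H38.CoprimeAction

set_option autoImplicit false
open Cfsg

namespace Cfsg.Agent.S1907

open Cfsg.Agent.H38

theorem result {G : Type*} [Group G] [Finite G] {p : ℕ} [Fact p.Prime] (P : Sylow p G) :
    (∀ y ∈ Subgroup.normalizer (((P : Subgroup G) ⊓ Cfsg.pPrimePCore p G : Subgroup G) : Set G), (∃ k : ℕ, orderOf y = p ^ k) →
      ∀ d ∈ Cfsg.pPrimeCore p G, d⁻¹ * y * d ∈ Subgroup.normalizer (((P : Subgroup G) ⊓ Cfsg.pPrimePCore p G : Subgroup G) : Set G) →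
        ∃ d₁ ∈ Cfsg.pPrimeCore p G ⊓ Subgroup.centralizer ({y} : Set G),
          ∃ d₂ ∈ Cfsg.pPrimeCore p G ⊓ Subgroup.centralizer (((P : Subgroup G) ⊓ Cfsg.pPrimePCore p G : Subgroup G) : Set G), d = d₁ * d₂) ∧
    ∀ x y : G, x ∈ (P : Subgroup G) → y ∈ (P : Subgroup G) → IsConj x y →
      ∃ n ∈ Subgroup.normalizer (((P : Subgroup G) ⊓ Cfsg.pPrimePCore p G : Subgroup G) : Set G), n * x * n⁻¹ = y := by
  classical
  have hp : p.Prime := Fact.out
  set D : Subgroup G := Cfsg.pPrimeCore p G with hD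
  set K : Subgroup G := Cfsg.pPrimePCore p G with hK
  set H : Subgroup G := (P : Subgroup G) ⊓ K with hH
  set N : Subgroup G := Subgroup.normalizer (H : Set G) with hN
  have hDn : D.Normal := inferInstance
  have hKn : K.Normal := by
    rw [hK]; unfold Cfsg.pPrimePCore; infer_instance
  have hDcop : ¬ p ∣ Nat.card D := by
    have := coprime_card_pPrimeCore (G := G) p
    rw [Nat.coprime_comm, hp.coprime_iff_not_dvd] at this
    exact this
  have hHp : IsPGroup p H := P.isPGroup'.to_inf_left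
  have hHD : H ⊓ D = ⊥ := inf_eq_bot_of_isPGroup_of_not_dvd H D hHp hDcop
  -- E = C_D(H)
  set E : Subgroup G := D ⊓ Subgroup.centralizer (H : Set G) with hE
  have hEcop : ¬ p ∣ Nat.card E := fun h =>
    hDcop (h.trans (Subgroup.card_dvd_of_le inf_le_left))
  -- N ⊓ D ≤ C(H)
  have hND : ∀ n : G, n ∈ N → n ∈ D → n ∈ E := by
    intro n hnN hnD
    refine Subgroup.mem_inf.mpr ⟨hnD, ?_⟩
    rw [Subgroup.mem_centralizer_iff]
    intro h hh
    have hh' : h ∈ H := hh
    have h1 : n * h * n⁻¹ ∈ H := (Subgroup.mem_normalizer_iff.mp hnN h).mp hh'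
    have h2 : n * h * n⁻¹ * h⁻¹ ∈ H := H.mul_mem h1 (H.inv_mem hh')
    have h3 : n * h * n⁻¹ * h⁻¹ ∈ D := by
      have : n * h * n⁻¹ * h⁻¹ = n * (h * n⁻¹ * h⁻¹) := by group
      rw [this]
      exact D.mul_mem hnD (hDn.conj_mem _ (D.inv_mem hnD) h)
    have h4 : n * h * n⁻¹ * h⁻¹ ∈ H ⊓ D := Subgroup.mem_inf.mpr ⟨h2, h3⟩
    rw [hHD, Subgroup.mem_bot] at h4
    calc h * n = (n * h * n⁻¹ * h⁻¹)⁻¹ * (n * h) := by group
      _ = n * h := by rw [h4]; group
  -- elements of N normalize E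
  have hNE : ∀ a ∈ N, ∀ e ∈ E, a * e * a⁻¹ ∈ E := by
    intro a ha e he
    obtain ⟨heD, heC⟩ := Subgroup.mem_inf.mp he
    refine Subgroup.mem_inf.mpr ⟨hDn.conj_mem e heD a, ?_⟩
    rw [Subgroup.mem_centralizer_iff]
    intro h hh
    have hh' : h ∈ H := hh
    have h1 : a⁻¹ * h * a ∈ H := by
      have := (Subgroup.mem_normalizer_iff.mp (N.inv_mem ha) h).mp hh'
      simpa using this
    have h2 := Subgroup.mem_centralizer_iff.mp heC (a⁻¹ * h * a) h1
    calc h * (a * e * a⁻¹) = a * ((a⁻¹ * h * a) * e) * a⁻¹ := by group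
      _ = a * (e * (a⁻¹ * h * a)) * a⁻¹ := by rw [h2]
      _ = a * e * a⁻¹ * h := by group
  -- part (a)
  have partA : ∀ y ∈ N, (∃ k : ℕ, orderOf y = p ^ k) → ∀ d ∈ D, d⁻¹ * y * d ∈ N →
      ∃ d₁ ∈ D ⊓ Subgroup.centralizer ({y} : Set G), ∃ d₂ ∈ E, d = d₁ * d₂ := by
    intro y hy ⟨k, hk⟩ d hd hyd
    set A : Subgroup G := Subgroup.zpowers y with hA
    have hAp : IsPGroup p A := IsPGroup.of_card (n := k) (by rw [hA, Nat.card_zpowers, hk])
    have hAN : A ≤ N := by rw [hA, Subgroup.zpowers_le]; exact hy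
    have hdA : ∀ a ∈ A, d⁻¹ * a * d * a⁻¹ ∈ E := by
      intro a ha
      apply hND
      · apply N.mul_mem _ (N.inv_mem (hAN ha))
        obtain ⟨j, rfl⟩ := Subgroup.mem_zpowers_iff.mp ha
        have : d⁻¹ * y ^ j * d = (d⁻¹ * y * d) ^ j := by
          have := conj_zpow (a := d⁻¹) (b := y) (i := j)
          rw [inv_inv] at this
          exact this.symm
        rw [this]
        exact N.zpow_mem hyd j
      · have : d⁻¹ * a * d * a⁻¹ = d⁻¹ * (a * d * a⁻¹) := by group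
        rw [this]
        exact D.mul_mem (D.inv_mem hd) (hDn.conj_mem d hd a)
    obtain ⟨e, he, hfix⟩ := exists_fixed_in_coset A E hAp hEcop (fun a ha e he => hNE a (hAN ha) e he) d hdA
    refine ⟨d * e, ?_, e⁻¹, E.inv_mem he, by group⟩
    refine Subgroup.mem_inf.mpr ⟨D.mul_mem hd (Subgroup.mem_inf.mp he).1, ?_⟩
    rw [Subgroup.mem_centralizer_iff]
    intro h hh
    rw [Set.mem_singleton_iff] at hh
    rw [hh]
    have := hfix y (Subgroup.mem_zpowers y)
    calc y * (d * e) = (y * (d * e) * y⁻¹) * y := by group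
      _ = d * e * y := by rw [this]
  refine ⟨fun y hy hk d hd hyd => partA y hy hk d hd hyd, ?_⟩
  -- part (b)
  -- H has index prime to p in K
  have hrel : ¬ p ∣ H.relIndex K := by
    have h1 : H.relIndex K = (P : Subgroup G).relIndex K := Subgroup.inf_relIndex_right _ _
    have h2 : ((P : Subgroup G) ⊓ K).relIndex ((P : Subgroup G) ⊔ K) =
        ((P : Subgroup G) ⊓ K).relIndex K * K.relIndex ((P : Subgroup G) ⊔ K) :=
      (Subgroup.relIndex_mul_relIndex _ _ _ inf_le_right le_sup_right).symm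
    have h3 : ((P : Subgroup G) ⊓ K).relIndex ((P : Subgroup G) ⊔ K) =
        ((P : Subgroup G) ⊓ K).relIndex (P : Subgroup G) * (P : Subgroup G).relIndex ((P : Subgroup G) ⊔ K) :=
      (Subgroup.relIndex_mul_relIndex _ _ _ inf_le_left le_sup_left).symm
    have h4 : K.relIndex ((P : Subgroup G) ⊔ K) = K.relIndex (P : Subgroup G) := Subgroup.relIndex_sup_right _ _
    have h5 : ((P : Subgroup G) ⊓ K).relIndex (P : Subgroup G) = K.relIndex (P : Subgroup G) :=
      Subgroup.inf_relIndex_left _ _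
    have h6 : K.relIndex (P : Subgroup G) ≠ 0 := by
      intro h0
      have := Subgroup.relIndex_dvd_card K (P : Subgroup G)
      rw [h0, zero_dvd_iff] at this
      exact Nat.card_pos.ne' this
    have h7 : ((P : Subgroup G) ⊓ K).relIndex K = (P : Subgroup G).relIndex ((P : Subgroup G) ⊔ K) := by
      rw [h2, h4, h5] at h3
      rw [mul_comm] at h3
      exact Nat.eq_of_mul_eq_mul_left (Nat.pos_of_ne_zero h6) h3
    have h8 : (P : Subgroup G).relIndex ((P : Subgroup G) ⊔ K) ∣ (P : Subgroup G).index :=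
      Subgroup.relIndex_dvd_index_of_le le_sup_left
    intro hdvd
    rw [hH, h7] at hdvd
    exact P.not_dvd_index (hdvd.trans h8)
  have hHK : H ≤ K := inf_le_right
  have hDK : D ≤ K := by
    intro x hx
    rw [hK]; unfold Cfsg.pPrimePCore
    rw [Subgroup.mem_comap]
    have : (QuotientGroup.mk' (Cfsg.pPrimeCore p G)) x = 1 := (QuotientGroup.eq_one_iff x).mpr hx
    rw [this]; exact Subgroup.one_mem _
  -- K = H ⊔ D
  have hKHD : K ≤ H ⊔ D := by
    rw [← Subgroup.relIndex_eq_one]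
    have h1 : (H ⊔ D).relIndex K ∣ H.relIndex K := Subgroup.relIndex_dvd_of_le_left K le_sup_left
    have h2 : (H ⊔ D).relIndex K ∣ D.relIndex K := Subgroup.relIndex_dvd_of_le_left K le_sup_right
    have h3 : ∃ a : ℕ, D.relIndex K = p ^ a := by
      have hker : (QuotientGroup.mk' D).ker = D := QuotientGroup.ker_mk' D
      have h4 : D.relIndex K = Nat.card (K.map (QuotientGroup.mk' D)) := by
        conv_lhs => rw [← hker]
        exact Subgroup.relIndex_ker _ _
      have h5 : K.map (QuotientGroup.mk' D) = Cfsg.pCore p (G ⧸ D) := by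
        rw [hK]; unfold Cfsg.pPrimePCore
        exact Subgroup.map_comap_eq_self_of_surjective (QuotientGroup.mk'_surjective _) _
      rw [h4, h5]
      exact IsPGroup.iff_card.mp (isPGroup_pCore p)
    obtain ⟨a, ha⟩ := h3
    rw [ha] at h2
    obtain ⟨j, -, hj⟩ := (Nat.dvd_prime_pow hp).mp h2
    rcases Nat.eq_zero_or_pos j with rfl | hjpos
    · rw [hj, pow_zero]
    · exfalso
      apply hrel
      rw [hj] at h1
      exact (dvd_pow_self p hjpos.ne').trans h1
  -- Frattini: N ⊔ K = ⊤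
  have hfrat : N ⊔ K = ⊤ := by
    have hidx : ¬ p ∣ (H.subgroupOf K).index := hrel
    have hHKp : IsPGroup p (H.subgroupOf K) := hHp.comap_of_injective K.subtype (Subgroup.subtype_injective K)
    let Q : Sylow p K := hHKp.toSylow hidx
    have h1 := Sylow.normalizer_sup_eq_top Q
    have h2 : ((Q : Subgroup K).map K.subtype) = H := by
      show (H.subgroupOf K).map K.subtype = H
      exact Subgroup.map_subgroupOf_eq_of_le hHK
    rw [h2] at h1
    exact h1
  -- P ≤ N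
  have hPN : (P : Subgroup G) ≤ N := by
    intro g hg
    rw [hN, Subgroup.mem_normalizer_iff]
    intro h
    rw [hH, Subgroup.mem_inf, Subgroup.mem_inf]
    constructor
    · rintro ⟨h1, h2⟩
      exact ⟨(P : Subgroup G).mul_mem ((P : Subgroup G).mul_mem hg h1) ((P : Subgroup G).inv_mem hg),
        hKn.conj_mem h h2 g⟩
    · rintro ⟨h1, h2⟩
      refine ⟨?_, ?_⟩
      · have := (P : Subgroup G).mul_mem ((P : Subgroup G).mul_mem ((P : Subgroup G).inv_mem hg) h1) hg
        have e : g⁻¹ * (g * h * g⁻¹) * g = h := by group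
        rwa [e] at this
      · have := hKn.conj_mem _ h2 g⁻¹
        have e : g⁻¹ * (g * h * g⁻¹) * g⁻¹⁻¹ = h := by group
        rwa [e] at this
  have hHN : H ≤ N := (inf_le_left : H ≤ (P : Subgroup G)).trans hPN
  have hEN : E ≤ N := by
    intro e he
    rw [hN, Subgroup.mem_normalizer_iff]
    intro h
    have hc := Subgroup.mem_centralizer_iff.mp (Subgroup.mem_inf.mp he).2
    constructor
    · intro hh
      have : e * h * e⁻¹ = h := by
        have := hc h hh
        calc e * h * e⁻¹ = (h * e) * e⁻¹ := by rw [this]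
          _ = h := by group
      rw [this]; exact hh
    · intro hh
      have h1 := hc (e * h * e⁻¹) hh
      have : h = e * h * e⁻¹ := by
        calc h = e⁻¹ * ((e * h * e⁻¹) * e) := by group
          _ = e⁻¹ * (e * (e * h * e⁻¹)) := by rw [h1]
          _ = e * h * e⁻¹ := by group
      rw [this]; exact hh
  intro x y hx hy hxy
  obtain ⟨g, hg⟩ := isConj_iff.mp hxy
  -- g = n * k with n ∈ N, k ∈ K; k = h * d
  have hgmem : g ∈ N ⊔ K := by rw [hfrat]; trivial
  rw [← SetLike.mem_coe, Subgroup.mul_normal] at hgmem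
  obtain ⟨n, hn, k, hk, rfl⟩ := hgmem
  have hkmem : k ∈ H ⊔ D := hKHD hk
  rw [← SetLike.mem_coe, Subgroup.mul_normal] at hkmem
  obtain ⟨h, hh, d, hd, rfl⟩ := hkmem
  set n' : G := n * h with hn'
  have hn'N : n' ∈ N := N.mul_mem hn (hHN hh)
  -- y₁ = n'⁻¹ y n' = d x d⁻¹
  set y₁ : G := n'⁻¹ * y * n' with hy₁
  have hy₁N : y₁ ∈ N := N.mul_mem (N.mul_mem (N.inv_mem hn'N) (hPN hy)) hn'N
  have hy₁x : y₁ = d * x * d⁻¹ := by
    rw [hy₁, ← hg, hn']; group
  have hy₁ord : ∃ k : ℕ, orderOf y₁ = p ^ k := by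
    obtain ⟨k, hk⟩ := (IsPGroup.iff_orderOf.mp P.isPGroup') ⟨y, hy⟩
    refine ⟨k, ?_⟩
    have h1 : orderOf y₁ = orderOf y := by
      have := (MulAut.conj n'⁻¹).orderOf_eq y
      rw [MulAut.conj_apply, inv_inv] at this
      exact this
    rw [h1, ← hk, Subgroup.orderOf_mk]
  have hdx : d⁻¹ * y₁ * d ∈ N := by
    have : d⁻¹ * y₁ * d = x := by rw [hy₁x]; group
    rw [this]; exact hPN hx
  obtain ⟨d₁, hd₁, d₂, hd₂, hdd⟩ := partA y₁ hy₁N hy₁ord d hd hdx
  have hd₁c : d₁ * y₁ = y₁ * d₁ := by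
    have := Subgroup.mem_centralizer_iff.mp (Subgroup.mem_inf.mp hd₁).2 y₁ rfl
    exact this.symm
  refine ⟨n' * d₂, N.mul_mem hn'N (hEN hd₂), ?_⟩
  -- y₁ = d₂ x d₂⁻¹
  have h1 : y₁ = d₂ * x * d₂⁻¹ := by
    have h2 : d₁⁻¹ * y₁ * d₁ = y₁ := by
      calc d₁⁻¹ * y₁ * d₁ = d₁⁻¹ * (y₁ * d₁) := by group
        _ = d₁⁻¹ * (d₁ * y₁) := by rw [hd₁c]
        _ = y₁ := by group
    have h3 : x = d₂⁻¹ * (d₁⁻¹ * y₁ * d₁) * d₂ := by
      rw [hy₁x, hdd]; group
    rw [h2] at h3
    rw [h3]; group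
  calc n' * d₂ * x * (n' * d₂)⁻¹ = n' * (d₂ * x * d₂⁻¹) * n'⁻¹ := by group
    _ = n' * y₁ * n'⁻¹ := by rw [← h1]
    _ = y := by rw [hy₁]; group

end Cfsg.Agent.S1907
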