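import Cfsg.Statements.S1924
import Cfsg.Agent.H38.SignTransfer
import Cfsg.Agent.H53.PRes

set_option autoImplicit false
open Cfsg

namespace Cfsg.Agent.S1924

theorem result {G : Type*} [Group G] [Finite G] (L T S D C : Subgroup G) (hL : Cfsg.pResidual 2 ↥L = ⊤)
    (hTL : T ≤ L) (hT2 : IsPGroup 2 T) (hTsyl : ¬ 2 ∣ T.relIndex L)
    (hS2 : IsPGroup 2 S) (hSsyl : ¬ 2 ∣ S.index) (hTS : T ≤ S)
    (hDS : D ≤ S) (hDih : ∃ n : ℕ, 2 ≤ n ∧ Nonempty (↥D ≃* DihedralGroup n)) (hDT : D ⊓ T = ⊥) (hTD : T ⊔ D = S) (hTDc : Nat.card T * Nat.card D = Nat.card S)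
    (hCD : C ≤ D) (hC : IsCyclic ↥C) (hCi : C.relIndex D = 2)
    (h1 : ∀ x ∈ D, x ∉ C → orderOf x = 2 → ∀ g : G, g * x * g⁻¹ ∈ T ⊔ C → False)
    (h2 : ∀ c ∈ C, orderOf c = 2 → ∀ g : G, g * c * g⁻¹ ∈ T → False) :
    ∃ K : Subgroup G, K.Normal ∧ K ⊔ D = ⊤ ∧
      ∀ T' : Subgroup G, T' ≤ L → IsPGroup 2 T' → ¬ 2 ∣ T'.relIndex L → T' ≤ K ∧ ¬ 2 ∣ T'.relIndex K := by
  classical
  haveI : Fact (Nat.Prime 2) := ⟨Nat.prime_two⟩
  set K : Subgroup G := pResidual 2 G with hKdef
  haveI hKn : K.Normal := Cfsg.Agent.H53.pResidual_normal 2 G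
  have hLK : L ≤ K := by
    have h := Cfsg.Agent.H53.map_pResidual_subtype_le 2 L
    rw [hL, ← MonoidHom.range_eq_map, Subgroup.range_subtype] at h
    exact h
  have hTK : T ≤ K := hTL.trans hLK
  have rmc : ∀ (H M : Subgroup G), H ≤ M → H.relIndex M * Nat.card H = Nat.card M := by
    intro H M h
    have := Subgroup.relIndex_mul_relIndex ⊥ H M bot_le h
    rw [Subgroup.relIndex_bot_left, Subgroup.relIndex_bot_left] at this
    rw [mul_comm]; exact this
  have rne : ∀ (H M : Subgroup G), H ≤ M → H.relIndex M ≠ 0 := by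
    intro H M h h0
    have := rmc H M h
    rw [h0, zero_mul] at this
    exact (Nat.card_pos (α := ↥M)).ne' this.symm
  let P : Sylow 2 G := hS2.toSylow hSsyl
  have hP : (P : Subgroup G) = S := IsPGroup.toSylow_coe hS2 hSsyl
  have hSK : ¬ 2 ∣ S.relIndex K := by
    obtain ⟨Q, hQ⟩ := Cfsg.Agent.H53.sylow_subgroupOf_normal K P
    have h := Q.not_dvd_index
    rw [hQ, hP] at h
    exact h
  have hSKodd : Odd (S.relIndex K) := by
    rw [Nat.odd_iff]
    rcases Nat.mod_two_eq_zero_or_one (S.relIndex K) with h | h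
    · exact absurd (Nat.dvd_of_mod_eq_zero h) hSK
    · exact h
  -- trivial intersection in the form we use
  have hTDbot : ∀ t ∈ T, ∀ d ∈ D, t = d → t = 1 := by
    intro t ht d hd htd
    have : t ∈ D ⊓ T := ⟨by rw [htd]; exact hd, ht⟩
    rw [hDT] at this
    exact this
  have hinj : ∀ t ∈ T, ∀ d ∈ D, ∀ t' ∈ T, ∀ d' ∈ D, t * d = t' * d' → t = t' ∧ d = d' := by
    intro t ht d hd t' ht' d' hd' h
    have h3 : t'⁻¹ * t = d' * d⁻¹ := by
      rw [eq_mul_inv_iff_mul_eq, mul_assoc, h, inv_mul_cancel_left]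
    have h4 := hTDbot (t'⁻¹ * t) (T.mul_mem (T.inv_mem ht') ht) (d' * d⁻¹)
      (D.mul_mem hd' (D.inv_mem hd)) h3
    have h5 : t = t' := by
      rw [inv_mul_eq_one] at h4; exact h4.symm
    refine ⟨h5, ?_⟩
    rw [h5] at h
    exact mul_left_cancel h
  -- the set-product decomposition `S = T D`
  have hdecomp : ∀ s ∈ S, ∃ t ∈ T, ∃ d ∈ D, s = t * d := by
    let φ : T × D → S := fun p => ⟨(p.1 : G) * (p.2 : G), S.mul_mem (hTS p.1.2) (hDS p.2.2)⟩
    have hφinj : Function.Injective φ := by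
      rintro ⟨⟨t, ht⟩, ⟨d, hd⟩⟩ ⟨⟨t', ht'⟩, ⟨d', hd'⟩⟩ h
      have h' : t * d = t' * d' := congrArg Subtype.val h
      obtain ⟨e1, e2⟩ := hinj t ht d hd t' ht' d' hd' h'
      subst e1; subst e2; rfl
    have hφbij : Function.Bijective φ := by
      apply hφinj.bijective_of_nat_card_le
      rw [Nat.card_prod, hTDc]
    intro s hs
    obtain ⟨⟨⟨t, ht⟩, ⟨d, hd⟩⟩, hp⟩ := hφbij.2 ⟨s, hs⟩
    exact ⟨t, ht, d, hd, (congrArg Subtype.val hp).symm⟩
  have hcardSK : Nat.card ↥(S ⊓ K) = Nat.card T * Nat.card ↥(D ⊓ K) := by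
    let ψ : T × ↥(D ⊓ K) → ↥(S ⊓ K) := fun p =>
      ⟨(p.1 : G) * (p.2 : G), S.mul_mem (hTS p.1.2) (hDS p.2.2.1), K.mul_mem (hTK p.1.2) p.2.2.2⟩
    have hψ : Function.Bijective ψ := by
      constructor
      · rintro ⟨⟨t, ht⟩, ⟨d, hd⟩⟩ ⟨⟨t', ht'⟩, ⟨d', hd'⟩⟩ h
        have h' : t * d = t' * d' := congrArg Subtype.val h
        obtain ⟨e1, e2⟩ := hinj t ht d hd.1 t' ht' d' hd'.1 h'
        subst e1; subst e2; rfl
      · rintro ⟨s, hsS, hsK⟩
        obtain ⟨t, ht, d, hd, rfl⟩ := hdecomp s hsS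
        have hdK : d ∈ K := by
          have := K.mul_mem (K.inv_mem (hTK ht)) hsK
          rwa [inv_mul_cancel_left] at this
        exact ⟨⟨⟨t, ht⟩, ⟨d, hd, hdK⟩⟩, rfl⟩
    rw [← Nat.card_prod]
    exact (Nat.card_eq_of_bijective ψ hψ).symm
  have hTrel : T.relIndex K = Nat.card ↥(D ⊓ K) * S.relIndex K := by
    have e1 := Subgroup.relIndex_mul_relIndex T (S ⊓ K) K (le_inf hTS hTK) inf_le_right
    have e2 : T.relIndex (S ⊓ K) * Nat.card T = Nat.card ↥(S ⊓ K) :=
      rmc _ _ (le_inf hTS hTK)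
    have e3 : T.relIndex (S ⊓ K) = Nat.card ↥(D ⊓ K) := by
      rw [hcardSK, mul_comm] at e2
      exact Nat.eq_of_mul_eq_mul_left Nat.card_pos e2
    rw [← e1, e3, Subgroup.inf_relIndex_right]
  -- elements of `D` outside `C` are involutions
  have hinv : ∀ x ∈ D, x ∉ C → orderOf x = 2 := by
    obtain ⟨n, hn, ⟨e⟩⟩ := hDih
    intro x hxD hxC
    let C' : Subgroup (DihedralGroup n) := (C.subgroupOf D).map e.toMonoidHom
    have f : ↥C ≃* ↥C' :=
      (Subgroup.subgroupOfEquivOfLe hCD).symm.trans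
        (Subgroup.equivMapOfInjective _ e.toMonoidHom e.injective)
    have hC' : IsCyclic ↥C' := isCyclic_of_surjective f.toMonoidHom f.surjective
    have hidx : C'.index = 2 := by
      have : C'.index = (C.subgroupOf D).index := Subgroup.index_map_equiv _ e
      rw [this]; exact hCi
    have hx' : e ⟨x, hxD⟩ ∉ C' := by
      rintro ⟨y, hy, hye⟩
      have : y = ⟨x, hxD⟩ := e.injective hye
      rw [this] at hy
      exact hxC (Subgroup.mem_subgroupOf.mp hy)
    have h := Cfsg.Agent.H38.dihedral_orderOf_eq_two_of_not_mem hn C' hC' hidx _ hx'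
    rw [MulEquiv.orderOf_eq] at h
    rw [← h]
    exact (Subgroup.orderOf_mk x hxD).symm
  have hDK : D ⊓ K = ⊥ := by
    by_contra hne
    by_cases hcase : D ⊓ K ≤ C
    · -- the cyclic case
      haveI : IsCyclic ↥C := hC
      haveI : IsCyclic ↥(D ⊓ K) := Subgroup.isCyclic_of_le hcase
      obtain ⟨γ, hγ⟩ := IsCyclic.exists_generator (α := ↥(D ⊓ K))
      have hordγ : orderOf γ = Nat.card ↥(D ⊓ K) := orderOf_eq_card_of_forall_mem_zpowers hγ
      obtain ⟨m, hm⟩ := IsPGroup.iff_card.mp (hS2.to_le (inf_le_left.trans hDS : D ⊓ K ≤ S))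
      have hm1 : 1 ≤ m := by
        rcases Nat.eq_zero_or_pos m with h0 | h0
        · exfalso
          rw [h0, pow_zero] at hm
          exact hne (Subgroup.card_eq_one.mp hm)
        · exact h0
      have hc₀ord : orderOf (γ : G) = 2 ^ m := by
        rw [Subgroup.orderOf_coe, hordγ, hm]
      have hzC : (γ : G) ^ 2 ^ (m - 1) ∈ C := hcase ((D ⊓ K).pow_mem γ.2 _)
      have hpm : (2 : ℕ) ^ (m - 1) * 2 = 2 ^ m := by
        rw [← pow_succ]; congr 1; omega
      have hzord : orderOf ((γ : G) ^ 2 ^ (m - 1)) = 2 := by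
        apply orderOf_eq_prime
        · rw [← pow_mul, hpm, ← hc₀ord]; exact pow_orderOf_eq_one _
        · apply pow_ne_one_of_lt_orderOf (by positivity)
          rw [hc₀ord]
          exact Nat.pow_lt_pow_right (by norm_num) (by omega)
      have hnot := Cfsg.Agent.H38.not_mem_pResidual_of_semiregular (G := ↥K) (T.subgroupOf K)
        ⟨(γ : G), γ.2.2⟩ m (S.relIndex K) hm1
        (by
          apply Subtype.ext
          rw [Subgroup.coe_pow, Subgroup.coe_one]
          show (γ : G) ^ 2 ^ m = 1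
          rw [← hc₀ord]; exact pow_orderOf_eq_one _)
        (by
          intro g hg
          rw [Subgroup.mem_subgroupOf] at hg
          apply h2 _ hzC hzord (g : G)⁻¹
          simpa using hg)
        (by
          show T.relIndex K = _
          rw [hTrel, hm])
        hSKodd
      apply hnot
      have htop : pResidual 2 ↥K = ⊤ := Cfsg.Agent.H53.pResidual_pResidual 2 G
      rw [htop]; exact Subgroup.mem_top _
    · -- an involution of `D` outside `C` in `K`
      obtain ⟨x, hx, hxC⟩ := SetLike.not_le_iff_exists.mp hcase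
      have hxD : x ∈ D := hx.1
      have hxK : x ∈ K := hx.2
      have hord := hinv x hxD hxC
      have hxTC : x ∉ T ⊔ C := by
        intro h
        exact h1 x hxD hxC hord 1 (by simpa using h)
      have hTCS : T ⊔ C ≤ S := sup_le hTS (hCD.trans hDS)
      have hrel : (T ⊔ C).relIndex S = 2 := by
        have e1 : (T ⊔ C).relIndex S * Nat.card ↥(T ⊔ C) = Nat.card S :=
          rmc _ _ hTCS
        have e2 : C.relIndex D * Nat.card C = Nat.card D := rmc _ _ hCD
        have e3 : T.relIndex (T ⊔ C) * Nat.card T = Nat.card ↥(T ⊔ C) :=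
          rmc _ _ le_sup_left
        have e4 : T.relIndex C ≤ T.relIndex (T ⊔ C) :=
          Subgroup.relIndex_le_of_le_right le_sup_right (rne _ _ le_sup_left)
        have e5 : T.relIndex C = Nat.card C := by
          have hbot : T ⊓ C = ⊥ := by
            rw [eq_bot_iff, ← hDT]
            exact le_inf (inf_le_right.trans hCD) inf_le_left
          rw [← Subgroup.inf_relIndex_right, hbot, Subgroup.relIndex_bot_left]
        have e6 : (T ⊔ C).relIndex S ≠ 1 := by
          intro h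
          rw [Subgroup.relIndex_eq_one] at h
          exact hxTC (h (hDS hxD))
        have e7 : (T ⊔ C).relIndex S ≠ 0 := rne _ _ hTCS
        have hTpos : 0 < Nat.card T := Nat.card_pos
        have hCpos : 0 < Nat.card C := Nat.card_pos
        rw [hCi] at e2
        rw [← hTDc, ← e2, ← e3] at e1
        rw [e5] at e4
        -- r * (q * |T|) = |T| * (2 * |C|), |C| ≤ q
        set r := (T ⊔ C).relIndex S
        set q := T.relIndex (T ⊔ C)
        have e8 : r * (Nat.card C * Nat.card T) ≤ 2 * (Nat.card C * Nat.card T) := by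
          calc r * (Nat.card C * Nat.card T) ≤ r * (q * Nat.card T) :=
                Nat.mul_le_mul_left _ (Nat.mul_le_mul_right _ e4)
            _ = Nat.card T * (2 * Nat.card C) := e1
            _ = 2 * (Nat.card C * Nat.card T) := by ring
        have e9 : r ≤ 2 := Nat.le_of_mul_le_mul_right e8 (Nat.mul_pos hCpos hTpos)
        omega
      have hidx : (T ⊔ C).index = 2 ^ 1 * S.index := by
        rw [← Subgroup.relIndex_mul_index hTCS, hrel, pow_one]
      have hSodd : Odd S.index := by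
        rw [Nat.odd_iff]
        rcases Nat.mod_two_eq_zero_or_one S.index with h | h
        · exact absurd (Nat.dvd_of_mod_eq_zero h) hSsyl
        · exact h
      have hnot := Cfsg.Agent.H38.not_mem_pResidual_of_semiregular (T ⊔ C) x 1 S.index le_rfl
        (by rw [pow_one, ← hord]; exact pow_orderOf_eq_one x)
        (by
          intro g hg
          apply h1 x hxD hxC hord g⁻¹
          simpa using hg)
        hidx hSodd
      exact hnot hxK
  refine ⟨K, hKn, ?_, ?_⟩
  · have h := Cfsg.Agent.H53.pResidual_sup_sylow P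
    rw [hP, ← hTD] at h
    rw [eq_top_iff, ← h]
    exact sup_le le_sup_left (sup_le (hTK.trans le_sup_left) le_sup_right)
  · intro T' hT'L hT'2 hT'syl
    have hT'K : T' ≤ K := hT'L.trans hLK
    refine ⟨hT'K, ?_⟩
    have key : ∀ a b u v : ℕ, ¬ 2 ∣ u → ¬ 2 ∣ v → u * 2 ^ a = v * 2 ^ b → a ≤ b := by
      intro a b u v hu hv h
      have hdvd : 2 ^ a ∣ v * 2 ^ b := ⟨u, by rw [← h, mul_comm]⟩
      have hcop : Nat.Coprime (2 ^ a) v :=
        Nat.Coprime.pow_left a ((Nat.Prime.coprime_iff_not_dvd Nat.prime_two).mpr hv)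
      have := hcop.dvd_of_dvd_mul_left hdvd
      exact (Nat.pow_dvd_pow_iff_le_right (by norm_num)).mp this
    obtain ⟨a, ha⟩ := IsPGroup.iff_card.mp hT2
    obtain ⟨b, hb⟩ := IsPGroup.iff_card.mp hT'2
    have e1 : T.relIndex L * Nat.card T = Nat.card L := rmc _ _ hTL
    have e2 : T'.relIndex L * Nat.card T' = Nat.card L := rmc _ _ hT'L
    have hab : a = b := by
      rw [ha] at e1; rw [hb] at e2
      exact le_antisymm (key a b _ _ hTsyl hT'syl (e1.trans e2.symm))
        (key b a _ _ hT'syl hTsyl (e2.trans e1.symm))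
    have hcardeq : Nat.card T' = Nat.card T := by rw [ha, hb, hab]
    have e3 : T.relIndex K * Nat.card T = Nat.card K := rmc _ _ hTK
    have e4 : T'.relIndex K * Nat.card T' = Nat.card K := rmc _ _ hT'K
    have e5 : T'.relIndex K = T.relIndex K := by
      rw [hcardeq, ← e3] at e4
      exact Nat.eq_of_mul_eq_mul_right Nat.card_pos e4
    rw [e5, hTrel, hDK, Subgroup.card_bot, one_mul]
    exact hSK

end Cfsg.Agent.S1924
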