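import Cfsg.Statements.S1939
import Cfsg.Agent.H39.Basic

set_option autoImplicit false
open Cfsg

namespace Cfsg.Agent.S1939

/-- Let S be a Sylow p-subgroup of the finite group G and a an element of S that is the only G-conjugate of a lying in S. Then every power of a has the same property: for every n, the only G-conjugate of a^n lying in S is a^n. -/
theorem result {G : Type*} [Group G] [Finite G] {p : ℕ} [Fact p.Prime] (S : Sylow p G) (a : G)
    (haS : a ∈ (S : Subgroup G)) (hwc : ∀ g : G, g * a * g⁻¹ ∈ (S : Subgroup G) → g * a * g⁻¹ = a) (n : ℕ) :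
    ∀ g : G, g * a ^ n * g⁻¹ ∈ (S : Subgroup G) → g * a ^ n * g⁻¹ = a ^ n := by
  intro g hg
  have hcen : ∀ s ∈ (S : Subgroup G), s * a = a * s := by
    intro s hs
    have h1 := hwc s (mul_mem (mul_mem hs haS) (inv_mem hs))
    calc s * a = s * a * s⁻¹ * s := by group
      _ = a * s := by rw [h1]
  have hcenn : ∀ s ∈ (S : Subgroup G), s * a ^ n = a ^ n * s := fun s hs =>
    ((Commute.pow_right (hcen s hs) n : Commute s (a ^ n))).eq
  set b := g * a ^ n * g⁻¹ with hb
  let H : Subgroup G := Subgroup.centralizer {b}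
  let T : Subgroup G := (S : Subgroup G).map (MulAut.conj g).toMonoidHom
  have hTH : T ≤ H := by
    rintro _ ⟨s, hs, rfl⟩
    rw [Subgroup.mem_centralizer_iff]
    intro y hy
    rw [Set.mem_singleton_iff] at hy
    subst hy
    have h2 := hcenn s hs
    simp only [MulEquiv.toMonoidHom_eq_coe, MonoidHom.coe_coe, MulAut.conj_apply, hb]
    calc g * a ^ n * g⁻¹ * (g * s * g⁻¹) = g * (a ^ n * s) * g⁻¹ := by group
      _ = g * (s * a ^ n) * g⁻¹ := by rw [h2]
      _ = g * s * g⁻¹ * (g * a ^ n * g⁻¹) := by group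
  have hTp : IsPGroup p T := H39.isPGroup_conjMap S.isPGroup'
  have hTidx : ¬ p ∣ T.relIndex H := by
    intro hdvd
    have h3 : T.relIndex H ∣ T.index := Subgroup.relIndex_dvd_index_of_le hTH
    have h4 : T.index = (S : Subgroup G).index := H39.index_conjMap g _
    exact S.not_dvd_index (h4 ▸ (dvd_trans hdvd h3))
  have haH : Subgroup.zpowers a ≤ H := by
    rw [Subgroup.zpowers_le, Subgroup.mem_centralizer_iff]
    intro y hy
    rw [Set.mem_singleton_iff] at hy
    subst hy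
    exact (hcen _ hg)
  have hap : IsPGroup p (Subgroup.zpowers a) :=
    S.isPGroup'.to_le (by rw [Subgroup.zpowers_le]; exact haS)
  obtain ⟨h, hhH, hh⟩ := H39.exists_conj_mem_of_isPGroup hTH hTp hTidx haH hap
  have h5 : h * a * h⁻¹ ∈ T := hh a (Subgroup.mem_zpowers a)
  rw [H39.mem_conjMap] at h5
  have h6 : (g⁻¹ * h) * a * (g⁻¹ * h)⁻¹ = a := by
    apply hwc
    have : g⁻¹ * h * a * (g⁻¹ * h)⁻¹ = g⁻¹ * (h * a * h⁻¹) * g := by group
    rw [this]; exact h5
  have h7 : (g⁻¹ * h) * a ^ n * (g⁻¹ * h)⁻¹ = a ^ n := by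
    have : (g⁻¹ * h) * a ^ n * (g⁻¹ * h)⁻¹ = ((g⁻¹ * h) * a * (g⁻¹ * h)⁻¹) ^ n := by
      rw [conj_pow]
    rw [this, h6]
  have h8 : h * b = b * h := by
    have := (Subgroup.mem_centralizer_iff.mp hhH) b (Set.mem_singleton b)
    exact this.symm
  calc b = h⁻¹ * (h * b) := by group
    _ = h⁻¹ * (b * h) := by rw [h8]
    _ = (g⁻¹ * h)⁻¹ * a ^ n * (g⁻¹ * h) := by rw [hb]; group
    _ = (g⁻¹ * h)⁻¹ * ((g⁻¹ * h) * a ^ n * (g⁻¹ * h)⁻¹) * (g⁻¹ * h) := by rw [h7]
    _ = a ^ n := by group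

end Cfsg.Agent.S1939
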