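import Cfsg.Statements.S1940
import Mathlib

set_option autoImplicit false
open Cfsg

namespace Cfsg.Agent.S1940

/-- Let the finite group L act by automorphisms on the finite abelian group M, and let N be an L-invariant subgroup of M such that M/N is a p-group on which L acts trivially (every l • m lies in the coset mN). If every element of M is a product of an element of N and an element fixed by a Sylow p-subgroup T of L, then every element of M is a product of an element of N and an element fixed by all of L. -/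
theorem result {L : Type*} [Group L] [Finite L] {M : Type*} [CommGroup M] [Finite M] [MulDistribMulAction L M]
    {p : ℕ} [Fact p.Prime] (N : Subgroup M) (hN : ∀ (l : L) (m : M), m ∈ N → l • m ∈ N)
    (hquot : IsPGroup p (M ⧸ N)) (htriv : ∀ (l : L) (m : M), (l • m) * m⁻¹ ∈ N) (T : Sylow p L)
    (hT : ∀ m : M, ∃ n ∈ N, ∃ c : M, (∀ t ∈ (T : Subgroup L), t • c = c) ∧ m = n * c) :
    ∀ m : M, ∃ n ∈ N, ∃ c : M, (∀ l : L, l • c = c) ∧ m = n * c := by
  classical
  intro m
  obtain ⟨n₀, hn₀, c₀, hc₀, rfl⟩ := hT m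
  haveI : Fintype (L ⧸ (T : Subgroup L)) := Fintype.ofFinite _
  set τ : M := ∏ q : L ⧸ (T : Subgroup L), q.out • c₀ with hτ
  have hout : ∀ x : L, ((QuotientGroup.mk x : L ⧸ (T : Subgroup L)).out) • c₀ = x • c₀ := by
    intro x
    obtain ⟨t, ht⟩ := QuotientGroup.mk_out_eq_mul (T : Subgroup L) x
    rw [ht, mul_smul, hc₀ t t.2]
  have hfix : ∀ l : L, l • τ = τ := by
    intro l
    calc l • τ = ∏ q : L ⧸ (T : Subgroup L), l • (q.out • c₀) := Finset.smul_prod' ..
      _ = ∏ q : L ⧸ (T : Subgroup L),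
            ((MulAction.toPerm l : Equiv.Perm (L ⧸ (T : Subgroup L))) q).out • c₀ := by
          refine Finset.prod_congr rfl (fun q _ => ?_)
          have : (MulAction.toPerm l : Equiv.Perm (L ⧸ (T : Subgroup L))) q
              = QuotientGroup.mk (l * q.out) := by
            conv_lhs => rw [← QuotientGroup.out_eq' q]
            rfl
          rw [this, hout, mul_smul]
      _ = τ := Equiv.prod_comp (MulAction.toPerm l : Equiv.Perm (L ⧸ (T : Subgroup L)))
            (fun q => q.out • c₀)
  have hπ : ∀ (l : L) (x : M), (QuotientGroup.mk (l • x) : M ⧸ N) = QuotientGroup.mk x := by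
    intro l x
    rw [QuotientGroup.eq]
    have := N.inv_mem (htriv l x)
    rw [mul_inv_rev, inv_inv] at this
    rw [mul_comm]
    exact this
  have hτπ : (QuotientGroup.mk τ : M ⧸ N) = (QuotientGroup.mk c₀ : M ⧸ N) ^ (T : Subgroup L).index := by
    have h1 : (QuotientGroup.mk τ : M ⧸ N) = ∏ q : L ⧸ (T : Subgroup L), (QuotientGroup.mk (q.out • c₀) : M ⧸ N) := by
      rw [hτ]
      exact map_prod (QuotientGroup.mk' N) _ _
    rw [h1, Finset.prod_congr rfl (fun q _ => hπ q.out c₀), Finset.prod_const, Finset.card_univ,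
      Subgroup.index, Nat.card_eq_fintype_card]
  have hcop : Nat.Coprime (T : Subgroup L).index (Nat.card (M ⧸ N)) := by
    obtain ⟨a, ha⟩ := IsPGroup.iff_card.mp hquot
    rw [ha]
    apply Nat.Coprime.pow_right
    exact ((Nat.Prime.coprime_iff_not_dvd (Fact.out : p.Prime)).mpr T.not_dvd_index).symm
  obtain ⟨u, v, huv⟩ := Nat.isCoprime_iff_coprime.mpr hcop
  refine ⟨n₀ * c₀ * (τ ^ u)⁻¹, ?_, τ ^ u, ?_, by group⟩
  · rw [mul_assoc]
    refine N.mul_mem hn₀ ?_
    have h2 : (QuotientGroup.mk (τ ^ u) : M ⧸ N) = QuotientGroup.mk c₀ := by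
      have h3 : (QuotientGroup.mk (τ ^ u) : M ⧸ N) = (QuotientGroup.mk τ : M ⧸ N) ^ u :=
        map_zpow (QuotientGroup.mk' N) τ u
      rw [h3, hτπ, ← zpow_natCast, ← zpow_mul]
      have h4 : ((T : Subgroup L).index : ℤ) * u = 1 - v * (Nat.card (M ⧸ N) : ℤ) := by linarith
      rw [h4, zpow_sub, zpow_one, zpow_mul', zpow_natCast, pow_card_eq_one', one_zpow, inv_one, mul_one]
    have h5 := (QuotientGroup.eq (s := N)).mp h2
    rw [mul_comm] at h5
    exact h5
  · intro l
    rw [smul_zpow', hfix]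

end Cfsg.Agent.S1940
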