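import Cfsg.Statements.S1956
import Cfsg.Agent.H39.Fusion3

set_option autoImplicit false
open Cfsg

namespace Cfsg.Agent.S1956

/-- Let P be a Sylow p-subgroup of the finite group G such that every element of P of order dividing p (dividing 4 when p = 2) is central in P. Then the fusion of these elements is controlled by N_G(P): if such an element a of P has g a g⁻¹ in P, then g = n c with n normalizing P and c commuting with a. -/
theorem result {G : Type*} [Group G] [Finite G] {p : ℕ} [Fact p.Prime] (P : Sylow p G)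
    (hcen : ∀ a ∈ (P : Subgroup G), (a ^ p = 1 ∨ (p = 2 ∧ a ^ 4 = 1)) → ∀ y ∈ (P : Subgroup G), a * y = y * a) :
    ∀ a ∈ (P : Subgroup G), (a ^ p = 1 ∨ (p = 2 ∧ a ^ 4 = 1)) → ∀ g : G, g * a * g⁻¹ ∈ (P : Subgroup G) →
      ∃ n ∈ Subgroup.normalizer ((P : Subgroup G) : Set G), ∃ c : G, c * a = a * c ∧ g = n * c := by
  intro a haP ha g hg
  set b := g * a * g⁻¹ with hb
  have hbord : b ^ p = 1 ∨ (p = 2 ∧ b ^ 4 = 1) := by
    rcases ha with ha | ⟨h2, ha⟩
    · left; rw [hb, conj_pow, ha]; group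
    · right; refine ⟨h2, ?_⟩; rw [hb, conj_pow, ha]; group
  let H : Subgroup G := Subgroup.centralizer {b}
  have hPH : (P : Subgroup G) ≤ H := by
    intro y hy
    rw [Subgroup.mem_centralizer_iff]
    intro z hz
    rw [Set.mem_singleton_iff] at hz
    subst hz
    exact hcen b hg hbord y hy
  have hP : H39.SylIn p (P : Subgroup G) H := by
    refine ⟨hPH, P.isPGroup', ?_⟩
    intro hdvd
    exact P.not_dvd_index (dvd_trans hdvd (Subgroup.relIndex_dvd_index_of_le hPH))
  have hQH : (P : Subgroup G).map (MulAut.conj g).toMonoidHom ≤ H := by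
    rw [H39.conjMap_le_iff]
    intro y hy
    rw [Subgroup.mem_centralizer_iff]
    intro z hz
    rw [Set.mem_singleton_iff] at hz
    subst hz
    have h1 := hcen a haP ha y hy
    calc g * a * g⁻¹ * (g * y * g⁻¹) = g * (a * y) * g⁻¹ := by group
      _ = g * (y * a) * g⁻¹ := by rw [h1]
      _ = g * y * g⁻¹ * (g * a * g⁻¹) := by group
  obtain ⟨c, hcH, hc⟩ := H39.exists_conj_mem_of_isPGroup hP.1 hP.2.1 hP.2.2 hQH (H39.isPGroup_conjMap P.isPGroup')
  have hcg : (P : Subgroup G).map (MulAut.conj (c * g)).toMonoidHom ≤ (P : Subgroup G) := by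
    rw [H39.conjMap_mul, H39.conjMap_le_iff]
    exact hc
  have hn : c * g ∈ Subgroup.normalizer ((P : Subgroup G) : Set G) := H39.mem_normalizer_of_conjMap_le hcg
  have hcb : c * b = b * c := by
    have := Subgroup.mem_centralizer_iff.mp hcH b (Set.mem_singleton b)
    exact this.symm
  refine ⟨c * g, hn, (c * g)⁻¹ * g, ?_, by group⟩
  have e1 : (c * g)⁻¹ * g * a = g⁻¹ * (c⁻¹ * b) * g := by rw [hb]; group
  have e2 : c⁻¹ * b = b * c⁻¹ := by
    calc c⁻¹ * b = c⁻¹ * (b * c) * c⁻¹ := by group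
      _ = c⁻¹ * (c * b) * c⁻¹ := by rw [hcb]
      _ = b * c⁻¹ := by group
  rw [e1, e2, hb]; group

end Cfsg.Agent.S1956
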