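import Cfsg.Statements.S2001
import Cfsg.Agent.H39.Transfer3

set_option autoImplicit false
open Cfsg

namespace Cfsg.Agent.S2001

/-- Let p be a prime dividing the order of the finite group G, P a Sylow p-subgroup, W a conjugacy functor for p on G with Z(H) ≤ W(H) for every nontrivial p-subgroup H, and V a central functor: a conjugacy functor with V(H) ≤ Z(H), and V(H) ≤ V(K) whenever Z(H) ≤ Z(K), for nontrivial p-subgroups H, K. Say that W with V controls transfer in a subgroup L when some Sylow p-subgroup Q of L satisfies Q ∩ L' = (Q ∩ (N_L(W(Q)))')·(Q ∩ (C_L(V(Q)))') as a product of two subgroups. If W with V controls transfer in N_G(H) for every subgroup H with Z(P) ≤ H ≤ P, then W with V controls transfer in G. -/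
theorem result {G : Type*} [Group G] [Finite G] {p : ℕ} [Fact p.Prime] (hdiv : p ∣ Nat.card G) (P : Sylow p G) (W V : Subgroup G → Subgroup G) (hW : Cfsg.IsConjugacyFunctor p W) (hV : Cfsg.IsConjugacyFunctor p V) (hWZ : ∀ H : Subgroup G, IsPGroup p ↥H → H ⊓ Subgroup.centralizer ((H : Subgroup G) : Set G) ≤ W H) (hVZ : ∀ H : Subgroup G, IsPGroup p ↥H → V H ≤ H ⊓ Subgroup.centralizer ((H : Subgroup G) : Set G)) (hVmono : ∀ H K : Subgroup G, IsPGroup p ↥H → IsPGroup p ↥K → H ≠ ⊥ → K ≠ ⊥ → H ⊓ Subgroup.centralizer ((H : Subgroup G) : Set G) ≤ K ⊓ Subgroup.centralizer ((K : Subgroup G) : Set G) → V H ≤ V K) (hloc : ∀ H : Subgroup G, (P : Subgroup G) ⊓ Subgroup.centralizer (((P : Subgroup G) : Subgroup G) : Set G) ≤ H → H ≤ (P : Subgroup G) → ∃ Q : Subgroup G, Q ≤ Subgroup.normalizer ((H : Subgroup G) : Set G) ∧ IsPGroup p ↥Q ∧ ¬ p ∣ (Q).relIndex (Subgroup.normalizer ((H : Subgroup G) : Set G)) ∧ ∀ x : G, x ∈ Q ⊓ ⁅Subgroup.normalizer ((H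 : Subgroup G) : Set G), Subgroup.normalizer ((H : Subgroup G) : Set G)⁆ ↔ ∃ a ∈ Q ⊓ ⁅Subgroup.normalizer ((H : Subgroup G) : Set G) ⊓ Subgroup.normalizer ((W Q : Subgroup G) : Set G), Subgroup.normalizer ((H : Subgroup G) : Set G) ⊓ Subgroup.normalizer ((W Q : Subgroup G) : Set G)⁆, ∃ b ∈ Q ⊓ ⁅Subgroup.normalizer ((H : Subgroup G) : Set G) ⊓ Subgroup.centralizer ((V Q : Subgroup G) : Set G), Subgroup.normalizer ((H : Subgroup G) : Set G) ⊓ Subgroup.centralizer ((V Q : Subgroup G) : Set G)⁆, x = a * b) : ∃ Q : Subgroup G, IsPGroup p ↥Q ∧ ¬ p ∣ Q.index ∧ ∀ x : G, x ∈ Q ⊓ commutator G ↔ ∃ a ∈ Q ⊓ ⁅Subgroup.normalizer ((W Q : Subgroup G) : Set G), Subgroup.normalizer ((W Q : Subgroup G) : Set G)⁆, ∃ b ∈ Q ⊓ ⁅Subgroup.centralizer ((V Q : Subgroup G) : Set G), Subgroup.centralizer ((V Q : Subgroup G) : Set G)⁆, x = a * b := by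
  classical
  have hPne : (P : Subgroup G) ≠ ⊥ := Sylow.ne_bot_of_dvd_card P hdiv
  have hSp : IsPGroup p (P : Subgroup G) := P.isPGroup'
  have hSN : (P : Subgroup G) ≤ Subgroup.normalizer ((W (P : Subgroup G) : Subgroup G) : Set G) :=
    Subgroup.le_normalizer.trans (H39.cf_normalizer_le hW hSp)
  have key := H39.central_transfer P hPne W V hW hV hWZ hVmono (by
    intro H hZH hHP
    obtain ⟨Q, h1, h2, h3, h4⟩ := hloc H hZH hHP
    exact ⟨Q, ⟨h1, h2, h3⟩, fun x hx => (h4 x).mp hx⟩)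
  have hnorm : (P : Subgroup G) ⊓ ⁅Subgroup.centralizer ((V (P : Subgroup G) : Subgroup G) : Set G),
      Subgroup.centralizer ((V (P : Subgroup G) : Subgroup G) : Set G)⁆ ≤
      Subgroup.normalizer ((((P : Subgroup G) ⊓ ⁅Subgroup.normalizer ((W (P : Subgroup G) : Subgroup G) : Set G),
        Subgroup.normalizer ((W (P : Subgroup G) : Subgroup G) : Set G)⁆ : Subgroup G)) : Set G) := by
    intro s hs
    have hsP : s ∈ (P : Subgroup G) := (Subgroup.mem_inf.mp hs).1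
    apply H39.mem_normalizer_of_conjMap_le
    rw [H39.inf_conjMap, Subgroup.map_commutator, H39.conjMap_eq_of_mem hsP,
      H39.conjMap_eq_of_mem (hSN hsP)]
  refine ⟨(P : Subgroup G), hSp, P.not_dvd_index, fun x => ⟨?_, ?_⟩⟩
  · intro hx
    rw [commutator_def] at hx
    have h1 := key hx
    have h2 : x ∈ ((((P : Subgroup G) ⊓ ⁅Subgroup.normalizer ((W (P : Subgroup G) : Subgroup G) : Set G),
        Subgroup.normalizer ((W (P : Subgroup G) : Subgroup G) : Set G)⁆) ⊔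
        ((P : Subgroup G) ⊓ ⁅Subgroup.centralizer ((V (P : Subgroup G) : Subgroup G) : Set G),
        Subgroup.centralizer ((V (P : Subgroup G) : Subgroup G) : Set G)⁆) : Subgroup G) : Set G) := h1
    rw [Subgroup.coe_mul_of_right_le_normalizer_left _ _ hnorm] at h2
    obtain ⟨a, ha, b, hb, rfl⟩ := Set.mem_mul.mp h2
    exact ⟨a, ha, b, hb, rfl⟩
  · rintro ⟨a, ha, b, hb, rfl⟩
    obtain ⟨ha1, ha2⟩ := Subgroup.mem_inf.mp ha
    obtain ⟨hb1, hb2⟩ := Subgroup.mem_inf.mp hb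
    refine Subgroup.mem_inf.mpr ⟨mul_mem ha1 hb1, ?_⟩
    rw [commutator_def]
    exact mul_mem (Subgroup.commutator_mono le_top le_top ha2)
      (Subgroup.commutator_mono le_top le_top hb2)

end Cfsg.Agent.S2001
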