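import Cfsg.Statements.S2015
import Cfsg.Agent.H40.KInfD

set_option autoImplicit false
universe u
open Cfsg

namespace Cfsg.Agent.S2015

/-- For p ≥ 5, every finite p-group P has a characteristic subgroup K containing Z(P), depending only on P, whose normalizer controls transfer wherever P is a Sylow subgroup: for every finite group G and every embedding ι of P onto a Sylow p-subgroup of G, the intersection of ι(P) with the derived subgroup of G equals its intersection with the derived subgroup of N_G(ι(K)). -/
theorem result (p : ℕ) [Fact p.Prime] (hp : 5 ≤ p) (P : Type u) [Group P] [Finite P] (hP : IsPGroup p P) : ∃ K : Subgroup P, K.Characteristic ∧ Subgroup.center P ≤ K ∧ ∀ (G : Type u) [Group G] [Finite G] (ι : P →* G), Function.Injective ι → (∃ T : Sylow p G, (T : Subgroup G) = ι.range) → ι.range ⊓ commutator G = ι.range ⊓ (commutator ↥(Subgroup.normalizer ((K.map ι : Subgroup G) : Set G))).map (Subgroup.normalizer ((K.map ι : Subgroup G) : Set G)).subtype := by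
  refine ⟨Cfsg.kInfLower P, ?_, Cfsg.Agent.H40.KInf.center_le_kInfLower hP, ?_⟩
  · rw [Subgroup.characteristic_iff_map_eq]
    intro φ
    exact (Cfsg.Agent.H40.KInf.isCharPFunctor_kInfLower (p := p)).2 P P hP φ
  · intro G _ _ ι hι hT
    obtain ⟨T, hT⟩ := hT
    have hW : Cfsg.IsConjugacyFunctor p (Cfsg.inducedFunctor (G := G) Cfsg.kInfLower) :=
      Cfsg.Agent.H40.Sec.isConjugacyFunctor_induced Cfsg.Agent.H40.KInf.isCharPFunctor_kInfLower
    obtain ⟨T', hT', hc⟩ := Cfsg.Agent.H39.controlsTransferIn_iff.mp
      (Cfsg.Agent.H40.KInf.controlsTransfer_kInfLower hp G)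
    have hc2 := Cfsg.Agent.H39.CT.of_sylIn hW hc hT' (Cfsg.Agent.H39.sylIn_top T)
    unfold Cfsg.Agent.H39.CT at hc2
    rw [hT, top_inf_eq] at hc2
    have hK : Cfsg.inducedFunctor (G := G) Cfsg.kInfLower ι.range = (Cfsg.kInfLower P).map ι := by
      have h1 := (Cfsg.Agent.H40.KInf.isCharPFunctor_kInfLower (p := p)).2 P ↥ι.range hP
        (MonoidHom.ofInjective hι)
      unfold Cfsg.inducedFunctor
      rw [← h1, Subgroup.map_map]
      rfl
    rw [hK] at hc2
    rw [Subgroup.map_subtype_commutator, commutator_def]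
    exact hc2

end Cfsg.Agent.S2015
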