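import Cfsg.Statements.S2113
import Cfsg.Agent.H96.G2L.G2Facts
import Cfsg.Agent.H68.ReeLite
import Cfsg.Agent.H68.ReeLite2
import Cfsg.Agent.H22.ReeCtx
import Cfsg.Agent.H51.RsConc
import Cfsg.Agent.H51.RsWire

set_option autoImplicit false
open Cfsg

namespace Cfsg.Agent.S2113

/-- Schur multipliers of the small Ree groups: for q = 3^(2m+1) with m ≥ 1 the Schur multiplier of ²G₂(q) is trivial (here the Schur multiplier is described through stem extensions, as in the definitions). -/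
theorem result {K : Type*} [Field K] [Fintype K] {m : ℕ} (hm : 1 ≤ m) (hK : Fintype.card K = 3 ^ (2 * m + 1)) : Cfsg.HasCyclicSchurMultiplier ↥(Cfsg.Lie.twistedG2 K (3 ^ m)) 1 := by
  have hc : CharP K 3 := Cfsg.Agent.H22.Ree.charP_three_of_card hK
  obtain ⟨C⟩ := Cfsg.Agent.H22.Ree.exists_ctx hK (Cfsg.Agent.H96.G2L.steinberg_G2 K)
    (Cfsg.Agent.H96.G2L.factor_G2 (F := K)).1
  have hcan : Cfsg.Agent.H22.Ree.CanonG2 K := Cfsg.Agent.H96.G2L.canon_G2 K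
  have hW : Cfsg.Agent.H22.Ree.WeylG2 K :=
    Cfsg.Agent.H96.G2L.weyl_G2 K
  exact Cfsg.Agent.H51.Rs.ree_schur_trivial Cfsg.Agent.H51.Rs.final3_pc
    Cfsg.Agent.H51.Rs.twoGlue_pc Cfsg.Agent.H51.Rs.cyc_pc C hm hK hcan hW
    (Cfsg.Agent.H68.RL.l1069 hK) (fun S => Cfsg.Agent.H68.RL.l1157 hm hK S)
    (Cfsg.Agent.H68.RL.l1158 hm hK)

end Cfsg.Agent.S2113
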