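import Cfsg.Statements.S2132
import Cfsg.Agent.H6.McLCenFinal
import Cfsg.Agent.H53.DcAct
import Cfsg.Agent.H53.DcBCard
import Cfsg.Agent.H73.DcGen
import Cfsg.Agent.H73.DcCenter
import Cfsg.Agent.H73.DcTransfer
import Cfsg.Agent.H61.DcClass
import Cfsg.Agent.H61.DcAbs
import Cfsg.Agent.H87.DcFaith
import Cfsg.Agent.H87.DcMain

set_option autoImplicit false
open Cfsg

namespace Cfsg.Agent.S2132

/-- The McLaughlin group (as a two-vector stabiliser in the automorphism group of the rank-24 lattice) has a single conjugacy class of involutions, and the centraliser of an involution is a non-split double cover of the alternating group of degree 8. -/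
theorem result : (∀ x y : ↥Cfsg.Spor.McL, orderOf x = 2 → orderOf y = 2 → IsConj x y) ∧ ∃ t : ↥Cfsg.Spor.McL, orderOf t = 2 ∧ Cfsg.IsNonsplitDoubleCover ↥(Subgroup.centralizer ({t} : Set ↥Cfsg.Spor.McL)) ↥(alternatingGroup (Fin 8)) :=
  Cfsg.Agent.H6.McL.cen_mcl
    (Cfsg.Agent.H87.Dc.main Cfsg.Agent.H53.Dc.act Cfsg.Agent.H87.Dc.faith Cfsg.Agent.H53.Dc.bcard
      Cfsg.Agent.H73.Dc.gen (Cfsg.Agent.H61.Dc.abs Cfsg.Agent.H73.Dc.center))
    Cfsg.Agent.H61.Dc.cls Cfsg.Agent.H73.Dc.transfer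

end Cfsg.Agent.S2132
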