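import Cfsg.Statements.S2162
import Cfsg.Agent.H42.Basic
import Cfsg.Agent.H42.SqZero

set_option autoImplicit false
open Cfsg

namespace Cfsg.Agent.S2162

open Matrix

theorem sq_one_of_order_two {F : Type*} [Field F] {n : ℕ}
    (a : Matrix.SpecialLinearGroup (Fin n) F) (ha : orderOf a = 2) :
    (a : Matrix (Fin n) (Fin n) F) * (a : Matrix (Fin n) (Fin n) F) = 1 := by
  have h1 : a ^ 2 = 1 := by rw [← ha]; exact pow_orderOf_eq_one a
  have h2 : ((a ^ 2 : Matrix.SpecialLinearGroup (Fin n) F) : Matrix (Fin n) (Fin n) F) = 1 := by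
    rw [h1]; rfl
  rw [pow_two, Matrix.SpecialLinearGroup.coe_mul] at h2
  exact h2

theorem sub_one_sq {F : Type*} [Field F] [CharP F 2] {n : ℕ} (A : Matrix (Fin n) (Fin n) F)
    (hA : A * A = 1) : (A - 1) * (A - 1) = 0 := by
  rw [Matrix.sub_mul, Matrix.mul_sub, Matrix.mul_sub, hA, Matrix.one_mul, Matrix.mul_one,
    Matrix.one_mul]
  have e : (1 : Matrix (Fin n) (Fin n) F) - A - (A - 1) = (1 + 1) - (A + A) := by abel
  rw [e, H42.matrix_add_self, H42.matrix_add_self, sub_zero]

/-- Conjugacy of involutions in the special linear group over a finite field of characteristic two, in dimension at least 3: two elements of order 2 of SL_n(F) are conjugate in SL_n(F) exactly when the matrices a − 1 and b − 1 have the same rank (the rank of a − 1 is the dimension of the commutator space [V, a]). -/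
theorem result {F : Type*} [Field F] [Fintype F] [CharP F 2] {n : ℕ} (hn : 3 ≤ n) (a b : Matrix.SpecialLinearGroup (Fin n) F) (ha : orderOf a = 2) (hb : orderOf b = 2) :
    IsConj a b ↔ ((a : Matrix (Fin n) (Fin n) F) - 1).rank = ((b : Matrix (Fin n) (Fin n) F) - 1).rank := by
  classical
  constructor
  · intro h
    rw [isConj_iff] at h
    obtain ⟨c, hc⟩ := h
    have h1 : (b : Matrix (Fin n) (Fin n) F) - 1
        = (c : Matrix (Fin n) (Fin n) F) * ((a : Matrix (Fin n) (Fin n) F) - 1) * ((c⁻¹ : Matrix.SpecialLinearGroup (Fin n) F) : Matrix (Fin n) (Fin n) F) := by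
      rw [Matrix.mul_sub, Matrix.sub_mul, Matrix.mul_one, ← Matrix.SpecialLinearGroup.coe_mul,
        ← Matrix.SpecialLinearGroup.coe_mul, ← Matrix.SpecialLinearGroup.coe_mul, hc,
        mul_inv_cancel, Matrix.SpecialLinearGroup.coe_one]
    rw [h1]
    have hdc : IsUnit (c : Matrix (Fin n) (Fin n) F).det := by
      rw [Matrix.SpecialLinearGroup.det_coe]; exact isUnit_one
    have hdc' : IsUnit ((c⁻¹ : Matrix.SpecialLinearGroup (Fin n) F) : Matrix (Fin n) (Fin n) F).det := by
      rw [Matrix.SpecialLinearGroup.det_coe]; exact isUnit_one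
    rw [Matrix.rank_mul_eq_left_of_isUnit_det _ _ hdc', Matrix.rank_mul_eq_right_of_isUnit_det _ _ hdc]
  · intro h
    have hA := sq_one_of_order_two a ha
    have hB := sq_one_of_order_two b hb
    set A : Matrix (Fin n) (Fin n) F := (a : Matrix (Fin n) (Fin n) F) with hAdef
    set B : Matrix (Fin n) (Fin n) F := (b : Matrix (Fin n) (Fin n) F) with hBdef
    have hsq : ∀ d : F, ∃ e : F, e * e = d := by
      intro d
      refine ⟨(frobeniusEquiv F 2).symm d, ?_⟩
      have := frobeniusEquiv_symm_pow_p F 2 d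
      rw [pow_two] at this
      exact this
    have hN : (A - 1).mulVecLin ∘ₗ (A - 1).mulVecLin = 0 := by
      rw [← Matrix.mulVecLin_mul, sub_one_sq A hA, Matrix.mulVecLin_zero]
    have hM : (B - 1).mulVecLin ∘ₗ (B - 1).mulVecLin = 0 := by
      rw [← Matrix.mulVecLin_mul, sub_one_sq B hB, Matrix.mulVecLin_zero]
    have hN0 : (A - 1).mulVecLin ≠ 0 := by
      intro h0
      have h1 : A - 1 = 0 := by
        have h2 : Matrix.toLin' (A - 1) = Matrix.toLin' (0 : Matrix (Fin n) (Fin n) F) := by
          rw [Matrix.toLin'_apply', h0, map_zero]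
        exact Matrix.toLin'.injective h2
      have h3 : a = 1 := by
        apply Matrix.SpecialLinearGroup.ext
        intro i j
        rw [Matrix.SpecialLinearGroup.coe_one, ← hAdef, sub_eq_zero.mp h1]
      rw [h3, orderOf_one] at ha
      omega
    obtain ⟨g, hgdet, hg⟩ := H42.exists_conj_det_one hsq (A - 1).mulVecLin (B - 1).mulVecLin hN hM h hN0
    set G : Matrix (Fin n) (Fin n) F := LinearMap.toMatrix' g with hGdef
    have hGdet : G.det = 1 := by rw [hGdef, LinearMap.det_toMatrix', hgdet]
    have hGN : G * (A - 1) = (B - 1) * G := by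
      have h1 := congrArg LinearMap.toMatrix' hg
      rw [LinearMap.toMatrix'_comp, LinearMap.toMatrix'_comp, ← Matrix.toLin'_apply',
        ← Matrix.toLin'_apply', LinearMap.toMatrix'_toLin', LinearMap.toMatrix'_toLin'] at h1
      exact h1
    have hGA : G * A = B * G := by
      rw [Matrix.mul_sub, Matrix.sub_mul, Matrix.mul_one, Matrix.one_mul] at hGN
      exact sub_left_injective hGN
    rw [isConj_iff]
    let c : Matrix.SpecialLinearGroup (Fin n) F := ⟨G, hGdet⟩
    have hc : (c : Matrix (Fin n) (Fin n) F) = G := rfl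
    refine ⟨c, ?_⟩
    rw [mul_inv_eq_iff_eq_mul]
    apply Matrix.SpecialLinearGroup.ext
    intro i j
    rw [Matrix.SpecialLinearGroup.coe_mul, Matrix.SpecialLinearGroup.coe_mul, hc]
    exact congrFun (congrFun hGA i) j

end Cfsg.Agent.S2162
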