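import Cfsg.Statements.S2163
import Cfsg.Agent.H42.Basic

set_option autoImplicit false
open Cfsg

namespace Cfsg.Agent.S2163

open Matrix

/-- Over a finite field of characteristic two and for n ≥ 3: for every ℓ with 1 ≤ ℓ and 2ℓ ≤ n, the matrix j_ℓ that is the identity plus the entries 1 in positions (n − ℓ + i, i) for i < ℓ (an identity block of size ℓ in the lower left corner) lies in SL_n(F), has order 2, and j_ℓ − 1 has rank ℓ. Together with the conjugacy criterion by rank, these matrices represent the conjugacy classes of involutions of SL_n(F). -/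
theorem result {F : Type*} [Field F] [Fintype F] [CharP F 2] {n : ℕ} (hn : 3 ≤ n) (ℓ : ℕ) (h1 : 1 ≤ ℓ) (h2 : 2 * ℓ ≤ n) :
    ∃ a : Matrix.SpecialLinearGroup (Fin n) F, (a : Matrix (Fin n) (Fin n) F) = 1 + Matrix.of (fun i j : Fin n => if j.val < ℓ ∧ i.val = j.val + (n - ℓ) then (1 : F) else 0) ∧ orderOf a = 2 ∧ ((a : Matrix (Fin n) (Fin n) F) - 1).rank = ℓ := by
  classical
  set N : Matrix (Fin n) (Fin n) F :=
    Matrix.of (fun i j : Fin n => if j.val < ℓ ∧ i.val = j.val + (n - ℓ) then (1 : F) else 0) with hNdef
  have hNN : N * N = 0 := by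
    ext i k
    rw [Matrix.mul_apply]
    simp only [Matrix.zero_apply]
    apply Finset.sum_eq_zero
    intro j _
    simp only [hNdef, Matrix.of_apply]
    by_cases hc : k.val < ℓ ∧ j.val = k.val + (n - ℓ)
    · have : ¬ (j.val < ℓ ∧ i.val = j.val + (n - ℓ)) := by
        rintro ⟨h3, _⟩
        omega
      rw [if_neg this, zero_mul]
    · rw [if_neg hc, mul_zero]
  have hsq : (1 + N) * (1 + N) = 1 := by
    rw [Matrix.add_mul, Matrix.mul_add, Matrix.mul_add, hNN, Matrix.one_mul, Matrix.mul_one,
      Matrix.one_mul, add_zero, add_assoc, H42.matrix_add_self, add_zero]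
  have hdet : (1 + N).det = 1 := H42.det_eq_one_of_sq_eq_one _ hsq
  -- rank
  have hrank : N.rank = ℓ := by
    have := H42.rank_eq_card_of_factor (F := F) (m := Fin n) (k := Fin ℓ) N
      (Matrix.of fun (i : Fin n) (j : Fin ℓ) => if i.val = j.val + (n - ℓ) then (1 : F) else 0)
      (Matrix.of fun (j : Fin ℓ) (k : Fin n) => if k.val = j.val then (1 : F) else 0)
      (Matrix.of fun (j : Fin ℓ) (i : Fin n) => if i.val = j.val + (n - ℓ) then (1 : F) else 0)
      (Matrix.of fun (k : Fin n) (j : Fin ℓ) => if k.val = j.val then (1 : F) else 0)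
      ?_ ?_ ?_
    · rw [this, Fintype.card_fin]
    · ext i k
      rw [Matrix.mul_apply]
      simp only [hNdef, Matrix.of_apply]
      by_cases hk : k.val < ℓ
      · rw [Finset.sum_eq_single (⟨k.val, hk⟩ : Fin ℓ)]
        · simp [hk]
        · intro j _ hj
          have : ¬ (k.val = j.val) := by
            intro h; apply hj; ext; simp [h]
          simp [this]
        · intro h; exact absurd (Finset.mem_univ _) h
      · rw [if_neg (by tauto)]
        symm
        apply Finset.sum_eq_zero
        intro j _
        have : ¬ (k.val = j.val) := by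
          intro h; apply hk; rw [h]; exact j.isLt
        simp [this]
    · ext j j'
      rw [Matrix.mul_apply]
      simp only [Matrix.of_apply, Matrix.one_apply]
      have hj : j.val + (n - ℓ) < n := by have := j.isLt; omega
      rw [Finset.sum_eq_single (⟨j.val + (n - ℓ), hj⟩ : Fin n)]
      · by_cases hjj : j = j'
        · subst hjj; simp
        · have : ¬ (j.val = j'.val) := by
            intro h; apply hjj; ext; omega
          simp [this, hjj]
      · intro i _ hi
        have : ¬ (i.val = j.val + (n - ℓ)) := by
          intro h; apply hi; ext; simp [h]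
        simp [this]
      · intro h; exact absurd (Finset.mem_univ _) h
    · ext j j'
      rw [Matrix.mul_apply]
      simp only [Matrix.of_apply, Matrix.one_apply]
      have hj : j.val < n := by have := j.isLt; omega
      rw [Finset.sum_eq_single (⟨j.val, hj⟩ : Fin n)]
      · by_cases hjj : j = j'
        · subst hjj; simp
        · have : ¬ (j.val = j'.val) := by
            intro h; apply hjj; ext; omega
          simp [this, hjj]
      · intro i _ hi
        have : ¬ (i.val = j.val) := by
          intro h; apply hi; ext; simp [h]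
        simp [this]
      · intro h; exact absurd (Finset.mem_univ _) h
  let a : Matrix.SpecialLinearGroup (Fin n) F := ⟨1 + N, hdet⟩
  have ha : (a : Matrix (Fin n) (Fin n) F) = 1 + N := rfl
  refine ⟨a, ha, ?_, ?_⟩
  · have : Fact (Nat.Prime 2) := ⟨Nat.prime_two⟩
    apply orderOf_eq_prime
    · apply Matrix.SpecialLinearGroup.ext
      intro i j
      rw [pow_two, Matrix.SpecialLinearGroup.coe_mul, ha, hsq, Matrix.SpecialLinearGroup.coe_one]
    · intro h
      have h3 : (1 + N : Matrix (Fin n) (Fin n) F) = 1 := by
        rw [← ha, h, Matrix.SpecialLinearGroup.coe_one]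
      have h4 : N = 0 := by
        have : (1 + N : Matrix (Fin n) (Fin n) F) = 1 + 0 := by rw [h3, add_zero]
        exact add_left_cancel this
      rw [h4] at hrank
      rw [Matrix.rank_zero] at hrank
      omega
  · rw [ha, add_sub_cancel_left]
    exact hrank

end Cfsg.Agent.S2163
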