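import Cfsg.Statements.S2165
import Cfsg.Agent.H42.Basic

set_option autoImplicit false
open Cfsg

namespace Cfsg.Agent.S2165

open Matrix

/-- In SU_n(q), q even, n ≥ 3 (matrices of determinant 1 over the field with q² elements preserving Σ u_i v_i^q): for every ℓ with 1 ≤ ℓ and 2ℓ ≤ n, the permutation matrix of the involution of {0, …, n−1} exchanging i and n − ℓ + i for each i < ℓ lies in SU_n(q), has order 2, and differs from the identity by a matrix of rank ℓ. So every rank between 1 and n/2 occurs for involutions of SU_n(q). -/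
theorem result {F : Type*} [Field F] [Fintype F] [CharP F 2] {n q : ℕ} (hF : Fintype.card F = q ^ 2) (hn : 3 ≤ n) (ℓ : ℕ) (h1 : 1 ≤ ℓ) (h2 : 2 * ℓ ≤ n) :
    ∃ a : ↥(Cfsg.SU n F q), (((a : Matrix.SpecialLinearGroup (Fin n) F) : Matrix (Fin n) (Fin n) F) = Matrix.of (fun i j : Fin n => if (j.val < ℓ ∧ i.val = j.val + (n - ℓ)) ∨ (i.val < ℓ ∧ j.val = i.val + (n - ℓ)) ∨ (i = j ∧ ℓ ≤ i.val ∧ i.val < n - ℓ) then (1 : F) else 0)) ∧ orderOf a = 2 ∧ ((((a : Matrix.SpecialLinearGroup (Fin n) F) : Matrix (Fin n) (Fin n) F)) - 1).rank = ℓ := by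
  classical
  set M : Matrix (Fin n) (Fin n) F :=
    Matrix.of (fun i j : Fin n => if (j.val < ℓ ∧ i.val = j.val + (n - ℓ)) ∨ (i.val < ℓ ∧ j.val = i.val + (n - ℓ)) ∨ (i = j ∧ ℓ ≤ i.val ∧ i.val < n - ℓ) then (1 : F) else 0) with hMdef
  -- the involution
  let f : Fin n → Fin n := fun j =>
    if h : j.val < ℓ then ⟨j.val + (n - ℓ), by omega⟩
    else if h' : n - ℓ ≤ j.val then ⟨j.val - (n - ℓ), by omega⟩
    else j
  have hfval : ∀ j : Fin n, (f j).val = if j.val < ℓ then j.val + (n - ℓ) else
      if n - ℓ ≤ j.val then j.val - (n - ℓ) else j.val := by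
    intro j
    simp only [f]
    split_ifs <;> rfl
  have hff : ∀ j : Fin n, f (f j) = j := by
    intro j
    apply Fin.ext
    rw [hfval (f j), hfval j]
    have := j.isLt
    split_ifs <;> omega
  have hM : ∀ i j : Fin n, M i j = if j = f i then (1 : F) else 0 := by
    intro i j
    simp only [hMdef, Matrix.of_apply]
    have e1 : (j = f i) ↔ (j.val = (f i).val) := Fin.ext_iff
    have e2 : (i = j) ↔ (i.val = j.val) := Fin.ext_iff
    have hi := i.isLt
    have hj := j.isLt
    have hv := hfval i
    by_cases hc : j = f i
    · rw [if_pos hc, if_pos]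
      rw [e1] at hc
      rw [e2]
      split_ifs at hv <;> omega
    · rw [if_neg hc, if_neg]
      rw [e1] at hc
      rw [e2]
      split_ifs at hv <;> omega
  have hmulVec : ∀ (u : Fin n → F) (i : Fin n), (M *ᵥ u) i = u (f i) := by
    intro u i
    simp only [Matrix.mulVec, dotProduct, hM]
    simp
  have hMM : M * M = 1 := by
    ext i k
    rw [Matrix.mul_apply]
    simp only [hM, Matrix.one_apply]
    rw [Finset.sum_eq_single (f i)]
    · by_cases hik : i = k
      · subst hik; simp [hff]
      · have : ¬ (k = f (f i)) := by rw [hff]; exact fun h => hik h.symm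
        simp [this, hik]
    · intro j _ hj
      simp [hj]
    · intro h; exact absurd (Finset.mem_univ _) h
  have hdet : M.det = 1 := H42.det_eq_one_of_sq_eq_one _ hMM
  let a0 : Matrix.SpecialLinearGroup (Fin n) F := ⟨M, hdet⟩
  have ha0 : (a0 : Matrix (Fin n) (Fin n) F) = M := rfl
  have hfbij : Function.Bijective f := (Function.Involutive.bijective hff)
  have hmem : a0 ∈ Cfsg.SU n F q := by
    intro u v
    show Cfsg.hermForm n F q (M *ᵥ u) (M *ᵥ v) = Cfsg.hermForm n F q u v
    unfold Cfsg.hermForm
    simp only [hmulVec]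
    exact Function.Bijective.sum_comp hfbij (fun i => u i * v i ^ q)
  -- rank
  have hrank : (M - 1).rank = ℓ := by
    have := H42.rank_eq_card_of_factor (F := F) (m := Fin n) (k := Fin ℓ) (M - 1)
      (Matrix.of fun (i : Fin n) (j : Fin ℓ) =>
        (if i.val = j.val + (n - ℓ) then (1 : F) else 0) - (if i.val = j.val then (1 : F) else 0))
      (Matrix.of fun (j : Fin ℓ) (k : Fin n) =>
        (if k.val = j.val then (1 : F) else 0) - (if k.val = j.val + (n - ℓ) then (1 : F) else 0))
      (Matrix.of fun (j : Fin ℓ) (i : Fin n) => if i.val = j.val + (n - ℓ) then (1 : F) else 0)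
      (Matrix.of fun (k : Fin n) (j : Fin ℓ) => if k.val = j.val then (1 : F) else 0)
      ?_ ?_ ?_
    · rw [this, Fintype.card_fin]
    · ext i k
      rw [Matrix.mul_apply]
      simp only [Matrix.sub_apply, hM, Matrix.one_apply, Matrix.of_apply]
      have hi := i.isLt
      have hk := k.isLt
      have hv := hfval i
      have e1 : (k = f i) ↔ (k.val = (f i).val) := Fin.ext_iff
      have e2 : (i = k) ↔ (i.val = k.val) := Fin.ext_iff
      by_cases hkl : k.val < ℓ
      · rw [Finset.sum_eq_single (⟨k.val, hkl⟩ : Fin ℓ)]
        · have h3 : ¬ (k.val = k.val + (n - ℓ)) := by omega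
          have c1 : (k = f i) ↔ (i.val = k.val + (n - ℓ)) := by
            rw [e1]; split_ifs at hv <;> omega
          simp only [c1, e2, Fin.val_mk, if_neg h3, if_true]
          ring
        · intro j _ hj
          have h3 : ¬ (k.val = j.val) := by
            intro h; apply hj; ext; simp [h]
          have h4 : ¬ (k.val = j.val + (n - ℓ)) := by have := j.isLt; omega
          simp [h3, h4]
        · intro h; exact absurd (Finset.mem_univ _) h
      · by_cases hkl' : n - ℓ ≤ k.val
        · have hkk : k.val - (n - ℓ) < ℓ := by omega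
          rw [Finset.sum_eq_single (⟨k.val - (n - ℓ), hkk⟩ : Fin ℓ)]
          · have h3 : ¬ (k.val = k.val - (n - ℓ)) := by omega
            have h4 : k.val = k.val - (n - ℓ) + (n - ℓ) := by omega
            have c1 : (k = f i) ↔ (i.val = k.val - (n - ℓ)) := by
              rw [e1]; split_ifs at hv <;> omega
            have c2 : (i = k) ↔ (i.val = k.val - (n - ℓ) + (n - ℓ)) := by
              rw [e2]; omega
            simp only [c1, c2, Fin.val_mk, if_neg h3, if_pos h4]
            ring
          · intro j _ hj
            have h3 : ¬ (k.val = j.val) := by have := j.isLt; omega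
            have h4 : ¬ (k.val = j.val + (n - ℓ)) := by
              intro h; apply hj; ext; simp [h]
            simp [h3, h4]
          · intro h; exact absurd (Finset.mem_univ _) h
        · have h5 : (k = f i) ↔ (i = k) := by
            rw [e1, e2]; split_ifs at hv <;> omega
          rw [Finset.sum_eq_zero]
          · by_cases h6 : i = k
            · rw [if_pos (h5.mpr h6), if_pos h6, sub_self]
            · rw [if_neg (fun h => h6 (h5.mp h)), if_neg h6, sub_self]
          · intro j _
            have h3 : ¬ (k.val = j.val) := by have := j.isLt; omega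
            have h4 : ¬ (k.val = j.val + (n - ℓ)) := by have := j.isLt; omega
            simp [h3, h4]
    · ext j j'
      rw [Matrix.mul_apply]
      simp only [Matrix.of_apply, Matrix.one_apply]
      have hj : j.val + (n - ℓ) < n := by have := j.isLt; omega
      rw [Finset.sum_eq_single (⟨j.val + (n - ℓ), hj⟩ : Fin n)]
      · have h3 : ¬ (j.val + (n - ℓ) = j'.val) := by have := j'.isLt; omega
        have h0 : n - ℓ ≠ 0 := by omega
        by_cases hjj : j = j'
        · subst hjj; simp [h0]
        · have : ¬ (j.val = j'.val) := by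
            intro h; apply hjj; ext; omega
          simp [this, hjj, h3]
      · intro i _ hi
        have : ¬ (i.val = j.val + (n - ℓ)) := by
          intro h; apply hi; ext; simp [h]
        simp [this]
      · intro h; exact absurd (Finset.mem_univ _) h
    · ext j j'
      rw [Matrix.mul_apply]
      simp only [Matrix.of_apply, Matrix.one_apply]
      have hj : j'.val < n := by have := j'.isLt; omega
      rw [Finset.sum_eq_single (⟨j'.val, hj⟩ : Fin n)]
      · have h3 : ¬ (j'.val = j.val + (n - ℓ)) := by have := j'.isLt; omega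
        have h0 : n - ℓ ≠ 0 := by omega
        by_cases hjj : j = j'
        · subst hjj; simp [h0]
        · have : ¬ (j'.val = j.val) := by
            intro h; apply hjj; ext; omega
          simp [this, hjj, h3]
      · intro i _ hi
        have : ¬ (i.val = j'.val) := by
          intro h; apply hi; ext; simp [h]
        simp [this]
      · intro h; exact absurd (Finset.mem_univ _) h
  let a : ↥(Cfsg.SU n F q) := ⟨a0, hmem⟩
  have ha : ((a : Matrix.SpecialLinearGroup (Fin n) F) : Matrix (Fin n) (Fin n) F) = M := rfl
  refine ⟨a, ha, ?_, ?_⟩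
  · have : Fact (Nat.Prime 2) := ⟨Nat.prime_two⟩
    apply orderOf_eq_prime
    · apply Subtype.ext
      apply Matrix.SpecialLinearGroup.ext
      intro i j
      rw [pow_two]
      show ((a0 * a0 : Matrix.SpecialLinearGroup (Fin n) F) : Matrix (Fin n) (Fin n) F) i j = _
      rw [Matrix.SpecialLinearGroup.coe_mul, ha0, hMM]
      rfl
    · intro h
      have h3 : M = 1 := by
        rw [← ha, h]
        rfl
      rw [h3, sub_self, Matrix.rank_zero] at hrank
      omega
  · rw [ha]
    exact hrank

end Cfsg.Agent.S2165
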