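import Cfsg.Statements.S2167
import Cfsg.Agent.H42.Basic
import Cfsg.Agent.H42.AltRank

set_option autoImplicit false
open Cfsg

namespace Cfsg.Agent.S2167

open Matrix

/-- For an involution t of the symplectic group Sp_{2m}(F), m ≥ 2, F a finite field of characteristic two (matrices A with A J Aᵀ = J acting on column vectors, alternating form f(u, v) = u ⬝ (J v)): the set V(t) of vectors v with f(v, t v) = 0 has either q^{2m} or q^{2m−1} elements, q the order of F (it is a subspace of codimension at most 1), and if it is the whole space then t − 1 has even rank. -/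
theorem result {F : Type*} [Field F] [Fintype F] [CharP F 2] {m : ℕ} (hm : 2 ≤ m) (a : ↥(Matrix.symplecticGroup (Fin m) F)) (ha : orderOf a = 2) :
    (Nat.card {v : Fin m ⊕ Fin m → F // Cfsg.sympForm m F v (Matrix.mulVec ((a : ↥(Matrix.symplecticGroup (Fin m) F)) : Matrix (Fin m ⊕ Fin m) (Fin m ⊕ Fin m) F) v) = 0} = Fintype.card F ^ (2 * m) ∨ Nat.card {v : Fin m ⊕ Fin m → F // Cfsg.sympForm m F v (Matrix.mulVec ((a : ↥(Matrix.symplecticGroup (Fin m) F)) : Matrix (Fin m ⊕ Fin m) (Fin m ⊕ Fin m) F) v) = 0} * Fintype.card F = Fintype.card F ^ (2 * m)) ∧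
    ((∀ v : Fin m ⊕ Fin m → F, Cfsg.sympForm m F v (Matrix.mulVec ((a : ↥(Matrix.symplecticGroup (Fin m) F)) : Matrix (Fin m ⊕ Fin m) (Fin m ⊕ Fin m) F) v) = 0) → Even (((a : ↥(Matrix.symplecticGroup (Fin m) F)) : Matrix (Fin m ⊕ Fin m) (Fin m ⊕ Fin m) F) - 1).rank) := by
  classical
  have hA2 : (a : Matrix (Fin m ⊕ Fin m) (Fin m ⊕ Fin m) F) * (a : Matrix (Fin m ⊕ Fin m) (Fin m ⊕ Fin m) F) = 1 := by
    have h1 : a ^ 2 = 1 := by rw [← ha]; exact pow_orderOf_eq_one a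
    have h2 : ((a ^ 2 : ↥(Matrix.symplecticGroup (Fin m) F)) : Matrix (Fin m ⊕ Fin m) (Fin m ⊕ Fin m) F) = 1 := by
      rw [h1]; rfl
    rw [pow_two] at h2
    exact h2
  have hAJ : (a : Matrix (Fin m ⊕ Fin m) (Fin m ⊕ Fin m) F)ᵀ * Matrix.J (Fin m) F * (a : Matrix (Fin m ⊕ Fin m) (Fin m ⊕ Fin m) F) = Matrix.J (Fin m) F :=
    SymplecticGroup.mem_iff'.mp a.2
  generalize (a : Matrix (Fin m ⊕ Fin m) (Fin m ⊕ Fin m) F) = A at hA2 hAJ ⊢
  set J := Matrix.J (Fin m) F with hJ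
  set B := J * A with hB
  have hJA : Aᵀ * J = J * A := by
    calc Aᵀ * J = Aᵀ * J * (A * A) := by rw [hA2, Matrix.mul_one]
      _ = (Aᵀ * J * A) * A := by rw [← Matrix.mul_assoc]
      _ = J * A := by rw [hAJ]
  have hBT : Bᵀ = B := by
    rw [hB, Matrix.transpose_mul, hJ, Matrix.J_transpose, Matrix.mul_neg, ← hJ, hJA]
    exact neg_eq_of_add_eq_zero_left (H42.matrix_add_self _)
  have hφ : ∀ v, Cfsg.sympForm m F v (A *ᵥ v) = v ⬝ᵥ B *ᵥ v := by
    intro v
    unfold Cfsg.sympForm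
    rw [Matrix.mulVec_mulVec]
  have hcross : ∀ u v : Fin m ⊕ Fin m → F, v ⬝ᵥ B *ᵥ u = u ⬝ᵥ B *ᵥ v := by
    intro u v
    rw [Matrix.dotProduct_mulVec, ← Matrix.mulVec_transpose, hBT, dotProduct_comm]
  have hadd : ∀ u v : Fin m ⊕ Fin m → F, (u + v) ⬝ᵥ B *ᵥ (u + v) = u ⬝ᵥ B *ᵥ u + v ⬝ᵥ B *ᵥ v := by
    intro u v
    rw [Matrix.mulVec_add, add_dotProduct, dotProduct_add, dotProduct_add, hcross u v]
    have h1 := CharTwo.add_self_eq_zero (u ⬝ᵥ B *ᵥ v)
    linear_combination h1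
  have hsmul : ∀ (c : F) (v : Fin m ⊕ Fin m → F), (c • v) ⬝ᵥ B *ᵥ (c • v) = c ^ 2 * (v ⬝ᵥ B *ᵥ v) := by
    intro c v
    rw [Matrix.mulVec_smul, smul_dotProduct, dotProduct_smul, smul_eq_mul, smul_eq_mul]
    ring
  let ψ : (Fin m ⊕ Fin m → F) →ₗ[F] F :=
    { toFun := fun v => (frobeniusEquiv F 2).symm (v ⬝ᵥ B *ᵥ v)
      map_add' := fun u v => by rw [hadd, map_add]
      map_smul' := fun c v => by
        rw [hsmul, map_mul, RingHom.id_apply, smul_eq_mul]
        congr 1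
        exact frobeniusEquiv_symm_apply_frobenius F 2 c }
  have hψ : ∀ v, ψ v = (frobeniusEquiv F 2).symm (v ⬝ᵥ B *ᵥ v) := fun v => rfl
  have hψ0 : ∀ v, Cfsg.sympForm m F v (A *ᵥ v) = 0 ↔ v ∈ LinearMap.ker ψ := by
    intro v
    rw [hφ, LinearMap.mem_ker, hψ, EmbeddingLike.map_eq_zero_iff]
  have hcardV : Nat.card (Fin m ⊕ Fin m → F) = Fintype.card F ^ (2 * m) := by
    rw [Nat.card_fun, Nat.card_eq_fintype_card, Nat.card_eq_fintype_card, Fintype.card_sum,
      Fintype.card_fin, two_mul]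
  have hcongr : Nat.card {v : Fin m ⊕ Fin m → F // Cfsg.sympForm m F v (A *ᵥ v) = 0}
      = Nat.card (LinearMap.ker ψ) :=
    Nat.card_congr (Equiv.subtypeEquivRight hψ0)
  refine ⟨?_, ?_⟩
  · rw [hcongr]
    by_cases h0 : ψ = 0
    · left
      rw [h0, LinearMap.ker_zero, ← hcardV]
      exact Nat.card_congr (Submodule.topEquiv (R := F) (M := Fin m ⊕ Fin m → F)).toEquiv
    · right
      have hsurj : Function.Surjective ψ := by
        obtain ⟨w, hw⟩ : ∃ w, ψ w ≠ 0 := by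
          by_contra hcon
          push Not at hcon
          exact h0 (LinearMap.ext hcon)
        intro c
        refine ⟨(c / ψ w) • w, ?_⟩
        rw [map_smul, smul_eq_mul, div_mul_cancel₀ _ hw]
      have h1 := Submodule.card_eq_card_quotient_mul_card (LinearMap.ker ψ)
      have h2 : Nat.card ((Fin m ⊕ Fin m → F) ⧸ LinearMap.ker ψ) = Fintype.card F := by
        rw [Nat.card_congr (LinearMap.quotKerEquivOfSurjective ψ hsurj).toEquiv,
          Nat.card_eq_fintype_card]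
      rw [h2, hcardV] at h1
      exact h1.symm
  · intro hall
    have hJx : ∀ x : Fin m ⊕ Fin m → F, x ⬝ᵥ J *ᵥ x = 0 := by
      intro x
      have hx : x = Sum.elim (x ∘ Sum.inl) (x ∘ Sum.inr) := (Sum.elim_comp_inl_inr x).symm
      rw [hJ, Matrix.J, Matrix.fromBlocks_mulVec]
      nth_rewrite 1 [hx]
      rw [sumElim_dotProduct_sumElim]
      simp only [Matrix.zero_mulVec, Matrix.neg_mulVec, Matrix.one_mulVec, zero_add, add_zero,
        dotProduct_neg]
      rw [dotProduct_comm (x ∘ Sum.inr) (x ∘ Sum.inl), neg_add_cancel]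
    have hC : ∀ x : Fin m ⊕ Fin m → F, x ⬝ᵥ (J * (A - 1)) *ᵥ x = 0 := by
      intro x
      rw [Matrix.mul_sub, Matrix.mul_one, Matrix.sub_mulVec, dotProduct_sub, ← hB, ← hφ, hall x,
        hJx, sub_zero]
    have h1 := H42.even_rank_of_alt _ hC
    rwa [Matrix.rank_mul_eq_right_of_isUnit_det _ _ (Matrix.isUnit_det_J (Fin m) F)] at h1

end Cfsg.Agent.S2167
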