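import Cfsg.Statements.S2173
import Cfsg.Agent.H49.InvOmega

set_option autoImplicit false
open Cfsg

namespace Cfsg.Agent.S2173

/-- For the quadratic form Σ x_i y_i + (z₁² + c z₁ z₂ + d z₂²) in dimension 2m with anisotropic binary part over a finite field F of characteristic two, m ≥ 4 (minus type): two involutions of the commutator subgroup Ω that are conjugate in the full isometry group O are conjugate by an element of Ω (no class of involutions of O inside Ω splits). -/
theorem result {F : Type*} [Field F] [Fintype F] [CharP F 2] {m : ℕ} (hm : 4 ≤ m) (c d : F) (hcd : ∀ z₁ z₂ : F, z₁ ^ 2 + c * z₁ * z₂ + d * z₂ ^ 2 = 0 → z₁ = 0 ∧ z₂ = 0) (t s : ↥(Cfsg.isometryGroup F (Cfsg.quadFormMinus (m - 1) F c d))) (ht : orderOf t = 2) (hs : orderOf s = 2) (htO : t ∈ Cfsg.Omega F (Cfsg.quadFormMinus (m - 1) F c d)) (hsO : s ∈ Cfsg.Omega F (Cfsg.quadFormMinus (m - 1) F c d)) (hconj : IsConj t s) :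
    ∃ g ∈ Cfsg.Omega F (Cfsg.quadFormMinus (m - 1) F c d), g * t * g⁻¹ = s := by
  have h2 : (2 : F) = 0 := CharTwo.two_eq_zero
  have hd := H49.disc_ne_zero_of_aniso c d hcd
  have hV : Module.finrank F ((Fin (m - 1) ⊕ Fin (m - 1)) ⊕ Fin 2 → F) = 2 * m := by
    rw [H49.finrank_minus]
    omega
  have htt : t * t = 1 := by
    have := pow_orderOf_eq_one t
    rwa [ht, sq] at this
  obtain ⟨g, hg⟩ := isConj_iff.mp hconj
  have hfix : ¬ H49.IsTS (H49.QMin (m - 1) F c d)
      (Cfsg.Agent.H7.fixSub (H49.QMin (m - 1) F c d) t) := by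
    intro hts
    have h1 := H49.QMin_ts_le (m - 1) c d hcd hd _ hts
    have h3 := H49.le_finrank_fixSub (H49.QMin (m - 1) F c d) h2 hV t htt
    omega
  obtain ⟨x, hx, hxfix⟩ :=
    H49.exists_fixed_nonsingular_of_not_ts (H49.QMin (m - 1) F c d) t hfix
  exact H49.omega_conj_of_fixed_nonsingular (H49.QMin (m - 1) F c d) h2
    (H49.QMin_nondeg (m - 1) c d hd) hV (Or.inr (by omega)) t s g hg x hx hxfix

end Cfsg.Agent.S2173
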