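import Cfsg.Statements.S2222
-- import your own Cfsg.Agent.* helpers here

import Cfsg.Agent.H2.PronSyl
import Cfsg.Agent.H87.AltFSNA
import Cfsg.Agent.H87.AltFSNS

set_option autoImplicit false
open Cfsg

namespace Cfsg.Agent.S2222

/-- In the alternating group of degree n ≥ 5 every subgroup H of odd index is pronormal: for every element g, the subgroups H and gHg⁻¹ are conjugate by an element of the subgroup they generate. -/
theorem result (n : ℕ) (hn : 5 ≤ n)
    (H : Subgroup (alternatingGroup (Fin n))) (hH : Odd H.index) : Cfsg.IsPronormal H := by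
  haveI : Fact (Nat.Prime 2) := ⟨Nat.prime_two⟩
  have h2 : ¬ 2 ∣ H.index := by
    intro h
    exact (Nat.not_even_iff_odd.mpr hH) (even_iff_two_dvd.mpr h)
  obtain ⟨T, hTH⟩ := Cfsg.Agent.H2.PronSyl.exists_sylow_le_of_not_dvd_index 2 H h2
  rcases Nat.lt_or_ge n 6 with h5 | h6
  · have hn5 : n = 5 := by omega
    subst hn5
    -- the order of `A_5` is 60
    have hcard : Nat.card (alternatingGroup (Fin 5)) = 60 := by
      have h := two_mul_nat_card_alternatingGroup (α := Fin 5)
      rw [Nat.card_eq_fintype_card (α := Equiv.Perm (Fin 5)), Fintype.card_perm,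
        Fintype.card_fin] at h
      have e : Nat.factorial 5 = 120 := by decide
      omega
    have hdvd : H.index ∣ 60 := hcard ▸ H.index_dvd_card
    have hcop : Nat.Coprime H.index 4 := by
      have : Nat.Coprime H.index 2 := Nat.coprime_two_right.mpr hH
      exact Nat.Coprime.pow_right 2 this
    have h15 : H.index ∣ 15 := by
      have : H.index ∣ 4 * 15 := by norm_num; exact hdvd
      exact hcop.dvd_of_dvd_mul_left this
    have hmem : H.index ∈ Nat.divisors 15 := Nat.mem_divisors.mpr ⟨h15, by norm_num⟩
    have hdiv : Nat.divisors 15 = {1, 3, 5, 15} := by decide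
    rw [hdiv] at hmem
    simp only [Finset.mem_insert, Finset.mem_singleton] at hmem
    rcases hmem with h | h | h | h
    · -- H = ⊤
      have htop : H = ⊤ := Subgroup.index_eq_one.mp h
      apply Cfsg.Agent.H2.PronSyl.pronormal_of_sylow 2 H T hTH
      intro y _
      rw [Subgroup.mem_normalizer_iff]
      intro x
      rw [htop]
      simp
    · exact Cfsg.Agent.H2.PronSyl.pronormal_of_prime_index H (by rw [h]; norm_num)
    · exact Cfsg.Agent.H2.PronSyl.pronormal_of_prime_index H (by rw [h]; norm_num)
    · -- H has order 4 and so is a Sylow 2-subgroup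
      have hcH : Nat.card H = 4 := by
        have := H.card_mul_index
        rw [hcard, h] at this
        omega
      have hcT : Nat.card (T : Subgroup (alternatingGroup (Fin 5))) = 4 := by
        obtain ⟨k, hk⟩ := T.isPGroup'.exists_card_eq
        have hi : ¬ 2 ∣ (T : Subgroup (alternatingGroup (Fin 5))).index := T.not_dvd_index
        have hm := (T : Subgroup (alternatingGroup (Fin 5))).card_mul_index
        rw [hcard] at hm
        have hk' : Nat.card (T : Subgroup (alternatingGroup (Fin 5))) = 2 ^ k := hk
        rw [hk'] at hm ⊢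
        have hk6 : k < 6 := by
          by_contra hcon
          have h64 : 2 ^ 6 ≤ 2 ^ k := Nat.pow_le_pow_right (by norm_num) (by omega)
          have hpos : 0 < (T : Subgroup (alternatingGroup (Fin 5))).index := by
            rcases Nat.eq_zero_or_pos (T : Subgroup (alternatingGroup (Fin 5))).index with h0 | h0
            · rw [h0] at hm; omega
            · exact h0
          nlinarith
        interval_cases k <;> omega
      have hTeq : (T : Subgroup (alternatingGroup (Fin 5))) = H :=
        Subgroup.eq_of_le_of_card_ge hTH (by rw [hcH, hcT])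
      apply Cfsg.Agent.H2.PronSyl.pronormal_of_sylow 2 H T hTH
      rw [hTeq]
  · have hself := Cfsg.Agent.H87.AltF.selfNormAlt Cfsg.Agent.H87.AltF.sns_main n h6 T
    exact Cfsg.Agent.H2.PronSyl.pronormal_of_sylow 2 H T hTH
      (hself.trans (hTH.trans Subgroup.le_normalizer))

end Cfsg.Agent.S2222
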