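import Cfsg.Statements.S2232
-- import your own Cfsg.Agent.* helpers here
import Cfsg.Agent.H43.PClosed
import Cfsg.Agent.H43.SU3Local
import Cfsg.Agent.H51.QdField

set_option autoImplicit false
open Cfsg

namespace Cfsg.Agent.S2232

open Cfsg.Agent.H43 Cfsg.Agent.H51 Matrix

/-- The upper unitriangular generator of `Qd(p)`. -/
def elX (p : ℕ) : ↥(affSub (ZMod p)) :=
  ⟨⟨!![1, 1, 0; 0, 1, 0; 0, 0, 1], by simp [Matrix.det_fin_three]⟩, by
    refine ⟨?_, ?_, ?_⟩ <;> simp⟩

/-- The lower unitriangular generator of `Qd(p)`. -/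
def elY (p : ℕ) : ↥(affSub (ZMod p)) :=
  ⟨⟨!![1, 0, 0; 1, 1, 0; 0, 0, 1], by simp [Matrix.det_fin_three]⟩, by
    refine ⟨?_, ?_, ?_⟩ <;> simp⟩

/-- The underlying matrix, as a monoid homomorphism. -/
def toM (p : ℕ) : ↥(affSub (ZMod p)) →* Matrix (Fin 3) (Fin 3) (ZMod p) :=
  ((Units.coeHom (Matrix (Fin 3) (Fin 3) (ZMod p))).comp Matrix.SpecialLinearGroup.toGL).comp
    (affSub (ZMod p)).subtype

theorem toM_injective (p : ℕ) : Function.Injective (toM p) := by
  intro a b hab
  apply Subtype.ext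
  apply Subtype.ext
  exact hab

theorem toM_elX (p : ℕ) : toM p (elX p) = !![1, 1, 0; 0, 1, 0; 0, 0, 1] := rfl

theorem toM_elY (p : ℕ) : toM p (elY p) = !![1, 0, 0; 1, 1, 0; 0, 0, 1] := rfl

theorem elX_pow (p : ℕ) (m : ℕ) :
    toM p (elX p ^ m) = !![1, (m : ZMod p), 0; 0, 1, 0; 0, 0, 1] := by
  induction m with
  | zero =>
    rw [pow_zero, map_one]
    ext i j
    fin_cases i <;> fin_cases j <;> simp
  | succ m ih =>
    rw [pow_succ, map_mul, ih, toM_elX]
    ext i j
    fin_cases i <;> fin_cases j <;> simp [Matrix.mul_apply, Fin.sum_univ_three, add_comm]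

theorem elY_pow (p : ℕ) (m : ℕ) :
    toM p (elY p ^ m) = !![1, 0, 0; (m : ZMod p), 1, 0; 0, 0, 1] := by
  induction m with
  | zero =>
    rw [pow_zero, map_one]
    ext i j
    fin_cases i <;> fin_cases j <;> simp
  | succ m ih =>
    rw [pow_succ, map_mul, ih, toM_elY]
    ext i j
    fin_cases i <;> fin_cases j <;> simp [Matrix.mul_apply, Fin.sum_univ_three]

theorem elX_pElt (p : ℕ) : IsPElt p (elX p) := by
  refine ⟨1, ?_⟩
  apply toM_injective
  rw [pow_one, elX_pow, map_one]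
  ext i j
  fin_cases i <;> fin_cases j <;> simp

theorem elY_pElt (p : ℕ) : IsPElt p (elY p) := by
  refine ⟨1, ?_⟩
  apply toM_injective
  rw [pow_one, elY_pow, map_one]
  ext i j
  fin_cases i <;> fin_cases j <;> simp

theorem elXY_not_pElt (p : ℕ) [Fact p.Prime] : ¬ IsPElt p (elX p * elY p) := by
  rintro ⟨k, hk⟩
  obtain ⟨M, hM⟩ : ∃ M : Matrix (Fin 3) (Fin 3) (ZMod p), M = toM p (elX p * elY p) := ⟨_, rfl⟩
  have hMk : M ^ p ^ k = 1 := by
    rw [hM, ← map_pow, hk, map_one]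
  have hnil : IsNilpotent (M - 1) := by
    refine ⟨p ^ k, ?_⟩
    have h1 := sub_pow_char_pow_of_commute (p := p) (n := k) (Commute.one_right M)
    rw [h1, hMk, one_pow, sub_self]
  have htr := Matrix.isNilpotent_trace_of_isNilpotent hnil
  have htr1 : (M - 1).trace = 1 := by
    rw [hM, map_mul, toM_elX, toM_elY]
    simp [Matrix.trace, Fin.sum_univ_three]
    ring
  rw [htr1] at htr
  exact one_ne_zero (isNilpotent_iff_eq_zero.mp htr)

/-- Let p be an odd prime, q a power of p and K a finite field with q² elements. Then Qd(p) (the natural semidirect product of an elementary abelian group of order p² by SL₂(p)) is not involved in the projective special unitary group PSU₃(q) realised over K. -/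
theorem result {p : ℕ} [Fact p.Prime] (hp : p ≠ 2) {K : Type*} [Field K] [Fintype K] [CharP K p] (n : ℕ) (hn : 1 ≤ n) (hK : Fintype.card K = (p ^ n) ^ 2) : ¬ Cfsg.Involves ↥(Cfsg.qd p) (Cfsg.PSU 3 K (p ^ n)) := by
  intro hinv
  have hp3 : 3 ≤ p := by
    have := (Fact.out : p.Prime).two_le
    omega
  obtain ⟨K₁, f, hf⟩ := exists_surj_of_involves_quot _ hinv
  obtain ⟨f', hf'⟩ : ∃ f' : K₁ →* ↥(affSub (ZMod p)), Function.Surjective f' :=
    ⟨(MulEquiv.subgroupCongr (qd_eq p)).toMonoidHom.comp f,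
      (MulEquiv.subgroupCongr (qd_eq p)).surjective.comp hf⟩
  have hE : IsPGroup p (blockHom (ZMod p)).ker := ker_isPGroup
  have hE1 : (blockHom (ZMod p)).ker ≠ ⊥ := by
    intro h0
    have h1 : mkAff (1 : SpecialLinearGroup (Fin 2) (ZMod p)) ![0, 1] ∈ (blockHom (ZMod p)).ker :=
      mkAff_one_mem_ker _
    rw [h0, Subgroup.mem_bot] at h1
    have h2 := congrArg transl h1
    rw [transl_mkAff, transl_one] at h2
    have h3 := congrFun h2 1
    simp at h3
  have hKp : ∃ m : ℕ, Fintype.card K = p ^ m := ⟨n * 2, by rw [hK, pow_mul]⟩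
  have hcl : PMulClosed p ↥(affSub (ZMod p)) :=
    pMulClosed_of_section (fun P hP hne x hx y hy hxp hyp =>
      su3_normalizer_pmul hp3 hK hKp P hP hne x hx y hy hxp hyp) K₁ f' hf'
      (blockHom (ZMod p)).ker hE hE1
  exact elXY_not_pElt p (hcl _ _ (elX_pElt p) (elY_pElt p))

end Cfsg.Agent.S2232
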