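import Cfsg.Statements.S2249
-- import your own Cfsg.Agent.* helpers here
import Cfsg.Agent.H43.GLTwoPart
import Cfsg.Agent.H43.GLWreath
import Cfsg.Agent.H43.GLUpper
import Cfsg.Agent.H43.InvDiag

set_option autoImplicit false
open Cfsg

namespace Cfsg.Agent.S2249

open Matrix H43

/-- The normal 2-rank of the general linear group over a finite field of odd order q: for n ≥ 1 and S a Sylow 2-subgroup of GL_n(F), the largest rank of an elementary abelian subgroup of S that is normal in S equals n when q ≡ 1 (mod 4) and ⌊(n + 1)/2⌋ when q ≡ 3 (mod 4). -/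
theorem result {F : Type*} [Field F] [Fintype F] {q : ℕ} (hF : Fintype.card F = q) (hodd : Odd q) (n : ℕ) (hn : 1 ≤ n) (S : Sylow 2 (Matrix.GeneralLinearGroup (Fin n) F)) :
    (q % 4 = 1 → ((∃ E : Subgroup ↥(S : Subgroup (Matrix.GeneralLinearGroup (Fin n) F)), E.Normal ∧ Cfsg.IsElementaryAbelian 2 E ∧ 2 ^ (n) ≤ Nat.card ↥E) ∧
      ∀ E : Subgroup ↥(S : Subgroup (Matrix.GeneralLinearGroup (Fin n) F)), E.Normal → Cfsg.IsElementaryAbelian 2 E → Nat.card ↥E ≤ 2 ^ (n))) ∧
    (q % 4 = 3 → ((∃ E : Subgroup ↥(S : Subgroup (Matrix.GeneralLinearGroup (Fin n) F)), E.Normal ∧ Cfsg.IsElementaryAbelian 2 E ∧ 2 ^ ((n + 1) / 2) ≤ Nat.card ↥E) ∧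
      ∀ E : Subgroup ↥(S : Subgroup (Matrix.GeneralLinearGroup (Fin n) F)), E.Normal → Cfsg.IsElementaryAbelian 2 E → Nat.card ↥E ≤ 2 ^ ((n + 1) / 2))) := by
  classical
  subst hF
  have h2 : (2 : F) ≠ 0 := two_ne_zero_of_odd_card hodd
  constructor
  · intro h1
    constructor
    · have e : (Fin 1 × Fin n) ⊕ Fin 0 ≃ Fin n := Fintype.equivFinOfCardEq (by simp)
      obtain ⟨E, hEn, hEel, hEc⟩ := exists_normal_elemAb_GL (β := Fin 1) (κ := Fin n)
        (γ := Fin 0) hodd e (by
          have := gl_two_part_dvd_one h1 n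
          simpa using this) S
      exact ⟨E, hEn, hEel, by rw [hEc]; simp⟩
    · intro E _ hE
      have key := card_le_two_pow_of_comm_invol h2 (α := ↥E)
        (fun a => (((a : ↥(S : Subgroup (Matrix.GeneralLinearGroup (Fin n) F))) :
          Matrix.GeneralLinearGroup (Fin n) F) : Matrix (Fin n) (Fin n) F)) ?_ ?_ ?_
      · simpa using key
      · intro a a' h
        exact Subtype.ext (Subtype.ext (Units.ext h))
      · intro a
        have h1 := hE.2 a a.2
        rw [pow_two] at h1
        have h2 := congrArg (fun z : ↥(S : Subgroup (Matrix.GeneralLinearGroup (Fin n) F)) =>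
          ((z : Matrix.GeneralLinearGroup (Fin n) F) : Matrix (Fin n) (Fin n) F)) h1
        exact h2
      · intro a a'
        have h1 : a * a' = a' * a := hE.1.is_comm.comm a a'
        have h2 := congrArg (fun z : ↥E =>
          (((z : ↥(S : Subgroup (Matrix.GeneralLinearGroup (Fin n) F))) :
            Matrix.GeneralLinearGroup (Fin n) F) : Matrix (Fin n) (Fin n) F)) h1
        exact h2
  · intro h3
    have hcard : Fintype.card ((Fin 2 × Fin (n / 2)) ⊕ Fin (n % 2)) = n := by
      simp
      omega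
    have e : (Fin 2 × Fin (n / 2)) ⊕ Fin (n % 2) ≃ Fin n := Fintype.equivFinOfCardEq hcard
    have hexp : n / 2 + n % 2 = (n + 1) / 2 := by omega
    constructor
    · obtain ⟨E, hEn, hEel, hEc⟩ := exists_normal_elemAb_GL (β := Fin 2) (κ := Fin (n / 2))
        (γ := Fin (n % 2)) hodd e (by
          have := gl_two_part_dvd_two hodd n
          simpa using this) S
      refine ⟨E, hEn, hEel, ?_⟩
      rw [hEc, Fintype.card_fin, Fintype.card_fin, hexp]
    · intro E hEn hE
      have key := card_normal_elemAb_GL_le h3 e S E hEn hE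
      rwa [Fintype.card_fin, Fintype.card_fin, hexp] at key

end Cfsg.Agent.S2249
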