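import Cfsg.Statements.S2254
import Cfsg.Agent.H43.NilPerm
import Cfsg.Agent.H43.NilConj

set_option autoImplicit false
open Cfsg

namespace Cfsg.Agent.S2254

open H43

/-- A nilpotent subgroup of `S_n` isomorphic to `P × C₃` for a `2`-subgroup `P` of `S_{n-3}`. -/
theorem exists_prod_three (n : ℕ) (hn : 3 ≤ n) (P : Subgroup (Equiv.Perm (Fin (n - 3))))
    (hP : IsPGroup 2 P) :
    ∃ M : Subgroup (Equiv.Perm (Fin n)), Group.IsNilpotent M ∧ Nat.card M = 3 * Nat.card P ∧
      Nonempty (M ≃* (↥P × Multiplicative (ZMod 3))) := by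
  classical
  have : Fact (Nat.Prime 2) := ⟨Nat.prime_two⟩
  have hcardZ : Fintype.card (Multiplicative (ZMod 3)) = 3 := by
    rw [Fintype.card_multiplicative, ZMod.card]
  let e : Fin (n - 3) ⊕ Multiplicative (ZMod 3) ≃ Fin n :=
    Fintype.equivOfCardEq (by rw [Fintype.card_sum, Fintype.card_fin, Fintype.card_fin, hcardZ]; omega)
  let cay : Multiplicative (ZMod 3) →* Equiv.Perm (Multiplicative (ZMod 3)) :=
    MulAction.toPermHom _ _
  have hcay : Function.Injective cay := MulAction.toPerm_injective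
  let ψ : ↥P × Multiplicative (ZMod 3) →* Equiv.Perm (Fin n) :=
    (Equiv.permCongrHom e).toMonoidHom.comp
      ((Equiv.Perm.sumCongrHom _ _).comp (P.subtype.prodMap cay))
  have hψ : Function.Injective ψ := by
    refine (Equiv.permCongrHom e).injective.comp (Equiv.Perm.sumCongrHom_injective.comp ?_)
    exact Prod.map_injective.mpr ⟨Subgroup.subtype_injective _, hcay⟩
  have hnilP : Group.IsNilpotent P := hP.isNilpotent
  have hnil : Group.IsNilpotent (↥P × Multiplicative (ZMod 3)) := inferInstance
  refine ⟨ψ.range, Group.nilpotent_of_surjective ψ.rangeRestrict ψ.rangeRestrict_surjective, ?_,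
    ⟨(MonoidHom.ofInjective hψ).symm⟩⟩
  rw [← Nat.card_congr (MonoidHom.ofInjective hψ).toEquiv, Nat.card_prod,
    Nat.card_eq_fintype_card (α := Multiplicative (ZMod 3)), hcardZ, mul_comm]

/-- Let n ≡ 3 (mod 4). Then every nilpotent subgroup of the symmetric group on n letters has order at most 3 times the order of a Sylow 2-subgroup of the symmetric group on n − 3 letters; the bound is attained by a nilpotent subgroup isomorphic to the direct product of such a Sylow 2-subgroup with a cyclic group of order 3; and any two nilpotent subgroups attaining the bound are conjugate. -/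
theorem result  (n : ℕ) (hn : n % 4 = 3)
    (P : Sylow 2 (Equiv.Perm (Fin (n - 3)))) :
    (∀ N : Subgroup (Equiv.Perm (Fin n)), Group.IsNilpotent N → Nat.card N ≤ 3 * Nat.card P) ∧
    (∃ M : Subgroup (Equiv.Perm (Fin n)), Group.IsNilpotent M ∧ Nat.card M = 3 * Nat.card P ∧
      Nonempty (M ≃* (↥(P : Subgroup (Equiv.Perm (Fin (n - 3)))) × Multiplicative (ZMod 3)))) ∧
    (∀ N₁ N₂ : Subgroup (Equiv.Perm (Fin n)), Group.IsNilpotent N₁ → Group.IsNilpotent N₂ →
      Nat.card N₁ = 3 * Nat.card P → Nat.card N₂ = 3 * Nat.card P →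
      ∃ g : Equiv.Perm (Fin n), N₂ = N₁.map (MulAut.conj g).toMonoidHom) := by
  have hPcard : Nat.card P = g2 (n - 3) := by
    rw [Sylow.card_eq_multiplicity P, Nat.card_perm, Nat.card_fin,
      Nat.factorization_def _ Nat.prime_two]
    rfl
  have hbound : nilBound n = 3 * g2 (n - 3) := by
    unfold nilBound
    rw [if_pos hn]
  refine ⟨?_, ?_, ?_⟩
  · intro N hN
    have h1 : Nat.card N ≤ nilBound n :=
      card_le_nilBound_of_injective n N (Fin n) N.subtype (Subgroup.subtype_injective _)
        (by simp)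
    rw [hPcard, ← hbound]
    exact h1
  · exact exists_prod_three n (by omega) P P.isPGroup'
  · intro N₁ N₂ h₁ h₂ hc₁ hc₂
    rw [hPcard] at hc₁ hc₂
    exact nil_extremal_conj n hn N₁ N₂ h₁ h₂ hc₁ hc₂

end Cfsg.Agent.S2254
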