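import Cfsg.Statements.S2255
-- import your own Cfsg.Agent.* helpers here
import Cfsg.Agent.H43.AltNilPerm

set_option autoImplicit false
open Cfsg

namespace Cfsg.Agent.S2255

open H43

/-- Twice the order of a Sylow `2`-subgroup of `A_n` is the order of a Sylow `2`-subgroup of
`S_n`. -/
theorem two_mul_card_sylow_alt (n : ℕ) (hn : 2 ≤ n) (P : Sylow 2 (alternatingGroup (Fin n))) :
    2 * Nat.card P = g2 n := by
  have : Nontrivial (Fin n) := Fin.nontrivial_iff_two_le.mpr hn
  have h1 : 2 * Nat.card (alternatingGroup (Fin n)) = n.factorial := by
    have := two_mul_card_alternatingGroup (α := Fin n)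
    rw [Nat.card_eq_fintype_card, this, Fintype.card_perm, Fintype.card_fin]
  have hpos : Nat.card (alternatingGroup (Fin n)) ≠ 0 := Nat.card_pos.ne'
  have h2 : (n.factorial).factorization 2 =
      1 + (Nat.card (alternatingGroup (Fin n))).factorization 2 := by
    rw [← h1, Nat.factorization_mul (by norm_num) hpos]
    simp [Nat.Prime.factorization_self Nat.prime_two]
  rw [Sylow.card_eq_multiplicity P, ← _root_.pow_succ']
  unfold g2 v2
  rw [← Nat.factorization_def _ Nat.prime_two, h2, add_comm]

/-- Let n be a natural number not congruent to 3 modulo 4, with n ∉ {5, 6, 9}. Then every nilpotent subgroup of the alternating group on n letters has order at most the order of a Sylow 2-subgroup of the alternating group (so the nilpotent subgroups of largest order are exactly the Sylow 2-subgroups). -/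
theorem result  (n : ℕ) (hn : n % 4 ≠ 3)
    (h5 : n ≠ 5) (h6 : n ≠ 6) (h9 : n ≠ 9)
    (N : Subgroup (alternatingGroup (Fin n))) (hN : Group.IsNilpotent N)
    (P : Sylow 2 (alternatingGroup (Fin n))) :
    Nat.card N ≤ Nat.card P := by
  have key : 2 * Nat.card N ≤ altBound2 n :=
    two_mul_card_le_altBound2 n N (Fin n) ((alternatingGroup (Fin n)).subtype.comp N.subtype)
      ((Subgroup.subtype_injective _).comp (Subgroup.subtype_injective _))
      (fun g => Equiv.Perm.mem_alternatingGroup.mp (g : alternatingGroup (Fin n)).2)
      (Fintype.card_fin n)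
  by_cases hn1 : n ≤ 1
  · have hval : altBound2 n = 2 := by
      unfold altBound2
      rw [if_pos hn1]
    have hpos : 0 < Nat.card P := Nat.card_pos
    omega
  · have hval : altBound2 n = g2 n := by
      unfold altBound2
      rw [if_neg hn1, if_neg (by omega), if_neg h5, if_neg h6, if_neg h9, nilBound_of_ne hn]
    have hP := two_mul_card_sylow_alt n (by omega) P
    omega

end Cfsg.Agent.S2255
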