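import Cfsg.Statements.S2256
-- import your own Cfsg.Agent.* helpers here
import Cfsg.Agent.H43.AltNilPerm
import Cfsg.Agent.H43.NilConjAlt
import Cfsg.Agent.S2255

set_option autoImplicit false
open Cfsg

namespace Cfsg.Agent.S2256

open H43

/-- A nilpotent subgroup of `A_n` isomorphic to `P × C₃` for a `2`-subgroup `P` of `A_{n-3}`. -/
theorem exists_prod_three_alt (n : ℕ) (hn : 3 ≤ n)
    (P : Subgroup (alternatingGroup (Fin (n - 3)))) (hP : IsPGroup 2 P) :
    ∃ M : Subgroup (alternatingGroup (Fin n)), Group.IsNilpotent M ∧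
      Nat.card M = 3 * Nat.card P ∧ Nonempty (M ≃* (↥P × Multiplicative (ZMod 3))) := by
  classical
  have : Fact (Nat.Prime 2) := ⟨Nat.prime_two⟩
  have hcardZ : Fintype.card (Multiplicative (ZMod 3)) = 3 := by
    rw [Fintype.card_multiplicative, ZMod.card]
  let e : Fin (n - 3) ⊕ Multiplicative (ZMod 3) ≃ Fin n :=
    Fintype.equivOfCardEq (by rw [Fintype.card_sum, Fintype.card_fin, Fintype.card_fin, hcardZ]; omega)
  let cay : Multiplicative (ZMod 3) →* Equiv.Perm (Multiplicative (ZMod 3)) :=
    MulAction.toPermHom _ _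
  have hcay : Function.Injective cay := MulAction.toPerm_injective
  let ι : ↥P →* Equiv.Perm (Fin (n - 3)) :=
    (alternatingGroup (Fin (n - 3))).subtype.comp P.subtype
  have hι : Function.Injective ι :=
    (Subgroup.subtype_injective _).comp (Subgroup.subtype_injective _)
  let ψ : ↥P × Multiplicative (ZMod 3) →* Equiv.Perm (Fin n) :=
    (Equiv.permCongrHom e).toMonoidHom.comp
      ((Equiv.Perm.sumCongrHom _ _).comp (ι.prodMap cay))
  have hψ : Function.Injective ψ := by
    refine (Equiv.permCongrHom e).injective.comp (Equiv.Perm.sumCongrHom_injective.comp ?_)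
    exact Prod.map_injective.mpr ⟨hι, hcay⟩
  have hsign : ∀ w, Equiv.Perm.sign (ψ w) = 1 := by
    rintro ⟨x, z⟩
    have h1 : ψ (x, z) = e.permCongr (Equiv.Perm.sumCongr (ι x) (cay z)) := rfl
    rw [h1, Equiv.Perm.sign_permCongr, Equiv.Perm.sign_sumCongr]
    have hx : Equiv.Perm.sign (ι x) = 1 :=
      Equiv.Perm.mem_alternatingGroup.mp (x : alternatingGroup (Fin (n - 3))).2
    have hz : Equiv.Perm.sign (cay z) = 1 := by
      have h3 : (cay z) ^ 3 = 1 := by
        rw [← map_pow]
        have : z ^ 3 = 1 := by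
          have h := pow_card_eq_one (x := z)
          rwa [hcardZ] at h
        rw [this, map_one]
      have h4 := congrArg Equiv.Perm.sign h3
      rw [map_pow, map_one] at h4
      rcases Int.units_eq_one_or (Equiv.Perm.sign (cay z)) with h | h
      · exact h
      · rw [h] at h4; exact absurd h4 (by decide)
    rw [hx, hz, mul_one]
  let ψ' : ↥P × Multiplicative (ZMod 3) →* alternatingGroup (Fin n) :=
    ψ.codRestrict (alternatingGroup (Fin n))
      (fun w => Equiv.Perm.mem_alternatingGroup.mpr (hsign w))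
  have hψ' : Function.Injective ψ' := by
    intro a b h
    apply hψ
    exact congrArg Subtype.val h
  have hnilP : Group.IsNilpotent P := hP.isNilpotent
  have hnil : Group.IsNilpotent (↥P × Multiplicative (ZMod 3)) := inferInstance
  refine ⟨ψ'.range, Group.nilpotent_of_surjective ψ'.rangeRestrict ψ'.rangeRestrict_surjective, ?_,
    ⟨(MonoidHom.ofInjective hψ').symm⟩⟩
  rw [← Nat.card_congr (MonoidHom.ofInjective hψ').toEquiv, Nat.card_prod,
    Nat.card_eq_fintype_card (α := Multiplicative (ZMod 3)), hcardZ, mul_comm]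

/-- Let n ≡ 3 (mod 4) with n ≥ 7. Then every nilpotent subgroup of the alternating group on n letters has order at most 3 times the order of a Sylow 2-subgroup of the alternating group on n − 3 letters; the bound is attained by a nilpotent subgroup isomorphic to the direct product of such a Sylow 2-subgroup with a cyclic group of order 3; and any two nilpotent subgroups of the alternating group attaining the bound are conjugate in it. -/
theorem result  (n : ℕ) (hn : n % 4 = 3) (h7 : 7 ≤ n)
    (P : Sylow 2 (alternatingGroup (Fin (n - 3)))) :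
    (∀ N : Subgroup (alternatingGroup (Fin n)), Group.IsNilpotent N → Nat.card N ≤ 3 * Nat.card P) ∧
    (∃ M : Subgroup (alternatingGroup (Fin n)), Group.IsNilpotent M ∧ Nat.card M = 3 * Nat.card P ∧
      Nonempty (M ≃* (↥(P : Subgroup (alternatingGroup (Fin (n - 3)))) × Multiplicative (ZMod 3)))) ∧
    (∀ N₁ N₂ : Subgroup (alternatingGroup (Fin n)), Group.IsNilpotent N₁ → Group.IsNilpotent N₂ →
      Nat.card N₁ = 3 * Nat.card P → Nat.card N₂ = 3 * Nat.card P →
      ∃ g : alternatingGroup (Fin n), N₂ = N₁.map (MulAut.conj g).toMonoidHom) := by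
  have hP : 2 * Nat.card P = g2 (n - 3) :=
    Cfsg.Agent.S2255.two_mul_card_sylow_alt (n - 3) (by omega) P
  have hval : altBound2 n = 3 * g2 (n - 3) := by
    unfold altBound2 nilBound
    rw [if_neg (by omega), if_neg (by omega), if_neg (by omega), if_neg (by omega),
      if_neg (by omega), if_pos hn]
  refine ⟨?_, ?_, ?_⟩
  · intro N hN
    have key : 2 * Nat.card N ≤ altBound2 n :=
      two_mul_card_le_altBound2 n N (Fin n) ((alternatingGroup (Fin n)).subtype.comp N.subtype)
        ((Subgroup.subtype_injective _).comp (Subgroup.subtype_injective _))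
        (fun g => Equiv.Perm.mem_alternatingGroup.mp (g : alternatingGroup (Fin n)).2)
        (Fintype.card_fin n)
    omega
  · exact exists_prod_three_alt n (by omega) P P.isPGroup'
  · intro N₁ N₂ h₁ h₂ hc₁ hc₂
    set ι := (alternatingGroup (Fin n)).subtype with hι
    have hιinj : Function.Injective ι := Subgroup.subtype_injective _
    have hn₁ : Group.IsNilpotent (N₁.map ι) :=
      Group.nilpotent_of_surjective (ι.subgroupMap N₁) (ι.subgroupMap_surjective N₁)
    have hn₂ : Group.IsNilpotent (N₂.map ι) :=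
      Group.nilpotent_of_surjective (ι.subgroupMap N₂) (ι.subgroupMap_surjective N₂)
    have hle₁ : N₁.map ι ≤ alternatingGroup (Fin n) := by
      rintro _ ⟨x, -, rfl⟩
      exact x.2
    have hle₂ : N₂.map ι ≤ alternatingGroup (Fin n) := by
      rintro _ ⟨x, -, rfl⟩
      exact x.2
    have hcard₁ : 2 * Nat.card (N₁.map ι) = 3 * g2 (n - 3) := by
      rw [Subgroup.card_map_of_injective hιinj, hc₁]; omega
    have hcard₂ : 2 * Nat.card (N₂.map ι) = 3 * g2 (n - 3) := by
      rw [Subgroup.card_map_of_injective hιinj, hc₂]; omega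
    obtain ⟨g, hg, hgN⟩ := alt_nil_extremal_conj n hn h7 (N₁.map ι) (N₂.map ι) hle₁ hle₂ hn₁ hn₂
      hcard₁ hcard₂
    refine ⟨⟨g, hg⟩, ?_⟩
    ext y
    constructor
    · intro hy
      have hmem : ι y ∈ N₂.map ι := ⟨y, hy, rfl⟩
      rw [hgN] at hmem
      obtain ⟨x', ⟨x, hx, rfl⟩, hxy⟩ := hmem
      refine ⟨x, hx, ?_⟩
      apply hιinj
      exact hxy
    · rintro ⟨x, hx, rfl⟩
      have hmem : ι (MulAut.conj (⟨g, hg⟩ : alternatingGroup (Fin n)) x) ∈ N₂.map ι := by
        rw [hgN]
        exact ⟨ι x, ⟨x, hx, rfl⟩, rfl⟩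
      obtain ⟨z, hz, hzy⟩ := hmem
      have hzeq := hιinj hzy
      rw [hzeq] at hz
      exact hz

end Cfsg.Agent.S2256
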