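import Mathlib
import Cfsg.Statements.S2257
import Cfsg.Agent.H7.Solub

set_option autoImplicit false
open Cfsg

namespace Cfsg.Agent.S2257

open Cfsg.Agent.H7

open scoped MatrixGroups

/-- Let G = PSL_2(F) with F a field of order q = 2^p, p prime, and for x ∈ G call the solubilizer of x the set of y ∈ G such that x and y generate a solvable subgroup. Then the solubilizer of an involution has 3q(q − 1) elements; that of a non-identity element of order dividing q − 1 has 2q(q − 1) elements; and that of a non-identity element of order dividing q + 1 has 2(q + 1) elements. -/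
theorem result (p : ℕ) (hp : p.Prime) {F : Type*} [Field F] [Fintype F]
    (hF : Fintype.card F = 2 ^ p) (x : Matrix.ProjectiveSpecialLinearGroup (Fin 2) F) :
    (orderOf x = 2 → Nat.card {y : Matrix.ProjectiveSpecialLinearGroup (Fin 2) F // Group.IsSolvable ↥(Subgroup.closure ({x, y} : Set (Matrix.ProjectiveSpecialLinearGroup (Fin 2) F)))} = 3 * 2 ^ p * (2 ^ p - 1)) ∧
    (x ≠ 1 → orderOf x ∣ 2 ^ p - 1 → Nat.card {y : Matrix.ProjectiveSpecialLinearGroup (Fin 2) F // Group.IsSolvable ↥(Subgroup.closure ({x, y} : Set (Matrix.ProjectiveSpecialLinearGroup (Fin 2) F)))} = 2 * 2 ^ p * (2 ^ p - 1)) ∧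
    (x ≠ 1 → orderOf x ∣ 2 ^ p + 1 → Nat.card {y : Matrix.ProjectiveSpecialLinearGroup (Fin 2) F // Group.IsSolvable ↥(Subgroup.closure ({x, y} : Set (Matrix.ProjectiveSpecialLinearGroup (Fin 2) F)))} = 2 * (2 ^ p + 1)) := by
  classical
  have h2 : (2 : F) = 0 := by
    have h := FiniteField.cast_card_eq_zero F
    rw [hF] at h
    push_cast at h
    exact (pow_eq_zero_iff hp.ne_zero).mp h
  have hcen : Subgroup.center SL(2, F) = ⊥ := Cfsg.Agent.H64.PSL2Even.center_SL2_eq_bot h2
  have hinj : Function.Injective (QuotientGroup.mk' (Subgroup.center SL(2, F))) := by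
    intro a b hab
    have h := QuotientGroup.eq.mp hab
    rw [hcen, Subgroup.mem_bot] at h
    exact inv_mul_eq_one.mp h
  obtain ⟨e, he⟩ : ∃ e : SL(2, F) ≃* PSL(2, F), True :=
    ⟨MulEquiv.ofBijective (QuotientGroup.mk' (Subgroup.center SL(2, F)))
      ⟨hinj, QuotientGroup.mk'_surjective _⟩, trivial⟩
  obtain ⟨X, rfl⟩ := e.surjective x
  rw [card_solubilizer_equiv e X, MulEquiv.orderOf_eq e X, ← hF]
  have hne : e X ≠ 1 → X ≠ 1 := fun h h' => h (by rw [h']; exact map_one e)
  refine ⟨fun ho => ?_, fun hx1 hd => ?_, fun hx1 hd => ?_⟩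
  · have hX1 : X ≠ 1 := by
      rintro rfl
      rw [orderOf_one] at ho
      exact absurd ho (by norm_num)
    have hXX : X * X = 1 := by
      have h := pow_orderOf_eq_one X
      rwa [ho, pow_two] at h
    exact card_solub_invol h2 X hX1 ((sl2_mul_self_eq_one_iff h2 X).mp hXX)
  · obtain ⟨htx, l, hl⟩ := exists_root_of_orderOf_dvd_pred h2 X (hne hx1) hd
    exact card_solub_split h2 X l hl htx
  · exact card_solub_ellip h2 X (no_root_of_orderOf_dvd_succ h2 X (hne hx1) hd)

end Cfsg.Agent.S2257
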