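import Mathlib
import Cfsg.Statements.S2258
import Cfsg.Agent.H7.Solub3F

set_option autoImplicit false
open Cfsg

namespace Cfsg.Agent.S2258

/-- Let G = PSL_2(F) with F a field of order q = 3^p, p an odd prime, and for x ∈ G call the solubilizer of x the set of y ∈ G such that x and y generate a solvable subgroup. Then the solubilizer of an involution has q(q + 1) elements; that of an element of order 3 has q(q + 5)/2 elements; that of an element of order neither 1 nor 2 dividing q − 1 has q(q − 1) elements; and that of an element of order neither 1 nor 2 dividing q + 1 has q + 1 elements. -/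
theorem result (p : ℕ) (hp : p.Prime) (hodd : Odd p) {F : Type*} [Field F] [Fintype F]
    (hF : Fintype.card F = 3 ^ p) (x : Matrix.ProjectiveSpecialLinearGroup (Fin 2) F) :
    (orderOf x = 2 → Nat.card {y : Matrix.ProjectiveSpecialLinearGroup (Fin 2) F // Group.IsSolvable ↥(Subgroup.closure ({x, y} : Set (Matrix.ProjectiveSpecialLinearGroup (Fin 2) F)))} = 3 ^ p * (3 ^ p + 1)) ∧
    (orderOf x = 3 → 2 * Nat.card {y : Matrix.ProjectiveSpecialLinearGroup (Fin 2) F // Group.IsSolvable ↥(Subgroup.closure ({x, y} : Set (Matrix.ProjectiveSpecialLinearGroup (Fin 2) F)))} = 3 ^ p * (3 ^ p + 5)) ∧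
    (x ≠ 1 → orderOf x ≠ 2 → orderOf x ∣ 3 ^ p - 1 → Nat.card {y : Matrix.ProjectiveSpecialLinearGroup (Fin 2) F // Group.IsSolvable ↥(Subgroup.closure ({x, y} : Set (Matrix.ProjectiveSpecialLinearGroup (Fin 2) F)))} = 3 ^ p * (3 ^ p - 1)) ∧
    (x ≠ 1 → orderOf x ≠ 2 → orderOf x ∣ 3 ^ p + 1 → Nat.card {y : Matrix.ProjectiveSpecialLinearGroup (Fin 2) F // Group.IsSolvable ↥(Subgroup.closure ({x, y} : Set (Matrix.ProjectiveSpecialLinearGroup (Fin 2) F)))} = 3 ^ p + 1) := by
  classical
  have h3 : ((3 : ℕ) : F) = 0 := by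
    have h := FiniteField.cast_card_eq_zero F
    rw [hF] at h
    push_cast at h
    have := (pow_eq_zero_iff hp.ne_zero).mp h
    exact_mod_cast this
  have hchar : CharP F 3 := by
    obtain ⟨l, hl⟩ := CharP.exists F
    have hlp : l.Prime := CharP.char_is_prime F l
    have hd : l ∣ 3 := (CharP.cast_eq_zero_iff F l 3).mp h3
    have : l = 3 := (Nat.prime_dvd_prime_iff_eq hlp Nat.prime_three).mp hd
    rw [← this]
    exact hl
  have hmod : Fintype.card F % 4 = 3 := by
    rw [hF]
    obtain ⟨k, rfl⟩ := hodd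
    rw [pow_succ, pow_mul, Nat.mul_mod, Nat.pow_mod]
    norm_num
  have hns : ∀ a : F, a ^ 2 ≠ -1 := by
    intro a ha
    have hsq : IsSquare (-1 : F) := ⟨a, by rw [← ha]; ring⟩
    exact (FiniteField.isSquare_neg_one_iff.mp hsq) hmod
  have hmain := Cfsg.Agent.H7.s3_psl_main hns x
  rw [hF] at hmain
  exact hmain

end Cfsg.Agent.S2258
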