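import Cfsg.Statements.S2268

set_option autoImplicit false
open Cfsg

namespace Cfsg.Agent.S2268

open Subgroup in
/-- Let G be a finite group with an abelian Sylow p-subgroup P and let Q ≤ P. Then N_G(Q) = (N_G(Q) ∩ N_G(P))·C_G(Q), so that N_G(Q)/C_G(Q) is a homomorphic image of the subgroup (N_G(Q) ∩ N_G(P))/C_G(P) of N_G(P)/C_G(P); in particular the order of N_G(Q)/C_G(Q) divides the order of N_G(P)/C_G(P). -/
theorem result {G : Type*} [Group G] [Finite G] {p : ℕ} [Fact p.Prime]
    (P : Sylow p G) (hP : IsMulCommutative (P : Subgroup G)) (Q : Subgroup G) (hQ : Q ≤ (P : Subgroup G)) :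
    Subgroup.normalizer (Q : Set G) =
      (Subgroup.normalizer (Q : Set G) ⊓ Subgroup.normalizer ((P : Subgroup G) : Set G)) ⊔ Subgroup.centralizer (Q : Set G) ∧
    ((Subgroup.centralizer (Q : Set G)).subgroupOf (Subgroup.normalizer (Q : Set G))).index ∣ ((Subgroup.centralizer ((P : Subgroup G) : Set G)).subgroupOf (Subgroup.normalizer ((P : Subgroup G) : Set G))).index := by
  -- abbreviations
  have hCN : centralizer (Q : Set G) ≤ normalizer (Q : Set G) := centralizer_le_normalizer _
  have hPC : (P : Subgroup G) ≤ centralizer (Q : Set G) := by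
    intro x hx y hy
    have := hP.is_comm.comm (⟨y, hQ hy⟩ : (P : Subgroup G)) ⟨x, hx⟩
    exact congrArg Subtype.val this
  have hCPCQ : centralizer ((P : Subgroup G) : Set G) ≤ centralizer (Q : Set G) :=
    centralizer_le hQ
  have hCPNP : centralizer ((P : Subgroup G) : Set G) ≤ normalizer ((P : Subgroup G) : Set G) :=
    centralizer_le_normalizer _
  have key : normalizer (Q : Set G) =
      (normalizer (Q : Set G) ⊓ normalizer ((P : Subgroup G) : Set G)) ⊔ centralizer (Q : Set G) := by
    apply le_antisymm
    · intro n hn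
      -- `n • P ≤ C_G(Q)`
      have h2 : ((n • P : Sylow p G) : Subgroup G) ≤ centralizer (Q : Set G) := by
        rintro x ⟨y, hy, rfl⟩
        have hy' : y ∈ centralizer (Q : Set G) := hPC hy
        have hnorm : ((centralizer (Q : Set G)).subgroupOf (normalizer (Q : Set G))).Normal :=
          inferInstance
        have := hnorm.conj_mem ⟨y, hCN hy'⟩ (by simpa [mem_subgroupOf] using hy') ⟨n, hn⟩
        simpa [mem_subgroupOf] using this
      obtain ⟨c, hc⟩ := MulAction.exists_smul_eq (centralizer (Q : Set G))
        ((n • P).subtype h2) (P.subtype hPC)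
      simp_rw [Sylow.smul_subtype, Subgroup.smul_def, smul_smul] at hc
      have hmem : (c : G) * n ∈ normalizer ((P : Subgroup G) : Set G) :=
        Sylow.smul_eq_iff_mem_normalizer.mp (Sylow.subtype_injective hc)
      have hmemN : (c : G) * n ∈ normalizer (Q : Set G) := mul_mem (hCN c.2) hn
      have : n = (c : G)⁻¹ * ((c : G) * n) := by group
      rw [this]
      exact mul_mem (mem_sup_right (inv_mem c.2)) (mem_sup_left ⟨hmemN, hmem⟩)
    · exact sup_le inf_le_left hCN
  refine ⟨key, ?_⟩
  set N := normalizer (Q : Set G) with hN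
  set C := centralizer (Q : Set G) with hC
  set NP := normalizer ((P : Subgroup G) : Set G) with hNP
  set CP := centralizer ((P : Subgroup G) : Set G) with hCP
  set M := N ⊓ NP with hM
  change C.relIndex N ∣ CP.relIndex NP
  have hMN : M ≤ N := inf_le_left
  -- step 1: `C.relIndex N = C.relIndex M`
  have h1 : C.relIndex N = C.relIndex M := by
    have hsup : M.subgroupOf N ⊔ C.subgroupOf N = ⊤ := by
      rw [← subgroupOf_sup hMN hCN, ← key]
      exact subgroupOf_self N
    have := relIndex_sup_right (H := M.subgroupOf N) (K := C.subgroupOf N)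
    rw [hsup, relIndex_top_right, relIndex_subgroupOf hMN] at this
    exact this
  rw [h1, ← inf_relIndex_right]
  have hCPle : CP ≤ C ⊓ M := le_inf hCPCQ (le_inf (hCPCQ.trans hCN) hCPNP)
  have h2 : (C ⊓ M).relIndex M ∣ CP.relIndex M := relIndex_dvd_of_le_left M hCPle
  have h3 : CP.relIndex M ∣ CP.relIndex NP :=
    Dvd.intro _ (relIndex_mul_relIndex CP M NP (hCPle.trans inf_le_right) inf_le_right)
  exact h2.trans h3

end Cfsg.Agent.S2268
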