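import Cfsg.Statements.S2333
import Cfsg.Agent.H44.SpLMain
import Cfsg.Agent.H44.SpLRep
import Cfsg.Agent.H44.SpLB2
import Cfsg.Agent.H72.SpLChiT
import Cfsg.Agent.H72.SpLB1
import Cfsg.Agent.H72.SpLOrbD
import Cfsg.Agent.H72.SpLOrb
import Cfsg.Agent.H72.SpLG2
import Cfsg.Agent.H72.SpLG3
import Cfsg.Agent.H72.SpLEmb
import Cfsg.Agent.H72.SpLB3
import Cfsg.Agent.H89.SpLChar
import Cfsg.Agent.H89.SpLChar2
import Cfsg.Agent.H89.SpLArith
import Cfsg.Agent.H89.SpLCount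
import Cfsg.Agent.H25.SpLG1
import Cfsg.Agent.H25.SpLG4

set_option autoImplicit false
open Cfsg

namespace Cfsg.Agent.S2333

/-- For a finite field F of even order q and n ≥ 2 with (n, q) ≠ (2, 2), every irreducible complex representation of the symplectic group Sp_{2n}(F) of degree at least 2 has degree at least (q^n − 1)(q^n − q)/(2(q + 1)). -/
theorem result {F : Type*} [Field F] [Fintype F] [DecidableEq F] (n : ℕ) (hn : 2 ≤ n) (heven : Even (Fintype.card F)) (hex : (n, Fintype.card F) ≠ (2, 2)) :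
    (∀ (k : ℕ) (ρ : Representation ℂ (Matrix.symplecticGroup (Fin n) F) (Fin k → ℂ)), ρ.IsIrreducible → 2 ≤ k → (Fintype.card F ^ n - 1) * (Fintype.card F ^ n - Fintype.card F) / (2 * (Fintype.card F + 1)) ≤ k) := by
  exact Cfsg.Agent.H44.SpL.final Cfsg.Agent.H44.SpL.r1 Cfsg.Agent.H44.SpL.r3
    Cfsg.Agent.H25.SpL.g1 Cfsg.Agent.H72.SpL.g2 Cfsg.Agent.H72.SpL.g3 Cfsg.Agent.H25.SpL.g4
    Cfsg.Agent.H72.SpL.emb Cfsg.Agent.H72.SpL.b3 Cfsg.Agent.H72.SpL.chiT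
    Cfsg.Agent.H89.SpL.char Cfsg.Agent.H72.SpL.b1
    (Cfsg.Agent.H44.SpL.b2 Cfsg.Agent.H25.SpL.g1 Cfsg.Agent.H72.SpL.g2 Cfsg.Agent.H72.SpL.chiT)
    (Cfsg.Agent.H72.SpL.orb Cfsg.Agent.H72.SpL.orbD Cfsg.Agent.H89.SpL.count)
    Cfsg.Agent.H89.SpL.arith Cfsg.Agent.H89.SpL.char2 n hn heven

end Cfsg.Agent.S2333
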