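import Cfsg.Statements.S2352
import Mathlib

set_option autoImplicit false
open Cfsg

namespace Cfsg.Agent.S2352

open Equiv

/-- consecutive letters of a reduced word -/
theorem reduced_consec {L : List (ℕ × Bool)} (hL : FreeGroup.IsReduced L) (j : ℕ) (h : j + 1 < L.length) :
    (L[j]'(by omega)).1 = (L[j + 1]).1 → (L[j]'(by omega)).2 = (L[j + 1]).2 := by
  induction L generalizing j with
  | nil => simp at h
  | cons x L ih =>
    cases L with
    | nil => simp at h
    | cons y L =>
      rw [FreeGroup.isReduced_cons_cons] at hL
      cases j with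
      | zero => simpa using hL.1
      | succ j =>
        have := ih hL.2 j (by simpa using h)
        simpa using this

/-- source point of the `j`-th letter -/
def src (L : List (ℕ × Bool)) (n : ℕ) (hn : L.length + 3 ≤ n) (j : Fin L.length) : Fin n :=
  ⟨if (L.get j).2 then (j : ℕ) + 1 else (j : ℕ), by split_ifs <;> omega⟩

/-- target point of the `j`-th letter -/
def tgt (L : List (ℕ × Bool)) (n : ℕ) (hn : L.length + 3 ≤ n) (j : Fin L.length) : Fin n :=
  ⟨if (L.get j).2 then (j : ℕ) else (j : ℕ) + 1, by split_ifs <;> omega⟩

theorem src_inj {L : List (ℕ × Bool)} (hL : FreeGroup.IsReduced L) (n : ℕ) (hn : L.length + 3 ≤ n)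
    (j j' : Fin L.length) (ha : (L.get j).1 = (L.get j').1) (h : src L n hn j = src L n hn j') : j = j' := by
  have h' := congrArg Fin.val h
  simp only [src] at h'
  by_contra hne
  have hne' : (j : ℕ) ≠ j' := fun e => hne (Fin.ext e)
  by_cases hb : (L.get j).2 = true <;> by_cases hb' : (L.get j').2 = true
  · rw [if_pos hb, if_pos hb'] at h'
    omega
  · rw [if_pos hb, if_neg hb'] at h'
    -- j + 1 = j'
    have := reduced_consec hL j (by have := j'.2; omega)
    have e : L[(j : ℕ) + 1]'(by have := j'.2; omega) = L.get j' := by
      simp only [List.get_eq_getElem]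
      congr 1
    rw [e] at this
    have := this ha
    rw [← List.get_eq_getElem] at this
    rw [this] at hb
    exact hb' hb
  · rw [if_neg hb, if_pos hb'] at h'
    have := reduced_consec hL j' (by have := j.2; omega)
    have e : L[(j' : ℕ) + 1]'(by have := j.2; omega) = L.get j := by
      simp only [List.get_eq_getElem]
      congr 1
      exact h'.symm
    rw [e] at this
    have := this ha.symm
    rw [← List.get_eq_getElem] at this
    rw [← this] at hb
    exact hb hb'
  · rw [if_neg hb, if_neg hb'] at h'
    omega

theorem tgt_inj {L : List (ℕ × Bool)} (hL : FreeGroup.IsReduced L) (n : ℕ) (hn : L.length + 3 ≤ n)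
    (j j' : Fin L.length) (ha : (L.get j).1 = (L.get j').1) (h : tgt L n hn j = tgt L n hn j') : j = j' := by
  have h' := congrArg Fin.val h
  simp only [tgt] at h'
  by_contra hne
  have hne' : (j : ℕ) ≠ j' := fun e => hne (Fin.ext e)
  by_cases hb : (L.get j).2 = true <;> by_cases hb' : (L.get j').2 = true
  · rw [if_pos hb, if_pos hb'] at h'
    omega
  · rw [if_pos hb, if_neg hb'] at h'
    -- j = j' + 1
    have := reduced_consec hL j' (by have := j.2; omega)
    have e : L[(j' : ℕ) + 1]'(by have := j.2; omega) = L.get j := by
      simp only [List.get_eq_getElem]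
      congr 1
      exact h'.symm
    rw [e] at this
    have := this ha.symm
    rw [← List.get_eq_getElem] at this
    rw [← this] at hb
    exact hb' hb
  · rw [if_neg hb, if_pos hb'] at h'
    have := reduced_consec hL j (by have := j'.2; omega)
    have e : L[(j : ℕ) + 1]'(by have := j'.2; omega) = L.get j' := by
      simp only [List.get_eq_getElem]
      congr 1
    rw [e] at this
    have := this ha
    rw [← List.get_eq_getElem] at this
    rw [this] at hb
    exact hb hb'
  · rw [if_neg hb, if_neg hb'] at h'
    omega

/-- even permutations realising the letters -/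
theorem exists_perm {L : List (ℕ × Bool)} (hL : FreeGroup.IsReduced L) (n : ℕ) (hn : L.length + 3 ≤ n) (a : ℕ) :
    ∃ σ : Perm (Fin n), Perm.sign σ = 1 ∧
      ∀ j : Fin L.length, (L.get j).1 = a → σ (src L n hn j) = tgt L n hn j := by
  obtain ⟨σ, hσ⟩ := Perm.exists_extending_pair
    (fun j : {j : Fin L.length // (L.get j).1 = a} => src L n hn j.1)
    (fun j : {j : Fin L.length // (L.get j).1 = a} => tgt L n hn j.1)
    (fun j j' h => Subtype.ext (src_inj hL n hn j.1 j'.1 (j.2.trans j'.2.symm) h))
    (fun j j' h => Subtype.ext (tgt_inj hL n hn j.1 j'.1 (j.2.trans j'.2.symm) h))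
  rcases Int.units_eq_one_or (Perm.sign σ) with h1 | h1
  · exact ⟨σ, h1, fun j hj => hσ ⟨j, hj⟩⟩
  · let u : Fin n := ⟨L.length + 1, by omega⟩
    let v : Fin n := ⟨L.length + 2, by omega⟩
    have huv : u ≠ v := by
      intro h
      have := congrArg Fin.val h
      simp [u, v] at this
    refine ⟨σ * swap u v, ?_, fun j hj => ?_⟩
    · rw [Perm.sign_mul, h1, Perm.sign_swap huv]
      rfl
    · rw [Perm.mul_apply, swap_apply_of_ne_of_ne, hσ ⟨j, hj⟩]
      · intro h
        have h' := congrArg Fin.val h
        simp only [src, u] at h'
        have := j.2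
        split_ifs at h' <;> omega
      · intro h
        have h' := congrArg Fin.val h
        simp only [src, v] at h'
        have := j.2
        split_ifs at h' <;> omega

/-- A non-trivial law holds in only finitely many alternating groups: for every non-trivial element w of the free group on countably many generators there is N such that for all n ≥ N some substitution of elements of the alternating group of degree n into w is not the identity. -/
theorem result (w : FreeGroup ℕ) (hw : w ≠ 1) :
    ∃ N : ℕ, ∀ n : ℕ, N ≤ n → ∃ f : ℕ → alternatingGroup (Fin n), FreeGroup.lift f w ≠ 1 := by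
  set L := w.toWord with hLdef
  have hL : FreeGroup.IsReduced L := FreeGroup.isReduced_toWord
  have hLne : L ≠ [] := fun h => hw (FreeGroup.toWord_eq_nil_iff.mp h)
  have hm : 0 < L.length := List.length_pos_of_ne_nil hLne
  refine ⟨L.length + 3, fun n hn => ?_⟩
  choose G hG1 hG2 using exists_perm hL n hn
  refine ⟨fun a => ⟨G a, Perm.mem_alternatingGroup.mpr (hG1 a)⟩, fun h => ?_⟩
  have hcomp : (alternatingGroup (Fin n)).subtype.comp
      (FreeGroup.lift fun a => (⟨G a, Perm.mem_alternatingGroup.mpr (hG1 a)⟩ : alternatingGroup (Fin n)))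
      = FreeGroup.lift G := by
    apply FreeGroup.ext_hom
    intro a
    simp
  have h1 : FreeGroup.lift G w = 1 := by
    rw [← hcomp, MonoidHom.comp_apply, h, map_one]
  have hw' : w = FreeGroup.mk L := FreeGroup.mk_toWord.symm
  rw [hw', FreeGroup.lift_mk] at h1
  -- evaluate at the point `m`
  have key : ∀ d k : ℕ, k + d = L.length → ∀ (hk : k < n) (hm' : L.length < n),
      ((L.drop k).map fun x => cond x.2 (G x.1) (G x.1)⁻¹).prod ⟨L.length, hm'⟩ = ⟨k, hk⟩ := by
    intro d
    induction d with
    | zero =>
      intro k hk hk' hm'
      have : k = L.length := by omega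
      subst this
      simp
    | succ d ih =>
      intro k hk hk' hm'
      have hkl : k < L.length := by omega
      rw [List.drop_eq_getElem_cons hkl, List.map_cons, List.prod_cons, Perm.mul_apply,
        ih (k + 1) (by omega) (by omega) hm']
      have h2 := hG2 (L[k]).1 ⟨k, hkl⟩ rfl
      by_cases hb : (L[k]).2 = true
      · rw [hb]
        simp only [cond_true]
        have e1 : src L n hn ⟨k, hkl⟩ = ⟨k + 1, by omega⟩ := by
          apply Fin.ext
          simp [src, hb]
        have e2 : tgt L n hn ⟨k, hkl⟩ = ⟨k, hk'⟩ := by
          apply Fin.ext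
          simp [tgt, hb]
        rw [e1, e2] at h2
        exact h2
      · have hb' : (L[k]).2 = false := by simpa using hb
        rw [hb']
        simp only [cond_false]
        have e1 : src L n hn ⟨k, hkl⟩ = ⟨k, hk'⟩ := by
          apply Fin.ext
          simp [src, hb']
        have e2 : tgt L n hn ⟨k, hkl⟩ = ⟨k + 1, by omega⟩ := by
          apply Fin.ext
          simp [tgt, hb']
        rw [e1, e2] at h2
        rw [Perm.inv_eq_iff_eq]
        exact h2.symm
  have h3 := key L.length 0 (by omega) (by omega) (by omega)
  rw [List.drop_zero, h1] at h3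
  have h4 := congrArg Fin.val h3
  simp only [Perm.coe_one, id_eq] at h4
  omega

end Cfsg.Agent.S2352
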