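import Mathlib
import Cfsg.Statements.S2354
import Cfsg.Agent.H7.LawSz

set_option autoImplicit false
open Cfsg

namespace Cfsg.Agent.S2354

open Matrix Polynomial
open scoped MatrixGroups

/-- The (1,0) entry of the polynomial word is non-zero: modulo `X ^ θ` the word is the doubled
`SL_2` word. -/
theorem szWord_ne_zero {F : Type*} [Field F] (θ : ℕ) (p : ℕ × Bool) (L : List (ℕ × Bool))
    (hred : FreeGroup.IsReduced (p :: L)) (hθ : Cfsg.Agent.S2353.bound (p :: L) < θ) :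
    (FreeGroup.lift (H7.szPoly F θ) (FreeGroup.mk (p :: L))).val 1 0 ≠ 0 := by
  classical
  obtain ⟨h1, h2⟩ := Cfsg.Agent.S2353.inv_word (F := F) L p hred
  obtain ⟨M, hM⟩ : ∃ M, M = Cfsg.Agent.S2353.wordMat (fun i => (X : F[X]) ^ (i + 1)) (p :: L) :=
    ⟨_, rfl⟩
  rw [← hM] at h1 h2
  have hQ : M.1 1 0 ≠ 0 ∧ (M.1 1 0).natDegree ≤ Cfsg.Agent.S2353.bound (p :: L) := by
    rcases hb : p.2 with _ | _
    · obtain ⟨h3, h4, h5⟩ := h2 hb
      refine ⟨?_, h5⟩
      intro h
      rw [h, natDegree_zero] at h4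
      omega
    · obtain ⟨h3, h4, h5⟩ := h1 hb
      exact ⟨h3, by omega⟩
  -- the quotient ring
  let I : Ideal F[X] := Ideal.span {(X : F[X]) ^ θ}
  let π : F[X] →+* F[X] ⧸ I := Ideal.Quotient.mk I
  have hπX : π ((X : F[X]) ^ θ) = 0 :=
    Ideal.Quotient.eq_zero_iff_mem.mpr (Ideal.mem_span_singleton_self _)
  have hπQ : π (M.1 1 0) ≠ 0 := by
    intro h
    rw [Ideal.Quotient.eq_zero_iff_mem, Ideal.mem_span_singleton] at h
    have h3 := Polynomial.natDegree_le_of_dvd h hQ.1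
    rw [natDegree_X_pow] at h3
    omega
  intro hzero
  apply hπQ
  -- map the word to the quotient
  have h3 : H7.mapU π (FreeGroup.lift (H7.szPoly F θ) (FreeGroup.mk (p :: L))) =
      FreeGroup.lift (fun i => H7.mapU π (H7.szPoly F θ i)) (FreeGroup.mk (p :: L)) :=
    (H7.lift_comp_hom (H7.mapU π) (H7.szPoly F θ) _).symm
  have h4 : (fun i => H7.mapU π (H7.szPoly F θ i)) = fun i =>
      ((Units.map H7.dblMat).comp Matrix.SpecialLinearGroup.toGL)
        (Cfsg.Agent.S2353.genA (π ((X : F[X]) ^ (i + 1)))) := by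
    funext i
    rw [H7.szPoly, H7.mapU_szX]
    have h5 : π ((X : F[X]) ^ ((i + 1) * θ)) = 0 := by
      rw [mul_comm, pow_mul, map_pow, hπX, zero_pow (by omega)]
    rw [h5, H7.szX_zero]
    rfl
  rw [h4, H7.lift_comp_hom ((Units.map H7.dblMat).comp Matrix.SpecialLinearGroup.toGL)
    (fun i => Cfsg.Agent.S2353.genA (π ((X : F[X]) ^ (i + 1)))),
    Cfsg.Agent.S2353.lift_eq_wordMat (fun i => π ((X : F[X]) ^ (i + 1))),
    ← Cfsg.Agent.S2353.map_wordMat π (fun i => (X : F[X]) ^ (i + 1)), ← hM] at h3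
  have h6 := congrArg (fun g : (Matrix (Fin 4) (Fin 4) (F[X] ⧸ I))ˣ => g.val 1 0) h3
  simp only [H7.mapU_val] at h6
  rw [hzero, map_zero] at h6
  rw [h6]
  show π (M.1 1 0) = H7.dblMat ((Matrix.SpecialLinearGroup.map π M).1) 1 0
  rw [Matrix.SpecialLinearGroup.map_apply_coe]
  simp [H7.dblMat]

/-- A non-trivial law holds in only finitely many Suzuki groups: for every non-trivial element w of the free group on countably many generators there is N such that for q = 2^(2m+1) with m ≥ N some substitution of elements of the Suzuki group over the field with q elements into w is not the identity. -/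
theorem result (w : FreeGroup ℕ) (hw : w ≠ 1) :
    ∃ N : ℕ, ∀ (F : Type*) [Field F] [Fintype F] (m : ℕ), 1 ≤ m → N ≤ m →
      Fintype.card F = 2 ^ (2 * m + 1) →
      ∃ f : ℕ → ↥(Cfsg.Lie.Sz F (2 ^ (m + 1))), FreeGroup.lift f w ≠ 1 := by
  classical
  obtain ⟨p, L, hL⟩ : ∃ p L, w.toWord = p :: L := by
    cases h : w.toWord with
    | nil => exact absurd (FreeGroup.toWord_eq_nil_iff.mp h) hw
    | cons p L => exact ⟨p, L, rfl⟩
  have hred : FreeGroup.IsReduced (p :: L) := by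
    rw [← hL]
    exact FreeGroup.isReduced_toWord
  have hwL : w = FreeGroup.mk (p :: L) := by rw [← hL, FreeGroup.mk_toWord]
  refine ⟨4 * H7.szBound (p :: L) + 8 + Cfsg.Agent.S2353.bound (p :: L), ?_⟩
  intro F _ _ m hm1 hNm hcard
  have hθ : 4 * H7.szBound (p :: L) + 8 + Cfsg.Agent.S2353.bound (p :: L) < 2 ^ (m + 1) := by
    have := Nat.lt_two_pow_self (n := m + 1)
    omega
  obtain ⟨θ, hθdef⟩ : ∃ θ, θ = 2 ^ (m + 1) := ⟨_, rfl⟩
  rw [← hθdef] at hθ ⊢
  have hθθ : θ * θ = 2 * Fintype.card F := by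
    rw [hcard, hθdef, ← pow_add, ← pow_succ']
    congr 1
    omega
  have hne := szWord_ne_zero (F := F) θ p L hred (by omega)
  have hdeg := H7.degLE_word (F := F) θ (p :: L) 1 0
  rw [← FreeGroup.lift_mk] at hdeg
  have hlt : ((FreeGroup.lift (H7.szPoly F θ) (FreeGroup.mk (p :: L))).val 1 0).natDegree <
      Fintype.card F := by
    refine lt_of_le_of_lt hdeg ?_
    have ha : (4 * H7.szBound (p :: L) + 8) * θ < θ * θ :=
      Nat.mul_lt_mul_of_pos_right (by omega) (by omega)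
    have hb : (4 * H7.szBound (p :: L) + 8) * θ = 4 * (H7.szBound (p :: L) * θ) + 8 * θ := by
      ring
    have hc : H7.szBound (p :: L) * (4 + 2 * θ) =
        4 * H7.szBound (p :: L) + 2 * (H7.szBound (p :: L) * θ) := by ring
    rw [hc]
    rw [hb, hθθ] at ha
    generalize H7.szBound (p :: L) * θ = Z at ha ⊢
    omega
  obtain ⟨t, ht⟩ := Polynomial.exists_eval_ne_zero_of_natDegree_lt_card _ hne (by
    rw [Cardinal.mk_fintype]
    exact_mod_cast hlt)
  have h2 : (2 : F) = 0 := by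
    have h := FiniteField.cast_card_eq_zero F
    rw [hcard] at h
    push_cast at h
    exact (pow_eq_zero_iff (by omega)).mp h
  have hθ0 : θ ≠ 0 := by omega
  have hpow : ∀ x : F, (x ^ θ) ^ θ = x ^ 2 := by
    intro x
    rw [← pow_mul, hθθ, mul_comm, pow_mul, FiniteField.pow_card]
  have hmem : ∀ i, H7.szX (t ^ (i + 1)) ((t ^ (i + 1)) ^ θ) ∈ Cfsg.Lie.Sz F θ := by
    intro i
    exact mul_mem (H7.szUU_mem θ hθ0 h2 _ _ rfl (hpow _)) (H7.szSU_mem θ hθ0 h2 _ _ rfl (hpow _))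
  refine ⟨fun i => ⟨H7.szX (t ^ (i + 1)) ((t ^ (i + 1)) ^ θ), hmem i⟩, ?_⟩
  intro h
  apply ht
  have h3 := congrArg (Subgroup.subtype (Cfsg.Lie.Sz F θ)) h
  rw [← H7.lift_comp_hom, map_one] at h3
  have h4 : H7.mapU (Polynomial.evalRingHom t) (FreeGroup.lift (H7.szPoly F θ) w) =
      FreeGroup.lift (fun i => H7.szX (t ^ (i + 1)) ((t ^ (i + 1)) ^ θ)) w := by
    rw [← H7.lift_comp_hom]
    have h5 : (fun i => H7.mapU (Polynomial.evalRingHom t) (H7.szPoly F θ i)) =
        fun i => H7.szX (t ^ (i + 1)) ((t ^ (i + 1)) ^ θ) := by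
      funext i
      rw [H7.szPoly, H7.mapU_szX]
      simp [pow_mul]
    rw [h5]
  have h6 := congrArg (fun g : (Matrix (Fin 4) (Fin 4) F)ˣ => g.val 1 0) (h4.trans h3)
  simp only [H7.mapU_val] at h6
  rw [hwL] at h6
  simpa using h6

end Cfsg.Agent.S2354
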