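import Mathlib
import Cfsg.Statements.S2355
import Cfsg.Agent.H7.LawFam

set_option autoImplicit false
open Cfsg

namespace Cfsg.Agent.S2355

open scoped MatrixGroups

/-- A non-trivial law is satisfied by only finitely many finite simple groups that are alternating or classical, up to isomorphism: for every non-trivial element w of the free group on countably many generators there is a bound N such that every alternating group of degree ≥ 5 and every simple classical group (linear, symplectic, unitary or orthogonal, in this problem's sense) in which w is a law has order at most N. -/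
theorem result (w : FreeGroup ℕ) (hw : w ≠ 1) :
    ∃ N : ℕ, ∀ (G : Type*) [Group G] [Finite G],
      (Cfsg.IsAlternating G ∨ Cfsg.IsPSL G ∨ Cfsg.IsPSp G ∨ Cfsg.IsPSU G ∨ Cfsg.IsPOmegaOdd G ∨
          Cfsg.IsPOmegaPlus G ∨ Cfsg.IsPOmegaMinus G) →
      (∀ f : ℕ → G, FreeGroup.lift f w = 1) → Nat.card G ≤ N := by
  obtain ⟨N₀, hN₀⟩ := H7.nlc_SL2.{0} w hw
  obtain ⟨p, hpN, hp⟩ := Nat.exists_infinite_primes N₀
  haveI : Fact p.Prime := ⟨hp⟩
  have hH1 : H7.NLC w SL(2, ZMod p) := hN₀ (ZMod p) (by rw [Nat.card_zmod]; exact hpN)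
  have hperm : ∀ k, Nat.card SL(2, ZMod p) ≤ k → H7.NLC w (Equiv.Perm (Fin k)) :=
    fun k hk => hH1.perm_of_card_le k hk
  refine ⟨(Nat.card SL(2, ZMod p)).factorial +
    (N₀ ^ 2) ^ ((2 * Nat.card SL(2, ZMod p) + 2) ^ 2), ?_⟩
  intro G _ _ hG hlaw
  rcases hG with h | h | h | h | h | h | h
  · exact (H7.alt_bound hperm h hlaw).trans (Nat.le_add_right _ _)
  · exact (H7.psl_bound hN₀ hperm h hlaw).trans (Nat.le_add_left _ _)
  · exact (H7.psp_bound hN₀ hperm h hlaw).trans (Nat.le_add_left _ _)
  · exact (H7.psu_bound hN₀ hperm h hlaw).trans (Nat.le_add_left _ _)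
  · exact (H7.odd_bound hN₀ hperm h hlaw).trans (Nat.le_add_left _ _)
  · exact (H7.plus_bound hN₀ hperm h hlaw).trans (Nat.le_add_left _ _)
  · exact (H7.minus_bound hN₀ hperm h hlaw).trans (Nat.le_add_left _ _)

end Cfsg.Agent.S2355
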