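import Cfsg.Statements.S2362
-- import your own Cfsg.Agent.* helpers here
import Cfsg.Agent.H45.SpElt
import Cfsg.Agent.H45.OmNoElt
import Cfsg.Agent.S0292

set_option autoImplicit false
open Cfsg

namespace Cfsg.Agent.S2362

/-- Let F be a finite field of odd order and n ≥ 3. The simple orthogonal group PΩ(2n+1, F) (type B_n) and the projective symplectic group PSp(2n, F) (type C_n), which have the same order, do not have the same set of element orders. -/
theorem result {F : Type*} [Field F] [Fintype F] (hodd : Odd (Fintype.card F)) (n : ℕ) (hn : 3 ≤ n) :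
    Set.range (orderOf : Cfsg.POmega F (Cfsg.quadFormOdd n F) → ℕ) ≠ Set.range (orderOf : Cfsg.PSp n F → ℕ) := by
  classical
  have h2 : (2 : F) ≠ 0 := H7.two_ne_zero_of_odd_card hodd
  rw [← H7.qOdd_coe n]
  obtain ⟨m, rfl⟩ : ∃ m, n = m + 1 := ⟨n - 1, by omega⟩
  have hpr : (ringChar F).Prime := CharP.char_is_prime F (ringChar F)
  have hfact : Fact (ringChar F).Prime := ⟨hpr⟩
  intro heq
  obtain ⟨x, hx⟩ := H45.psp_exists_elt h2 (ringChar F) m (by omega)
  have hmem : ringChar F * (Fintype.card F ^ m + 1) ∈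
      Set.range (orderOf : Cfsg.PSp (m + 1) F → ℕ) := ⟨x, hx⟩
  rw [← heq] at hmem
  obtain ⟨y, hy⟩ := hmem
  obtain ⟨g₀, rfl⟩ := QuotientGroup.mk'_surjective _ y
  have hcenter := Cfsg.Agent.S0292.center_eq_bot (F := F) h2 (m + 1) (by omega)
  have hπinj : Function.Injective
      (QuotientGroup.mk' (Subgroup.center (Omega F ⇑(H7.qOdd (m + 1) F)))) := by
    rw [← MonoidHom.ker_eq_bot_iff, QuotientGroup.ker_mk', hcenter]
  rw [orderOf_injective _ hπinj, ← Subgroup.orderOf_coe] at hy
  exact H45.omega_no_elt h2 (ringChar F) m (by omega) g₀.1 g₀.2 hy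

end Cfsg.Agent.S2362
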