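import Cfsg.Statements.S2394
-- import your own Cfsg.Agent.* helpers here
import Mathlib
import Cfsg.Agent.S0245
import Cfsg.Agent.S2904

set_option autoImplicit false
open scoped MatrixGroups
open Cfsg

namespace Cfsg.Agent.S2394

open Matrix

/-- The smallest degree of a faithful representation of the symplectic group `Sp_{2n}(q)` over its own field `F_q` is `2n`: every injective homomorphism from `Sp_{2n}(F)` to `GL_d(F)`, `F` the field with `q` elements, has `d ≥ 2n`. -/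
theorem result {F : Type*} [Field F] [Fintype F] (n : ℕ) {d : ℕ}
    (ρ : ↥(Matrix.symplecticGroup (Fin n) F) →* GL (Fin d) F) (hρ : Function.Injective ρ) : 2 * n ≤ d := by
  classical
  by_contra hlt
  push Not at hlt
  have hq2 : 2 ≤ Fintype.card F := by
    have := Fintype.one_lt_card (α := F)
    omega
  obtain ⟨q, hqdef⟩ : ∃ q, Fintype.card F = q := ⟨_, rfl⟩
  rw [hqdef] at hq2
  have hdvd : Nat.card ↥(Matrix.symplecticGroup (Fin n) F) ∣ Nat.card (GL (Fin d) F) :=
    Subgroup.card_dvd_of_injective ρ hρ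
  have hSp := Cfsg.Agent.S0245.result (F := F) hqdef n
  have hGL : Nat.card (GL (Fin d) F) = ∏ i : Fin d, (q ^ d - q ^ (i : ℕ)) := by
    rw [← hqdef]
    exact Matrix.card_GL_field d
  have hGLpos : 0 < Nat.card (GL (Fin d) F) := Nat.card_pos
  rw [hSp, hGL] at hdvd
  rw [hGL] at hGLpos
  obtain ⟨n', rfl⟩ : ∃ n', n = n' + 1 := ⟨n - 1, by omega⟩
  -- a prime `r` dividing `q^(2n) - 1` but no smaller `q^k - 1` gives a contradiction
  have key : ∀ r : ℕ, r.Prime → r ∣ q ^ (2 * (n' + 1)) - 1 →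
      (∀ k : ℕ, 0 < k → k < 2 * (n' + 1) → ¬ r ∣ q ^ k - 1) → False := by
    intro r hr hr1 hr2
    have h1 : r ∣ ∏ i : Fin d, (q ^ d - q ^ (i : ℕ)) := by
      refine dvd_trans ?_ hdvd
      apply Dvd.dvd.mul_left
      exact dvd_trans hr1 (Finset.dvd_prod_of_mem _ (Finset.mem_range.mpr (Nat.lt_succ_self n')))
    rw [Prime.dvd_finsetProd_iff hr.prime] at h1
    obtain ⟨i, -, hi⟩ := h1
    have h2 : q ^ d - q ^ (i : ℕ) = q ^ (i : ℕ) * (q ^ (d - (i : ℕ)) - 1) := by
      rw [Nat.mul_sub, mul_one, ← pow_add, Nat.add_sub_cancel' i.2.le]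
    rw [h2, hr.dvd_mul] at hi
    rcases hi with hi | hi
    · have h3 : r ∣ q := hr.dvd_of_dvd_pow hi
      have h4 : r ∣ q ^ (2 * (n' + 1)) := dvd_pow h3 (by omega)
      have h5 : 1 ≤ q ^ (2 * (n' + 1)) := Nat.one_le_pow _ _ (by omega)
      have h6 : r ∣ 1 := by
        have := Nat.dvd_sub h4 hr1
        rwa [Nat.sub_sub_self h5] at this
      exact hr.one_lt.ne' (Nat.dvd_one.mp h6)
    · exact hr2 (d - (i : ℕ)) (by have := i.2; omega) (by omega) hi
  by_cases hn1 : n' = 0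
  · -- `Sp_2`
    subst hn1
    have hle := Nat.le_of_dvd hGLpos hdvd
    have hd : d = 0 ∨ d = 1 := by omega
    have h1 : ∏ i : Fin d, (q ^ d - q ^ (i : ℕ)) ≤ q := by
      rcases hd with rfl | rfl
      · simp; omega
      · simp
    have h2 : q ^ ((0 + 1) ^ 2) * ∏ i ∈ Finset.range (0 + 1), (q ^ (2 * (i + 1)) - 1) =
        q * (q ^ 2 - 1) := by simp
    rw [h2] at hle
    have h3 : 3 ≤ q ^ 2 - 1 := by
      have : 4 ≤ q ^ 2 := by nlinarith
      omega
    nlinarith
  by_cases h6 : q = 2 ∧ 2 * (n' + 1) = 6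
  · -- `Sp_6(2)`
    obtain ⟨hq, hn⟩ := h6
    have hn' : n' = 2 := by omega
    subst hn'
    rw [hq] at hdvd
    have h81 : 81 ∣ ∏ i : Fin d, (2 ^ d - 2 ^ (i : ℕ)) := by
      refine dvd_trans ?_ hdvd
      apply Dvd.dvd.mul_left
      decide
    have hd : d ≤ 5 := by omega
    interval_cases d <;> revert h81 <;> decide
  · obtain ⟨r, hr, hr1, hr2⟩ := Cfsg.Agent.S2904.result q (2 * (n' + 1)) (by omega) (by omega) h6
      (by rintro ⟨h, -⟩; omega)
    exact key r hr hr1 hr2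

end Cfsg.Agent.S2394
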