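import Cfsg.Statements.S2450
import Cfsg.Agent.H7.PSL2

set_option autoImplicit false
open Cfsg

namespace Cfsg.Agent.S2450

open Polynomial

section

variable {F : Type*} [Field F]

/-- lower unitriangular element -/
def lowerU (t : F) : Matrix.SpecialLinearGroup (Fin 2) F :=
  ⟨!![1, 0; t, 1], by simp [Matrix.det_fin_two]⟩

/-- upper unitriangular element -/
def upperU (t : F) : Matrix.SpecialLinearGroup (Fin 2) F :=
  ⟨!![1, t; 0, 1], by simp [Matrix.det_fin_two]⟩

theorem lowerU_inv (t : F) : (lowerU t)⁻¹ = lowerU (-t) := by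
  apply inv_eq_of_mul_eq_one_right
  apply Subtype.ext
  rw [Matrix.SpecialLinearGroup.coe_mul]
  show !![1, 0; t, 1] * !![1, 0; -t, 1] = (1 : Matrix (Fin 2) (Fin 2) F)
  rw [Matrix.mul_fin_two, Matrix.one_fin_two]
  simp

theorem upperU_inv (t : F) : (upperU t)⁻¹ = upperU (-t) := by
  apply inv_eq_of_mul_eq_one_right
  apply Subtype.ext
  rw [Matrix.SpecialLinearGroup.coe_mul]
  show !![1, t; 0, 1] * !![1, -t; 0, 1] = (1 : Matrix (Fin 2) (Fin 2) F)
  rw [Matrix.mul_fin_two, Matrix.one_fin_two]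
  simp

theorem lowerU_coe (t : F) : (lowerU t).1 = !![1, 0; t, 1] := rfl

theorem upperU_coe (t : F) : (upperU t).1 = !![1, t; 0, 1] := rfl

theorem conj_lower_entry (A : Matrix.SpecialLinearGroup (Fin 2) F) (t : F) :
    (lowerU t * A * (lowerU t)⁻¹).1 1 0 = A.1 1 0 + t * (A.1 0 0 - A.1 1 1) - t ^ 2 * A.1 0 1 := by
  rw [lowerU_inv]
  simp only [Matrix.SpecialLinearGroup.coe_mul, lowerU_coe, Matrix.mul_apply, Fin.sum_univ_two,
    Matrix.of_apply, Matrix.cons_val', Matrix.cons_val_zero, Matrix.cons_val_one,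
    Matrix.cons_val_fin_one]
  ring

theorem trace_conj_upper_mul (A B : Matrix.SpecialLinearGroup (Fin 2) F) (t : F) :
    (upperU t * A * (upperU t)⁻¹ * B).1.trace =
      -(A.1 1 0 * B.1 1 0) * t ^ 2 +
        (A.1 1 0 * B.1 0 0 + (A.1 1 1 - A.1 0 0) * B.1 1 0 - A.1 1 0 * B.1 1 1) * t +
        (A.1 0 0 * B.1 0 0 + A.1 0 1 * B.1 1 0 + A.1 1 0 * B.1 0 1 + A.1 1 1 * B.1 1 1) := by
  rw [upperU_inv]
  simp only [Matrix.trace_fin_two, Matrix.SpecialLinearGroup.coe_mul, upperU_coe, Matrix.mul_apply,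
    Fin.sum_univ_two, Matrix.of_apply, Matrix.cons_val', Matrix.cons_val_zero, Matrix.cons_val_one,
    Matrix.cons_val_fin_one]
  ring

theorem exists_conj_lower_ne_zero [Fintype F] (h4 : 4 ≤ Fintype.card F)
    (A : Matrix.SpecialLinearGroup (Fin 2) F)
    (hA : A ∉ Subgroup.center (Matrix.SpecialLinearGroup (Fin 2) F)) :
    ∃ U : Matrix.SpecialLinearGroup (Fin 2) F, (U * A * U⁻¹).1 1 0 ≠ 0 := by
  classical
  by_cases hc : A.1 1 0 = 0
  · rw [Cfsg.Agent.H7.sl2_mem_center_iff] at hA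
    have hcard : ({0, (A.1 0 0 - A.1 1 1) / A.1 0 1} : Finset F).card < (Finset.univ : Finset F).card := by
      have h1 := Finset.card_le_two (a := (0 : F)) (b := (A.1 0 0 - A.1 1 1) / A.1 0 1)
      rw [Finset.card_univ]
      omega
    obtain ⟨t, -, ht⟩ := Finset.exists_mem_notMem_of_card_lt_card hcard
    simp only [Finset.mem_insert, Finset.mem_singleton, not_or] at ht
    obtain ⟨ht0, ht1⟩ := ht
    by_cases hb : A.1 0 1 = 0
    · refine ⟨lowerU 1, ?_⟩
      rw [conj_lower_entry, hc, hb]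
      have had : A.1 0 0 ≠ A.1 1 1 := fun h => hA ⟨hb, hc, h⟩
      simpa using sub_ne_zero.mpr had
    · refine ⟨lowerU t, ?_⟩
      rw [conj_lower_entry, hc]
      have h1 : (A.1 0 0 - A.1 1 1) - t * A.1 0 1 ≠ 0 := by
        intro h
        apply ht1
        field_simp
        linear_combination -h
      have h2 : 0 + t * (A.1 0 0 - A.1 1 1) - t ^ 2 * A.1 0 1 = t * ((A.1 0 0 - A.1 1 1) - t * A.1 0 1) := by
        ring
      rw [h2]
      exact mul_ne_zero ht0 h1
  · exact ⟨1, by simpa using hc⟩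

/-- Conjugate elements of `PSL₂` have lifts whose traces agree up to sign. -/
theorem trace_sq_of_mk_conj (C G W : Matrix.SpecialLinearGroup (Fin 2) F)
    (h : (QuotientGroup.mk W : Matrix.ProjectiveSpecialLinearGroup (Fin 2) F) * QuotientGroup.mk C *
      (QuotientGroup.mk W)⁻¹ = QuotientGroup.mk G) :
    G.1.trace ^ 2 = C.1.trace ^ 2 := by
  rw [← QuotientGroup.mk_inv, ← QuotientGroup.mk_mul, ← QuotientGroup.mk_mul, QuotientGroup.eq] at h
  obtain ⟨r, hr, hz⟩ := Matrix.SpecialLinearGroup.mem_center_iff.mp h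
  simp only [Fintype.card_fin] at hr
  have hG : G = (W * C * W⁻¹) * ((W * C * W⁻¹)⁻¹ * G) := by group
  have h1 : G.1 = (W * C * W⁻¹).1 * (Matrix.scalar (Fin 2) r) := by
    conv_lhs => rw [hG]
    rw [Matrix.SpecialLinearGroup.coe_mul, hz]
  have h2 : G.1.trace = r * (W * C * W⁻¹).1.trace := by
    rw [h1]
    have : (W * C * W⁻¹).1 * (Matrix.scalar (Fin 2) r) = r • (W * C * W⁻¹).1 := by
      ext i j
      simp [Matrix.mul_apply, Matrix.scalar_apply, Matrix.diagonal_apply, mul_comm]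
    rw [this, Matrix.trace_smul, smul_eq_mul]
  have h3 : (W * C * W⁻¹).1.trace = C.1.trace := by
    rw [Matrix.SpecialLinearGroup.coe_mul, Matrix.trace_mul_comm, ← Matrix.SpecialLinearGroup.coe_mul,
      ← mul_assoc, inv_mul_cancel, one_mul]
  rw [h2, h3, mul_pow, hr, one_mul]

end

/-- The Arad–Herzog conjecture for PSL(2,q): let F be a finite field with q ≥ 4 elements. For any two non-identity elements a, b of PSL(2,F), the set of products of a conjugate of a with a conjugate of b is not a single conjugacy class. -/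
theorem result {F : Type*} [Field F] [Fintype F] (h4 : 4 ≤ Fintype.card F)
    (a b : Matrix.ProjectiveSpecialLinearGroup (Fin 2) F) (ha : a ≠ 1) (hb : b ≠ 1) (c : Matrix.ProjectiveSpecialLinearGroup (Fin 2) F) :
    {g : Matrix.ProjectiveSpecialLinearGroup (Fin 2) F | ∃ u v : Matrix.ProjectiveSpecialLinearGroup (Fin 2) F, g = (u * a * u⁻¹) * (v * b * v⁻¹)} ≠ {g | IsConj c g} := by
  intro hS
  obtain ⟨A, rfl⟩ := QuotientGroup.mk_surjective a
  obtain ⟨B, rfl⟩ := QuotientGroup.mk_surjective b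
  obtain ⟨C0, rfl⟩ := QuotientGroup.mk_surjective c
  have hA : A ∉ Subgroup.center (Matrix.SpecialLinearGroup (Fin 2) F) := fun h =>
    ha ((QuotientGroup.eq_one_iff A).mpr h)
  have hB : B ∉ Subgroup.center (Matrix.SpecialLinearGroup (Fin 2) F) := fun h =>
    hb ((QuotientGroup.eq_one_iff B).mpr h)
  obtain ⟨U, hU⟩ := exists_conj_lower_ne_zero h4 A hA
  obtain ⟨V, hV⟩ := exists_conj_lower_ne_zero h4 B hB
  set A' := U * A * U⁻¹ with hA'
  set B' := V * B * V⁻¹ with hB'
  set α : F := -(A'.1 1 0 * B'.1 1 0) with hα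
  set β : F := A'.1 1 0 * B'.1 0 0 + (A'.1 1 1 - A'.1 0 0) * B'.1 1 0 - A'.1 1 0 * B'.1 1 1 with hβ
  set γ : F := A'.1 0 0 * B'.1 0 0 + A'.1 0 1 * B'.1 1 0 + A'.1 1 0 * B'.1 0 1 + A'.1 1 1 * B'.1 1 1 with hγ
  set σ : F := C0.1.trace with hσ
  have hα0 : α ≠ 0 := neg_ne_zero.mpr (mul_ne_zero hU hV)
  -- every value of the quadratic squares to σ²
  have key : ∀ t : F, (α * t ^ 2 + β * t + γ) ^ 2 = σ ^ 2 := by
    intro t
    have hmem : (QuotientGroup.mk (upperU t * A' * (upperU t)⁻¹ * B') :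
        Matrix.ProjectiveSpecialLinearGroup (Fin 2) F) ∈
        {g : Matrix.ProjectiveSpecialLinearGroup (Fin 2) F | ∃ u v : Matrix.ProjectiveSpecialLinearGroup (Fin 2) F,
          g = (u * QuotientGroup.mk A * u⁻¹) * (v * QuotientGroup.mk B * v⁻¹)} := by
      refine ⟨QuotientGroup.mk (upperU t * U), QuotientGroup.mk V, ?_⟩
      rw [← QuotientGroup.mk_inv, ← QuotientGroup.mk_inv, ← QuotientGroup.mk_mul, ← QuotientGroup.mk_mul,
        ← QuotientGroup.mk_mul, ← QuotientGroup.mk_mul, ← QuotientGroup.mk_mul]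
      congr 1
      rw [hA', hB']
      group
    rw [hS] at hmem
    obtain ⟨w, hw⟩ := isConj_iff.mp hmem
    obtain ⟨W, rfl⟩ := QuotientGroup.mk_surjective w
    have h1 := trace_sq_of_mk_conj C0 _ W hw
    rw [trace_conj_upper_mul] at h1
    exact h1
  by_cases h5 : 4 < Fintype.card F
  · -- degree 4 polynomial with more than 4 roots
    set P : F[X] := (C α * X ^ 2 + C β * X + C γ) ^ 2 - C (σ ^ 2) with hP
    have hdeg : P.natDegree ≤ 4 := by
      rw [hP]
      compute_degree
    have hP0 : P = 0 := by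
      apply eq_zero_of_natDegree_lt_card_of_eval_eq_zero P (f := id) Function.injective_id
      · intro t
        simp only [hP, id, eval_sub, eval_pow, eval_add, eval_mul, eval_C, eval_X]
        rw [key t, sub_self]
      · omega
    have h6 : (C α * X ^ 2 + C β * X + C γ : F[X]) ^ 2 = C (σ ^ 2) := sub_eq_zero.mp hP0
    have h7 := congrArg natDegree h6
    rw [natDegree_pow, natDegree_quadratic hα0, natDegree_C] at h7
    omega
  · have hq : Fintype.card F = 4 := by omega
    have hchar : ringChar F = 2 := by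
      rw [FiniteField.even_card_iff_char_two, hq]
    have : CharP F 2 := by
      rw [← hchar]
      exact ringChar.charP F
    have h2 : (2 : F) = 0 := by
      have := CharP.cast_eq_zero F 2
      exact_mod_cast this
    have key2 : ∀ t : F, α * t ^ 2 + β * t + (γ - σ) = 0 := by
      intro t
      have h1 : (α * t ^ 2 + β * t + (γ - σ)) ^ 2 = 0 := by
        linear_combination key t + (σ ^ 2 - (α * t ^ 2 + β * t + γ) * σ) * h2
      exact pow_eq_zero_iff (two_ne_zero) |>.mp h1
    set Q : F[X] := C α * X ^ 2 + C β * X + C (γ - σ) with hQ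
    have hQ0 : Q = 0 := by
      apply eq_zero_of_natDegree_lt_card_of_eval_eq_zero Q (f := id) Function.injective_id
      · intro t
        simp only [hQ, id, eval_add, eval_mul, eval_C, eval_X, eval_pow]
        exact key2 t
      · rw [hQ, natDegree_quadratic hα0, hq]
        norm_num
    have h7 := congrArg natDegree hQ0
    rw [hQ, natDegree_quadratic hα0, natDegree_zero] at h7
    omega

end Cfsg.Agent.S2450
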