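import Cfsg.Statements.S2455
import Cfsg.Agent.H46.ClassProd

set_option autoImplicit false
open Cfsg

namespace Cfsg.Agent.S2455

open Cfsg.Agent.H46

/-- A strong covering result in the direction of Thompson's conjecture (non-identity elements) for PSL(2,q), q odd: let F be a finite field of odd characteristic p with at least 5 elements and let x ∈ PSL(2,F) have order greater than 2 and not divisible by p (so x is not unipotent). Then every non-identity element of PSL(2,F) is a product of two conjugates of x. -/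
theorem result {F : Type*} [Field F] [Fintype F] (p : ℕ) [Fact p.Prime] [CharP F p] (hp : p ≠ 2) (h5 : 5 ≤ Fintype.card F)
    (x : Matrix.ProjectiveSpecialLinearGroup (Fin 2) F) (hx2 : 2 < orderOf x) (hxp : ¬ p ∣ orderOf x) : ∀ g : Matrix.ProjectiveSpecialLinearGroup (Fin 2) F, g ≠ 1 → ∃ u v : Matrix.ProjectiveSpecialLinearGroup (Fin 2) F, g = (u * x * u⁻¹) * (v * x * v⁻¹) := by
  intro g hg
  obtain ⟨X, rfl⟩ := QuotientGroup.mk_surjective x
  obtain ⟨G, rfl⟩ := QuotientGroup.mk_surjective g
  have hodd : Fintype.card F % 2 = 1 :=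
    FiniteField.odd_card_of_char_ne_two (F := F) (by rw [ringChar.eq F p]; exact hp)
  have hp2 : 2 ≤ p := (Fact.out : p.Prime).two_le
  have key : ∀ k : ℕ, X ^ k ∈ Subgroup.center (Matrix.SpecialLinearGroup (Fin 2) F) →
      orderOf (QuotientGroup.mk X : Matrix.ProjectiveSpecialLinearGroup (Fin 2) F) ∣ k := by
    intro k hk
    apply orderOf_dvd_of_pow_eq_one
    rw [← QuotientGroup.mk_pow, QuotientGroup.eq_one_iff]
    exact hk
  -- the trace of X is nonzero
  have hτ0 : X.1.trace ≠ 0 := by
    intro h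
    have h4 := sl2_sq_of_trace_zero X h
    have h5' : X ^ 2 ∈ Subgroup.center (Matrix.SpecialLinearGroup (Fin 2) F) :=
      sl2_mem_center_of_scalar (-1) (by ring)
        (by rw [Matrix.SpecialLinearGroup.coe_pow, pow_two, h4, map_neg, map_one])
    have h7 := Nat.le_of_dvd (by norm_num) (key 2 h5')
    omega
  -- the trace squared is not 4
  have hτ4 : X.1.trace ^ 2 ≠ 4 := by
    intro ht
    have h1 : (X.1.trace - 2) * (X.1.trace + 2) = 0 := by linear_combination ht
    have hc : X ^ p ∈ Subgroup.center (Matrix.SpecialLinearGroup (Fin 2) F) := by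
      rcases mul_eq_zero.mp h1 with h | h
      · have h5' := sl2_pow_char_of_trace p X 1 (by ring) (by linear_combination h)
        exact sl2_mem_center_of_scalar (1 ^ p) (by simp)
          (by rw [Matrix.SpecialLinearGroup.coe_pow]; exact h5')
      · have h5' := sl2_pow_char_of_trace p X (-1) (by ring) (by linear_combination h)
        exact sl2_mem_center_of_scalar ((-1) ^ p) (by rw [← pow_mul, mul_comm, pow_mul]; simp)
          (by rw [Matrix.SpecialLinearGroup.coe_pow]; exact h5')
    have h7 := key p hc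
    rcases (Nat.dvd_prime (Fact.out : p.Prime)).mp h7 with h | h
    · omega
    · exact hxp (by rw [h])
  -- G is not central
  have hGc : G ∉ Subgroup.center (Matrix.SpecialLinearGroup (Fin 2) F) := fun h =>
    hg ((QuotientGroup.eq_one_iff G).mpr h)
  obtain ⟨μ, hμ, hGN⟩ := isConj_nfSL G (nonScalar_of_not_mem_center G hGc)
  obtain ⟨Y, ε, hε, hY, hYN⟩ := exists_factor_odd hodd μ G.1.trace X.1.trace hμ hτ0
  have hXY : IsConj X Y := isConj_of_trace_odd hodd X Y hY.symm hτ4
  have hε' : (ε - 1) * (ε + 1) = 0 := by linear_combination hε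
  rcases mul_eq_zero.mp hε' with h | h
  · have hε1 : ε = 1 := by linear_combination h
    rw [hε1, one_mul] at hYN
    have hXY2 : IsConj X (Y⁻¹ * nfSL μ G.1.trace hμ) := isConj_of_trace_odd hodd X _ hYN.symm hτ4
    apply psl_prod_of_nf G (nfSL μ G.1.trace hμ) X Y (Y⁻¹ * nfSL μ G.1.trace hμ) hGN hXY hXY2
    rw [← QuotientGroup.mk_mul]
    congr 1
    group
  · have hε1 : ε = -1 := by linear_combination h
    rw [hε1] at hYN
    -- the central element -1
    obtain ⟨Z, hZ⟩ : ∃ Z : Matrix.SpecialLinearGroup (Fin 2) F, Z.1 = Matrix.scalar (Fin 2) (-1 : F) :=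
      ⟨⟨Matrix.scalar (Fin 2) (-1 : F), by simp [Matrix.det_fin_two]⟩, rfl⟩
    have hZc : Z ∈ Subgroup.center (Matrix.SpecialLinearGroup (Fin 2) F) :=
      sl2_mem_center_of_scalar (-1) (by ring) hZ
    have htr : (Z * (Y⁻¹ * nfSL μ G.1.trace hμ)).1.trace = X.1.trace := by
      rw [Matrix.SpecialLinearGroup.coe_mul, hZ]
      have : Matrix.scalar (Fin 2) (-1 : F) * (Y⁻¹ * nfSL μ G.1.trace hμ).1 =
          (-1 : F) • (Y⁻¹ * nfSL μ G.1.trace hμ).1 := by
        ext i j
        simp [Matrix.mul_apply, Matrix.scalar_apply, Matrix.diagonal_apply]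
      rw [this, Matrix.trace_smul, hYN]
      simp
    have hXY2 : IsConj X (Z * (Y⁻¹ * nfSL μ G.1.trace hμ)) := isConj_of_trace_odd hodd X _ htr.symm hτ4
    apply psl_prod_of_nf G (nfSL μ G.1.trace hμ) X Y (Z * (Y⁻¹ * nfSL μ G.1.trace hμ)) hGN hXY hXY2
    have hZ1 : (QuotientGroup.mk Z : Matrix.ProjectiveSpecialLinearGroup (Fin 2) F) = 1 :=
      (QuotientGroup.eq_one_iff Z).mpr hZc
    rw [QuotientGroup.mk_mul, hZ1, one_mul, ← QuotientGroup.mk_mul]
    congr 1
    group

end Cfsg.Agent.S2455
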