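import Cfsg.Statements.S2456
import Cfsg.Agent.H46.ClassProd2

set_option autoImplicit false
open Cfsg

namespace Cfsg.Agent.S2456

open Cfsg.Agent.H46

/-- A strong covering result in the direction of Thompson's conjecture (non-identity elements) for PSL(2,q), q even: let F be a finite field of characteristic 2 with q ≥ 4 elements and let x ∈ PSL(2,F) have order greater than 2 and not dividing q + 1. Then every non-identity element of PSL(2,F) is a product of two conjugates of x. -/
theorem result {F : Type*} [Field F] [Fintype F] [CharP F 2] (h4 : 4 ≤ Fintype.card F)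
    (x : Matrix.ProjectiveSpecialLinearGroup (Fin 2) F) (hx2 : 2 < orderOf x) (hxq : ¬ orderOf x ∣ Fintype.card F + 1) : ∀ g : Matrix.ProjectiveSpecialLinearGroup (Fin 2) F, g ≠ 1 → ∃ u v : Matrix.ProjectiveSpecialLinearGroup (Fin 2) F, g = (u * x * u⁻¹) * (v * x * v⁻¹) := by
  intro g hg
  obtain ⟨X, rfl⟩ := QuotientGroup.mk_surjective x
  obtain ⟨G, rfl⟩ := QuotientGroup.mk_surjective g
  have h2 : (2 : F) = 0 := two_eq_zero_of_charP_two
  have key : ∀ k : ℕ, X ^ k ∈ Subgroup.center (Matrix.SpecialLinearGroup (Fin 2) F) →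
      orderOf (QuotientGroup.mk X : Matrix.ProjectiveSpecialLinearGroup (Fin 2) F) ∣ k := by
    intro k hk
    apply orderOf_dvd_of_pow_eq_one
    rw [← QuotientGroup.mk_pow, QuotientGroup.eq_one_iff]
    exact hk
  have hτ0 : X.1.trace ≠ 0 := by
    intro h
    have h4' := sl2_sq_of_trace_zero X h
    have h5' : X ^ 2 ∈ Subgroup.center (Matrix.SpecialLinearGroup (Fin 2) F) :=
      sl2_mem_center_of_scalar (-1) (by ring)
        (by rw [Matrix.SpecialLinearGroup.coe_pow, pow_two, h4', map_neg, map_one])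
    have h7 := Nat.le_of_dvd (by norm_num) (key 2 h5')
    omega
  have hτ4 : X.1.trace ^ 2 ≠ 4 := by
    intro ht
    have h40 : (4 : F) = 0 := by linear_combination 2 * h2
    rw [h40] at ht
    exact hτ0 (pow_eq_zero_iff (two_ne_zero) |>.mp ht)
  have hroot : ∃ a : F, a ^ 2 - X.1.trace * a + 1 = 0 := by
    rcases sl2_root_or_pow_card_succ X hτ4 with h | h
    · exact h
    · exfalso
      apply hxq
      apply key
      rw [h]
      exact Subgroup.one_mem _
  have hGc : G ∉ Subgroup.center (Matrix.SpecialLinearGroup (Fin 2) F) := fun h =>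
    hg ((QuotientGroup.eq_one_iff G).mpr h)
  obtain ⟨μ, hμ, hGN⟩ := isConj_nfSL G (nonScalar_of_not_mem_center G hGc)
  obtain ⟨Y, hY, hYN⟩ := exists_factor_char_two μ G.1.trace X.1.trace hμ hroot
  have hXns := nonScalar_of_trace_ne_zero_char_two X hτ0
  have hXY : IsConj X Y :=
    Cfsg.Agent.H44.SL2_isConj_of_trace_char_two X Y hXns
      (nonScalar_of_trace_ne_zero_char_two Y (by rw [hY]; exact hτ0)) hY.symm
  have hXY2 : IsConj X (Y⁻¹ * nfSL μ G.1.trace hμ) :=
    Cfsg.Agent.H44.SL2_isConj_of_trace_char_two X _ hXns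
      (nonScalar_of_trace_ne_zero_char_two _ (by rw [hYN]; exact hτ0)) hYN.symm
  apply psl_prod_of_nf G (nfSL μ G.1.trace hμ) X Y (Y⁻¹ * nfSL μ G.1.trace hμ) hGN hXY hXY2
  rw [← QuotientGroup.mk_mul]
  congr 1
  group

end Cfsg.Agent.S2456
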