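import Cfsg.Statements.S2459
import Cfsg.Agent.H97.CC3b

set_option autoImplicit false
open Cfsg

namespace Cfsg.Agent.S2459

/-- A form of Thompson's conjecture for PSL(3,q), q > 2 (covering the non-identity elements), with a semisimple class: for F a finite field of characteristic p with more than 2 elements there is an element x of PSL(3,F) of order prime to p such that every non-identity element of PSL(3,F) is a product of two conjugates of x. -/
theorem result {F : Type*} [Field F] [Fintype F] (p : ℕ) [Fact p.Prime] [CharP F p] (h3 : 3 ≤ Fintype.card F) :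
    ∃ x : Matrix.ProjectiveSpecialLinearGroup (Fin 3) F, ¬ p ∣ orderOf x ∧ ∀ g : Matrix.ProjectiveSpecialLinearGroup (Fin 3) F, g ≠ 1 → ∃ u v : Matrix.ProjectiveSpecialLinearGroup (Fin 3) F, g = (u * x * u⁻¹) * (v * x * v⁻¹) := by
  classical
  have hpp : p.Prime := Fact.out
  by_cases hp : p = 3
  · have h3 : (3 : F) = 0 := by
      have h9 := CharP.cast_eq_zero F p
      rw [hp] at h9
      exact_mod_cast h9
    have ht : ((1 : F) - 3) * (1 + 1) ≠ 0 := by
      intro h
      have h1 : (1 : F) = 0 := by linear_combination (-1 : F) * h - h3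
      exact one_ne_zero h1
    obtain ⟨c, hc⟩ : ∃ c : Matrix.SpecialLinearGroup (Fin 3) F,
        c.1 = Cfsg.Agent.H97.CC3.Ct (1 : F) := ⟨⟨_, Cfsg.Agent.H97.CC3.det_Ct 1⟩, rfl⟩
    refine ⟨QuotientGroup.mk c, ?_, fun g hg => Cfsg.Agent.H97.CC3.psl3_main ht c hc g hg⟩
    have hx4 : (QuotientGroup.mk c : Matrix.ProjectiveSpecialLinearGroup (Fin 3) F) ^ 4 = 1 := by
      rw [← QuotientGroup.mk_pow, Cfsg.Agent.H97.CC3.c_fourth c hc]
      rfl
    intro hdvd
    have h4 : p ∣ 4 := dvd_trans hdvd (orderOf_dvd_of_pow_eq_one hx4)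
    rw [hp] at h4
    omega
  · have h3 : (3 : F) ≠ 0 := by
      intro h
      have h9 : ((3 : ℕ) : F) = 0 := by exact_mod_cast h
      rw [CharP.cast_eq_zero_iff F p] at h9
      exact hp ((Nat.prime_dvd_prime_iff_eq hpp Nat.prime_three).mp h9)
    have ht : ((0 : F) - 3) * (0 + 1) ≠ 0 := by
      intro h
      apply h3
      linear_combination (-1 : F) * h
    obtain ⟨c, hc⟩ : ∃ c : Matrix.SpecialLinearGroup (Fin 3) F,
        c.1 = Cfsg.Agent.H97.CC3.Ct (0 : F) := ⟨⟨_, Cfsg.Agent.H97.CC3.det_Ct 0⟩, rfl⟩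
    refine ⟨QuotientGroup.mk c, ?_, fun g hg => Cfsg.Agent.H97.CC3.psl3_main ht c hc g hg⟩
    have hx3 : (QuotientGroup.mk c : Matrix.ProjectiveSpecialLinearGroup (Fin 3) F) ^ 3 = 1 := by
      rw [← QuotientGroup.mk_pow, Cfsg.Agent.H97.CC3.c_cube c hc]
      rfl
    intro hdvd
    have h4 : p ∣ 3 := dvd_trans hdvd (orderOf_dvd_of_pow_eq_one hx3)
    exact hp ((Nat.prime_dvd_prime_iff_eq hpp Nat.prime_three).mp h4)

end Cfsg.Agent.S2459
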