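import Cfsg.Statements.S2466
import Cfsg.Agent.H46.AltCycle

set_option autoImplicit false
open Cfsg

namespace Cfsg.Agent.S2466

/-- Adjacency of odd primes in the prime graph of the alternating groups: let r ≠ s be odd primes at most n. The alternating group of degree n has an element of order r·s if and only if r + s ≤ n. -/
theorem result (n r s : ℕ) (hr : r.Prime) (hs : s.Prime) (hr2 : r ≠ 2) (hs2 : s ≠ 2) (hrs : r ≠ s) (hrn : r ≤ n) (hsn : s ≤ n) :
    (r * s ∈ Set.range (orderOf : alternatingGroup (Fin n) → ℕ)) ↔ r + s ≤ n := by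
  have hro : Odd r := hr.odd_of_ne_two hr2
  have hso : Odd s := hs.odd_of_ne_two hs2
  have hcop : Nat.Coprime r s := (Nat.coprime_primes hr hs).mpr hrs
  constructor
  · rintro ⟨g, hg⟩
    obtain ⟨m, hsum, h2, -, hord⟩ := Cfsg.Agent.H46.alt_cycleType_props g
    rw [hg] at hord
    obtain ⟨a, ha, hra⟩ := Cfsg.Agent.H46.prime_dvd_multiset_lcm hr m (hord ▸ Dvd.intro _ rfl)
    obtain ⟨b, hb, hsb⟩ := Cfsg.Agent.H46.prime_dvd_multiset_lcm hs m (hord ▸ Dvd.intro_left _ rfl)
    have ha0 : 0 < a := by have := h2 a ha; omega
    have hb0 : 0 < b := by have := h2 b hb; omega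
    by_cases hab : a = b
    · subst hab
      have hrsa : r * s ∣ a := Nat.Coprime.mul_dvd_of_dvd_of_dvd hcop hra hsb
      have h1 : r * s ≤ a := Nat.le_of_dvd ha0 hrsa
      have h3 : a ≤ m.sum := Multiset.single_le_sum (fun _ _ => Nat.zero_le _) a ha
      have hr2' := hr.two_le
      have hs2' := hs.two_le
      nlinarith
    · have hle : ({a, b} : Multiset ℕ) ≤ m := by
        have hnd : ({a, b} : Multiset ℕ).Nodup := by
          simp [hab]
        rw [Multiset.le_iff_subset hnd]
        intro x hx
        simp only [Multiset.insert_eq_cons, Multiset.mem_cons, Multiset.mem_singleton] at hx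
        rcases hx with rfl | rfl <;> assumption
      have h3 : a + b ≤ m.sum := by
        have := Cfsg.Agent.H46.multiset_sum_le_of_le hle
        simpa using this
      have h4 : r ≤ a := Nat.le_of_dvd ha0 hra
      have h5 : s ≤ b := Nat.le_of_dvd hb0 hsb
      omega
  · intro h
    obtain ⟨g, hg⟩ := Cfsg.Agent.H46.exists_alt_of_cycleType (n := n) ({r, s} : Multiset ℕ)
      (by simpa using h)
      (by
        intro a ha
        simp only [Multiset.insert_eq_cons, Multiset.mem_cons, Multiset.mem_singleton] at ha
        rcases ha with rfl | rfl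
        · exact hr.two_le
        · exact hs.two_le)
      (by
        have : Even (r + s) := Odd.add_odd hro hso
        simpa using this.add (by decide : Even 2))
    refine ⟨g, ?_⟩
    rw [hg]
    simp only [Multiset.insert_eq_cons, Multiset.lcm_cons, Multiset.lcm_singleton, normalize_eq]
    exact hcop.lcm_eq_mul

end Cfsg.Agent.S2466
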