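import Cfsg.Statements.S2467
import Cfsg.Agent.H46.AltCycle

set_option autoImplicit false
open Cfsg

namespace Cfsg.Agent.S2467

/-- Adjacency of 2 and an odd prime in the prime graph of the alternating groups: let r be an odd prime at most n, with n ≥ 4. The alternating group of degree n has an element of order 2r if and only if r + 4 ≤ n. -/
theorem result (n r : ℕ) (hn : 4 ≤ n) (hr : r.Prime) (hr2 : r ≠ 2) (hrn : r ≤ n) :
    (2 * r ∈ Set.range (orderOf : alternatingGroup (Fin n) → ℕ)) ↔ r + 4 ≤ n := by
  have hro : Odd r := hr.odd_of_ne_two hr2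
  have hcop : Nat.Coprime 2 r := (Nat.coprime_primes Nat.prime_two hr).mpr (Ne.symm hr2)
  constructor
  · rintro ⟨g, hg⟩
    obtain ⟨m, hsum, h2, hpar, hord⟩ := Cfsg.Agent.H46.alt_cycleType_props g
    rw [hg] at hord
    obtain ⟨a, ha, hra⟩ := Cfsg.Agent.H46.prime_dvd_multiset_lcm hr m (hord ▸ Dvd.intro_left _ rfl)
    obtain ⟨b, hb, h2b⟩ := Cfsg.Agent.H46.prime_dvd_multiset_lcm Nat.prime_two m (hord ▸ Dvd.intro _ rfl)
    have ha0 : 0 < a := by have := h2 a ha; omega
    rw [Cfsg.Agent.H46.even_sum_add_card_iff] at hpar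
    set E := m.filter (fun a => Even a) with hE
    set O := m.filter (fun a => ¬ Even a) with hO
    have hEO : E + O = m := Multiset.filter_add_not _ m
    have hbE : b ∈ E := Multiset.mem_filter.mpr ⟨hb, even_iff_two_dvd.mpr h2b⟩
    have hEcard : 2 ≤ E.card := by
      have h1 : 0 < E.card := Multiset.card_pos_iff_exists_mem.mpr ⟨b, hbE⟩
      obtain ⟨k, hk⟩ := hpar
      omega
    have hsumEO : m.sum = E.sum + O.sum := by rw [← hEO, Multiset.sum_add]
    by_cases hae : Even a
    · have haE : a ∈ E := Multiset.mem_filter.mpr ⟨ha, hae⟩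
      have h2ra : 2 * r ∣ a := Nat.Coprime.mul_dvd_of_dvd_of_dvd hcop (even_iff_two_dvd.mp hae) hra
      have h1 : 2 * r ≤ a := Nat.le_of_dvd ha0 h2ra
      have hE' : E = a ::ₘ E.erase a := (Multiset.cons_erase haE).symm
      have h3 : (E.erase a).card • 2 ≤ (E.erase a).sum := by
        apply Multiset.card_nsmul_le_sum
        intro x hx
        exact h2 x (Multiset.mem_of_mem_filter (Multiset.mem_of_mem_erase hx))
      have h4 : E.card = (E.erase a).card + 1 := by
        conv_lhs => rw [hE']
        rw [Multiset.card_cons]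
      have h5 : E.sum = a + (E.erase a).sum := by
        conv_lhs => rw [hE']
        rw [Multiset.sum_cons]
      have hr3 : 3 ≤ r := by
        have := hr.two_le
        omega
      simp only [smul_eq_mul] at h3
      omega
    · have haO : a ∈ O := Multiset.mem_filter.mpr ⟨ha, hae⟩
      have h1 : r ≤ a := Nat.le_of_dvd ha0 hra
      have h3 : E.card • 2 ≤ E.sum := by
        apply Multiset.card_nsmul_le_sum
        intro x hx
        exact h2 x (Multiset.mem_of_mem_filter hx)
      have h4 : a ≤ O.sum := Multiset.single_le_sum (fun _ _ => Nat.zero_le _) a haO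
      simp only [smul_eq_mul] at h3
      omega
  · intro h
    obtain ⟨g, hg⟩ := Cfsg.Agent.H46.exists_alt_of_cycleType (n := n) ({r, 2, 2} : Multiset ℕ)
      (by
        simp only [Multiset.insert_eq_cons, Multiset.sum_cons, Multiset.sum_singleton]
        omega)
      (by
        intro a ha
        simp only [Multiset.insert_eq_cons, Multiset.mem_cons, Multiset.mem_singleton] at ha
        rcases ha with rfl | rfl | rfl
        · exact hr.two_le
        · exact le_refl _
        · exact le_refl _)
      (by
        simp only [Multiset.insert_eq_cons, Multiset.sum_cons, Multiset.sum_singleton,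
          Multiset.card_cons, Multiset.card_singleton]
        obtain ⟨k, hk⟩ := hro
        exact ⟨k + 4, by omega⟩)
    refine ⟨g, ?_⟩
    rw [hg]
    simp only [Multiset.insert_eq_cons, Multiset.lcm_cons, Multiset.lcm_singleton, normalize_eq]
    have e1 : GCDMonoid.lcm 2 2 = 2 := by decide
    rw [e1]
    have e2 : GCDMonoid.lcm r 2 = Nat.lcm r 2 := rfl
    rw [e2, hcop.symm.lcm_eq_mul, mul_comm]

end Cfsg.Agent.S2467
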