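import Cfsg.Statements.S2471
import Cfsg.Agent.H46.SL2Basic

set_option autoImplicit false
open Cfsg

namespace Cfsg.Agent.S2471

/-- In PSL(2,q) with q odd, the characteristic p is isolated from 2 in the prime graph: for F a finite field of odd characteristic p with at least 5 elements, PSL(2,F) has no element of order 2p. -/
theorem result {F : Type*} [Field F] [Fintype F] (p : ℕ) [Fact p.Prime] [CharP F p] (hp : p ≠ 2) (h5 : 5 ≤ Fintype.card F) (g : Matrix.ProjectiveSpecialLinearGroup (Fin 2) F) :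
    orderOf g ≠ 2 * p := by
  intro hord
  obtain ⟨A, rfl⟩ := QuotientGroup.mk_surjective g
  have hp2 : 2 ≤ p := (Fact.out : p.Prime).two_le
  have h1 : ((A ^ (2 * p) : Matrix.SpecialLinearGroup (Fin 2) F) :
      Matrix.ProjectiveSpecialLinearGroup (Fin 2) F) = 1 := by
    rw [QuotientGroup.mk_pow, ← hord]
    exact pow_orderOf_eq_one _
  rw [QuotientGroup.eq_one_iff] at h1
  have h2 := Cfsg.Agent.H46.sl2_center_mul_self h1
  have h3 : (A : Matrix (Fin 2) (Fin 2) F) ^ (4 * p) = 1 := by
    have h3' : A ^ (4 * p) = 1 := by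
      rw [show 4 * p = 2 * p + 2 * p by ring, pow_add]
      exact h2
    rw [← Matrix.SpecialLinearGroup.coe_pow, h3']
    rfl
  have key : ∀ k : ℕ, A ^ k ∈ Subgroup.center (Matrix.SpecialLinearGroup (Fin 2) F) →
      2 * p ∣ k := by
    intro k hk
    rw [← hord]
    apply orderOf_dvd_of_pow_eq_one
    rw [← QuotientGroup.mk_pow, QuotientGroup.eq_one_iff]
    exact hk
  rcases Cfsg.Agent.H46.sl2_trace_of_pow_four_mul_char p A h3 with h | h | h
  · have h4 := Cfsg.Agent.H46.sl2_sq_of_trace_zero A h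
    have h5' : A ^ 2 ∈ Subgroup.center (Matrix.SpecialLinearGroup (Fin 2) F) :=
      Cfsg.Agent.H46.sl2_mem_center_of_scalar (-1) (by ring)
        (by
          rw [Matrix.SpecialLinearGroup.coe_pow, pow_two, h4, map_neg, map_one])
    have h7 := Nat.le_of_dvd (by norm_num) (key 2 h5')
    omega
  · have h4 := Cfsg.Agent.H46.sl2_pow_char_of_trace p A 1 (by ring) (by rw [h]; ring)
    have h5' : A ^ p ∈ Subgroup.center (Matrix.SpecialLinearGroup (Fin 2) F) :=
      Cfsg.Agent.H46.sl2_mem_center_of_scalar (1 ^ p) (by simp)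
        (by rw [Matrix.SpecialLinearGroup.coe_pow]; exact h4)
    have h7 := Nat.le_of_dvd (by omega) (key p h5')
    omega
  · have h4 := Cfsg.Agent.H46.sl2_pow_char_of_trace p A (-1) (by ring) (by rw [h]; ring)
    have h5' : A ^ p ∈ Subgroup.center (Matrix.SpecialLinearGroup (Fin 2) F) :=
      Cfsg.Agent.H46.sl2_mem_center_of_scalar ((-1) ^ p) (by rw [← pow_mul, mul_comm, pow_mul]; simp)
        (by rw [Matrix.SpecialLinearGroup.coe_pow]; exact h4)
    have h7 := Nat.le_of_dvd (by omega) (key p h5')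
    omega

end Cfsg.Agent.S2471
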