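import Cfsg.Statements.S2478
import Cfsg.Agent.H98.GLkAsm
import Cfsg.Agent.H70.Str1
import Cfsg.Agent.H28.GLkPoly2
import Cfsg.Agent.H64.GLkStr4
import Cfsg.Agent.H5.GLkStr2
import Cfsg.Agent.H5.GLkStr3
import Cfsg.Agent.H36.GLkPoly1
import Cfsg.Agent.H20.GLkLBA
import Cfsg.Agent.H20.GLkLBB

set_option autoImplicit false
open Cfsg

namespace Cfsg.Agent.S2478

/-- The number of conjugacy classes of GL(n,q): for F a finite field with q elements and n ≥ 1, the number k of conjugacy classes of GL(n,F) satisfies q^n − q^(n−1) ≤ k ≤ q^n. -/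
theorem result {F : Type*} [Field F] [Fintype F] (n : ℕ) (hn : 1 ≤ n) :
    Fintype.card F ^ n - Fintype.card F ^ (n - 1) ≤ Nat.card (ConjClasses (Matrix.GeneralLinearGroup (Fin n) F)) ∧ Nat.card (ConjClasses (Matrix.GeneralLinearGroup (Fin n) F)) ≤ Fintype.card F ^ n := by
  have hc := fun m : ℕ => Cfsg.Agent.H36.GLk.card_monic_coeff_zero_ne (F := F) m
  refine ⟨Cfsg.Agent.H20.GLk.card_conjClasses_ge hc
    (fun f hf n hd => Cfsg.Agent.H20.GLk.exists_charpoly_eq n f hf hd) n hn, ?_⟩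
  exact Cfsg.Agent.H98.GLk.card_conjClasses_le_of n
    (Cfsg.Agent.H98.GLk.exists_conf_map_of n
      (fun A => Cfsg.Agent.H70.Str1.exists_primary_decomp A)
      (fun A k p e hp l => Cfsg.Agent.H5.GLk.decomp_facts A k p e hp l)
      (fun A B l => Cfsg.Agent.H5.GLk.isConj_of_aeval_equiv A B l)
      (fun k k' p e p' e' hp hp' h =>
        Cfsg.Agent.H64.GLk.directSum_equiv_of_prod_eq k k' p e p' e' hp hp' h))
    (Cfsg.Agent.H28.GLk.conf_finite_ncard_le hc n n)

end Cfsg.Agent.S2478
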