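import Cfsg.Statements.S2479
import Cfsg.Agent.H98.SLkAsm
import Cfsg.Agent.H98.SLkDet
import Cfsg.Agent.H4.SLkFib
import Cfsg.Agent.H4.SLkIdx
import Cfsg.Agent.H28.SLkPoly
import Cfsg.Agent.H28.SLkOrb
import Cfsg.Agent.H89.SLkNum
import Cfsg.Agent.H71.SLkLB
import Cfsg.Agent.H24.SLkDSum
import Cfsg.Agent.H28.GLkPoly2
import Cfsg.Agent.H36.GLkPoly1

set_option autoImplicit false
open Cfsg

namespace Cfsg.Agent.S2479

/-- The number of conjugacy classes of SL(n,q): for F a finite field with q elements, the number k of conjugacy classes of SL(n,F) satisfies q^(n−1) < k and k ≤ (5/2)·q^(n−1) for n ≥ 2, and k ≤ q^(n−1) + 3q^(n−2) for n ≥ 3. -/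
theorem result {F : Type*} [Field F] [Fintype F] (n : ℕ) (hn : 2 ≤ n) :
    Fintype.card F ^ (n - 1) < Nat.card (ConjClasses (Matrix.SpecialLinearGroup (Fin n) F)) ∧ 2 * Nat.card (ConjClasses (Matrix.SpecialLinearGroup (Fin n) F)) ≤ 5 * Fintype.card F ^ (n - 1) ∧
      (3 ≤ n → Nat.card (ConjClasses (Matrix.SpecialLinearGroup (Fin n) F)) ≤ Fintype.card F ^ (n - 1) + 3 * Fintype.card F ^ (n - 2)) := by
  have hq : 2 ≤ Fintype.card F := Fintype.one_lt_card
  have hupper := Cfsg.Agent.H98.SLk.card_conjClasses_SL_le_of (F := F) n hn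
    (Cfsg.Agent.H28.GLk.conf_finite_ncard_le
      (fun m => Cfsg.Agent.H36.GLk.card_monic_coeff_zero_ne m) n n)
    (Cfsg.Agent.H98.SLk.exists_conf_map_of' n
      (fun A k p e hp l => Cfsg.Agent.H98.SLk.det_eq_prod_of_decomp
        (fun k f hf r => Cfsg.Agent.H24.SLk.det_lmap_lsmul k f hf r) A k p e hp l)
      (fun A k p e hp l i c => Cfsg.Agent.H98.SLk.pow_mem_detCent
        (fun k f hf r => Cfsg.Agent.H24.SLk.det_lmap_lsmul k f hf r) A k p e hp l i c)
      (fun D e he h => Cfsg.Agent.H4.SLk.index_le_of_pow_mem D e he h))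
    (fun Φ S W hS hinj hW => Cfsg.Agent.H4.SLk.card_conjClasses_SL_le_sum Φ S W hS hinj hW)
    (fun D => Cfsg.Agent.H4.SLk.index_le_card_sub_one D)
    (fun j => Cfsg.Agent.H28.SLk.card_cdet_one_le n j)
    (fun j => Cfsg.Agent.H28.SLk.confFrom_ncard_le n j)
    (fun L s m hs => Cfsg.Agent.H89.SLk.cfgB_le _ hq L s m hs)
    (Cfsg.Agent.H89.SLk.cfgCount_three _ hq)
  exact ⟨Cfsg.Agent.H71.SLk.card_conjClasses_SL_gt n hn, hupper.1, hupper.2⟩

end Cfsg.Agent.S2479
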