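import Cfsg.Statements.S2504
import Cfsg.Agent.H47.AbelAlt

set_option autoImplicit false
open Cfsg

namespace Cfsg.Agent.S2504

open Cfsg.Agent.H47

/-- The largest order of an abelian subgroup of the alternating group of degree n is 3^k when n = 3k, 4·3^(k−1) when n = 3k + 1, and 16·3^(k−2) when n = 3k + 2, for every k ≥ 2 (so for all degrees n ≥ 6). -/
theorem result (k : ℕ) (hk : 2 ≤ k) :
    IsGreatest {c : ℕ | ∃ A : Subgroup (alternatingGroup (Fin (3 * k))), IsMulCommutative A ∧ Nat.card A = c} (3 ^ k) ∧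
    IsGreatest {c : ℕ | ∃ A : Subgroup (alternatingGroup (Fin (3 * k + 1))), IsMulCommutative A ∧ Nat.card A = c}
      (4 * 3 ^ (k - 1)) ∧
    IsGreatest {c : ℕ | ∃ A : Subgroup (alternatingGroup (Fin (3 * k + 2))), IsMulCommutative A ∧ Nat.card A = c}
      (16 * 3 ^ (k - 2)) := by
  refine ⟨⟨?_, ?_⟩, ⟨?_, ?_⟩, ⟨?_, ?_⟩⟩
  · exact (Pe_three_mul k).exists_subgroup
  · rintro c ⟨A, hA, rfl⟩
    rw [← hS_three_mul]
    exact card_le_hS_alt_subgroup _ A hA
  · obtain ⟨j, rfl⟩ : ∃ j, k = j + 1 := ⟨k - 1, by omega⟩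
    have e : Fin (3 * j) ⊕ Fin 4 ≃ Fin (3 * (j + 1) + 1) := finSumFinEquiv.trans (finCongr (by ring))
    have h := (((Pe_three_mul j).sum Pe_four).congr e).exists_subgroup
    rw [mul_comm (3 ^ j) 4] at h
    simpa using h
  · rintro c ⟨A, hA, rfl⟩
    rw [← hS_three_mul_add_one k (by omega)]
    exact card_le_hS_alt_subgroup _ A hA
  · obtain ⟨j, rfl⟩ : ∃ j, k = j + 2 := ⟨k - 2, by omega⟩
    have e : (Fin (3 * j) ⊕ Fin 4) ⊕ Fin 4 ≃ Fin (3 * (j + 2) + 2) :=
      ((Equiv.sumCongr finSumFinEquiv (Equiv.refl _)).trans finSumFinEquiv).trans (finCongr (by ring))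
    have h := ((((Pe_three_mul j).sum Pe_four).sum Pe_four).congr e).exists_subgroup
    have h2 : 3 ^ j * 4 * 4 = 16 * 3 ^ j := by ring
    rw [h2] at h
    simpa using h
  · rintro c ⟨A, hA, rfl⟩
    rw [← hA_three_mul_add_two k hk]
    exact card_le_hA_subgroup _ A hA

end Cfsg.Agent.S2504
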