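import Cfsg.Statements.S2505
import Cfsg.Agent.H47.AbelPerm

set_option autoImplicit false
open Cfsg

namespace Cfsg.Agent.S2505

open Cfsg.Agent.H47

/-- The largest order of an abelian subgroup of the symmetric group of degree n is 3^k when n = 3k, 4·3^(k−1) when n = 3k + 1, and 2·3^k when n = 3k + 2, for every k ≥ 1. -/
theorem result (k : ℕ) (hk : 1 ≤ k) :
    IsGreatest {c : ℕ | ∃ A : Subgroup (Equiv.Perm (Fin (3 * k))), IsMulCommutative A ∧ Nat.card A = c} (3 ^ k) ∧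
    IsGreatest {c : ℕ | ∃ A : Subgroup (Equiv.Perm (Fin (3 * k + 1))), IsMulCommutative A ∧ Nat.card A = c}
      (4 * 3 ^ (k - 1)) ∧
    IsGreatest {c : ℕ | ∃ A : Subgroup (Equiv.Perm (Fin (3 * k + 2))), IsMulCommutative A ∧ Nat.card A = c}
      (2 * 3 ^ k) := by
  refine ⟨⟨?_, ?_⟩, ⟨?_, ?_⟩, ⟨?_, ?_⟩⟩
  · exact (Pe_three_mul k).toPs.exists_subgroup
  · rintro c ⟨A, hA, rfl⟩
    rw [← hS_three_mul]
    exact card_le_hS_subgroup _ A hA
  · obtain ⟨j, rfl⟩ : ∃ j, k = j + 1 := ⟨k - 1, by omega⟩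
    have e : Fin (3 * j) ⊕ Fin 4 ≃ Fin (3 * (j + 1) + 1) := finSumFinEquiv.trans (finCongr (by ring))
    have h := (((Pe_three_mul j).toPs.sum (Ps_cyc 4 (by norm_num))).congr e).exists_subgroup
    rw [mul_comm (3 ^ j) 4] at h
    simpa using h
  · rintro c ⟨A, hA, rfl⟩
    rw [← hS_three_mul_add_one k hk]
    exact card_le_hS_subgroup _ A hA
  · have e : Fin (3 * k) ⊕ Fin 2 ≃ Fin (3 * k + 2) := finSumFinEquiv
    have h := (((Pe_three_mul k).toPs.sum (Ps_cyc 2 (by norm_num))).congr e).exists_subgroup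
    rw [mul_comm (3 ^ k) 2] at h
    exact h
  · rintro c ⟨A, hA, rfl⟩
    rw [← hS_three_mul_add_two]
    exact card_le_hS_subgroup _ A hA

end Cfsg.Agent.S2505
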