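import Cfsg.Statements.S2514

set_option autoImplicit false
open Cfsg

namespace Cfsg.Agent.S2514

section
variable {X : Type*} [Group X] [Finite X]

/-- the set of element orders is closed under divisors -/
theorem range_orderOf_of_dvd {n d : ℕ} (hn : n ∈ Set.range (orderOf : X → ℕ)) (hd : d ∣ n) :
    d ∈ Set.range (orderOf : X → ℕ) := by
  obtain ⟨x, rfl⟩ := hn
  obtain ⟨c, hc⟩ := hd
  have hpos : 0 < orderOf x := orderOf_pos x
  have hc0 : c ≠ 0 := by
    rintro rfl
    rw [mul_zero] at hc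
    omega
  refine ⟨x ^ c, ?_⟩
  rw [orderOf_pow_of_dvd hc0 ⟨d, by rw [hc, mul_comm]⟩, hc, Nat.mul_div_cancel _ (Nat.pos_of_ne_zero hc0)]

/-- every element order divides a maximal one -/
theorem exists_maximal_of_mem {n : ℕ} (hn : n ∈ Set.range (orderOf : X → ℕ)) :
    ∃ m, (m ∈ Set.range (orderOf : X → ℕ) ∧ ∀ m' ∈ Set.range (orderOf : X → ℕ), m ∣ m' → m' = m) ∧ n ∣ m := by
  classical
  have hfin : (Set.range (orderOf : X → ℕ)).Finite := Set.finite_range _
  let S := hfin.toFinset.filter (fun m => n ∣ m)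
  have hne : S.Nonempty := ⟨n, by simp [S, hn]⟩
  obtain ⟨m, hmS, hmax⟩ := S.exists_max_image id hne
  simp only [S, Finset.mem_filter, Set.Finite.mem_toFinset] at hmS
  refine ⟨m, ⟨hmS.1, fun m' hm' hdvd => ?_⟩, hmS.2⟩
  have h1 : m' ∈ S := by simp [S, hm', hmS.2.trans hdvd]
  have h2 : m' ≤ m := hmax m' h1
  obtain ⟨y, rfl⟩ := hm'
  exact le_antisymm h2 (Nat.le_of_dvd (orderOf_pos y) hdvd)

end

theorem pi_orderOf_dvd_iff {ι : Type*} {M : Type*} [Monoid M] (x : ι → M) (N : ℕ) :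
    orderOf x ∣ N ↔ ∀ i, orderOf (x i) ∣ N := by
  simp only [orderOf_dvd_iff_pow_eq_one]
  constructor
  · intro h i
    exact congrFun h i
  · intro h
    funext i
    exact h i

theorem prod_orderOf_dvd_iff {M M' : Type*} [Monoid M] [Monoid M'] (x : M × M') (N : ℕ) :
    orderOf x ∣ N ↔ orderOf x.1 ∣ N ∧ orderOf x.2 ∣ N := by
  simp only [orderOf_dvd_iff_pow_eq_one, Prod.ext_iff, Prod.pow_fst, Prod.pow_snd, Prod.fst_one, Prod.snd_one]

theorem eq_of_dvd_iff {a b : ℕ} (h : ∀ N, a ∣ N ↔ b ∣ N) : a = b :=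
  Nat.dvd_antisymm ((h b).mpr dvd_rfl) ((h a).mp dvd_rfl)

/-- For a finite group X write μ(X) for the set of element orders of X that are maximal under divisibility. Let G and H be finite groups and k ≥ 1 such that μ(H) ⊆ μ(G) and μ(G) has fewer than k elements outside μ(H). Then the direct product of k copies of G has the same set of element orders as the direct product of k − 1 copies of G with H. -/
theorem result {G H : Type*} [Group G] [Finite G] [Group H] [Finite H] (k : ℕ) (hk : 1 ≤ k)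
    (hsub : {n : ℕ | n ∈ Set.range (orderOf : H → ℕ) ∧ ∀ m ∈ Set.range (orderOf : H → ℕ), n ∣ m → m = n} ⊆ {n : ℕ | n ∈ Set.range (orderOf : G → ℕ) ∧ ∀ m ∈ Set.range (orderOf : G → ℕ), n ∣ m → m = n})
    (hfew : ({n : ℕ | n ∈ Set.range (orderOf : G → ℕ) ∧ ∀ m ∈ Set.range (orderOf : G → ℕ), n ∣ m → m = n} \ {n : ℕ | n ∈ Set.range (orderOf : H → ℕ) ∧ ∀ m ∈ Set.range (orderOf : H → ℕ), n ∣ m → m = n}).ncard < k) :
    Set.range (orderOf : (Fin k → G) → ℕ) = Set.range (orderOf : (Fin (k - 1) → G) × H → ℕ) := by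
  classical
  obtain ⟨k', rfl⟩ : ∃ k', k = k' + 1 := ⟨k - 1, by omega⟩
  show Set.range (orderOf : (Fin (k' + 1) → G) → ℕ) = Set.range (orderOf : (Fin k' → G) × H → ℕ)
  -- every order of H is an order of G
  have hHG : ∀ n, n ∈ Set.range (orderOf : H → ℕ) → n ∈ Set.range (orderOf : G → ℕ) := by
    intro n hn
    obtain ⟨m, hm, hnm⟩ := exists_maximal_of_mem hn
    exact range_orderOf_of_dvd (hsub hm).1 hnm
  apply Set.eq_of_subset_of_subset
  · rintro _ ⟨x, rfl⟩
    -- choose maximal orders above each coordinate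
    have hch : ∀ i, ∃ m, (m ∈ Set.range (orderOf : G → ℕ) ∧ ∀ m' ∈ Set.range (orderOf : G → ℕ), m ∣ m' → m' = m) ∧ orderOf (x i) ∣ m :=
      fun i => exists_maximal_of_mem ⟨x i, rfl⟩
    choose m hm hxm using hch
    by_cases hcase : ∃ i, m i ∈ {n : ℕ | n ∈ Set.range (orderOf : H → ℕ) ∧ ∀ m ∈ Set.range (orderOf : H → ℕ), n ∣ m → m = n}
    · obtain ⟨i, hi⟩ := hcase
      obtain ⟨h, hh⟩ : orderOf (x i) ∈ Set.range (orderOf : H → ℕ) := range_orderOf_of_dvd hi.1 (hxm i)
      refine ⟨(fun l => x (i.succAbove l), h), ?_⟩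
      apply eq_of_dvd_iff
      intro N
      rw [prod_orderOf_dvd_iff, pi_orderOf_dvd_iff, pi_orderOf_dvd_iff, Fin.forall_iff_succAbove i]
      simp only [hh]
      tauto
    · simp only [not_exists] at hcase
      have hmaps : ∀ i ∈ (Set.univ : Set (Fin (k' + 1))), m i ∈ ({n : ℕ | n ∈ Set.range (orderOf : G → ℕ) ∧ ∀ m ∈ Set.range (orderOf : G → ℕ), n ∣ m → m = n} \ {n : ℕ | n ∈ Set.range (orderOf : H → ℕ) ∧ ∀ m ∈ Set.range (orderOf : H → ℕ), n ∣ m → m = n}) :=
        fun i _ => ⟨hm i, hcase i⟩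
      have hfin : ({n : ℕ | n ∈ Set.range (orderOf : G → ℕ) ∧ ∀ m ∈ Set.range (orderOf : G → ℕ), n ∣ m → m = n} \ {n : ℕ | n ∈ Set.range (orderOf : H → ℕ) ∧ ∀ m ∈ Set.range (orderOf : H → ℕ), n ∣ m → m = n}).Finite :=
        (Set.finite_range (orderOf : G → ℕ)).subset (fun n hn => hn.1.1)
      have hcard : ({n : ℕ | n ∈ Set.range (orderOf : G → ℕ) ∧ ∀ m ∈ Set.range (orderOf : G → ℕ), n ∣ m → m = n} \ {n : ℕ | n ∈ Set.range (orderOf : H → ℕ) ∧ ∀ m ∈ Set.range (orderOf : H → ℕ), n ∣ m → m = n}).ncard < (Set.univ : Set (Fin (k' + 1))).ncard := by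
        rw [Set.ncard_univ, Nat.card_fin]
        exact hfew
      obtain ⟨i, -, j, -, hij, hmij⟩ := Set.exists_ne_map_eq_of_ncard_lt_of_maps_to hcard hmaps hfin
      have hlcm : Nat.lcm (orderOf (x i)) (orderOf (x j)) ∣ m i :=
        Nat.lcm_dvd (hxm i) (hmij ▸ hxm j)
      obtain ⟨g, hg⟩ : Nat.lcm (orderOf (x i)) (orderOf (x j)) ∈ Set.range (orderOf : G → ℕ) :=
        range_orderOf_of_dvd (hm i).1 hlcm
      refine ⟨(fun l => Function.update x i g (j.succAbove l), 1), ?_⟩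
      apply eq_of_dvd_iff
      intro N
      rw [prod_orderOf_dvd_iff, pi_orderOf_dvd_iff, pi_orderOf_dvd_iff]
      simp only [orderOf_one, one_dvd, and_true]
      constructor
      · intro h l'
        obtain ⟨l₀, hl₀⟩ := Fin.exists_succAbove_eq hij
        have h0 := h l₀
        rw [hl₀, Function.update_self, hg, Nat.lcm_dvd_iff] at h0
        by_cases hl'j : l' = j
        · rw [hl'j]; exact h0.2
        · by_cases hl'i : l' = i
          · rw [hl'i]; exact h0.1
          · obtain ⟨l, hl⟩ := Fin.exists_succAbove_eq hl'j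
            have h1 := h l
            rw [hl, Function.update_of_ne hl'i] at h1
            exact h1
      · intro h l
        by_cases hl'i : j.succAbove l = i
        · rw [hl'i, Function.update_self, hg]
          exact Nat.lcm_dvd (h i) (h j)
        · rw [Function.update_of_ne hl'i]
          exact h _
  · rintro _ ⟨⟨f, h⟩, rfl⟩
    obtain ⟨g, hg⟩ := hHG (orderOf h) ⟨h, rfl⟩
    refine ⟨Fin.cons g f, ?_⟩
    apply eq_of_dvd_iff
    intro N
    rw [prod_orderOf_dvd_iff, pi_orderOf_dvd_iff, pi_orderOf_dvd_iff, Fin.forall_fin_succ]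
    simp only [Fin.cons_zero, Fin.cons_succ, hg]
    tauto

end Cfsg.Agent.S2514
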