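import Cfsg.Statements.S2515
import Cfsg.Agent.H62.Tw3b

set_option autoImplicit false
open Cfsg

namespace Cfsg.Agent.S2515

/-- Let q = 3^α with α ≥ 3 odd. There is a finite group H having a non-trivial normal 3-subgroup and whose element orders maximal under divisibility are exactly 6, 9, q − 1 and (q + 1)/2. -/
theorem result (α : ℕ) (hα : 3 ≤ α) (hodd : Odd α) :
    ∃ (H : Type) (_ : Group H) (_ : Fintype H), (∃ P : Subgroup H, P.Normal ∧ P ≠ ⊥ ∧ IsPGroup 3 ↥P) ∧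
      {n : ℕ | n ∈ Set.range (orderOf : H → ℕ) ∧ ∀ m ∈ Set.range (orderOf : H → ℕ), n ∣ m → m = n} = ({6, 9, 3 ^ α - 1, (3 ^ α + 1) / 2} : Set ℕ) := by
  haveI : Fact (Nat.Prime 3) := ⟨Nat.prime_three⟩
  letI : Fintype (GaloisField 3 α) := Fintype.ofFinite _
  have hcard : Fintype.card (GaloisField 3 α) = 3 ^ α := by
    rw [← Nat.card_eq_fintype_card]
    exact GaloisField.card 3 α (by omega)
  have h4 : 3 ^ α % 4 = 3 := by
    obtain ⟨k, rfl⟩ := hodd
    rw [pow_succ, pow_mul, Nat.mul_mod, Nat.pow_mod]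
    norm_num
  have h3 : 3 ^ α % 3 = 0 := Nat.mod_eq_zero_of_dvd (dvd_pow_self 3 (by omega))
  have h27 : 27 ≤ 3 ^ α := by
    calc 27 = 3 ^ 3 := by norm_num
      _ ≤ 3 ^ α := Nat.pow_le_pow_right (by norm_num) hα
  exact Cfsg.Agent.H62.tw3_main (GaloisField 3 α) (3 ^ α) hcard h4 h3 h27

end Cfsg.Agent.S2515
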