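import Cfsg.Statements.S2516

set_option autoImplicit false
open Cfsg

namespace Cfsg.Agent.S2516

open Polynomial

section
variable {F : Type*} [Field F] {V : Type*} [AddCommGroup V] [Module F V]
    {G : Type*} [Group G] (ρ : Representation F G V)

/-- the action hom used in the statement -/
noncomputable abbrev act : G →* MulAut (Multiplicative V) :=
  (MulAutMultiplicative V).symm.toMonoidHom.comp
        ((DistribMulAction.toAddAut ((V →ₗ[F] V)ˣ) V).comp ρ.asGroupHom)

theorem act_apply (h : G) (w : V) : act ρ h (Multiplicative.ofAdd w) = Multiplicative.ofAdd (ρ h w) := rfl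

theorem pow_mk (v : V) (g : G) (n : ℕ) :
    (⟨Multiplicative.ofAdd v, g⟩ : Multiplicative V ⋊[act ρ] G) ^ n =
      ⟨Multiplicative.ofAdd ((∑ i ∈ Finset.range n, (ρ g) ^ i) v), g ^ n⟩ := by
  induction n with
  | zero =>
    simp
  | succ n ih =>
    rw [pow_succ, ih]
    ext
    · simp only [SemidirectProduct.mul_left]
      rw [act_apply, ← ofAdd_add, Finset.sum_range_succ, LinearMap.add_apply, map_pow]
    · simp only [SemidirectProduct.mul_right, pow_succ]

end

/-- Let F be a field of characteristic p > 0, V a non-zero finite-dimensional F-vector space, G a finite group and ρ a representation of G on V; form the semidirect product V ⋊ G. For g ∈ G of order k, the coset Vg contains an element of order pk if and only if the minimal polynomial of ρ(g) does not divide 1 + X + ⋯ + X^(k−1). -/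
theorem result {F : Type*} [Field F] (p : ℕ) [Fact p.Prime] [CharP F p] {V : Type*} [AddCommGroup V] [Module F V] [FiniteDimensional F V] [Nontrivial V]
    {G : Type*} [Group G] [Finite G] (ρ : Representation F G V) (g : G) :
    (∃ x : Multiplicative V ⋊[(MulAutMultiplicative V).symm.toMonoidHom.comp
        ((DistribMulAction.toAddAut ((V →ₗ[F] V)ˣ) V).comp ρ.asGroupHom)] G,
        x.right = g ∧ orderOf x = p * orderOf g) ↔
      ¬ (minpoly F (ρ g) ∣ ∑ i ∈ Finset.range (orderOf g), (Polynomial.X : Polynomial F) ^ i) := by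
  classical
  have hp : p.Prime := Fact.out
  have hk : 0 < orderOf g := orderOf_pos g
  have haeval : Polynomial.aeval (ρ g) (∑ i ∈ Finset.range (orderOf g), (Polynomial.X : Polynomial F) ^ i)
      = ∑ i ∈ Finset.range (orderOf g), (ρ g) ^ i := by
    simp [map_sum]
  rw [minpoly.dvd_iff, haeval]
  constructor
  · rintro ⟨x, hxg, hx⟩ hT
    obtain ⟨a, b⟩ := x
    simp only at hxg
    subst hxg
    have h1 : (⟨a, b⟩ : Multiplicative V ⋊[act ρ] G) ^ orderOf b = 1 := by
      have := pow_mk ρ (Multiplicative.toAdd a) b (orderOf b)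
      rw [hT, pow_orderOf_eq_one] at this
      exact this
    have h2 : p * orderOf b ∣ orderOf b := by
      rw [← hx]
      exact orderOf_dvd_of_pow_eq_one h1
    have h3 := Nat.le_of_dvd hk h2
    have h4 := hp.two_le
    nlinarith
  · intro hT
    obtain ⟨v, hv⟩ : ∃ v, (∑ i ∈ Finset.range (orderOf g), (ρ g) ^ i) v ≠ 0 := by
      by_contra hcon
      push Not at hcon
      exact hT (LinearMap.ext hcon)
    set w := (∑ i ∈ Finset.range (orderOf g), (ρ g) ^ i) v with hw
    refine ⟨⟨Multiplicative.ofAdd v, g⟩, rfl, ?_⟩
    have hxk : (⟨Multiplicative.ofAdd v, g⟩ : Multiplicative V ⋊[act ρ] G) ^ orderOf g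
        = SemidirectProduct.inl (Multiplicative.ofAdd w) := by
      rw [pow_mk, pow_orderOf_eq_one]
      rfl
    have key : ∀ n, (⟨Multiplicative.ofAdd v, g⟩ : Multiplicative V ⋊[act ρ] G) ^ n = 1 →
        p * orderOf g ∣ n := by
      intro n hn
      have hgn : g ^ n = 1 := by
        have := congrArg SemidirectProduct.right hn
        rw [pow_mk] at this
        exact this
      obtain ⟨j, rfl⟩ := orderOf_dvd_of_pow_eq_one hgn
      rw [pow_mul, hxk, ← map_pow, ← ofAdd_nsmul] at hn
      have h5 : j • w = 0 := by
        have := SemidirectProduct.inl_injective (φ := act ρ) (hn.trans (map_one _).symm)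
        exact this
      have h6 : (j : F) • w = 0 := by
        rw [← h5, Nat.cast_smul_eq_nsmul]
      rcases smul_eq_zero.mp h6 with h7 | h7
      · have : p ∣ j := (CharP.cast_eq_zero_iff F p j).mp h7
        rw [mul_comm]
        exact Nat.mul_dvd_mul_left _ this
      · exact absurd h7 hv
    apply Nat.dvd_antisymm
    · apply orderOf_dvd_of_pow_eq_one
      rw [mul_comm, pow_mul, hxk, ← map_pow, ← ofAdd_nsmul]
      have : p • w = 0 := by
        rw [← Nat.cast_smul_eq_nsmul F, CharP.cast_eq_zero, zero_smul]
      rw [this]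
      rfl
    · exact key _ (pow_orderOf_eq_one _)

end Cfsg.Agent.S2516
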