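import Mathlib
import Cfsg.Statements.S2537
import Cfsg.Agent.S0799
import Cfsg.Agent.S0802
import Cfsg.Agent.S0803
import Cfsg.Agent.H7.Hall23

set_option autoImplicit false
open Cfsg

namespace Cfsg.Agent.S2537

open Cfsg.Agent.H7

open scoped MatrixGroups

/-- A positive number whose prime factors are among `2, 3` is `2 ^ c * 3 ^ d`. -/
theorem eq_two_pow_mul_three_pow (h : ℕ) (h0 : h ≠ 0)
    (hpr : ∀ r : ℕ, r.Prime → r ∣ h → r ∈ ({2, 3} : Set ℕ)) :
    ∃ c d : ℕ, h = 2 ^ c * 3 ^ d := by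
  obtain ⟨c, d, u, hh, h2, h3⟩ := exists_two_three_split h h0
  refine ⟨c, d, ?_⟩
  by_cases hu : u = 1
  · rw [hh, hu, mul_one]
  · exfalso
    obtain ⟨r, hr, hru⟩ := Nat.exists_prime_and_dvd hu
    have hrh : r ∣ h := by rw [hh]; exact Dvd.dvd.mul_left hru _
    rcases hpr r hr hrh with rfl | rfl
    · exact h2 hru
    · exact h3 hru

theorem coprime_24 (u : ℕ) (h2 : ¬ 2 ∣ u) (h3 : ¬ 3 ∣ u) : Nat.Coprime 24 u := by
  have e2 : Nat.Coprime 2 u := (Nat.Prime.coprime_iff_not_dvd Nat.prime_two).mpr h2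
  have e3 : Nat.Coprime 3 u := (Nat.Prime.coprime_iff_not_dvd Nat.prime_three).mpr h3
  have : Nat.Coprime (2 ^ 3 * 3) u := (Nat.Coprime.pow_left 3 e2).mul_left e3
  exact this

theorem card_A4 : Nat.card (alternatingGroup (Fin 4)) = 12 := by
  rw [nat_card_alternatingGroup, Nat.card_eq_fintype_card, Fintype.card_fin]
  rfl

theorem card_S4 : Nat.card (Equiv.Perm (Fin 4)) = 24 := by
  rw [Nat.card_perm, Nat.card_eq_fintype_card, Fintype.card_fin]
  rfl

theorem card_A5_dvd : 5 ∣ Nat.card (alternatingGroup (Fin 5)) := by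
  rw [nat_card_alternatingGroup, Nat.card_eq_fintype_card, Fintype.card_fin]
  decide

/-- The forward direction: numerical consequences of a Hall subgroup. -/
theorem hall_card {G : Type*} [Group G] [Finite G] (H : Subgroup G)
    (hH : Cfsg.IsPiHall ({2, 3} : Set ℕ) H) (q M a b u : ℕ) (hN : 2 * Nat.card G = q * M)
    (hM : M = 2 ^ a * 3 ^ b * u) (hu2 : ¬ 2 ∣ u) (hu3 : ¬ 3 ∣ u) (hq2 : ¬ 2 ∣ q)
    (hq3 : ¬ 3 ∣ q) : 2 * Nat.card H = 2 ^ a * 3 ^ b := by
  have h0 : Nat.card H ≠ 0 := Nat.card_pos.ne'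
  obtain ⟨c, d, hcd⟩ := eq_two_pow_mul_three_pow (Nat.card H) h0 hH.1
  have hi2 : ¬ 2 ∣ H.index := hH.2 2 Nat.prime_two (by simp)
  have hi3 : ¬ 3 ∣ H.index := hH.2 3 Nat.prime_three (by simp)
  have hmul := Subgroup.card_mul_index H
  have e1 : 2 * Nat.card G = 2 ^ (c + 1) * 3 ^ d * H.index := by
    rw [← hmul, hcd]; ring
  have e2 : 2 * Nat.card G = 2 ^ a * 3 ^ b * (q * u) := by
    rw [hN, hM]; ring
  have f1 := factorization_two_three _ (c + 1) d H.index e1 hi2 hi3
  have f2 := factorization_two_three _ a b (q * u) e2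
    (fun h => (Nat.prime_two.dvd_mul.mp h).elim hq2 hu2)
    (fun h => (Nat.prime_three.dvd_mul.mp h).elim hq3 hu3)
  rw [hcd, ← f2, f1]; ring

theorem result {F : Type*} [Field F] [Fintype F] {p : ℕ} [Fact p.Prime] [CharP F p]
    (hp : 5 ≤ p) (q : ℕ) (hq : Fintype.card F = q) :
    (∃ H : Subgroup (Matrix.ProjectiveSpecialLinearGroup (Fin 2) F), Cfsg.IsPiHall ({2, 3} : Set ℕ) H) ↔
      (3 ∣ q - 1 ∧ q % 4 = 1) ∨ (3 ∣ q + 1 ∧ q % 4 = 3) ∨
        2 ^ (q ^ 2 - 1).factorization 2 * 3 ^ (q ^ 2 - 1).factorization 3 = 24 ∨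
        2 ^ (q ^ 2 - 1).factorization 2 * 3 ^ (q ^ 2 - 1).factorization 3 = 48 := by
  have hpp : p.Prime := Fact.out
  obtain ⟨n, -, hn⟩ := FiniteField.card F p
  rw [hq] at hn
  have hq2 : ¬ 2 ∣ q := by
    rw [hn]; intro h
    have := (Nat.prime_dvd_prime_iff_eq Nat.prime_two hpp).mp (Nat.prime_two.dvd_of_dvd_pow h)
    omega
  have hq3 : ¬ 3 ∣ q := by
    rw [hn]; intro h
    have := (Nat.prime_dvd_prime_iff_eq Nat.prime_three hpp).mp (Nat.prime_three.dvd_of_dvd_pow h)
    omega
  have hq5 : 5 ≤ q := by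
    rw [hn]
    calc 5 ≤ p := hp
      _ = p ^ 1 := (pow_one p).symm
      _ ≤ p ^ (n : ℕ) := Nat.pow_le_pow_right hpp.pos n.pos
  have hodd : Odd (Fintype.card F) := by rw [hq]; exact Nat.odd_iff.mpr (by omega)
  have hN := card_PSL2_odd (F := F) hodd
  rw [hq] at hN
  obtain ⟨r, rfl⟩ : ∃ r, q = r + 1 := ⟨q - 1, by omega⟩
  have hMr : (r + 1) ^ 2 - 1 = r * (r + 2) := by
    apply Nat.sub_eq_of_eq_add; ring
  have hr1 : r + 1 - 1 = r := Nat.add_sub_cancel r 1
  rw [hMr] at hN ⊢
  rw [hr1]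
  have hr0 : r ≠ 0 := by omega
  have hM0 : r * (r + 2) ≠ 0 := by positivity
  obtain ⟨a, b, u, hM, hu2, hu3⟩ := exists_two_three_split (r * (r + 2)) hM0
  have hA := factorization_two_three _ a b u hM hu2 hu3
  rw [hA]
  have h24M : 24 ∣ r * (r + 2) := by
    have key : ∀ x < 24, (x + 1) % 2 = 1 → (x + 1) % 3 ≠ 0 → (x * (x + 2)) % 24 = 0 := by
      decide
    have h1 : r * (r + 2) ≡ (r % 24) * ((r % 24) + 2) [MOD 24] :=
      Nat.ModEq.mul (Nat.mod_modEq _ _).symm ((Nat.mod_modEq _ _).symm.add_right 2)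
    apply Nat.dvd_of_mod_eq_zero
    rw [show r * (r + 2) % 24 = (r % 24) * ((r % 24) + 2) % 24 from h1]
    exact key (r % 24) (Nat.mod_lt _ (by norm_num)) (by omega) (by omega)
  have h24A : 24 ∣ 2 ^ a * 3 ^ b :=
    (coprime_24 u hu2 hu3).dvd_of_dvd_mul_right (by rw [← hM]; exact h24M)
  constructor
  · rintro ⟨H, hH⟩
    have hcard := hall_card H hH (r + 1) (r * (r + 2)) a b u hN hM hu2 hu3 hq2 hq3
    have h12 : 12 ∣ Nat.card H := by
      rw [← hcard] at h24A
      obtain ⟨k, hk⟩ := h24A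
      exact ⟨k, by omega⟩
    rcases Cfsg.Agent.S0799.result hq p H with ⟨k, hk, hHk⟩ | ⟨P, K, hK, ⟨e⟩⟩ | ⟨⟨e⟩⟩ | ⟨⟨e⟩⟩ |
      ⟨⟨e⟩⟩ | ⟨K, instK, instK', m, hKm, hKK⟩
    · -- cyclic or dihedral
      have hg : Nat.gcd 2 (r + 1 - 1) = 2 := by
        rw [hr1]; exact Nat.gcd_eq_left (by omega)
      rw [hg] at hk
      have hHk' : Nat.card H ∣ 2 * k := by
        rcases hHk with ⟨-, h⟩ | ⟨⟨e⟩⟩
        · rw [h]; exact Dvd.intro_left 2 rfl
        · rw [Nat.card_congr e.toEquiv, DihedralGroup.nat_card]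
      rcases hk with hk | hk
      · right; left
        have h2k : 2 * k ∣ r + 1 + 1 := by
          have := Nat.mul_dvd_mul_left 2 hk
          rwa [Nat.mul_div_cancel' (by omega)] at this
        obtain ⟨j, hj⟩ := h12.trans (hHk'.trans h2k)
        constructor <;> omega
      · left
        have h2k : 2 * k ∣ r := by
          have := Nat.mul_dvd_mul_left 2 hk
          rwa [hr1, Nat.mul_div_cancel' (by omega)] at this
        obtain ⟨j, hj⟩ := h12.trans (hHk'.trans h2k)
        constructor <;> omega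
    · -- inside the normaliser of a Sylow p-subgroup
      exfalso
      have hNP := card_normalizer_sylow_PSL2 hodd p P
      rw [hq, hr1] at hNP
      have hKd : Nat.card H ∣
          Nat.card (Subgroup.normalizer ((P : Subgroup PSL(2, F)) : Set PSL(2, F))) := by
        rw [Nat.card_congr e.toEquiv]
        exact Subgroup.card_dvd_of_le hK
      obtain ⟨j, hj⟩ := hKd
      have hmul := Subgroup.card_mul_index H
      have hidx : H.index = j * (r + 2) := by
        have h0 : 0 < Nat.card H := Nat.card_pos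
        have h2 : 2 * (Nat.card H * H.index) = 2 * (Nat.card H * (j * (r + 2))) := by
          rw [hmul, hN]
          calc (r + 1) * (r * (r + 2)) = ((r + 1) * r) * (r + 2) := by ring
            _ = (2 * (Nat.card H * j)) * (r + 2) := by rw [← hNP, hj]
            _ = _ := by ring
        exact Nat.eq_of_mul_eq_mul_left h0 (Nat.eq_of_mul_eq_mul_left (by norm_num) h2)
      apply hH.2 2 Nat.prime_two (by simp)
      rw [hidx]
      exact Dvd.dvd.mul_left (by omega) _
    · right; right; left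
      rw [← hcard, Nat.card_congr e.toEquiv, card_A4]
    · right; right; right
      rw [← hcard, Nat.card_congr e.toEquiv, card_S4]
    · exfalso
      have h5 : 5 ∣ Nat.card H := by rw [Nat.card_congr e.toEquiv]; exact card_A5_dvd
      have := hH.1 5 (by norm_num) h5
      simp at this
    · exfalso
      have hm0 : m ≠ 0 := by
        rintro rfl
        rw [pow_zero] at hKm
        omega
      have : Fact (ringChar K).Prime := ⟨CharP.char_is_prime K _⟩
      obtain ⟨n', -, hn'⟩ := FiniteField.card K (ringChar K)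
      have hdvd : ringChar K ∣ p ^ (n : ℕ) := by
        rw [← hn, ← hKm, hn']
        exact dvd_pow (dvd_pow_self _ n'.ne_zero) hm0
      have heq : ringChar K = p :=
        (Nat.prime_dvd_prime_iff_eq (Fact.out : (ringChar K).Prime) hpp).mp
          ((Fact.out : (ringChar K).Prime).dvd_of_dvd_pow hdvd)
      have : CharP K p := by
        have := ringChar.charP K
        rwa [heq] at this
      have hpH : p ∣ Nat.card H := by
        rcases hKK with ⟨⟨e⟩⟩ | ⟨⟨e⟩⟩
        · rw [Nat.card_congr e.toEquiv]; exact prime_dvd_card_PSL2 K p (by omega)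
        · rw [Nat.card_congr e.toEquiv]; exact prime_dvd_card_PGL2 K p (by omega)
      have := hH.1 p hpp hpH
      simp at this
      omega
  · rintro (⟨h3, h4⟩ | ⟨h3, h4⟩ | hA24 | hA48)
    · -- `3 ∣ q - 1`, `q ≡ 1 (mod 4)`
      obtain ⟨a', b', u', hs, hu2', hu3'⟩ := exists_two_three_split r hr0
      have hm12 : 12 ∣ 2 ^ a' * 3 ^ b' := by
        have h12r : 12 ∣ r := Nat.dvd_of_mod_eq_zero (by omega)
        have hc : Nat.Coprime 12 u' :=
          (coprime_24 u' hu2' hu3').coprime_dvd_left (by norm_num : 12 ∣ 24)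
        exact hc.dvd_of_dvd_mul_right (by rw [← hs]; exact h12r)
      obtain ⟨D, hD⟩ := exists_subgroup_PSL2_card hodd (2 ^ a' * 3 ^ b') hm12
        (Or.inl ⟨u', by rw [hq, hr1]; exact hs⟩)
      obtain ⟨w, hw⟩ : ∃ w, r + 2 = 2 * w := ⟨(r + 2) / 2, by omega⟩
      have hMw : r * (r + 2) = (2 ^ a' * 3 ^ b' * u') * (2 * w) := by rw [← hw, ← hs]
      refine ⟨D, isPiHall_of_card D a' b' ((r + 1) * u' * w) hD ?_ ?_ ?_⟩
      · apply Nat.eq_of_mul_eq_mul_left (by norm_num : 0 < 2)
        rw [hN, hMw]; ring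
      · intro h
        rcases Nat.prime_two.dvd_mul.mp h with h | h
        · rcases Nat.prime_two.dvd_mul.mp h with h | h
          · exact hq2 h
          · exact hu2' h
        · omega
      · intro h
        rcases Nat.prime_three.dvd_mul.mp h with h | h
        · rcases Nat.prime_three.dvd_mul.mp h with h | h
          · exact hq3 h
          · exact hu3' h
        · omega
    · -- `3 ∣ q + 1`, `q ≡ 3 (mod 4)`
      obtain ⟨a', b', u', hs, hu2', hu3'⟩ := exists_two_three_split (r + 2) (by omega)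
      have hm12 : 12 ∣ 2 ^ a' * 3 ^ b' := by
        have h12r : 12 ∣ r + 2 := Nat.dvd_of_mod_eq_zero (by omega)
        have hc : Nat.Coprime 12 u' :=
          (coprime_24 u' hu2' hu3').coprime_dvd_left (by norm_num : 12 ∣ 24)
        exact hc.dvd_of_dvd_mul_right (by rw [← hs]; exact h12r)
      obtain ⟨D, hD⟩ := exists_subgroup_PSL2_card hodd (2 ^ a' * 3 ^ b') hm12
        (Or.inr ⟨u', by rw [hq]; exact hs⟩)
      obtain ⟨w, hw⟩ : ∃ w, r = 2 * w := ⟨r / 2, by omega⟩
      have hMw : r * (r + 2) = (2 * w) * (2 ^ a' * 3 ^ b' * u') := by rw [← hw, ← hs]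
      refine ⟨D, isPiHall_of_card D a' b' ((r + 1) * u' * w) hD ?_ ?_ ?_⟩
      · apply Nat.eq_of_mul_eq_mul_left (by norm_num : 0 < 2)
        rw [hN, hMw]; ring
      · intro h
        rcases Nat.prime_two.dvd_mul.mp h with h | h
        · rcases Nat.prime_two.dvd_mul.mp h with h | h
          · exact hq2 h
          · exact hu2' h
        · omega
      · intro h
        rcases Nat.prime_three.dvd_mul.mp h with h | h
        · rcases Nat.prime_three.dvd_mul.mp h with h | h
          · exact hq3 h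
          · exact hu3' h
        · omega
    · -- `{2,3}`-part 24: a copy of `A₄`
      obtain ⟨H, ⟨e⟩⟩ := (Cfsg.Agent.S0802.result p n (hq.trans hn)).mpr
        (by rintro ⟨rfl, -⟩; omega)
      refine ⟨H, isPiHall_of_card H 2 1 ((r + 1) * u) ?_ ?_ ?_ ?_⟩
      · rw [Nat.card_congr e.toEquiv, card_A4]; norm_num
      · apply Nat.eq_of_mul_eq_mul_left (by norm_num : 0 < 2)
        rw [hN, hM, hA24]; ring
      · intro h
        rcases Nat.prime_two.dvd_mul.mp h with h | h
        · exact hq2 h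
        · exact hu2 h
      · intro h
        rcases Nat.prime_three.dvd_mul.mp h with h | h
        · exact hq3 h
        · exact hu3 h
    · -- `{2,3}`-part 48: a copy of `S₄`
      have h16 : (r + 1) ^ 2 % 16 = 1 := by
        have : (r + 1) ^ 2 = 48 * u + 1 := by
          rw [← hA48, ← hM]; ring
        omega
      obtain ⟨H, ⟨e⟩⟩ := (Cfsg.Agent.S0803.result hq).mpr h16
      refine ⟨H, isPiHall_of_card H 3 1 ((r + 1) * u) ?_ ?_ ?_ ?_⟩
      · rw [Nat.card_congr e.toEquiv, card_S4]; norm_num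
      · apply Nat.eq_of_mul_eq_mul_left (by norm_num : 0 < 2)
        rw [hN, hM, hA48]; ring
      · intro h
        rcases Nat.prime_two.dvd_mul.mp h with h | h
        · exact hq2 h
        · exact hu2 h
      · intro h
        rcases Nat.prime_three.dvd_mul.mp h with h | h
        · exact hq3 h
        · exact hu3 h

end Cfsg.Agent.S2537
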