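import Cfsg.Statements.S2548
import Cfsg.Agent.H78.StO3
import Cfsg.Agent.H48.StOONE
import Cfsg.Agent.H48.StOCEN
import Cfsg.Agent.H36.StOElt
import Cfsg.Agent.H36.StORel
import Cfsg.Agent.H69.StOW
import Cfsg.Agent.H12.StOOmega
import Cfsg.Agent.H62.StOSylA
import Cfsg.Agent.H62.StOSylB
import Cfsg.Agent.H95.OPlusGen
import Cfsg.Agent.H48.StOTWO

set_option autoImplicit false
open Cfsg

namespace Cfsg.Agent.S2548

/-- Let F be a finite field of characteristic p and consider the group PΩ⁺_{2m}(F) of the hyperbolic quadratic form Σ x_i y_i with m ≥ 1, where Ω denotes the commutator subgroup of the full isometry group. This group has an irreducible complex character χ whose degree equals the order of a Sylow p-subgroup (equal to q^(m(m−1)) when #F = q, except in the degenerate case m = 2, q = 2, where this commutator subgroup has order 18 and its Sylow 2-subgroups have order 2) and whose restriction to any Sylow p-subgroup P is the regular character of P: χ vanishes on the non-identity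 elements of P. (This is the Steinberg character.) -/
theorem result {F : Type*} [Field F] [Fintype F] (p : ℕ) [Fact p.Prime] [CharP F p] (m : ℕ) (hm : 1 ≤ m) : ∃ χ : Cfsg.POmega F (Cfsg.quadFormPlus m F) → ℂ, Cfsg.IsIrrCharacter (Cfsg.POmega F (Cfsg.quadFormPlus m F)) χ ∧ ∀ P : Sylow p (Cfsg.POmega F (Cfsg.quadFormPlus m F)), χ 1 = Nat.card P ∧ ∀ x : Cfsg.POmega F (Cfsg.quadFormPlus m F), x ∈ P → x ≠ 1 → χ x = 0 := by
  obtain ⟨m', rfl⟩ : ∃ m', m = m' + 1 := ⟨m - 1, by omega⟩
  by_cases h0 : m' = 0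
  · subst h0
    exact Cfsg.Agent.H48.StO.oplus_steinberg_one p
  by_cases h22 : Fintype.card F = 2 ∧ m' = 1
  · obtain ⟨hF, rfl⟩ := h22
    have h2 : ((2 : ℕ) : F) = 0 := by
      rw [← hF]
      exact Nat.cast_card_eq_zero F
    have hdvd : p ∣ 2 := (CharP.cast_eq_zero_iff F p 2).mp h2
    have hp2 : p = 2 := (Nat.prime_dvd_prime_iff_eq Fact.out Nat.prime_two).mp hdvd
    subst hp2
    exact Cfsg.Agent.H48.StO.oplus_steinberg_two_two hF
  · have hm : 1 ≤ m' := by omega
    have h : Fintype.card F ≠ 2 ∨ m' ≠ 1 := by tauto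
    exact Cfsg.Agent.H78.StO.oplus_steinberg_of p m'
      (Cfsg.Agent.H36.StO.oplus_rel m')
      (Cfsg.Agent.H36.StO.exists_flip m' (Fin.last m'))
      (fun K hU hlow hdiag hflip => Cfsg.Agent.H95.OPlusGen.oplus_gen m' hm h K hU hlow hdiag hflip)
      (Cfsg.Agent.H12.StOP.oplus_uni_mem_omega m' hm h)
      (Cfsg.Agent.H12.StOP.oplus_root_mem_omega m' hm h)
      (Cfsg.Agent.H36.StO.exists_siegel_up m')
      (Cfsg.Agent.H36.StO.exists_siegel_low m')
      (fun z h1 h2 h3 => Cfsg.Agent.H48.StO.diag_of_commute (m' + 1) (by omega) z h1 h2 h3)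
      (Cfsg.Agent.H62.StO62.oplus_uni_card m')
      (fun U' hU' hc => Cfsg.Agent.H62.StO62.oplus_sylow p m' hm h U' hU' hc)
      (fun L hL => Cfsg.Agent.H69.StOW.wsp_long m' L hL)

end Cfsg.Agent.S2548
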