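import Cfsg.Statements.S2648
import Cfsg.Agent.H76.LinDer
import Cfsg.Agent.H76.SpTower

set_option autoImplicit false
open Cfsg

namespace Cfsg.Agent.S2648

open Cfsg.Agent.H76

/-- Let q be odd, F a field with q elements and n ≥ 1. A Sylow 2-subgroup R of the symplectic group Sp_{2n}(F) has derived length exactly k + 1, where 2^k ≤ 2n < 2^{k+1}: the (k+1)-st term of its derived series is trivial and the k-th is not. -/
theorem result {F : Type*} [Field F] [Fintype F] [DecidableEq F] (q : ℕ) (hF : Fintype.card F = q) (hq : Odd q) (n : ℕ) (hn : 1 ≤ n) (R : Sylow 2 ↥(Matrix.symplecticGroup (Fin n) F)) : derivedSeries ↥(R : Subgroup ↥(Matrix.symplecticGroup (Fin n) F)) (Nat.log 2 (2 * n) + 1) = ⊥ ∧ derivedSeries ↥(R : Subgroup ↥(Matrix.symplecticGroup (Fin n) F)) (Nat.log 2 (2 * n)) ≠ ⊥ := by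
  subst hF
  have h2 : (2 : F) ≠ 0 := by
    intro h0
    have : CharP F 2 := (CharP.charP_iff_prime_eq_zero Nat.prime_two).mpr (by exact_mod_cast h0)
    obtain ⟨k, -, hk⟩ := FiniteField.card F 2
    rw [hk] at hq
    exact (Nat.not_even_iff_odd.mpr hq) ((Nat.even_pow).mpr ⟨even_two, k.ne_zero⟩)
  constructor
  · let ρ' : ↥(R : Subgroup ↥(Matrix.symplecticGroup (Fin n) F)) →*
        Module.End F (Fin n ⊕ Fin n → F) :=
      ((Matrix.toLinAlgEquiv' : Matrix (Fin n ⊕ Fin n) (Fin n ⊕ Fin n) F ≃ₐ[F] _) :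
        Matrix (Fin n ⊕ Fin n) (Fin n ⊕ Fin n) F →* _).comp
        ((Matrix.symplecticGroup (Fin n) F).subtype.comp
          (R : Subgroup ↥(Matrix.symplecticGroup (Fin n) F)).subtype)
    have hinj : Function.Injective ρ' := by
      intro a b hab
      apply Subtype.ext
      apply Subtype.ext
      exact (Matrix.toLinAlgEquiv' :
        Matrix (Fin n ⊕ Fin n) (Fin n ⊕ Fin n) F ≃ₐ[F] _).injective hab
    have hfr : Module.finrank F (Fin n ⊕ Fin n → F) = 2 * n := by
      rw [Module.finrank_fintype_fun_eq_card]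
      simp
      ring
    have He : LinDer.FpfDvd F 2 1 := fun U _ _ _ x _ _ => one_dvd _
    have key := LinDer.main 2 2 1 le_rfl le_rfl (Or.inl rfl) one_pos
      (by exact_mod_cast h2) He (2 * n) (Fin n ⊕ Fin n → F) hfr
      ↥(R : Subgroup ↥(Matrix.symplecticGroup (Fin n) F)) R.isPGroup' ρ'
    rw [Nat.div_one] at key
    rw [eq_bot_iff]
    intro x hx
    rw [Subgroup.mem_bot]
    apply hinj
    rw [map_one]
    exact MonoidHom.mem_ker.mp (key hx)
  · have hk1 : 1 ≤ Nat.log 2 (2 * n) := Nat.log_pos (by norm_num) (by omega)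
    have hk2 : 2 ^ Nat.log 2 (2 * n) ≤ 2 * n := Nat.pow_log_le_self 2 (by omega)
    have hkn : 2 ^ (Nat.log 2 (2 * n) - 1) ≤ n := by
      have : 2 ^ Nat.log 2 (2 * n) = 2 * 2 ^ (Nat.log 2 (2 * n) - 1) := by
        rw [← pow_succ']
        congr 1
        omega
      omega
    obtain ⟨H, hH, hHk⟩ := SpTower.exists_two_subgroup h2 n (Nat.log 2 (2 * n)) hk1 hkn
    rw [Ne, derivedSeries_eq_bot_iff_dser]
    obtain ⟨P', hP'⟩ := hH.exists_le_sylow
    obtain ⟨x, hx⟩ := MulAction.exists_smul_eq ↥(Matrix.symplecticGroup (Fin n) F) R P'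
    intro hbot
    have h1 : dser H (Nat.log 2 (2 * n)) ≤
        dser (P' : Subgroup ↥(Matrix.symplecticGroup (Fin n) F)) (Nat.log 2 (2 * n)) :=
      dser_mono hP' _
    have h2' : (P' : Subgroup ↥(Matrix.symplecticGroup (Fin n) F)) =
        (R : Subgroup ↥(Matrix.symplecticGroup (Fin n) F)).map (MulAut.conj x).toMonoidHom := by
      rw [← hx]
      rfl
    rw [h2', dser_map, hbot, Subgroup.map_bot, le_bot_iff] at h1
    exact hHk h1

end Cfsg.Agent.S2648
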