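import Cfsg.Statements.S2772
import Cfsg.Agent.H52.SmAsm
import Cfsg.Agent.H40.SmJ
import Cfsg.Agent.H89.SmCV
import Cfsg.Agent.H89.SmTV
import Cfsg.Agent.H40.SmFin
import Cfsg.Agent.H18.SmSims
import Cfsg.Agent.H24.SmTwo
import Cfsg.Agent.H24.SmSetup
import Cfsg.Agent.H11.SmIdSetup
import Cfsg.Agent.H89.SmCard
import Cfsg.Agent.H62.SmSurj
import Cfsg.Agent.H62.SmId24
import Cfsg.Agent.H62.SmElem
import Cfsg.Agent.H37.SmCen
import Cfsg.Agent.H89.SmSign
import Cfsg.Agent.H11.SmId48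

set_option autoImplicit false
open Cfsg

namespace Cfsg.Agent.S2772

/-- Sims' Theorem in local form: let H be a finite non-abelian simple group and G a maximal subgroup of H with C_G(O₂(G)) ≤ O₂(G), such that N_H(S) is not contained in G for a Sylow 2-subgroup S of G and G/O₂(G) is dihedral of order 2q for a prime q. Then G is isomorphic to the symmetric group of degree 4 or to its direct product with a group of order 2. -/
theorem result {H : Type*} [Group H] [Finite H] [IsSimpleGroup H] (hna : ¬ IsMulCommutative H) (G : Subgroup H) (hG : IsCoatom G) (hchar : Subgroup.centralizer (Cfsg.pCore 2 ↥G : Set ↥G) ≤ Cfsg.pCore 2 ↥G) (S : Sylow 2 ↥G) (hN : ¬ Subgroup.normalizer (((S : Subgroup ↥G).map G.subtype : Subgroup H) : Set H) ≤ G) (q : ℕ) (hq : q.Prime) (hD : Nonempty (↥G ⧸ Cfsg.pCore 2 ↥G ≃* DihedralGroup q)) : Nonempty (↥G ≃* Equiv.Perm (Fin 4)) ∨ Nonempty (↥G ≃* Equiv.Perm (Fin 4) × Multiplicative (ZMod 2)) := by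
  -- Route (team project led by helper52; pieces by helpers 11, 18, 24, 37, 40, 62, 89, 93):
  -- (A) `q = 3` by the Thompson-subgroup / transvection argument, (B) Sims' theorem S3385
  -- bounds `|G|` by 48, (C) identification of the group of order 24 or 48.
  exact Cfsg.Agent.H52.Sm.main Cfsg.Agent.H24.Sm.two Cfsg.Agent.H24.Sm.setup
    (Cfsg.Agent.H52.Sm.q3 Cfsg.Agent.H40.Sm.j Cfsg.Agent.H89.Sm.cv Cfsg.Agent.H89.Sm.tv
      Cfsg.Agent.H40.Sm.fin)
    Cfsg.Agent.H18.Sm.sims Cfsg.Agent.H11.Sm.idSetup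
    (Cfsg.Agent.H52.Sm.id_main Cfsg.Agent.H89.Sm.idCard Cfsg.Agent.H62.Sm.id24
      Cfsg.Agent.H62.Sm.elem
      (Cfsg.Agent.H11.Sm.id48 Cfsg.Agent.H37.Sm.cen Cfsg.Agent.H62.Sm.surj Cfsg.Agent.H89.Sm.sign))
    G hG hchar S hN q hq hD

end Cfsg.Agent.S2772
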