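import Cfsg.Statements.S2787
import Cfsg.Agent.H52.QSAsm
import Cfsg.Agent.H98.QSP
import Cfsg.Agent.H51.QSQ
import Cfsg.Agent.H51.QSNil
import Cfsg.Agent.H51.QSFac
import Cfsg.Agent.H8.QSSecA
import Cfsg.Agent.H98.QSSecB
import Cfsg.Agent.H4.QSSecC
import Cfsg.Agent.H35.QSDick4
import Cfsg.Agent.H52.QSRee4L
import Cfsg.Agent.H12.QSBS
import Cfsg.Agent.H32.QSRedA
import Cfsg.Agent.H32.QSRedB

set_option autoImplicit false
open Cfsg

namespace Cfsg.Agent.S2787

/-- Let p be a prime and let H act by conjugation on the elementary abelian p-subgroup V of a finite group, irreducibly (no H-invariant subgroups of V other than 1 and V) and nontrivially, and suppose H/C_H(V) is isomorphic to PSL₂(F) for a field F with p^n elements, p^n odd, or p = 3 and H/C_H(V) is isomorphic to a Ree group ²G₂(3^(2m+1)), m ≥ 1. Then no subgroup A of H acting nontrivially on V acts quadratically: [V, A, A] = 1 forces [V, A] = 1. -/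
theorem result {G : Type*} [Group G] [Finite G] {p : ℕ} [Fact p.Prime] (V H : Subgroup G) (hV : Cfsg.IsElementaryAbelian p V) (hHV : H ≤ Subgroup.normalizer (V : Set G)) (hirr : ∀ U : Subgroup G, U ≤ V → H ≤ Subgroup.normalizer (U : Set G) → U = ⊥ ∨ U = V) (hnt : ¬ H ≤ Subgroup.centralizer (V : Set G)) [hn : ((Subgroup.centralizer (V : Set G)).subgroupOf H).Normal] (hq : (∃ (F : Type) (_ : Field F) (_ : Fintype F) (n : ℕ), Fintype.card F = p ^ n ∧ Odd (Fintype.card F) ∧ Nonempty (↥H ⧸ (Subgroup.centralizer (V : Set G)).subgroupOf H ≃* Matrix.ProjectiveSpecialLinearGroup (Fin 2) F)) ∨ (p = 3 ∧ Cfsg.Lie.IsoRee (↥H ⧸ (Subgroup.centralizer (V : Set G)).subgroupOf H))) (A : Subgroup G) (hA : A ≤ H) (hquad : ⁅⁅V, A⁆, A⁆ = ⊥) : ⁅V, A⁆ = ⊥ := by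
  classical
  by_contra hne
  obtain ⟨M, iM1, iM2, iM3, ρ, x, hρ, hx1, hxq, hirrM⟩ :=
    Cfsg.Agent.H32.QS.red Cfsg.Agent.H32.QS.redA V H hV hHV hirr A hA hquad hne
  rcases hq with ⟨F, iF, iFt, n, hcard, hodd, ⟨e⟩⟩ | ⟨hp3, hRee⟩
  · have hn0 : n ≠ 0 := by
      rintro rfl
      rw [pow_zero] at hcard
      have := Fintype.one_lt_card (α := F)
      omega
    obtain ⟨q, hq⟩ := CharP.exists F
    haveI := hq
    obtain ⟨k, hqp, hk⟩ := FiniteField.card F q
    have hpq : p = q := by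
      have h1 : p ∣ q ^ (k : ℕ) := by
        rw [← hk, hcard]
        exact dvd_pow_self p hn0
      exact (Nat.prime_dvd_prime_iff_eq (Fact.out : p.Prime) hqp).1
        ((Fact.out : p.Prime).dvd_of_dvd_pow h1)
    subst hpq
    have hp2 : p ≠ 2 := by
      rintro rfl
      rw [hcard] at hodd
      exact (Nat.not_even_iff_odd.2 hodd) ((Nat.even_pow' hn0).2 even_two)
    exact Cfsg.Agent.H52.QS.pslBranch Cfsg.Agent.H98.QS.stP Cfsg.Agent.H51.QS.stQ p hp2 F _ e M ρ hρ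
      x hx1 hxq
  · subst hp3
    obtain ⟨K, iK, iKf, m, hm, hcard, ⟨e⟩⟩ := hRee
    exact Cfsg.Agent.H52.QS.reeBranch Cfsg.Agent.H12.QS.bs Cfsg.Agent.H51.QS.stNil
      (Cfsg.Agent.H52.QS.sec_of Cfsg.Agent.H51.QS.stFac
        (Cfsg.Agent.H4.QS.secC Cfsg.Agent.H8.QS.secA Cfsg.Agent.H98.QS.secB)
        Cfsg.Agent.H35.QS.dick4)
      Cfsg.Agent.H52.QS.ree4L K m hcard _ e M ρ hρ hirrM x hx1 hxq

end Cfsg.Agent.S2787
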