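import Mathlib
import Cfsg.Statements.S2788
import Cfsg.Agent.H65.FaithBoundP

set_option autoImplicit false
open Cfsg

namespace Cfsg.Agent.S2788

/-- Let H act faithfully by conjugation on the elementary abelian p-subgroup V of a finite group with H ≅ SL₂(F), F a field with p^n elements, S a Sylow p-subgroup of H, and A ≤ S a subgroup of order at least 3 acting quadratically on V ([V, A, A] = 1). Then |V/C_V(a)| ≥ p^n for every nonidentity a ∈ A. -/
theorem result {G : Type*} [Group G] [Finite G] {p : ℕ} [Fact p.Prime] (V H : Subgroup G) (hV : Cfsg.IsElementaryAbelian p V) (hHV : H ≤ Subgroup.normalizer (V : Set G)) (hf : H ⊓ Subgroup.centralizer (V : Set G) = ⊥) {F : Type*} [Field F] [Fintype F] (n : ℕ) (hF : Fintype.card F = p ^ n) (hiso : Nonempty (↥H ≃* Matrix.SpecialLinearGroup (Fin 2) F)) (S : Sylow p ↥H) (T : Subgroup G) (hT : T = ((S : Subgroup ↥H).map H.subtype)) (A : Subgroup G) (hA : A ≤ T) (hA3 : 3 ≤ Nat.card A) (hquad : ⁅⁅V, A⁆, A⁆ = ⊥) : ∀ a ∈ A, a ≠ 1 → p ^ n ≤ ((V ⊓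 Subgroup.centralizer ({a} : Set G))).relIndex V := by
  classical
  have hpp : p.Prime := Fact.out
  intro a haA ha1
  have haT : a ∈ T := hA haA
  rw [hT] at haT
  obtain ⟨a', ha'S, rfl⟩ := haT
  have haH : (H.subtype a') ∈ H := a'.2
  obtain ⟨k, hk⟩ := S.isPGroup' ⟨a', ha'S⟩
  have hk' : (H.subtype a') ^ (p ^ k) = 1 := by
    have h1 : a' ^ (p ^ k) = 1 := by
      have := congrArg Subtype.val hk
      simpa using this
    have h2 := congrArg Subtype.val h1
    simpa using h2
  have hnc : H.subtype a' ∉ Subgroup.centralizer (V : Set G) := by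
    intro hmem
    have h1 : H.subtype a' ∈ H ⊓ Subgroup.centralizer (V : Set G) := ⟨haH, hmem⟩
    rw [hf, Subgroup.mem_bot] at h1
    exact ha1 h1
  rcases Nat.lt_or_ge n 2 with hn | hn
  · have h1 := Cfsg.Agent.H65.FaithCount.p_le_relIndex p V hV.2 _ hnc
    calc p ^ n ≤ p ^ 1 := Nat.pow_le_pow_right hpp.pos (by omega)
      _ = p := pow_one p
      _ ≤ _ := h1
  · obtain ⟨φ⟩ := hiso
    exact (Cfsg.Agent.H65.FaithCount.main_bound_gen V H hV.2 hHV hf n hn hF φ.toMonoidHom
      φ.surjective (MonoidHom.id _) (fun x => ⟨x, rfl⟩)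
      (by rw [MonoidHom.ker_id]; exact bot_le) (H.subtype a') haH (by
        intro h
        have h1 : φ a' = 1 := h
        have h2 : a' = 1 := by
          rw [← map_one φ] at h1
          exact φ.injective h1
        apply ha1
        rw [h2]; rfl) k hk').1

end Cfsg.Agent.S2788
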