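import Cfsg.Statements.S2896
import Cfsg.Agent.H54.FStar
import Cfsg.Agent.H54.Parabolic

set_option autoImplicit false
open Cfsg

namespace Cfsg.Agent.S2896

/-- Elements of `Ω₁` of an abelian-type subgroup `Z = S ∩ C(S)` have `p`-th power one. -/
theorem mem_omegaOne_center {G : Type*} [Group G] {p : ℕ} (S : Subgroup G) {z : G}
    (hz : z ∈ Cfsg.omegaOne p (S ⊓ Subgroup.centralizer (S : Set G))) :
    z ∈ S ⊓ Subgroup.centralizer (S : Set G) ∧ z ^ p = 1 := by
  refine ⟨Cfsg.Agent.H54.omegaOne_le _ hz, ?_⟩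
  unfold Cfsg.omegaOne at hz
  induction hz using Subgroup.closure_induction with
  | mem x hx => exact hx.2
  | one => simp
  | mul x y hx hy hxp hyp =>
    have hx' : x ∈ S ⊓ Subgroup.centralizer (S : Set G) := Cfsg.Agent.H54.omegaOne_le _ hx
    have hy' : y ∈ S ⊓ Subgroup.centralizer (S : Set G) := Cfsg.Agent.H54.omegaOne_le _ hy
    have hc : Commute x y := (Subgroup.mem_centralizer_iff.mp hy'.2 x hx'.1)
    rw [hc.mul_pow, hxp, hyp, one_mul]
  | inv x hx hxp => rw [inv_pow, hxp, inv_one]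

open Cfsg.Agent.H54 in
/-- Let p be a prime dividing the order of the finite group G, S a Sylow p-subgroup of G and X a subgroup of S. (i) If some nontrivial element z of the centre of X has F*(C_G(z)) = O_p(C_G(z)), then F*(N_G(X)) = O_p(N_G(X)). (ii) G has parabolic characteristic p if and only if F*(C_G(z)) = O_p(C_G(z)) for every nontrivial z ∈ Ω₁(Z(S)). (iii) If F*(C_G(z)) = O_p(C_G(z)) for every element z of S of order p, then G has local characteristic p. -/
theorem result {G : Type*} [Group G] [Finite G] {p : ℕ} [Fact p.Prime] (hdiv : p ∣ Nat.card G) (S : Sylow p G) (X : Subgroup G) (hX : X ≤ (S : Subgroup G)) : (∀ z : G, z ≠ 1 → z ∈ X → (∀ x ∈ X, x * z = z * x) → Cfsg.generalizedFittingSubgroup ↥(Subgroup.centralizer ({z} : Set G)) = Cfsg.pCore p ↥(Subgroup.centralizer ({z} : Set G)) → Cfsg.generalizedFittingSubgroup ↥(Subgroup.normalizer (X : Set G)) = Cfsg.pCore p ↥(Subgroup.normalizer (X : Set G))) ∧ (Cfsg.IsOfParabolicCharacteristic p G ↔ ∀ z : G, z ≠ 1 →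 z ∈ Cfsg.omegaOne p ((S : Subgroup G) ⊓ Subgroup.centralizer ((S : Subgroup G) : Set G)) → Cfsg.generalizedFittingSubgroup ↥(Subgroup.centralizer ({z} : Set G)) = Cfsg.pCore p ↥(Subgroup.centralizer ({z} : Set G))) ∧ ((∀ z : G, z ∈ (S : Subgroup G) → orderOf z = p → Cfsg.generalizedFittingSubgroup ↥(Subgroup.centralizer ({z} : Set G)) = Cfsg.pCore p ↥(Subgroup.centralizer ({z} : Set G))) → Cfsg.IsOfLocalCharacteristic p G) := by
  have hp : p.Prime := Fact.out
  refine ⟨?_, ⟨?_, ?_⟩, ?_⟩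
  · intro z _ hzX hzc hz
    exact fstar_eq_pCore_iff_charP.mpr (charP_normalizer_of_centralizer_elt X (S.isPGroup'.to_le hX)
      z hzX hzc (fstar_eq_pCore_iff_charP.mp hz))
  · intro hG z hz1 hz
    obtain ⟨hzZ, hzp⟩ := mem_omegaOne_center (S : Subgroup G) hz
    have hzo : orderOf z = p := orderOf_eq_prime hzp hz1
    exact fstar_eq_pCore_iff_charP.mpr (charP_centralizer_of_parabolic hG S z hzo
      (fun s hs => Subgroup.mem_centralizer_iff.mp hzZ.2 s hs))
  · intro h
    apply parabolic_of_central S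
    intro z hzS hzo hzc
    apply fstar_eq_pCore_iff_charP.mp
    apply h z
    · intro h1
      rw [h1, orderOf_one] at hzo
      exact hp.one_lt.ne hzo
    · apply mem_omegaOne
      · exact ⟨hzS, Subgroup.mem_centralizer_iff.mpr (fun s hs => hzc s hs)⟩
      · rw [← hzo]; exact pow_orderOf_eq_one z
  · intro h
    refine ⟨hdiv, ?_⟩
    intro T hT hTne
    obtain ⟨g, -, hg⟩ := sylow_conj_in S ⊤ le_top T hT le_top
    have hT'S : T.map (MulAut.conj g).toMonoidHom ≤ S := by
      rintro _ ⟨x, hx, rfl⟩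
      exact hg x hx
    have hT'p : IsPGroup p (T.map (MulAut.conj g).toMonoidHom) := isPGroup_map_conj T g hT
    have hT'ne : T.map (MulAut.conj g).toMonoidHom ≠ ⊥ := map_conj_ne_bot T g hTne
    obtain ⟨z, hzT, hzo, hzc⟩ := exists_central_orderOf_eq_of_ne_bot _ hT'p hT'ne
    have h1 : CharP p ↥(Subgroup.normalizer ((T.map (MulAut.conj g).toMonoidHom : Subgroup G) : Set G)) :=
      charP_normalizer_of_centralizer_elt _ hT'p z hzT hzc
        (fstar_eq_pCore_iff_charP.mp (h z (hT'S hzT) hzo))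
    have h2 := charP_conj _ g⁻¹ h1
    rw [Subgroup.map_equiv_normalizer_eq _ (MulAut.conj g⁻¹)] at h2
    have h3 : (T.map (MulAut.conj g).toMonoidHom).map (MulAut.conj g⁻¹).toMonoidHom = T := by
      have := map_conj_map_conj_inv T g⁻¹
      rwa [inv_inv] at this
    rw [h3] at h2
    exact h2

end Cfsg.Agent.S2896
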