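import Cfsg.Statements.S2898
import Cfsg.Agent.H54.CharP2
import Cfsg.Agent.H54.PGroup
import Cfsg.Agent.H38.PiCore

set_option autoImplicit false
open Cfsg

namespace Cfsg.Agent.S2898

open Cfsg.Agent.H54 in
/-- Let G be a finite group of even order with parabolic characteristic 2. If the centre of G ⧸ O(G) is trivial, then O(G) = 1. -/
theorem result {G : Type*} [Group G] [Finite G] (h2 : 2 ∣ Nat.card G) (hG : Cfsg.IsOfParabolicCharacteristic 2 G) [hN : (Cfsg.oddCore G).Normal] (hZ : Subgroup.center (G ⧸ Cfsg.oddCore G) = ⊥) : Cfsg.oddCore G = ⊥ := by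
  have : Fact (Nat.Prime 2) := ⟨Nat.prime_two⟩
  let S : Sylow 2 G := default
  have hSne : (S : Subgroup G) ≠ ⊥ := S.ne_bot_of_dvd_card h2
  have hKodd : (Nat.card (Cfsg.oddCore G)).Coprime 2 := Cfsg.Agent.H38.coprime_card_pPrimeCore 2
  have hKelt : ∀ k ∈ Cfsg.oddCore G, (orderOf k).Coprime 2 := by
    intro k hk
    have h1 : orderOf k ∣ Nat.card (Cfsg.oddCore G) := by
      have := orderOf_dvd_natCard (⟨k, hk⟩ : Cfsg.oddCore G)
      rwa [← Subgroup.orderOf_coe] at this
    exact Nat.Coprime.coprime_dvd_left h1 hKodd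
  -- Step 1: central involutions of S have no nontrivial fixed points on O(G)
  have step1 : ∀ z : G, z ∈ S → orderOf z = 2 → (∀ s ∈ S, s * z = z * s) →
      ∀ k ∈ Cfsg.oddCore G, k * z = z * k → k = 1 := by
    intro z hzS hzo hzc k hk hkz
    have hRp : IsPGroup 2 (Subgroup.zpowers z) := isPGroup_zpowers_of_orderOf hzo
    have hRne : Subgroup.zpowers z ≠ ⊥ := zpowers_ne_bot_of_orderOf hzo
    have hcn : ∀ y : G, y * z = z * y → y ∈ Subgroup.normalizer ((Subgroup.zpowers z : Subgroup G) : Set G) := by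
      intro y hy
      apply Subgroup.centralizer_le_normalizer
      rw [Subgroup.mem_centralizer_iff]
      intro w hw
      obtain ⟨n, rfl⟩ := Subgroup.mem_zpowers_iff.mp hw
      have hc : Commute y z := hy
      exact (hc.zpow_right n).eq.symm
    have hpar : Cfsg.IsParabolic 2 (Subgroup.normalizer ((Subgroup.zpowers z : Subgroup G) : Set G)) :=
      ⟨S, fun s hs => hcn s (hzc s hs)⟩
    have hchar : CharP 2 ↥(Subgroup.normalizer ((Subgroup.zpowers z : Subgroup G) : Set G)) :=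
      hG _ hRp hRne hpar
    apply p'_trivial_of_charP _ hchar k (hcn k hkz) (hKelt k hk)
    intro q hq
    have hqn : k * q * k⁻¹ * q⁻¹ ∈ Cfsg.pCoreOf 2 (Subgroup.normalizer ((Subgroup.zpowers z : Subgroup G) : Set G)) :=
      Subgroup.mul_mem _ (conj_mem_of_le_normalizer (le_normalizer_pCoreOf _) (hcn k hkz) hq)
        (Subgroup.inv_mem _ hq)
    have hqK : k * q * k⁻¹ * q⁻¹ ∈ Cfsg.oddCore G := by
      have h1 : q * k⁻¹ * q⁻¹ ∈ Cfsg.oddCore G := hN.conj_mem _ (Subgroup.inv_mem _ hk) q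
      have := Subgroup.mul_mem _ hk h1
      convert this using 1; group
    have h1 := eq_one_of_mem_pgroup_of_coprime (isPGroup_pCoreOf _) hqn (hKelt _ hqK)
    calc k * q = (k * q * k⁻¹ * q⁻¹) * (q * k) := by group
      _ = q * k := by rw [h1, one_mul]
  by_cases hA : ∃ z' : G, z' ∈ S ∧ orderOf z' = 2 ∧ (∀ s ∈ S, s * z' = z' * s) ∧
      z' ∈ Subgroup.centralizer ((Cfsg.oddCore G : Subgroup G) : Set G)
  · obtain ⟨z', hz'S, hz'o, hz'c, hz'D⟩ := hA
    rw [eq_bot_iff]
    intro k hk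
    rw [Subgroup.mem_bot]
    exact step1 z' hz'S hz'o hz'c k hk (Subgroup.mem_centralizer_iff.mp hz'D k hk)
  · exfalso
    have hDn : (Subgroup.centralizer ((Cfsg.oddCore G : Subgroup G) : Set G)).Normal :=
      Subgroup.normal_centralizer
    have hSD : (S : Subgroup G) ≤ Subgroup.normalizer
        ((Subgroup.centralizer ((Cfsg.oddCore G : Subgroup G) : Set G) : Subgroup G) : Set G) := by
      rw [Subgroup.normalizer_eq_top]
      exact le_top
    have hDS : Subgroup.centralizer ((Cfsg.oddCore G : Subgroup G) : Set G) ⊓ (S : Subgroup G) = ⊥ := by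
      by_contra hne
      obtain ⟨w, hw, hwo, hwc⟩ := exists_central_orderOf_of_normal_ne_bot (S : Subgroup G) _
        S.isPGroup' inf_le_right
        (le_normalizer_inf' hSD Subgroup.le_normalizer) hne
      exact hA ⟨w, hw.2, hwo, hwc, hw.1⟩
    have hDodd : (Nat.card (Subgroup.centralizer ((Cfsg.oddCore G : Subgroup G) : Set G))).Coprime 2 := by
      rw [Nat.coprime_comm, Nat.Prime.coprime_iff_not_dvd Nat.prime_two]
      intro hdvd
      obtain ⟨t, ht⟩ := exists_prime_orderOf_dvd_card'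
        (G := Subgroup.centralizer ((Cfsg.oddCore G : Subgroup G) : Set G)) 2 hdvd
      have hto : orderOf (t : G) = 2 := by rw [Subgroup.orderOf_coe]; exact ht
      obtain ⟨h, -, hconj⟩ := sylow_conj_in S ⊤ le_top (Subgroup.zpowers (t : G))
        (isPGroup_zpowers_of_orderOf hto) le_top
      have h1 : h * (t : G) * h⁻¹ ∈ Subgroup.centralizer ((Cfsg.oddCore G : Subgroup G) : Set G) ⊓ (S : Subgroup G) :=
        ⟨hDn.conj_mem _ t.2 h, hconj _ (Subgroup.mem_zpowers _)⟩
      rw [hDS, Subgroup.mem_bot] at h1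
      have h2 : (t : G) = 1 := by
        have : (t : G) = h⁻¹ * (h * (t : G) * h⁻¹) * h := by group
        rw [this, h1]; group
      rw [h2, orderOf_one] at hto
      omega
    have hDK : Subgroup.centralizer ((Cfsg.oddCore G : Subgroup G) : Set G) ≤ Cfsg.oddCore G :=
      Cfsg.Agent.H38.le_pPrimeCore _ hDn hDodd
    obtain ⟨z, hzS, hzo, hzc⟩ := exists_central_orderOf_eq_of_ne_bot (S : Subgroup G) S.isPGroup' hSne
    have hz2 : z * z = 1 := by
      have := pow_orderOf_eq_one z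
      rw [hzo, pow_two] at this
      exact this
    have hzinv : z⁻¹ = z := inv_eq_of_mul_eq_one_left hz2
    have hfix := step1 z hzS hzo hzc
    -- z inverts O(G)
    have hinvert : ∀ k ∈ Cfsg.oddCore G, z * k * z⁻¹ = k⁻¹ := by
      let f : Cfsg.oddCore G → Cfsg.oddCore G := fun k =>
        ⟨(k : G)⁻¹ * (z * k * z⁻¹), Subgroup.mul_mem _ (Subgroup.inv_mem _ k.2) (hN.conj_mem _ k.2 z)⟩
      have hfinj : Function.Injective f := by
        intro k k' hkk
        have h1 : (k : G)⁻¹ * (z * k * z⁻¹) = (k' : G)⁻¹ * (z * k' * z⁻¹) := congrArg Subtype.val hkk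
        have h2 : ((k' : G) * (k : G)⁻¹) * z = z * ((k' : G) * (k : G)⁻¹) := by
          calc ((k' : G) * (k : G)⁻¹) * z = (k' : G) * ((k : G)⁻¹ * (z * k * z⁻¹)) * z * (k : G)⁻¹ := by group
            _ = (k' : G) * ((k' : G)⁻¹ * (z * k' * z⁻¹)) * z * (k : G)⁻¹ := by rw [h1]
            _ = z * ((k' : G) * (k : G)⁻¹) := by group
        have h3 := hfix _ (Subgroup.mul_mem _ k'.2 (Subgroup.inv_mem _ k.2)) h2
        apply Subtype.ext
        have : (k' : G) = (k : G) := by
          calc (k' : G) = ((k' : G) * (k : G)⁻¹) * k := by group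
            _ = k := by rw [h3, one_mul]
        exact this.symm
      have hfsurj : Function.Surjective f := Finite.surjective_of_injective hfinj
      intro k hk
      obtain ⟨k₀, hk₀⟩ := hfsurj ⟨k, hk⟩
      have h1 : (k₀ : G)⁻¹ * (z * k₀ * z⁻¹) = k := congrArg Subtype.val hk₀
      rw [← h1, hzinv]
      have e1 : z * ((k₀ : G)⁻¹ * (z * k₀ * z)) * z = z * (k₀ : G)⁻¹ * z * k₀ * (z * z) := by group
      have e2 : ((k₀ : G)⁻¹ * (z * k₀ * z))⁻¹ = z⁻¹ * (k₀ : G)⁻¹ * z⁻¹ * k₀ := by group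
      rw [e1, e2, hz2, mul_one, hzinv]
    -- commutators with z lie in C_G(O(G)) ≤ O(G)
    have hcomm : ∀ g : G, z * g * z⁻¹ * g⁻¹ ∈ Cfsg.oddCore G := by
      intro g
      apply hDK
      rw [Subgroup.mem_centralizer_iff]
      intro k hk
      have h1 : g⁻¹ * k * g ∈ Cfsg.oddCore G := by
        have := hN.conj_mem _ hk g⁻¹
        simpa using this
      have h2 := hinvert _ h1
      have h3 : (g * z⁻¹ * g⁻¹) * k * (g * z⁻¹ * g⁻¹)⁻¹ = k⁻¹ := by
        have h2' : z⁻¹ * (g⁻¹ * k * g) * z⁻¹⁻¹ = (g⁻¹ * k * g)⁻¹ := by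
          rw [hzinv]; exact h2
        have h4 : (g * z⁻¹ * g⁻¹) * k * (g * z⁻¹ * g⁻¹)⁻¹ = g * (z⁻¹ * (g⁻¹ * k * g) * z⁻¹⁻¹) * g⁻¹ := by
          group
        rw [h4, h2']; group
      have h5 := hinvert _ (Subgroup.inv_mem _ hk)
      have h6 : (z * g * z⁻¹ * g⁻¹) * k * (z * g * z⁻¹ * g⁻¹)⁻¹ = k := by
        calc (z * g * z⁻¹ * g⁻¹) * k * (z * g * z⁻¹ * g⁻¹)⁻¹
            = z * ((g * z⁻¹ * g⁻¹) * k * (g * z⁻¹ * g⁻¹)⁻¹) * z⁻¹ := by group
          _ = z * k⁻¹ * z⁻¹ := by rw [h3]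
          _ = k := by rw [h5, inv_inv]
      calc k * (z * g * z⁻¹ * g⁻¹) = ((z * g * z⁻¹ * g⁻¹) * k * (z * g * z⁻¹ * g⁻¹)⁻¹) * (z * g * z⁻¹ * g⁻¹) := by rw [h6]
        _ = (z * g * z⁻¹ * g⁻¹) * k := by group
    have hzcenter : (QuotientGroup.mk' (Cfsg.oddCore G) z) ∈ Subgroup.center (G ⧸ Cfsg.oddCore G) := by
      rw [Subgroup.mem_center_iff]
      intro g
      obtain ⟨y, rfl⟩ := QuotientGroup.mk'_surjective _ g
      rw [← map_mul, ← map_mul]
      symm
      apply (QuotientGroup.eq_iff_div_mem).mpr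
      have h1 : z * y / (y * z) = z * y * z⁻¹ * y⁻¹ := by
        rw [div_eq_mul_inv, mul_inv_rev, ← mul_assoc]
      rw [h1]
      exact hcomm y
    rw [hZ, Subgroup.mem_bot] at hzcenter
    have hzK : z ∈ Cfsg.oddCore G := by
      have := (QuotientGroup.eq_one_iff z).mp hzcenter
      exact this
    have := hKelt z hzK
    rw [hzo] at this
    exact absurd this (by decide)

end Cfsg.Agent.S2898
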