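import Cfsg.Statements.S2907

set_option autoImplicit false
open Cfsg

namespace Cfsg.Agent.S2907

/-- Let X be a finite semi-extraspecial p-group and x an element of X outside the centre. Then the index of C_X(x) in X equals the order of Z(X), and the commutators [x, y], y ∈ X, form exactly the centre Z(X). -/
theorem result {X : Type*} [Group X] [Finite X] {p : ℕ} [Fact p.Prime] (hX : Cfsg.IsSemiExtraspecial p X) (x : X) (hx : x ∉ Subgroup.center X) : (Subgroup.centralizer ({x} : Set X)).index = Nat.card ↥(Subgroup.center X) ∧ {z : X | ∃ y : X, z = x * y * x⁻¹ * y⁻¹} = (Subgroup.center X : Set X) := by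
  obtain ⟨⟨hp, hfr, hcomm⟩, hsemi⟩ := hX
  have hcz : ∀ y : X, x * y * x⁻¹ * y⁻¹ ∈ Subgroup.center X := by
    intro y
    rw [← hcomm, commutator_def]
    have := Subgroup.commutator_mem_commutator (Subgroup.mem_top x) (Subgroup.mem_top y)
    simpa [commutatorElement_def] using this
  let φ : X →* Subgroup.center X :=
    { toFun := fun y => ⟨x * y * x⁻¹ * y⁻¹, hcz y⟩
      map_one' := by ext; simp
      map_mul' := by
        intro y y'
        ext
        simp only [Subgroup.coe_mul]
        have h := Subgroup.mem_center_iff.mp (hcz y') y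
        calc x * (y * y') * x⁻¹ * (y * y')⁻¹
            = x * y * x⁻¹ * y⁻¹ * (y * (x * y' * x⁻¹ * y'⁻¹)) * y⁻¹ := by group
          _ = x * y * x⁻¹ * y⁻¹ * ((x * y' * x⁻¹ * y'⁻¹) * y) * y⁻¹ := by rw [h]
          _ = x * y * x⁻¹ * y⁻¹ * (x * y' * x⁻¹ * y'⁻¹) := by group }
  have hφ : ∀ y : X, ((φ y : Subgroup.center X) : X) = x * y * x⁻¹ * y⁻¹ := fun y => rfl
  have hker : φ.ker = Subgroup.centralizer ({x} : Set X) := by
    ext y
    rw [MonoidHom.mem_ker, Subgroup.mem_centralizer_iff]
    constructor
    · intro h z hz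
      rw [Set.mem_singleton_iff] at hz; subst hz
      have h1 : z * y * z⁻¹ * y⁻¹ = 1 := by rw [← hφ, h]; rfl
      have h2 : z * y * z⁻¹ = y := by
        have := mul_inv_eq_one.mp h1
        exact this
      calc z * y = z * y * z⁻¹ * z := by group
        _ = y * z := by rw [h2]
    · intro h
      apply Subtype.ext
      rw [hφ]
      have h1 := h x rfl
      change x * y * x⁻¹ * y⁻¹ = 1
      rw [h1]; group
  have hrange : φ.range = ⊤ := by
    by_contra hne
    obtain ⟨Y', hY'co, hY'le⟩ := (eq_top_or_exists_le_coatom φ.range).resolve_left hne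
    have hY1 : Y'.map (Subgroup.center X).subtype ≤ Subgroup.center X := Subgroup.map_subtype_le Y'
    have hY2 : (Y'.map (Subgroup.center X).subtype).subgroupOf (Subgroup.center X) = Y' := by
      ext z
      rw [Subgroup.mem_subgroupOf]
      constructor
      · rintro ⟨w, hw, hwz⟩
        have : w = z := Subtype.ext hwz
        rw [← this]; exact hw
      · intro hz
        exact ⟨z, hz, rfl⟩
    obtain ⟨hYn, ⟨-, -, hYcomm⟩, -⟩ := hsemi _ hY1 (by rw [hY2]; exact hY'co)
    have hxc : (QuotientGroup.mk' (Y'.map (Subgroup.center X).subtype) x) ∈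
        Subgroup.center (X ⧸ Y'.map (Subgroup.center X).subtype) := by
      rw [Subgroup.mem_center_iff]
      intro g
      obtain ⟨y, rfl⟩ := QuotientGroup.mk'_surjective _ g
      rw [← map_mul, ← map_mul]
      symm
      apply (QuotientGroup.eq_iff_div_mem).mpr
      have h1 : x * y / (y * x) = x * y * x⁻¹ * y⁻¹ := by
        rw [div_eq_mul_inv, mul_inv_rev, ← mul_assoc]
      rw [h1]
      exact ⟨φ y, hY'le ⟨y, rfl⟩, rfl⟩
    have hmap : commutator (X ⧸ Y'.map (Subgroup.center X).subtype) =
        (commutator X).map (QuotientGroup.mk' (Y'.map (Subgroup.center X).subtype)) := by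
      rw [commutator_def, commutator_def, Subgroup.map_commutator,
        Subgroup.map_top_of_surjective _ (QuotientGroup.mk'_surjective _)]
    rw [← hYcomm, hmap, hcomm] at hxc
    obtain ⟨z, hz, hzx⟩ := hxc
    have h3 : z⁻¹ * x ∈ Y'.map (Subgroup.center X).subtype := by
      apply (QuotientGroup.eq).mp
      exact hzx
    apply hx
    have := (Subgroup.center X).mul_mem hz (hY1 h3)
    simpa using this
  refine ⟨?_, ?_⟩
  · rw [← hker, Subgroup.index_ker, hrange, Subgroup.card_top]
  · ext z
    constructor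
    · rintro ⟨y, rfl⟩
      exact hcz y
    · intro hz
      have : (⟨z, hz⟩ : Subgroup.center X) ∈ φ.range := by rw [hrange]; trivial
      obtain ⟨y, hy⟩ := this
      exact ⟨y, by rw [← hφ, hy]⟩

end Cfsg.Agent.S2907
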