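import Cfsg.Statements.S2908
import Cfsg.Agent.H54.Stab
import Cfsg.Agent.H54.Basic

set_option autoImplicit false
open Cfsg
open scoped commutatorElement

namespace Cfsg.Agent.S2908

/-- Let P be a p-subgroup of a finite group, normalized by a p-subgroup A and by a subgroup B of order prime to p that commutes elementwise with A. If [P, B] ≤ [P, A], then B centralizes P. -/
theorem result {G : Type*} [Group G] [Finite G] {p : ℕ} [Fact p.Prime] (P A B : Subgroup G) (hP : IsPGroup p ↥P) (hA : IsPGroup p ↥A) (hB : ¬ p ∣ Nat.card ↥B) (hnA : A ≤ Subgroup.normalizer (P : Set G)) (hnB : B ≤ Subgroup.normalizer (P : Set G)) (hAB : ⁅A, B⁆ = ⊥) (hcomm : ⁅P, B⁆ ≤ ⁅P, A⁆) : ⁅P, B⁆ = ⊥ := by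
  have hp : p.Prime := Fact.out
  -- H = P ⊔ A is a finite p-group
  have hH : IsPGroup p ↥(P ⊔ A) := IsPGroup.to_sup_of_normal_left' hP hA hnA
  have : Group.IsNilpotent ↥(P ⊔ A) := hH.isNilpotent
  obtain ⟨k, hk⟩ := IsPGroup.iff_card.mp hH
  have hAcentB : A ≤ Subgroup.centralizer (B : Set G) :=
    Subgroup.commutator_eq_bot_iff_le_centralizer.mp hAB
  rw [Subgroup.commutator_eq_bot_iff_le_centralizer]
  intro u hu
  rw [Subgroup.mem_centralizer_iff]
  intro b hb
  -- b normalizes P ⊔ A
  have hbP : b ∈ Subgroup.normalizer (P : Set G) := hnB hb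
  have hbA : ∀ a ∈ A, b * a = a * b := fun a ha =>
    (Subgroup.mem_centralizer_iff.mp (hAcentB ha) b hb)
  have hbH : b ∈ Subgroup.normalizer ((P ⊔ A : Subgroup G) : Set G) := by
    have h1 : ∀ c : G, c ∈ Subgroup.normalizer (P : Set G) → (∀ a ∈ A, c * a = a * c) →
        ∀ x ∈ P ⊔ A, c * x * c⁻¹ ∈ P ⊔ A := by
      intro c hcP hcA x hx
      have : (P ⊔ A : Subgroup G) ≤ (P ⊔ A : Subgroup G).comap (MulAut.conj c).toMonoidHom := by
        rw [sup_le_iff]
        constructor
        · intro y hy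
          rw [Subgroup.mem_comap]
          exact Subgroup.mem_sup_left ((Subgroup.mem_normalizer_iff.mp hcP y).mp hy)
        · intro y hy
          rw [Subgroup.mem_comap]
          have : (MulAut.conj c).toMonoidHom y = y := by
            simp only [MulEquiv.toMonoidHom_eq_coe, MonoidHom.coe_coe, MulAut.conj_apply]
            rw [hcA y hy]; group
          rw [this]
          exact Subgroup.mem_sup_right hy
      have h2 := this hx
      rw [Subgroup.mem_comap] at h2
      simpa using h2
    rw [Subgroup.mem_normalizer_iff]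
    intro x
    constructor
    · exact h1 b hbP hbA x
    · intro hx
      have hb' : b⁻¹ ∈ Subgroup.normalizer (P : Set G) := inv_mem hbP
      have hbA' : ∀ a ∈ A, b⁻¹ * a = a * b⁻¹ := by
        intro a ha
        have := hbA a ha
        calc b⁻¹ * a = b⁻¹ * (a * b) * b⁻¹ := by group
          _ = b⁻¹ * (b * a) * b⁻¹ := by rw [this]
          _ = a * b⁻¹ := by group
      have := h1 b⁻¹ hb' hbA' _ hx
      simpa [mul_assoc] using this
  -- order of b coprime to |H|
  have hbpow : b ^ Nat.card B = 1 := by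
    have := pow_card_eq_one' (G := B) (x := ⟨b, hb⟩)
    exact congrArg Subtype.val this
  have hcop : Nat.Coprime (Nat.card B) (Nat.card ↥(P ⊔ A)) := by
    rw [hk]
    exact Nat.Coprime.pow_right k ((Nat.Prime.coprime_iff_not_dvd hp).mpr hB).symm
  have key := Cfsg.Agent.H54.conj_trivial_of_comm_mem_commutator (P ⊔ A) b hbH (Nat.card B) hbpow hcop
    (by
      intro x hx
      obtain ⟨v, hv, a, ha, rfl⟩ := Cfsg.Agent.H54.exists_mul_of_mem_sup P A hnA hx
      have h1 : b * (v * a) * b⁻¹ * (v * a)⁻¹ = ⁅b, v⁆ := by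
        rw [commutatorElement_def]
        have hba := hbA a ha
        calc b * (v * a) * b⁻¹ * (v * a)⁻¹ = b * v * (a * b⁻¹ * a⁻¹) * v⁻¹ := by group
          _ = b * v * (b⁻¹ * (b * a) * b⁻¹ * a⁻¹) * v⁻¹ := by group
          _ = b * v * (b⁻¹ * (a * b) * b⁻¹ * a⁻¹) * v⁻¹ := by rw [hba]
          _ = b * v * b⁻¹ * v⁻¹ := by group
      rw [h1]
      have h2 : ⁅b, v⁆ ∈ ⁅B, P⁆ := Subgroup.commutator_mem_commutator hb hv
      rw [Subgroup.commutator_comm] at h2
      exact Subgroup.commutator_mono le_sup_left le_sup_right (hcomm h2))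
  have := key u (Subgroup.mem_sup_left hu)
  calc b * u = b * u * b⁻¹ * b := by group
    _ = u * b := by rw [this]

end Cfsg.Agent.S2908
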