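import Cfsg.Statements.S2909
import Cfsg.Agent.H54.Gen
import Cfsg.Agent.H54.DualAxB
import Cfsg.Agent.H54.Parabolic

set_option autoImplicit false
open Cfsg

namespace Cfsg.Agent.S2909

open Cfsg.Agent.H54 in
open scoped commutatorElement in
/-- Let p be a prime, E a normal p-subgroup of the finite group G, and U a non-cyclic elementary abelian p-subgroup of G such that either C_E(U) = C_E(u) for every nontrivial u ∈ U, or [E, U] = [E, ⟨u⟩] for every nontrivial u ∈ U. If R is a subgroup of order prime to p normalized by U, then [R, U] centralizes E. -/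
theorem result {G : Type*} [Group G] [Finite G] {p : ℕ} [Fact p.Prime] (E : Subgroup G) [E.Normal] (hE : IsPGroup p ↥E) (U : Subgroup G) (hU : Cfsg.IsElementaryAbelian p U) (hnc : ¬ IsCyclic ↥U) (hcond : (∀ u ∈ U, u ≠ 1 → E ⊓ Subgroup.centralizer (U : Set G) = E ⊓ Subgroup.centralizer ({u} : Set G)) ∨ (∀ u ∈ U, u ≠ 1 → ⁅E, U⁆ = ⁅E, Subgroup.zpowers u⁆)) (R : Subgroup G) (hR : ¬ p ∣ Nat.card ↥R) (hRU : U ≤ Subgroup.normalizer (R : Set G)) : ⁅R, U⁆ ≤ Subgroup.centralizer (E : Set G) := by
  have hp : p.Prime := Fact.out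
  have hU2 : p ^ 2 ≤ Nat.card U := sq_le_card_of_not_isCyclic U hU hnc
  have hUp : IsPGroup p ↥U := Cfsg.Agent.H28.isPGroup_of_isElementaryAbelian p hU
  have hUcomm : ∀ a ∈ U, ∀ b ∈ U, a * b = b * a := fun a ha b hb =>
    congrArg Subtype.val ((isMulCommutative_iff.mp hU.1) ⟨a, ha⟩ ⟨b, hb⟩)
  have hRcop : ∀ c ∈ R, (orderOf c).Coprime p := by
    intro c hc
    have h1 : orderOf c ∣ Nat.card R := by
      have := orderOf_dvd_natCard (⟨c, hc⟩ : R)
      rwa [← Subgroup.orderOf_coe] at this
    exact Nat.Coprime.coprime_dvd_left h1 ((Nat.Prime.coprime_iff_not_dvd hp).mpr hR).symm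
  have hEtop : ∀ g : G, g ∈ Subgroup.normalizer (E : Set G) := by
    intro g
    rw [Subgroup.normalizer_eq_top]
    trivial
  have hcn : ∀ (u y : G), y ∈ Subgroup.centralizer ({u} : Set G) →
      y ∈ Subgroup.normalizer ((Subgroup.zpowers u : Subgroup G) : Set G) := by
    intro u y hy
    apply Subgroup.centralizer_le_normalizer
    rw [← centralizer_singleton_eq_centralizer_zpowers]
    exact hy
  rcases hcond with h1 | h2
  · -- Case 1: fixed points
    have hle : R ≤ commSub (Subgroup.centralizer (E : Set G)) U := by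
      apply le_of_centralizer_elt_le U R _ hU hU2 hR hRU
      intro u hu hu1 r hr
      obtain ⟨hrR, hru⟩ := hr
      have hru' : r * u = u * r := (Subgroup.mem_centralizer_iff.mp hru u rfl).symm
      intro v hv
      have hvu : v * u = u * v := hUcomm v hv u hu
      have hcR : r * v * r⁻¹ * v⁻¹ ∈ R := by
        have h3 : v * r⁻¹ * v⁻¹ ∈ R :=
          (Subgroup.mem_normalizer_iff.mp (hRU hv) _).mp (R.inv_mem hrR)
        have := R.mul_mem hrR h3
        convert this using 1; group
      have hcu : Commute (r * v * r⁻¹ * v⁻¹) u := by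
        have c1 : Commute r u := hru'
        have c2 : Commute v u := hvu
        exact ((c1.mul_left c2).mul_left c1.inv_left).mul_left c2.inv_left
      have key := thompson_AxB_elt (r * v * r⁻¹ * v⁻¹) (Subgroup.zpowers u) E
        (hUp.to_le (by rw [Subgroup.zpowers_le]; exact hu)) (hRcop _ hcR)
        (by
          intro b hb
          obtain ⟨n, rfl⟩ := Subgroup.mem_zpowers_iff.mp hb
          exact (hcu.zpow_right n).eq)
        hE (hEtop _) (fun y _ => hEtop y)
        (by
          intro x hxE hxu
          have hxu' : x * u = u * x := (hxu u (Subgroup.mem_zpowers u)).symm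
          have hx1 : x ∈ E ⊓ Subgroup.centralizer ({u} : Set G) :=
            ⟨hxE, Subgroup.mem_centralizer_iff.mpr (fun w hw => by
              rw [Set.mem_singleton_iff] at hw; subst hw; exact hxu'.symm)⟩
          rw [← h1 u hu hu1] at hx1
          have hxv : v * x = x * v := Subgroup.mem_centralizer_iff.mp hx1.2 v hv
          have hx'E : r⁻¹ * x * r ∈ E := by
            have := (inferInstance : E.Normal).conj_mem x hxE r⁻¹
            simpa using this
          have hx'u : (r⁻¹ * x * r) * u = u * (r⁻¹ * x * r) := by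
            have c1 : Commute r u := hru'
            have c3 : Commute x u := hxu'
            exact ((c1.inv_left.mul_left c3).mul_left c1).eq
          have hx2 : r⁻¹ * x * r ∈ E ⊓ Subgroup.centralizer ({u} : Set G) :=
            ⟨hx'E, Subgroup.mem_centralizer_iff.mpr (fun w hw => by
              rw [Set.mem_singleton_iff] at hw; subst hw; exact hx'u.symm)⟩
          rw [← h1 u hu hu1] at hx2
          have hx'v : v * (r⁻¹ * x * r) = (r⁻¹ * x * r) * v :=
            Subgroup.mem_centralizer_iff.mp hx2.2 v hv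
          have hxv' : v⁻¹ * x = x * v⁻¹ := by
            have c : Commute v x := hxv
            exact c.inv_left.eq
          calc r * v * r⁻¹ * v⁻¹ * x = r * v * r⁻¹ * (v⁻¹ * x) := by group
            _ = r * v * r⁻¹ * (x * v⁻¹) := by rw [hxv']
            _ = r * (v * (r⁻¹ * x * r)) * r⁻¹ * v⁻¹ := by group
            _ = r * ((r⁻¹ * x * r) * v) * r⁻¹ * v⁻¹ := by rw [hx'v]
            _ = x * (r * v * r⁻¹ * v⁻¹) := by group)
      rw [Subgroup.mem_centralizer_iff]
      intro x hx
      exact (key x hx).symm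
    rw [Subgroup.commutator_le]
    intro r hr v hv
    rw [commutatorElement_def]
    exact hle hr v hv
  · -- Case 2: commutators
    have hUF : U ≤ Subgroup.normalizer ((⁅E, U⁆ : Subgroup G) : Set G) :=
      (le_inf (fun y _ => hEtop y) Subgroup.le_normalizer).trans
        (Cfsg.Agent.H27.normalizer_inf_le_normalizer_commutator E U)
    have hRF : R ≤ Subgroup.normalizer ((⁅E, U⁆ : Subgroup G) : Set G) := by
      apply le_of_centralizer_elt_le U R _ hU hU2 hR hRU
      intro u hu hu1 r hr
      rw [h2 u hu hu1]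
      exact Cfsg.Agent.H27.normalizer_inf_le_normalizer_commutator E (Subgroup.zpowers u)
        ⟨hEtop r, hcn u r hr.2⟩
    have hUstab : U ≤ stabSub E ⁅E, U⁆ := by
      intro v hv
      refine ⟨hUF hv, ?_⟩
      intro e he
      have : ⁅v, e⁆ ∈ ⁅U, E⁆ := Subgroup.commutator_mem_commutator hv he
      rw [Subgroup.commutator_comm, commutatorElement_def] at this
      exact this
    have hAstab : ⁅R, U⁆ ≤ stabSub E ⁅E, U⁆ := by
      rw [Subgroup.commutator_le]
      intro r hr v hv
      rw [commutatorElement_def]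
      have h3 := conj_mem_stabSub (hUstab hv) (hRF hr)
      have h4 := Subgroup.mul_mem _ h3 (Subgroup.inv_mem _ (hUstab hv))
      exact h4
    have hAR : ⁅R, U⁆ ≤ R := Cfsg.Agent.H27.commutator_le_of_le_normalizer' hRU
    have hAcard : ¬ p ∣ Nat.card ↥⁅R, U⁆ := fun h => hR (h.trans (Subgroup.card_dvd_of_le hAR))
    have hUA : U ≤ Subgroup.normalizer ((⁅R, U⁆ : Subgroup G) : Set G) :=
      (le_inf hRU Subgroup.le_normalizer).trans
        (Cfsg.Agent.H27.normalizer_inf_le_normalizer_commutator R U)
    apply le_of_centralizer_elt_le U ⁅R, U⁆ _ hU hU2 hAcard hUA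
    intro u hu hu1 a ha
    obtain ⟨haA, hau⟩ := ha
    have hau' : a * u = u * a := (Subgroup.mem_centralizer_iff.mp hau u rfl).symm
    have hastab := hAstab haA
    have key := dual_AxB E hE a u (hEtop a) (hEtop u) (hRcop a (hAR haA)) 1
      (by rw [pow_one]; exact hU.2 u hu) hau'
      (by
        intro e he
        rw [← h2 u hu hu1]
        exact hastab.2 e he)
    rw [Subgroup.mem_centralizer_iff]
    intro x hx
    exact (key x hx).symm

end Cfsg.Agent.S2909
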