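import Cfsg.Statements.S2925
import Cfsg.Agent.H54.SylowSubnormal
import Cfsg.Agent.H27.Comp

set_option autoImplicit false
open Cfsg

namespace Cfsg.Agent.S2925

open Cfsg.Agent.H54 in
open scoped Pointwise in
/-- Let K be a component of the finite group X and T a Sylow 2-subgroup of X. If some abelian normal subgroup Y of T does not normalize K, then K ⧸ Z(K) has abelian Sylow 2-subgroups. -/
theorem result {X : Type*} [Group X] [Finite X] (K : Subgroup X) (hK : Cfsg.IsComponent K) (T : Sylow 2 X) (Y : Subgroup X) (hYT : Y ≤ (T : Subgroup X)) (hYn : (Y.subgroupOf (T : Subgroup X)).Normal) (hYab : IsMulCommutative ↥Y) (hnot : ¬ Y ≤ Subgroup.normalizer (K : Set X)) (P : Sylow 2 (↥K ⧸ Subgroup.center ↥K)) : IsMulCommutative ↥(P : Subgroup (↥K ⧸ Subgroup.center ↥K)) := by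
  have : Fact (Nat.Prime 2) := ⟨Nat.prime_two⟩
  obtain ⟨y, hyY, hyN⟩ := SetLike.not_le_iff_exists.mp hnot
  have hK' : Cfsg.IsComponent (K.map (MulAut.conj y).toMonoidHom) :=
    Cfsg.Agent.H27.isComponent_map_equiv (MulAut.conj y) hK
  have hne : K ≠ K.map (MulAut.conj y).toMonoidHom := by
    intro h
    exact hyN (Cfsg.Agent.H27.mem_normalizer_iff_map_conj_eq.mpr h.symm)
  have hcomm := Cfsg.Agent.H27.components_commute hK hK' hne
  have hKK' : ∀ k ∈ K, ∀ k' ∈ K.map (MulAut.conj y).toMonoidHom, k * k' = k' * k :=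
    fun k hk k' hk' => Cfsg.Agent.H27.comm_of_comm_eq_bot hcomm hk hk'
  obtain ⟨Q, hQ⟩ := exists_sylow_map_subtype_eq_inf_of_isSubnormal T K hK.1
  have hYT' : (T : Subgroup X) ≤ Subgroup.normalizer (Y : Set X) :=
    (Subgroup.normal_subgroupOf_iff_le_normalizer hYT).mp hYn
  have key : ∀ s t : K, s ∈ Q → t ∈ Q →
      (QuotientGroup.mk (s * t) : ↥K ⧸ Subgroup.center ↥K) = QuotientGroup.mk (t * s) := by
    intro s t hs ht
    have hsT : (s : X) ∈ (T : Subgroup X) := by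
      have h1 : (s : X) ∈ (Q : Subgroup ↥K).map K.subtype := ⟨s, hs, rfl⟩
      rw [hQ] at h1; exact h1.1
    have htT : (t : X) ∈ (T : Subgroup X) := by
      have h1 : (t : X) ∈ (Q : Subgroup ↥K).map K.subtype := ⟨t, ht, rfl⟩
      rw [hQ] at h1; exact h1.1
    have hsy : (s : X) * y * (s : X)⁻¹ * y⁻¹ ∈ Y :=
      Y.mul_mem ((Subgroup.mem_normalizer_iff.mp (hYT' hsT) y).mp hyY) (Y.inv_mem hyY)
    have hty : (t : X) * y * (t : X)⁻¹ * y⁻¹ ∈ Y :=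
      Y.mul_mem ((Subgroup.mem_normalizer_iff.mp (hYT' htT) y).mp hyY) (Y.inv_mem hyY)
    have hab : ((s : X) * y * (s : X)⁻¹ * y⁻¹) * ((t : X) * y * (t : X)⁻¹ * y⁻¹) =
        ((t : X) * y * (t : X)⁻¹ * y⁻¹) * ((s : X) * y * (s : X)⁻¹ * y⁻¹) :=
      congrArg Subtype.val ((isMulCommutative_iff.mp hYab) ⟨_, hsy⟩ ⟨_, hty⟩)
    have hs' : y * (s : X)⁻¹ * y⁻¹ ∈ K.map (MulAut.conj y).toMonoidHom :=
      ⟨(s : X)⁻¹, K.inv_mem s.2, by simp [MulAut.conj_apply]⟩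
    have ht' : y * (t : X)⁻¹ * y⁻¹ ∈ K.map (MulAut.conj y).toMonoidHom :=
      ⟨(t : X)⁻¹, K.inv_mem t.2, by simp [MulAut.conj_apply]⟩
    have c1 : (t : X) * (y * (s : X)⁻¹ * y⁻¹) = (y * (s : X)⁻¹ * y⁻¹) * t := hKK' t t.2 _ hs'
    have c2 : (s : X) * (y * (t : X)⁻¹ * y⁻¹) = (y * (t : X)⁻¹ * y⁻¹) * s := hKK' s s.2 _ ht'
    have e1 : ((s : X) * t) * ((y * (s : X)⁻¹ * y⁻¹) * (y * (t : X)⁻¹ * y⁻¹)) =
        ((t : X) * s) * ((y * (t : X)⁻¹ * y⁻¹) * (y * (s : X)⁻¹ * y⁻¹)) := by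
      calc ((s : X) * t) * ((y * (s : X)⁻¹ * y⁻¹) * (y * (t : X)⁻¹ * y⁻¹))
          = (s : X) * ((t : X) * (y * (s : X)⁻¹ * y⁻¹)) * (y * (t : X)⁻¹ * y⁻¹) := by
            simp only [mul_assoc]
        _ = (s : X) * ((y * (s : X)⁻¹ * y⁻¹) * t) * (y * (t : X)⁻¹ * y⁻¹) := by rw [c1]
        _ = ((s : X) * y * (s : X)⁻¹ * y⁻¹) * ((t : X) * y * (t : X)⁻¹ * y⁻¹) := by
            simp only [mul_assoc]
        _ = ((t : X) * y * (t : X)⁻¹ * y⁻¹) * ((s : X) * y * (s : X)⁻¹ * y⁻¹) := hab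
        _ = (t : X) * ((y * (t : X)⁻¹ * y⁻¹) * s) * (y * (s : X)⁻¹ * y⁻¹) := by
            simp only [mul_assoc]
        _ = (t : X) * ((s : X) * (y * (t : X)⁻¹ * y⁻¹)) * (y * (s : X)⁻¹ * y⁻¹) := by rw [c2]
        _ = ((t : X) * s) * ((y * (t : X)⁻¹ * y⁻¹) * (y * (s : X)⁻¹ * y⁻¹)) := by
            simp only [mul_assoc]
    have hd : ((t : X) * s)⁻¹ * (s * t) = (y * (t : X)⁻¹ * y⁻¹) * (y * (s : X)⁻¹ * y⁻¹) *
        ((y * (s : X)⁻¹ * y⁻¹) * (y * (t : X)⁻¹ * y⁻¹))⁻¹ := by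
      calc ((t : X) * s)⁻¹ * (s * t)
          = ((t : X) * s)⁻¹ * (((s : X) * t) * ((y * (s : X)⁻¹ * y⁻¹) * (y * (t : X)⁻¹ * y⁻¹))) *
            ((y * (s : X)⁻¹ * y⁻¹) * (y * (t : X)⁻¹ * y⁻¹))⁻¹ := by group
        _ = ((t : X) * s)⁻¹ * (((t : X) * s) * ((y * (t : X)⁻¹ * y⁻¹) * (y * (s : X)⁻¹ * y⁻¹))) *
            ((y * (s : X)⁻¹ * y⁻¹) * (y * (t : X)⁻¹ * y⁻¹))⁻¹ := by rw [e1]
        _ = (y * (t : X)⁻¹ * y⁻¹) * (y * (s : X)⁻¹ * y⁻¹) *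
            ((y * (s : X)⁻¹ * y⁻¹) * (y * (t : X)⁻¹ * y⁻¹))⁻¹ := by group
    symm
    rw [QuotientGroup.eq, Subgroup.mem_center_iff]
    intro k
    apply Subtype.ext
    simp only [Subgroup.coe_mul, Subgroup.coe_inv]
    rw [hd]
    exact hKK' k k.2 _ (Subgroup.mul_mem _ (Subgroup.mul_mem _ ht' hs')
      (Subgroup.inv_mem _ (Subgroup.mul_mem _ hs' ht')))
  obtain ⟨Q', hQ'⟩ := Sylow.mapSurjective_surjective
    (QuotientGroup.mk'_surjective (Subgroup.center ↥K)) 2 P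
  obtain ⟨k, hk⟩ := MulAction.exists_smul_eq K Q Q'
  have hmem : ∀ a ∈ (P : Subgroup (↥K ⧸ Subgroup.center ↥K)), ∃ s : K, s ∈ Q ∧
      a = QuotientGroup.mk k * QuotientGroup.mk s * (QuotientGroup.mk k)⁻¹ := by
    intro a ha
    rw [← hQ', Sylow.coe_mapSurjective] at ha
    obtain ⟨a', ha', rfl⟩ := ha
    rw [← hk, Sylow.coe_subgroup_smul] at ha'
    have ha'' : a' ∈ MulAut.conj k • (Q : Subgroup ↥K) := ha'
    rw [Subgroup.mem_smul_pointwise_iff_exists] at ha''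
    obtain ⟨s, hs, rfl⟩ := ha''
    refine ⟨s, hs, ?_⟩
    rw [MulAut.smul_def, MulAut.conj_apply]
    rfl
  rw [isMulCommutative_iff]
  rintro ⟨a, ha⟩ ⟨b, hb⟩
  apply Subtype.ext
  obtain ⟨s, hs, rfl⟩ := hmem a ha
  obtain ⟨t, ht, rfl⟩ := hmem b hb
  have h1 := key s t hs ht
  rw [QuotientGroup.mk_mul, QuotientGroup.mk_mul] at h1
  change QuotientGroup.mk k * QuotientGroup.mk s * (QuotientGroup.mk k)⁻¹ *
      (QuotientGroup.mk k * QuotientGroup.mk t * (QuotientGroup.mk k)⁻¹) =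
    QuotientGroup.mk k * QuotientGroup.mk t * (QuotientGroup.mk k)⁻¹ *
      (QuotientGroup.mk k * QuotientGroup.mk s * (QuotientGroup.mk k)⁻¹)
  calc (QuotientGroup.mk k : ↥K ⧸ Subgroup.center ↥K) * QuotientGroup.mk s * (QuotientGroup.mk k)⁻¹ *
      (QuotientGroup.mk k * QuotientGroup.mk t * (QuotientGroup.mk k)⁻¹)
      = QuotientGroup.mk k * (QuotientGroup.mk s * QuotientGroup.mk t) * (QuotientGroup.mk k)⁻¹ := by group
    _ = QuotientGroup.mk k * (QuotientGroup.mk t * QuotientGroup.mk s) * (QuotientGroup.mk k)⁻¹ := by rw [h1]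
    _ = QuotientGroup.mk k * QuotientGroup.mk t * (QuotientGroup.mk k)⁻¹ *
      (QuotientGroup.mk k * QuotientGroup.mk s * (QuotientGroup.mk k)⁻¹) := by group

end Cfsg.Agent.S2925
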