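import Cfsg.Statements.S2929
import Cfsg.Agent.H54.ThreeCyc

set_option autoImplicit false
open Cfsg

namespace Cfsg.Agent.S2929

/-- Let n ≥ 5 and let H be a subgroup of the symmetric group of degree n whose generalized Fitting subgroup F*(H) is quasisimple. If H contains a Sylow 3-subgroup of the symmetric group, then F*(H) is isomorphic to an alternating group of degree m for some m ∈ {n − 2, n − 1, n}. -/
theorem result (n : ℕ) (hn : 5 ≤ n) (H : Subgroup (Equiv.Perm (Fin n))) (hF : Cfsg.IsQuasisimple ↥(Cfsg.generalizedFittingSubgroup ↥H)) (hS : ∃ P : Sylow 3 (Equiv.Perm (Fin n)), (P : Subgroup (Equiv.Perm (Fin n))) ≤ H) : ∃ m : ℕ, (m = n - 2 ∨ m = n - 1 ∨ m = n) ∧ Nonempty (↥(Cfsg.generalizedFittingSubgroup ↥H) ≃* ↥(alternatingGroup (Fin m))) := by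
  classical
  have e₀ : ↥(Cfsg.generalizedFittingSubgroup ↥H) ≃*
      ↥((Cfsg.generalizedFittingSubgroup ↥H).map H.subtype) :=
    (Cfsg.generalizedFittingSubgroup ↥H).equivMapOfInjective H.subtype H.subtype_injective
  have hLq : Cfsg.IsQuasisimple ↥((Cfsg.generalizedFittingSubgroup ↥H).map H.subtype) :=
    Cfsg.Agent.H27.quasisimple_of_mulEquiv e₀ hF
  have hLH : (Cfsg.generalizedFittingSubgroup ↥H).map H.subtype ≤ H := by
    rintro _ ⟨x, _, rfl⟩
    exact x.2
  have hFn : (Cfsg.generalizedFittingSubgroup ↥H).Normal := Cfsg.Agent.H27.genFitting_normal ↥H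
  have hLn : ∀ h ∈ H, ∀ l ∈ (Cfsg.generalizedFittingSubgroup ↥H).map H.subtype,
      h * l * h⁻¹ ∈ (Cfsg.generalizedFittingSubgroup ↥H).map H.subtype := by
    rintro h hh _ ⟨x, hx, rfl⟩
    exact ⟨⟨h, hh⟩ * x * ⟨h, hh⟩⁻¹, hFn.conj_mem x hx ⟨h, hh⟩, rfl⟩
  have hLc : ∀ h ∈ H, (∀ l ∈ (Cfsg.generalizedFittingSubgroup ↥H).map H.subtype, h * l = l * h) →
      h ∈ (Cfsg.generalizedFittingSubgroup ↥H).map H.subtype := by
    intro h hh hcomm
    have h1 : (⟨h, hh⟩ : ↥H) ∈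
        Subgroup.centralizer (Cfsg.generalizedFittingSubgroup ↥H : Set ↥H) := by
      rw [Subgroup.mem_centralizer_iff]
      intro x hx
      apply Subtype.ext
      exact (hcomm x ⟨x, hx, rfl⟩).symm
    exact ⟨⟨h, hh⟩, Cfsg.Agent.H27.centralizer_genFitting_le h1, rfl⟩
  obtain ⟨g, hg⟩ := Cfsg.Agent.H54.TC.sylow3_moved n H hS
  have hne : ∃ c ∈ H, c.IsThreeCycle := by
    obtain ⟨c, hc, h3, _⟩ := hg ⟨0, by omega⟩ (by simp only; omega)
    exact ⟨c, hc, h3⟩
  obtain ⟨O, hO, ⟨e⟩⟩ := Cfsg.Agent.H54.TC.exists_orbit_alt H _ hLH hLn hLq hLc hne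
  refine ⟨Nat.card ↥O, ?_, ⟨e₀.trans e⟩⟩
  have hle : Nat.card ↥O ≤ n := by
    have := Nat.card_le_card_of_injective (Subtype.val : ↥O → Fin n) Subtype.val_injective
    simpa using this
  have hge : 3 * (n / 3) ≤ Nat.card ↥O := by
    have hmem : ∀ k : Fin (3 * (n / 3)), g ⟨k.val, by have := k.2; omega⟩ ∈ O := by
      intro k
      obtain ⟨c, hc, h3, hmv⟩ := hg ⟨k.val, by have := k.2; omega⟩ k.2
      exact hO c hc h3 _ hmv
    have := Nat.card_le_card_of_injective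
      (fun k : Fin (3 * (n / 3)) => (⟨_, hmem k⟩ : ↥O)) (by
        intro k k' h
        have h1 := congrArg Subtype.val h
        have h2 := g.injective h1
        exact Fin.ext (congrArg (fun t : Fin n => t.val) h2))
    simpa using this
  omega

end Cfsg.Agent.S2929
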