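import Cfsg.Statements.S2930
import Cfsg.Agent.H54.AltMin
import Cfsg.Agent.H54.AltAut

set_option autoImplicit false
open Cfsg

namespace Cfsg.Agent.S2930

/-- Let X be a finite 3-minimal group (a Sylow 3-subgroup is not normal and lies in a unique maximal subgroup) whose generalized Fitting subgroup is isomorphic to an alternating group of degree n ≥ 5. Then X = F*(X), and n = 6, n = 9, or n = 3ᵃ + 1 for some a ≥ 2. -/
theorem result {X : Type*} [Group X] [Finite X] (hX : Cfsg.IsPMinimal 3 X) (n : ℕ) (hn : 5 ≤ n) (hF : Nonempty (↥(Cfsg.generalizedFittingSubgroup X) ≃* ↥(alternatingGroup (Fin n)))) : Cfsg.generalizedFittingSubgroup X = ⊤ ∧ (n = 6 ∨ n = 9 ∨ ∃ a : ℕ, 2 ≤ a ∧ n = 3 ^ a + 1) := by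
  classical
  haveI : Fact (Nat.Prime 3) := ⟨Nat.prime_three⟩
  obtain ⟨e⟩ := hF
  have hA := Cfsg.Agent.H54.AA.partA hX n hn e
  refine ⟨hA, ?_⟩
  let f : X ≃* ↥(alternatingGroup (Fin n)) :=
    (Subgroup.topEquiv.symm.trans (MulEquiv.subgroupCongr hA.symm)).trans e
  obtain ⟨P⟩ := (inferInstance : Nonempty (Sylow 3 X))
  obtain ⟨hPn, M, ⟨hMco, hPM⟩, hMuniq⟩ := hX P
  apply Cfsg.Agent.H54.AM.partB n hn ((P : Subgroup X).map f.toMonoidHom)
    (P.isPGroup'.of_equiv ((P : Subgroup X).equivMapOfInjective f.toMonoidHom f.injective))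
  rintro ⟨K1, K2, hP1, hP2, hK1, hK2, hsup⟩
  have key : ∀ K : Subgroup ↥(alternatingGroup (Fin n)),
      (P : Subgroup X).map f.toMonoidHom ≤ K → K ≠ ⊤ → K.map f.symm.toMonoidHom ≤ M := by
    intro K hPK hK
    have h1 : (P : Subgroup X) ≤ K.map f.symm.toMonoidHom := by
      intro x hx
      exact ⟨f x, hPK ⟨x, hx, rfl⟩, f.symm_apply_apply x⟩
    have h2 : K.map f.symm.toMonoidHom ≠ ⊤ := by
      intro h
      apply hK
      rw [eq_top_iff]
      intro y _
      have h3 : f.symm y ∈ K.map f.symm.toMonoidHom := by rw [h]; exact Subgroup.mem_top _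
      obtain ⟨k, hk, hky⟩ := h3
      have : k = y := f.symm.injective hky
      exact this ▸ hk
    obtain ⟨C, hC, hKC⟩ := (eq_top_or_exists_le_coatom _).resolve_left h2
    have := hMuniq C ⟨hC, h1.trans hKC⟩
    exact this ▸ hKC
  have h1 := key K1 hP1 hK1
  have h2 := key K2 hP2 hK2
  apply hMco.1
  rw [eq_top_iff]
  intro x _
  have h3 : x ∈ (K1 ⊔ K2).map f.symm.toMonoidHom := by
    rw [hsup]
    exact ⟨f x, Subgroup.mem_top _, f.symm_apply_apply x⟩
  rw [Subgroup.map_sup] at h3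
  exact (sup_le h1 h2) h3

end Cfsg.Agent.S2930
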