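import Cfsg.Statements.S2939
import Cfsg.Agent.Helper55.SylowControl

set_option autoImplicit false
open Cfsg
open scoped Pointwise

namespace Cfsg.Agent.S2939

open Cfsg.Agent.Helper55

/-- Let p be a prime dividing the order of the finite group G and 𝓕 a family of subgroups of G closed under conjugation, with conjugates taken as X^g = g⁻¹Xg. Then 𝓕 controls Sylow p-intersections in G (any two distinct Sylow p-subgroups S and T with S ∩ T ≠ 1 are joined by a chain S = S₀, S₁, …, Sₙ = T of Sylow p-subgroups where, for each i, some member Xᵢ of 𝓕 meets both S_{i-1} and Sᵢ in Sylow p-subgroups of Xᵢ, satisfies S ∩ T ≤ Sᵢ ∩ Xᵢ, and contains an element xᵢ with Sᵢ^{xᵢ} = S_{i-1}) if and only if 𝓕 strongly controls p-fusion in G (whenever A is a subset of a Sylow p-subgroup S, A contains an element other than 1, and A^g ⊆ S, the element g factorises as g = y₁⋯yₙy with y ∈ N_G(S) and each yᵢ in a member Yᵢ of 𝓕 that meets S in a Sylow p-subgroup of Yᵢ, with A^{y₁⋯yᵢ} ⊆ S ∩ Yᵢ for each i). -/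
theorem result {G : Type*} [Group G] [Finite G] {p : ℕ} [Fact p.Prime] (hdiv : p ∣ Nat.card G) (𝓕 : Set (Subgroup G)) (h𝓕 : Cfsg.IsNormalSet 𝓕) : Cfsg.ControlsSylowIntersections p 𝓕 ↔ Cfsg.FamilyStronglyControlsFusion p 𝓕 := by
  classical
  have hone : ∀ H : Subgroup G, H.map (MulAut.conj (1 : G)).toMonoidHom = H :=
    fun H => map_conj_of_mem H.one_mem
  constructor
  · intro hCSI S A g hAS hAne hAg
    obtain ⟨a₀, ha₀A, ha₀1⟩ := hAne
    set T : Sylow p G := g • S with hT
    have hAT : ∀ a ∈ A, a ∈ (T : Subgroup G) := by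
      intro a ha
      rw [hT, sylow_smul_coe, mem_map_conj_iff]
      exact hAg ⟨a, ha, rfl⟩
    have hST : (S : Subgroup G) ⊓ (T : Subgroup G) ≠ ⊥ := by
      intro h
      have : a₀ ∈ (S : Subgroup G) ⊓ (T : Subgroup G) :=
        Subgroup.mem_inf.mpr ⟨hAS ha₀A, hAT a₀ ha₀A⟩
      rw [h, Subgroup.mem_bot] at this
      exact ha₀1 this
    by_cases hne : S = T
    · have hg : g ∈ Subgroup.normalizer ((S : Subgroup G) : Set G) := by
        have : g • S = S := hne.symm
        exact Sylow.smul_eq_iff_mem_normalizer.mp this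
      refine ⟨0, Fin.elim0, Fin.elim0, g, hg, fun i => i.elim0, by simp, fun i => i.elim0⟩
    · obtain ⟨n, c, X, x, hc0, hcn, H⟩ := hCSI S T hne hST
      let U : ℕ → G := fun k =>
        Nat.rec (1 : G) (fun j acc => (if h : j < n then x ⟨j, h⟩ else 1) * acc) k
      have hU0 : U 0 = 1 := rfl
      have hUs : ∀ k (hk : k < n), U (k + 1) = x ⟨k, hk⟩ * U k := by
        intro k hk
        show (if h : k < n then x ⟨k, h⟩ else 1) * U k = _
        rw [dif_pos hk]
      have hcU : ∀ k (hk : k ≤ n), c ⟨k, Nat.lt_succ_of_le hk⟩ = U k • S := by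
        intro k
        induction k with
        | zero => intro _; rw [hU0, one_smul]; exact hc0
        | succ k ih =>
          intro hk
          have hk' : k < n := hk
          have h1 := (H ⟨k, hk'⟩).2.2.2.1
          have h2 := ih (le_of_lt hk')
          apply Sylow.ext
          rw [hUs k hk', mul_smul, ← h2, sylow_smul_coe]
          have h3 : (c (Fin.castSucc ⟨k, hk'⟩) : Subgroup G)
              = (c ⟨k, Nat.lt_succ_of_le (le_of_lt hk')⟩ : Subgroup G) := rfl
          rw [← h3, ← h1]
          unfold Cfsg.subgroupConjRight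
          rw [map_conj_map_conj, mul_inv_cancel, hone]
          rfl
      let y : Fin n → G := fun i => (U i)⁻¹ * x i * U i
      let Y : Fin n → Subgroup G := fun i => (X i).map (MulAut.conj (U i)⁻¹).toMonoidHom
      have hprod : ∀ k (hk : k ≤ n), ((List.ofFn y).take k).prod = U k := by
        intro k
        induction k with
        | zero => intro _; simp [hU0]
        | succ k ih =>
          intro hk
          have hk' : k < n := hk
          rw [prod_take_ofFn_succ y k hk', ih (le_of_lt hk'), hUs k hk']
          show U k * ((U k)⁻¹ * x ⟨k, hk'⟩ * U k) = _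
          simp [mul_assoc]
      have hprodn : (List.ofFn y).prod = U n := by
        rw [← hprod n le_rfl, List.take_of_length_le (by simp)]
      have hcn' : T = U n • S := by
        rw [← hcU n le_rfl]; exact hcn.symm
      refine ⟨n, Y, y, (U n)⁻¹ * g, ?_, ?_, ?_, ?_⟩
      · apply Sylow.smul_eq_iff_mem_normalizer.mp
        rw [mul_smul, ← hT, hcn', inv_smul_smul]
      · intro i
        constructor
        · have h1 := (H i).1
          have h2 := sylowMembers_map_conj h𝓕 h1 (U i)⁻¹
          have h3 : (c i.castSucc : Subgroup G).map (MulAut.conj (U i)⁻¹).toMonoidHom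
              = (S : Subgroup G) := by
            have h4 : c i.castSucc = U i • S := hcU i (le_of_lt i.2)
            rw [h4, sylow_smul_coe, map_conj_map_conj, inv_mul_cancel, hone]
          rw [h3] at h2
          exact h2
        · show (U i)⁻¹ * x i * U i ∈ (X i).map (MulAut.conj (U i)⁻¹).toMonoidHom
          rw [mem_map_conj_iff]
          have := (H i).2.2.1
          simpa [mul_assoc] using this
      · rw [hprodn]; simp
      · intro i
        rw [hprod (i.val + 1) i.2, hUs i.val i.2]
        rintro _ ⟨a, ha, rfl⟩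
        have haST : a ∈ (S : Subgroup G) ⊓ (T : Subgroup G) :=
          Subgroup.mem_inf.mpr ⟨hAS ha, hAT a ha⟩
        have h5 := (H i).2.2.2.2 haST
        obtain ⟨h5c, h5X⟩ := Subgroup.mem_inf.mp h5
        have hxi : x i ∈ X i := (H i).2.2.1
        constructor
        · have h6 : c i.succ = U (i.val + 1) • S := hcU (i.val + 1) i.2
          rw [h6, sylow_smul_coe, mem_map_conj_iff, hUs i.val i.2] at h5c
          exact h5c
        · show _ ∈ (X i).map (MulAut.conj (U i)⁻¹).toMonoidHom
          rw [mem_map_conj_iff]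
          have h7 : (x i)⁻¹ * a * x i ∈ X i :=
            (X i).mul_mem ((X i).mul_mem ((X i).inv_mem hxi) h5X) hxi
          have e : (U i)⁻¹⁻¹ * ((x ⟨i.val, i.2⟩ * U i)⁻¹ * a * (x ⟨i.val, i.2⟩ * U i)) * (U i)⁻¹
              = (x i)⁻¹ * a * x i := by
            simp [mul_assoc]
          rw [e]; exact h7
  · intro hF S T hne hST
    obtain ⟨g, hg⟩ := MulAction.exists_smul_eq G S T
    set A : Set G := (((S : Subgroup G) ⊓ (T : Subgroup G) : Subgroup G) : Set G) with hA
    have hAS : A ⊆ (S : Set G) := fun a ha => (Subgroup.mem_inf.mp ha).1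
    have hAne : ∃ a ∈ A, a ≠ 1 := by
      by_contra hcon
      push Not at hcon
      apply hST
      rw [eq_bot_iff]
      intro a ha
      exact Subgroup.mem_bot.mpr (hcon a ha)
    have hAg : Cfsg.conjRight g A ⊆ (S : Set G) := by
      rintro _ ⟨a, ha, rfl⟩
      have h1 : a ∈ (T : Subgroup G) := (Subgroup.mem_inf.mp ha).2
      rw [← hg, sylow_smul_coe, mem_map_conj_iff] at h1
      exact h1
    obtain ⟨n, Y, y, y₀, hy₀, hY, hgy, hcond⟩ := hF S A g hAS hAne hAg
    let u : ℕ → G := fun k => ((List.ofFn y).take k).prod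
    have hu0 : u 0 = 1 := by simp [u]
    have hus : ∀ k (hk : k < n), u (k + 1) = u k * y ⟨k, hk⟩ := fun k hk =>
      prod_take_ofFn_succ y k hk
    have hun : u n = (List.ofFn y).prod := by
      show ((List.ofFn y).take n).prod = _
      rw [List.take_of_length_le (by simp)]
    refine ⟨n, fun k => u k.val • S, fun i => (Y i).map (MulAut.conj (u i)).toMonoidHom,
      fun i => u i * y i * (u i)⁻¹, ?_, ?_, ?_⟩
    · show u 0 • S = S
      rw [hu0, one_smul]
    · show u n • S = T
      rw [← hg, hgy, hun, mul_smul]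
      congr 1
      exact (Sylow.smul_eq_iff_mem_normalizer.mpr hy₀).symm
    · intro i
      have hyi : y i ∈ Y i := (hY i).2
      have hYi : (Y i).map (MulAut.conj (u (i.val + 1))).toMonoidHom
          = (Y i).map (MulAut.conj (u i)).toMonoidHom := by
        rw [hus i.val i.2, ← map_conj_map_conj, map_conj_of_mem hyi]
      refine ⟨?_, ?_, ?_, ?_, ?_⟩
      · have h1 := sylowMembers_map_conj h𝓕 (hY i).1 (u i)
        rw [← sylow_smul_coe] at h1
        exact h1
      · have h1 := sylowMembers_map_conj h𝓕 (hY i).1 (u (i.val + 1))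
        rw [← sylow_smul_coe, hYi] at h1
        exact h1
      · show u i * y i * (u i)⁻¹ ∈ (Y i).map (MulAut.conj (u i)).toMonoidHom
        rw [mem_map_conj_iff]
        simpa [mul_assoc] using hyi
      · show Cfsg.subgroupConjRight (u i * y i * (u i)⁻¹) ((u (i.val + 1) • S : Sylow p G) : Subgroup G)
            = ((u i.val • S : Sylow p G) : Subgroup G)
        unfold Cfsg.subgroupConjRight
        rw [sylow_smul_coe, sylow_smul_coe, map_conj_map_conj, hus i.val i.2]
        congr 3
        simp [mul_assoc]
      · intro a ha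
        have h1 : (u (i.val + 1))⁻¹ * a * u (i.val + 1) ∈ (S : Set G) ∩ (Y i : Set G) :=
          hcond i ⟨a, ha, rfl⟩
        refine Subgroup.mem_inf.mpr ⟨?_, ?_⟩
        · show a ∈ ((u (i.val + 1) • S : Sylow p G) : Subgroup G)
          rw [sylow_smul_coe, mem_map_conj_iff]
          exact h1.1
        · show a ∈ (Y i).map (MulAut.conj (u i)).toMonoidHom
          rw [← hYi, mem_map_conj_iff]
          exact h1.2

end Cfsg.Agent.S2939
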