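import Cfsg.Statements.S2940
import Cfsg.Agent.Helper55.Basic

set_option autoImplicit false
open Cfsg
open scoped Pointwise

namespace Cfsg.Agent.S2940

open Cfsg.Agent.Helper55

/-- Let S be a Sylow p-subgroup of the finite group G and G₁, G₂ subgroups containing S with G = G₁G₂. Then for every g ∈ G there is a Sylow p-subgroup U of G with S ∩ S^g ≤ U ≤ G₁ ∩ G₂^g (conjugates taken as X^g = g⁻¹Xg). -/
theorem result {G : Type*} [Group G] [Finite G] {p : ℕ} [Fact p.Prime] (S : Sylow p G) (G₁ G₂ : Subgroup G) (h1 : (S : Subgroup G) ≤ G₁) (h2 : (S : Subgroup G) ≤ G₂) (hfact : ∀ g : G, ∃ g₁ ∈ G₁, ∃ g₂ ∈ G₂, g = g₁ * g₂) (g : G) : ∃ U : Sylow p G, (S : Subgroup G) ⊓ Cfsg.subgroupConjRight g (S : Subgroup G) ≤ (U : Subgroup G) ∧ (U : Subgroup G) ≤ G₁ ⊓ Cfsg.subgroupConjRight g G₂ := by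
  classical
  obtain ⟨a, ha, b, hb, hab⟩ := hfact g⁻¹
  have hg : g = b⁻¹ * a⁻¹ := by
    rw [← mul_inv_rev, ← hab, inv_inv]
  -- membership in right conjugates
  have hmem : ∀ (X : Subgroup G) (x : G), x ∈ Cfsg.subgroupConjRight g X ↔ g * x * g⁻¹ ∈ X := by
    intro X x
    unfold Cfsg.subgroupConjRight
    constructor
    · rintro ⟨y, hy, rfl⟩
      simpa [mul_assoc] using hy
    · intro hx
      exact ⟨g * x * g⁻¹, hx, by simp [mul_assoc]⟩
  set D : Subgroup G := G₁ ⊓ Cfsg.subgroupConjRight g G₂ with hD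
  -- S₁ = a • S ≤ D
  have hS₁D : ((a • S : Sylow p G) : Subgroup G) ≤ D := by
    intro x hx
    have hx' : a⁻¹ * x * a ∈ (S : Subgroup G) := (sylow_smul_mem_iff (P := S) (g := a) rfl x).mp hx
    refine ⟨?_, ?_⟩
    · have : x = a * (a⁻¹ * x * a) * a⁻¹ := by simp [mul_assoc]
      rw [this]
      exact G₁.mul_mem (G₁.mul_mem ha (h1 hx')) (G₁.inv_mem ha)
    · show x ∈ Cfsg.subgroupConjRight g G₂
      rw [hmem]
      have : g * x * g⁻¹ = b⁻¹ * (a⁻¹ * x * a) * b := by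
        rw [hg]; simp [mul_assoc]
      rw [this]
      exact G₂.mul_mem (G₂.mul_mem (G₂.inv_mem hb) (h2 hx')) hb
  -- R = S ⊓ S^g ≤ D is a p-group
  set R : Subgroup G := (S : Subgroup G) ⊓ Cfsg.subgroupConjRight g (S : Subgroup G) with hR
  have hRD : R ≤ D := by
    intro x hx
    refine ⟨h1 hx.1, ?_⟩
    show x ∈ Cfsg.subgroupConjRight g G₂
    rw [hmem]
    exact h2 ((hmem _ x).mp hx.2)
  have hRp : IsPGroup p R := S.isPGroup'.to_le inf_le_left
  have hRp' : IsPGroup p (R.subgroupOf D) := hRp.comap_subtype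
  obtain ⟨P', hP'⟩ := hRp'.exists_le_sylow
  obtain ⟨d, hd⟩ := MulAction.exists_smul_eq D ((a • S : Sylow p G).subtype hS₁D) P'
  rw [Sylow.smul_subtype] at hd
  refine ⟨d • (a • S : Sylow p G), ?_, Sylow.smul_le hS₁D d⟩
  intro x hx
  have hxD : x ∈ D := hRD hx
  have h3 : (⟨x, hxD⟩ : D) ∈ R.subgroupOf D := by
    rw [Subgroup.mem_subgroupOf]; exact hx
  have h4 : (⟨x, hxD⟩ : D) ∈ (P' : Subgroup D) := hP' h3
  rw [← hd, Sylow.coe_subtype, Subgroup.mem_subgroupOf] at h4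
  exact h4

end Cfsg.Agent.S2940
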