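import Cfsg.Statements.S2955
import Cfsg.Agent.Helper55.SylowControl

set_option autoImplicit false
open Cfsg
open scoped Pointwise

namespace Cfsg.Agent.S2955

open Cfsg.Agent.Helper55

/-- Let p be a prime dividing the order of the finite group G and 𝓕 a conjugation-closed family of subgroups that controls Sylow p-intersections in G. Suppose the Sylow p-subgroups of G are chain-connected: any two of them are joined by a chain of Sylow p-subgroups, consecutive ones distinct with nontrivial intersection, all containing the intersection of the two ends (equivalently, the graph on the Sylow p-subgroups whose edges are the distinct pairs meeting nontrivially is connected). Then for every Sylow p-subgroup S, G is generated by N_G(S) together with the members of 𝓕 that meet S in a Sylow p-subgroup of themselves. -/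
theorem result {G : Type*} [Group G] [Finite G] (p : ℕ) [Fact p.Prime] (hdiv : p ∣ Nat.card G)
    (𝓕 : Set (Subgroup G)) (h𝓕 : Cfsg.IsNormalSet 𝓕) (hc : Cfsg.ControlsSylowIntersections p 𝓕)
    (hconn : Cfsg.IsSylowChainConnected p G) (S : Sylow p G) :
    (⨆ X ∈ Cfsg.sylowMembers p 𝓕 (S : Subgroup G), X) ⊔ Subgroup.normalizer ((S : Subgroup G) : Set G) = ⊤ := by
  classical
  set H : Subgroup G := (⨆ X ∈ Cfsg.sylowMembers p 𝓕 (S : Subgroup G), X) ⊔
    Subgroup.normalizer ((S : Subgroup G) : Set G) with hH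
  have hXH : ∀ X ∈ Cfsg.sylowMembers p 𝓕 (S : Subgroup G), X ≤ H := by
    intro X hX
    exact le_trans (le_biSup (fun X => X) hX) le_sup_left
  have hNH : Subgroup.normalizer ((S : Subgroup G) : Set G) ≤ H := le_sup_right
  have hstep : ∀ (P : Sylow p G) (h : G), h ∈ H → P = h • S →
      ∀ X ∈ Cfsg.sylowMembers p 𝓕 (P : Subgroup G), ∀ x ∈ X, x * h ∈ H := by
    intro P h hh hP X hX x hx
    have h1 := sylowMembers_map_conj h𝓕 hX h⁻¹
    have h2 : (P : Subgroup G).map (MulAut.conj h⁻¹).toMonoidHom = (S : Subgroup G) := by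
      rw [hP, sylow_smul_coe, map_conj_map_conj, inv_mul_cancel]
      exact map_conj_of_mem (Subgroup.one_mem _)
    rw [h2] at h1
    have h3 : h⁻¹ * x * h ∈ X.map (MulAut.conj h⁻¹).toMonoidHom := by
      rw [mem_map_conj_iff]; simpa [mul_assoc] using hx
    have h4 := hXH _ h1 h3
    have := H.mul_mem hh h4
    simpa [mul_assoc] using this
  have hchain : ∀ (P Q : Sylow p G), (∃ h ∈ H, P = h • S) → P ≠ Q →
      (P : Subgroup G) ⊓ (Q : Subgroup G) ≠ ⊥ → ∃ h ∈ H, Q = h • S := by
    intro P Q hP hne hint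
    obtain ⟨n, c, X, x, hc0, hcn, Hc⟩ := hc P Q hne hint
    have key : ∀ k (hk : k ≤ n), ∃ h ∈ H, c ⟨k, Nat.lt_succ_of_le hk⟩ = h • S := by
      intro k
      induction k with
      | zero =>
        intro _
        have h0 : c ⟨0, Nat.lt_succ_of_le (Nat.zero_le n)⟩ = P := hc0
        rw [h0]; exact hP
      | succ k ih =>
        intro hk
        have hk' : k < n := hk
        obtain ⟨h, hh, hch⟩ := ih (le_of_lt hk')
        obtain ⟨hX1, hX2, hxX, hconj, -⟩ := Hc ⟨k, hk'⟩
        refine ⟨x ⟨k, hk'⟩ * h, hstep _ h hh hch _ hX1 _ hxX, ?_⟩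
        rw [mul_smul, ← hch]
        apply Sylow.ext
        rw [sylow_smul_coe]
        have h3 : (c (Fin.castSucc ⟨k, hk'⟩) : Subgroup G)
            = (c ⟨k, Nat.lt_succ_of_le (le_of_lt hk')⟩ : Subgroup G) := rfl
        rw [← h3, ← hconj]
        unfold Cfsg.subgroupConjRight
        rw [map_conj_map_conj, mul_inv_cancel, map_conj_of_mem (Subgroup.one_mem _)]
        rfl
    have hn := key n le_rfl
    have hQ : c ⟨n, Nat.lt_succ_of_le le_rfl⟩ = Q := hcn
    rwa [hQ] at hn
  have hall : ∀ T : Sylow p G, ∃ h ∈ H, T = h • S := by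
    intro T
    obtain ⟨n, c, hc0, hcn, -, Hc⟩ := hconn S T
    have key : ∀ k (hk : k ≤ n), ∃ h ∈ H, c ⟨k, Nat.lt_succ_of_le hk⟩ = h • S := by
      intro k
      induction k with
      | zero => intro _; exact ⟨1, H.one_mem, by rw [one_smul]; exact hc0⟩
      | succ k ih =>
        intro hk
        have hk' : k < n := hk
        obtain ⟨hne, hint⟩ := Hc ⟨k, hk'⟩
        exact hchain _ _ (ih (le_of_lt hk')) hne hint
    have hn := key n le_rfl
    have hT : c ⟨n, Nat.lt_succ_of_le le_rfl⟩ = T := hcn
    rwa [hT] at hn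
  rw [eq_top_iff]
  intro g _
  obtain ⟨h, hh, hgh⟩ := hall (g • S)
  have h1 : (h⁻¹ * g) • S = S := by rw [mul_smul, hgh, inv_smul_smul]
  have h2 : h⁻¹ * g ∈ H := hNH (Sylow.smul_eq_iff_mem_normalizer.mp h1)
  have := H.mul_mem hh h2
  simpa using this

end Cfsg.Agent.S2955
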