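import Cfsg.Statements.S2956
import Cfsg.Agent.Helper55.FunctorLocal

set_option autoImplicit false
open Cfsg
open scoped Pointwise

namespace Cfsg.Agent.S2956

open Cfsg.Agent.Helper55

/-- Let p be a prime dividing the order of the finite group G, and f an assignment to every p-subgroup P of a set f(P) of subgroups of P, each normalized by N_G(P), compatible with conjugation, such that for P ≠ 1 the members of f(P) are nontrivial. Let 𝓕 be the family of the normalizers N_G(F) of the members F of f(S) over the Sylow p-subgroups S of G, and 𝓕' the family of the maximal p-local subgroups M of G that are singular for f (the corresponding family of normalizers inside M does not control Sylow p-intersections in M). Then 𝓕 ∪ 𝓕' controls Sylow p-intersections in G. -/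
theorem result {G : Type*} [Group G] [Finite G] (p : ℕ) [Fact p.Prime] (hdiv : p ∣ Nat.card G)
    (f : Subgroup G → Set (Subgroup G)) (hf : Cfsg.IsNormalizerFunctor p f)
    (hf1 : ∀ P : Subgroup G, IsPGroup p ↥P → P ≠ ⊥ → ∀ F ∈ f P, F ≠ ⊥)
    (𝓕 𝓕' : Set (Subgroup G)) (h𝓕 : 𝓕 = Cfsg.functorFamily p f ⊤)
    (h𝓕' : 𝓕' = {M | Cfsg.IsMaximalPLocal p M ∧ ¬ Cfsg.IsFunctorRegular p f M}) :
    Cfsg.ControlsSylowIntersections p (𝓕 ∪ 𝓕') := by
  classical
  have hp : p.Prime := Fact.out
  apply csi_of_gconn
  set 𝓖 : Set (Subgroup G) := 𝓕 ∪ 𝓕' with h𝓖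
  have h𝓕sub : Cfsg.functorFamily p f ⊤ ⊆ 𝓖 := by
    rw [h𝓖, h𝓕]; exact Set.subset_union_left
  have hsing : ∀ M, Cfsg.IsMaximalPLocal p M → ¬ Cfsg.IsFunctorRegular p f M → M ∈ 𝓖 := by
    intro M h1 h2
    rw [h𝓖, h𝓕']
    exact Or.inr ⟨h1, h2⟩
  have hmono : ∀ (R R' : Subgroup G) (P Q : Sylow p G), R' ≤ R →
      Relation.ReflTransGen (GStep p 𝓖 R) P Q → Relation.ReflTransGen (GStep p 𝓖 R') P Q := by
    intro R R' P Q hRR h
    refine Relation.ReflTransGen.mono ?_ _ _ h
    rintro A B ⟨X, x, h1, h2, h3, h4, h5⟩
    exact ⟨X, x, h1, h2, h3, h4, le_trans hRR h5⟩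
  have main : ∀ (j : ℕ) (S T : Sylow p G), (S : Subgroup G) ⊓ (T : Subgroup G) ≠ ⊥ →
      Nat.card G + 1 - j ≤ Nat.card ↥((S : Subgroup G) ⊓ (T : Subgroup G)) →
      Relation.ReflTransGen (GStep p 𝓖 ((S : Subgroup G) ⊓ (T : Subgroup G))) S T := by
    intro j
    induction j with
    | zero =>
      intro S T _ hcard
      exfalso
      have := Subgroup.card_le_card_group ((S : Subgroup G) ⊓ (T : Subgroup G))
      omega
    | succ j ih =>
      intro S T hint hcard
      by_cases hbig : Nat.card G + 1 - j ≤ Nat.card ↥((S : Subgroup G) ⊓ (T : Subgroup G))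
      · exact ih S T hint hbig
      by_cases hST : S = T
      · subst hST; exact Relation.ReflTransGen.refl
      set D : Subgroup G := (S : Subgroup G) ⊓ (T : Subgroup G) with hD
      set d : ℕ := Nat.card ↥D with hd
      have hdpos : 0 < d := Nat.card_pos
      have hH : ∀ S' T' : Sylow p G, d < Nat.card ↥((S' : Subgroup G) ⊓ (T' : Subgroup G)) →
          Relation.ReflTransGen (GStep p 𝓖 ((S' : Subgroup G) ⊓ (T' : Subgroup G))) S' T' := by
        intro S' T' hlt
        apply ih S' T'
        · intro h
          rw [h, Subgroup.card_bot] at hlt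
          omega
        · omega
      have hHc : ∀ (C C' : Sylow p G) (E : Subgroup G), E ≤ (C : Subgroup G) →
          E ≤ (C' : Subgroup G) → d < Nat.card E → D ≤ E →
          Relation.ReflTransGen (GStep p 𝓖 D) C C' := by
        intro C C' E hEC hEC' hdE hDE
        have hle : E ≤ (C : Subgroup G) ⊓ (C' : Subgroup G) := le_inf hEC hEC'
        apply hmono _ _ _ _ (le_trans hDE hle)
        apply hH
        exact lt_of_lt_of_le hdE (Subgroup.card_le_of_le hle)
      -- Lemma M
      have hLM : ∀ (e₀ : ℕ), (∀ E : Subgroup G, IsPGroup p E → e₀ ≤ Nat.card E →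
            D ≤ E → d < Nat.card E → ∀ F ∈ f E, ∀ x ∈ Subgroup.normalizer (F : Set G),
            D ≤ E.map (MulAut.conj x).toMonoidHom → ∀ C : Sylow p G, E ≤ (C : Subgroup G) →
            Relation.ReflTransGen (GStep p 𝓖 D) C (x • C)) →
          ∀ (M : Subgroup G), Cfsg.IsMaximalPLocal p M → ∀ (C : Sylow p G),
          IsSylIn p M ((C : Subgroup G) ⊓ M) → e₀ ≤ Nat.card ↥((C : Subgroup G) ⊓ M) →
          d < Nat.card ↥((C : Subgroup G) ⊓ M) →
          ∀ m ∈ M, D ≤ (C : Subgroup G) ⊓ M →
          D ≤ ((C : Subgroup G) ⊓ M).map (MulAut.conj m).toMonoidHom →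
          Relation.ReflTransGen (GStep p 𝓖 D) C (m • C) := by
        intro e₀ hCB M hM C hsyl he₀ hdE m hm hD1 hD2
        set E₁ : Subgroup G := (C : Subgroup G) ⊓ M with hE₁
        have hE₁' : IsSylIn p M (E₁.map (MulAut.conj m).toMonoidHom) := hsyl.map_conj hm
        have hE₁'C : E₁.map (MulAut.conj m).toMonoidHom ≤ ((m • C : Sylow p G) : Subgroup G) := by
          rw [sylow_smul_coe]; exact map_conj_mono inf_le_left m
        by_cases hreg : Cfsg.IsFunctorRegular p f M
        · by_cases heq : E₁ = E₁.map (MulAut.conj m).toMonoidHom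
          · have hE₁C' : E₁ ≤ ((m • C : Sylow p G) : Subgroup G) := by
              rw [heq]; exact hE₁'C
            exact hHc C (m • C) E₁ inf_le_left hE₁C' hdE hD1
          · have hint' : E₁ ⊓ E₁.map (MulAut.conj m).toMonoidHom ≠ ⊥ := by
              intro h
              have h0 : D ≤ E₁ ⊓ E₁.map (MulAut.conj m).toMonoidHom := le_inf hD1 hD2
              rw [h] at h0
              exact hint (eq_bot_iff.mpr h0)
            have hchain := regular_down hf hreg hsyl hE₁' heq hint'
            have key : ∀ c : Subgroup G,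
                Relation.ReflTransGen
                  (MStep p f M (E₁ ⊓ E₁.map (MulAut.conj m).toMonoidHom)) E₁ c →
                D ≤ c ∧ ∀ C' : Sylow p G, c ≤ (C' : Subgroup G) →
                  Relation.ReflTransGen (GStep p 𝓖 D) C C' := by
              intro c hc
              induction hc with
              | refl => exact ⟨hD1, fun C' hC' => hHc C C' E₁ inf_le_left hC' hdE hD1⟩
              | @tail b c' _ hbc ih' =>
                obtain ⟨hDb, ihb⟩ := ih'
                obtain ⟨hb, hc', F, hF, x, hxM, hxN, hcx, hR⟩ := hbc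
                have hDc : D ≤ c' := le_trans (le_inf hD1 hD2) hR
                refine ⟨hDc, fun C' hC' => ?_⟩
                obtain ⟨Cb, hCb⟩ := hb.isPGroup.exists_le_sylow
                have h1 := ihb Cb hCb
                have hcardb : Nat.card b = Nat.card E₁ := by rw [hb.2, hsyl.2]
                have h2 := hCB b hb.isPGroup (by rw [hcardb]; exact he₀) hDb
                  (by rw [hcardb]; exact hdE) F hF x hxN (by rw [← hcx]; exact hDc) Cb hCb
                have h3 : Relation.ReflTransGen (GStep p 𝓖 D) (x • Cb) C' := by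
                  apply hHc (x • Cb) C' c' _ hC' _ hDc
                  · rw [hcx, sylow_smul_coe]; exact map_conj_mono hCb x
                  · rw [hc'.2, ← hsyl.2]; exact hdE
                exact (h1.trans h2).trans h3
            exact (key _ hchain).2 (m • C) hE₁'C
        · apply Relation.ReflTransGen.single
          apply gstep_local (hsing M hM hreg) C hsyl hm
          exact le_inf (le_trans hD2 hE₁'C) (le_trans hD2 hE₁'.1)
      -- Claim B
      have hCBall : ∀ (k : ℕ) (E : Subgroup G), IsPGroup p E → Nat.card G - Nat.card E = k →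
          D ≤ E → d < Nat.card E → ∀ F ∈ f E, ∀ x ∈ Subgroup.normalizer (F : Set G),
          D ≤ E.map (MulAut.conj x).toMonoidHom → ∀ C : Sylow p G, E ≤ (C : Subgroup G) →
          Relation.ReflTransGen (GStep p 𝓖 D) C (x • C) := by
        intro k
        induction k using Nat.strong_induction_on with
        | _ k ihk =>
        intro E hEp hk hDE hdE F hF x hxN hDx C hEC
        have hCB' : ∀ E' : Subgroup G, IsPGroup p E' → Nat.card E + 1 ≤ Nat.card E' →
            D ≤ E' → d < Nat.card E' → ∀ F ∈ f E', ∀ x ∈ Subgroup.normalizer (F : Set G),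
            D ≤ E'.map (MulAut.conj x).toMonoidHom → ∀ C : Sylow p G, E' ≤ (C : Subgroup G) →
            Relation.ReflTransGen (GStep p 𝓖 D) C (x • C) := by
          intro E' hE'p hlt
          have h1 := Subgroup.card_le_card_group E'
          exact ihk (Nat.card G - Nat.card E') (by omega) E' hE'p rfl
        by_cases hEC' : E = (C : Subgroup G)
        · apply Relation.ReflTransGen.single
          apply gstep_functor h𝓕sub hf C F (by rw [← hEC']; exact hF) x hxN
          rw [sylow_smul_coe, ← hEC']; exact hDx
        · set R : Subgroup G := (C : Subgroup G) ⊓ Subgroup.normalizer (E : Set G) with hR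
          have hER : E ≤ R := le_inf hEC Subgroup.le_normalizer
          have hRne : ¬ R ≤ E := fun h => hEC' (eq_of_normalizer_inf_le C.isPGroup' hEC h)
          have hcardR : Nat.card E < Nat.card R := by
            by_contra hcon
            push Not at hcon
            exact hRne (le_of_eq (Subgroup.eq_of_le_of_card_ge hER hcon).symm)
          have hRp : IsPGroup p R := C.isPGroup'.to_le inf_le_left
          obtain ⟨hFE, hNEF⟩ := (hf E hEp).1 F hF
          have hE1 : E ≠ ⊥ := by
            intro h
            rw [h] at hDE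
            exact hint (eq_bot_iff.mpr hDE)
          have hF1 : F ≠ ⊥ := hf1 E hEp hE1 F hF
          have hFp : IsPGroup p F := hEp.to_le hFE
          have hloc : Cfsg.IsPLocal p (Subgroup.normalizer (F : Set G)) := ⟨F, hFp, hF1, rfl⟩
          obtain ⟨M₂, hM₂, hNM₂⟩ := exists_maximal_pLocal hloc
          have hRM₂ : R ≤ M₂ := le_trans (le_trans inf_le_right hNEF) hNM₂
          obtain ⟨E₂, hE₂, hRE₂⟩ := exists_isSylIn_ge hRM₂ hRp
          obtain ⟨C₂, hC₂⟩ := hE₂.isPGroup.exists_le_sylow
          have hC₂M : (C₂ : Subgroup G) ⊓ M₂ = E₂ :=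
            (hE₂.eq_of_le (le_inf hC₂ hE₂.1) inf_le_right (C₂.isPGroup'.to_le inf_le_left)).symm
          have hxM₂ : x ∈ M₂ := hNM₂ hxN
          have hcardE₂ : Nat.card R ≤ Nat.card E₂ := Subgroup.card_le_of_le hRE₂
          have c1 : Relation.ReflTransGen (GStep p 𝓖 D) C C₂ :=
            hHc C C₂ R inf_le_left (le_trans hRE₂ hC₂) (lt_trans hdE hcardR) (le_trans hDE hER)
          have c3 : Relation.ReflTransGen (GStep p 𝓖 D) (x • C₂) (x • C) := by
            apply hHc (x • C₂) (x • C) (R.map (MulAut.conj x).toMonoidHom)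
            · rw [sylow_smul_coe]; exact map_conj_mono (le_trans hRE₂ hC₂) x
            · rw [sylow_smul_coe]; exact map_conj_mono inf_le_left x
            · rw [card_map_conj]; exact lt_trans hdE hcardR
            · exact le_trans hDx (map_conj_mono hER x)
          have hsyl₂ : IsSylIn p M₂ ((C₂ : Subgroup G) ⊓ M₂) := by rw [hC₂M]; exact hE₂
          have c2 : Relation.ReflTransGen (GStep p 𝓖 D) C₂ (x • C₂) := by
            apply hLM (Nat.card E + 1) hCB' M₂ hM₂ C₂ hsyl₂ _ _ x hxM₂ _ _
            · rw [hC₂M]; omega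
            · rw [hC₂M]; omega
            · rw [hC₂M]; exact le_trans hDE (le_trans hER hRE₂)
            · rw [hC₂M]; exact le_trans hDx (map_conj_mono (le_trans hER hRE₂) x)
          exact (c1.trans c2).trans c3
      -- the main step
      have hDp : IsPGroup p D := S.isPGroup'.to_le inf_le_left
      have hDS : D ≠ (S : Subgroup G) := by
        intro h
        have hle : (S : Subgroup G) ≤ (T : Subgroup G) := by rw [← h]; exact inf_le_right
        apply hST
        apply Sylow.ext
        exact Subgroup.eq_of_le_of_card_ge hle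
          (by rw [S.card_eq_multiplicity, T.card_eq_multiplicity])
      have hDT : D ≠ (T : Subgroup G) := by
        intro h
        have hle : (T : Subgroup G) ≤ (S : Subgroup G) := by rw [← h]; exact inf_le_left
        apply hST
        apply Sylow.ext
        exact (Subgroup.eq_of_le_of_card_ge hle
          (by rw [S.card_eq_multiplicity, T.card_eq_multiplicity])).symm
      set R_S : Subgroup G := (S : Subgroup G) ⊓ Subgroup.normalizer (D : Set G) with hR_S
      set R_T : Subgroup G := (T : Subgroup G) ⊓ Subgroup.normalizer (D : Set G) with hR_T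
      have hDRS : D ≤ R_S := le_inf inf_le_left Subgroup.le_normalizer
      have hDRT : D ≤ R_T := le_inf inf_le_right Subgroup.le_normalizer
      have hcardRS : d < Nat.card R_S := by
        by_contra hcon
        push Not at hcon
        have h1 : D = R_S := Subgroup.eq_of_le_of_card_ge hDRS hcon
        exact hDS (eq_of_normalizer_inf_le S.isPGroup' inf_le_left (le_of_eq h1.symm))
      have hcardRT : d < Nat.card R_T := by
        by_contra hcon
        push Not at hcon
        have h1 : D = R_T := Subgroup.eq_of_le_of_card_ge hDRT hcon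
        exact hDT (eq_of_normalizer_inf_le T.isPGroup' inf_le_right (le_of_eq h1.symm))
      have hloc : Cfsg.IsPLocal p (Subgroup.normalizer (D : Set G)) := ⟨D, hDp, hint, rfl⟩
      obtain ⟨M, hM, hNM⟩ := exists_maximal_pLocal hloc
      obtain ⟨S_M, hS_M, hRS_M⟩ := exists_isSylIn_ge (le_trans inf_le_right hNM : R_S ≤ M)
        (S.isPGroup'.to_le inf_le_left)
      obtain ⟨S', hS'⟩ := hS_M.isPGroup.exists_le_sylow
      have hS'M : (S' : Subgroup G) ⊓ M = S_M :=
        (hS_M.eq_of_le (le_inf hS' hS_M.1) inf_le_right (S'.isPGroup'.to_le inf_le_left)).symm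
      obtain ⟨T_M, hT_M, hRT_M⟩ := exists_isSylIn_ge (le_trans inf_le_right hNM : R_T ≤ M)
        (T.isPGroup'.to_le inf_le_left)
      obtain ⟨T', hT'⟩ := hT_M.isPGroup.exists_le_sylow
      obtain ⟨m, hm, hTm⟩ := hS_M.exists_conj hT_M
      have c1 : Relation.ReflTransGen (GStep p 𝓖 D) S S' :=
        hHc S S' R_S inf_le_left (le_trans hRS_M hS') hcardRS hDRS
      have c4 : Relation.ReflTransGen (GStep p 𝓖 D) T' T :=
        hHc T' T R_T (le_trans hRT_M hT') inf_le_left hcardRT hDRT
      have hdSM : d < Nat.card S_M := lt_of_lt_of_le hcardRS (Subgroup.card_le_of_le hRS_M)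
      have hsylS' : IsSylIn p M ((S' : Subgroup G) ⊓ M) := by rw [hS'M]; exact hS_M
      have c2 : Relation.ReflTransGen (GStep p 𝓖 D) S' (m • S') := by
        apply hLM (d + 1) (fun E hEp _ => hCBall _ E hEp rfl) M hM S' hsylS' _ _ m hm _ _
        · rw [hS'M]; omega
        · rw [hS'M]; exact hdSM
        · rw [hS'M]; exact le_trans hDRS hRS_M
        · rw [hS'M, ← hTm]; exact le_trans hDRT hRT_M
      have c3 : Relation.ReflTransGen (GStep p 𝓖 D) (m • S') T' := by
        apply hHc (m • S') T' T_M _ hT' _ (le_trans hDRT hRT_M)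
        · rw [hTm, sylow_smul_coe]; exact map_conj_mono hS' m
        · rw [hT_M.2, ← hS_M.2]; exact hdSM
      exact ((c1.trans c2).trans c3).trans c4
  intro S T _ hint
  exact main (Nat.card G + 1) S T hint (by omega)

end Cfsg.Agent.S2956
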