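import Cfsg.Statements.S2957
import Cfsg.Agent.Helper55.FunctorRegular
import Cfsg.Agent.S2940

set_option autoImplicit false
open Cfsg
open scoped Pointwise

namespace Cfsg.Agent.S2957

open Cfsg.Agent.Helper55

/-- Let p be a prime dividing the order of the finite group G, f an equivariant assignment of a set of subgroups f(P) of P to every p-subgroup P, each normalized by N_G(P), and S a Sylow p-subgroup. If G = G₁G₂ for subgroups G₁, G₂ both containing S and both regular for f (in each Gᵢ, the family of normalizers in Gᵢ of the members of f(P), P a Sylow p-subgroup of Gᵢ, controls Sylow p-intersections), then G itself is regular for f. -/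
theorem result {G : Type*} [Group G] [Finite G] (p : ℕ) [Fact p.Prime] (hdiv : p ∣ Nat.card G)
    (f : Subgroup G → Set (Subgroup G)) (hf : Cfsg.IsNormalizerFunctor p f) (S : Sylow p G)
    (G₁ G₂ : Subgroup G) (h₁ : (S : Subgroup G) ≤ G₁) (h₂ : (S : Subgroup G) ≤ G₂)
    (hprod : ∀ g : G, ∃ g₁ ∈ G₁, ∃ g₂ ∈ G₂, g = g₁ * g₂)
    (hr₁ : Cfsg.IsFunctorRegular p f G₁) (hr₂ : Cfsg.IsFunctorRegular p f G₂) :
    Cfsg.IsFunctorRegular p f ⊤ := by
  classical
  apply regular_top_up hf
  -- chains inside a regular subgroup containing `S`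
  have hC3 : ∀ (M : Subgroup G), (S : Subgroup G) ≤ M → Cfsg.IsFunctorRegular p f M →
      ∀ P Q : Sylow p G, (P : Subgroup G) ≤ M → (Q : Subgroup G) ≤ M →
        (P : Subgroup G) ⊓ (Q : Subgroup G) ≠ ⊥ →
        Relation.ReflTransGen (FStep p f ((P : Subgroup G) ⊓ (Q : Subgroup G))) P Q := by
    intro M hSM hreg P Q hPM hQM hint
    by_cases hPQ : P = Q
    · subst hPQ; exact Relation.ReflTransGen.refl
    · have hne : (P : Subgroup G) ≠ (Q : Subgroup G) := fun h => hPQ (Sylow.ext h)
      have h1 := regular_down hf hreg (isSylIn_of_sylow_le P hPM) (isSylIn_of_sylow_le Q hQM) hne hint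
      have key : ∀ c : Subgroup G,
          Relation.ReflTransGen (MStep p f M ((P : Subgroup G) ⊓ (Q : Subgroup G))) (P : Subgroup G) c →
          ∀ C : Sylow p G, (C : Subgroup G) = c →
            Relation.ReflTransGen (FStep p f ((P : Subgroup G) ⊓ (Q : Subgroup G))) P C := by
        intro c hc
        induction hc with
        | refl =>
          intro C hC
          have : C = P := Sylow.ext hC
          rw [this]
        | @tail b d _ hbd ih =>
          intro C hC
          obtain ⟨hb, hd, F, hF, x, hxM, hxN, hdx, hR⟩ := hbd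
          obtain ⟨B, hB⟩ := hb.exists_sylow_of_le S hSM
          refine Relation.ReflTransGen.tail (ih B hB)
            ⟨F, by rw [hB]; exact hF, x, hxN, ?_, by rw [hC]; exact hR⟩
          apply Sylow.ext
          rw [hC, hdx, sylow_smul_coe, hB]
      exact key _ h1 Q rfl
  have hmono : ∀ (R R' : Subgroup G) (P Q : Sylow p G), R' ≤ R →
      Relation.ReflTransGen (FStep p f R) P Q → Relation.ReflTransGen (FStep p f R') P Q := by
    intro R R' P Q hRR h
    refine Relation.ReflTransGen.mono ?_ _ _ h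
    rintro A B ⟨F, hF, x, hx, hB, hR⟩
    exact ⟨F, hF, x, hx, hB, le_trans hRR hR⟩
  have hconj : ∀ (R : Subgroup G) (P Q : Sylow p G) (g : G),
      Relation.ReflTransGen (FStep p f R) P Q →
      Relation.ReflTransGen (FStep p f (R.map (MulAut.conj g).toMonoidHom)) (g • P) (g • Q) := by
    intro R P Q g h
    induction h with
    | refl => exact Relation.ReflTransGen.refl
    | @tail B D _ hBD ih =>
      refine Relation.ReflTransGen.tail ih ?_
      obtain ⟨F, hF, x, hx, hD, hR⟩ := hBD
      refine ⟨F.map (MulAut.conj g).toMonoidHom, ?_, g * x * g⁻¹, mem_normalizer_map_conj hx g, ?_, ?_⟩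
      · rw [sylow_smul_coe, (hf (B : Subgroup G) B.isPGroup').2 g]
        exact ⟨F, hF, rfl⟩
      · rw [hD, ← mul_smul, ← mul_smul]
        congr 1
        simp [mul_assoc]
      · rw [sylow_smul_coe]; exact map_conj_mono hR g
  intro P Q hPQ hint
  obtain ⟨a, ha⟩ := MulAction.exists_smul_eq G S P
  set T : Sylow p G := a⁻¹ • Q with hT
  have hQT : Q = a • T := by rw [hT, smul_inv_smul]
  have e : ((S : Subgroup G) ⊓ (T : Subgroup G)).map (MulAut.conj a).toMonoidHom
      = (P : Subgroup G) ⊓ (Q : Subgroup G) := by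
    rw [Subgroup.map_inf_eq _ _ _ (MulAut.conj a).injective, ← sylow_smul_coe, ← sylow_smul_coe,
      ha, ← hQT]
  have hred : Relation.ReflTransGen (FStep p f ((S : Subgroup G) ⊓ (T : Subgroup G))) S T →
      Relation.ReflTransGen (FStep p f ((P : Subgroup G) ⊓ (Q : Subgroup G))) P Q := by
    intro h
    have h1 := hconj _ S T a h
    rw [ha, ← hQT, e] at h1
    exact h1
  apply hred
  have hST : S ≠ T := by
    intro h
    apply hPQ
    rw [hQT, ← h, ha]
  have hintST : (S : Subgroup G) ⊓ (T : Subgroup G) ≠ ⊥ := by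
    intro h
    apply hint
    rw [← e, h, Subgroup.map_bot]
  obtain ⟨b, hb⟩ := MulAction.exists_smul_eq G S T
  obtain ⟨U, hU1, hU2⟩ := Cfsg.Agent.S2940.result S G₁ G₂ h₁ h₂ hprod b⁻¹
  have hcr : ∀ X : Subgroup G, Cfsg.subgroupConjRight b⁻¹ X = X.map (MulAut.conj b).toMonoidHom := by
    intro X; unfold Cfsg.subgroupConjRight; rw [inv_inv]
  rw [hcr, ← sylow_smul_coe, hb] at hU1
  rw [hcr] at hU2
  have hUG₁ : (U : Subgroup G) ≤ G₁ := le_trans hU2 inf_le_left
  have hUG₂ : (U : Subgroup G) ≤ G₂.map (MulAut.conj b).toMonoidHom := le_trans hU2 inf_le_right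
  have hSU : (S : Subgroup G) ⊓ (T : Subgroup G) ≤ (S : Subgroup G) ⊓ (U : Subgroup G) :=
    le_inf inf_le_left hU1
  have hUT : (S : Subgroup G) ⊓ (T : Subgroup G) ≤ (U : Subgroup G) ⊓ (T : Subgroup G) :=
    le_inf hU1 inf_le_right
  have hch1 : Relation.ReflTransGen (FStep p f ((S : Subgroup G) ⊓ (T : Subgroup G))) S U := by
    apply hmono _ _ _ _ hSU
    apply hC3 G₁ h₁ hr₁ S U h₁ hUG₁
    intro h
    apply hintST
    rw [h] at hSU
    exact eq_bot_iff.mpr hSU
  set U₀ : Sylow p G := b⁻¹ • U with hU₀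
  have hU₀G₂ : (U₀ : Subgroup G) ≤ G₂ := by
    intro z hz
    rw [hU₀, sylow_smul_coe, mem_map_conj_iff] at hz
    have h3 := hUG₂ hz
    rw [mem_map_conj_iff] at h3
    simpa [mul_assoc] using h3
  have hUb : U = b • U₀ := by rw [hU₀, smul_inv_smul]
  have e2 : ((U₀ : Subgroup G) ⊓ (S : Subgroup G)).map (MulAut.conj b).toMonoidHom
      = (U : Subgroup G) ⊓ (T : Subgroup G) := by
    rw [Subgroup.map_inf_eq _ _ _ (MulAut.conj b).injective, ← sylow_smul_coe, ← sylow_smul_coe,
      ← hUb, hb]
  have hch2 : Relation.ReflTransGen (FStep p f ((S : Subgroup G) ⊓ (T : Subgroup G))) U T := by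
    apply hmono _ _ _ _ hUT
    have h3 : Relation.ReflTransGen (FStep p f ((U₀ : Subgroup G) ⊓ (S : Subgroup G))) U₀ S := by
      apply hC3 G₂ h₂ hr₂ U₀ S hU₀G₂ h₂
      intro h
      apply hintST
      have h5 : (U : Subgroup G) ⊓ (T : Subgroup G) = ⊥ := by rw [← e2, h, Subgroup.map_bot]
      rw [h5] at hUT
      exact eq_bot_iff.mpr hUT
    have h4 := hconj _ U₀ S b h3
    rw [e2, ← hUb, hb] at h4
    exact h4
  exact hch1.trans hch2

end Cfsg.Agent.S2957
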