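import Cfsg.Statements.S2958

set_option autoImplicit false
open Cfsg

namespace Cfsg.Agent.S2958

/-- Let X, A, B be subgroups of a group G such that G is generated by the conjugates of X and every conjugate of X is contained in A or in B. Then A = G or B = G. -/
theorem result {G : Type*} [Group G] (X A B : Subgroup G) (hgen : (⨆ g : G, X.map (MulAut.conj g).toMonoidHom) = ⊤) (hcover : ∀ g : G, X.map (MulAut.conj g).toMonoidHom ≤ A ∨ X.map (MulAut.conj g).toMonoidHom ≤ B) : A = ⊤ ∨ B = ⊤ := by
  classical
  by_cases hall : ∀ g : G, X.map (MulAut.conj g).toMonoidHom ≤ A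
  · left
    rw [eq_top_iff, ← hgen]
    exact iSup_le hall
  · right
    push Not at hall
    obtain ⟨h₀, hh₀⟩ := hall
    -- conjugation formula
    have hconj : ∀ (y g : G), (X.map (MulAut.conj g).toMonoidHom).map (MulAut.conj y).toMonoidHom
        = X.map (MulAut.conj (y * g)).toMonoidHom := by
      intro y g
      rw [Subgroup.map_map]
      congr 1
      ext z
      simp [mul_assoc]
    -- B₀: generated by the conjugates not in A
    set B₀ : Subgroup G := ⨆ g : {g : G // ¬ X.map (MulAut.conj g).toMonoidHom ≤ A},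
      X.map (MulAut.conj (g : G)).toMonoidHom with hB₀
    have hB₀B : B₀ ≤ B := by
      refine iSup_le ?_
      rintro ⟨g, hg⟩
      exact (hcover g).resolve_left hg
    have hmemB₀ : ∀ g : G, ¬ X.map (MulAut.conj g).toMonoidHom ≤ A →
        X.map (MulAut.conj g).toMonoidHom ≤ B₀ := by
      intro g hg
      exact le_iSup (fun g : {g : G // ¬ X.map (MulAut.conj g).toMonoidHom ≤ A} =>
        X.map (MulAut.conj (g : G)).toMonoidHom) ⟨g, hg⟩
    -- every element of A maps B₀ into B₀
    have hA : ∀ y ∈ A, B₀.map (MulAut.conj y).toMonoidHom ≤ B₀ := by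
      intro y hy
      rw [hB₀, Subgroup.map_iSup]
      refine iSup_le ?_
      rintro ⟨g, hg⟩
      rw [hconj]
      apply hmemB₀
      intro hle
      apply hg
      intro z hz
      have hz' : y * z * y⁻¹ ∈ X.map (MulAut.conj (y * g)).toMonoidHom := by
        rw [← hconj]
        exact ⟨z, hz, by simp⟩
      have := hle hz'
      have h2 : y⁻¹ * (y * z * y⁻¹) * y ∈ A := A.mul_mem (A.mul_mem (A.inv_mem hy) this) hy
      simpa [mul_assoc] using h2
    -- every element of G maps B₀ into B₀
    have hN : ∀ y : G, B₀.map (MulAut.conj y).toMonoidHom ≤ B₀ := by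
      intro y
      have hy : y ∈ (⨆ g : G, X.map (MulAut.conj g).toMonoidHom) := by rw [hgen]; trivial
      refine Subgroup.iSup_induction (fun g : G => X.map (MulAut.conj g).toMonoidHom)
        (C := fun y => B₀.map (MulAut.conj y).toMonoidHom ≤ B₀) hy ?_ ?_ ?_
      · intro g x hx
        by_cases hg : X.map (MulAut.conj g).toMonoidHom ≤ A
        · exact hA x (hg hx)
        · have hxB : x ∈ B₀ := hmemB₀ g hg hx
          rintro _ ⟨z, hz, rfl⟩
          simp only [MulEquiv.toMonoidHom_eq_coe, MonoidHom.coe_coe, MulAut.conj_apply]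
          exact B₀.mul_mem (B₀.mul_mem hxB hz) (B₀.inv_mem hxB)
      · rintro _ ⟨z, hz, rfl⟩
        simpa using hz
      · intro x y ihx ihy
        rintro _ ⟨z, hz, rfl⟩
        have h1 : y * z * y⁻¹ ∈ B₀ := ihy ⟨z, hz, by simp⟩
        have h2 : x * (y * z * y⁻¹) * x⁻¹ ∈ B₀ := ihx ⟨_, h1, by simp⟩
        simpa [mul_assoc] using h2
    have hB₀top : B₀ = ⊤ := by
      rw [eq_top_iff, ← hgen]
      refine iSup_le ?_
      intro g
      have h1 : X.map (MulAut.conj h₀).toMonoidHom ≤ B₀ := hmemB₀ h₀ hh₀
      have h2 : X.map (MulAut.conj g).toMonoidHom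
          = (X.map (MulAut.conj h₀).toMonoidHom).map (MulAut.conj (g * h₀⁻¹)).toMonoidHom := by
        rw [hconj]; simp
      rw [h2]
      exact le_trans (Subgroup.map_mono h1) (hN _)
    rw [eq_top_iff, ← hB₀top]
    exact hB₀B

end Cfsg.Agent.S2958
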