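import Cfsg.Statements.S2959
import Cfsg.Agent.Helper55.CharP

set_option autoImplicit false
open Cfsg

namespace Cfsg.Agent.S2959

open Cfsg.Agent.Helper55

/-- Let G be a finite group of characteristic p, that is C_G(O_p(G)) ≤ O_p(G), with p prime, and let L be a subgroup of G normalized by O_p(G). Then L has characteristic p: C_L(O_p(L)) ≤ O_p(L). -/
theorem result {G : Type*} [Group G] [Finite G] {p : ℕ} [Fact p.Prime] (hG : Subgroup.centralizer (Cfsg.pCore p G : Set G) ≤ Cfsg.pCore p G) (L : Subgroup G) (hL : Cfsg.pCore p G ≤ Subgroup.normalizer (L : Set G)) : Subgroup.centralizer (Cfsg.pCore p ↥L : Set ↥L) ≤ Cfsg.pCore p ↥L := by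
  classical
  set R : Subgroup G := Cfsg.pCore p G with hR
  have hRn : R.Normal := pCore_normal' p G
  have hRp : IsPGroup p R := isPGroup_pCore p G
  have hPLn : (Cfsg.pCore p ↥L).Normal := pCore_normal' p L
  have hXn : (Subgroup.centralizer (Cfsg.pCore p ↥L : Set ↥L)).Normal := Subgroup.normal_centralizer
  have hR₀ : R.subgroupOf L ≤ Cfsg.pCore p ↥L := le_pCore inferInstance hRp.comap_subtype
  apply le_pCore hXn
  intro c
  have h1 : ∀ r ∈ R, ((c : L) : G) * r * ((c : L) : G)⁻¹ * r⁻¹ ∈ R ⊓ L := by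
    intro r hr
    refine Subgroup.mem_inf.mpr ⟨?_, ?_⟩
    · exact R.mul_mem (hRn.conj_mem r hr _) (R.inv_mem hr)
    · have h3 : r * ((c : L) : G)⁻¹ * r⁻¹ ∈ L := ((hL hr) _).mp (L.inv_mem (c : L).2)
      have e : ((c : L) : G) * r * ((c : L) : G)⁻¹ * r⁻¹ = ((c : L) : G) * (r * ((c : L) : G)⁻¹ * r⁻¹) := by
        simp [mul_assoc]
      rw [e]
      exact L.mul_mem (c : L).2 h3
  have h2 : ∀ z ∈ R ⊓ L, ((c : L) : G) * z = z * ((c : L) : G) := by
    intro z hz
    obtain ⟨hzR, hzL⟩ := Subgroup.mem_inf.mp hz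
    have h4 : (⟨z, hzL⟩ : L) ∈ Cfsg.pCore p ↥L := hR₀ (by rw [Subgroup.mem_subgroupOf]; exact hzR)
    have h5 := (Subgroup.mem_centralizer_iff.mp c.2) _ h4
    have h6 := congrArg Subtype.val h5
    simpa using h6.symm
  obtain ⟨k, hk⟩ := exists_pow_eq_one_of_stabilizes hRp hG inf_le_left h1 h2
  refine ⟨k, ?_⟩
  apply Subtype.ext
  apply Subtype.ext
  simpa using hk

end Cfsg.Agent.S2959
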