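import Cfsg.Statements.S2961
import Cfsg.Agent.Helper55.CharP

set_option autoImplicit false
open Cfsg

namespace Cfsg.Agent.S2961

open Cfsg.Agent.Helper55

/-- Let G be a finite group of characteristic p (C_G(O_p(G)) ≤ O_p(G)), p prime, T a Sylow p-subgroup of G and Q a normal subgroup of T with C_T(Q) ≤ Q. Then every subgroup L of G containing Q has characteristic p: C_L(O_p(L)) ≤ O_p(L). -/
theorem result {G : Type*} [Group G] [Finite G] {p : ℕ} [Fact p.Prime] (hG : Subgroup.centralizer (Cfsg.pCore p G : Set G) ≤ Cfsg.pCore p G) (T : Sylow p G) (Q : Subgroup G) (hQT : Q ≤ (T : Subgroup G)) (hQn : (T : Subgroup G) ≤ Subgroup.normalizer (Q : Set G)) (hC : (T : Subgroup G) ⊓ Subgroup.centralizer (Q : Set G) ≤ Q) (L : Subgroup G) (hQL : Q ≤ L) : Subgroup.centralizer (Cfsg.pCore p ↥L : Set ↥L) ≤ Cfsg.pCore p ↥L := by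
  classical
  have hCQ := centralizer_le_of_charP hG T Q hQT hQn hC
  set R : Subgroup G := Cfsg.pCore p G with hR
  have hRn : R.Normal := pCore_normal' p G
  have hRp : IsPGroup p R := isPGroup_pCore p G
  have hRT : R ≤ (T : Subgroup G) := pCore_le_sylow T
  have hRQ : R ≤ Subgroup.normalizer (Q : Set G) := le_trans hRT hQn
  have hPLn : (Cfsg.pCore p ↥L).Normal := pCore_normal' p L
  have hPLp : IsPGroup p (Cfsg.pCore p ↥L) := isPGroup_pCore p L
  have hXn : (Subgroup.centralizer (Cfsg.pCore p ↥L : Set ↥L)).Normal := Subgroup.normal_centralizer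
  have hR₀ : R.subgroupOf L ≤ Cfsg.pCore p ↥L := le_pCore inferInstance hRp.comap_subtype
  -- conjugation by elements of L preserves R ⊓ L
  have hconjL : ∀ l ∈ L, ∀ w ∈ R ⊓ L, l * w * l⁻¹ ∈ R ⊓ L := by
    intro l hl w hw
    obtain ⟨hwR, hwL⟩ := Subgroup.mem_inf.mp hw
    exact Subgroup.mem_inf.mpr ⟨hRn.conj_mem w hwR l, L.mul_mem (L.mul_mem hl hwL) (L.inv_mem hl)⟩
  -- D = C_L(R / (R ⊓ L))
  let D : Subgroup ↥L :=
    { carrier := {m : L | ∀ r ∈ R, (m : G) * r * (m : G)⁻¹ * r⁻¹ ∈ R ⊓ L}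
      one_mem' := by
        intro r hr
        simp
      mul_mem' := by
        intro a b ha hb r hr
        have e : ((a * b : L) : G) * r * ((a * b : L) : G)⁻¹ * r⁻¹
            = ((a : G) * ((b : G) * r * (b : G)⁻¹ * r⁻¹) * (a : G)⁻¹) * ((a : G) * r * (a : G)⁻¹ * r⁻¹) := by
          simp [mul_assoc]
        rw [e]
        exact Subgroup.mul_mem _ (hconjL _ a.2 _ (hb r hr)) (ha r hr)
      inv_mem' := by
        intro a ha r hr
        have hr1 : (a : G)⁻¹ * r * (a : G) ∈ R := by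
          have := hRn.conj_mem r hr (a : G)⁻¹
          simpa using this
        have h1 := ha _ hr1
        have e : ((a⁻¹ : L) : G) * r * ((a⁻¹ : L) : G)⁻¹ * r⁻¹
            = ((a : G) * ((a : G)⁻¹ * r * (a : G)) * (a : G)⁻¹ * ((a : G)⁻¹ * r * (a : G))⁻¹)⁻¹ := by
          simp [mul_assoc]
        rw [e]
        exact Subgroup.inv_mem _ h1 }
  have hDmem : ∀ m : L, m ∈ D ↔ ∀ r ∈ R, (m : G) * r * (m : G)⁻¹ * r⁻¹ ∈ R ⊓ L := fun m => Iff.rfl
  have hDn : D.Normal := by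
    constructor
    intro m hm l
    rw [hDmem] at hm ⊢
    intro r hr
    have hr1 : (l : G)⁻¹ * r * (l : G) ∈ R := by
      have := hRn.conj_mem r hr (l : G)⁻¹
      simpa using this
    have h1 := hm _ hr1
    have e : ((l * m * l⁻¹ : L) : G) * r * ((l * m * l⁻¹ : L) : G)⁻¹ * r⁻¹
        = (l : G) * ((m : G) * ((l : G)⁻¹ * r * (l : G)) * (m : G)⁻¹ * ((l : G)⁻¹ * r * (l : G))⁻¹) * (l : G)⁻¹ := by
      simp [mul_assoc]
    rw [e]
    exact hconjL _ l.2 _ h1
  have hQD : ∀ q : L, (q : G) ∈ Q → q ∈ D := by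
    intro q hq
    rw [hDmem]
    intro r hr
    refine Subgroup.mem_inf.mpr ⟨R.mul_mem (hRn.conj_mem r hr _) (R.inv_mem hr), ?_⟩
    have h3 : r * (q : G)⁻¹ * r⁻¹ ∈ Q := ((hRQ hr) _).mp (Q.inv_mem hq)
    have e : (q : G) * r * (q : G)⁻¹ * r⁻¹ = (q : G) * (r * (q : G)⁻¹ * r⁻¹) := by simp [mul_assoc]
    rw [e]
    exact hQL (Q.mul_mem hq h3)
  -- D ⊓ X is a normal p-subgroup of L
  have hNn : D ⊓ Subgroup.centralizer (Cfsg.pCore p ↥L : Set ↥L) ≤ Cfsg.pCore p ↥L := by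
    haveI := hDn
    haveI := hXn
    apply le_pCore inferInstance
    intro n
    obtain ⟨hnD, hnX⟩ := Subgroup.mem_inf.mp n.2
    have h1 : ∀ r ∈ R, ((n : L) : G) * r * ((n : L) : G)⁻¹ * r⁻¹ ∈ R ⊓ L := (hDmem _).mp hnD
    have h2 : ∀ z ∈ R ⊓ L, ((n : L) : G) * z = z * ((n : L) : G) := by
      intro z hz
      obtain ⟨hzR, hzL⟩ := Subgroup.mem_inf.mp hz
      have h4 : (⟨z, hzL⟩ : L) ∈ Cfsg.pCore p ↥L := hR₀ (by rw [Subgroup.mem_subgroupOf]; exact hzR)
      have h5 := (Subgroup.mem_centralizer_iff.mp hnX) _ h4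
      have h6 := congrArg Subtype.val h5
      simpa using h6.symm
    obtain ⟨k, hk⟩ := exists_pow_eq_one_of_stabilizes hRp hG inf_le_left h1 h2
    refine ⟨k, ?_⟩
    apply Subtype.ext
    apply Subtype.ext
    simpa using hk
  -- X is a p-group
  apply le_pCore hXn
  apply isPGroup_of_forall_coprime_eq_one
  intro y hcop
  have hyX : (y : L) ∈ Subgroup.centralizer (Cfsg.pCore p ↥L : Set ↥L) := y.2
  have hcop' : Nat.Coprime (orderOf (y : L)) p := by rwa [Subgroup.orderOf_coe]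
  -- y centralizes Q
  have hyQ : ((y : L) : G) ∈ Subgroup.centralizer (Q : Set G) := by
    rw [Subgroup.mem_centralizer_iff]
    intro q hq
    set qL : L := ⟨q, hQL hq⟩ with hqL
    set zL : L := (y : L) * qL * (y : L)⁻¹ * qL⁻¹ with hzL
    have hzX : zL ∈ Subgroup.centralizer (Cfsg.pCore p ↥L : Set ↥L) := by
      have h1 := hXn.conj_mem _ (Subgroup.inv_mem _ hyX) qL
      have e : zL = (y : L) * (qL * (y : L)⁻¹ * qL⁻¹) := by rw [hzL]; simp [mul_assoc]
      rw [e]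
      exact Subgroup.mul_mem _ hyX h1
    have hzD : zL ∈ D := by
      have h1 : qL ∈ D := hQD qL hq
      have h2 := hDn.conj_mem _ h1 (y : L)
      exact D.mul_mem h2 (D.inv_mem h1)
    have hzP : zL ∈ Cfsg.pCore p ↥L := hNn (Subgroup.mem_inf.mpr ⟨hzD, hzX⟩)
    have hcomm : Commute (y : L) zL := ((Subgroup.mem_centralizer_iff.mp hyX) _ hzP).symm
    have e : (y : L) * qL * (y : L)⁻¹ = zL * qL := by rw [hzL]; simp
    have h4 := conj_pow_eq_of_commute e hcomm (orderOf (y : L))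
    rw [pow_orderOf_eq_one] at h4
    have h5 : zL ^ orderOf (y : L) = 1 := by
      have : qL = zL ^ orderOf (y : L) * qL := by simpa using h4
      exact mul_right_cancel (by rw [one_mul]; exact this.symm)
    obtain ⟨k, hk⟩ := hPLp ⟨zL, hzP⟩
    have hk' : zL ^ (p ^ k) = 1 := by simpa using congrArg Subtype.val hk
    have h6 : zL = 1 := eq_one_of_pow_eq_one_of_coprime h5 hk' (Nat.Coprime.pow_right k hcop')
    have h7 : (y : L) * qL * (y : L)⁻¹ = qL := by rw [e, h6, one_mul]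
    have h8 : qL * (y : L) = (y : L) * qL := by
      calc qL * (y : L) = ((y : L) * qL * (y : L)⁻¹) * (y : L) := by rw [h7]
        _ = (y : L) * qL := by simp [mul_assoc]
    have h9 := congrArg Subtype.val h8
    simpa [hqL] using h9
  have hyQ' : ((y : L) : G) ∈ Q := hCQ hyQ
  obtain ⟨k, hk⟩ := exists_pow_eq_one_of_mem (T.isPGroup'.to_le hQT) hyQ'
  have hcop'' : Nat.Coprime (orderOf ((y : L) : G)) p := by rwa [Subgroup.orderOf_coe]
  have h1 : ((y : L) : G) = 1 :=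
    eq_one_of_pow_eq_one_of_coprime (pow_orderOf_eq_one _) hk (Nat.Coprime.pow_right k hcop'')
  apply Subtype.ext
  apply Subtype.ext
  simpa using h1

end Cfsg.Agent.S2961
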