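import Cfsg.Statements.S2963
import Mathlib.GroupTheory.Perm.Sign
import Mathlib.GroupTheory.PGroup

set_option autoImplicit false
open Cfsg

namespace Cfsg.Agent.S2963

/-- For odd n, if Sym(n) is 2-minimal parabolic (a Sylow 2-subgroup is not normal and lies in exactly one maximal subgroup), then n = 2^m + 1. -/
theorem result (n : ℕ) (hn : Odd n) (h : Cfsg.IsPMinimal 2 (Equiv.Perm (Fin n))) : ∃ m : ℕ, n = 2 ^ m + 1 := by
  classical
  have : Fact (Nat.Prime 2) := ⟨Nat.prime_two⟩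
  obtain ⟨S⟩ : Nonempty (Sylow 2 (Equiv.Perm (Fin n))) := inferInstance
  obtain ⟨hnn, M, ⟨hMco, hSM⟩, hMuniq⟩ := h S
  have hS2 : IsPGroup 2 (S : Subgroup (Equiv.Perm (Fin n))) := S.isPGroup'
  -- a fixed point of S
  have hnd : ¬ 2 ∣ Nat.card (Fin n) := by
    rw [Nat.card_fin]
    exact hn.not_two_dvd_nat
  obtain ⟨p₀, hp₀⟩ := hS2.nonempty_fixed_point_of_prime_not_dvd_card (Fin n) hnd
  have hfix : ∀ s ∈ (S : Subgroup (Equiv.Perm (Fin n))), s p₀ = p₀ := by
    intro s hs
    have := hp₀ ⟨s, hs⟩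
    simpa using this
  -- n ≠ 1, so there is another point
  have hx : ∃ x : Fin n, x ≠ p₀ := by
    by_contra hcon
    push Not at hcon
    apply hnn
    have hsub : Subsingleton (Equiv.Perm (Fin n)) := by
      constructor
      intro a b
      ext i
      rw [hcon i, hcon (a p₀), hcon (b p₀)]
    constructor
    intro a ha g
    have : g * a * g⁻¹ = a := Subsingleton.elim _ _
    rw [this]; exact ha
  obtain ⟨x, hx⟩ := hx
  -- the orbit of x
  set O : Set (Fin n) := MulAction.orbit (S : Subgroup (Equiv.Perm (Fin n))) x with hO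
  have hOmem : ∀ b : Fin n, b ∈ O ↔ ∃ t ∈ (S : Subgroup (Equiv.Perm (Fin n))), t x = b := by
    intro b
    rw [hO, MulAction.mem_orbit_iff]
    constructor
    · rintro ⟨t, ht⟩
      exact ⟨t, t.2, ht⟩
    · rintro ⟨t, ht, hb⟩
      exact ⟨⟨t, ht⟩, hb⟩
  have hp₀O : p₀ ∉ O := by
    rw [hOmem]
    rintro ⟨t, ht, htx⟩
    apply hx
    have h1 : t p₀ = p₀ := hfix t ht
    exact t.injective (htx.trans h1.symm)
  have hxO : x ∈ O := (hOmem x).mpr ⟨1, Subgroup.one_mem _, rfl⟩
  obtain ⟨j, hj⟩ := hS2.card_orbit x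
  by_cases hA : insert p₀ O = Set.univ
  · refine ⟨j, ?_⟩
    have h1 : (insert p₀ O).ncard = O.ncard + 1 := Set.ncard_insert_of_notMem hp₀O
    rw [hA, Set.ncard_univ, Nat.card_fin] at h1
    rw [h1, ← hj, hO, Nat.card_coe_set_eq]
  · exfalso
    obtain ⟨y, hy⟩ : ∃ y, y ∉ insert p₀ O := by
      by_contra hcon
      push Not at hcon
      exact hA (Set.eq_univ_of_forall hcon)
    have hyp₀ : y ≠ p₀ := fun e => hy (e ▸ Set.mem_insert _ _)
    have hyO : y ∉ O := fun e => hy (Set.mem_insert_of_mem _ e)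
    -- H₁ = stabilizer of p₀
    set H₁ : Subgroup (Equiv.Perm (Fin n)) := MulAction.stabilizer (Equiv.Perm (Fin n)) p₀ with hH₁
    -- H₂ = setwise stabilizer of A = insert p₀ O
    let H₂ : Subgroup (Equiv.Perm (Fin n)) :=
      { carrier := {σ | ∀ a, a ∈ insert p₀ O ↔ σ a ∈ insert p₀ O}
        one_mem' := by intro a; simp
        mul_mem' := by
          intro σ τ hσ hτ a
          rw [hτ a, hσ (τ a)]; rfl
        inv_mem' := by
          intro σ hσ a
          rw [hσ (σ⁻¹ a)]; simp }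
    have hH₂mem : ∀ σ : Equiv.Perm (Fin n), σ ∈ H₂ ↔ ∀ a, a ∈ insert p₀ O ↔ σ a ∈ insert p₀ O :=
      fun σ => Iff.rfl
    have hSH₁ : (S : Subgroup (Equiv.Perm (Fin n))) ≤ H₁ := by
      intro s hs
      rw [hH₁, MulAction.mem_stabilizer_iff]
      exact hfix s hs
    have hSH₂ : (S : Subgroup (Equiv.Perm (Fin n))) ≤ H₂ := by
      intro s hs
      rw [hH₂mem]
      intro a
      rw [Set.mem_insert_iff, Set.mem_insert_iff]
      have h1 : a = p₀ ↔ s a = p₀ := by
        constructor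
        · intro e; rw [e]; exact hfix s hs
        · intro e; exact s.injective (e.trans (hfix s hs).symm)
      have h2 : a ∈ O ↔ s a ∈ O := by
        rw [hOmem, hOmem]
        constructor
        · rintro ⟨t, ht, rfl⟩
          exact ⟨s * t, Subgroup.mul_mem _ hs ht, rfl⟩
        · rintro ⟨t, ht, hta⟩
          refine ⟨s⁻¹ * t, Subgroup.mul_mem _ (Subgroup.inv_mem _ hs) ht, ?_⟩
          simp [hta]
      rw [h1, h2]
    have hH₁top : H₁ ≠ ⊤ := by
      intro htop
      have : Equiv.swap p₀ x ∈ H₁ := by rw [htop]; trivial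
      rw [hH₁, MulAction.mem_stabilizer_iff] at this
      have h1 : Equiv.swap p₀ x p₀ = x := Equiv.swap_apply_left _ _
      exact hx (by rw [← h1]; exact this)
    have hH₂top : H₂ ≠ ⊤ := by
      intro htop
      have : Equiv.swap p₀ y ∈ H₂ := by rw [htop]; trivial
      rw [hH₂mem] at this
      have h1 := (this p₀).mp (Set.mem_insert _ _)
      rw [Equiv.swap_apply_left] at h1
      exact hy h1
    -- coatoms above H₁ and H₂
    obtain ⟨M₁, hM₁, hHM₁⟩ := (eq_top_or_exists_le_coatom H₁).resolve_left hH₁top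
    obtain ⟨M₂, hM₂, hHM₂⟩ := (eq_top_or_exists_le_coatom H₂).resolve_left hH₂top
    have e₁ : M₁ = M := hMuniq M₁ ⟨hM₁, le_trans hSH₁ hHM₁⟩
    have e₂ : M₂ = M := hMuniq M₂ ⟨hM₂, le_trans hSH₂ hHM₂⟩
    have hsup : H₁ ⊔ H₂ ≤ M := sup_le (e₁ ▸ hHM₁) (e₂ ▸ hHM₂)
    apply hMco.1
    rw [eq_top_iff]
    refine le_trans ?_ hsup
    rw [← Equiv.Perm.closure_isSwap, Subgroup.closure_le]
    -- every swap lies in H₁ ⊔ H₂
    have hsw1 : ∀ a b : Fin n, a ≠ p₀ → b ≠ p₀ → Equiv.swap a b ∈ H₁ := by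
      intro a b ha hb
      rw [hH₁, MulAction.mem_stabilizer_iff]
      exact Equiv.swap_apply_of_ne_of_ne ha.symm hb.symm
    have hsw2 : Equiv.swap p₀ x ∈ H₂ := by
      rw [hH₂mem]
      intro a
      by_cases ha1 : a = p₀
      · subst ha1
        rw [Equiv.swap_apply_left]
        exact ⟨fun _ => Set.mem_insert_of_mem _ hxO, fun _ => Set.mem_insert _ _⟩
      · by_cases ha2 : a = x
        · subst ha2
          rw [Equiv.swap_apply_right]
          exact ⟨fun _ => Set.mem_insert _ _, fun _ => Set.mem_insert_of_mem _ hxO⟩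
        · rw [Equiv.swap_apply_of_ne_of_ne ha1 ha2]
    have hsw3 : ∀ b : Fin n, b ≠ p₀ → Equiv.swap p₀ b ∈ H₁ ⊔ H₂ := by
      intro b hb
      by_cases hbx : b = x
      · subst hbx; exact Subgroup.mem_sup_right hsw2
      · have e : Equiv.swap p₀ b = Equiv.swap x b * Equiv.swap p₀ x * (Equiv.swap x b)⁻¹ := by
          rw [← Equiv.swap_apply_apply]
          rw [Equiv.swap_apply_of_ne_of_ne hx.symm (Ne.symm hb), Equiv.swap_apply_left]
        rw [e]
        have h1 : Equiv.swap x b ∈ H₁ ⊔ H₂ := Subgroup.mem_sup_left (hsw1 x b hx hb)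
        exact Subgroup.mul_mem _ (Subgroup.mul_mem _ h1 (Subgroup.mem_sup_right hsw2)) (Subgroup.inv_mem _ h1)
    rintro σ ⟨a, b, hab, rfl⟩
    by_cases ha : a = p₀
    · subst ha
      exact hsw3 b (Ne.symm hab)
    · by_cases hb : b = p₀
      · subst hb
        rw [Equiv.swap_comm]
        exact hsw3 a ha
      · exact Subgroup.mem_sup_left (hsw1 a b ha hb)

end Cfsg.Agent.S2963
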