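import Cfsg.Statements.S2998
import Cfsg.Agent.H56.Basic

set_option autoImplicit false
open Cfsg

namespace Cfsg.Agent.S2998

/-- Let G be a finite group, p a prime, P a Sylow p-subgroup of G and x ∈ P an element such that N_G(R) ≤ C_G(x) for every nontrivial subgroup R of P. Then P ≤ C_G(x); every G-conjugate of x lying in P equals x (so g ∈ C_G(x) whenever g x g⁻¹ ∈ P); and for every normal subgroup N of G, the image of x in G ⧸ N has the same property with respect to the image of P: the normalizer of every nontrivial subgroup of the image of P centralizes the image of x. -/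
theorem result {G : Type*} [Group G] [Finite G] {p : ℕ} [Fact p.Prime] (P : Sylow p G) (x : G) (hxP : x ∈ (P : Subgroup G)) (hlc : ∀ R : Subgroup G, R ≤ (P : Subgroup G) → R ≠ ⊥ → Subgroup.normalizer (R : Set G) ≤ Subgroup.centralizer ({x} : Set G)) : (P : Subgroup G) ≤ Subgroup.centralizer ({x} : Set G) ∧ (∀ g : G, g * x * g⁻¹ ∈ (P : Subgroup G) → g * x * g⁻¹ = x) ∧ ∀ (N : Subgroup G) [N.Normal], ∀ R : Subgroup (G ⧸ N), R ≤ (P : Subgroup G).map (QuotientGroup.mk' N) → R ≠ ⊥ → Subgroup.normalizer (R : Set (G ⧸ N)) ≤ Subgroup.centralizer ({(QuotientGroup.mk x : G ⧸ N)} : Set (G ⧸ N)) := by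
  -- Part (a)
  have hPC : (P : Subgroup G) ≤ Subgroup.centralizer ({x} : Set G) := by
    by_cases hP : (P : Subgroup G) = ⊥
    · rw [hP]; exact bot_le
    · exact Subgroup.le_normalizer.trans (hlc _ le_rfl hP)
  have hNP : Subgroup.normalizer ((P : Subgroup G) : Set G) ≤ Subgroup.centralizer ({x} : Set G) := by
    by_cases hP : (P : Subgroup G) = ⊥
    · have hx1 : x = 1 := by
        have : x ∈ (⊥ : Subgroup G) := hP ▸ hxP
        simpa using this
      intro g _
      rw [Subgroup.mem_centralizer_singleton_iff, hx1]; simp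
    · exact hlc _ le_rfl hP
  -- Part (b)
  have hb : ∀ g : G, g * x * g⁻¹ ∈ (P : Subgroup G) → g ∈ Subgroup.centralizer ({x} : Set G) := by
    intro g hg
    by_cases hx1 : x = 1
    · rw [Subgroup.mem_centralizer_singleton_iff, hx1]; simp
    set y := g * x * g⁻¹ with hy
    have hy1 : y ≠ 1 := by
      intro h
      apply hx1
      have : x = g⁻¹ * y * g := by rw [hy]; group
      rw [this, h]; group
    have hzy : Subgroup.zpowers y ≤ (P : Subgroup G) := by
      rw [Subgroup.zpowers_le]; exact hg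
    have hzy1 : Subgroup.zpowers y ≠ ⊥ := by
      rw [Ne, Subgroup.zpowers_eq_bot]; exact hy1
    have hCy : Subgroup.centralizer ({y} : Set G) ≤ Subgroup.centralizer ({x} : Set G) := by
      have h1 := hlc _ hzy hzy1
      have h2 := Subgroup.centralizer_le_normalizer ((Subgroup.zpowers y : Subgroup G) : Set G)
      rw [Subgroup.zpowers_eq_closure, Subgroup.centralizer_closure] at h2
      rw [Subgroup.zpowers_eq_closure] at h1
      exact h2.trans h1
    -- the conjugate Sylow g • P lies in C(y) ≤ C(x)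
    have hgP : ((g • P : Sylow p G) : Subgroup G) ≤ Subgroup.centralizer ({x} : Set G) := by
      refine le_trans ?_ hCy
      intro a ha
      rw [Sylow.coe_subgroup_smul] at ha
      obtain ⟨b, hb, rfl⟩ := ha
      have hbx := hPC hb
      rw [Subgroup.mem_centralizer_singleton_iff] at hbx ⊢
      show g * b * g⁻¹ * y = y * (g * b * g⁻¹)
      rw [hy]
      calc g * b * g⁻¹ * (g * x * g⁻¹) = g * (b * x) * g⁻¹ := by group
        _ = g * (x * b) * g⁻¹ := by rw [hbx]
        _ = g * x * g⁻¹ * (g * b * g⁻¹) := by group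
    obtain ⟨c, hc⟩ := MulAction.exists_smul_eq (↥(Subgroup.centralizer ({x} : Set G)))
      ((g • P : Sylow p G).subtype hgP) (P.subtype hPC)
    rw [Sylow.smul_subtype] at hc
    have hc' := Sylow.subtype_injective hc
    have hc'' : ((c : G) * g) • P = P := by
      rw [mul_smul]; exact hc'
    rw [Sylow.smul_eq_iff_mem_normalizer] at hc''
    have h3 := hNP hc''
    have h4 : (c : G)⁻¹ ∈ Subgroup.centralizer ({x} : Set G) := inv_mem c.2
    have := mul_mem h4 h3
    simpa using this
  refine ⟨hPC, ?_, ?_⟩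
  · intro g hg
    have := hb g hg
    rw [Subgroup.mem_centralizer_singleton_iff] at this
    rw [this]; group
  · intro N hN R hR hR1 gbar hgbar
    obtain ⟨g, rfl⟩ := QuotientGroup.mk_surjective gbar
    -- R₀ = P ⊓ comap R
    set K : Subgroup G := R.comap (QuotientGroup.mk' N) with hK
    set R₀ : Subgroup G := (P : Subgroup G) ⊓ K with hR₀
    have hR₀P : R₀ ≤ (P : Subgroup G) := inf_le_left
    have hmap : R₀.map (QuotientGroup.mk' N) = R := by
      apply le_antisymm
      · rw [Subgroup.map_le_iff_le_comap]; exact inf_le_right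
      · intro r hr
        obtain ⟨a, ha, rfl⟩ := hR hr
        exact ⟨a, ⟨ha, hr⟩, rfl⟩
    have hR₀1 : R₀ ≠ ⊥ := by
      intro h
      apply hR1
      rw [← hmap, h, Subgroup.map_bot]
    have hlcR := hlc R₀ hR₀P hR₀1
    have hNK : N ≤ K := by
      intro n hn
      rw [hK, Subgroup.mem_comap]
      have : (QuotientGroup.mk' N) n = 1 := by
        rw [QuotientGroup.mk'_apply, QuotientGroup.eq_one_iff]; exact hn
      rw [this]; exact one_mem _
    -- conjugation by g preserves K
    have hgK : ∀ a ∈ K, g * a * g⁻¹ ∈ K := by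
      intro a ha
      rw [hK, Subgroup.mem_comap] at ha ⊢
      rw [Subgroup.mem_normalizer_iff] at hgbar
      have := (hgbar _).1 ha
      simpa using this
    set H : Subgroup G := N ⊔ (P : Subgroup G) with hH
    have hPH : (P : Subgroup G) ≤ H := le_sup_right
    have hKH : K ≤ H := by
      intro k hk
      rw [hK, Subgroup.mem_comap] at hk
      obtain ⟨a, ha, hak⟩ := hR hk
      have h1 : a⁻¹ * k ∈ N := by
        rw [← QuotientGroup.eq]
        simpa using hak
      have : k = a * (a⁻¹ * k) := by group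
      rw [this]
      exact mul_mem (hPH ha) ((le_sup_left : N ≤ H) h1)
    set Q : Subgroup G := R₀.map (MulAut.conj g).toMonoidHom with hQ
    have hQK : Q ≤ K := by
      rintro _ ⟨a, ha, rfl⟩
      exact hgK a ha.2
    have hQp : IsPGroup p Q := (P.isPGroup'.to_le hR₀P).map _
    obtain ⟨P', hP'⟩ := (hQp.comap_subtype (K := H)).exists_le_sylow
    obtain ⟨h, hh⟩ := MulAction.exists_smul_eq (↥H) (P.subtype hPH) P'
    rw [Sylow.smul_subtype] at hh
    have hQhP : Q ≤ ((h • P : Sylow p G) : Subgroup G) := by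
      intro q hq
      have hqH : q ∈ H := hKH (hQK hq)
      have h1 : (⟨q, hqH⟩ : H) ∈ P' := hP' (by simpa [Subgroup.mem_subgroupOf] using hq)
      rw [← hh] at h1
      have h2 : (⟨q, hqH⟩ : H) ∈ ((h • P : Sylow p G) : Subgroup G).subgroupOf H := by
        rw [← Sylow.coe_subtype]; exact h1
      simpa [Subgroup.mem_subgroupOf] using h2
    -- write h = n * a
    have hh2 : (h : G) ∈ ((N ⊔ (P : Subgroup G) : Subgroup G) : Set G) := h.2
    rw [Subgroup.normal_mul, Set.mem_mul] at hh2
    obtain ⟨n, hn, a, ha, hna⟩ := hh2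
    have hnP : (h • P : Sylow p G) = n • P := by
      have : h • P = (n * a) • P := by rw [hna]; rfl
      rw [this, mul_smul]
      congr 1
      rw [Sylow.smul_eq_iff_mem_normalizer]
      exact Subgroup.le_normalizer ha
    rw [hnP] at hQhP
    have hnorm : n⁻¹ * g ∈ Subgroup.normalizer (R₀ : Set G) := by
      apply Cfsg.Agent.H56.mem_normalizer_of_conj_le
      intro b hb
      have hq : g * b * g⁻¹ ∈ Q := ⟨b, hb, rfl⟩
      have h1 := hQhP hq
      rw [Sylow.coe_subgroup_smul] at h1
      obtain ⟨c, hc, hc'⟩ := h1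
      replace hc' : n * c * n⁻¹ = g * b * g⁻¹ := hc'
      have h2 : n⁻¹ * g * b * (n⁻¹ * g)⁻¹ = c := by
        have : n⁻¹ * g * b * (n⁻¹ * g)⁻¹ = n⁻¹ * (g * b * g⁻¹) * n := by group
        rw [this, ← hc']; group
      have hcK : c ∈ K := by
        rw [← h2]
        have h3 : n⁻¹ * g * b * (n⁻¹ * g)⁻¹ = n⁻¹ * (g * b * g⁻¹) * n := by group
        rw [h3]
        exact K.mul_mem (K.mul_mem (K.inv_mem (hNK hn)) (hgK b hb.2)) (hNK hn)
      rw [h2]
      exact Subgroup.mem_inf.mpr ⟨hc, hcK⟩
    have hcen := hlcR hnorm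
    rw [Subgroup.mem_centralizer_singleton_iff] at hcen ⊢
    have hn1 : ((n : G) : G ⧸ N) = 1 := by
      rw [QuotientGroup.eq_one_iff]; exact hn
    have h5 : ((n⁻¹ * g : G) : G ⧸ N) = (g : G ⧸ N) := by
      rw [QuotientGroup.mk_mul, QuotientGroup.mk_inv, hn1]; simp
    rw [← h5, ← QuotientGroup.mk_mul, ← QuotientGroup.mk_mul, hcen]

end Cfsg.Agent.S2998
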