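import Mathlib
import Cfsg.Statements.S3003
import Cfsg.Agent.H28.Coprime
import Cfsg.Agent.H56.MaxSub
import Cfsg.Agent.H56.Basic

set_option autoImplicit false
open Cfsg

namespace Cfsg.Agent.S3003

/-- Part (a), for an arbitrary subgroup `U`. -/
theorem partA {G : Type*} [Group G] [Finite G] {p : ℕ} [Fact p.Prime] (Q : Subgroup G)
    (hQp : IsPGroup p ↥Q) (hlarge : Cfsg.IsLarge Q) (G₁ : Subgroup G) (hQG : Q ≤ G₁)
    (R : Subgroup G) (hR : (Nat.card ↥R).Coprime p)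
    (hGR : G₁ ≤ Subgroup.normalizer (R : Set G)) (U : Subgroup G)
    (h : ∃ x ∈ U, x ≠ 1 ∧ ∃ g ∈ G₁, g * x * g⁻¹ ∈ Q ⊓ Subgroup.centralizer (Q : Set G)) :
    R ⊓ Subgroup.centralizer (U : Set G) = ⊥ := by
  obtain ⟨x, hxU, hx1, g, hg, hgx⟩ := h
  have hQR : ∀ y : G, y ∈ Q → y ∈ R → y = 1 := by
    intro y hyQ hyR
    obtain ⟨k, hk⟩ := hQp ⟨y, hyQ⟩
    have hk' : y ^ (p ^ k) = 1 := by
      have := congrArg Subtype.val hk
      simpa using this
    have hR' : y ^ (Nat.card ↥R) = 1 := by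
      have h0 : (⟨y, hyR⟩ : ↥R) ^ (Nat.card ↥R) = 1 := pow_card_eq_one'
      have h00 := congrArg Subtype.val h0
      rw [Subgroup.coe_pow] at h00
      exact h00
    have h1 : orderOf y ∣ p ^ k := orderOf_dvd_of_pow_eq_one hk'
    have h2 : orderOf y ∣ Nat.card ↥R := orderOf_dvd_of_pow_eq_one hR'
    have h3 : (Nat.card ↥R).Coprime (p ^ k) := Nat.Coprime.pow_right k hR
    have h4 : orderOf y = 1 := Nat.eq_one_of_dvd_coprimes h3 h2 h1
    exact orderOf_eq_one_iff.mp h4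
  rw [eq_bot_iff]
  intro r hr
  rw [Subgroup.mem_bot]
  obtain ⟨hrR, hrC⟩ := hr
  have hrx : x * r = r * x := (Subgroup.mem_centralizer_iff.mp hrC) x hxU
  set x' := g * x * g⁻¹ with hx'
  set r' := g * r * g⁻¹ with hr'
  have hr'R : r' ∈ R := (Subgroup.mem_normalizer_iff.mp (hGR hg) r).mp hrR
  have hcomm : Commute r' x' := by
    show r' * x' = x' * r'
    rw [hx', hr']
    calc g * r * g⁻¹ * (g * x * g⁻¹) = g * (r * x) * g⁻¹ := by group
      _ = g * (x * r) * g⁻¹ := by rw [hrx]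
      _ = g * x * g⁻¹ * (g * r * g⁻¹) := by group
  have hx'1 : x' ≠ 1 := by
    intro h1
    apply hx1
    have : x = g⁻¹ * x' * g := by rw [hx']; group
    rw [this, h1]; group
  have hZle : Subgroup.zpowers x' ≤ Subgroup.centralizer (Q : Set G) := by
    rw [Subgroup.zpowers_le]
    exact hgx.2
  have hZne : Subgroup.zpowers x' ≠ ⊥ := by
    intro hbot
    apply hx'1
    have : x' ∈ Subgroup.zpowers x' := Subgroup.mem_zpowers x'
    rw [hbot, Subgroup.mem_bot] at this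
    exact this
  have hr'N : r' ∈ Subgroup.normalizer ((Subgroup.zpowers x' : Subgroup G) : Set G) := by
    apply Cfsg.Agent.H56.mem_normalizer_of_conj_le
    intro a ha
    obtain ⟨k, rfl⟩ := Subgroup.mem_zpowers_iff.mp ha
    have h2 : r' * x' ^ k * r'⁻¹ = x' ^ k := by
      rw [(hcomm.zpow_right k).eq]; group
    rw [h2]
    exact ha
  have hr'NQ : r' ∈ Subgroup.normalizer (Q : Set G) := hlarge.2 _ hZle hZne hr'N
  have hr'C : r' ∈ Subgroup.centralizer (Q : Set G) := by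
    rw [Subgroup.mem_centralizer_iff]
    intro q hq
    have hc1 : r' * q * r'⁻¹ * q⁻¹ ∈ Q :=
      Q.mul_mem ((Subgroup.mem_normalizer_iff.mp hr'NQ q).mp hq) (Q.inv_mem hq)
    have hc2 : r' * q * r'⁻¹ * q⁻¹ ∈ R := by
      have h3 : q * r'⁻¹ * q⁻¹ ∈ R :=
        (Subgroup.mem_normalizer_iff.mp (hGR (hQG hq)) r'⁻¹).mp (R.inv_mem hr'R)
      have h4 := R.mul_mem hr'R h3
      have h5 : r' * (q * r'⁻¹ * q⁻¹) = r' * q * r'⁻¹ * q⁻¹ := by group
      rw [h5] at h4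
      exact h4
    have h6 := hQR _ hc1 hc2
    have h7 : r' * q = (r' * q * r'⁻¹ * q⁻¹) * (q * r') := by group
    rw [h7, h6, one_mul]
  have hr'1 : r' = 1 := hQR r' (hlarge.1 hr'C) hr'R
  have : r = g⁻¹ * r' * g := by rw [hr']; group
  rw [this, hr'1]; group

/-- Let G be a finite group, p a prime and Q a large p-subgroup of G: C_G(Q) ≤ Q and N_G(U) ≤ N_G(Q) for every nontrivial subgroup U of C_G(Q). Let Q ≤ G₁ ≤ G, let R be a subgroup of order prime to p normalized by G₁, and let U ≤ G₁ be a p-subgroup. If U contains a nontrivial element which is G₁-conjugate to an element of Z(Q), then C_R(U) = 1. In particular, if U is elementary abelian of order at least p² and every maximal subgroup of U contains a nontrivial element G₁-conjugate into Z(Q), then R = 1. -/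
theorem result {G : Type*} [Group G] [Finite G] {p : ℕ} [Fact p.Prime] (Q : Subgroup G) (hQp : IsPGroup p ↥Q) (hlarge : Cfsg.IsLarge Q) (G₁ : Subgroup G) (hQG : Q ≤ G₁) (R : Subgroup G) (hR : (Nat.card ↥R).Coprime p) (hGR : G₁ ≤ Subgroup.normalizer (R : Set G)) (U : Subgroup G) (hUG : U ≤ G₁) (hUp : IsPGroup p ↥U) : ((∃ x ∈ U, x ≠ 1 ∧ ∃ g ∈ G₁, g * x * g⁻¹ ∈ Q ⊓ Subgroup.centralizer (Q : Set G)) → R ⊓ Subgroup.centralizer (U : Set G) = ⊥) ∧ (Cfsg.IsElementaryAbelian p U → p ^ 2 ≤ Nat.card ↥U → (∀ U₀ : Subgroup G, U₀ ≤ U → IsCoatom (U₀.subgroupOf U) → ∃ x ∈ U₀, x ≠ 1 ∧ ∃ g ∈ G₁, g * x * g⁻¹ ∈ Q ⊓ Subgroup.centralizer (Q : Set G)) → R = ⊥) := by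
  refine ⟨partA Q hQp hlarge G₁ hQG R hR hGR U, ?_⟩
  intro hU hU2 hall
  have hp : p.Prime := Fact.out
  have hX : ¬ p ∣ Nat.card ↥R := by
    intro hdvd
    have := Nat.Coprime.eq_one_of_dvd hR.symm hdvd
    exact hp.one_lt.ne' this
  have h1 := Cfsg.Agent.H28.le_iSup_hyperplane_centralizers p U R hU hU2 hX (hUG.trans hGR)
  rw [eq_bot_iff]
  refine h1.trans ?_
  apply iSup_le
  rintro ⟨D, hDU, hDrel⟩
  have hco : IsCoatom (D.subgroupOf U) :=
    Cfsg.Agent.H56.isCoatom_subgroupOf_of_relIndex_prime (by rw [hDrel]; exact hp)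
  exact (partA Q hQp hlarge G₁ hQG R hR hGR D (hall D hDU hco)).le

end Cfsg.Agent.S3003
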