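import Cfsg.Statements.S3008
import Cfsg.Agent.H11.CLLex

set_option autoImplicit false
open Cfsg

namespace Cfsg.Agent.S3008

/-- Let P be a finite p-group, with J(P) generated by its abelian subgroups of largest order and J̃(P) = C_P(Z(J(P))); call R ≤ P centrally large if |R|·|Z(R)| is as large as possible, and let P_MCL be generated by the minimal centrally large subgroups. Then: for every centrally large Q, Q·J(P) ⊇ J̃(P); some minimal centrally large subgroup of P is normalized by both J(P) and P_MCL; if P = J(P) and d(P)² = |P|·|Z(P)|, where d(P) is the largest order of an abelian subgroup, then every minimal centrally large subgroup of P is abelian; and if every minimal centrally large subgroup is abelian then J̃(P) = J(P). -/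
theorem result {p : ℕ} [Fact p.Prime] (P : Type*) [Group P] [Finite P] (hP : IsPGroup p P) : (∀ Q : Subgroup P, Cfsg.IsCentrallyLarge Q → Subgroup.centralizer ((Cfsg.thompsonSubgroupA P ⊓ Subgroup.centralizer (Cfsg.thompsonSubgroupA P : Set P) : Subgroup P) : Set P) ≤ Q ⊔ Cfsg.thompsonSubgroupA P) ∧ (∃ Q : Subgroup P, Cfsg.IsMinimalCentrallyLarge Q ∧ Cfsg.thompsonSubgroupA P ≤ Subgroup.normalizer (Q : Set P) ∧ Cfsg.minimalCentrallyLargeJoin P ≤ Subgroup.normalizer (Q : Set P)) ∧ (Cfsg.thompsonSubgroupA P = ⊤ → (∀ A ∈ Cfsg.maxAbelianSubgroups P, Nat.card ↥A ^ 2 = Nat.card P * Nat.card ↥(Subgroup.center P)) → ∀ Q : Subgroup P, Cfsg.IsMinimalCentrallyLarge Q → IsMulCommutative ↥Q) ∧ ((∀ Q : Subgroup P, Cfsg.IsMinimalCentrallyLarge Q → IsMulCommutative ↥Q) → Subgroup.centralizer ((Cfsg.thompsonSubgroupA P ⊓ Subgroup.centralizer (Cfsg.thompsonSubgroupA P : Set P) : Subgroup P) : Set P) = Cfsg.thompsonSubgroupA P) := by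
  classical
  refine ⟨fun Q hQ => Cfsg.Agent.H56.centralizer_center_thompson_le hQ, ?_, ?_, ?_⟩
  · have : Group.IsNilpotent P := hP.isNilpotent
    exact Cfsg.Agent.H11.CLN.exists_mcl_normalized
  · intro hJ hA Q hQ
    have htop : Cfsg.centrallyLargeJoin P = ⊤ := by
      have h := Cfsg.Agent.H56.thompson_le_centrallyLargeJoin (G := P)
      rw [hJ] at h
      exact top_le_iff.1 h
    have hCLtop : Cfsg.IsCentrallyLarge (⊤ : Subgroup P) := by
      have h := Cfsg.Agent.H56.isCentrallyLarge_centrallyLargeJoin (G := P)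
      rw [htop] at h
      exact h
    have hmax : Nat.card P * Nat.card ↥(Subgroup.center P) = Cfsg.maxCentralProduct P := by
      have h := (Cfsg.Agent.H56.isCentrallyLarge_iff (⊤ : Subgroup P)).1 hCLtop
      rw [Cfsg.Agent.H56.cmeas_def, Subgroup.card_top, top_inf_eq, Subgroup.coe_top,
        Subgroup.centralizer_univ] at h
      exact h
    obtain ⟨A, hAmem⟩ := Cfsg.Agent.H56.exists_maxAbelian (G := P)
    have hAab : IsMulCommutative ↥A := ((Cfsg.Agent.H56.mem_maxAbelian_iff A).1 hAmem).1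
    have hAle : A ≤ Subgroup.centralizer (A : Set P) :=
      Cfsg.Agent.H56.le_centralizer_of_isMulCommutative hAab
    have hACL : Cfsg.IsCentrallyLarge A := by
      rw [Cfsg.Agent.H56.isCentrallyLarge_iff, Cfsg.Agent.H56.cmeas_def, inf_eq_left.2 hAle,
        ← hmax, ← hA A hAmem, sq]
    obtain ⟨Q₀, hQ₀, hQ₀A⟩ := Cfsg.Agent.H56.exists_isMinimalCentrallyLarge_le hACL
    have hQ₀ab : IsMulCommutative ↥Q₀ :=
      Cfsg.Agent.H56.isMulCommutative_of_le_centralizer
        ((hQ₀A.trans hAle).trans (Subgroup.centralizer_le hQ₀A))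
    exact ((Cfsg.Agent.H56.mem_maxAbelian_iff Q).1
      ((Cfsg.Agent.H56.mcl_iff_maxAbelian hQ₀ hQ₀ab Q).1 hQ)).1
  · intro h
    obtain ⟨Q₀, hQ₀⟩ := Cfsg.Agent.H56.exists_isMinimalCentrallyLarge (G := P)
    have hab := h Q₀ hQ₀
    have hset : {R : Subgroup P | Cfsg.IsMinimalCentrallyLarge R} = Cfsg.maxAbelianSubgroups P :=
      Set.ext fun X => Cfsg.Agent.H56.mcl_iff_maxAbelian hQ₀ hab X
    have hJeq : Cfsg.minimalCentrallyLargeJoin P = Cfsg.thompsonSubgroupA P := by
      unfold Cfsg.minimalCentrallyLargeJoin Cfsg.thompsonSubgroupA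
      rw [hset]
    have hCL : Cfsg.IsCentrallyLarge (Cfsg.thompsonSubgroupA P) := by
      have h := Cfsg.Agent.H56.isCentrallyLarge_minimalCentrallyLargeJoin (G := P)
      rw [hJeq] at h
      exact h
    refine le_antisymm
      ((Cfsg.Agent.H56.centralizer_center_thompson_le hCL).trans (sup_le le_rfl le_rfl)) ?_
    intro x hx
    rw [Subgroup.mem_centralizer_iff]
    intro y hy
    have hy2 : y ∈ Subgroup.centralizer (Cfsg.thompsonSubgroupA P : Set P) := hy.2
    rw [Subgroup.mem_centralizer_iff] at hy2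
    exact (hy2 x hx).symm

end Cfsg.Agent.S3008
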