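import Mathlib
import Cfsg.Statements.S3009
import Cfsg.Agent.H65.NatRec

set_option autoImplicit false
open Cfsg

namespace Cfsg.Agent.S3009

open Cfsg.Agent.H65 Cfsg.Agent.H65.SL2Gen
open scoped IsMulCommutative Pointwise commutatorElement

/-- Let p be a prime and let G and V be subgroups of a finite group with V elementary abelian and normalized by G, and G isomorphic to SL₂(F) for a finite field F with pⁿ elements. Suppose G acts irreducibly and nontrivially on V by conjugation (no G-invariant subgroups of V other than 1 and V, and [V, G] ≠ 1), and let S be a Sylow p-subgroup of G and V₀ = C_V(S). If [V, S, S] = 1 or |V| ≤ |V₀|², then G acts on V as SL₂(F) on its natural two-dimensional module; in particular |V| = |F|². -/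
theorem result {X : Type*} [Group X] [Finite X] {p : ℕ} [Fact p.Prime] (G V : Subgroup X) (hV : Cfsg.IsElementaryAbelian p V) (hGV : G ≤ Subgroup.normalizer (V : Set X)) (F : Type) [Field F] [Fintype F] (n : ℕ) (hF : Fintype.card F = p ^ n) (hG : Nonempty (↥G ≃* Matrix.SpecialLinearGroup (Fin 2) F)) (hirr : ∀ U : Subgroup X, U ≤ V → G ≤ Subgroup.normalizer (U : Set X) → U = ⊥ ∨ U = V) (hnt : ⁅V, G⁆ ≠ ⊥) (S : Sylow p ↥G) (hyp : ⁅⁅V, (S : Subgroup ↥G).map G.subtype⁆, (S : Subgroup ↥G).map G.subtype⁆ = ⊥ ∨ Nat.card ↥V ≤ Nat.card ↥(V ⊓ Subgroup.centralizer (((S : Subgroup ↥G).map G.subtype : Subgroup X) : Set X)) ^ 2) : Cfsg.ActsAsSL2OnSection F ⊤ G V ⊥ := by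
  classical
  obtain ⟨θ₀⟩ := hG
  -- normalize the Sylow subgroup
  have hQ0 : IsPGroup p ((NatSL2.U F).comap θ₀.toMonoidHom) :=
    (NatSL2.isPGroup_U n hF).comap_of_injective _ θ₀.injective
  have hidx : ¬ p ∣ ((NatSL2.U F).comap θ₀.toMonoidHom).index := by
    rw [Subgroup.index_comap_of_surjective _ θ₀.surjective]; exact NatSL2.not_dvd_index_U n hF
  obtain ⟨l₀, hl₀⟩ := MulAction.exists_smul_eq G (hQ0.toSylow hidx) S
  have hS : ∀ x : G, x ∈ S ↔ θ₀ (l₀⁻¹ * x * l₀) ∈ NatSL2.U F := by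
    intro x
    rw [← hl₀]
    show x ∈ MulAut.conj l₀ • ((NatSL2.U F).comap θ₀.toMonoidHom) ↔ _
    rw [Subgroup.mem_pointwise_smul_iff_inv_smul_mem, Subgroup.mem_comap,
      MulAut.smul_def, MulAut.conj_inv_apply]
    rfl
  obtain ⟨θ, hθ⟩ : ∃ θ : ↥G ≃* Matrix.SpecialLinearGroup (Fin 2) F,
      ∀ x : G, θ x = θ₀ (l₀⁻¹ * x * l₀) := by
    refine ⟨(MulAut.conj l₀⁻¹).trans θ₀, fun x => ?_⟩
    show θ₀ (l₀⁻¹ * x * l₀⁻¹⁻¹) = _
    rw [inv_inv]
  have hSθ : ∀ x : G, x ∈ S ↔ θ x ∈ NatSL2.U F := fun x => by rw [hS, hθ]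
  have hVc : IsMulCommutative ↥V := hV.1
  have hconj : ∀ (g : G) (v : V), (g : X) * v * (g : X)⁻¹ ∈ V :=
    fun g v => (Subgroup.mem_normalizer_iff.mp (hGV g.2) v).mp v.2
  let cj : G → (↥V →* ↥V) := fun g =>
    { toFun := fun v => ⟨(g : X) * v * (g : X)⁻¹, hconj g v⟩
      map_one' := by apply Subtype.ext; simp
      map_mul' := by intro a b; apply Subtype.ext; simp [mul_assoc] }
  obtain ⟨act, hact⟩ : ∃ act : Matrix.SpecialLinearGroup (Fin 2) F → (↥V →* ↥V),
      ∀ m v, ((act m v : V) : X) = ((θ.symm m : G) : X) * v * ((θ.symm m : G) : X)⁻¹ :=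
    ⟨fun m => cj (θ.symm m), fun m v => rfl⟩
  have act_one : ∀ v, act 1 v = v := by
    intro v; apply Subtype.ext; rw [hact, map_one]; simp
  have act_mul : ∀ a b v, act (a * b) v = act a (act b v) := by
    intro a b v; apply Subtype.ext; rw [hact, hact, hact, map_mul]; simp [mul_assoc]
  have hW : ∀ v : V, v ^ p = 1 := by
    intro v; apply Subtype.ext; rw [Subgroup.coe_pow]; exact hV.2 v v.2
  -- elements of `S` as `uu c`
  have hsS : ∀ c : F, (θ.symm (uu c) : G) ∈ S := by
    intro c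
    rw [hSθ, MulEquiv.apply_symm_apply]; exact uu_mem_U c
  have hsS' : ∀ c : F, ((θ.symm (uu c) : G) : X) ∈ (S : Subgroup ↥G).map G.subtype :=
    fun c => ⟨_, hsS c, rfl⟩
  have hirr' : ∀ U : Subgroup ↥V, (∀ g w, w ∈ U → act g w ∈ U) → U = ⊥ ∨ U = ⊤ := by
    intro U hU
    have hUle : U.map V.subtype ≤ V := by rintro x ⟨u, _, rfl⟩; exact u.2
    have hUn : G ≤ Subgroup.normalizer ((U.map V.subtype : Subgroup X) : Set X) := by
      intro g hg
      rw [Subgroup.mem_normalizer_iff]
      intro x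
      constructor
      · rintro ⟨u, hu, rfl⟩
        refine ⟨act (θ ⟨g, hg⟩) u, hU _ u hu, ?_⟩
        show ((act (θ ⟨g, hg⟩) u : V) : X) = _
        rw [hact, MulEquiv.symm_apply_apply]
        rfl
      · rintro ⟨u, hu, hux⟩
        refine ⟨act (θ (⟨g, hg⟩ : G)⁻¹) u, hU _ u hu, ?_⟩
        show ((act (θ (⟨g, hg⟩ : G)⁻¹) u : V) : X) = _
        rw [hact, MulEquiv.symm_apply_apply]
        have h1 : (u : X) = g * x * g⁻¹ := hux
        show (((⟨g, hg⟩ : G)⁻¹ : G) : X) * (u : X) * (((⟨g, hg⟩ : G)⁻¹ : G) : X)⁻¹ = x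
        rw [Subgroup.coe_inv, h1]
        show g⁻¹ * (g * x * g⁻¹) * g⁻¹⁻¹ = x
        group
    rcases hirr (U.map V.subtype) hUle hUn with h | h
    · left
      rw [eq_bot_iff]; intro u hu
      have h1 : (u : X) ∈ U.map V.subtype := ⟨u, hu, rfl⟩
      rw [h, Subgroup.mem_bot] at h1
      rw [Subgroup.mem_bot]; exact Subtype.ext h1
    · right
      rw [eq_top_iff]; intro u _
      have h1 : (u : X) ∈ U.map V.subtype := by rw [h]; exact u.2
      obtain ⟨u', hu', huu⟩ := h1
      have h2 : u' = u := Subtype.ext huu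
      rw [← h2]; exact hu'
  have hnt' : ∃ g w, act g w ≠ w := by
    by_contra hcon
    push Not at hcon
    apply hnt
    rw [eq_bot_iff, Subgroup.commutator_le]
    intro v hv g hg
    rw [Subgroup.mem_bot]
    have h1 := hcon (θ ⟨g, hg⟩) ⟨v, hv⟩
    have h2 : g * v * g⁻¹ = v := by
      have h3 := congrArg Subtype.val h1
      rw [hact, MulEquiv.symm_apply_apply] at h3
      exact h3
    rw [commutatorElement_def]
    calc v * g * v⁻¹ * g⁻¹ = v * (g * v * g⁻¹)⁻¹ := by group
      _ = 1 := by rw [h2, mul_inv_cancel]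
  have hyp' : (∀ (a b : F) (w : V), act (uu a) (act (uu b) w / w) = act (uu b) w / w) ∨
      Nat.card ↥V ≤ Nat.card {w : V // ∀ c : F, act (uu c) w = w} ^ 2 := by
    rcases hyp with h | h
    · left
      intro a b w
      apply Subtype.ext
      rw [hact, Subgroup.coe_div, hact]
      have hx : ⁅((θ.symm (uu b) : G) : X), (w : X)⁆ ∈ ⁅V, (S : Subgroup ↥G).map G.subtype⁆ := by
        rw [← commutatorElement_inv]
        exact Subgroup.inv_mem _ (Subgroup.commutator_mem_commutator w.2 (hsS' b))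
      have hx2 : ⁅⁅((θ.symm (uu b) : G) : X), (w : X)⁆, ((θ.symm (uu a) : G) : X)⁆ = 1 := by
        have := Subgroup.commutator_mem_commutator hx (hsS' a)
        rw [h, Subgroup.mem_bot] at this
        exact this
      have hcomm := commutatorElement_eq_one_iff_commute.mp hx2
      rw [commutatorElement_def] at hcomm
      have hc' := hcomm.eq
      rw [div_eq_mul_inv, ← hc']
      group
    · right
      have hle : Nat.card ↥(V ⊓ Subgroup.centralizer
          (((S : Subgroup ↥G).map G.subtype : Subgroup X) : Set X)) ≤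
          Nat.card {w : V // ∀ c : F, act (uu c) w = w} := by
        refine Nat.card_le_card_of_injective
          (fun x => ⟨⟨x.1, x.2.1⟩, fun c => ?_⟩) ?_
        · apply Subtype.ext
          rw [hact]
          have hx := Subgroup.mem_centralizer_iff.mp x.2.2 _ (hsS' c)
          show ((θ.symm (uu c) : G) : X) * (x : X) * ((θ.symm (uu c) : G) : X)⁻¹ = x
          rw [hx]; group
        · intro x y hxy
          apply Subtype.ext
          have := congrArg (fun z => ((z.1 : V) : X)) hxy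
          exact this
      exact h.trans (Nat.pow_le_pow_left hle 2)
  obtain ⟨ψ, hψ⟩ := NatRec.natural_module_mul n hF act act_one act_mul hW hirr' hnt' hyp'
  refine ⟨hGV, bot_le, θ.toMonoidHom, ψ.toMonoidHom, ?_, ψ.surjective, ?_, ?_⟩
  · exact MonoidHom.range_eq_top.mpr θ.surjective
  · intro u
    rw [Subgroup.mem_bot]
    constructor
    · intro h
      have : u = 1 := ψ.injective (by rw [map_one]; exact h)
      rw [this]; rfl
    · intro h
      have : u = 1 := Subtype.ext h
      rw [this]; exact map_one ψ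
  · intro e u
    refine ⟨act (θ e) u, ?_, hψ (θ e) u⟩
    rw [hact, MulEquiv.symm_apply_apply]

end Cfsg.Agent.S3009
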