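import Cfsg.Statements.S3012

set_option autoImplicit false
open Cfsg

namespace Cfsg.Agent.S3012

/-- Some `2`-power power of an element of a finite group has odd order. -/
theorem exists_odd_pow {G : Type*} [Group G] [Finite G] (y : G) :
    ∃ a : ℕ, Odd (orderOf (y ^ 2 ^ a)) := by
  obtain ⟨a, m, hm, hn⟩ := Nat.exists_eq_two_pow_mul_odd (orderOf_pos y).ne'
  refine ⟨a, ?_⟩
  rw [orderOf_pow_of_dvd (by positivity) ⟨m, hn⟩, hn, Nat.mul_div_cancel_left _ (by positivity)]
  exact hm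

/-- Let G be a finite group, V a nontrivial elementary abelian 2-subgroup of G satisfying the Sidki pair condition (every odd-order element inverted by an element of V commutes with a nontrivial element of V), and K a normal subgroup of G with V ∩ K = 1. Then the image of V in G/K satisfies the Sidki pair condition in G/K. -/
theorem result {G : Type*} [Group G] [Finite G] (V K : Subgroup G) [K.Normal] (hV : Cfsg.IsElementaryAbelian 2 V) (hV1 : V ≠ ⊥) (hS : Cfsg.IsSidkiPair V) (hVK : V ⊓ K = ⊥) : Cfsg.IsSidkiPair (V.map (QuotientGroup.mk' K)) := by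
  intro hbar vbar hvbar hodd hinv
  obtain ⟨v, hv, rfl⟩ := hvbar
  obtain ⟨h₀, rfl⟩ := QuotientGroup.mk'_surjective K hbar
  set π := QuotientGroup.mk' K with hπ
  have hv2 : v * v = 1 := by
    have := hV.2 v hv
    rwa [pow_two] at this
  have hvinv : v⁻¹ = v := by
    rw [inv_eq_iff_mul_eq_one]; exact hv2
  set y := v * (h₀ * v * h₀⁻¹) with hy
  have hyinv : v * y * v⁻¹ = y⁻¹ := by
    rw [hy, hvinv]
    have h1 : (v * (h₀ * v * h₀⁻¹))⁻¹ = h₀ * v⁻¹ * h₀⁻¹ * v⁻¹ := by group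
    rw [h1, hvinv]
    calc v * (v * (h₀ * v * h₀⁻¹)) * v = (v * v) * (h₀ * v * h₀⁻¹) * v := by group
      _ = h₀ * v * h₀⁻¹ * v := by rw [hv2, one_mul]
  obtain ⟨a, ha⟩ := exists_odd_pow y
  have hyinv' : v * y ^ 2 ^ a * v⁻¹ = (y ^ 2 ^ a)⁻¹ := by
    rw [← conj_pow, hyinv, inv_pow]
  obtain ⟨w, hw, hw1, hwc⟩ := hS (y ^ 2 ^ a) v hv ha hyinv'
  refine ⟨π w, Subgroup.mem_map_of_mem _ hw, ?_, ?_⟩
  · intro h1
    apply hw1
    have hwK : w ∈ K := by
      rw [← QuotientGroup.eq_one_iff]; exact h1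
    have : w ∈ V ⊓ K := ⟨hw, hwK⟩
    rw [hVK] at this
    simpa using this
  · -- π y = (π h₀)⁻¹ ^ 2
    have hπv : π v * π v = 1 := by rw [← map_mul, hv2, map_one]
    have hπvinv : (π v)⁻¹ = π v := by rw [inv_eq_iff_mul_eq_one]; exact hπv
    have hπy : π y = (π h₀ ^ 2)⁻¹ := by
      rw [hy, map_mul, map_mul, map_mul, map_inv]
      rw [hπvinv] at hinv
      calc π v * (π h₀ * π v * (π h₀)⁻¹) = (π v * π h₀ * π v) * (π h₀)⁻¹ := by group
        _ = (π h₀)⁻¹ * (π h₀)⁻¹ := by rw [hinv]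
        _ = (π h₀ ^ 2)⁻¹ := by group
    have hcomm : Commute (π w) (π (y ^ 2 ^ a)) := by
      show π w * π (y ^ 2 ^ a) = π (y ^ 2 ^ a) * π w
      rw [← map_mul, ← map_mul, hwc]
    rw [map_pow, hπy, inv_pow, ← pow_mul] at hcomm
    have hcomm2 : Commute (π w) (π h₀ ^ (2 * 2 ^ a)) := by
      have := hcomm.inv_right
      rwa [inv_inv] at this
    have hcop : (2 * 2 ^ a).Coprime (orderOf (π h₀)) := by
      have : 2 * 2 ^ a = 2 ^ (a + 1) := by ring
      rw [this]
      exact Nat.Coprime.pow_left _ hodd.coprime_two_left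
    obtain ⟨k, hk⟩ := exists_pow_eq_self_of_coprime hcop
    have := hcomm2.pow_right k
    rw [hk] at this
    exact this

end Cfsg.Agent.S3012
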