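import Mathlib
import Cfsg.Statements.S3013

set_option autoImplicit false
open Cfsg

namespace Cfsg.Agent.S3013

theorem comm_of_mem {G : Type*} [Group G] {V : Subgroup G} (hV : IsMulCommutative V) {a b : G}
    (ha : a ∈ V) (hb : b ∈ V) : a * b = b * a := by
  have := hV.is_comm.comm ⟨a, ha⟩ ⟨b, hb⟩
  exact congrArg Subtype.val this

/-- Let G be a finite group and V a nontrivial elementary abelian 2-subgroup of G satisfying the Sidki pair condition. Let v ∈ V and let x be an element of odd order inverted by v, and put C = C_G(v) ∩ C_G(x), the centralizer of the dihedral subgroup generated by v and x. Then C ∩ V is nontrivial and satisfies the Sidki pair condition inside C: every odd-order element of C inverted by an element of C ∩ V commutes with a nontrivial element of C ∩ V. -/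
theorem result {G : Type*} [Group G] [Finite G] (V : Subgroup G) (hV : Cfsg.IsElementaryAbelian 2 V) (hV1 : V ≠ ⊥) (hS : Cfsg.IsSidkiPair V) (v x : G) (hv : v ∈ V) (hx : Odd (orderOf x)) (hinv : v * x * v⁻¹ = x⁻¹) (C : Subgroup G) (hC : C = Subgroup.centralizer ({v} : Set G) ⊓ Subgroup.centralizer ({x} : Set G)) : C ⊓ V ≠ ⊥ ∧ Cfsg.IsSidkiPair ((C ⊓ V).subgroupOf C) := by
  have hmemC : ∀ g : G, g ∈ C ↔ g * v = v * g ∧ g * x = x * g := by
    intro g
    rw [hC, Subgroup.mem_inf, Subgroup.mem_centralizer_singleton_iff,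
      Subgroup.mem_centralizer_singleton_iff]
  constructor
  · obtain ⟨w, hw, hw1, hwx⟩ := hS x v hv hx hinv
    intro hbot
    apply hw1
    have : w ∈ C ⊓ V := ⟨(hmemC w).2 ⟨comm_of_mem hV.1 hw hv, hwx⟩, hw⟩
    rw [hbot] at this
    simpa using this
  · intro h u hu hodd hinvh
    have huV : (u : G) ∈ V := (Subgroup.mem_subgroupOf.1 hu).2
    obtain ⟨huv, hux⟩ := (hmemC u).1 u.2
    obtain ⟨hhv, hhx⟩ := (hmemC h).1 h.2
    have hinvh' : (u : G) * h * (u : G)⁻¹ = (h : G)⁻¹ := by
      have := congrArg Subtype.val hinvh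
      simpa using this
    have hoddh : Odd (orderOf (h : G)) := by
      rw [Subgroup.orderOf_coe]; exact hodd
    -- the element h * x has odd order
    have hcomm : Commute (h : G) x := hhx
    have hodd2 : Odd (orderOf ((h : G) * x)) := by
      have hdvd := hcomm.orderOf_mul_dvd_lcm
      have hlcm : Odd (Nat.lcm (orderOf (h : G)) (orderOf x)) := by
        rw [Nat.odd_iff, ← Nat.not_even_iff, even_iff_two_dvd]
        intro h2
        have hp : Nat.Prime 2 := Nat.prime_two
        rcases (Nat.Prime.dvd_lcm hp).1 h2 with h3 | h3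
        · exact (Nat.not_even_iff_odd.2 hoddh) (even_iff_two_dvd.2 h3)
        · exact (Nat.not_even_iff_odd.2 hx) (even_iff_two_dvd.2 h3)
      exact Odd.of_dvd_nat hlcm hdvd
    have huvV : (u : G) * v ∈ V := V.mul_mem huV hv
    have hinv2 : ((u : G) * v) * ((h : G) * x) * ((u : G) * v)⁻¹ = ((h : G) * x)⁻¹ := by
      calc ((u : G) * v) * ((h : G) * x) * ((u : G) * v)⁻¹
          = (u : G) * (v * (h : G)) * (x * v⁻¹) * (u : G)⁻¹ := by group
        _ = (u : G) * ((h : G) * v) * (x * v⁻¹) * (u : G)⁻¹ := by rw [hhv]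
        _ = (u : G) * (h : G) * (v * x * v⁻¹) * (u : G)⁻¹ := by group
        _ = (u : G) * (h : G) * x⁻¹ * (u : G)⁻¹ := by rw [hinv]
        _ = ((u : G) * (h : G) * (u : G)⁻¹) * ((u : G) * x * (u : G)⁻¹)⁻¹ := by group
        _ = (h : G)⁻¹ * (x * (u : G) * (u : G)⁻¹)⁻¹ := by rw [hinvh', hux]
        _ = (x * (h : G))⁻¹ := by group
        _ = ((h : G) * x)⁻¹ := by rw [hhx]
    obtain ⟨w, hw, hw1, hwc⟩ := hS ((h : G) * x) ((u : G) * v) huvV hodd2 hinv2
    have hwu : w * (u : G) = (u : G) * w := comm_of_mem hV.1 hw huV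
    have hwv : w * v = v * w := comm_of_mem hV.1 hw hv
    -- w commutes with u (h x) u⁻¹ = h⁻¹ x
    have hc1 : Commute w ((h : G) * x) := hwc
    have hc2 : Commute w ((h : G)⁻¹ * x) := by
      have h1 : (h : G)⁻¹ * x = (u : G) * ((h : G) * x) * (u : G)⁻¹ := by
        calc (h : G)⁻¹ * x = ((u : G) * h * (u : G)⁻¹) * (x * (u : G) * (u : G)⁻¹) := by
              rw [hinvh']; group
          _ = ((u : G) * h * (u : G)⁻¹) * ((u : G) * x * (u : G)⁻¹) := by rw [hux]
          _ = (u : G) * ((h : G) * x) * (u : G)⁻¹ := by group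
      rw [h1]
      have hcu : Commute w (u : G) := hwu
      exact (hcu.mul_right hc1).mul_right hcu.inv_right
    have hc3 : Commute w (x ^ 2) := by
      have h1 : x ^ 2 = ((h : G) * x) * ((h : G)⁻¹ * x) := by
        calc x ^ 2 = x * x := pow_two x
          _ = (x * (h : G)) * ((h : G)⁻¹ * x) := by group
          _ = ((h : G) * x) * ((h : G)⁻¹ * x) := by rw [hhx]
      rw [h1]
      exact hc1.mul_right hc2
    have hcx : Commute w x := by
      obtain ⟨k, hk⟩ := exists_pow_eq_self_of_coprime (x := x) (n := 2) hx.coprime_two_left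
      have := hc3.pow_right k
      rwa [hk] at this
    have hch : Commute w (h : G) := by
      have h1 : (h : G) = ((h : G) * x) * x⁻¹ := by group
      rw [h1]
      exact hc1.mul_right hcx.inv_right
    have hwC : w ∈ C := (hmemC w).2 ⟨hwv, hcx⟩
    refine ⟨⟨w, hwC⟩, ?_, ?_, ?_⟩
    · rw [Subgroup.mem_subgroupOf]
      exact ⟨hwC, hw⟩
    · intro h1
      apply hw1
      exact congrArg Subtype.val h1
    · apply Subtype.ext
      exact hch

end Cfsg.Agent.S3013
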