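import Mathlib
import Cfsg.Statements.S3014
import Cfsg.Agent.H56.Basic
import Cfsg.Agent.H56.Conj
import Cfsg.Agent.H56.Transfer

set_option autoImplicit false
open Cfsg

namespace Cfsg.Agent.S3014

open scoped commutatorElement
open Cfsg.Agent.H56

/-- Let G be a finite group and H ≤ M ≤ G subgroups such that for every g ∈ G the subgroup generated by H and g H g⁻¹ meets M exactly in H. If H is a maximal subgroup of M and M is a maximal subgroup of G, then the normal closure of H in G meets M exactly in H. -/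
theorem result {G : Type*} [Group G] [Finite G] (H M : Subgroup G) (hHM : H ≤ M) (hcl : ∀ g : G, (H ⊔ H.map (MulAut.conj g).toMonoidHom) ⊓ M = H) (hmaxH : IsCoatom (H.subgroupOf M)) (hmaxM : IsCoatom M) : Subgroup.normalClosure (H : Set G) ⊓ M = H := by
  -- Step 1: M normalizes H
  have hMnorm : M ≤ Subgroup.normalizer (H : Set G) := by
    intro m hm
    apply mem_normalizer_of_map_conj_le
    have h1 : H ⊔ H.map (MulAut.conj m).toMonoidHom ≤ M :=
      sup_le hHM (map_conj_le_of_le_of_mem hHM hm)
    have h2 := hcl m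
    rw [inf_eq_left.2 h1] at h2
    exact le_sup_right.trans h2.le
  have hHn : (H.subgroupOf M).Normal := subgroupOf_normal_of_le_normalizer hMnorm
  suffices hK : ∃ K : Subgroup G, K.Normal ∧ H ≤ K ∧ K ⊓ M ≤ H by
    obtain ⟨K, hKn, hHK, hKM⟩ := hK
    apply le_antisymm
    · exact (inf_le_inf_right M (Subgroup.normalClosure_le_normal hHK)).trans hKM
    · exact le_inf Subgroup.le_normalClosure hHM
  by_cases hB : ∀ g : G, g ∉ M → M ⊓ M.map (MulAut.conj g).toMonoidHom ≤ H
  · -- transfer
    letI : CommGroup (↥M ⧸ H.subgroupOf M) :=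
      { (inferInstance : Group (↥M ⧸ H.subgroupOf M)) with
        mul_comm := by
          intro a b
          obtain ⟨a, rfl⟩ := QuotientGroup.mk_surjective a
          obtain ⟨b, rfl⟩ := QuotientGroup.mk_surjective b
          rw [← QuotientGroup.mk_mul, ← QuotientGroup.mk_mul, QuotientGroup.eq]
          have h2 : (a * b)⁻¹ * (b * a) = ⁅b⁻¹, a⁻¹⁆ := by rw [commutatorElement_def]; group
          rw [h2]
          exact commutatorElement_mem_of_isCoatom _ hmaxH _ _ }
    set ϕ : M →* (↥M ⧸ H.subgroupOf M) := QuotientGroup.mk' (H.subgroupOf M) with hϕ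
    have hV : ∀ x : M, MonoidHom.transfer ϕ (x : G) = ϕ x := by
      intro x
      apply transfer_eq_of_conj_trivial
      intro g hg y hy h
      rw [hϕ, QuotientGroup.mk'_apply, QuotientGroup.eq_one_iff, Subgroup.mem_subgroupOf]
      have hg' : g⁻¹ ∉ M := fun h' => hg (by simpa using inv_mem h')
      apply hB g⁻¹ hg'
      rw [Subgroup.mem_inf]
      refine ⟨h, ?_⟩
      rw [mem_map_conj_iff]
      have : g⁻¹⁻¹ * (g⁻¹ * y * g) * g⁻¹ = y := by group
      rw [this]; exact hy
    refine ⟨(MonoidHom.transfer ϕ).ker, MonoidHom.normal_ker _, ?_, ?_⟩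
    · intro h hh
      rw [MonoidHom.mem_ker]
      have := hV ⟨h, hHM hh⟩
      rw [this, hϕ, QuotientGroup.mk'_apply, QuotientGroup.eq_one_iff, Subgroup.mem_subgroupOf]
      exact hh
    · intro x hx
      rw [Subgroup.mem_inf, MonoidHom.mem_ker] at hx
      obtain ⟨hx1, hx2⟩ := hx
      have h3 : ϕ ⟨x, hx2⟩ = 1 := (hV ⟨x, hx2⟩).symm.trans hx1
      rw [hϕ, QuotientGroup.mk'_apply, QuotientGroup.eq_one_iff, Subgroup.mem_subgroupOf] at h3
      exact h3
  · push Not at hB
    obtain ⟨g, hgM, hD⟩ := hB
    set D := M ⊓ M.map (MulAut.conj g).toMonoidHom with hDdef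
    set Hg := H.map (MulAut.conj g).toMonoidHom with hHg
    set T := H ⊔ Hg with hT
    have hTM : T ⊓ M = H := hcl g
    by_cases hHgM : Hg ≤ M
    · have h1 : T ≤ M := sup_le hHM hHgM
      have h2 : T = H := by rw [← hTM, inf_eq_left.2 h1]
      have h3 : Hg ≤ H := le_sup_right.trans h2.le
      have hgN : g ∈ Subgroup.normalizer (H : Set G) := mem_normalizer_of_map_conj_le h3
      have h4 : M < M ⊔ Subgroup.zpowers g := by
        refine lt_of_le_of_ne le_sup_left ?_
        intro h
        apply hgM
        rw [h]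
        exact (le_sup_right : Subgroup.zpowers g ≤ M ⊔ Subgroup.zpowers g) (Subgroup.mem_zpowers g)
      have h5 : M ⊔ Subgroup.zpowers g = ⊤ := hmaxM.2 _ h4
      have h6 : Subgroup.normalizer (H : Set G) = ⊤ := by
        rw [eq_top_iff, ← h5]
        exact sup_le hMnorm (by rw [Subgroup.zpowers_le]; exact hgN)
      have hHnG : H.Normal := Subgroup.normalizer_eq_top_iff.1 h6
      exact ⟨H, hHnG, le_rfl, inf_le_left⟩
    · -- D ⊔ H = M
      have hDH : M ≤ D ⊔ H := by
        obtain ⟨d, hdD, hdH⟩ := SetLike.not_le_iff_exists.1 hD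
        have hdM : d ∈ M := (Subgroup.mem_inf.1 hdD).1
        have hlt : H.subgroupOf M < (D ⊔ H).subgroupOf M := by
          refine lt_of_le_of_ne ?_ ?_
          · intro x hx
            rw [Subgroup.mem_subgroupOf] at hx ⊢
            exact (le_sup_right : H ≤ D ⊔ H) hx
          · intro h
            apply hdH
            have h1 : (⟨d, hdM⟩ : M) ∈ (D ⊔ H).subgroupOf M := by
              rw [Subgroup.mem_subgroupOf]
              exact (le_sup_left : D ≤ D ⊔ H) hdD
            rw [← h, Subgroup.mem_subgroupOf] at h1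
            exact h1
        have htop := hmaxH.2 _ hlt
        exact Subgroup.subgroupOf_eq_top.1 htop
      have hDN1 : D ≤ Subgroup.normalizer (H : Set G) := inf_le_left.trans hMnorm
      have hDN2 : D ≤ Subgroup.normalizer (Hg : Set G) := by
        intro d hd
        have hd2 : g⁻¹ * d * g ∈ M := (mem_map_conj_iff M g d).1 (Subgroup.mem_inf.1 hd).2
        apply mem_normalizer_of_conj_le
        intro a ha
        rw [hHg, mem_map_conj_iff] at ha ⊢
        have h1 := (Subgroup.mem_normalizer_iff.1 (hMnorm hd2) _).1 ha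
        have : g⁻¹ * (d * a * d⁻¹) * g = g⁻¹ * d * g * (g⁻¹ * a * g) * (g⁻¹ * d * g)⁻¹ := by group
        rw [this]; exact h1
      have hDNT : D ≤ Subgroup.normalizer (T : Set G) :=
        (le_inf hDN1 hDN2).trans (Subgroup.normalizer_inf_normalizer_le_normalizer_sup H Hg)
      have hTNT : T ≤ Subgroup.normalizer (T : Set G) := Subgroup.le_normalizer
      have hlt : M < D ⊔ T := by
        refine lt_of_le_of_ne (hDH.trans (sup_le_sup_left le_sup_left D)) ?_
        intro h
        apply hHgM
        rw [h]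
        exact le_sup_right.trans (le_sup_right : T ≤ D ⊔ T)
      have htop : D ⊔ T = ⊤ := hmaxM.2 _ hlt
      have hNT : Subgroup.normalizer (T : Set G) = ⊤ := by
        rw [eq_top_iff, ← htop]
        exact sup_le hDNT hTNT
      have hTn : T.Normal := Subgroup.normalizer_eq_top_iff.1 hNT
      exact ⟨T, hTn, le_sup_left, hTM.le⟩

end Cfsg.Agent.S3014
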