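import Mathlib
import Cfsg.Statements.S3015
import Cfsg.Agent.H56.Basic
import Cfsg.Agent.H56.PGroup
import Cfsg.Agent.H56.Conj
import Cfsg.Agent.H56.Transfer
import Cfsg.Agent.H56.CD
import Cfsg.Agent.H56.MaxSub
import Cfsg.Agent.S3014

set_option autoImplicit false
open Cfsg

namespace Cfsg.Agent.S3015

open Subgroup Cfsg.Agent.H56

/-- Let G be a finite non-abelian simple group, M a maximal subgroup of G and H a normal subgroup of M of prime index in M. Then G is generated by H together with one of its conjugates. -/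
theorem result {G : Type*} [Group G] [Finite G] [IsSimpleGroup G] (hG : ¬ IsMulCommutative G) (M H : Subgroup G) (hmaxM : IsCoatom M) (hHM : H ≤ M) (hHn : (H.subgroupOf M).Normal) (hidx : (H.relIndex M).Prime) : ∃ g : G, H ⊔ H.map (MulAut.conj g).toMonoidHom = ⊤ := by
  by_contra hcon
  push Not at hcon
  obtain ⟨p, hp⟩ : ∃ p, p = H.relIndex M := ⟨_, rfl⟩
  have hpp : p.Prime := hp ▸ hidx
  haveI : Fact p.Prime := ⟨hpp⟩
  have hmaxH : IsCoatom (H.subgroupOf M) := isCoatom_subgroupOf_of_relIndex_prime hidx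
  have hMnorm : M ≤ normalizer (H : Set G) := le_normalizer_of_subgroupOf_normal hHM hHn
  have hHneM : H ≠ M := by
    intro h
    rw [h, Subgroup.relIndex_self] at hidx
    exact Nat.not_prime_one hidx
  have hMnn : ¬ M.Normal := by
    intro hn
    rcases hn.eq_bot_or_eq_top with h | h
    · apply hHneM
      rw [h] at hHM ⊢
      exact le_bot_iff.1 hHM
    · exact hmaxM.1 h
  have hNM : normalizer (M : Set G) = M := by
    by_contra hne
    have hlt : M < normalizer (M : Set G) := lt_of_le_of_ne le_normalizer (Ne.symm hne)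
    have := hmaxM.2 _ hlt
    exact hMnn (normalizer_eq_top_iff.1 this)
  by_cases hcase : ∀ g : G, (H ⊔ H.map (MulAut.conj g).toMonoidHom) ⊓ M = H
  · have h1 := Cfsg.Agent.S3014.result H M hHM hcase hmaxH hmaxM
    rcases (Subgroup.normalClosure_normal (s := (H : Set G))).eq_bot_or_eq_top with h2 | h2
    · have hHbot : H = ⊥ := le_bot_iff.1 (h2 ▸ Subgroup.le_normalClosure)
      have hcard : Nat.card M = p := by rw [hp, hHbot, Subgroup.relIndex_bot_left]
      exact no_self_normalizing_prime_order hG M (hcard ▸ hpp) hNM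
    · rw [h2, top_inf_eq] at h1
      exact hHneM h1.symm
  · push Not at hcase
    obtain ⟨g, hg⟩ := hcase
    obtain ⟨Hg, hHg⟩ : ∃ Hg, Hg = H.map (MulAut.conj g).toMonoidHom := ⟨_, rfl⟩
    rw [← hHg] at hg
    have hcong := hcon g
    rw [← hHg] at hcong
    have h1 : (H ⊔ Hg) ⊓ M = M := by
      rcases eq_or_eq_of_isCoatom_subgroupOf hmaxH (le_inf le_sup_left hHM) inf_le_right with h | h
      · exact absurd h hg
      · exact h
    have hMT : M ≤ H ⊔ Hg := le_of_eq_of_le h1.symm inf_le_left
    have hTM : H ⊔ Hg = M := by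
      by_contra hne
      exact hcong (hmaxM.2 _ (lt_of_le_of_ne hMT (Ne.symm hne)))
    have hHgM : Hg ≤ M := le_sup_right.trans hTM.le
    have hgM : g ∉ M := by
      intro hgM
      have h2 : Hg = H := by rw [hHg]; exact map_conj_eq_of_mem_normalizer (hMnorm hgM)
      apply hHneM
      rw [← hTM, h2, sup_idem]
    -- R = O^p(M)
    obtain ⟨R, hR⟩ : ∃ R, R = pPrimeGen p M := ⟨_, rfl⟩
    have hRH : R ≤ H := by rw [hR]; exact pPrimeGen_le_of_relIndex hHn hp.symm
    have hRg : R.map (MulAut.conj g).toMonoidHom ≤ R := by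
      rw [hR]
      apply map_conj_pPrimeGen_le
      intro x hx ho
      have hxH : x ∈ H := mem_of_coprime_of_relIndex hHn hp.symm hx ho
      apply hHgM
      rw [hHg]
      exact conj_mem_map_conj hxH g
    have hgN : g ∈ normalizer (R : Set G) := mem_normalizer_of_map_conj_le hRg
    have hMN : M ≤ normalizer (R : Set G) := by rw [hR]; exact le_normalizer_pPrimeGen p M
    have hlt : M < M ⊔ zpowers g := by
      refine lt_of_le_of_ne le_sup_left ?_
      intro h
      apply hgM
      rw [h]
      exact (le_sup_right : zpowers g ≤ M ⊔ zpowers g) (mem_zpowers g)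
    have hNR : normalizer (R : Set G) = ⊤ := by
      rw [eq_top_iff, ← hmaxM.2 _ hlt]
      exact sup_le hMN (by rw [zpowers_le]; exact hgN)
    have hRn : R.Normal := normalizer_eq_top_iff.1 hNR
    have hRbot : R = ⊥ := by
      rcases hRn.eq_bot_or_eq_top with h | h
      · exact h
      · exfalso
        apply hmaxM.1
        rw [eq_top_iff, ← h]
        exact hRH.trans hHM
    have hMp : IsPGroup p M := isPGroup_of_pPrimeGen_eq_bot (hR ▸ hRbot)
    -- Hg has index p in M
    have hcardHg : Nat.card Hg = Nat.card H := by rw [hHg]; exact card_map_conj H g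
    have hHgidx : Hg.relIndex M = p := by
      have e1 := card_mul_relIndex' hHgM
      have e2 := card_mul_relIndex' hHM
      rw [hcardHg] at e1
      rw [hp]
      exact Nat.eq_of_mul_eq_mul_left Nat.card_pos (e1.trans e2.symm)
    have hmaxHg : IsCoatom (Hg.subgroupOf M) :=
      isCoatom_subgroupOf_of_relIndex_prime (hHgidx.symm ▸ hpp)
    have hHgneM : Hg ≠ M := by
      intro h
      rw [h, Subgroup.relIndex_self] at hHgidx
      exact Nat.not_prime_one (hHgidx ▸ hpp)
    have hMNHg : M ≤ normalizer (Hg : Set G) := by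
      obtain ⟨t, htM, htN, htHg⟩ := exists_mem_normalizer_not_mem hMp hHgM hHgneM
      rcases eq_or_eq_of_isCoatom_subgroupOf hmaxHg (le_inf hHgM le_normalizer) inf_le_left with h | h
      · exact absurd (h ▸ Subgroup.mem_inf.2 ⟨htM, htN⟩) htHg
      · exact le_of_eq_of_le h.symm inf_le_right
    -- M^g normalizes Hg
    obtain ⟨Mg, hMg⟩ : ∃ Mg, Mg = M.map (MulAut.conj g).toMonoidHom := ⟨_, rfl⟩
    have hMgN : Mg ≤ normalizer (Hg : Set G) := by
      intro y hy
      rw [hMg, mem_map_conj_iff] at hy
      apply mem_normalizer_of_conj_le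
      intro a ha
      rw [hHg, mem_map_conj_iff] at ha ⊢
      have h1 := (Subgroup.mem_normalizer_iff.1 (hMnorm hy) _).1 ha
      have : g⁻¹ * (y * a * y⁻¹) * g = g⁻¹ * y * g * (g⁻¹ * a * g) * (g⁻¹ * y * g)⁻¹ := by group
      rw [this]; exact h1
    have hMgne : ¬ Mg ≤ M := by
      intro h
      apply hgM
      rw [hMg] at h
      have := mem_normalizer_of_map_conj_le h
      rw [hNM] at this
      exact this
    have hlt2 : M < M ⊔ Mg :=
      lt_of_le_of_ne le_sup_left (fun h => hMgne (le_of_le_of_eq le_sup_right h.symm))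
    have htop2 : M ⊔ Mg = ⊤ := hmaxM.2 _ hlt2
    have hNHg : normalizer (Hg : Set G) = ⊤ := by
      rw [eq_top_iff, ← htop2]; exact sup_le hMNHg hMgN
    have hHgn : Hg.Normal := normalizer_eq_top_iff.1 hNHg
    rcases hHgn.eq_bot_or_eq_top with h | h
    · have hcardH : Nat.card H = 1 := by rw [← hcardHg, h, Subgroup.card_bot]
      have hHbot : H = ⊥ := Subgroup.card_eq_one.1 hcardH
      apply hHneM
      rw [← hTM, h, hHbot, sup_idem]
    · apply hmaxM.1
      rw [eq_top_iff, ← h]; exact hHgM

end Cfsg.Agent.S3015
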