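import Mathlib
import Cfsg.Statements.S3020
import Cfsg.Agent.H56.PGroup
import Cfsg.Agent.H60.Cores

set_option autoImplicit false
open Cfsg

namespace Cfsg.Agent.S3020

/-- Let G be a finite group, p a prime and H an abelian p-subgroup of G that is extremely closed (for every g, the subgroup generated by H and g H g⁻¹ meets N_G(H) exactly in H). Then for every g ∈ G, the subgroup T generated by H and g H g⁻¹ is the product of H with O_{p'}(T), and H meets O_{p'}(T) trivially; that is, O_{p'}(T) is a normal p-complement of H in T. -/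
theorem result {G : Type*} [Group G] [Finite G] {p : ℕ} [Fact p.Prime] (H : Subgroup G) (hHp : IsPGroup p H) (hHab : IsMulCommutative H) (hcl : Cfsg.IsExtremelyClosed H) (g : G) (T : Subgroup G) (hT : T = H ⊔ H.map (MulAut.conj g).toMonoidHom) : H ⊔ (Cfsg.pPrimeCore p ↥T).map T.subtype = T ∧ H ⊓ (Cfsg.pPrimeCore p ↥T).map T.subtype = ⊥ := by
  have hHT : H ≤ T := hT ▸ le_sup_left
  have hTN : T ⊓ Subgroup.normalizer (H : Set G) = H := by rw [hT]; exact hcl g
  set H' : Subgroup T := H.subgroupOf T with hH'
  have hH'p : IsPGroup p H' := hHp.comap_subtype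
  -- normalizer of H' in T is H'
  have hnorm : ∀ t : T, t ∈ Subgroup.normalizer (H' : Set T) → t ∈ H' := by
    intro t htn
    have h1 : (t : G) ∈ Subgroup.normalizer (H : Set G) := by
      apply Cfsg.Agent.H56.mem_normalizer_of_conj_le
      intro a ha
      rw [Subgroup.mem_normalizer_iff] at htn
      have h3 := (htn ⟨a, hHT ha⟩).1 (by rw [Subgroup.mem_subgroupOf]; exact ha)
      rw [Subgroup.mem_subgroupOf] at h3
      simpa using h3
    have h2 : (t : G) ∈ T ⊓ Subgroup.normalizer (H : Set G) := ⟨t.2, h1⟩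
    rw [hTN] at h2
    rw [Subgroup.mem_subgroupOf]; exact h2
  obtain ⟨P, hP⟩ := hH'p.exists_le_sylow
  have hPH : (P : Subgroup T) = H' := by
    by_contra hne
    obtain ⟨t, htP, htn, htH⟩ :=
      Cfsg.Agent.H56.exists_mem_normalizer_not_mem P.isPGroup' hP (Ne.symm hne)
    exact htH (hnorm t htn)
  have hN : Subgroup.normalizer ((P : Subgroup T) : Set T) ≤ Subgroup.centralizer ((P : Subgroup T) : Set T) := by
    rw [hPH]
    intro t ht
    have htH' := hnorm t ht
    rw [Subgroup.mem_centralizer_iff]
    intro s hs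
    rw [SetLike.mem_coe, Subgroup.mem_subgroupOf] at hs
    rw [Subgroup.mem_subgroupOf] at htH'
    apply Subtype.ext
    exact Cfsg.Agent.H56.comm_of_mem hHab hs htH'
  have hcompl := MonoidHom.ker_transferSylow_isComplement' P hN
  have hndvd := MonoidHom.not_dvd_card_ker_transferSylow P hN
  set K := (MonoidHom.transferSylow P hN).ker with hK
  have hp : p.Prime := Fact.out
  have hKcop : (Nat.card K).Coprime p :=
    Nat.Coprime.symm ((Nat.Prime.coprime_iff_not_dvd hp).2 hndvd)
  have hKle : K ≤ Cfsg.pPrimeCore p ↥T := Cfsg.Agent.H60.le_pPrimeCore inferInstance hKcop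
  have hsup : K ⊔ (P : Subgroup T) = ⊤ := hcompl.sup_eq_top
  have hmapH : H'.map T.subtype = H := Subgroup.map_subgroupOf_eq_of_le hHT
  constructor
  · apply le_antisymm
    · exact sup_le hHT (Subgroup.map_subtype_le _)
    · have h1 : (⊤ : Subgroup T) ≤ H' ⊔ Cfsg.pPrimeCore p ↥T := by
        rw [← hsup, hPH]
        exact sup_le (hKle.trans le_sup_right) le_sup_left
      have h2 := Subgroup.map_mono (f := T.subtype) h1
      rw [Subgroup.map_sup, hmapH, ← MonoidHom.range_eq_map, Subgroup.range_subtype] at h2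
      exact h2
  · apply Subgroup.inf_eq_bot_of_coprime
    obtain ⟨n, hn⟩ := IsPGroup.exists_card_eq hHp
    rw [hn]
    have hc : Nat.card ((Cfsg.pPrimeCore p ↥T).map T.subtype) = Nat.card (Cfsg.pPrimeCore p ↥T) :=
      Subgroup.card_map_of_injective T.subtype_injective
    rw [hc]
    exact Nat.Coprime.pow_left n (Cfsg.Agent.H60.card_pPrimeCore_coprime p).symm

end Cfsg.Agent.S3020
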