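import Mathlib
import Cfsg.Statements.S3021
import Cfsg.Agent.H56.PGroup

set_option autoImplicit false
open Cfsg

namespace Cfsg.Agent.S3021

/-- Let G be a finite group, p a prime and H a p-subgroup of G that is extremely closed (for every g, the subgroup generated by H and g H g⁻¹ meets N_G(H) exactly in H). Then every p-subgroup Q of G containing H has N_G(Q) ≤ N_G(H); in particular every Sylow p-subgroup P of G containing H normalizes H, and H is strongly closed in P with respect to G. -/
theorem result {G : Type*} [Group G] [Finite G] {p : ℕ} [Fact p.Prime] (H : Subgroup G) (hHp : IsPGroup p H) (hcl : Cfsg.IsExtremelyClosed H) : (∀ Q : Subgroup G, IsPGroup p Q → H ≤ Q → Subgroup.normalizer (Q : Set G) ≤ Subgroup.normalizer (H : Set G)) ∧ ∀ P : Sylow p G, H ≤ (P : Subgroup G) → (P : Subgroup G) ≤ Subgroup.normalizer (H : Set G) ∧ Cfsg.IsStronglyClosed H (P : Subgroup G) := by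
  have part1 : ∀ Q : Subgroup G, IsPGroup p Q → H ≤ Q →
      Subgroup.normalizer (Q : Set G) ≤ Subgroup.normalizer (H : Set G) := by
    intro Q hQ hHQ g hg
    set T := H ⊔ H.map (MulAut.conj g).toMonoidHom with hT
    have hTQ : T ≤ Q := by
      refine sup_le hHQ ?_
      rintro _ ⟨a, ha, rfl⟩
      rw [Subgroup.mem_normalizer_iff] at hg
      exact (hg a).1 (hHQ ha)
    have hTp : IsPGroup p T := hQ.to_le hTQ
    have hHT : H ≤ T := le_sup_left
    have hTH : T = H := by
      by_contra hne
      obtain ⟨t, htT, htn, htH⟩ :=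
        Cfsg.Agent.H56.exists_mem_normalizer_not_mem hTp hHT (Ne.symm hne)
      apply htH
      have : t ∈ T ⊓ Subgroup.normalizer (H : Set G) := ⟨htT, htn⟩
      rw [hT, hcl g] at this
      exact this
    apply Cfsg.Agent.H56.mem_normalizer_of_conj_le
    intro a ha
    have : g * a * g⁻¹ ∈ T := (le_sup_right : H.map (MulAut.conj g).toMonoidHom ≤ T) ⟨a, ha, rfl⟩
    rwa [hTH] at this
  refine ⟨part1, ?_⟩
  intro P hHP
  have hPN : (P : Subgroup G) ≤ Subgroup.normalizer (H : Set G) :=
    Subgroup.le_normalizer.trans (part1 P P.isPGroup' hHP)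
  refine ⟨hPN, hHP, ?_⟩
  intro x hx g hg
  have h1 : g * x * g⁻¹ ∈ (H ⊔ H.map (MulAut.conj g).toMonoidHom) ⊓ Subgroup.normalizer (H : Set G) :=
    ⟨(le_sup_right : H.map (MulAut.conj g).toMonoidHom ≤ _) ⟨x, hx, rfl⟩, hPN hg⟩
  rw [hcl g] at h1
  exact h1

end Cfsg.Agent.S3021
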