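import Cfsg.Statements.S3023
import Cfsg.Agent.H54.ParabolicSubnormal

set_option autoImplicit false
open Cfsg

namespace Cfsg.Agent.S3023

open Cfsg.Agent.H54 in
/-- Let p be a prime, G a finite group of parabolic characteristic p (every p-local subgroup containing a Sylow p-subgroup of G has characteristic p), S a Sylow p-subgroup of G and G₁ a subnormal subgroup of G. If the centre of S ∩ G₁ is nontrivial and contained in the centre of S, then G₁ has parabolic characteristic p. -/
theorem result {G : Type*} [Group G] [Finite G] {p : ℕ} [Fact p.Prime] (hG : Cfsg.IsOfParabolicCharacteristic p G) (S : Sylow p G) (G₁ : Subgroup G) (hsn : G₁.IsSubnormal) (hne : ((S : Subgroup G) ⊓ G₁) ⊓ Subgroup.centralizer (((S : Subgroup G) ⊓ G₁ : Subgroup G) : Set G) ≠ ⊥) (hle : ((S : Subgroup G) ⊓ G₁) ⊓ Subgroup.centralizer (((S : Subgroup G) ⊓ G₁ : Subgroup G) : Set G) ≤ (S : Subgroup G) ⊓ Subgroup.centralizer ((S : Subgroup G) : Set G)) : Cfsg.IsOfParabolicCharacteristic p ↥G₁ := by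
  obtain ⟨T, hT⟩ := exists_sylow_map_subtype_eq_inf_of_isSubnormal S G₁ hsn
  apply parabolic_of_central T
  intro z hzT hzo hzc
  apply charP_centralizer_subtype_of_isSubnormal G₁ hsn
  have hzS : (z : G) ∈ (S : Subgroup G) ⊓ G₁ := by
    rw [← hT]; exact ⟨z, hzT, rfl⟩
  have hzo' : orderOf (z : G) = p := by rw [Subgroup.orderOf_coe]; exact hzo
  have hzcent : (z : G) ∈ Subgroup.centralizer (((S : Subgroup G) ⊓ G₁ : Subgroup G) : Set G) := by
    rw [Subgroup.mem_centralizer_iff]
    intro y hy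
    have hy' : y ∈ (T : Subgroup ↥G₁).map G₁.subtype := by rw [hT]; exact hy
    obtain ⟨t, ht, rfl⟩ := hy'
    exact congrArg Subtype.val (hzc t ht)
  have h1 : (z : G) ∈ (S : Subgroup G) ⊓ Subgroup.centralizer ((S : Subgroup G) : Set G) :=
    hle ⟨hzS, hzcent⟩
  exact charP_centralizer_of_parabolic hG S (z : G) hzo'
    (fun s hs => Subgroup.mem_centralizer_iff.mp h1.2 s hs)

end Cfsg.Agent.S3023
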