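import Mathlib
import Cfsg.Statements.S3025
import Cfsg.Agent.H59.UniqueOrderP

set_option autoImplicit false
open Cfsg

namespace Cfsg.Agent.S3025

/-- Let F be a finite group and H a nontrivial subgroup of F that is contained in every nontrivial subgroup of F which H normalizes. Then F has a nontrivial normal subgroup N contained in every nontrivial normal subgroup of F (a unique minimal normal subgroup), N is simple, and one of the following holds: C_F(N) = 1; or H = N has prime order p, C_F(N) is cyclic of order a power of p, and F/C_F(N) is cyclic of order dividing p − 1; or H = N has order 2, N is central in F, and F is a generalized quaternion group. -/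
theorem result {F : Type*} [Group F] [Finite F] (H : Subgroup F) (hH : H ≠ ⊥)
    (hmin : ∀ R : Subgroup F, R ≠ ⊥ → H ≤ Subgroup.normalizer (R : Set F) → H ≤ R) :
    ∃ N : Subgroup F, N.Normal ∧ N ≠ ⊥ ∧ (∀ M : Subgroup F, M.Normal → M ≠ ⊥ → N ≤ M) ∧ IsSimpleGroup ↥N ∧
      (Subgroup.centralizer (N : Set F) = ⊥ ∨
       (H = N ∧ (Nat.card N).Prime ∧ IsCyclic ↥(Subgroup.centralizer (N : Set F)) ∧
          (∃ k : ℕ, 1 ≤ k ∧ Nat.card ↥(Subgroup.centralizer (N : Set F)) = Nat.card N ^ k) ∧
          (∃ g : F, Subgroup.centralizer (N : Set F) ⊔ Subgroup.zpowers g = ⊤) ∧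
          (Subgroup.centralizer (N : Set F)).index ∣ Nat.card N - 1) ∨
       (H = N ∧ Nat.card N = 2 ∧ Subgroup.centralizer (N : Set F) = ⊤ ∧
          ∃ k : ℕ, 1 ≤ k ∧ Nonempty (F ≃* QuaternionGroup (2 ^ k)))) := by
  classical
  obtain ⟨N, hN⟩ : ∃ N : Subgroup F, N = Subgroup.normalClosure (H : Set F) := ⟨_, rfl⟩
  have hNn : N.Normal := hN ▸ Subgroup.normalClosure_normal
  have hHN : H ≤ N := hN ▸ Subgroup.le_normalClosure
  have hN1 : N ≠ ⊥ := fun h => hH (le_bot_iff.mp (h ▸ hHN))
  have hNmin : ∀ M : Subgroup F, M.Normal → M ≠ ⊥ → N ≤ M := by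
    intro M hM hM1
    rw [hN]
    apply Subgroup.normalClosure_le_normal
    apply hmin M hM1
    rw [Subgroup.normalizer_eq_top]
    exact le_top
  have hsimple : IsSimpleGroup N := by
    haveI : Nontrivial N := (Subgroup.nontrivial_iff_ne_bot N).mpr hN1
    refine ⟨fun K hK => ?_⟩
    by_cases hK1 : K = ⊥
    · exact Or.inl hK1
    · right
      obtain ⟨⟨⟨y, hyN⟩, hyK⟩, hy1⟩ := Subgroup.ne_bot_iff_exists_ne_one.mp hK1
      have hy1' : y ≠ 1 := fun h => hy1 (Subtype.ext (Subtype.ext h))
      have hyK' : y ∈ K.map N.subtype := ⟨⟨y, hyN⟩, hyK, rfl⟩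
      have hK'norm : ∀ n' ∈ N, ∀ x ∈ K.map N.subtype, n' * x * n'⁻¹ ∈ K.map N.subtype := by
        rintro n' hn' x ⟨k, hk, rfl⟩
        exact ⟨⟨n', hn'⟩ * k * ⟨n', hn'⟩⁻¹, hK.conj_mem k hk ⟨n', hn'⟩, rfl⟩
      have hconjH : ∀ (f : F), ∀ h ∈ H, f⁻¹ * h * f ∈ K.map N.subtype := by
        intro f
        let R : Subgroup F := (K.map N.subtype).comap (MulAut.conj f⁻¹).toMonoidHom
        have hRmem : ∀ x : F, x ∈ R ↔ f⁻¹ * x * f ∈ K.map N.subtype := by
          intro x
          simp only [R, Subgroup.mem_comap, MulEquiv.coe_toMonoidHom, MulAut.conj_apply, inv_inv]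
        have hR1 : R ≠ ⊥ := by
          intro hbot
          have h1 : f * y * f⁻¹ ∈ R := by
            rw [hRmem]
            have e : f⁻¹ * (f * y * f⁻¹) * f = y := by group
            rw [e]; exact hyK'
          rw [hbot, Subgroup.mem_bot] at h1
          exact hy1' (conj_eq_one_iff.mp h1)
        have hRnorm : H ≤ Subgroup.normalizer (R : Set F) := by
          intro h hh
          rw [Subgroup.mem_normalizer_iff]
          intro x
          have hn' : f⁻¹ * h * f ∈ N := by
            have := hNn.conj_mem h (hHN hh) f⁻¹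
            rwa [inv_inv] at this
          rw [hRmem, hRmem]
          have e : f⁻¹ * (h * x * h⁻¹) * f = (f⁻¹ * h * f) * (f⁻¹ * x * f) * (f⁻¹ * h * f)⁻¹ := by
            group
          rw [e]
          constructor
          · intro hx
            exact hK'norm _ hn' _ hx
          · intro hx
            have h2 := hK'norm _ (inv_mem hn') _ hx
            have e2 : (f⁻¹ * h * f)⁻¹ * ((f⁻¹ * h * f) * (f⁻¹ * x * f) * (f⁻¹ * h * f)⁻¹) *
                (f⁻¹ * h * f)⁻¹⁻¹ = f⁻¹ * x * f := by group
            rwa [e2] at h2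
        intro h hh
        exact (hRmem h).mp (hmin R hR1 hRnorm hh)
      have hNK : N ≤ K.map N.subtype := by
        have h1 : Subgroup.normalClosure (H : Set F) ≤ K.map N.subtype := by
          rw [Subgroup.normalClosure, Subgroup.closure_le]
          intro x hx
          obtain ⟨a, ha, hax⟩ := Group.mem_conjugatesOfSet_iff.mp hx
          obtain ⟨c, rfl⟩ := isConj_iff.mp hax
          have := hconjH c⁻¹ a ha
          rwa [inv_inv] at this
        exact (le_of_eq hN).trans h1
      rw [eq_top_iff]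
      rintro ⟨x, hx⟩ -
      obtain ⟨k, hk, hkx⟩ := hNK hx
      have : k = ⟨x, hx⟩ := Subtype.ext hkx
      exact this ▸ hk
  refine ⟨N, hNn, hN1, hNmin, hsimple, ?_⟩
  by_cases hC : Subgroup.centralizer (N : Set F) = ⊥
  · exact Or.inl hC
  right
  obtain ⟨C, hCdef⟩ : ∃ C : Subgroup F, C = Subgroup.centralizer (N : Set F) := ⟨_, rfl⟩
  rw [← hCdef] at hC ⊢
  have hCn : C.Normal := hCdef ▸ Subgroup.normal_centralizer
  have hNC : N ≤ C := hNmin C hCn hC
  have hCmem : ∀ c ∈ C, ∀ x ∈ N, x * c = c * x := by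
    intro c hc x hx
    rw [hCdef] at hc
    exact Subgroup.mem_centralizer_iff.mp hc x hx
  have hNcomm : ∀ x ∈ N, ∀ y ∈ N, x * y = y * x := fun x hx y hy => hCmem y (hNC hy) x hx
  have hprime : (Nat.card N).Prime := by
    letI : CommGroup N :=
      { (inferInstance : Group N) with
        mul_comm := fun a b => Subtype.ext (hNcomm a.1 a.2 b.1 b.2) }
    exact IsSimpleGroup.prime_card
  have hHeq : H = N := by
    apply Subgroup.eq_of_le_of_card_ge hHN
    have hdvd := Subgroup.card_dvd_of_le hHN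
    rcases (Nat.dvd_prime hprime).mp hdvd with h1 | h1
    · exact absurd (Subgroup.card_eq_one.mp h1) hH
    · rw [h1]
  obtain ⟨p, hp⟩ : ∃ p : ℕ, p = Nat.card N := ⟨_, rfl⟩
  rw [← hp] at hprime ⊢
  haveI : Fact p.Prime := ⟨hprime⟩
  have hRC : ∀ R : Subgroup F, R ≤ C → R ≠ ⊥ → N ≤ R := by
    intro R hR hR1
    rw [← hHeq]
    apply hmin R hR1
    intro h hh
    have hhN : h ∈ N := hHN hh
    rw [Subgroup.mem_normalizer_iff]
    intro x
    constructor
    · intro hx
      have e : h * x = x * h := hCmem x (hR hx) h hhN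
      have e2 : h * x * h⁻¹ = x := by rw [e, mul_inv_cancel_right]
      rw [e2]; exact hx
    · intro hy
      have e : h * (h * x * h⁻¹) = (h * x * h⁻¹) * h := hCmem _ (hR hy) h hhN
      rw [inv_mul_cancel_right] at e
      have e2 : h * x * h⁻¹ = x := mul_left_cancel e
      rw [e2] at hy; exact hy
  have hCp : ∀ q : ℕ, q.Prime → q ∣ Nat.card C → q = p := by
    intro q hq hqd
    haveI : Fact q.Prime := ⟨hq⟩
    obtain ⟨x, hx⟩ := exists_prime_orderOf_dvd_card' q hqd
    have hle : Subgroup.zpowers (x : F) ≤ C := Subgroup.zpowers_le.mpr x.2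
    have hne : Subgroup.zpowers (x : F) ≠ ⊥ := by
      rw [Ne, Subgroup.zpowers_eq_bot]
      intro h
      have h1 : orderOf x = 1 := by rw [← Subgroup.orderOf_coe, h, orderOf_one]
      rw [hx] at h1; exact hq.one_lt.ne' h1
    have h1 := Subgroup.card_dvd_of_le (hRC _ hle hne)
    rw [Nat.card_zpowers, Subgroup.orderOf_coe, hx, ← hp] at h1
    exact ((Nat.prime_dvd_prime_iff_eq hprime hq).mp h1).symm
  have hCcard : ∃ k : ℕ, 1 ≤ k ∧ Nat.card C = p ^ k := by
    have h1 := Nat.eq_prime_pow_of_unique_prime_dvd (n := Nat.card C) (p := p)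
      Nat.card_pos.ne' (fun {d} hd hdd => hCp d hd hdd)
    refine ⟨_, ?_, h1⟩
    by_contra hk
    push Not at hk
    have hk0 : (Nat.card C).primeFactorsList.length = 0 := by omega
    rw [hk0, pow_zero] at h1
    have h2 := Subgroup.card_dvd_of_le hNC
    rw [h1, ← hp] at h2
    exact hprime.one_lt.ne' (Nat.dvd_one.mp h2)
  obtain ⟨k, hk1, hCk⟩ := hCcard
  have hCpg : IsPGroup p C := IsPGroup.of_card hCk
  have hCuniq : ∀ A B : Subgroup C, Nat.card A = p → Nat.card B = p → A = B := by
    have key : ∀ A : Subgroup C, Nat.card A = p → A.map C.subtype = N := by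
      intro A hA
      have hcard : Nat.card (A.map C.subtype) = p := by
        rw [Subgroup.card_map_of_injective C.subtype_injective]; exact hA
      have hne : A.map C.subtype ≠ ⊥ := by
        intro h
        rw [h, Subgroup.card_bot] at hcard
        exact hprime.one_lt.ne hcard
      exact (Subgroup.eq_of_le_of_card_ge (hRC _ (Subgroup.map_subtype_le A) hne)
        (by rw [hcard, hp])).symm
    intro A B hA hB
    exact Subgroup.map_injective C.subtype_injective ((key A hA).trans (key B hB).symm)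
  have hS16 := Cfsg.Agent.H59.cyclic_or_quaternion_of_unique p hCpg hCuniq
  -- the conjugation action on `N`
  haveI := hNn
  have hker : (MulAut.conjNormal : F →* MulAut N).ker = C := by
    ext f
    rw [MonoidHom.mem_ker, hCdef, Subgroup.mem_centralizer_iff]
    constructor
    · intro hf x hx
      have h1 := congrArg (fun σ : MulAut N => (σ ⟨x, hx⟩ : F)) hf
      simp only [MulAut.one_apply] at h1
      rw [MulAut.conjNormal_apply] at h1
      exact (mul_inv_eq_iff_eq_mul.mp h1).symm
    · intro hf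
      ext ⟨x, hx⟩
      rw [MulAut.conjNormal_apply, MulAut.one_apply]
      exact mul_inv_eq_iff_eq_mul.mpr (hf x hx).symm
  haveI hcycN : IsCyclic N := isCyclic_of_prime_card (p := p) hp.symm
  have hcardAut : Nat.card (MulAut N) = p - 1 := by
    rw [IsCyclic.card_mulAut, ← hp, Nat.totient_prime hprime]
  have hidx : C.index ∣ p - 1 := by
    rw [← hker, Subgroup.index_ker, ← hcardAut]
    exact Subgroup.card_subgroup_dvd_card _
  have hcycAut : IsCyclic (MulAut N) := by
    have e := IsCyclic.mulAutMulEquiv N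
    haveI : Fact (Nat.card N).Prime := ⟨hp ▸ hprime⟩
    exact (MulEquiv.isCyclic e).mpr inferInstance
  have hgen : ∃ g : F, C ⊔ Subgroup.zpowers g = ⊤ := by
    haveI := hcycAut
    obtain ⟨⟨σ, hσ⟩, hgen⟩ :=
      (inferInstance : IsCyclic (MulAut.conjNormal : F →* MulAut N).range).exists_generator
    obtain ⟨g, rfl⟩ := hσ
    refine ⟨g, ?_⟩
    rw [eq_top_iff]
    intro f _
    obtain ⟨t, ht⟩ := Subgroup.mem_zpowers_iff.mp
      (hgen ⟨(MulAut.conjNormal : F →* MulAut N) f, f, rfl⟩)
    have ht' : (MulAut.conjNormal : F →* MulAut N) g ^ t =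
        (MulAut.conjNormal : F →* MulAut N) f := by
      have h1 := congrArg Subtype.val ht
      simpa using h1
    have hfk : f * (g ^ t)⁻¹ ∈ (MulAut.conjNormal : F →* MulAut N).ker := by
      rw [MonoidHom.mem_ker, map_mul, map_inv, map_zpow, ht', mul_inv_cancel]
    rw [hker] at hfk
    have e : f = (f * (g ^ t)⁻¹) * g ^ t := by group
    rw [e]
    exact Subgroup.mul_mem_sup hfk (Subgroup.zpow_mem_zpowers g t)
  by_cases hcyc : IsCyclic C
  · left
    exact ⟨hHeq, hprime, hcyc, ⟨k, hk1, hCk⟩, hgen, hidx⟩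
  · right
    rcases hS16 with h | ⟨hp2, n, ⟨e⟩⟩
    · exact absurd h hcyc
    · have hCtop : C = ⊤ := by
        rw [← Subgroup.index_eq_one]
        rw [hp2] at hidx
        exact Nat.dvd_one.mp hidx
      refine ⟨hHeq, hp2, hCtop, n, ?_, ⟨?_⟩⟩
      · by_contra hn
        push Not at hn
        have hn0 : n = 0 := by omega
        apply hcyc
        subst hn0
        have e' : C ≃* QuaternionGroup 1 := e
        exact (MulEquiv.isCyclic e').mpr QuaternionGroup.quaternionGroup_one_isCyclic
      · exact (Subgroup.topEquiv.symm.trans (MulEquiv.subgroupCongr hCtop.symm)).trans e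

end Cfsg.Agent.S3025
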