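import Mathlib
import Cfsg.Statements.S3027
import Cfsg.Agent.H56.Basic

set_option autoImplicit false
open Cfsg

namespace Cfsg.Agent.S3027

open scoped Pointwise commutatorElement

/-- If `G/D` is perfect and `B₁`, `B₂` are supplements of `D` normalizing each other, then
`B₁ ∩ B₂` is a supplement of `D`. -/
theorem inf_supplement {G : Type*} [Group G] (D : Subgroup G) [D.Normal]
    (hperf : ⁅(⊤ : Subgroup G), (⊤ : Subgroup G)⁆ ⊔ D = ⊤) (B₁ B₂ : Subgroup G)
    (h12 : B₁ ≤ Subgroup.normalizer (B₂ : Set G)) (h21 : B₂ ≤ Subgroup.normalizer (B₁ : Set G))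
    (h1 : B₁ ⊔ D = ⊤) (h2 : B₂ ⊔ D = ⊤) : (B₁ ⊓ B₂) ⊔ D = ⊤ := by
  have key : ⁅(⊤ : Subgroup G), (⊤ : Subgroup G)⁆ ≤ (B₁ ⊓ B₂) ⊔ D := by
    rw [Subgroup.commutator_le]
    intro x _ y _
    have hx : x ∈ ((B₁ ⊔ D : Subgroup G) : Set G) := by rw [h1]; trivial
    have hy : y ∈ ((B₂ ⊔ D : Subgroup G) : Set G) := by rw [h2]; trivial
    rw [Subgroup.mul_normal, Set.mem_mul] at hx hy
    obtain ⟨b₁, hb₁, d₁, hd₁, rfl⟩ := hx
    obtain ⟨b₂, hb₂, d₂, hd₂, rfl⟩ := hy
    have hc : ⁅b₁, b₂⁆ ∈ B₁ ⊓ B₂ := by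
      rw [Subgroup.mem_inf]
      constructor
      · -- b₂ normalizes B₁
        have h := (Subgroup.mem_normalizer_iff.1 (h21 hb₂) b₁⁻¹).1 (inv_mem hb₁)
        have : ⁅b₁, b₂⁆ = b₁ * (b₂ * b₁⁻¹ * b₂⁻¹) := by
          rw [commutatorElement_def]; group
        rw [this]
        exact mul_mem hb₁ h
      · have h := (Subgroup.mem_normalizer_iff.1 (h12 hb₁) b₂).1 hb₂
        have : ⁅b₁, b₂⁆ = (b₁ * b₂ * b₁⁻¹) * b₂⁻¹ := by
          rw [commutatorElement_def]
        rw [this]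
        exact mul_mem h (inv_mem hb₂)
    have hq : (QuotientGroup.mk' D) ⁅b₁, b₂⁆ = (QuotientGroup.mk' D) ⁅b₁ * d₁, b₂ * d₂⁆ := by
      have e1 : QuotientGroup.mk' D d₁ = 1 := (QuotientGroup.eq_one_iff _).2 hd₁
      have e2 : QuotientGroup.mk' D d₂ = 1 := (QuotientGroup.eq_one_iff _).2 hd₂
      rw [map_commutatorElement, map_commutatorElement, map_mul, map_mul, e1, e2, mul_one, mul_one]
    have hq' : (⁅b₁, b₂⁆)⁻¹ * ⁅b₁ * d₁, b₂ * d₂⁆ ∈ D := by
      have := hq
      rw [QuotientGroup.mk'_apply, QuotientGroup.mk'_apply, QuotientGroup.eq] at this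
      exact this
    have : ⁅b₁ * d₁, b₂ * d₂⁆ = ⁅b₁, b₂⁆ * ((⁅b₁, b₂⁆)⁻¹ * ⁅b₁ * d₁, b₂ * d₂⁆) := by group
    rw [this]
    exact mul_mem ((le_sup_left : B₁ ⊓ B₂ ≤ (B₁ ⊓ B₂) ⊔ D) hc) ((le_sup_right : D ≤ (B₁ ⊓ B₂) ⊔ D) hq')
  rw [eq_top_iff, ← hperf]
  exact sup_le key le_sup_right

theorem map_conj_normal {G : Type*} [Group G] (D : Subgroup G) [D.Normal] (g : G) :
    D.map (MulAut.conj g).toMonoidHom = D := by
  have h : g ∈ Subgroup.normalizer (D : Set G) := by
    rw [Subgroup.normalizer_eq_top]; trivial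
  exact Subgroup.mem_normalizer_iff_map_conj_eq.1 h

theorem mem_map_conj_iff {G : Type*} [Group G] (C : Subgroup G) (g x : G) :
    x ∈ C.map (MulAut.conj g).toMonoidHom ↔ g⁻¹ * x * g ∈ C := by
  rw [Subgroup.mem_map]
  constructor
  · rintro ⟨c, hc, rfl⟩
    simp only [MulEquiv.toMonoidHom_eq_coe, MonoidHom.coe_coe, MulAut.conj_apply]
    have : g⁻¹ * (g * c * g⁻¹) * g = c := by group
    rw [this]; exact hc
  · intro h
    refine ⟨g⁻¹ * x * g, h, ?_⟩
    simp only [MulEquiv.toMonoidHom_eq_coe, MonoidHom.coe_coe, MulAut.conj_apply]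
    group

/-- Let G be a finite group and D a normal subgroup of G such that G/D is perfect (that is, G = G′D). Then among the subnormal subgroups B of G with BD = G there is a least one, and it is normal in G. -/
theorem result {G : Type*} [Group G] [Finite G] (D : Subgroup G) [D.Normal] (hperf : ⁅(⊤ : Subgroup G), (⊤ : Subgroup G)⁆ ⊔ D = ⊤) :
    ∃ B : Subgroup G, B.Normal ∧ B ⊔ D = ⊤ ∧ ∀ B' : Subgroup G, B'.IsSubnormal → B' ⊔ D = ⊤ → B ≤ B' := by
  -- the least normal supplement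
  have hne : Nonempty {B : Subgroup G // B.Normal ∧ B ⊔ D = ⊤} :=
    ⟨⟨⊤, inferInstance, top_sup_eq _⟩⟩
  obtain ⟨⟨R, hRn, hRD⟩, hRmin⟩ :=
    Finite.exists_min (fun B : {B : Subgroup G // B.Normal ∧ B ⊔ D = ⊤} => Nat.card B.1)
  have hRN : ∀ K : Subgroup G, K ≤ Subgroup.normalizer (R : Set G) := by
    intro K
    rw [Subgroup.normalizer_eq_top]; exact le_top
  have hRleast : ∀ B : Subgroup G, B.Normal → B ⊔ D = ⊤ → R ≤ B := by
    intro B hBn hBD
    have hBN : R ≤ Subgroup.normalizer (B : Set G) := by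
      rw [Subgroup.normalizer_eq_top]; exact le_top
    have h1 := inf_supplement D hperf R B hBN (hRN B) hRD hBD
    have h2 : (R ⊓ B).Normal := Subgroup.normal_inf_normal R B
    have h3 := hRmin ⟨R ⊓ B, h2, h1⟩
    have h4 : R ⊓ B = R := Subgroup.eq_of_le_of_card_ge inf_le_left h3
    rw [← h4]; exact inf_le_right
  -- subgroups of R normalized by R that supplement D are equal to R
  have hclaim : ∀ C : Subgroup G, C ≤ R → R ≤ Subgroup.normalizer (C : Set G) → C ⊔ D = ⊤ → C = R := by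
    have hne2 : Nonempty {C : Subgroup G // C ≤ R ∧ R ≤ Subgroup.normalizer (C : Set G) ∧ C ⊔ D = ⊤} :=
      ⟨⟨R, le_rfl, hRN R, hRD⟩⟩
    obtain ⟨⟨C₀, hC₀R, hC₀N, hC₀D⟩, hC₀min⟩ := Finite.exists_min
      (fun C : {C : Subgroup G // C ≤ R ∧ R ≤ Subgroup.normalizer (C : Set G) ∧ C ⊔ D = ⊤} =>
        Nat.card C.1)
    have hC₀least : ∀ C : Subgroup G, C ≤ R → R ≤ Subgroup.normalizer (C : Set G) → C ⊔ D = ⊤ →
        C₀ ≤ C := by
      intro C hCR hCN hCD
      have h1 := inf_supplement D hperf C₀ C (hC₀R.trans hCN) (hCR.trans hC₀N) hC₀D hCD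
      have h2 : R ≤ Subgroup.normalizer ((C₀ ⊓ C : Subgroup G) : Set G) := by
        intro r hr
        rw [Subgroup.mem_normalizer_iff]
        intro x
        rw [Subgroup.mem_inf, Subgroup.mem_inf, ← (Subgroup.mem_normalizer_iff.1 (hC₀N hr) x),
          ← (Subgroup.mem_normalizer_iff.1 (hCN hr) x)]
      have h3 := hC₀min ⟨C₀ ⊓ C, inf_le_left.trans hC₀R, h2, h1⟩
      have h4 : C₀ ⊓ C = C₀ := Subgroup.eq_of_le_of_card_ge inf_le_left h3
      rw [← h4]; exact inf_le_right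
    -- C₀ is normal in G
    have hC₀normal : C₀.Normal := by
      constructor
      intro c hc g
      -- the conjugate of C₀ by g⁻¹ is again in the family
      set C₁ := C₀.map (MulAut.conj g⁻¹).toMonoidHom with hC₁
      have h1 : C₁ ≤ R := by
        intro x hx
        rw [hC₁, mem_map_conj_iff] at hx
        have hx' := hC₀R hx
        have := hRn.conj_mem _ hx' g⁻¹
        simpa [mul_assoc] using this
      have h2 : R ≤ Subgroup.normalizer (C₁ : Set G) := by
        intro r hr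
        apply Cfsg.Agent.H56.mem_normalizer_of_conj_le
        intro x hx
        rw [hC₁, mem_map_conj_iff] at hx ⊢
        have hr' : g * r * g⁻¹ ∈ R := hRn.conj_mem r hr g
        have h3 := (Subgroup.mem_normalizer_iff.1 (hC₀N hr') _).1 hx
        have : g⁻¹⁻¹ * (r * x * r⁻¹) * g⁻¹ = g * r * g⁻¹ * (g⁻¹⁻¹ * x * g⁻¹) * (g * r * g⁻¹)⁻¹ := by
          group
        rw [this]; exact h3
      have h3 : C₁ ⊔ D = ⊤ := by
        have : (C₀ ⊔ D).map (MulAut.conj g⁻¹).toMonoidHom = C₁ ⊔ D := by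
          rw [Subgroup.map_sup, map_conj_normal D]
        rw [← this, hC₀D]
        rw [eq_top_iff]
        intro x _
        rw [mem_map_conj_iff]; trivial
      have h4 := hC₀least C₁ h1 h2 h3
      have h5 := h4 hc
      rw [hC₁, mem_map_conj_iff] at h5
      simpa using h5
    have h6 : R ≤ C₀ := hRleast C₀ hC₀normal hC₀D
    intro C hCR hCN hCD
    exact le_antisymm hCR (h6.trans (hC₀least C hCR hCN hCD))
  refine ⟨R, hRn, hRD, ?_⟩
  intro B' hB'
  induction hB' with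
  | top => intro _; exact le_top
  | step H K hHK hK hHn ih =>
    intro hHD
    have hKD : K ⊔ D = ⊤ := by
      rw [eq_top_iff, ← hHD]; exact sup_le_sup_right hHK D
    have hRK : R ≤ K := ih hKD
    -- K normalizes H
    have hKN : K ≤ Subgroup.normalizer (H : Set G) := by
      intro k hk
      apply Cfsg.Agent.H56.mem_normalizer_of_conj_le
      intro a ha
      have h1 : (⟨a, hHK ha⟩ : K) ∈ H.subgroupOf K := by
        rw [Subgroup.mem_subgroupOf]; exact ha
      have h2 := hHn.conj_mem _ h1 ⟨k, hk⟩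
      rw [Subgroup.mem_subgroupOf] at h2
      simpa using h2
    have h1 := inf_supplement D hperf H R (hRN H) (hRK.trans hKN) hHD hRD
    have h2 : R ≤ Subgroup.normalizer ((H ⊓ R : Subgroup G) : Set G) := by
      intro r hr
      rw [Subgroup.mem_normalizer_iff]
      intro x
      rw [Subgroup.mem_inf, Subgroup.mem_inf, ← (Subgroup.mem_normalizer_iff.1 (hKN (hRK hr)) x),
        ← (Subgroup.mem_normalizer_iff.1 (hRN R hr) x)]
    have h3 := hclaim (H ⊓ R) inf_le_right h2 h1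
    rw [← h3]; exact inf_le_left

end Cfsg.Agent.S3027
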