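import Mathlib
import Cfsg.Statements.S3050
import Cfsg.Agent.H65.Higman

set_option autoImplicit false
open Cfsg

namespace Cfsg.Agent.S3050

open Cfsg.Agent.H65

/-- Let G be a finite group with a normal 2-subgroup Q such that G/Q is isomorphic to SL(2, 2ⁿ) with n ≥ 2, and suppose some element of G of order 3 fixes no nonidentity element of Q under conjugation. Then Q is elementary abelian and is the direct product of normal subgroups of G on each of which G acts as SL(2, 2ⁿ) acts on its natural two-dimensional module (a Galois twist of the natural action allowed). -/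
theorem result {G : Type*} [Group G] [Finite G]
    (Q : Subgroup G) [Q.Normal] (hQ : IsPGroup 2 ↥Q) (n : ℕ) (hn : 2 ≤ n)
    (K : Type*) [Field K] [Fintype K] (hK : Fintype.card K = 2 ^ n)
    (e : G ⧸ Q ≃* Matrix.SpecialLinearGroup (Fin 2) K)
    (x : G) (hx : orderOf x = 3) (hfpf : ∀ q ∈ Q, x * q * x⁻¹ = q → q = 1) :
    Cfsg.IsElementaryAbelian 2 Q ∧
      ∃ (k : ℕ) (V : Fin k → Subgroup G), (∀ i, V i ≤ Q ∧ (V i).Normal ∧
        Cfsg.ActsAsSL2OnSection K ⊤ ⊤ (V i) ⊥) ∧ iSupIndep V ∧ ⨆ i, V i = Q := by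
  classical
  have : Fact (Nat.Prime 2) := ⟨Nat.prime_two⟩
  have hchar : CharP K 2 := NatSL2.charP_of_card n hK
  have hf4 : ∃ r : K, r ≠ 0 ∧ r ≠ 1 := by
    have h4 : 2 < Fintype.card K := by
      rw [hK]
      calc 2 < 2 ^ 2 := by norm_num
        _ ≤ 2 ^ n := Nat.pow_le_pow_right (by norm_num) hn
    obtain ⟨a, b, c, hab, hac, hbc⟩ := Fintype.two_lt_card_iff.mp h4
    by_cases ha0 : a = 0
    · by_cases hb1 : b = 1
      · refine ⟨c, ?_, ?_⟩
        · intro h; exact hac (ha0.trans h.symm)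
        · intro h; exact hbc (hb1.trans h.symm)
      · exact ⟨b, fun h => hab (ha0.trans h.symm), hb1⟩
    · by_cases ha1 : a = 1
      · by_cases hb0 : b = 0
        · refine ⟨c, ?_, ?_⟩
          · intro h; exact hbc (hb0.trans h.symm)
          · intro h; exact hac (ha1.trans h.symm)
        · exact ⟨b, hb0, fun h => hab (ha1.trans h.symm)⟩
      · exact ⟨a, ha0, ha1⟩
  obtain ⟨π, hπdef⟩ : ∃ π : G →* Matrix.SpecialLinearGroup (Fin 2) K,
      ∀ g, π g = e (QuotientGroup.mk g) :=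
    ⟨e.toMonoidHom.comp (QuotientGroup.mk' Q), fun g => rfl⟩
  have hπ : Function.Surjective π := by
    intro s
    obtain ⟨g, hg⟩ := QuotientGroup.mk_surjective (e.symm s)
    exact ⟨g, by rw [hπdef, hg, MulEquiv.apply_symm_apply]⟩
  have hker : π.ker = Q := by
    ext g
    rw [MonoidHom.mem_ker, hπdef, MulEquiv.map_eq_one_iff, QuotientGroup.eq_one_iff]
  have hab := Higman.abelian_of_hyp hf4 _ G Q hQ π hπ hker x hx hfpf rfl
  obtain ⟨h2, hdec⟩ := Higman.abelian_case Q hQ hf4 π hπ hker x hx hfpf hab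
  exact ⟨⟨⟨⟨fun a b => Subtype.ext (hab a a.2 b b.2)⟩⟩, h2⟩, hdec⟩

end Cfsg.Agent.S3050
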