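import Cfsg.Statements.S3057
import Cfsg.Agent.H57.PSolvSE
import Cfsg.Agent.S0016
import Cfsg.Agent.S3056

set_option autoImplicit false
open Cfsg

namespace Cfsg.Agent.S3057

/-- Let p be a prime and G a finite p-solvable group of order divisible by p, with Sylow p-subgroup P. Then the Sylow p-subgroups of G fail to be chain-connected through nontrivial intersections (equivalently, G has a strongly p-embedded subgroup) if and only if O_p(G) = 1 and P is cyclic or, for p = 2, generalized quaternion. -/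
theorem result {G : Type*} [Group G] [Finite G]
    (p : ℕ) [Fact p.Prime] (hdiv : p ∣ Nat.card G) (hsol : Cfsg.IsPSolvable p G) (P : Sylow p G) :
    ¬ Cfsg.IsSylowChainConnected p G ↔
      Cfsg.pCore p G = ⊥ ∧ (IsCyclic ↥P ∨ (p = 2 ∧ ∃ n : ℕ, Nonempty (↥P ≃* QuaternionGroup (2 ^ n)))) := by
  open Cfsg.Agent.H57 in
  classical
  have hp : p.Prime := Fact.out
  constructor
  · intro hnc
    obtain ⟨H, hH, hpH, hse⟩ := (Cfsg.Agent.S3056.result p).mp hnc
    refine ⟨se_pCore_eq_bot p H hH hpH hse, ?_⟩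
    obtain ⟨S, hSH⟩ := se_exists_sylow_le hpH hse
    have hSne : (S : Subgroup G) ≠ ⊥ := S.ne_bot_of_dvd_card hdiv
    have : Nontrivial ↥(S : Subgroup G) := (Subgroup.nontrivial_iff_ne_bot _).mpr hSne
    have hSp : IsPGroup p ↥(S : Subgroup G) := S.isPGroup'
    -- a central element of order `p`
    have hcne : Subgroup.center ↥(S : Subgroup G) ≠ ⊥ := by
      rw [← Subgroup.nontrivial_iff_ne_bot]
      exact hSp.center_nontrivial
    have hcdvd : p ∣ Nat.card (Subgroup.center ↥(S : Subgroup G)) :=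
      dvd_card_of_pgroup_ne_bot (hSp.to_subgroup _) hcne
    obtain ⟨z₀, hz₀⟩ := exists_prime_orderOf_dvd_card' p hcdvd
    have hz₀o : orderOf ((z₀ : ↥(S : Subgroup G)) : G) = p := by
      rw [Subgroup.orderOf_coe, Subgroup.orderOf_coe, hz₀]
    have key : ∀ H₁ : Subgroup ↥(S : Subgroup G), Nat.card H₁ = p →
        H₁ = Subgroup.zpowers (z₀ : ↥(S : Subgroup G)) := by
      intro H₁ hH₁
      obtain ⟨x₁, hx₁⟩ := exists_prime_orderOf_dvd_card' p (dvd_of_eq hH₁.symm)
      have hx₁o : orderOf ((x₁ : ↥(S : Subgroup G)) : G) = p := by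
        rw [Subgroup.orderOf_coe, Subgroup.orderOf_coe, hx₁]
      have hcomm : ((x₁ : ↥(S : Subgroup G)) : G) * ((z₀ : ↥(S : Subgroup G)) : G) =
          ((z₀ : ↥(S : Subgroup G)) : G) * ((x₁ : ↥(S : Subgroup G)) : G) := by
        have := (Subgroup.mem_center_iff.mp z₀.2) (x₁ : ↥(S : Subgroup G))
        exact congrArg Subtype.val this
      have hmem := se_psolvable_rank_one p H hH hpH hse hsol S hSH _ _
        (x₁ : ↥(S : Subgroup G)).2 (z₀ : ↥(S : Subgroup G)).2 hx₁o hz₀o hcomm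
      obtain ⟨k, hk⟩ := Subgroup.mem_zpowers_iff.mp hmem
      have hx₁z : (x₁ : ↥(S : Subgroup G)) ∈ Subgroup.zpowers (z₀ : ↥(S : Subgroup G)) := by
        rw [Subgroup.mem_zpowers_iff]
        refine ⟨k, ?_⟩
        apply Subtype.ext
        rw [← hk]; simp
      have h1 : Subgroup.zpowers (x₁ : ↥(S : Subgroup G)) = H₁ := by
        apply Subgroup.eq_of_le_of_card_ge ((Subgroup.zpowers_le).mpr x₁.2)
        rw [Nat.card_zpowers, Subgroup.orderOf_coe, hx₁, hH₁]
      have h2 : Subgroup.zpowers (x₁ : ↥(S : Subgroup G)) =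
          Subgroup.zpowers (z₀ : ↥(S : Subgroup G)) := by
        apply Subgroup.eq_of_le_of_card_ge ((Subgroup.zpowers_le).mpr hx₁z)
        rw [Nat.card_zpowers, Nat.card_zpowers, Subgroup.orderOf_coe, Subgroup.orderOf_coe, hx₁, hz₀]
      rw [← h1, h2]
    have huniq : ∀ H₁ K₁ : Subgroup ↥(S : Subgroup G), Nat.card H₁ = p → Nat.card K₁ = p →
        H₁ = K₁ := by
      intro H₁ K₁ h1 h2
      rw [key H₁ h1, key K₁ h2]
    have hS := Cfsg.Agent.S0016.result p hSp huniq
    obtain ⟨g, rfl⟩ := MulAction.exists_smul_eq G S P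
    rcases hS with hc | ⟨h2, n, ⟨f⟩⟩
    · left
      exact isCyclic_of_surjective (Sylow.equivSMul S g) (Sylow.equivSMul S g).surjective
    · right
      exact ⟨h2, n, ⟨(Sylow.equivSMul S g).symm.trans f⟩⟩
  · rintro ⟨hcore, hP⟩
    rw [Cfsg.Agent.S3056.result p]
    apply exists_se_of_uniqP p hdiv hcore P
    rcases hP with hc | ⟨h2, n, ⟨f⟩⟩
    · exact uniqP_of_isCyclic p _ hc
    · subst h2
      exact uniqP_of_quaternion _ n f

end Cfsg.Agent.S3057
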