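import Mathlib
import Cfsg.Statements.S3060
import Cfsg.Agent.H57.DStar
import Cfsg.Agent.H57.DStarThm

set_option autoImplicit false
open Cfsg

namespace Cfsg.Agent.S3060

open Subgroup Cfsg.Agent.H57
open scoped commutatorElement

/-- The D*-Theorem. For a finite p-group S let D*(S) be the subgroup generated by the abelian subgroups A of S such that every x ∈ S with ⟨A, x⟩ of nilpotency class at most two centralizes A. Let p be an odd prime and H a finite p-stable group with Sylow p-subgroup S. Here H is p-stable in the following sense: the largest normal p-subgroup O_p(H) contains its centralizer in H, and for every normal p-subgroup P of H, every element acting quadratically on P has image in O_p(H/C_H(P)). Then D*(S) is a normal subgroup of H. -/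
theorem result {G : Type*} [Group G] [Finite G] {p : ℕ} [Fact p.Prime] (hp : p ≠ 2)
    (hc : Subgroup.centralizer (Cfsg.pCore p G : Set G) ≤ Cfsg.pCore p G)
    (hst : ∀ (P : Subgroup G) [P.Normal], IsPGroup p P → Cfsg.IsPStableOn p P) (S : Sylow p G) :
    (Cfsg.dStarOf (S : Subgroup G)).Normal := by
  have hnil : Group.IsNilpotent ↥(S : Subgroup G) := S.isPGroup'.isNilpotent
  have hQS : pCore p G ≤ S := pCore_le_sylow S
  have hDS : dStarOf (S : Subgroup G) ≤ S := dStarOf_le _
  have hDab : dStarOf (S : Subgroup G) ≤ centralizer (dStarOf (S : Subgroup G) : Set G) :=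
    dStarOf_le_centralizer _
  have hDnorm : ∀ s ∈ (S : Subgroup G), ∀ d ∈ dStarOf (S : Subgroup G),
      s * d * s⁻¹ ∈ dStarOf (S : Subgroup G) :=
    fun s hs d hd => dStarOf_conj_mem _ s hs d hd
  -- Step 1: D ≤ Q
  have hDQ : dStarOf (S : Subgroup G) ≤ pCore p G := by
    intro d hd
    have hq : ⁅⁅pCore p G, zpowers d⁆, zpowers d⁆ = ⊥ := by
      have h1 : ⁅pCore p G, zpowers d⁆ ≤ dStarOf (S : Subgroup G) := by
        rw [commutator_le]
        intro q hq z hz
        have hzD : z ∈ dStarOf (S : Subgroup G) := (zpowers_le.mpr hd) hz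
        have := hDnorm q (hQS hq) z hzD
        exact mul_mem this (inv_mem hzD)
      have h2 : ⁅⁅pCore p G, zpowers d⁆, zpowers d⁆ ≤
          ⁅dStarOf (S : Subgroup G), dStarOf (S : Subgroup G)⁆ :=
        commutator_mono h1 (zpowers_le.mpr hd)
      have h3 : ⁅dStarOf (S : Subgroup G), dStarOf (S : Subgroup G)⁆ = ⊥ :=
        commutator_eq_bot_iff_le_centralizer.mpr hDab
      exact le_bot_iff.mp (h3 ▸ h2)
    have hmk := hst (pCore p G) (pCore_isPGroup p G) d hq
    have hT : IsPGroup p ↥((pCore p (G ⧸ centralizer (pCore p G : Set G))).comap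
        (QuotientGroup.mk' (centralizer (pCore p G : Set G)))) := by
      apply IsPGroup.comap_of_ker_isPGroup (pCore_isPGroup p _)
      rw [QuotientGroup.ker_mk']
      exact (pCore_isPGroup p G).to_le hc
    have hTn : ((pCore p (G ⧸ centralizer (pCore p G : Set G))).comap
        (QuotientGroup.mk' (centralizer (pCore p G : Set G)))).Normal :=
      Subgroup.Normal.comap (pCore_normal p _) _
    exact le_pCore _ hTn hT hmk
  -- Step 2: conjugates of elements of D commute with D
  have hstep2 : ∀ g : G, ∀ y ∈ dStarOf (S : Subgroup G), ∀ d ∈ dStarOf (S : Subgroup G),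
      d * (g * y * g⁻¹) = (g * y * g⁻¹) * d := by
    intro g y hy
    have hy'Q : g * y * g⁻¹ ∈ pCore p G := (pCore_normal p G).conj_mem y (hDQ hy) g
    have hy'S : g * y * g⁻¹ ∈ (S : Subgroup G) := hQS hy'Q
    apply dStarOf_comm_of_class_two _ (g * y * g⁻¹) hy'S
    rw [sup_zpowers_eq_closure]
    have hy'Dg : g * y * g⁻¹ ∈ (dStarOf (S : Subgroup G)).map (MulAut.conj g).toMonoidHom :=
      ⟨y, hy, by simp [MulAut.conj_apply]⟩
    have hDgab : (dStarOf (S : Subgroup G)).map (MulAut.conj g).toMonoidHom ≤
        centralizer ((dStarOf (S : Subgroup G)).map (MulAut.conj g).toMonoidHom : Set G) := by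
      rintro _ ⟨a, ha, rfl⟩ _ ⟨b, hb, rfl⟩
      have := hDab ha b hb
      change (MulAut.conj g) b * (MulAut.conj g) a = (MulAut.conj g) a * (MulAut.conj g) b
      rw [← map_mul, ← map_mul, this]
    have hDDg : ∀ d ∈ dStarOf (S : Subgroup G),
        ∀ e ∈ (dStarOf (S : Subgroup G)).map (MulAut.conj g).toMonoidHom,
        d * e * d⁻¹ ∈ (dStarOf (S : Subgroup G)).map (MulAut.conj g).toMonoidHom := by
      rintro d hd _ ⟨y2, hy2, rfl⟩
      have hd' : g⁻¹ * d * g ∈ (S : Subgroup G) := by
        have := (pCore_normal p G).conj_mem d (hDQ hd) g⁻¹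
        rw [inv_inv] at this
        exact hQS this
      refine ⟨(g⁻¹ * d * g) * y2 * (g⁻¹ * d * g)⁻¹, hDnorm _ hd' y2 hy2, ?_⟩
      simp only [MulEquiv.coe_toMonoidHom, MulAut.conj_apply]
      group
    have hc1 : ∀ a ∈ dStarOf (S : Subgroup G), ⁅a, g * y * g⁻¹⁆ ∈
        dStarOf (S : Subgroup G) ⊓ (dStarOf (S : Subgroup G)).map (MulAut.conj g).toMonoidHom := by
      intro a ha
      refine Subgroup.mem_inf.mpr ⟨?_, ?_⟩
      · have := hDnorm (g * y * g⁻¹) hy'S a⁻¹ (inv_mem ha)
        have h2 : ⁅a, g * y * g⁻¹⁆ = a * ((g * y * g⁻¹) * a⁻¹ * (g * y * g⁻¹)⁻¹) := by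
          simp [commutatorElement_def, mul_assoc]
        rw [h2]; exact mul_mem ha this
      · have := hDDg a ha (g * y * g⁻¹) hy'Dg
        exact mul_mem this (inv_mem hy'Dg)
    apply class_two_of_gens _
      (dStarOf (S : Subgroup G) ⊓ (dStarOf (S : Subgroup G)).map (MulAut.conj g).toMonoidHom)
    · rintro z ⟨hzD, hzDg⟩ x (hx | hx)
      · exact hDab hzD x hx
      · rw [Set.mem_singleton_iff] at hx; subst hx
        exact hDgab hzDg _ hy'Dg
    · rintro a (ha | ha) b (hb | hb)
      · have h1 : b * a = a * b := hDab ha b hb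
        rw [commutatorElement_eq_one_iff_mul_comm.mpr h1.symm]; exact one_mem _
      · rw [Set.mem_singleton_iff] at hb; subst hb
        exact hc1 a ha
      · rw [Set.mem_singleton_iff] at ha; subst ha
        rw [← commutatorElement_inv]
        exact inv_mem (hc1 b hb)
      · rw [Set.mem_singleton_iff] at ha hb; subst ha; subst hb
        rw [commutatorElement_self]; exact one_mem _
  -- Step 3: the normal closure W of D is abelian
  have hWQ : normalClosure (dStarOf (S : Subgroup G) : Set G) ≤ pCore p G :=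
    normalClosure_le_normal hDQ
  have hWab : normalClosure (dStarOf (S : Subgroup G) : Set G) ≤
      centralizer (normalClosure (dStarOf (S : Subgroup G) : Set G) : Set G) := by
    have h1 : Group.conjugatesOfSet (dStarOf (S : Subgroup G) : Set G) ⊆
        centralizer (Group.conjugatesOfSet (dStarOf (S : Subgroup G) : Set G)) := by
      intro u hu v hv
      rw [Group.mem_conjugatesOfSet_iff] at hu hv
      obtain ⟨y, hy, hyu⟩ := hu
      obtain ⟨y2, hy2, hyv⟩ := hv
      obtain ⟨g, rfl⟩ := isConj_iff.mp hyu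
      obtain ⟨h, rfl⟩ := isConj_iff.mp hyv
      have := hstep2 (h⁻¹ * g) y hy y2 hy2
      calc h * y2 * h⁻¹ * (g * y * g⁻¹)
          = h * (y2 * (h⁻¹ * g * y * (h⁻¹ * g)⁻¹)) * h⁻¹ := by group
        _ = h * ((h⁻¹ * g * y * (h⁻¹ * g)⁻¹) * y2) * h⁻¹ := by rw [this]
        _ = g * y * g⁻¹ * (h * y2 * h⁻¹) := by group
    unfold normalClosure
    rw [centralizer_closure]
    exact (closure_le _).mpr h1
  -- Step 4: W has the family property
  have hstep4 : ∀ x ∈ (S : Subgroup G),
      ⁅⁅normalClosure (dStarOf (S : Subgroup G) : Set G) ⊔ zpowers x,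
        normalClosure (dStarOf (S : Subgroup G) : Set G) ⊔ zpowers x⁆,
        normalClosure (dStarOf (S : Subgroup G) : Set G) ⊔ zpowers x⁆ = ⊥ →
      ∀ w ∈ normalClosure (dStarOf (S : Subgroup G) : Set G), w * x = x * w := by
    intro x hxS hcl
    have hquad : ⁅⁅normalClosure (dStarOf (S : Subgroup G) : Set G), zpowers x⁆, zpowers x⁆ = ⊥ :=
      le_bot_iff.mp (hcl ▸ commutator_mono (commutator_mono le_sup_left le_sup_right) le_sup_right)
    have hWp : IsPGroup p ↥(normalClosure (dStarOf (S : Subgroup G) : Set G)) :=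
      (pCore_isPGroup p G).to_le hWQ
    have hmk := hst (normalClosure (dStarOf (S : Subgroup G) : Set G)) hWp x hquad
    have hWn : (normalClosure (dStarOf (S : Subgroup G) : Set G)).Normal := normalClosure_normal
    have key : ∀ g : G, ∀ d ∈ dStarOf (S : Subgroup G), d * (g * x * g⁻¹) = (g * x * g⁻¹) * d := by
      intro g
      have hmk' : (QuotientGroup.mk (g * x * g⁻¹) :
          G ⧸ centralizer (normalClosure (dStarOf (S : Subgroup G) : Set G) : Set G)) ∈
          pCore p (G ⧸ centralizer (normalClosure (dStarOf (S : Subgroup G) : Set G) : Set G)) := by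
        have := (pCore_normal p (G ⧸ centralizer (normalClosure (dStarOf (S : Subgroup G) : Set G) : Set G))).conj_mem
          _ hmk (QuotientGroup.mk g)
        simpa using this
      have hle : pCore p (G ⧸ centralizer (normalClosure (dStarOf (S : Subgroup G) : Set G) : Set G)) ≤
          (S : Subgroup G).map (QuotientGroup.mk' (centralizer (normalClosure (dStarOf (S : Subgroup G) : Set G) : Set G))) := by
        have := (pCore_isPGroup p (G ⧸ centralizer (normalClosure (dStarOf (S : Subgroup G) : Set G) : Set G))).le_sylow_of_normal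
          (S.mapSurjective (QuotientGroup.mk'_surjective _))
        rwa [Sylow.coe_mapSurjective] at this
      obtain ⟨s, hs, hsx⟩ := hle hmk'
      have hcC : s⁻¹ * (g * x * g⁻¹) ∈ centralizer (normalClosure (dStarOf (S : Subgroup G) : Set G) : Set G) :=
        QuotientGroup.eq.mp hsx
      have hc1 : ∀ w ∈ normalClosure (dStarOf (S : Subgroup G) : Set G),
          w * (s⁻¹ * (g * x * g⁻¹)) = (s⁻¹ * (g * x * g⁻¹)) * w := fun w hw => hcC w hw
      have hquad' : ∀ w ∈ normalClosure (dStarOf (S : Subgroup G) : Set G),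
          ⁅w, g * x * g⁻¹⁆ * (g * x * g⁻¹) = (g * x * g⁻¹) * ⁅w, g * x * g⁻¹⁆ := by
        intro w hw
        have hw' : g⁻¹ * w * g ∈ normalClosure (dStarOf (S : Subgroup G) : Set G) := by
          have := hWn.conj_mem w hw g⁻¹
          rwa [inv_inv] at this
        have h1 : ⁅g⁻¹ * w * g, x⁆ ∈ ⁅normalClosure (dStarOf (S : Subgroup G) : Set G), zpowers x⁆ :=
          commutator_mem_commutator hw' (mem_zpowers x)
        have h2 : ⁅⁅g⁻¹ * w * g, x⁆, x⁆ ∈
            ⁅⁅normalClosure (dStarOf (S : Subgroup G) : Set G), zpowers x⁆, zpowers x⁆ :=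
          commutator_mem_commutator h1 (mem_zpowers x)
        rw [hquad, mem_bot, commutatorElement_eq_one_iff_mul_comm] at h2
        have h3 : ⁅w, g * x * g⁻¹⁆ = g * ⁅g⁻¹ * w * g, x⁆ * g⁻¹ := by
          rw [conjugate_commutatorElement]
          congr 1
          group
        rw [h3]
        calc g * ⁅g⁻¹ * w * g, x⁆ * g⁻¹ * (g * x * g⁻¹)
            = g * (⁅g⁻¹ * w * g, x⁆ * x) * g⁻¹ := by group
          _ = g * (x * ⁅g⁻¹ * w * g, x⁆) * g⁻¹ := by rw [h2]
          _ = g * x * g⁻¹ * (g * ⁅g⁻¹ * w * g, x⁆ * g⁻¹) := by group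
      have hsD : ∀ d ∈ dStarOf (S : Subgroup G), d * s = s * d := by
        apply dStarOf_comm_of_class_two _ s hs
        rw [sup_zpowers_eq_closure]
        have hcomm : ∀ a ∈ dStarOf (S : Subgroup G),
            ⁅a, s⁆ ∈ dStarOf (S : Subgroup G) ⊓ centralizer ({s} : Set G) := by
          intro a ha
          have haW : a ∈ normalClosure (dStarOf (S : Subgroup G) : Set G) := le_normalClosure ha
          have e1 : ⁅a, s⁆ = ⁅a, g * x * g⁻¹⁆ := by
            have hac : ⁅a, s⁻¹ * (g * x * g⁻¹)⁆ = 1 :=
              commutatorElement_eq_one_iff_mul_comm.mpr (hc1 a haW)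
            have h7 : ⁅a, g * x * g⁻¹⁆ = ⁅a, s * (s⁻¹ * (g * x * g⁻¹))⁆ := by
              congr 1; group
            rw [h7, commutatorElement_mul_right_eq_mul_conj, hac]
            group
          refine Subgroup.mem_inf.mpr ⟨?_, ?_⟩
          · have := hDnorm s hs a⁻¹ (inv_mem ha)
            have h2 : ⁅a, s⁆ = a * (s * a⁻¹ * s⁻¹) := by
              simp [commutatorElement_def, mul_assoc]
            rw [h2]; exact mul_mem ha this
          · rw [mem_centralizer_iff]
            intro t ht
            rw [Set.mem_singleton_iff] at ht; subst ht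
            rw [e1]
            have hcw : ⁅a, g * x * g⁻¹⁆ ∈ normalClosure (dStarOf (S : Subgroup G) : Set G) := by
              have := hWn.conj_mem a⁻¹ (inv_mem haW) (g * x * g⁻¹)
              have h2 : ⁅a, g * x * g⁻¹⁆ = a * ((g * x * g⁻¹) * a⁻¹ * (g * x * g⁻¹)⁻¹) := by
                simp [commutatorElement_def, mul_assoc]
              rw [h2]; exact mul_mem haW this
            have h5 := hquad' a haW
            have h6 := hc1 _ hcw
            -- k := ⁅a, x'⁆ ; h5 : k * x' = x' * k ; h6 : k * (t⁻¹ * x') = t⁻¹ * x' * k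
            have h8 : ⁅a, g * x * g⁻¹⁆ * t⁻¹ = t⁻¹ * ⁅a, g * x * g⁻¹⁆ := by
              have h9 : ⁅a, g * x * g⁻¹⁆ * t⁻¹ * (g * x * g⁻¹) = t⁻¹ * ⁅a, g * x * g⁻¹⁆ * (g * x * g⁻¹) := by
                rw [mul_assoc, h6, mul_assoc t⁻¹, mul_assoc t⁻¹, h5]
              exact mul_right_cancel h9
            calc t * ⁅a, g * x * g⁻¹⁆ = t * (⁅a, g * x * g⁻¹⁆ * t⁻¹) * t := by group
              _ = t * (t⁻¹ * ⁅a, g * x * g⁻¹⁆) * t := by rw [h8]
              _ = ⁅a, g * x * g⁻¹⁆ * t := by group
        apply class_two_of_gens _ (dStarOf (S : Subgroup G) ⊓ centralizer ({s} : Set G))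
        · rintro z ⟨hzD, hzs⟩ y (hy | hy)
          · exact hDab hzD y hy
          · rw [Set.mem_singleton_iff] at hy; subst hy
            exact (mem_centralizer_iff.mp hzs) y rfl
        · rintro a (ha | ha) b (hb | hb)
          · have h1 : b * a = a * b := hDab ha b hb
            rw [commutatorElement_eq_one_iff_mul_comm.mpr h1.symm]; exact one_mem _
          · rw [Set.mem_singleton_iff] at hb; subst hb
            exact hcomm a ha
          · rw [Set.mem_singleton_iff] at ha; subst ha
            rw [← commutatorElement_inv]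
            exact inv_mem (hcomm b hb)
          · rw [Set.mem_singleton_iff] at ha hb; subst ha; subst hb
            rw [commutatorElement_self]; exact one_mem _
      intro d hd
      have hdW : d ∈ normalClosure (dStarOf (S : Subgroup G) : Set G) := le_normalClosure hd
      have h1 := hsD d hd
      have h2 := hc1 d hdW
      calc d * (g * x * g⁻¹) = d * s * (s⁻¹ * (g * x * g⁻¹)) := by group
        _ = s * (d * (s⁻¹ * (g * x * g⁻¹))) := by rw [h1, mul_assoc]
        _ = s * ((s⁻¹ * (g * x * g⁻¹)) * d) := by rw [h2]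
        _ = (g * x * g⁻¹) * d := by group
    intro w hw
    have hle : normalClosure (dStarOf (S : Subgroup G) : Set G) ≤ centralizer ({x} : Set G) := by
      unfold normalClosure
      apply (closure_le _).mpr
      intro u hu
      rw [Group.mem_conjugatesOfSet_iff] at hu
      obtain ⟨y, hy, hyu⟩ := hu
      obtain ⟨g, rfl⟩ := isConj_iff.mp hyu
      rw [SetLike.mem_coe, mem_centralizer_iff]
      intro t ht
      rw [Set.mem_singleton_iff] at ht; subst ht
      have := key g⁻¹ y hy
      rw [inv_inv] at this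
      calc t * (g * y * g⁻¹) = g * ((g⁻¹ * t * g) * y) * g⁻¹ := by group
        _ = g * (y * (g⁻¹ * t * g)) * g⁻¹ := by rw [this]
        _ = g * y * g⁻¹ * t := by group
    have := hle hw
    exact ((mem_centralizer_iff.mp this) x rfl).symm
  -- Step 5
  have hWD : normalClosure (dStarOf (S : Subgroup G) : Set G) ≤ dStarOf (S : Subgroup G) :=
    le_dStarOf _ _ (hWQ.trans hQS) hWab hstep4
  have hDW : dStarOf (S : Subgroup G) = normalClosure (dStarOf (S : Subgroup G) : Set G) :=
    le_antisymm le_normalClosure hWD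
  rw [hDW]
  exact normalClosure_normal

end Cfsg.Agent.S3060
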