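import Mathlib
import Cfsg.Statements.S3062
import Cfsg.Agent.H57.DStar
import Cfsg.Agent.H57.DStarThm
import Cfsg.Agent.H57.Replace

set_option autoImplicit false
open Cfsg

namespace Cfsg.Agent.S3062

open Subgroup Cfsg.Agent.H57
open scoped commutatorElement

theorem mem_normalizer_of_conj_mem {G : Type*} [Group G] [Finite G] (A : Subgroup G) (x : G)
    (h : ∀ a ∈ A, x * a * x⁻¹ ∈ A) : x ∈ normalizer (A : Set G) := by
  have hle : A.map (MulAut.conj x).toMonoidHom ≤ A := by
    rintro _ ⟨a, ha, rfl⟩
    simpa [MulAut.conj_apply] using h a ha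
  have heq : A.map (MulAut.conj x).toMonoidHom = A :=
    eq_of_le_of_card_ge hle (by rw [card_map_of_injective (MulAut.conj x).injective])
  rw [mem_normalizer_iff]
  intro g
  constructor
  · exact h g
  · intro hh
    rw [← heq] at hh
    obtain ⟨a, ha, e⟩ := hh
    have e' : x * a * x⁻¹ = x * g * x⁻¹ := by simpa [MulAut.conj_apply] using e
    have : a = g := by
      have := mul_right_cancel e'
      exact mul_left_cancel this
    exact this ▸ ha

theorem sup_abelian {G : Type*} [Group G] (A D : Subgroup G) (hA : A ≤ centralizer (A : Set G))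
    (hD : D ≤ centralizer (D : Set G)) (hAD : A ≤ centralizer (D : Set G)) :
    A ⊔ D ≤ centralizer ((A ⊔ D : Subgroup G) : Set G) := by
  have c1 : A ⊔ D ≤ centralizer (A : Set G) := sup_le hA (le_centralizer_iff.mp hAD)
  have c2 : A ⊔ D ≤ centralizer (D : Set G) := sup_le hAD hD
  exact sup_le (le_centralizer_iff.mp c1) (le_centralizer_iff.mp c2)

/-- Let S be a finite p-group, J(S) the subgroup generated by the abelian subgroups of S of largest order and Z(J(S)) its centre. Then Z(S) ≤ D*(S) ≤ Z(J(S)), and every maximal normal abelian subgroup of S contains D*(S). -/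
theorem result {S : Type*} [Group S] [Finite S] {p : ℕ} [Fact p.Prime]
    (hS : IsPGroup p S) :
    Subgroup.center S ≤ Cfsg.dStar S ∧
    Cfsg.dStar S ≤ Cfsg.thompsonSubgroupA S ⊓ Subgroup.centralizer (Cfsg.thompsonSubgroupA S : Set S) ∧
    ∀ A : Subgroup S, A.Normal → IsMulCommutative A →
      (∀ B : Subgroup S, B.Normal → IsMulCommutative B → A ≤ B → B = A) → Cfsg.dStar S ≤ A := by
  classical
  have hnil : Group.IsNilpotent S := hS.isNilpotent
  have hDfam := dStar_mem_family (S := S)
  have hDab : dStar S ≤ centralizer (dStar S : Set S) := dStar_le_centralizer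
  have hDn : (dStar S).Normal := by
    constructor
    intro d hd g
    have := dStar_map_equiv_le (MulAut.conj g) (mem_map_of_mem _ hd)
    simpa [MulAut.conj_apply] using this
  have hcommD : ∀ x ∈ dStar S, ∀ a : S, ⁅x, a⁆ ∈ dStar S := by
    intro x hx a
    have := hDn.conj_mem x⁻¹ (inv_mem hx) a
    have h2 : ⁅x, a⁆ = x * (a * x⁻¹ * a⁻¹) := by simp [commutatorElement_def, mul_assoc]
    rw [h2]; exact mul_mem hx this
  have hcl : ∀ (A : Subgroup S), A ≤ centralizer (A : Set S) → ∀ a ∈ A,
      (∀ d ∈ dStar S, d * a * d⁻¹ ∈ A) → ∀ d ∈ dStar S, d * a = a * d := by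
    intro A hAab a ha hnorm
    apply hDfam.2 a
    rw [sup_zpowers_eq_closure]
    have hc1 : ∀ d ∈ dStar S, ⁅d, a⁆ ∈ dStar S ⊓ A := by
      intro d hd
      exact mem_inf.mpr ⟨hcommD d hd a, mul_mem (hnorm d hd) (inv_mem ha)⟩
    apply class_two_of_gens _ (dStar S ⊓ A)
    · rintro z hz y (hy | hy)
      · exact hDab (mem_inf.mp hz).1 y hy
      · rw [Set.mem_singleton_iff] at hy; subst hy
        exact hAab (mem_inf.mp hz).2 y ha
    · rintro u (hu | hu) v (hv | hv)
      · have h1 : v * u = u * v := hDab hu v hv
        rw [commutatorElement_eq_one_iff_mul_comm.mpr h1.symm]; exact one_mem _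
      · rw [Set.mem_singleton_iff] at hv; subst hv
        exact hc1 u hu
      · rw [Set.mem_singleton_iff] at hu; subst hu
        rw [← commutatorElement_inv]
        exact inv_mem (hc1 v hv)
      · rw [Set.mem_singleton_iff] at hu hv; subst hu; subst hv
        rw [commutatorElement_self]; exact one_mem _
  have hDle_of : ∀ A ∈ maxAbelianSubgroups S, A ≤ centralizer (dStar S : Set S) → dStar S ≤ A := by
    intro A hAmax hAD
    have hAab := le_centralizer_iff_isMulCommutative.mpr hAmax.1
    have hsup := sup_abelian A (dStar S) hAab hDab hAD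
    have hcard := hAmax.2 (A ⊔ dStar S) (le_centralizer_iff_isMulCommutative.mp hsup)
    have h := eq_of_le_of_card_ge (le_sup_left : A ≤ A ⊔ dStar S) hcard
    calc dStar S ≤ A ⊔ dStar S := le_sup_right
      _ = A := h.symm
  refine ⟨?_, ?_, ?_⟩
  · apply le_sSup
    refine ⟨le_centralizer_iff_isMulCommutative.mp (center_le_centralizer _), ?_⟩
    intro x _ a ha
    exact (mem_center_iff.mp ha x).symm
  · have key : ∀ A ∈ maxAbelianSubgroups S, A ≤ centralizer (dStar S : Set S) := by
      by_contra hcon
      push Not at hcon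
      let ℬ : Set (Subgroup S) :=
        {A | A ∈ maxAbelianSubgroups S ∧ ¬ A ≤ centralizer (dStar S : Set S)}
      have hne : Nonempty ↥ℬ := by
        obtain ⟨A, h1, h2⟩ := hcon
        exact ⟨⟨A, h1, h2⟩⟩
      obtain ⟨⟨A, hAmax, hAbad⟩, hAbest⟩ :=
        Finite.exists_max (fun A : ↥ℬ => Nat.card ↥((A : Subgroup S) ⊓ dStar S))
      have hAab := le_centralizer_iff_isMulCommutative.mpr hAmax.1
      by_cases hN : dStar S ≤ normalizer (A : Set S)
      · apply hAbad
        intro a ha d hd
        refine hcl A hAab a ha (fun d hd => ?_) d hd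
        exact (mem_normalizer_iff.mp (hN hd) a).mp ha
      · obtain ⟨n, hn⟩ := hnil.nilpotent'
        have hex : ∃ i, ¬ dStar S ⊓ Subgroup.upperCentralSeries S i ≤ normalizer (A : Set S) :=
          ⟨n, by rw [hn, inf_top_eq]; exact hN⟩
        have hi_spec := Nat.find_spec hex
        have hi0 : Nat.find hex ≠ 0 := by
          intro h0
          rw [h0, Subgroup.upperCentralSeries_zero, inf_bot_eq] at hi_spec
          exact hi_spec bot_le
        obtain ⟨j, hj⟩ := Nat.exists_eq_succ_of_ne_zero hi0
        have hjmin : dStar S ⊓ Subgroup.upperCentralSeries S j ≤ normalizer (A : Set S) := by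
          by_contra h
          have := Nat.find_min' hex h
          omega
        obtain ⟨x, hx, hxN⟩ := SetLike.not_le_iff_exists.mp hi_spec
        have hxD : x ∈ dStar S := (mem_inf.mp hx).1
        have hxZ : x ∈ Subgroup.upperCentralSeries S (j + 1) := by
          have := (mem_inf.mp hx).2
          rwa [hj] at this
        have hxa : ∀ a : S, ⁅x, a⁆ ∈ normalizer (A : Set S) := by
          intro a
          apply hjmin
          exact mem_inf.mpr ⟨hcommD x hxD a, Subgroup.mem_upperCentralSeries_succ_iff.mp hxZ a⟩
        have hMD : commSub x A ≤ dStar S := by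
          apply commSub_le
          intro a _
          exact hcommD x hxD a
        have hMab : commSub x A ≤ centralizer (commSub x A : Set S) :=
          hMD.trans (hDab.trans (centralizer_le hMD))
        have hE : A ⊓ dStar S ≤ centralizer (commSub x A : Set S) :=
          inf_le_right.trans (hDab.trans (centralizer_le hMD))
        have hab := aStar_abelian A hAab x (A ⊓ dStar S) inf_le_left hMab hE
        have hcard := card_le_card_aStar A x (A ⊓ dStar S)
        have hmaxstar : aStar (A ⊓ dStar S) x A ∈ maxAbelianSubgroups S :=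
          ⟨le_centralizer_iff_isMulCommutative.mp hab, fun C hC => (hAmax.2 C hC).trans hcard⟩
        have hstarN : aStar (A ⊓ dStar S) x A ≤ normalizer (A : Set S) := by
          apply aStar_le _ _ _ _ (inf_le_left.trans le_normalizer) _ le_normalizer
          apply commSub_le
          intro a _
          exact hxa a
        have hstar_good : aStar (A ⊓ dStar S) x A ≤ centralizer (dStar S : Set S) := by
          by_contra hbad
          have hbest := hAbest ⟨_, hmaxstar, hbad⟩
          have hle : A ⊓ dStar S ≤ aStar (A ⊓ dStar S) x A ⊓ dStar S :=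
            le_inf (le_aStar_left _ _ _) inf_le_right
          have heq := eq_of_le_of_card_ge hle hbest
          apply hxN
          apply mem_normalizer_of_conj_mem
          intro a ha
          have h1 : ⁅x, a⁆ ∈ aStar (A ⊓ dStar S) x A ⊓ dStar S :=
            mem_inf.mpr ⟨commSub_le_aStar _ _ _ (commutator_mem_commSub x A a ha),
              hMD (commutator_mem_commSub x A a ha)⟩
          rw [← heq] at h1
          have e : x * a * x⁻¹ = ⁅x, a⁆ * a := by rw [commutatorElement_def]; group
          rw [e]; exact mul_mem (mem_inf.mp h1).1 ha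
        have hDstar : dStar S ≤ aStar (A ⊓ dStar S) x A := hDle_of _ hmaxstar hstar_good
        exact hxN (hstarN (hDstar hxD))
    obtain ⟨A0, hA0⟩ : ∃ A, A ∈ maxAbelianSubgroups S := by
      have hne : Nonempty {B : Subgroup S // IsMulCommutative ↥B} :=
        ⟨⟨⊥, le_centralizer_iff_isMulCommutative.mp bot_le⟩⟩
      obtain ⟨⟨A, hA⟩, hbest⟩ :=
        Finite.exists_max (fun B : {B : Subgroup S // IsMulCommutative ↥B} => Nat.card ↥(B : Subgroup S))
      exact ⟨A, hA, fun B hB => hbest ⟨B, hB⟩⟩
    refine le_inf ?_ ?_
    · exact (hDle_of A0 hA0 (key A0 hA0)).trans (le_sSup hA0)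
    · rw [le_centralizer_iff]
      unfold thompsonSubgroupA
      apply sSup_le
      intro A hA
      exact key A hA
  · intro A hAn hAc hmax
    have hAab := le_centralizer_iff_isMulCommutative.mpr hAc
    have hAD : A ≤ centralizer (dStar S : Set S) := by
      intro a ha d hd
      exact hcl A hAab a ha (fun d _ => hAn.conj_mem a ha d) d hd
    have hsup := sup_abelian A (dStar S) hAab hDab hAD
    have hn : (A ⊔ dStar S).Normal := sup_normal A (dStar S)
    have h := hmax (A ⊔ dStar S) hn (le_centralizer_iff_isMulCommutative.mp hsup) le_sup_left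
    calc dStar S ≤ A ⊔ dStar S := le_sup_right
      _ = A := h

end Cfsg.Agent.S3062
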