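import Mathlib
import Cfsg.Statements.S3063
import Cfsg.Agent.H57.Replace

set_option autoImplicit false
open Cfsg

namespace Cfsg.Agent.S3063

open Subgroup Cfsg.Agent.H57
open scoped commutatorElement

/-- A weak replacement Theorem for metabelian p-groups: let S be a finite p-group whose derived subgroup is abelian and A an abelian subgroup of S of largest possible order. Then the normal closure of A in S contains an abelian subgroup B of the same order as A that is normal in S. -/
theorem result {S : Type*} [Group S] [Finite S] {p : ℕ} [Fact p.Prime]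
    (hS : IsPGroup p S) (hmeta : IsMulCommutative ↥(commutator S))
    (A : Subgroup S) (hA : A ∈ Cfsg.maxAbelianSubgroups S) :
    ∃ B ∈ Cfsg.maxAbelianSubgroups S, B.Normal ∧ B ≤ Subgroup.normalClosure (A : Set S) := by
  classical
  have hSab : commutator S ≤ centralizer (commutator S : Set S) :=
    le_centralizer_iff_isMulCommutative.mpr hmeta
  -- the candidates
  let 𝒯 : Set (Subgroup S) := {B | B ∈ maxAbelianSubgroups S ∧ B ≤ normalClosure (A : Set S)}
  have hne : Nonempty ↥𝒯 := ⟨⟨A, hA, le_normalClosure⟩⟩
  obtain ⟨⟨B, hBmax, hBN⟩, hBbest⟩ :=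
    Finite.exists_max (fun B : ↥𝒯 => Nat.card ↥((B : Subgroup S) ⊓ commutator S))
  have hBab : B ≤ centralizer (B : Set S) := le_centralizer_iff_isMulCommutative.mpr hBmax.1
  refine ⟨B, hBmax, ?_, hBN⟩
  -- every x normalizes B
  have key : ∀ x : S, ∀ a ∈ B, ⁅x, a⁆ ∈ B := by
    intro x
    have hMS : commSub x B ≤ commutator S := by
      apply commSub_le
      intro a _
      rw [commutator_def]
      exact commutator_mem_commutator (mem_top x) (mem_top a)
    have hMab : commSub x B ≤ centralizer (commSub x B : Set S) :=
      hMS.trans (hSab.trans (centralizer_le hMS))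
    have hE : B ⊓ commutator S ≤ centralizer (commSub x B : Set S) :=
      inf_le_right.trans (hSab.trans (centralizer_le hMS))
    have hab := aStar_abelian B hBab x (B ⊓ commutator S) inf_le_left hMab hE
    have hcard := card_le_card_aStar B x (B ⊓ commutator S)
    have hmem : aStar (B ⊓ commutator S) x B ∈ 𝒯 := by
      refine ⟨⟨le_centralizer_iff_isMulCommutative.mp hab, fun C hC => (hBmax.2 C hC).trans hcard⟩, ?_⟩
      apply aStar_le _ _ _ _ (inf_le_left.trans hBN) _ hBN
      apply commSub_le
      intro a ha
      have h1 : x * a * x⁻¹ ∈ normalClosure (A : Set S) :=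
        (normalClosure_normal (s := (A : Set S))).conj_mem a (hBN ha) x
      rw [commutatorElement_def]
      exact mul_mem h1 (inv_mem (hBN ha))
    have hbest := hBbest ⟨_, hmem⟩
    have hle : B ⊓ commutator S ≤ aStar (B ⊓ commutator S) x B ⊓ commutator S :=
      le_inf (le_aStar_left _ _ _) inf_le_right
    have heq := eq_of_le_of_card_ge hle hbest
    intro a ha
    have h1 : ⁅x, a⁆ ∈ aStar (B ⊓ commutator S) x B ⊓ commutator S :=
      mem_inf.mpr ⟨commSub_le_aStar _ _ _ (commutator_mem_commSub x B a ha),
        hMS (commutator_mem_commSub x B a ha)⟩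
    rw [← heq] at h1
    exact (mem_inf.mp h1).1
  constructor
  intro a ha x
  have h := key x a ha
  have e : x * a * x⁻¹ = ⁅x, a⁆ * a := by rw [commutatorElement_def]; group
  rw [e]
  exact mul_mem h ha

end Cfsg.Agent.S3063
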