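import Cfsg.Statements.S3069
import Cfsg.Agent.S1991

set_option autoImplicit false
universe u
open Cfsg

namespace Cfsg.Agent.S3069

/-- Let p ≥ 7 be a prime and S a nontrivial Sylow p-subgroup of the finite group G. If N_G(S)/C_G(S) is a p-group (every element of N_G(S) of order prime to p centralizes S), then O^p(G) < G, i.e. G has a nontrivial p-factor group. -/
theorem result {G : Type*} [Group G] [Finite G] {p : ℕ} [Fact p.Prime]
    (hp : 7 ≤ p) (S : Sylow p G) (hS : (S : Subgroup G) ≠ ⊥)
    (hN : ∀ g ∈ Subgroup.normalizer ((S : Subgroup G) : Set G), (orderOf g).Coprime p →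
      g ∈ Subgroup.centralizer ((S : Subgroup G) : Set G)) :
    Cfsg.pResidual p G ≠ ⊤ := by
  obtain ⟨N, hNn, hidx⟩ := Cfsg.Agent.S1991.result (by omega : 5 ≤ p) S hS hN
  haveI := hNn
  have hpp : p.Prime := Fact.out
  intro htop
  have hle : Cfsg.pResidual p G ≤ N := by
    unfold Cfsg.pResidual
    rw [Subgroup.closure_le]
    intro g hg
    have hcard : Nat.card (G ⧸ N) = p := by rw [← Subgroup.index_eq_card]; exact hidx
    have h1 : (QuotientGroup.mk' N g) ^ p = 1 := by
      rw [← hcard]; exact pow_card_eq_one'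
    have h2 : g ^ p ∈ N := by
      rw [← map_pow] at h1
      exact (QuotientGroup.eq_one_iff _).mp h1
    have hg' : (orderOf g).Coprime p := hg
    have h3 : g ^ orderOf g ∈ N := by rw [pow_orderOf_eq_one]; exact one_mem _
    obtain ⟨m, hm⟩ := exists_pow_eq_self_of_coprime hg'.symm
    rw [← hm]
    exact pow_mem h2 m
  have hNtop : N = ⊤ := top_le_iff.mp (htop ▸ hle)
  rw [hNtop, Subgroup.index_top] at hidx
  exact hpp.one_lt.ne hidx

end Cfsg.Agent.S3069
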