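import Cfsg.Statements.S3071
import Cfsg.Agent.H29.ZJLocal

set_option autoImplicit false
open Cfsg

namespace Cfsg.Agent.S3071

/-- Let p be an odd prime and S a Sylow p-subgroup of the finite group G such that, for every subgroup P with Z(S) ≤ P ≤ S, the normalizer N_G(P) has no section isomorphic to SL₂(p). Let J(S) be the subgroup generated by the abelian subgroups of S of largest order. Then two elements of S are conjugate in G if and only if they are conjugate in N_G(Z(J(S))). -/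
theorem result {G : Type*} [Group G] [Finite G] {p : ℕ} [Fact p.Prime]
    (hp : p ≠ 2) (S : Sylow p G)
    (hfree : ∀ P : Subgroup G, (S : Subgroup G) ⊓ Subgroup.centralizer ((S : Subgroup G) : Set G) ≤ P → P ≤ S →
      ¬ ∃ (H K : Subgroup G) (hK : (K.subgroupOf H).Normal), H ≤ Subgroup.normalizer (P : Set G) ∧
        Nonempty ((H ⧸ K.subgroupOf H) ≃* Matrix.SpecialLinearGroup (Fin 2) (ZMod p))) :
    ∀ x ∈ S, ∀ y ∈ S, (∃ g : G, g * x * g⁻¹ = y) ↔
      ∃ n ∈ Subgroup.normalizer (Cfsg.centerThompsonAOf (S : Subgroup G) : Set G), n * x * n⁻¹ = y := by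
  intro x hx y hy
  constructor
  · rintro ⟨g, hg⟩
    have hfree' : ∀ P : Subgroup G,
        (S : Subgroup G) ⊓ Subgroup.centralizer ((S : Subgroup G) : Set G) ≤ P →
        P ≤ (S : Subgroup G) → ¬ Cfsg.Agent.H29.InvSL p ↥(Subgroup.normalizer (P : Set G)) := by
      intro P hZ hP h
      obtain ⟨K, L, hL, hK, hiso⟩ := Cfsg.Agent.H29.section_of_invSL _ h
      exact hfree P hZ hP ⟨K, L, hL, hK, hiso⟩
    have hA : ({x} : Set G) ⊆ ((S : Subgroup G) : Set G) := by
      rintro _ rfl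
      exact hx
    have hgA : (fun a => g * a * g⁻¹) '' ({x} : Set G) ⊆ ((S : Subgroup G) : Set G) := by
      rintro _ ⟨a, rfl, rfl⟩
      show g * a * g⁻¹ ∈ (S : Subgroup G)
      rw [hg]
      exact hy
    obtain ⟨n, hn, hna⟩ := Cfsg.Agent.H29.ZC.ctl_nZ_local hp S hfree' {x} hA g hgA
    rw [Cfsg.Agent.H29.centerThompsonAOf_eq]
    exact ⟨n, hn, (hna x rfl).trans hg⟩
  · rintro ⟨n, _, hn⟩
    exact ⟨n, hn⟩

end Cfsg.Agent.S3071
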