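import Mathlib
import Cfsg.Statements.S3074
import Cfsg.Agent.H51.QdSylow2
import Cfsg.Agent.H89.Extra3

set_option autoImplicit false
open Cfsg

namespace Cfsg.Agent.S3074

open Cfsg.Agent.H51 Matrix

section heis
variable {F : Type*} [Field F]

theorem blockA_eq_of_mem {M : affSub F} (hM : M ∈ affU F) :
    blockA M = sl2U F ((blockA M : Matrix (Fin 2) (Fin 2) F) 0 1) :=
  eq_sl2U_of_mem (A := blockA M) hM

theorem blockA_pow {M : affSub F} (hM : M ∈ affU F) (n : ℕ) :
    blockA (M ^ n) = sl2U F (n • (blockA M : Matrix (Fin 2) (Fin 2) F) 0 1) := by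
  rw [← blockHom_apply, map_pow, blockHom_apply, blockA_eq_of_mem hM, sl2U_pow, sl2U_01]

theorem transl_pow {M : affSub F} (hM : M ∈ affU F) (n : ℕ) :
    transl (M ^ n) = ![(n : F) * transl M 0 +
      (n.choose 2 : F) * ((blockA M : Matrix (Fin 2) (Fin 2) F) 0 1 * transl M 1),
      (n : F) * transl M 1] := by
  induction n with
  | zero =>
    rw [pow_zero, transl_one]
    ext i
    fin_cases i <;> simp
  | succ n ih =>
    rw [pow_succ, transl_mul, ih, blockA_pow hM n]
    have hc : ((n + 1).choose 2 : F) = (n : F) + (n.choose 2 : F) := by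
      have : (n + 1).choose 2 = n + n.choose 2 := by
        rw [Nat.choose_succ_succ' n 1, Nat.choose_one_right]
      rw [this]
      push_cast
      ring
    ext i
    fin_cases i
    · simp [sl2U, Matrix.mulVec, dotProduct, hc]
      ring
    · simp [sl2U, Matrix.mulVec, dotProduct]
      ring

theorem pow_char_eq_one (p : ℕ) [Fact p.Prime] [CharP F p] (hp : p ≠ 2) {M : affSub F}
    (hM : M ∈ affU F) : M ^ p = 1 := by
  have hpp : p.Prime := Fact.out
  have hp0 : (p : F) = 0 := CharP.cast_eq_zero F p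
  have hc0 : (p.choose 2 : F) = 0 := by
    rw [CharP.cast_eq_zero_iff F p]
    exact hpp.dvd_choose_self (by norm_num) (lt_of_le_of_ne hpp.two_le (Ne.symm hp))
  apply aff_ext
  · rw [blockA_pow hM, blockA_one, ← sl2U_zero]
    congr 1
    rw [nsmul_eq_mul, hp0, zero_mul]
  · rw [transl_pow hM, transl_one, hp0, hc0]
    ext i
    fin_cases i <;> simp

/-- Parametrisation of the unitriangular affine group. -/
def affUEquiv (F : Type*) [Field F] : affU F ≃ F × (Fin 2 → F) where
  toFun M := ((blockA M.1 : Matrix (Fin 2) (Fin 2) F) 0 1, transl M.1)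
  invFun x := ⟨mkAff (sl2U F x.1) x.2, by
    show blockA (mkAff (sl2U F x.1) x.2) ∈ sl2Uni F
    rw [blockA_mkAff]
    exact sl2U_mem x.1⟩
  left_inv M := by
    apply Subtype.ext
    apply aff_ext
    · rw [blockA_mkAff]
      exact (blockA_eq_of_mem M.2).symm
    · rw [transl_mkAff]
  right_inv x := by
    apply Prod.ext
    · show (blockA (mkAff (sl2U F x.1) x.2) : Matrix (Fin 2) (Fin 2) F) 0 1 = x.1
      rw [blockA_mkAff, sl2U_01]
    · show transl (mkAff (sl2U F x.1) x.2) = x.2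
      rw [transl_mkAff]

theorem card_affU [Fintype F] : Nat.card (affU F) = Fintype.card F ^ 3 := by
  rw [Nat.card_congr (affUEquiv F), Nat.card_eq_fintype_card, Fintype.card_prod, Fintype.card_fun,
    Fintype.card_fin]
  ring

theorem affU_noncomm : ∃ a b : affSub F, a ∈ affU F ∧ b ∈ affU F ∧ a * b ≠ b * a := by
  refine ⟨uElt F 1, mkAff 1 ![0, 1], uElt_mem 1, ker_le_affU (mkAff_one_mem_ker _), ?_⟩
  intro h
  have h2 := congrArg (fun M => transl M 0) h
  simp only [transl_mul, uElt, blockA_mkAff, transl_mkAff] at h2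
  simp [sl2U, Matrix.mulVec, dotProduct] at h2

end heis

theorem aux (p : ℕ) [Fact p.Prime] (hp : p ≠ 2)
    (Q : Subgroup (Matrix.SpecialLinearGroup (Fin 3) (ZMod p))) (hQ : Q = affSub (ZMod p))
    (P : Sylow p ↥Q) :
    Cfsg.IsExtraspecial p ↥P ∧ Nat.card P = p ^ 3 ∧ Monoid.exponent ↥P = p := by
  subst hQ
  have hpp : p.Prime := Fact.out
  obtain ⟨g, hg⟩ := sylow_eq_conj (F := ZMod p) (p := p) P
  have hmem : ∀ x : affSub (ZMod p), x ∈ (P : Subgroup (affSub (ZMod p))) ↔
      ∃ m ∈ affU (ZMod p), x = g * m * g⁻¹ := by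
    intro x
    rw [hg, Subgroup.mem_map]
    constructor
    · rintro ⟨m, hm, rfl⟩
      exact ⟨m, hm, rfl⟩
    · rintro ⟨m, hm, rfl⟩
      exact ⟨m, hm, rfl⟩
  have hx : ∀ x : ↥(P : Subgroup (affSub (ZMod p))), x ^ p = 1 := by
    intro x
    obtain ⟨m, hm, hxm⟩ := (hmem x.1).1 x.2
    apply Subtype.ext
    rw [Subgroup.coe_pow, hxm, conj_pow, pow_char_eq_one p hp hm]
    simp
  have hcard : Nat.card (P : Subgroup (affSub (ZMod p))) = p ^ 3 := by
    rw [hg, Subgroup.card_map_of_injective (MulAut.conj g).injective, card_affU, ZMod.card]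
  have hna : ∃ a b : ↥(P : Subgroup (affSub (ZMod p))), a * b ≠ b * a := by
    obtain ⟨a, b, ha, hb, hab⟩ := affU_noncomm (F := ZMod p)
    refine ⟨⟨g * a * g⁻¹, (hmem _).2 ⟨a, ha, rfl⟩⟩, ⟨g * b * g⁻¹, (hmem _).2 ⟨b, hb, rfl⟩⟩, ?_⟩
    intro h
    apply hab
    have h' : (g * a * g⁻¹) * (g * b * g⁻¹) = (g * b * g⁻¹) * (g * a * g⁻¹) :=
      congrArg Subtype.val h
    calc a * b = g⁻¹ * ((g * a * g⁻¹) * (g * b * g⁻¹)) * g := by group
      _ = g⁻¹ * ((g * b * g⁻¹) * (g * a * g⁻¹)) * g := by rw [h']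
      _ = b * a := by group
  refine ⟨Cfsg.Agent.H89.extraspecial_of_card_cube hcard hna, hcard, ?_⟩
  have hdvd : Monoid.exponent ↥(P : Subgroup (affSub (ZMod p))) ∣ p :=
    Monoid.exponent_dvd_of_forall_pow_eq_one hx
  have hne : Monoid.exponent ↥(P : Subgroup (affSub (ZMod p))) ≠ 1 := by
    intro h
    rw [Monoid.exp_eq_one_iff] at h
    obtain ⟨a, b, hab⟩ := hna
    exact hab (by rw [Subsingleton.elim a 1, Subsingleton.elim b 1])
  exact ((Nat.dvd_prime hpp).1 hdvd).resolve_left hne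

/-- Let p be an odd prime. A Sylow p-subgroup of Qd(p), the split extension of an elementary abelian group of order p² by SL₂(p) acting naturally, is extraspecial of order p³ and exponent p. -/
theorem result (p : ℕ) [Fact p.Prime] (hp : p ≠ 2) (P : Sylow p ↥(Cfsg.qd p)) :
    Cfsg.IsExtraspecial p ↥P ∧ Nat.card P = p ^ 3 ∧ Monoid.exponent ↥P = p :=
  aux p hp (Cfsg.qd p) (qd_eq p) P

end Cfsg.Agent.S3074
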