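import Cfsg.Statements.S3075
import Cfsg.Agent.H57.SL2Split

set_option autoImplicit false
open Cfsg

namespace Cfsg.Agent.S3075

/-- Let p be an odd prime and N a finite group with a normal elementary abelian subgroup A of order p² that is its own centralizer in N, such that N/A is isomorphic to SL₂(p) (over any field F with p elements). Then N splits over A: some subgroup U of N satisfies A ∩ U = 1 and AU = N. -/
theorem result {N : Type*} [Group N] [Finite N] {p : ℕ} [Fact p.Prime] (hp : p ≠ 2)
    (A : Subgroup N) [A.Normal] (hAcomm : IsMulCommutative A) (hAcard : Nat.card A = p ^ 2) (hAexp : Monoid.exponent ↥A = p)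
    (hAself : Subgroup.centralizer (A : Set N) = A)
    {F : Type*} [Field F] [Fintype F] (hF : Fintype.card F = p) (e : N ⧸ A ≃* Matrix.SpecialLinearGroup (Fin 2) F) :
    ∃ U : Subgroup N, A ⊓ U = ⊥ ∧ A ⊔ U = ⊤ := by
  classical
  have hpp : p.Prime := Fact.out
  obtain ⟨k, hk⟩ := hpp.odd_of_ne_two hp
  have hApow : ∀ a ∈ A, a ^ p = 1 := by
    intro a ha
    have := Monoid.pow_exponent_eq_one (⟨a, ha⟩ : A)
    rw [hAexp] at this
    simpa using congrArg Subtype.val this
  have hAc : ∀ a ∈ A, ∀ b ∈ A, a * b = b * a := by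
    intro a ha b hb
    have := hAcomm.is_comm.comm (⟨a, ha⟩ : A) ⟨b, hb⟩
    exact congrArg Subtype.val this
  obtain ⟨s, hs1, hss, hsc⟩ := H57.sl2_central_inv (H57.two_ne_zero_of_card_prime hpp hp hF)
  obtain ⟨t₀, ht₀⟩ := QuotientGroup.mk_surjective (s := A) (e.symm s)
  have hc1 : e.symm s ≠ 1 := by
    intro h
    apply hs1
    have := congrArg e h
    simpa using this
  have hcc : e.symm s * e.symm s = 1 := by rw [← map_mul, hss, map_one]
  have hccent : ∀ x : N ⧸ A, e.symm s * x = x * e.symm s := by
    intro x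
    have := hsc (e x)
    have h2 := congrArg e.symm this
    simpa using h2
  set t := t₀ ^ p with ht
  have hmk : (QuotientGroup.mk t : N ⧸ A) = e.symm s := by
    rw [ht, QuotientGroup.mk_pow, ht₀, hk, pow_succ, pow_mul, pow_two, hcc, one_pow, one_mul]
  have htt : t * t = 1 := by
    have h1 : t₀ * t₀ ∈ A := by
      rw [← QuotientGroup.eq_one_iff, QuotientGroup.mk_mul, ht₀, hcc]
    have := hApow _ h1
    rw [← pow_two, ← pow_mul] at this
    rw [ht, ← pow_add, ← two_mul]; exact this
  have htA : t ∉ A := by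
    intro h
    apply hc1
    rw [← hmk]; exact (QuotientGroup.eq_one_iff t).2 h
  have htc : ∀ g : N, g * t * g⁻¹ * t⁻¹ ∈ A := by
    intro g
    rw [← QuotientGroup.eq_one_iff]
    simp only [QuotientGroup.mk_mul, QuotientGroup.mk_inv, hmk]
    rw [← hccent, mul_inv_cancel_right, mul_inv_cancel]
  have hnc : ∃ g h : N, g * h * g⁻¹ * h⁻¹ ∉ A := by
    obtain ⟨x, y, hxy⟩ := H57.sl2_noncomm (F := F)
    obtain ⟨g, hg⟩ := QuotientGroup.mk_surjective (s := A) (e.symm x)
    obtain ⟨h, hh⟩ := QuotientGroup.mk_surjective (s := A) (e.symm y)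
    refine ⟨g, h, fun hmem => hxy ?_⟩
    rw [← QuotientGroup.eq_one_iff] at hmem
    simp only [QuotientGroup.mk_mul, QuotientGroup.mk_inv, hg, hh] at hmem
    have h3 : e.symm x * e.symm y = e.symm y * e.symm x := by
      have := congrArg (fun z => z * e.symm y * e.symm x) hmem
      simpa [mul_assoc] using this
    have := congrArg e h3
    simpa using this
  have hinv := H57.invert_of_selfcentralizing k hk A hAc hAcard hApow hAself.le t htt htA htc hnc
  refine ⟨Subgroup.centralizer {t}, ?_⟩
  exact H57.split_of_inverting_involution A k (by rw [← hk]; exact hApow) t htc hinv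

end Cfsg.Agent.S3075
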