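import Cfsg.Statements.S3076
import Mathlib
import Cfsg.Agent.Helper55.PPrimeCore

set_option autoImplicit false
open Cfsg

namespace Cfsg.Agent.S3076


section aux
variable {N : Type*} [Group N]

theorem pCore_normal_aux (p : ℕ) (N : Type*) [Group N] : (Cfsg.pCore p N).Normal :=
  Subgroup.sSup_normal _ (fun _ hH => hH.1)

theorem pCore_isPGroup_aux (p : ℕ) [Fact p.Prime] (N : Type*) [Group N] :
    IsPGroup p (Cfsg.pCore p N) :=
  Sylow.sSup_of_normal _ (fun _ hH => hH.2) (fun _ hH => hH.1)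

theorem le_pCore_aux {p : ℕ} {W : Subgroup N} (hn : W.Normal)
    (hW : IsPGroup p W) : W ≤ Cfsg.pCore p N :=
  le_sSup ⟨hn, hW⟩

theorem eq_one_of_dvd_prime_pow_of_dvd {p a m n : ℕ} (hp : p.Prime) (h1 : a ∣ p ^ n)
    (h2 : a ∣ m) (h3 : ¬ p ∣ m) : a = 1 := by
  obtain ⟨i, -, rfl⟩ := (Nat.dvd_prime_pow hp).1 h1
  rcases Nat.eq_zero_or_pos i with rfl | hi
  · simp
  · exact absurd (dvd_trans (dvd_pow_self p hi.ne') h2) h3

/-- The image of `W` in `N ⧸ A` is a `p`-group iff every element of `W` has a `p`-power in `A`. -/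
theorem isPGroup_map_mk'_iff {p : ℕ} (A W : Subgroup N) [A.Normal] :
    IsPGroup p (W.map (QuotientGroup.mk' A)) ↔ ∀ w ∈ W, ∃ k : ℕ, w ^ p ^ k ∈ A := by
  constructor
  · intro h w hw
    obtain ⟨k, hk⟩ := h ⟨QuotientGroup.mk' A w, Subgroup.mem_map_of_mem _ hw⟩
    refine ⟨k, ?_⟩
    have h1 : (QuotientGroup.mk' A w) ^ p ^ k = 1 := by
      have := congrArg Subtype.val hk
      simpa using this
    rw [← map_pow] at h1
    exact (QuotientGroup.eq_one_iff _).mp h1
  · intro h g
    obtain ⟨g, hg⟩ := g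
    obtain ⟨w, hw, rfl⟩ := hg
    obtain ⟨k, hk⟩ := h w hw
    refine ⟨k, ?_⟩
    apply Subtype.ext
    have h1 : (QuotientGroup.mk' A w) ^ p ^ k = 1 := by
      rw [← map_pow]; exact (QuotientGroup.eq_one_iff _).mpr hk
    simpa using h1

/-- A normal `p'`-subgroup centralizes a normal `p`-subgroup. -/
theorem comm_of_normal_coprime [Finite N] {p : ℕ} [Fact p.Prime] {H K : Subgroup N}
    [hHn : H.Normal] [hKn : K.Normal] (hH : IsPGroup p H)
    (hK : (Nat.card K).Coprime p) : ∀ k ∈ K, ∀ h ∈ H, k * h = h * k := by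
  intro k hk h hh
  have h1 : k * h * k⁻¹ * h⁻¹ ∈ H ⊓ K := by
    refine ⟨?_, ?_⟩
    · exact H.mul_mem (hHn.conj_mem h hh k) (H.inv_mem hh)
    · have := hKn.conj_mem k⁻¹ (K.inv_mem hk) h
      have h2 : k * h * k⁻¹ * h⁻¹ = k * (h * k⁻¹ * h⁻¹) := by group
      rw [h2]; exact K.mul_mem hk this
  have h3 : H ⊓ K = ⊥ := by
    apply Disjoint.eq_bot
    apply Subgroup.disjoint_of_coprime_natCard
    obtain ⟨n, hn⟩ := IsPGroup.iff_card.mp hH
    rw [hn]
    exact Nat.Coprime.pow_left n hK.symm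
  rw [h3, Subgroup.mem_bot] at h1
  have h4 : k * h = (k * h * k⁻¹ * h⁻¹) * (h * k) := by group
  rw [h4, h1, one_mul]

end aux

section main
variable {N : Type*} [Group N] [Finite N] {p : ℕ} [Fact p.Prime]

/-- If `S ∩ C ≤ H` then `O_{p'}(N) ≤ C ≤ H · O_{p'}(N)`. -/
theorem split_aux (S : Sylow p N) (H C : Subgroup N) [hHn : H.Normal] [hC : C.Normal]
    (hHp : IsPGroup p H)
    (hCH : ∀ c ∈ C, ∀ h ∈ H, c * h = h * c)
    (hCmax : ∀ n : N, (∀ h ∈ H, n * h = h * n) → n ∈ C)
    (hSC : (S : Subgroup N) ⊓ C ≤ H) :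
    Cfsg.pPrimeCore p N ≤ C ∧ C ≤ H ⊔ Cfsg.pPrimeCore p N := by
  classical
  have hp : p.Prime := Fact.out
  refine ⟨?_, ?_⟩
  · intro k hk
    apply hCmax
    intro h hh
    exact comm_of_normal_coprime hHp (Helper55.coprime_card_pPrimeCore p N) k hk h hh
  · obtain ⟨Q⟩ : Nonempty (Sylow p C) := inferInstance
    have hQle : ∀ q : C, q ∈ Q → (q : N) ∈ H := by
      intro q hq
      have hQp : IsPGroup p ((Q : Subgroup C).map C.subtype) := Q.2.map _
      obtain ⟨S', hS'⟩ := hQp.exists_le_sylow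
      obtain ⟨g, hg⟩ := MulAction.exists_smul_eq N S' S
      have hq1 : (q : N) ∈ (S' : Subgroup N) := hS' ⟨q, hq, rfl⟩
      have h1 : g * (q : N) * g⁻¹ ∈ (S : Subgroup N) := by
        rw [← hg, Sylow.coe_subgroup_smul, Subgroup.mem_pointwise_smul_iff_inv_smul_mem,
          ← map_inv, MulAut.smul_def, MulAut.conj_apply, inv_inv]
        have e : g⁻¹ * (g * (q : N) * g⁻¹) * g = q := by group
        rw [e]; exact hq1
      have h2 : g * (q : N) * g⁻¹ ∈ C := hC.conj_mem _ q.2 g
      have h3 : g * (q : N) * g⁻¹ ∈ H := hSC ⟨h1, h2⟩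
      have h4 := hHn.conj_mem _ h3 g⁻¹
      have e : g⁻¹ * (g * (q : N) * g⁻¹) * g⁻¹⁻¹ = q := by group
      rw [e] at h4; exact h4
    have hQcent : Subgroup.normalizer ((Q : Subgroup C) : Set C) ≤
        Subgroup.centralizer ((Q : Subgroup C) : Set C) := by
      intro c _
      rw [Subgroup.mem_centralizer_iff]
      intro q hq
      apply Subtype.ext
      have := hCH c.1 c.2 q.1 (hQle q hq)
      simpa using this.symm
    have hcompl := MonoidHom.ker_transferSylow_isComplement' Q hQcent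
    set Kr := (MonoidHom.transferSylow Q hQcent).ker with hKr
    have hKrn : Kr.Normal := MonoidHom.normal_ker _
    have hKrc : (Nat.card Kr).Coprime p := by
      rw [← hcompl.index_eq_card]
      exact ((Nat.Prime.coprime_iff_not_dvd hp).mpr Q.not_dvd_index).symm
    have hKrle : Kr ≤ Cfsg.pPrimeCore p C := Helper55.le_pPrimeCore hKrn hKrc
    have hmap : (Cfsg.pPrimeCore p C).map C.subtype ≤ Cfsg.pPrimeCore p N :=
      Helper55.map_pPrimeCore_le p C
    have hCeq : C = (Kr ⊔ (Q : Subgroup C)).map C.subtype := by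
      rw [hcompl.sup_eq_top, ← MonoidHom.range_eq_map, Subgroup.range_subtype]
    rw [hCeq, Subgroup.map_sup]
    refine sup_le ((Subgroup.map_mono hKrle).trans (hmap.trans le_sup_right)) ?_
    rintro x ⟨q, hq, rfl⟩
    exact le_sup_left (a := H) (hQle q hq)

theorem centric_radical_aux (S : Sylow p N) (H C : Subgroup N) [hHn : H.Normal] [hC : C.Normal]
    (hHS : H ≤ (S : Subgroup N))
    (hCH : ∀ c ∈ C, ∀ h ∈ H, c * h = h * c)
    (hCmax : ∀ n : N, (∀ h ∈ H, n * h = h * n) → n ∈ C) :
    H ≤ (Cfsg.pCore p (N ⧸ C)).comap (QuotientGroup.mk' C) ∧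
    ((¬ p ∣ H.relIndex ((Cfsg.pCore p (N ⧸ C)).comap (QuotientGroup.mk' C))) ↔
      ((S : Subgroup N) ⊓ C ≤ H ∧ Cfsg.pPrimePCore p N = H ⊔ C)) := by
  classical
  have hp : p.Prime := Fact.out
  have hHp : IsPGroup p H := S.2.to_le hHS
  have hpcn : (Cfsg.pCore p (N ⧸ C)).Normal := pCore_normal_aux p _
  have hpcKn : (Cfsg.pCore p (N ⧸ Cfsg.pPrimeCore p N)).Normal := pCore_normal_aux p _
  set X := (Cfsg.pCore p (N ⧸ C)).comap (QuotientGroup.mk' C) with hX
  set K := Cfsg.pPrimeCore p N with hK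
  have hKn : K.Normal := Cfsg.pPrimeCore_normal p N
  have hKc : (Nat.card K).Coprime p := Helper55.coprime_card_pPrimeCore p N
  have hYdef : Cfsg.pPrimePCore p N = (Cfsg.pCore p (N ⧸ K)).comap (QuotientGroup.mk' K) := rfl
  set Y := Cfsg.pPrimePCore p N with hY
  have hXn : X.Normal := hpcn.comap _
  have hYn : Y.Normal := by rw [hYdef]; exact hpcKn.comap _
  have hHX : H ≤ X := by
    rw [hX, ← Subgroup.map_le_iff_le_comap]
    exact le_pCore_aux (hHn.map _ (QuotientGroup.mk'_surjective C)) (hHp.map _)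
  have hCX : C ≤ X := by
    intro c hc
    rw [hX, Subgroup.mem_comap]
    have : QuotientGroup.mk' C c = 1 := (QuotientGroup.eq_one_iff c).mpr hc
    rw [this]; exact Subgroup.one_mem _
  have hHY : H ≤ Y := by
    rw [hYdef, ← Subgroup.map_le_iff_le_comap]
    exact le_pCore_aux (hHn.map _ (QuotientGroup.mk'_surjective K)) (hHp.map _)
  have hKY : K ≤ Y := by
    intro c hc
    rw [hYdef, Subgroup.mem_comap]
    have : QuotientGroup.mk' K c = 1 := (QuotientGroup.eq_one_iff c).mpr hc
    rw [this]; exact Subgroup.one_mem _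
  -- elementwise p-power properties
  have hXpow : ∀ x ∈ X, ∃ k : ℕ, x ^ p ^ k ∈ C := by
    apply (isPGroup_map_mk'_iff C X).mp
    apply (pCore_isPGroup_aux p (N ⧸ C)).to_le
    rw [hX]; exact Subgroup.map_comap_le _ _
  have hYpow : ∀ y ∈ Y, ∃ k : ℕ, y ^ p ^ k ∈ K := by
    apply (isPGroup_map_mk'_iff K Y).mp
    apply (pCore_isPGroup_aux p (N ⧸ K)).to_le
    rw [hYdef]; exact Subgroup.map_comap_le _ _
  refine ⟨hHX, ?_, ?_⟩
  · intro hnd
    -- S ⊓ X ≤ H
    have hSX : (S : Subgroup N) ⊓ X ≤ H := by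
      rw [← Subgroup.relIndex_eq_one]
      have hTp : IsPGroup p ((S : Subgroup N) ⊓ X : Subgroup N) := S.2.to_le inf_le_left
      obtain ⟨n, hn⟩ := hTp.index (H.subgroupOf ((S : Subgroup N) ⊓ X))
      have hdvd : H.relIndex ((S : Subgroup N) ⊓ X) ∣ H.relIndex X :=
        Dvd.intro _ (Subgroup.relIndex_mul_relIndex H _ X (le_inf hHS hHX) inf_le_right)
      exact eq_one_of_dvd_prime_pow_of_dvd hp (n := n) (by rw [← hn]; exact dvd_rfl) hdvd hnd
    have hSC : (S : Subgroup N) ⊓ C ≤ H := (inf_le_inf_left _ hCX).trans hSX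
    obtain ⟨hKC, hCHK⟩ := split_aux S H C hHp hCH hCmax hSC
    have hHC : H ⊔ C = H ⊔ K :=
      le_antisymm (sup_le le_sup_left hCHK) (sup_le le_sup_left (hKC.trans le_sup_right))
    refine ⟨hSC, ?_⟩
    rw [hHC]
    have hYX : Y ≤ X := by
      rw [hX, ← Subgroup.map_le_iff_le_comap]
      refine le_pCore_aux (hYn.map _ (QuotientGroup.mk'_surjective C)) ?_
      rw [isPGroup_map_mk'_iff]
      intro y hy
      obtain ⟨k, hk⟩ := hYpow y hy
      exact ⟨k, hKC hk⟩
    have hHKY : H ⊔ K ≤ Y := sup_le hHY hKY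
    apply le_antisymm _ hHKY
    rw [← Subgroup.relIndex_eq_one]
    -- (H ⊔ K).relIndex Y divides K.relIndex Y, a p-power
    have hd1 : (H ⊔ K).relIndex Y ∣ K.relIndex Y :=
      Dvd.intro_left _ (Subgroup.relIndex_mul_relIndex K (H ⊔ K) Y le_sup_right hHKY)
    have hKY' : ∃ n, K.relIndex Y = p ^ n := by
      have h1 := Subgroup.relIndex_ker Y (QuotientGroup.mk' K)
      rw [QuotientGroup.ker_mk'] at h1
      rw [h1]
      apply IsPGroup.iff_card.mp
      apply (pCore_isPGroup_aux p (N ⧸ K)).to_le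
      rw [hYdef]; exact Subgroup.map_comap_le _ _
    obtain ⟨n, hn⟩ := hKY'
    have hd2 : (H ⊔ K).relIndex Y ∣ H.relIndex X := by
      have e1 := Subgroup.relIndex_mul_relIndex H (H ⊔ K) Y le_sup_left hHKY
      have e2 := Subgroup.relIndex_mul_relIndex H Y X hHY hYX
      rw [← e2, ← e1]
      exact (dvd_mul_left _ _).mul_right _
    exact eq_one_of_dvd_prime_pow_of_dvd hp (n := n) (by rw [← hn]; exact hd1) hd2 hnd
  · rintro ⟨hSC, hYeq⟩
    obtain ⟨hKC, hCHK⟩ := split_aux S H C hHp hCH hCmax hSC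
    have hHC : H ⊔ C = H ⊔ K :=
      le_antisymm (sup_le le_sup_left hCHK) (sup_le le_sup_left (hKC.trans le_sup_right))
    have hXY : X ≤ Y := by
      rw [hYdef, ← Subgroup.map_le_iff_le_comap]
      refine le_pCore_aux (hXn.map _ (QuotientGroup.mk'_surjective K)) ?_
      rw [isPGroup_map_mk'_iff]
      intro x hx
      obtain ⟨k, hk⟩ := hXpow x hx
      have hk' : x ^ p ^ k ∈ ((H ⊔ K : Subgroup N) : Set N) := hCHK hk
      rw [Subgroup.mul_normal] at hk'
      obtain ⟨h, hh, k', hk', hhk⟩ := hk'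
      obtain ⟨j, hj⟩ := hHp ⟨h, hh⟩
      have hj' : h ^ p ^ j = 1 := by
        have := congrArg Subtype.val hj
        simpa using this
      refine ⟨k + j, ?_⟩
      rw [pow_add, pow_mul, ← hhk]
      apply (QuotientGroup.eq_one_iff _).mp
      have e1 : ((h * k' : N) : N ⧸ K) = (h : N ⧸ K) := by
        rw [QuotientGroup.mk_mul, (QuotientGroup.eq_one_iff k').mpr hk', mul_one]
      rw [QuotientGroup.mk_pow, e1, ← QuotientGroup.mk_pow, hj']
      rfl
    rw [hYeq, hHC] at hXY
    have hd : H.relIndex X ∣ Nat.card K := by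
      have e1 := Subgroup.relIndex_mul_relIndex H X (H ⊔ K) hHX hXY
      have e2 : H.relIndex (H ⊔ K) = H.relIndex K := Subgroup.relIndex_sup_left K H
      rw [e2] at e1
      exact (Dvd.intro _ e1).trans (Subgroup.relIndex_dvd_card H K)
    intro hpd
    exact (Nat.Prime.coprime_iff_not_dvd hp).mp hKc.symm (hpd.trans hd)

end main

/-- Let P be a Sylow p-subgroup of the finite group G and H ≤ P a subgroup with N_P(H) a Sylow p-subgroup of N_G(H). Let N be the preimage in N_G(H) of O_p(N_G(H)/C_G(H)). Then H is a Sylow p-subgroup of N if and only if C_P(H) ≤ H and O_{p',p}(N_G(H)) = H·C_G(H). -/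
theorem result {G : Type*} [Group G] [Finite G] {p : ℕ} [Fact p.Prime]
    (P : Sylow p G) (H : Subgroup G) (hHP : H ≤ (P : Subgroup G))
    (hSyl : ¬ p ∣ ((P : Subgroup G) ⊓ Subgroup.normalizer (H : Set G)).relIndex (Subgroup.normalizer (H : Set G)))
    [hC : ((Subgroup.centralizer (H : Set G)).subgroupOf (Subgroup.normalizer (H : Set G))).Normal] :
    (H ≤ ((Cfsg.pCore p (↥(Subgroup.normalizer (H : Set G)) ⧸
              (Subgroup.centralizer (H : Set G)).subgroupOf (Subgroup.normalizer (H : Set G)))).comap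
            (QuotientGroup.mk' _)).map (Subgroup.normalizer (H : Set G)).subtype ∧
      ¬ p ∣ H.relIndex (((Cfsg.pCore p (↥(Subgroup.normalizer (H : Set G)) ⧸
              (Subgroup.centralizer (H : Set G)).subgroupOf (Subgroup.normalizer (H : Set G)))).comap
            (QuotientGroup.mk' _)).map (Subgroup.normalizer (H : Set G)).subtype)) ↔
    ((P : Subgroup G) ⊓ Subgroup.centralizer (H : Set G) ≤ H ∧
      (Cfsg.pPrimePCore p ↥(Subgroup.normalizer (H : Set G))).map (Subgroup.normalizer (H : Set G)).subtype =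
        H ⊔ Subgroup.centralizer (H : Set G)) := by
  classical
  have hHN : H ≤ Subgroup.normalizer (H : Set G) := Subgroup.le_normalizer
  have hCN : Subgroup.centralizer (H : Set G) ≤ Subgroup.normalizer (H : Set G) :=
    Subgroup.centralizer_le_normalizer _
  have hH'n : (H.subgroupOf (Subgroup.normalizer (H : Set G))).Normal :=
    Subgroup.normal_in_normalizer
  have hSp : IsPGroup p (((P : Subgroup G) ⊓ Subgroup.normalizer (H : Set G)).subgroupOf
      (Subgroup.normalizer (H : Set G))) := by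
    have h1 : IsPGroup p ((P : Subgroup G) ⊓ Subgroup.normalizer (H : Set G) : Subgroup G) :=
      P.2.to_le inf_le_left
    exact h1.comap_subtype
  let S : Sylow p (Subgroup.normalizer (H : Set G)) := IsPGroup.toSylow hSp hSyl
  have hScoe : (S : Subgroup (Subgroup.normalizer (H : Set G))) =
      ((P : Subgroup G) ⊓ Subgroup.normalizer (H : Set G)).subgroupOf
        (Subgroup.normalizer (H : Set G)) := rfl
  have hH'S : H.subgroupOf (Subgroup.normalizer (H : Set G)) ≤
      (S : Subgroup (Subgroup.normalizer (H : Set G))) := by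
    intro x hx
    rw [hScoe, Subgroup.mem_subgroupOf]
    rw [Subgroup.mem_subgroupOf] at hx
    exact ⟨hHP hx, x.2⟩
  have hCH : ∀ c ∈ (Subgroup.centralizer (H : Set G)).subgroupOf (Subgroup.normalizer (H : Set G)),
      ∀ h ∈ H.subgroupOf (Subgroup.normalizer (H : Set G)), c * h = h * c := by
    intro c hc h hh
    rw [Subgroup.mem_subgroupOf] at hc hh
    rw [Subgroup.mem_centralizer_iff] at hc
    apply Subtype.ext
    have := hc h.1 hh
    simpa using this.symm
  have hCmax : ∀ n : Subgroup.normalizer (H : Set G),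
      (∀ h ∈ H.subgroupOf (Subgroup.normalizer (H : Set G)), n * h = h * n) →
      n ∈ (Subgroup.centralizer (H : Set G)).subgroupOf (Subgroup.normalizer (H : Set G)) := by
    intro n hn
    rw [Subgroup.mem_subgroupOf, Subgroup.mem_centralizer_iff]
    intro h hh
    have := hn ⟨h, hHN hh⟩ (by rw [Subgroup.mem_subgroupOf]; exact hh)
    have := congrArg Subtype.val this
    simpa using this.symm
  obtain ⟨k1, k2⟩ := centric_radical_aux S (H.subgroupOf (Subgroup.normalizer (H : Set G)))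
    ((Subgroup.centralizer (H : Set G)).subgroupOf (Subgroup.normalizer (H : Set G))) hH'S hCH hCmax
  have t1 : H ≤ ((Cfsg.pCore p (↥(Subgroup.normalizer (H : Set G)) ⧸
              (Subgroup.centralizer (H : Set G)).subgroupOf (Subgroup.normalizer (H : Set G)))).comap
            (QuotientGroup.mk' _)).map (Subgroup.normalizer (H : Set G)).subtype := by
    intro h hh
    exact ⟨⟨h, hHN hh⟩, k1 (by rw [Subgroup.mem_subgroupOf]; exact hh), rfl⟩
  have t2 : H.relIndex (((Cfsg.pCore p (↥(Subgroup.normalizer (H : Set G)) ⧸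
              (Subgroup.centralizer (H : Set G)).subgroupOf (Subgroup.normalizer (H : Set G)))).comap
            (QuotientGroup.mk' _)).map (Subgroup.normalizer (H : Set G)).subtype) =
      (H.subgroupOf (Subgroup.normalizer (H : Set G))).relIndex
        ((Cfsg.pCore p (↥(Subgroup.normalizer (H : Set G)) ⧸
              (Subgroup.centralizer (H : Set G)).subgroupOf (Subgroup.normalizer (H : Set G)))).comap
            (QuotientGroup.mk' _)) :=
    (Subgroup.relIndex_comap H (Subgroup.normalizer (H : Set G)).subtype _).symm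
  have t3 : (P : Subgroup G) ⊓ Subgroup.centralizer (H : Set G) ≤ H ↔
      (S : Subgroup (Subgroup.normalizer (H : Set G))) ⊓
        (Subgroup.centralizer (H : Set G)).subgroupOf (Subgroup.normalizer (H : Set G)) ≤
        H.subgroupOf (Subgroup.normalizer (H : Set G)) := by
    constructor
    · intro h x hx
      rw [Subgroup.mem_subgroupOf]
      rw [Subgroup.mem_inf, hScoe, Subgroup.mem_subgroupOf, Subgroup.mem_subgroupOf,
        Subgroup.mem_inf] at hx
      exact h (Subgroup.mem_inf.mpr ⟨hx.1.1, hx.2⟩)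
    · intro h g hg
      rw [Subgroup.mem_inf] at hg
      have h1 : (⟨g, hCN hg.2⟩ : Subgroup.normalizer (H : Set G)) ∈
          (S : Subgroup (Subgroup.normalizer (H : Set G))) ⊓
          (Subgroup.centralizer (H : Set G)).subgroupOf (Subgroup.normalizer (H : Set G)) := by
        rw [Subgroup.mem_inf, hScoe, Subgroup.mem_subgroupOf, Subgroup.mem_subgroupOf,
          Subgroup.mem_inf]
        exact ⟨⟨hg.1, hCN hg.2⟩, hg.2⟩
      have h2 := h h1
      rw [Subgroup.mem_subgroupOf] at h2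
      exact h2
  have t4 : (Cfsg.pPrimePCore p ↥(Subgroup.normalizer (H : Set G))).map
        (Subgroup.normalizer (H : Set G)).subtype = H ⊔ Subgroup.centralizer (H : Set G) ↔
      Cfsg.pPrimePCore p ↥(Subgroup.normalizer (H : Set G)) =
        H.subgroupOf (Subgroup.normalizer (H : Set G)) ⊔
          (Subgroup.centralizer (H : Set G)).subgroupOf (Subgroup.normalizer (H : Set G)) := by
    rw [← Subgroup.subgroupOf_sup hHN hCN]
    have e : H ⊔ Subgroup.centralizer (H : Set G) =
        ((H ⊔ Subgroup.centralizer (H : Set G)).subgroupOf (Subgroup.normalizer (H : Set G))).map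
          (Subgroup.normalizer (H : Set G)).subtype :=
      (Subgroup.map_subgroupOf_eq_of_le (sup_le hHN hCN)).symm
    constructor
    · intro h
      rw [e] at h
      exact Subgroup.map_injective (Subgroup.subtype_injective _) h
    · intro h
      rw [h]
      exact e.symm
  rw [t2, t3, t4]
  constructor
  · rintro ⟨-, h⟩
    exact k2.mp h
  · intro h
    exact ⟨t1, k2.mpr h⟩

end Cfsg.Agent.S3076
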