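import Mathlib
import Cfsg.Statements.S3087

set_option autoImplicit false
open Cfsg

namespace Cfsg.Agent.S3087

/-- Fixed points of a subgroup, as a submodule. -/
def fixSub {G V : Type*} [Group G] [AddCommGroup V] (p : ℕ) [Module (ZMod p) V]
    (ρ : Representation (ZMod p) G V) (X : Subgroup G) : Submodule (ZMod p) V where
  carrier := {v | ∀ b ∈ X, ρ b v = v}
  add_mem' := by
    intro a b ha hb g hg
    change ∀ b ∈ X, ρ b _ = _ at ha hb
    rw [map_add, ha g hg, hb g hg]
  zero_mem' := by intro g _; simp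
  smul_mem' := by
    intro c v hv g hg
    change ∀ b ∈ X, ρ b _ = _ at hv
    rw [map_smul, hv g hg]

theorem mem_fixSub {G V : Type*} [Group G] [AddCommGroup V] (p : ℕ) [Module (ZMod p) V]
    (ρ : Representation (ZMod p) G V) (X : Subgroup G) (v : V) :
    v ∈ fixSub p ρ X ↔ ∀ b ∈ X, ρ b v = v := Iff.rfl

theorem card_fixV {G V : Type*} [Group G] [AddCommGroup V] (p : ℕ) [Module (ZMod p) V]
    (ρ : Representation (ZMod p) G V) (X : Subgroup G) :
    Nat.card {v : V // ∀ b ∈ X, ρ b v = v} = Nat.card ↥(fixSub p ρ X) :=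
  Nat.card_congr (Equiv.subtypeEquivRight (fun _ => Iff.rfl))

theorem card_fixW {G V : Type*} [Group G] [AddCommGroup V] (p : ℕ) [Module (ZMod p) V]
    (ρ : Representation (ZMod p) G V) (W : Submodule (ZMod p) V) (X : Subgroup G) :
    Nat.card {w : W // ∀ b ∈ X, ρ b w = w} = Nat.card ↥(W ⊓ fixSub p ρ X) :=
  Nat.card_congr
    { toFun := fun x => ⟨x.1.1, x.1.2, x.2⟩
      invFun := fun y => ⟨⟨y.1, y.2.1⟩, y.2.2⟩
      left_inv := fun _ => rfl
      right_inv := fun _ => rfl }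

/-- Let p be a prime, G a finite group acting linearly on a finite vector space V over the field with p elements, W a G-invariant subspace, and A a subgroup of G with |A|·|C_V(A)| ≥ |B|·|C_V(B)| for every subgroup B of A. Then |A|·|C_W(A)| ≥ |B|·|C_W(B)| for every subgroup B of A that contains C_A(W); that is, the image of A in the group induced on W satisfies the same maximality condition. -/
theorem result {G V : Type*} [Group G] [Finite G] [AddCommGroup V] [Finite V] (p : ℕ) [Fact p.Prime] [Module (ZMod p) V]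
    (ρ : Representation (ZMod p) G V) (W : Submodule (ZMod p) V) (hW : ∀ g : G, ∀ w ∈ W, ρ g w ∈ W)
    (A : Subgroup G)
    (hP : ∀ B : Subgroup G, B ≤ A →
      Nat.card ↥B * Nat.card {v : V // ∀ b ∈ B, ρ b v = v} ≤ Nat.card ↥A * Nat.card {v : V // ∀ a ∈ A, ρ a v = v})
    (B : Subgroup G) (hBA : B ≤ A) (hCB : ∀ a ∈ A, (∀ w ∈ W, ρ a w = w) → a ∈ B) :
    Nat.card ↥B * Nat.card {w : W // ∀ b ∈ B, ρ b w = w} ≤ Nat.card ↥A * Nat.card {w : W // ∀ a ∈ A, ρ a w = w} := by
  have hfin : Module.Finite (ZMod p) V := Module.Finite.of_finite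
  have h1 := hP B hBA
  rw [card_fixV, card_fixV] at h1
  rw [card_fixW, card_fixW]
  have hle : fixSub p ρ A ≤ fixSub p ρ B := fun v hv b hb => hv b (hBA hb)
  have hinf : (W ⊓ fixSub p ρ B) ⊓ fixSub p ρ A = W ⊓ fixSub p ρ A := by
    rw [inf_assoc, inf_eq_right.mpr hle]
  have hsup : (W ⊓ fixSub p ρ B) ⊔ fixSub p ρ A ≤ fixSub p ρ B := sup_le inf_le_right hle
  have hdim := Submodule.finrank_sup_add_finrank_inf_eq (K := ZMod p) (V := V) (W ⊓ fixSub p ρ B) (fixSub p ρ A)
  rw [hinf] at hdim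
  have hmono := Submodule.finrank_mono hsup
  have hc : ∀ S : Submodule (ZMod p) V, Nat.card ↥S = p ^ Module.finrank (ZMod p) ↥S := by
    intro S
    rw [Module.natCard_eq_pow_finrank (K := ZMod p), Nat.card_zmod]
  rw [hc, hc] at h1 ⊢
  set a := Module.finrank (ZMod p) ↥(W ⊓ fixSub p ρ B)
  set b := Module.finrank (ZMod p) ↥(fixSub p ρ A)
  set c := Module.finrank (ZMod p) ↥(W ⊓ fixSub p ρ A)
  set d := Module.finrank (ZMod p) ↥(fixSub p ρ B)
  have hp : 0 < p := (Fact.out : p.Prime).pos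
  have hpb : 0 < p ^ b := pow_pos hp b
  have habcd : a + b ≤ d + c := by omega
  have h2 : p ^ a * p ^ b ≤ p ^ d * p ^ c := by
    rw [← pow_add, ← pow_add]
    exact Nat.pow_le_pow_right hp habcd
  have h3 : (Nat.card ↥B * p ^ a) * p ^ b ≤ (Nat.card ↥A * p ^ c) * p ^ b := by
    calc (Nat.card ↥B * p ^ a) * p ^ b = Nat.card ↥B * (p ^ a * p ^ b) := by ring
      _ ≤ Nat.card ↥B * (p ^ d * p ^ c) := Nat.mul_le_mul_left _ h2
      _ = (Nat.card ↥B * p ^ d) * p ^ c := by ring
      _ ≤ (Nat.card ↥A * p ^ b) * p ^ c := Nat.mul_le_mul_right _ h1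
      _ = (Nat.card ↥A * p ^ c) * p ^ b := by ring
  exact Nat.le_of_mul_le_mul_right h3 hpb

end Cfsg.Agent.S3087
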