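import Mathlib
import Cfsg.Statements.S3153
import Cfsg.Agent.H58.StdForm

set_option autoImplicit false
open Cfsg

namespace Cfsg.Agent.S3153

/-- Let X be a finite group and P a standard subgroup of X whose centralizer has 2-rank at most 1 and whose centre has odd order. Let S be a Sylow 2-subgroup of N_X(P) and t an involution of S centralizing P. Suppose some element g of X normalizes S, does not lie in S, has its square in S, and conjugates t into P·C_X(P). Then P commutes elementwise with the largest normal odd-order subgroup O(X) of X; consequently every t-invariant 2-component of X containing P is quasisimple. -/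
theorem result {X : Type*} [Group X] [Finite X] (P : Subgroup X) (hP : Cfsg.IsStandardSubgroup P)
    (hr : Cfsg.PRankLE 2 1 ↥(Subgroup.centralizer (P : Set X))) (hZ : Odd (Nat.card ↥(Subgroup.center ↥P)))
    (S : Sylow 2 ↥(Subgroup.normalizer (P : Set X))) (t : X) (ht : orderOf t = 2) (htS : t ∈ (S : Subgroup ↥(Subgroup.normalizer (P : Set X))).map (Subgroup.normalizer (P : Set X)).subtype)
    (htP : t ∈ Subgroup.centralizer (P : Set X))
    (g : X) (hgN : ∀ s ∈ (S : Subgroup ↥(Subgroup.normalizer (P : Set X))).map (Subgroup.normalizer (P : Set X)).subtype, g * s * g⁻¹ ∈ (S : Subgroup ↥(Subgroup.normalizer (P : Set X))).map (Subgroup.normalizer (P : Set X)).subtype)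
    (hgS : g ∉ (S : Subgroup ↥(Subgroup.normalizer (P : Set X))).map (Subgroup.normalizer (P : Set X)).subtype) (hg2 : g ^ 2 ∈ (S : Subgroup ↥(Subgroup.normalizer (P : Set X))).map (Subgroup.normalizer (P : Set X)).subtype)
    (hgt : g * t * g⁻¹ ∈ P ⊔ Subgroup.centralizer (P : Set X)) :
    ⁅P, Cfsg.oddCore X⁆ = ⊥ ∧
      ∀ L : Subgroup X, Cfsg.IsPComponent 2 L → P ≤ L → (∀ l ∈ L, t * l * t⁻¹ ∈ L) → Cfsg.IsQuasisimple ↥L := by
  classical
  have : Fact (Nat.Prime 2) := ⟨Nat.prime_two⟩
  obtain ⟨hPq, ⟨hKeven, hKtight⟩, -, hNK⟩ := hP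
  have ht2 : t ^ 2 = 1 := by rw [← ht]; exact pow_orderOf_eq_one t
  have ht1 : t ≠ 1 := by
    rintro rfl
    rw [orderOf_one] at ht
    omega
  have hTight : ∀ c : X, ∀ r ∈ Subgroup.centralizer (P : Set X), r ^ 2 = 1 → r ≠ 1 →
      c⁻¹ * r * c ∈ Subgroup.centralizer (P : Set X) → c ∈ Subgroup.normalizer (P : Set X) := by
    intro c r hr hr2 hr1 hc
    by_contra hcN
    have hodd := hKtight c (by rw [← hNK]; exact hcN)
    have hmem : r ∈ Subgroup.centralizer (P : Set X) ⊓
        (Subgroup.centralizer (P : Set X)).map (MulAut.conj c).toMonoidHom := by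
      refine Subgroup.mem_inf.mpr ⟨hr, c⁻¹ * r * c, hc, ?_⟩
      simp only [MulEquiv.coe_toMonoidHom, MulAut.conj_apply]
      group
    have h2 := Subgroup.orderOf_dvd_natCard _ hmem
    rw [orderOf_eq_prime hr2 hr1] at h2
    exact (Nat.not_even_iff_odd.mpr hodd) (even_iff_two_dvd.mpr h2)
  have hS'N : (S : Subgroup ↥(Subgroup.normalizer (P : Set X))).map
      (Subgroup.normalizer (P : Set X)).subtype ≤ Subgroup.normalizer (P : Set X) :=
    Subgroup.map_subtype_le _
  have hS'2 : IsPGroup 2 ↥((S : Subgroup ↥(Subgroup.normalizer (P : Set X))).map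
      (Subgroup.normalizer (P : Set X)).subtype) := S.isPGroup'.map _
  have hgN' : g ∉ Subgroup.normalizer (P : Set X) := by
    intro hg
    apply hgS
    have hmem : (⟨g, hg⟩ : ↥(Subgroup.normalizer (P : Set X))) ∈
        (S : Subgroup ↥(Subgroup.normalizer (P : Set X))) := by
      apply Cfsg.Agent.H58.mem_sylow_of_sq_mem S
      · intro s hs
        obtain ⟨y, hy, hyeq⟩ := hgN s ⟨s, hs, rfl⟩
        have : y = ⟨g, hg⟩ * s * ⟨g, hg⟩⁻¹ := Subtype.ext hyeq
        rwa [← this]
      · obtain ⟨y, hy, hyeq⟩ := hg2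
        have : y = ⟨g, hg⟩ ^ 2 := Subtype.ext hyeq
        rwa [← this]
    exact ⟨⟨g, hg⟩, hmem, rfl⟩
  obtain ⟨p, hp, hp2, hp1, hcase, htu, hgu, hpc⟩ :=
    Cfsg.Agent.H58.std_elements P hNK hTight hr hZ _ hS'N hS'2 t ht2 ht1 htS htP g hgN hgN'
      hg2 hgt
  have hcore := Cfsg.Agent.H58.std_core P hPq hTight t ht2 ht1 htP g p hp hp2 hp1 hcase htu hgu hpc
  exact ⟨hcore, fun L hL hPL _ =>
    Cfsg.Agent.H58.std_component P hPq hcore p hp hp2 hp1 L hL hPL⟩

end Cfsg.Agent.S3153
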