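import Cfsg.Statements.S3154
import Cfsg.Agent.H91.L34NDefs
import Cfsg.Agent.H91.L34NSmall
import Cfsg.Agent.H91.L34NEab
import Cfsg.Agent.H20.L34NE16
import Cfsg.Agent.H20.L34NSplit
import Cfsg.Agent.H35.L34NSyl
import Cfsg.Agent.H35.L34NCen
import Cfsg.Agent.H62.L34NId
import Cfsg.Agent.H70.L34Norm1
import Cfsg.Agent.H70.L34Norm2

set_option autoImplicit false
open Cfsg

namespace Cfsg.Agent.S3154
open Cfsg.Agent.H91.L34N Cfsg.Agent.H60 Cfsg.Agent.H60.L34

/-- Let X be a finite quasisimple group whose centre is an elementary abelian 2-group and whose central quotient is isomorphic to the projective special linear group of dimension 3 over the field with 4 elements. Let T be a Sylow 2-subgroup of X and H ≠ K subgroups of T containing the centre Z(X) whose images in X/Z(X) are elementary abelian of order 16 (the two such subgroups of a Sylow 2-subgroup of the quotient). Then H and K are elementary abelian, H ∩ K is the centre of the subgroup they generate,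 and each of N_X(H), N_X(K) is a split extension of H, respectively K, by the projective special linear group of dimension 2 over the field with 4 elements (there is a complement isomorphic to that group). -/
theorem result {X : Type*} [Group X] [Finite X] (hq : Cfsg.IsQuasisimple X) (hZ : Cfsg.IsElementaryAbelian 2 (Subgroup.center X))
    {F : Type*} [Field F] [Fintype F] (hF : Fintype.card F = 4) (hXL : Nonempty ((X ⧸ Subgroup.center X) ≃* Matrix.ProjectiveSpecialLinearGroup (Fin 3) F))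
    (T : Sylow 2 X) (H K : Subgroup X) (hHK : H ≠ K) (hHT : H ≤ T) (hKT : K ≤ T) (hZH : Subgroup.center X ≤ H) (hZK : Subgroup.center X ≤ K)
    (hH : Cfsg.IsElementaryAbelian 2 (H.map (QuotientGroup.mk' (Subgroup.center X))) ∧ Nat.card ↥(H.map (QuotientGroup.mk' (Subgroup.center X))) = 16)
    (hK : Cfsg.IsElementaryAbelian 2 (K.map (QuotientGroup.mk' (Subgroup.center X))) ∧ Nat.card ↥(K.map (QuotientGroup.mk' (Subgroup.center X))) = 16) :
    Cfsg.IsElementaryAbelian 2 H ∧ Cfsg.IsElementaryAbelian 2 K ∧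
      H ⊓ K = (Subgroup.center ↥(H ⊔ K)).map (H ⊔ K).subtype ∧
      (∃ C : Subgroup X, C ≤ Subgroup.normalizer (H : Set X) ∧ C ⊓ H = ⊥ ∧ H ⊔ C = Subgroup.normalizer (H : Set X) ∧
        Nonempty (↥C ≃* Matrix.ProjectiveSpecialLinearGroup (Fin 2) F)) ∧
      (∃ C : Subgroup X, C ≤ Subgroup.normalizer (K : Set X) ∧ C ⊓ K = ⊥ ∧ K ⊔ C = Subgroup.normalizer (K : Set X) ∧
        Nonempty (↥C ≃* Matrix.ProjectiveSpecialLinearGroup (Fin 2) F)) := by
  classical
  obtain ⟨e⟩ := hXL
  let φ : X →* Matrix.ProjectiveSpecialLinearGroup (Fin 3) F :=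
    e.toMonoidHom.comp (QuotientGroup.mk' (Subgroup.center X))
  have hsurj : Function.Surjective φ := e.surjective.comp (QuotientGroup.mk'_surjective _)
  have hker : φ.ker = Subgroup.center X := by
    ext x
    rw [MonoidHom.mem_ker]
    show e (QuotientGroup.mk' _ x) = 1 ↔ _
    rw [MulEquiv.map_eq_one_iff, QuotientGroup.mk'_apply, QuotientGroup.eq_one_iff]
  have hsq : ∀ M : Subgroup X,
      Cfsg.IsElementaryAbelian 2 (M.map (QuotientGroup.mk' (Subgroup.center X))) →
      ∀ x ∈ M, x * x ∈ φ.ker := by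
    intro M hM x hx
    rw [hker]
    have h1 := hM.2 (QuotientGroup.mk' (Subgroup.center X) x) (Subgroup.mem_map_of_mem _ hx)
    rw [pow_two, ← map_mul, QuotientGroup.mk'_apply, QuotientGroup.eq_one_iff] at h1
    exact h1
  have hcard : ∀ M : Subgroup X,
      Nat.card ↥(M.map (QuotientGroup.mk' (Subgroup.center X))) = 16 →
      Nat.card ↥(M.map φ) = 16 := by
    intro M hM
    have h1 : M.map φ = (M.map (QuotientGroup.mk' (Subgroup.center X))).map e.toMonoidHom :=
      (Subgroup.map_map _ _ _).symm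
    rw [h1, ← hM]
    exact (Nat.card_congr
      ((M.map (QuotientGroup.mk' (Subgroup.center X))).equivMapOfInjective e.toMonoidHom
        e.injective).toEquiv).symm
  obtain ⟨φ', hsurj', hker', hcase⟩ := (Cfsg.Agent.H62.L34N.id Cfsg.Agent.H35.L34N.syl Cfsg.Agent.H20.L34N.e16) hF φ hsurj T H K hHK hHT hKT (hker ▸ hZH)
    (hker ▸ hZK) (hsq H hH.1) (hsq K hK.1) (hcard H hH.2) (hcard K hK.2)
  have hkerc : φ'.ker ≤ Subgroup.center X := by rw [hker', hker]
  have hexpZ : ∀ z ∈ φ'.ker, z * z = 1 := by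
    intro z hz
    rw [hker', hker] at hz
    have := hZ.2 z hz
    rwa [pow_two] at this
  obtain ⟨hexp1, hexp2⟩ := Cfsg.Agent.H91.L34N.eab hF φ' hsurj' hkerc hexpZ
  have hcomm : ∀ E : Subgroup (Matrix.ProjectiveSpecialLinearGroup (Fin 3) F),
      (∀ x : X, φ' x ∈ E → x * x = 1) → ∀ x y : X, φ' x ∈ E → φ' y ∈ E → x * y = y * x := by
    intro E hE x y hx hy
    have hxy := hE (x * y) (by rw [map_mul]; exact E.mul_mem hx hy)
    have hx2 := hE x hx
    have hy2 := hE y hy
    calc x * y = (y * y) * (x * y) * (x * x) := by rw [hx2, hy2, one_mul, mul_one]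
      _ = y * (y * x * (y * x)) * x := by simp only [mul_assoc]
      _ = y * x := by
        have : y * x * (y * x) = 1 := by
          have h3 : y * x = y * (x * y) * y⁻¹ := by group
          rw [h3]
          have h4 : y * (x * y) * y⁻¹ * (y * (x * y) * y⁻¹) = y * ((x * y) * (x * y)) * y⁻¹ := by
            group
          rw [h4, hxy, mul_one, mul_inv_cancel]
        rw [this, mul_one]
  have hc1 := hcomm _ hexp1
  have hc2 := hcomm _ hexp2
  have hcen := Cfsg.Agent.H35.L34N.cen φ' hsurj' hc1 hc2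
  have hperf := Cfsg.Agent.H91.L34N.perf hF
  obtain ⟨iso⟩ := Cfsg.Agent.H91.L34N.iso hF
  have hs1 := Cfsg.Agent.H20.L34N.split φ' hsurj' hkerc hexpZ (e1 F) (e2 F) (Cfsg.Agent.H70.L34.norm1 hF) hperf hc2
  have hs2 := Cfsg.Agent.H20.L34N.split φ' hsurj' hkerc hexpZ (e2 F) (e1 F) (Cfsg.Agent.H70.L34.norm2 hF) hperf hc1
  have hEA : ∀ E : Subgroup (Matrix.ProjectiveSpecialLinearGroup (Fin 3) F),
      (∀ x : X, φ' x ∈ E → x * x = 1) → Cfsg.IsElementaryAbelian 2 (E.comap φ') := by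
    intro E hE
    refine ⟨⟨⟨fun a b => Subtype.ext (hcomm E hE a.1 b.1 a.2 b.2)⟩⟩, fun a ha => ?_⟩
    rw [pow_two]
    exact hE a ha
  have hcen' : ∀ (A B P : Subgroup X), A = (e1 F).comap φ' → B = (e2 F).comap φ' →
      (P = A ⊔ B ∨ P = B ⊔ A) → A ⊓ B = (Subgroup.center ↥P).map P.subtype := by
    intro A B P hA hB hP
    have hP' : P = (e1 F).comap φ' ⊔ (e2 F).comap φ' := by
      rcases hP with h | h
      · rw [h, hA, hB]
      · rw [h, hA, hB, sup_comm]
    subst hA hB hP'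
    exact hcen
  rcases hcase with ⟨hH', hK'⟩ | ⟨hH', hK'⟩
  · refine ⟨hH' ▸ hEA _ hexp1, hK' ▸ hEA _ hexp2, hcen' H K _ hH' hK' (Or.inl rfl), ?_, ?_⟩
    · obtain ⟨C, h1, h2, h3, ⟨i⟩⟩ := hs1
      rw [← hH'] at h1 h2 h3
      exact ⟨C, h1, h2, h3, ⟨i.trans iso⟩⟩
    · obtain ⟨C, h1, h2, h3, ⟨i⟩⟩ := hs2
      rw [← hK'] at h1 h2 h3
      exact ⟨C, h1, h2, h3, ⟨i.trans iso⟩⟩
  · refine ⟨hH' ▸ hEA _ hexp2, hK' ▸ hEA _ hexp1, ?_, ?_, ?_⟩
    · rw [inf_comm]
      exact hcen' K H _ hK' hH' (Or.inr rfl)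
    · obtain ⟨C, h1, h2, h3, ⟨i⟩⟩ := hs2
      rw [← hH'] at h1 h2 h3
      exact ⟨C, h1, h2, h3, ⟨i.trans iso⟩⟩
    · obtain ⟨C, h1, h2, h3, ⟨i⟩⟩ := hs1
      rw [← hK'] at h1 h2 h3
      exact ⟨C, h1, h2, h3, ⟨i.trans iso⟩⟩

end Cfsg.Agent.S3154
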