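import Mathlib
import Cfsg.Statements.S3155

set_option autoImplicit false
open Cfsg

namespace Cfsg.Agent.S3155

/-- Let B be the direct product of three cyclic groups of order 4. Then the automorphism of B inverting every element is not the square of any automorphism of B. -/
theorem result {B : Type*} [CommGroup B] [Finite B] (hB : Nonempty (B ≃* Multiplicative (ZMod 4 × ZMod 4 × ZMod 4)))
    (τ : B ≃* B) : τ.trans τ ≠ MulEquiv.inv B := by
  obtain ⟨e⟩ := hB
  intro h
  let f : Multiplicative (ZMod 4 × ZMod 4 × ZMod 4) ≃* Multiplicative (ZMod 4 × ZMod 4 × ZMod 4) :=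
    (e.symm.trans τ).trans e
  have hf : ∀ m, f (f m) = m⁻¹ := by
    intro m
    have h1 := congrArg (fun φ : B ≃* B => φ (e.symm m)) h
    simp only [MulEquiv.trans_apply, MulEquiv.inv_apply] at h1
    simp only [f, MulEquiv.trans_apply, MulEquiv.symm_apply_apply, h1, map_inv,
      MulEquiv.apply_symm_apply]
  let g : (ZMod 4 × ZMod 4 × ZMod 4) →+ (ZMod 4 × ZMod 4 × ZMod 4) :=
    (AddEquiv.toMultiplicative.symm f).toAddMonoidHom
  have hg : ∀ m, g (g m) = -m := by
    intro m
    have := hf (Multiplicative.ofAdd m)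
    exact congrArg Multiplicative.toAdd this
  let L : (ZMod 4 × ZMod 4 × ZMod 4) →ₗ[ZMod 4] (ZMod 4 × ZMod 4 × ZMod 4) :=
    g.toZModLinearMap 4
  have hL : L * L = (-1 : ZMod 4) • (1 : (ZMod 4 × ZMod 4 × ZMod 4) →ₗ[ZMod 4] (ZMod 4 × ZMod 4 × ZMod 4)) := by
    apply LinearMap.ext
    intro m
    have h1 : (L * L) m = g (g m) := rfl
    rw [h1, hg, LinearMap.smul_apply, Module.End.one_apply, neg_smul, one_smul]
  have hdet := congrArg LinearMap.det hL
  rw [map_mul, LinearMap.det_smul, map_one] at hdet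
  haveI : Fact (1 < 4) := ⟨by norm_num⟩
  haveI : Nontrivial (ZMod 4) := ZMod.nontrivial 4
  have hrank : Module.finrank (ZMod 4) (ZMod 4 × ZMod 4 × ZMod 4) = 3 := by
    rw [Module.finrank_prod, Module.finrank_prod, Module.finrank_self]
  rw [hrank] at hdet
  revert hdet
  generalize LinearMap.det L = d
  revert d
  decide

end Cfsg.Agent.S3155
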