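import Cfsg.Statements.S3156
import Cfsg.Agent.H60.SuzSU
import Cfsg.Agent.H60.SuzAut3

set_option autoImplicit false
open Cfsg

namespace Cfsg.Agent.S3156

/-- If a finite group T is isomorphic to a Sylow 2-subgroup of the projective special unitary group of dimension 3 with parameter 4 (realised over the field with 16 elements), then no subgroup of the automorphism group of T is isomorphic to the symmetric group of degree 3. -/
theorem result {T : Type*} [Group T] [Finite T] (hT : (∃ (F : Type) (_ : Field F) (_ : Fintype F), Fintype.card F = 16 ∧ ∃ S : Sylow 2 (Cfsg.PSU 3 F 4), Nonempty (T ≃* ↥(S : Subgroup (Cfsg.PSU 3 F 4))))) (H : Subgroup (MulAut T)) : ¬ Nonempty (↥H ≃* Equiv.Perm (Fin 3)) := by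
  obtain ⟨F, _, _, hF, S, ⟨eT⟩⟩ := hT
  rintro ⟨eH⟩
  have hS2 : Cfsg.Agent.H60.SuzFin F 2 := ⟨hF.trans (by norm_num), by norm_num⟩
  obtain ⟨e⟩ := Cfsg.Agent.H60.sylow_psu_iso (F := F) (n := 2) S
  let eP : T ≃* Cfsg.Agent.H60.Par F 2 := eT.trans e.symm
  let φ : Equiv.Perm (Fin 3) →* MulAut (Cfsg.Agent.H60.Par F 2) :=
    (MulAut.congr eP).toMonoidHom.comp (H.subtype.comp eH.symm.toMonoidHom)
  have hφinj : Function.Injective φ := by
    intro a b hab
    have h1 : (MulAut.congr eP) (eH.symm a : MulAut T) = (MulAut.congr eP) (eH.symm b : MulAut T) := hab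
    exact eH.symm.injective (Subtype.ext ((MulAut.congr eP).injective h1))
  have hs : (Equiv.swap (0 : Fin 3) 1) * (Equiv.swap (0 : Fin 3) 1) = 1 := by decide
  have hc : (finRotate 3) * (finRotate 3) * (finRotate 3) = (1 : Equiv.Perm (Fin 3)) := by decide
  have hc1 : (finRotate 3) ≠ (1 : Equiv.Perm (Fin 3)) := by decide
  have hrel : (Equiv.swap (0 : Fin 3) 1) * (finRotate 3) * (Equiv.swap (0 : Fin 3) 1)⁻¹
      = (finRotate 3)⁻¹ := by decide
  refine Cfsg.Agent.H60.aut_S3_false (φ (Equiv.swap (0 : Fin 3) 1)) (φ (finRotate 3)) ?_ ?_ ?_ ?_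
  · rw [← map_mul, hs, map_one]
  · rw [← map_mul, ← map_mul, hc, map_one]
  · intro h
    apply hc1
    apply hφinj
    rw [h, map_one]
  · rw [← map_inv, ← map_mul, ← map_mul, hrel, map_inv]

end Cfsg.Agent.S3156
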