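import Cfsg.Statements.S3157
import Cfsg.Agent.H60.T64x
import Cfsg.Agent.H60.L34Syl

set_option autoImplicit false
open Cfsg

namespace Cfsg.Agent.S3157

/-- Let T be a non-abelian group of order 64 admitting automorphisms ρ of order 3 and x of order 2 with x ρ x⁻¹ = ρ⁻¹ (so they generate a symmetric group of degree 3), where ρ fixes only the identity. Then T is isomorphic to a Sylow 2-subgroup of the projective special linear group of dimension 3 over the field with 4 elements, and the subgroup of fixed points of x is dihedral of order 8 or quaternion of order 8. -/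
theorem result {T : Type*} [Group T] [Finite T] (hT : Nat.card T = 64) (hna : ¬ IsMulCommutative T) (ρ x : MulAut T) (hρ : orderOf ρ = 3) (hx : orderOf x = 2)
    (hxr : x * ρ * x⁻¹ = ρ⁻¹) (hfp : ∀ y : T, ρ y = y → y = 1) (C : Subgroup T) (hC : ∀ y : T, y ∈ C ↔ x y = y) :
    (∃ (F : Type) (_ : Field F) (_ : Fintype F), Fintype.card F = 4 ∧
        ∃ S : Sylow 2 (Matrix.ProjectiveSpecialLinearGroup (Fin 3) F), Nonempty (T ≃* ↥(S : Subgroup (Matrix.ProjectiveSpecialLinearGroup (Fin 3) F)))) ∧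
      (Nonempty (↥C ≃* DihedralGroup 4) ∨ Nonempty (↥C ≃* QuaternionGroup 2)) := by
  have hρ3 : ∀ y, ρ (ρ (ρ y)) = y := by
    intro y
    have e := pow_orderOf_eq_one ρ
    rw [hρ] at e
    have e' : (ρ ^ 3) y = ρ (ρ (ρ y)) := by
      simp only [pow_succ, pow_zero, one_mul, MulAut.mul_apply]
    rw [← e', e]; rfl
  have hx2 : ∀ y, x (x y) = y := by
    intro y
    have e := pow_orderOf_eq_one x
    rw [hx] at e
    have e' : (x ^ 2) y = x (x y) := by
      simp only [pow_succ, pow_zero, one_mul, MulAut.mul_apply]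
    rw [← e', e]; rfl
  have hxρ : ∀ y, x (ρ y) = ρ (ρ (x y)) := by
    intro y
    have e1 : x * ρ = ρ⁻¹ * x := by rw [← hxr]; group
    have e2 : ρ⁻¹ = ρ * ρ := by
      have e := pow_orderOf_eq_one ρ
      rw [hρ] at e
      apply inv_eq_of_mul_eq_one_right
      rw [← e]
      simp only [pow_succ, pow_zero, one_mul, mul_assoc]
    have e3 := congrArg (fun f : MulAut T => f y) e1
    simp only [MulAut.mul_apply] at e3
    rw [e3, e2]; rfl
  have hfpf : Cfsg.Agent.H60.Fpf3 ρ := ⟨hρ3, hfp⟩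
  obtain ⟨a, b, hab⟩ : ∃ a b : T, a * b ≠ b * a := by
    by_contra hcon
    push Not at hcon
    exact hna ⟨⟨hcon⟩⟩
  have ht64 := Cfsg.Agent.H60.T64.of_fpf hfpf hT a b hab
  have hx64 : Cfsg.Agent.H60.T64x ρ x C := ⟨ht64, hx2, hxρ, hC⟩
  constructor
  · obtain ⟨a', b', hR⟩ := hx64.exists_invol
    let inst : Fintype (GaloisField 2 2) := Fintype.ofFinite _
    have hF : @Fintype.card (GaloisField 2 2) inst = 4 := by
      rw [← Nat.card_eq_fintype_card, GaloisField.card 2 2 (by norm_num)]; norm_num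
    obtain ⟨ρ', a'', b'', hR'⟩ := @Cfsg.Agent.H60.heis_r64 (GaloisField 2 2) _ inst hF
    obtain ⟨S, ⟨e⟩⟩ := @Cfsg.Agent.H60.heis_sylow (GaloisField 2 2) _ inst hF
    obtain ⟨e'⟩ := Cfsg.Agent.H60.R64.iso hR hR'
    exact ⟨GaloisField 2 2, inferInstance, inst, hF, S, ⟨e'.trans e⟩⟩
  · exact hx64.fix_iso

end Cfsg.Agent.S3157
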