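import Cfsg.Statements.S3162
import Cfsg.Agent.H60.SuzSU
import Cfsg.Agent.H60.SuzGam2

set_option autoImplicit false
open Cfsg

namespace Cfsg.Agent.S3162

/-- Let S be a Sylow 2-subgroup of the special unitary group of dimension 3 with parameter q = 2^n (n ≥ 2; realised over the field with q² elements). Then the largest normal 2-subgroup of the automorphism group of S is elementary abelian of order 2^(2n²), and the automorphism group has order 2^(2n²) · 2n(q² − 1). -/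
theorem result {S : Type*} [Group S] [Finite S] (n : ℕ) (hn : 2 ≤ n) {F : Type*} [Field F] [Fintype F] (hF : Fintype.card F = 4 ^ n)
    (P : Sylow 2 ↥(Cfsg.SU 3 F (2 ^ n))) (hS : Nonempty (S ≃* ↥(P : Subgroup ↥(Cfsg.SU 3 F (2 ^ n))))) :
    Cfsg.IsElementaryAbelian 2 (Cfsg.pCore 2 (MulAut S)) ∧ Nat.card ↥(Cfsg.pCore 2 (MulAut S)) = 2 ^ (2 * n ^ 2) ∧
      Nat.card (MulAut S) = 2 ^ (2 * n ^ 2) * (2 * n * ((2 ^ n) ^ 2 - 1)) := by
  obtain ⟨eS⟩ := hS
  have hSz : Cfsg.Agent.H60.SuzFin F n :=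
    ⟨hF.trans (by rw [show (4 : ℕ) = 2 ^ 2 from rfl, ← pow_mul, ← pow_mul, mul_comm]), by omega⟩
  obtain ⟨e⟩ := Cfsg.Agent.H60.sylow_su_iso (F := F) (n := n) P
  let eP : S ≃* Cfsg.Agent.H60.Par F n := eS.trans e.symm
  let ε : MulAut S ≃* MulAut (Cfsg.Agent.H60.Par F n) := MulAut.congr eP
  have hcore : Cfsg.pCore 2 (MulAut S) = (Cfsg.Agent.H60.cenAut F n).comap ε.toMonoidHom :=
    Cfsg.Agent.H60.pCore_eq_comap_of_max 2 ε _ Cfsg.Agent.H60.cenAut_normal
      Cfsg.Agent.H60.cenAut_isPGroup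
      (fun N hNn hNp => Cfsg.Agent.H60.normal_two_le_cenAut N hNn hNp)
  rw [hcore]
  refine ⟨⟨⟨⟨?_⟩⟩, ?_⟩, ?_, ?_⟩
  · rintro ⟨x, hx⟩ ⟨y, hy⟩
    apply Subtype.ext
    apply ε.injective
    show ε (x * y) = ε (y * x)
    rw [map_mul, map_mul]
    exact Cfsg.Agent.H60.cenAut_comm hx hy
  · intro a ha
    apply ε.injective
    rw [map_pow, map_one]
    exact Cfsg.Agent.H60.cenAut_sq ha
  · rw [← Cfsg.Agent.H60.cenAut_card (F := F) (n := n)]
    apply Nat.card_congr
    exact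
      { toFun := fun x => ⟨ε x.1, x.2⟩
        invFun := fun y => ⟨ε.symm y.1, by
          show ε (ε.symm y.1) ∈ Cfsg.Agent.H60.cenAut F n
          rw [ε.apply_symm_apply]
          exact y.2⟩
        left_inv := fun x => Subtype.ext (ε.symm_apply_apply x.1)
        right_inv := fun y => Subtype.ext (ε.apply_symm_apply y.1) }
  · rw [Nat.card_congr ε.toEquiv]
    exact Cfsg.Agent.H60.par_aut_card

end Cfsg.Agent.S3162
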