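import Mathlib
import Cfsg.Statements.S3178
import Cfsg.Agent.H58.Sylow2

set_option autoImplicit false
open Cfsg

namespace Cfsg.Agent.S3178

open Cfsg.Agent.H58

/-- the unique involution of a cyclic 2-group -/
theorem invol_in_zpowers {G : Type*} [Group G] (a : G) (n : ℕ) (hao : orderOf a = 2 ^ (n + 1)) (x : G)
    (hx : x ∈ Subgroup.zpowers a) (hx2 : x ^ 2 = 1) (hx1 : x ≠ 1) : x = a ^ (2 ^ n) := by
  obtain ⟨k, rfl⟩ := Subgroup.mem_zpowers_iff.mp hx
  have hpos : 0 < orderOf a := by rw [hao]; positivity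
  have hposz : (0 : ℤ) < (orderOf a : ℤ) := by exact_mod_cast hpos
  obtain ⟨i, hi⟩ : ∃ i : ℕ, (i : ℤ) = k % (orderOf a : ℤ) :=
    ⟨(k % (orderOf a : ℤ)).toNat, Int.toNat_of_nonneg (Int.emod_nonneg _ hposz.ne')⟩
  have hai : a ^ k = a ^ i := by rw [← zpow_natCast, hi, zpow_mod_orderOf]
  have hilt : i < orderOf a := by
    have := Int.emod_lt_of_pos k hposz
    omega
  rw [hai] at hx2 hx1 ⊢
  rw [← pow_mul] at hx2
  have hdvd := orderOf_dvd_of_pow_eq_one hx2
  rw [hao] at hdvd hilt
  rw [pow_succ] at hdvd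
  have hdvd' : 2 ^ n ∣ i := Nat.dvd_of_mul_dvd_mul_right (by norm_num) hdvd
  obtain ⟨j, rfl⟩ := hdvd'
  have hj : j < 2 := by
    rw [pow_succ] at hilt
    exact Nat.lt_of_mul_lt_mul_left hilt
  interval_cases j
  · simp at hx1
  · simp

/-- Groups with a modular Sylow 2-subgroup have a normal 2-complement. Let S, of order 2^(n+1) with n ≥ 3, be a Sylow 2-subgroup of a finite group G, and suppose S contains an element a of order 2^n and an involution b with b a b⁻¹ = a^(2^(n-1) + 1); so S is the non-abelian 2-group with a cyclic subgroup of index 2 that is neither dihedral, semidihedral nor generalized quaternion. Then G has a normal 2-complement. -/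
theorem result {G : Type*} [Group G] [Finite G]
    (S : Sylow 2 G) (n : ℕ) (hn : 3 ≤ n) (hS : Nat.card ↥(S : Subgroup G) = 2 ^ (n + 1))
    (a b : G) (ha : a ∈ (S : Subgroup G)) (hb : b ∈ (S : Subgroup G))
    (hao : orderOf a = 2 ^ n) (hbo : orderOf b = 2) (hrel : b * a * b⁻¹ = a ^ (2 ^ (n - 1) + 1)) :
    Cfsg.HasNormalPComplement 2 G := by
  classical
  haveI : Fact (Nat.Prime 2) := ⟨Nat.prime_two⟩
  obtain ⟨k, rfl⟩ : ∃ k, n = k + 3 := ⟨n - 3, by omega⟩
  have hrel' : b * a * b⁻¹ = a ^ (2 ^ (k + 2) + 1) := by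
    have : k + 3 - 1 = k + 2 := by omega
    rw [this] at hrel
    exact hrel
  clear hrel hn
  set A : Subgroup G := Subgroup.zpowers a with hA
  have haA : a ∈ A := Subgroup.mem_zpowers a
  have hAS : A ≤ S := by rw [hA, Subgroup.zpowers_le]; exact ha
  have hcardA : Nat.card A = 2 ^ (k + 3) := by rw [hA, Nat.card_zpowers, hao]
  have hb2 : b * b = 1 := by
    have := pow_orderOf_eq_one b
    rw [hbo, sq] at this
    exact this
  have hbinv : b⁻¹ = b := inv_eq_of_mul_eq_one_left hb2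
  have hb1 : b ≠ 1 := by
    intro h
    rw [h, orderOf_one] at hbo
    omega
  -- exponent arithmetic for a
  have pow_eq : ∀ e₁ e₂ c : ℕ, e₁ = e₂ + 2 ^ (k + 3) * c → a ^ e₁ = a ^ e₂ := by
    intro e₁ e₂ c h
    rw [h, pow_add, pow_mul, ← hao, pow_orderOf_eq_one, one_pow, mul_one]
  set z : G := a ^ (2 ^ (k + 2)) with hz
  have hzA : z ∈ A := Subgroup.pow_mem _ haA _
  have hz2 : z ^ 2 = 1 := by
    rw [hz, ← pow_mul, ← pow_succ, ← hao]
    exact pow_orderOf_eq_one a
  have hz1 : z ≠ 1 := by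
    intro h
    have h1 := orderOf_dvd_of_pow_eq_one h
    rw [hao] at h1
    have h2 := Nat.le_of_dvd (by positivity) h1
    have h3 : 2 ^ (k + 2) < 2 ^ (k + 3) := Nat.pow_lt_pow_right (by norm_num) (by omega)
    omega
  have hAcomm : ∀ x ∈ A, ∀ y ∈ A, x * y = y * x := by
    intro x hx y hy
    obtain ⟨i, rfl⟩ := Subgroup.mem_zpowers_iff.mp hx
    obtain ⟨j, rfl⟩ := Subgroup.mem_zpowers_iff.mp hy
    exact ((Commute.refl a).zpow_zpow i j).eq
  -- b ∉ A
  have hbA : b ∉ A := by
    intro hb'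
    have hcomm : b * a = a * b := hAcomm b hb' a haA
    have h1 : b * a * b⁻¹ = a := by rw [hcomm]; group
    rw [h1, pow_succ] at hrel'
    have h2 : 1 * a = z * a := by rw [one_mul]; exact hrel'
    exact hz1 (mul_right_cancel h2).symm
  -- z commutes with b
  have hzb : b * z = z * b := by
    have h1 : b * z * b⁻¹ = z := by
      rw [hz, ← conj_pow, hrel', ← pow_mul]
      exact pow_eq _ _ (2 ^ (k + 1)) (by ring)
    calc b * z = b * z * b⁻¹ * b := by group
      _ = z * b := by rw [h1]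
  -- a^2 commutes with b
  have ha2b : b * a ^ 2 = a ^ 2 * b := by
    have h1 : b * a ^ 2 * b⁻¹ = a ^ 2 := by
      rw [← conj_pow, hrel', ← pow_mul]
      exact pow_eq _ _ 1 (by ring)
    calc b * a ^ 2 = b * a ^ 2 * b⁻¹ * b := by group
      _ = a ^ 2 * b := by rw [h1]
  -- index two
  have hidx : (A.subgroupOf (S : Subgroup G)).index = 2 := by
    have h1 := Subgroup.card_mul_index (A.subgroupOf (S : Subgroup G))
    have h2 : Nat.card (A.subgroupOf (S : Subgroup G)) = Nat.card A :=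
      Nat.card_congr (Subgroup.subgroupOfEquivOfLe hAS).toEquiv
    rw [h2, hcardA, hS] at h1
    have h3 : 2 ^ (k + 3) * (A.subgroupOf (S : Subgroup G)).index = 2 ^ (k + 3) * 2 := by
      rw [h1, pow_succ]
    exact Nat.eq_of_mul_eq_mul_left (by positivity) h3
  have hsq : ∀ s ∈ (S : Subgroup G), s ^ 2 ∈ A := by
    intro s hs
    have := Subgroup.sq_mem_of_index_two hidx (⟨s, hs⟩ : (S : Subgroup G))
    exact Subgroup.mem_subgroupOf.mp this
  have hmulb : ∀ s ∈ (S : Subgroup G), s ∉ A → s * b ∈ A := by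
    intro s hs hsA
    have h1 : (⟨s, hs⟩ : (S : Subgroup G)) * ⟨b, hb⟩ ∈ A.subgroupOf (S : Subgroup G) := by
      rw [Subgroup.mul_mem_iff_of_index_two hidx]
      constructor
      · intro h; exact absurd (Subgroup.mem_subgroupOf.mp h) hsA
      · intro h; exact absurd (Subgroup.mem_subgroupOf.mp h) hbA
    exact Subgroup.mem_subgroupOf.mp h1
  -- z is central in S
  have hzcent : ∀ s ∈ (S : Subgroup G), s * z = z * s := by
    intro s hs
    by_cases hsA : s ∈ A
    · exact hAcomm s hsA z hzA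
    · have h1 := hAcomm (s * b) (hmulb s hs hsA) z hzA
      calc s * z = (s * b) * (b * z) := by rw [mul_assoc, ← mul_assoc b b z, hb2, one_mul]
        _ = (s * b) * (z * b) := by rw [hzb]
        _ = ((s * b) * z) * b := (mul_assoc _ _ _).symm
        _ = (z * (s * b)) * b := by rw [h1]
        _ = z * s := by rw [mul_assoc, mul_assoc, hb2, mul_one]
  -- fusion: b is not conjugate to z
  have hfus : ∀ g : G, g * b * g⁻¹ ≠ z := by
    intro g hg
    have hmemCb : ∀ x, x ∈ Subgroup.centralizer ({b} : Set G) ↔ b * x = x * b := by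
      intro x
      rw [Subgroup.mem_centralizer_iff]
      simp
    have hS'le : ((g⁻¹ • S : Sylow 2 G) : Subgroup G) ≤ Subgroup.centralizer ({b} : Set G) := by
      intro x hx
      rw [mem_smul_sylow, inv_inv] at hx
      rw [hmemCb]
      have h1 := hzcent _ hx
      rw [← hg] at h1
      have h2 : g * (x * b) * g⁻¹ = g * (b * x) * g⁻¹ := by
        calc g * (x * b) * g⁻¹ = (g * x * g⁻¹) * (g * b * g⁻¹) := by group
          _ = (g * b * g⁻¹) * (g * x * g⁻¹) := h1
          _ = g * (b * x) * g⁻¹ := by group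
      exact (mul_left_cancel (mul_right_cancel h2)).symm
    have hD : IsPGroup 2 (((S : Subgroup G) ⊓ Subgroup.centralizer ({b} : Set G)).subgroupOf
        (Subgroup.centralizer ({b} : Set G))) :=
      (S.isPGroup'.to_le inf_le_left).comap_subtype (K := Subgroup.centralizer ({b} : Set G))
    obtain ⟨c, hc⟩ := sylow_conj_le ((g⁻¹ • S : Sylow 2 G).subtype hS'le) _ hD
    have ha2S : a ^ 2 ∈ (S : Subgroup G) ⊓ Subgroup.centralizer ({b} : Set G) :=
      ⟨Subgroup.pow_mem _ ha 2, (hmemCb _).mpr ha2b⟩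
    have h3 := hc ⟨a ^ 2, ha2S.2⟩ (Subgroup.mem_subgroupOf.mpr ha2S)
    rw [Sylow.coe_subtype, Subgroup.mem_subgroupOf] at h3
    have h4 : g * ((c : G) * a ^ 2 * (c : G)⁻¹) * g⁻¹ ∈ (S : Subgroup G) := by
      have := (mem_smul_sylow S g⁻¹ _).mp h3
      simpa using this
    have hy2 := hsq _ h4
    have hcb : (c : G) * b * (c : G)⁻¹ = b := by
      have := (hmemCb c).mp c.2
      rw [← this]; group
    have hyz : (g * ((c : G) * a ^ 2 * (c : G)⁻¹) * g⁻¹) ^ (2 ^ (k + 1)) =
        g * ((c : G) * z * (c : G)⁻¹) * g⁻¹ := by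
      rw [conj_pow, conj_pow, ← pow_mul, hz]
      congr 3
      ring
    have hwA : g * ((c : G) * z * (c : G)⁻¹) * g⁻¹ ∈ A := by
      rw [← hyz]
      have : (g * ((c : G) * a ^ 2 * (c : G)⁻¹) * g⁻¹) ^ (2 ^ (k + 1)) =
          ((g * ((c : G) * a ^ 2 * (c : G)⁻¹) * g⁻¹) ^ 2) ^ (2 ^ k) := by
        rw [← pow_mul]; congr 1; ring
      rw [this]
      exact Subgroup.pow_mem _ hy2 _
    have hw2 : (g * ((c : G) * z * (c : G)⁻¹) * g⁻¹) ^ 2 = 1 := by
      rw [conj_pow, conj_pow, hz2]; group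
    have hw1 : g * ((c : G) * z * (c : G)⁻¹) * g⁻¹ ≠ 1 := by
      intro h
      exact hz1 (conj_eq_one_iff.mp (conj_eq_one_iff.mp h))
    have hw := invol_in_zpowers a (k + 2) hao _ hwA hw2 hw1
    have h5 : g * ((c : G) * z * (c : G)⁻¹) * g⁻¹ = g * ((c : G) * b * (c : G)⁻¹) * g⁻¹ := by
      rw [hw, hcb, hg]
    have hzb' : z = b := by
      have h6 := mul_left_cancel (mul_right_cancel h5)
      exact mul_left_cancel (mul_right_cancel h6)
    exact hbA (hzb' ▸ hzA)
  -- the sign homomorphism of the action on G ⧸ A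
  letI : Fintype (G ⧸ A) := Fintype.ofFinite _
  have hSidx : Odd (S : Subgroup G).index := by
    rw [← Nat.not_even_iff_odd, even_iff_two_dvd]
    exact S.not_dvd_index
  have hGcard : Nat.card G = 2 ^ (k + 3 + 1) * (S : Subgroup G).index := by
    rw [← hS]
    exact (Subgroup.card_mul_index _).symm
  have hAidx : A.index = 2 * (S : Subgroup G).index := by
    have h1 := Subgroup.card_mul_index A
    rw [hcardA, hGcard, pow_succ 2 (k + 3), mul_assoc] at h1
    exact Nat.eq_of_mul_eq_mul_left (by positivity) h1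
  have hφb : Equiv.Perm.sign (MulAction.toPermHom G (G ⧸ A) b) = -1 := by
    set σ := MulAction.toPermHom G (G ⧸ A) b with hσ
    have hσ2 : σ ^ 2 = 1 := by rw [hσ, ← map_pow, sq, hb2, map_one]
    have hfix : ∀ q : G ⧸ A, σ q ≠ q := by
      intro q
      induction q using QuotientGroup.induction_on with
      | H g =>
        intro h
        have h1 : ((b * g : G) : G ⧸ A) = (g : G ⧸ A) := h
        rw [QuotientGroup.eq] at h1
        have h2 : g⁻¹ * b * g⁻¹⁻¹ ∈ A := by
          have := Subgroup.inv_mem _ h1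
          have e : ((b * g)⁻¹ * g)⁻¹ = g⁻¹ * b * g⁻¹⁻¹ := by group
          rwa [e] at this
        have h3 : (g⁻¹ * b * g⁻¹⁻¹) ^ 2 = 1 := by
          rw [conj_pow, sq, hb2]; group
        have h4 : g⁻¹ * b * g⁻¹⁻¹ ≠ 1 := fun h => hb1 (conj_eq_one_iff.mp h)
        have h5 := invol_in_zpowers a (k + 2) hao _ h2 h3 h4
        exact hfus g⁻¹ h5
    have hσne : σ ≠ 1 := by
      intro h
      exact hfix (QuotientGroup.mk 1) (by rw [h]; rfl)
    have hord : orderOf σ = 2 := orderOf_eq_prime hσ2 hσne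
    obtain ⟨j, hj⟩ := Equiv.Perm.cycleType_prime_order (σ := σ) (by rw [hord]; exact Nat.prime_two)
    rw [hord] at hj
    have hsupp : σ.support = Finset.univ := by
      ext q
      simp only [Equiv.Perm.mem_support, Finset.mem_univ, iff_true]
      exact hfix q
    have hsum : σ.cycleType.sum = Fintype.card (G ⧸ A) := by
      rw [Equiv.Perm.sum_cycleType, hsupp, Finset.card_univ]
    rw [hj, Multiset.sum_replicate, smul_eq_mul] at hsum
    have hcard : Fintype.card (G ⧸ A) = 2 * (S : Subgroup G).index := by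
      rw [← hAidx, Subgroup.index_eq_card, Nat.card_eq_fintype_card]
    have hj1 : j + 1 = (S : Subgroup G).index := by omega
    rw [Equiv.Perm.sign_of_cycleType, hj, Multiset.sum_replicate, Multiset.card_replicate, smul_eq_mul, hj1]
    apply Odd.neg_one_pow
    have : (S : Subgroup G).index * 2 + (S : Subgroup G).index = 3 * (S : Subgroup G).index := by ring
    rw [this]
    exact Odd.mul (by decide) hSidx
  set φ : G →* ℤˣ := Equiv.Perm.sign.comp (MulAction.toPermHom G (G ⧸ A)) with hφ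
  have hφb' : φ b = -1 := hφb
  set K : Subgroup G := φ.ker with hK
  have hbK : b ∉ K := by
    rw [hK, MonoidHom.mem_ker, hφb']
    decide
  have hKidx : K.index = 2 := by
    rw [hK, Subgroup.index_ker]
    have : φ.range = ⊤ := by
      rw [eq_top_iff]
      intro u _
      rcases Int.units_eq_one_or u with rfl | rfl
      · exact Subgroup.one_mem _
      · exact ⟨b, hφb'⟩
    rw [this, Subgroup.card_top, Nat.card_eq_fintype_card, Fintype.card_units_int]
  haveI hKn : K.Normal := by rw [hK]; infer_instance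
  -- S ⊓ K is cyclic
  have hSKcard : Nat.card ↥((S : Subgroup G) ⊓ K) ≤ 2 ^ (k + 3) := by
    have hne : (S : Subgroup G) ⊓ K ≠ S := by
      intro h
      have : b ∈ (S : Subgroup G) ⊓ K := by rw [h]; exact hb
      exact hbK this.2
    have hdvd : Nat.card ↥((S : Subgroup G) ⊓ K) ∣ 2 ^ (k + 3 + 1) :=
      hS ▸ Subgroup.card_dvd_of_le inf_le_left
    obtain ⟨i, hi, hi'⟩ := (Nat.dvd_prime_pow Nat.prime_two).mp hdvd
    have hne' : Nat.card ↥((S : Subgroup G) ⊓ K) ≠ 2 ^ (k + 3 + 1) := by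
      intro h
      exact hne (Subgroup.eq_of_le_of_card_ge inf_le_left (by rw [h, hS]))
    rw [hi'] at hne' ⊢
    have : i ≠ k + 3 + 1 := fun h => hne' (by rw [h])
    exact Nat.pow_le_pow_right (by norm_num) (by omega)
  have hcyc : IsCyclic ↥((S : Subgroup G) ⊓ K) := by
    have key : ∀ x : G, x ∈ (S : Subgroup G) ⊓ K → orderOf x = 2 ^ (k + 3) →
        IsCyclic ↥((S : Subgroup G) ⊓ K) := by
      intro x hx hxo
      have hle : Subgroup.zpowers x ≤ (S : Subgroup G) ⊓ K := by
        rw [Subgroup.zpowers_le]; exact hx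
      have heq : Subgroup.zpowers x = (S : Subgroup G) ⊓ K :=
        Subgroup.eq_of_le_of_card_ge hle (by rw [Nat.card_zpowers, hxo]; exact hSKcard)
      rw [← heq]
      infer_instance
    by_cases haK : a ∈ K
    · exact key a ⟨ha, haK⟩ hao
    · have habK : a * b ∈ K := (Subgroup.mul_mem_iff_of_index_two hKidx).mpr (iff_of_false haK hbK)
      refine key (a * b) ⟨Subgroup.mul_mem _ ha hb, habK⟩ ?_
      have hab2 : (a * b) ^ 2 = a ^ (2 ^ (k + 2) + 2) := by
        calc (a * b) ^ 2 = a * (b * a * b⁻¹) * (b * b) := by rw [sq]; group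
          _ = a * a ^ (2 ^ (k + 2) + 1) * 1 := by rw [hrel', hb2]
          _ = a ^ (2 ^ (k + 2) + 2) := by rw [mul_one, ← pow_succ']
      apply orderOf_eq_prime_pow
      · have h1 : (a * b) ^ 2 ^ (k + 2) = z := by
          have : (a * b) ^ 2 ^ (k + 2) = ((a * b) ^ 2) ^ (2 ^ (k + 1)) := by
            rw [← pow_mul]; congr 1; ring
          rw [this, hab2, ← pow_mul, hz]
          exact pow_eq _ _ (2 ^ k) (by ring)
        rw [h1]
        exact hz1
      · have : (a * b) ^ 2 ^ (k + 2 + 1) = ((a * b) ^ 2) ^ (2 ^ (k + 2)) := by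
          rw [← pow_mul]; congr 1; ring
        rw [this, hab2, ← pow_mul]
        have := pow_eq ((2 ^ (k + 2) + 2) * 2 ^ (k + 2)) 0 (2 ^ (k + 1) + 1) (by ring)
        rw [this, pow_zero]
  -- K has a cyclic Sylow 2-subgroup
  have hKcard : Nat.card K = 2 ^ (k + 3) * (S : Subgroup G).index := by
    have h := Subgroup.card_mul_index K
    rw [hKidx, hGcard, pow_succ] at h
    have : Nat.card K * 2 = 2 ^ (k + 3) * (S : Subgroup G).index * 2 := by rw [h]; ring
    exact Nat.eq_of_mul_eq_mul_right (by norm_num) this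
  have hmin : (Nat.card K).minFac = 2 := by
    rw [Nat.minFac_eq_two_iff, hKcard]
    exact Dvd.dvd.mul_right (dvd_pow_self 2 (by omega)) _
  obtain ⟨Q⟩ : Nonempty (Sylow 2 K) := inferInstance
  have hQcyc : IsCyclic Q := by
    have hQ₁ : IsPGroup 2 ((Q : Subgroup K).map K.subtype) := Q.isPGroup'.map _
    obtain ⟨c, hc⟩ := sylow_conj_le S _ hQ₁
    let ψ : Q →* ↥((S : Subgroup G) ⊓ K) :=
      { toFun := fun x => ⟨c * (x : G) * c⁻¹, ⟨hc _ ⟨x, x.2, rfl⟩, hKn.conj_mem _ x.1.2 c⟩⟩
        map_one' := by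
          apply Subtype.ext
          simp
        map_mul' := by
          intro x y
          apply Subtype.ext
          simp }
    have hψ : Function.Injective ψ := by
      intro x y hxy
      have h1 : c * ((x : K) : G) * c⁻¹ = c * ((y : K) : G) * c⁻¹ := congrArg Subtype.val hxy
      have h2 : ((x : K) : G) = ((y : K) : G) := mul_left_cancel (mul_right_cancel h1)
      exact Subtype.ext (Subtype.ext h2)
    exact isCyclic_of_injective ψ hψ
  have hNC := hQcyc.normalizer_le_centralizer hmin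
  have hcomp : (MonoidHom.transferSylow Q hNC).ker.IsComplement' Q := IsCyclic.isComplement' hmin hQcyc
  have hrodd : ¬ 2 ∣ Nat.card (MonoidHom.transferSylow Q hNC).ker :=
    MonoidHom.not_dvd_card_ker_transferSylow Q hNC
  have hrQ := hcomp.card_mul_card
  obtain ⟨j, hj⟩ := IsPGroup.iff_card.mp Q.isPGroup'
  set ψ₀ := MonoidHom.transferSylow Q hNC with hψ₀
  set r := Nat.card ψ₀.ker with hr
  have hrcop : Nat.Coprime r 2 :=
    Nat.Coprime.symm ((Nat.Prime.coprime_iff_not_dvd Nat.prime_two).mpr hrodd)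
  have hker_char : ∀ x : K, x ^ r = 1 → x ∈ ψ₀.ker := by
    intro x hx
    rw [MonoidHom.mem_ker]
    have h1 : (ψ₀ x) ^ r = 1 := by rw [← map_pow, hx, map_one]
    have h2 : (ψ₀ x) ^ (2 ^ j) = 1 := by rw [← hj]; exact pow_card_eq_one'
    have h3 := pow_gcd_eq_one.mpr ⟨h1, h2⟩
    have hcop : Nat.gcd r (2 ^ j) = 1 := Nat.Coprime.pow_right j hrcop
    rwa [hcop, pow_one] at h3
  have hNnormal : (ψ₀.ker.map K.subtype).Normal := by
    constructor
    intro x hx g
    obtain ⟨x₀, hx₀, rfl⟩ := hx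
    have hx₀r : x₀ ^ r = 1 := by
      have h1 : (⟨x₀, hx₀⟩ : ψ₀.ker) ^ r = 1 := by rw [hr]; exact pow_card_eq_one'
      have h2 := congrArg Subtype.val h1
      simpa using h2
    have hy : g * (x₀ : G) * g⁻¹ ∈ K := hKn.conj_mem _ x₀.2 g
    refine ⟨⟨g * (x₀ : G) * g⁻¹, hy⟩, hker_char _ ?_, rfl⟩
    apply Subtype.ext
    have h3 : ((x₀ : G)) ^ r = 1 := by
      have := congrArg Subtype.val hx₀r
      simpa using this
    simp only [Subgroup.coe_pow, Subgroup.coe_one]
    rw [conj_pow, h3]; group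
  have hNcard : Nat.card ↥(ψ₀.ker.map K.subtype) = r :=
    Subgroup.card_map_of_injective K.subtype_injective
  refine ⟨S, ψ₀.ker.map K.subtype, hNnormal, ?_⟩
  -- r * 2 ^ j = 2 ^ (k+3) * index
  rw [hj, hKcard] at hrQ
  have hidxcop : Nat.Coprime (S : Subgroup G).index 2 :=
    Nat.Coprime.symm (Nat.coprime_two_left.mpr hSidx)
  have hjk : j = k + 3 := by
    apply le_antisymm
    · have h1 : 2 ^ j ∣ 2 ^ (k + 3) * (S : Subgroup G).index := ⟨r, by rw [← hrQ]; ring⟩
      have h2 : 2 ^ j ∣ 2 ^ (k + 3) :=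
        (Nat.Coprime.pow_left j hidxcop.symm).dvd_of_dvd_mul_right h1
      exact (Nat.pow_dvd_pow_iff_le_right (by norm_num)).mp h2
    · have h1 : 2 ^ (k + 3) ∣ r * 2 ^ j := ⟨(S : Subgroup G).index, hrQ⟩
      have h2 : 2 ^ (k + 3) ∣ 2 ^ j :=
        (Nat.Coprime.pow_left (k + 3) hrcop.symm).dvd_of_dvd_mul_left h1
      exact (Nat.pow_dvd_pow_iff_le_right (by norm_num)).mp h2
  apply Subgroup.isComplement'_of_coprime
  · rw [hNcard, hS, hGcard]
    rw [hjk] at hrQ
    have : r = (S : Subgroup G).index := by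
      have h : r * 2 ^ (k + 3) = (S : Subgroup G).index * 2 ^ (k + 3) := by rw [hrQ]; ring
      exact Nat.eq_of_mul_eq_mul_right (by positivity) h
    rw [this]; ring
  · rw [hNcard, hS]
    exact Nat.Coprime.pow_right _ hrcop

end Cfsg.Agent.S3178
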