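import Cfsg.Statements.S3179
import Cfsg.Agent.H98.GL52

set_option autoImplicit false
open Cfsg

namespace Cfsg.Agent.S3179

/-- Let X be a section of the general linear group GL(5, 2), that is, a quotient of a subgroup of it. If X is isomorphic to PSL(2, 2^n) for some n ≥ 2, to a Suzuki group over the field with 2^(2m+1) elements for some m ≥ 1, or to PSU(3, 2^n) for some n ≥ 2, then X is isomorphic to PSL(2, 4). -/
theorem result {H : Subgroup (GL (Fin 5) (ZMod 2))}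
    {K : Subgroup ↥H} [K.Normal]
    (hX : (∃ (n : ℕ) (F : Type) (_ : Field F) (_ : Fintype F), 2 ≤ n ∧ Fintype.card F = 2 ^ n ∧
        Nonempty (↥H ⧸ K ≃* Matrix.ProjectiveSpecialLinearGroup (Fin 2) F)) ∨
      (∃ (m : ℕ) (F : Type) (_ : Field F) (_ : Fintype F), 1 ≤ m ∧ Fintype.card F = 2 ^ (2 * m + 1) ∧
        Nonempty (↥H ⧸ K ≃* ↥(Cfsg.Lie.Sz F (2 ^ (m + 1))))) ∨
      (∃ (n : ℕ) (F : Type) (_ : Field F) (_ : Fintype F), 2 ≤ n ∧ Fintype.card F = 4 ^ n ∧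
        Nonempty (↥H ⧸ K ≃* Cfsg.PSU 3 F (2 ^ n)))) :
    ∃ (F : Type) (_ : Field F) (_ : Fintype F), Fintype.card F = 4 ∧
      Nonempty (↥H ⧸ K ≃* Matrix.ProjectiveSpecialLinearGroup (Fin 2) F) := by
  classical
  have hN : Nat.card (↥H ⧸ K) ∣ 9999360 := by
    rw [← Cfsg.Agent.H98.GL52.card_GL52]
    exact Cfsg.Agent.H98.GL52.card_section_dvd H K
  rcases hX with ⟨n, F, instF, instFt, hn, hF, ⟨e⟩⟩ | ⟨m, F, instF, instFt, hm, hF, ⟨e⟩⟩ |
    ⟨n, F, instF, instFt, hn, hF, ⟨e⟩⟩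
  · rw [Nat.card_congr e.toEquiv] at hN
    rcases Cfsg.Agent.H98.GL52.psl_case hn hF hN with h2 | h3
    · subst h2
      exact ⟨F, instF, instFt, by rw [hF]; norm_num, ⟨e⟩⟩
    · exfalso
      subst h3
      obtain ⟨x, hx⟩ := Cfsg.Agent.H98.GL52.psl28_order9 (F := F) (by rw [hF]; norm_num)
      have hx' : orderOf (e.symm x) = 9 := by
        rw [← hx]
        exact MulEquiv.orderOf_eq e.symm x
      obtain ⟨g, hg⟩ := Cfsg.Agent.H98.GL52.exists_order_of_section H K (e.symm x)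
      exact Cfsg.Agent.H98.GL52.no_order9 g (hg.trans hx')
  · exfalso
    rw [Nat.card_congr e.toEquiv] at hN
    exact Cfsg.Agent.H98.GL52.sz_case hm hF hN
  · exfalso
    rw [Nat.card_congr e.toEquiv] at hN
    exact Cfsg.Agent.H98.GL52.psu_case hn hF hN

end Cfsg.Agent.S3179
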