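import Mathlib
import Cfsg.Statements.S3180
import Cfsg.Agent.H58.Basic

set_option autoImplicit false
open Cfsg

namespace Cfsg.Agent.S3180

/-- Let P be a Sylow p-subgroup of a finite group J and P₁ a subgroup of P that is weakly closed in P with respect to J. If J acts on a set and two points, each fixed by every element of P₁, lie in one J-orbit, then they lie in one orbit of the normalizer of P₁ in J. -/
theorem result {J : Type*} [Group J] [Finite J]
    {p : ℕ} [Fact p.Prime] (P : Sylow p J) (P₁ : Subgroup J) (hW : Cfsg.IsWeaklyClosed P₁ (P : Subgroup J))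
    {Ω : Type*} [MulAction J Ω] (x y : Ω) (hx : ∀ g ∈ P₁, g • x = x) (hy : ∀ g ∈ P₁, g • y = y)
    (hc : ∃ g : J, g • x = y) :
    ∃ g ∈ Subgroup.normalizer (P₁ : Set J), g • x = y := by
  obtain ⟨g, hg⟩ := hc
  obtain ⟨hP₁P, hwc⟩ := hW
  have hP₁ : IsPGroup p P₁ := P.isPGroup'.to_le hP₁P
  -- the stabilizer of x
  set Jx : Subgroup J := MulAction.stabilizer J x with hJx
  have hA : P₁ ≤ Jx := fun a ha => by
    rw [hJx, MulAction.mem_stabilizer_iff]; exact hx a ha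
  -- Sylow subgroup of Jx containing P₁
  obtain ⟨Q, hQ⟩ := (hP₁.comap_subtype (K := Jx) : IsPGroup p (P₁.subgroupOf Jx)).exists_le_sylow
  -- the conjugate g⁻¹ P₁ g lies in Jx
  set B : Subgroup Jx := (P₁.map (MulAut.conj g⁻¹).toMonoidHom).subgroupOf Jx with hBdef
  have hBp : IsPGroup p B := ((hP₁.map (MulAut.conj g⁻¹).toMonoidHom).comap_subtype (K := Jx))
  obtain ⟨c, hc⟩ := Cfsg.Agent.H58.sylow_conj_le Q B hBp
  -- now in J
  have hQ₁ : IsPGroup p ((Q : Subgroup Jx).map Jx.subtype) := Q.isPGroup'.map _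
  obtain ⟨h, hh⟩ := Cfsg.Agent.H58.sylow_conj_le P ((Q : Subgroup Jx).map Jx.subtype) hQ₁
  -- h normalizes P₁
  have h1 : P₁.map (MulAut.conj h).toMonoidHom = P₁ := by
    apply hwc
    rintro _ ⟨a, ha, rfl⟩
    have : a ∈ (Q : Subgroup Jx).map Jx.subtype := by
      refine ⟨⟨a, hA ha⟩, ?_, rfl⟩
      apply hQ
      exact ha
    simpa using hh a this
  -- h c g⁻¹ normalizes P₁
  have h2 : P₁.map (MulAut.conj (h * c * g⁻¹)).toMonoidHom = P₁ := by
    apply hwc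
    rintro _ ⟨a, ha, rfl⟩
    have hmemJx : g⁻¹ * a * g ∈ Jx := by
      rw [hJx, MulAction.mem_stabilizer_iff, mul_smul, mul_smul, hg, hy a ha, ← hg, inv_smul_smul]
    have hb : (⟨g⁻¹ * a * g, hmemJx⟩ : Jx) ∈ B := by
      rw [hBdef, Subgroup.mem_subgroupOf]
      refine ⟨a, ha, ?_⟩
      simp
    have h3 := hc _ hb
    have h4 : ((c * ⟨g⁻¹ * a * g, hmemJx⟩ * c⁻¹ : Jx) : J) ∈ (Q : Subgroup Jx).map Jx.subtype :=
      ⟨_, h3, rfl⟩
    have h5 := hh _ h4
    have h6 : (MulAut.conj (h * (c : J) * g⁻¹)).toMonoidHom a =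
        h * ((c * ⟨g⁻¹ * a * g, hmemJx⟩ * c⁻¹ : Jx) : J) * h⁻¹ := by
      simp only [MulEquiv.toMonoidHom_eq_coe, MonoidHom.coe_coe, MulAut.conj_apply, Subgroup.coe_mul,
        Subgroup.coe_inv, mul_inv_rev, inv_inv]
      group
    rw [h6]
    exact h5
  have hn1 : h ∈ Subgroup.normalizer (P₁ : Set J) := Subgroup.mem_normalizer_iff_map_conj_eq.mpr h1
  have hn2 : h * c * g⁻¹ ∈ Subgroup.normalizer (P₁ : Set J) :=
    Subgroup.mem_normalizer_iff_map_conj_eq.mpr h2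
  refine ⟨(h * c * g⁻¹)⁻¹ * h, Subgroup.mul_mem _ (Subgroup.inv_mem _ hn2) hn1, ?_⟩
  have hcx : (c : J) • x = x := c.2
  have hcx' : (c : J)⁻¹ • x = x := by
    rw [inv_smul_eq_iff, hcx]
  have : (h * (c : J) * g⁻¹)⁻¹ * h = g * (c : J)⁻¹ := by group
  rw [this, mul_smul, hcx', hg]

end Cfsg.Agent.S3180
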