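import Mathlib
import Cfsg.Statements.S3183
import Cfsg.Agent.H58.Sylow2

set_option autoImplicit false
open Cfsg

namespace Cfsg.Agent.S3183

open Cfsg.Agent.H58

theorem key {G : Type*} [Group G] [Finite G]
    (hCI : ∀ S T : Sylow 2 G, S ≠ T → ∃ U : Sylow 2 G,
      (S : Subgroup G) ⊓ (T : Subgroup G) ≤ (Subgroup.center ↥(U : Subgroup G)).map (U : Subgroup G).subtype) :
    ∀ (n : ℕ) (S T : Sylow 2 G), S ≠ T →
      Nat.card G - Nat.card ↥((S : Subgroup G) ⊓ (T : Subgroup G)) = n →
      (S : Subgroup G) ⊓ (T : Subgroup G) ≤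
        (Subgroup.center ↥(S : Subgroup G)).map (S : Subgroup G).subtype := by
  haveI : Fact (Nat.Prime 2) := ⟨Nat.prime_two⟩
  intro n
  induction n using Nat.strong_induction_on with
  | _ n ih =>
    intro S T hST hn
    obtain ⟨U, hU⟩ := hCI S T hST
    by_cases hUS : U = S
    · rw [hUS] at hU; exact hU
    have hDU : (S : Subgroup G) ⊓ T ≤ (S : Subgroup G) ⊓ U :=
      le_inf inf_le_left (hU.trans (Subgroup.map_subtype_le _))
    have hcardle := Subgroup.card_le_of_le hDU
    have hcardG : ∀ H : Subgroup G, Nat.card H ≤ Nat.card G := fun H => Subgroup.card_le_card_group H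
    rcases lt_or_eq_of_le hcardle with hlt | heq
    · have h1 := ih (Nat.card G - Nat.card ↥((S : Subgroup G) ⊓ U))
        (by have := hcardG ((S : Subgroup G) ⊓ U); omega) S U (Ne.symm hUS) rfl
      exact hDU.trans h1
    · have hDeq : (S : Subgroup G) ⊓ T = (S : Subgroup G) ⊓ U :=
        Subgroup.eq_of_le_of_card_ge hDU heq.ge
      rw [hDeq] at hU hn ⊢
      have hDS : (S : Subgroup G) ⊓ U ≤ S := inf_le_left
      have hDneS : (S : Subgroup G) ⊓ U ≠ S := by
        intro h
        have hSU : (S : Subgroup G) ≤ U := h ▸ inf_le_right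
        exact hUS (sylow_eq_of_le S U hSU).symm
      obtain ⟨s, hsS, hsD, hsN⟩ :=
        exists_normalizer_mem (S : Subgroup G) ((S : Subgroup G) ⊓ U) S.isPGroup' hDS hDneS
      have hcent : ∀ u ∈ (U : Subgroup G), ∀ d ∈ (S : Subgroup G) ⊓ U, u * d * u⁻¹ = d := by
        intro u hu d hd
        have h2 := ((mem_center_map _ d).mp (hU hd)).2 u hu
        rw [h2]; group
      have hUN : (U : Subgroup G) ≤ Subgroup.normalizer (((S : Subgroup G) ⊓ U : Subgroup G) : Set G) :=
        Subgroup.le_normalizer_iff.mpr (fun u hu d hd => by rw [hcent u hu d hd]; exact hd)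
      set N : Subgroup G := Subgroup.normalizer (((S : Subgroup G) ⊓ U : Subgroup G) : Set G) with hN
      have hB : IsPGroup 2 (((S : Subgroup G) ⊓ N).subgroupOf N) :=
        (S.isPGroup'.to_le inf_le_left).comap_subtype (K := N)
      obtain ⟨c, hc⟩ := sylow_conj_le (U.subtype hUN) (((S : Subgroup G) ⊓ N).subgroupOf N) hB
      -- the conjugate Sylow subgroup
      have hR : (S : Subgroup G) ⊓ N ≤ (S : Subgroup G) ⊓ (((c : G)⁻¹ • U : Sylow 2 G) : Subgroup G) := by
        intro r hr
        refine ⟨hr.1, ?_⟩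
        show r ∈ (((c : G)⁻¹ • U : Sylow 2 G) : Subgroup G)
        rw [mem_smul_sylow, inv_inv]
        have h3 := hc ⟨r, hr.2⟩ (Subgroup.mem_subgroupOf.mpr hr)
        rw [Sylow.coe_subtype, Subgroup.mem_subgroupOf] at h3
        simpa using h3
      have hDR : (S : Subgroup G) ⊓ U ≤ (S : Subgroup G) ⊓ N :=
        le_inf inf_le_left Subgroup.le_normalizer
      have hcardlt : Nat.card ↥((S : Subgroup G) ⊓ U) < Nat.card ↥((S : Subgroup G) ⊓ N) := by
        by_contra hle
        have := Subgroup.eq_of_le_of_card_ge hDR (not_lt.mp hle)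
        exact hsD (this ▸ ⟨hsS, hsN⟩)
      by_cases hU'S : ((c : G)⁻¹ • U : Sylow 2 G) = S
      · intro d hd
        rw [mem_center_map]
        refine ⟨hd.1, fun u' hu' => ?_⟩
        have hu'U : (c : G) * u' * (c : G)⁻¹ ∈ (U : Subgroup G) := by
          have : u' ∈ (((c : G)⁻¹ • U : Sylow 2 G) : Subgroup G) := by rw [hU'S]; exact hu'
          rw [mem_smul_sylow, inv_inv] at this
          exact this
        have hdD : (c : G) * d * (c : G)⁻¹ ∈ (S : Subgroup G) ⊓ U :=
          (Subgroup.mem_normalizer_iff.mp c.2 d).mp hd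
        have h4 := ((mem_center_map _ _).mp (hU hdD)).2 _ hu'U
        have h5 : (c : G) * (u' * d) * (c : G)⁻¹ = (c : G) * (d * u') * (c : G)⁻¹ := by
          calc (c : G) * (u' * d) * (c : G)⁻¹
              = ((c : G) * u' * (c : G)⁻¹) * ((c : G) * d * (c : G)⁻¹) := by group
            _ = ((c : G) * d * (c : G)⁻¹) * ((c : G) * u' * (c : G)⁻¹) := h4
            _ = (c : G) * (d * u') * (c : G)⁻¹ := by group
        exact mul_left_cancel (mul_right_cancel h5)
      · have hcard2 := Subgroup.card_le_of_le hR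
        have h1 := ih (Nat.card G - Nat.card ↥((S : Subgroup G) ⊓ (((c : G)⁻¹ • U : Sylow 2 G) : Subgroup G)))
          (by
            have := hcardG ((S : Subgroup G) ⊓ (((c : G)⁻¹ • U : Sylow 2 G) : Subgroup G))
            have := hcardG ((S : Subgroup G) ⊓ U)
            omega) S _ (Ne.symm hU'S) rfl
        exact (hDR.trans hR).trans h1

theorem key' {G : Type*} [Group G] [Finite G]
    (hCI : ∀ S T : Sylow 2 G, S ≠ T → ∃ U : Sylow 2 G,
      (S : Subgroup G) ⊓ (T : Subgroup G) ≤ (Subgroup.center ↥(U : Subgroup G)).map (U : Subgroup G).subtype)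
    (S T : Sylow 2 G) (hST : S ≠ T) :
    (S : Subgroup G) ⊓ (T : Subgroup G) ≤
        (Subgroup.center ↥(S : Subgroup G)).map (S : Subgroup G).subtype :=
  key hCI _ S T hST rfl

/-- Let G be a finite group in which the intersection of any two distinct Sylow 2-subgroups is contained in the centre of some Sylow 2-subgroup, and let S be a Sylow 2-subgroup. Then for every x in S the centralizer of x in S is a Sylow 2-subgroup of the centralizer of x in G (no 2-subgroup centralizing x is larger), and for every other Sylow 2-subgroup T the intersection S ∩ T lies in both the centre of S and the centre of T. -/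
theorem result {G : Type*} [Group G] [Finite G]
    (hCI : ∀ S T : Sylow 2 G, S ≠ T → ∃ U : Sylow 2 G,
      (S : Subgroup G) ⊓ (T : Subgroup G) ≤ (Subgroup.center ↥(U : Subgroup G)).map (U : Subgroup G).subtype)
    (S : Sylow 2 G) :
    (∀ x ∈ (S : Subgroup G), ∀ P : Subgroup G, IsPGroup 2 ↥P → P ≤ Subgroup.centralizer ({x} : Set G) →
        Nat.card ↥P ≤ Nat.card ↥((S : Subgroup G) ⊓ Subgroup.centralizer ({x} : Set G))) ∧
    (∀ T : Sylow 2 G, T ≠ S →
        (S : Subgroup G) ⊓ (T : Subgroup G) ≤
          (Subgroup.center ↥(S : Subgroup G)).map (S : Subgroup G).subtype ⊓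
            (Subgroup.center ↥(T : Subgroup G)).map (T : Subgroup G).subtype) := by
  haveI : Fact (Nat.Prime 2) := ⟨Nat.prime_two⟩
  constructor
  · intro x hxS P hP hPC
    set Cx : Subgroup G := Subgroup.centralizer ({x} : Set G) with hCx
    have hR : IsPGroup 2 (((S : Subgroup G) ⊓ Cx).subgroupOf Cx) :=
      (S.isPGroup'.to_le inf_le_left).comap_subtype (K := Cx)
    obtain ⟨Q, hQ⟩ := hR.exists_le_sylow
    have hPQ : Nat.card P ≤ Nat.card Q := by
      have h1 := card_le_sylow (P.subgroupOf Cx) (hP.comap_subtype (K := Cx)) Q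
      have h2 : Nat.card (P.subgroupOf Cx) = Nat.card P :=
        Nat.card_congr (Subgroup.subgroupOfEquivOfLe hPC).toEquiv
      rw [h2] at h1
      exact h1
    have hQ₁ : IsPGroup 2 ((Q : Subgroup Cx).map Cx.subtype) := Q.isPGroup'.map _
    have hQcard : Nat.card ((Q : Subgroup Cx).map Cx.subtype) = Nat.card Q :=
      Subgroup.card_map_of_injective Cx.subtype_injective
    obtain ⟨T, hT⟩ := hQ₁.exists_le_sylow
    have hxC : x ∈ Cx := by
      rw [hCx, Subgroup.mem_centralizer_iff]
      intro h hh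
      rw [Set.mem_singleton_iff] at hh
      rw [hh]
    have hxQ : x ∈ (Q : Subgroup Cx).map Cx.subtype :=
      ⟨⟨x, hxC⟩, hQ (Subgroup.mem_subgroupOf.mpr ⟨hxS, hxC⟩), rfl⟩
    by_cases hTS : T = S
    · have : (Q : Subgroup Cx).map Cx.subtype ≤ (S : Subgroup G) ⊓ Cx := by
        refine le_inf (hTS ▸ hT) ?_
        exact Subgroup.map_subtype_le _
      calc Nat.card P ≤ Nat.card Q := hPQ
        _ = Nat.card ((Q : Subgroup Cx).map Cx.subtype) := hQcard.symm
        _ ≤ _ := Subgroup.card_le_of_le this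
    · have hxZ := key' hCI S T (Ne.symm hTS) ⟨hxS, hT hxQ⟩
      have hSC : (S : Subgroup G) ≤ Cx := by
        intro s hs
        rw [hCx, Subgroup.mem_centralizer_iff]
        intro h hh
        rw [Set.mem_singleton_iff] at hh
        rw [hh]
        exact (((mem_center_map _ x).mp hxZ).2 s hs).symm
      have : (S : Subgroup G) ⊓ Cx = S := inf_eq_left.mpr hSC
      rw [this]
      exact card_le_sylow P hP S
  · intro T hTS
    refine le_inf (key' hCI S T (Ne.symm hTS)) ?_
    have := key' hCI T S hTS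
    rwa [inf_comm] at this

end Cfsg.Agent.S3183
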