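import Mathlib
import Cfsg.Statements.S3190
import Cfsg.Agent.H58.PGroup
import Cfsg.Agent.H58.Sylow2

set_option autoImplicit false
open Cfsg

namespace Cfsg.Agent.S3190

open Cfsg.Agent.H58

theorem conj_mem_center_map {G : Type*} [Group G] (R : Subgroup G) (g : G)
    (hg : g ∈ Subgroup.normalizer (R : Set G)) (v : G)
    (hv : v ∈ (Subgroup.center ↥R).map R.subtype) :
    g * v * g⁻¹ ∈ (Subgroup.center ↥R).map R.subtype := by
  rw [mem_center_map] at hv ⊢
  refine ⟨(Subgroup.mem_normalizer_iff.mp hg v).mp hv.1, fun r hr => ?_⟩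
  have hr' : g⁻¹ * r * g ∈ R := by
    rw [Subgroup.mem_normalizer_iff.mp hg (g⁻¹ * r * g)]
    have : g * (g⁻¹ * r * g) * g⁻¹ = r := by group
    rw [this]; exact hr
  have h1 := hv.2 (g⁻¹ * r * g) hr'
  calc r * (g * v * g⁻¹) = g * (g⁻¹ * r * g * v) * g⁻¹ := by group
    _ = g * (v * (g⁻¹ * r * g)) * g⁻¹ := by rw [h1]
    _ = g * v * g⁻¹ * r := by group

/-- Let p be an odd prime and, inside a finite group, let P be a p-subgroup normalized by a Klein four-group T. Let R be a subgroup of P, normal in P and normalized by T, such that P is the product of R with the centralizer of T in P. If T centralizes the centre of P, then T centralizes the centre of R. -/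
theorem result {X : Type*} [Group X] [Finite X]
    {p : ℕ} (hp : p.Prime) (hodd : Odd p) (P T R : Subgroup X) (hP : IsPGroup p ↥P) (hT : IsKleinFour ↥T)
    (hTP : T ≤ Subgroup.normalizer (P : Set X)) (hRP : R ≤ P) (hRn : (R.subgroupOf P).Normal)
    (hTR : T ≤ Subgroup.normalizer (R : Set X)) (hfac : R ⊔ (P ⊓ Subgroup.centralizer (T : Set X)) = P)
    (hZ : T ≤ Subgroup.centralizer (((Subgroup.center ↥P).map P.subtype : Subgroup X) : Set X)) :
    T ≤ Subgroup.centralizer (((Subgroup.center ↥R).map R.subtype : Subgroup X) : Set X) := by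
  haveI : Fact p.Prime := ⟨hp⟩
  intro t ht
  rw [Subgroup.mem_centralizer_iff]
  intro v hv
  -- t ^ 2 = 1
  have ht2 : t * t = 1 := by
    have h1 : (⟨t, ht⟩ : T) ^ 2 = 1 := by
      have := Monoid.pow_exponent_eq_one (⟨t, ht⟩ : T)
      rwa [hT.exponent_two] at this
    have h2 := congrArg Subtype.val h1
    simpa [sq] using h2
  have htinv : t⁻¹ = t := inv_eq_of_mul_eq_one_left ht2
  have hPnR : P ≤ Subgroup.normalizer (R : Set X) :=
    (Subgroup.normal_subgroupOf_iff_le_normalizer hRP).mp hRn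
  -- commutativity of V
  have hVcomm : ∀ a ∈ (Subgroup.center ↥R).map R.subtype, ∀ b ∈ (Subgroup.center ↥R).map R.subtype,
      a * b = b * a := by
    intro a ha b hb
    exact ((mem_center_map R b).mp hb).2 a ((mem_center_map R a).mp ha).1
  -- the subgroup W of V inverted by t
  let W : Subgroup X :=
    { carrier := {w | w ∈ (Subgroup.center ↥R).map R.subtype ∧ t * w * t⁻¹ = w⁻¹}
      mul_mem' := by
        rintro a b ⟨ha, ha'⟩ ⟨hb, hb'⟩
        refine ⟨Subgroup.mul_mem _ ha hb, ?_⟩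
        calc t * (a * b) * t⁻¹ = (t * a * t⁻¹) * (t * b * t⁻¹) := by group
          _ = a⁻¹ * b⁻¹ := by rw [ha', hb']
          _ = (b * a)⁻¹ := by group
          _ = (a * b)⁻¹ := by rw [hVcomm a ha b hb]
      one_mem' := ⟨Subgroup.one_mem _, by simp⟩
      inv_mem' := by
        rintro a ⟨ha, ha'⟩
        refine ⟨Subgroup.inv_mem _ ha, ?_⟩
        calc t * a⁻¹ * t⁻¹ = (t * a * t⁻¹)⁻¹ := by group
          _ = a⁻¹⁻¹ := by rw [ha'] }
  have hWmem : ∀ w, w ∈ W ↔ w ∈ (Subgroup.center ↥R).map R.subtype ∧ t * w * t⁻¹ = w⁻¹ :=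
    fun w => Iff.rfl
  have hWV : W ≤ (Subgroup.center ↥R).map R.subtype := fun w hw => hw.1
  have hWR : W ≤ R := hWV.trans (Subgroup.map_subtype_le _)
  have hWP : W ≤ P := hWR.trans hRP
  -- W is normalized by R and by C_P(T)
  have hRW : R ≤ Subgroup.normalizer (W : Set X) := by
    apply Subgroup.le_normalizer_iff.mpr
    intro r hr w hw
    have h1 := ((mem_center_map R w).mp hw.1).2 r hr
    have : r * w * r⁻¹ = w := by rw [h1]; group
    rw [this]; exact hw
  have hCW : P ⊓ Subgroup.centralizer (T : Set X) ≤ Subgroup.normalizer (W : Set X) := by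
    apply Subgroup.le_normalizer_iff.mpr
    rintro c ⟨hcP, hcT⟩ w hw
    have hct : t * c = c * t := (Subgroup.mem_centralizer_iff.mp hcT) t ht
    refine ⟨conj_mem_center_map R c (hPnR hcP) w hw.1, ?_⟩
    calc t * (c * w * c⁻¹) * t⁻¹ = (t * c) * w * (t * c)⁻¹ := by group
      _ = (c * t) * w * (c * t)⁻¹ := by rw [hct]
      _ = c * (t * w * t⁻¹) * c⁻¹ := by group
      _ = c * w⁻¹ * c⁻¹ := by rw [hw.2]
      _ = (c * w * c⁻¹)⁻¹ := by group
  have hPW : P ≤ Subgroup.normalizer (W : Set X) := by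
    rw [← hfac]
    exact sup_le hRW hCW
  haveI hWn : (W.subgroupOf P).Normal := (Subgroup.normal_subgroupOf_iff_le_normalizer hWP).mpr hPW
  -- W is trivial
  have hWbot : ∀ w ∈ W, w = 1 := by
    by_contra hcon
    push Not at hcon
    obtain ⟨w₀, hw₀, hw₀1⟩ := hcon
    have hne : W.subgroupOf P ≠ ⊥ := by
      intro h
      have : (⟨w₀, hWP hw₀⟩ : P) ∈ W.subgroupOf P := Subgroup.mem_subgroupOf.mpr hw₀
      rw [h, Subgroup.mem_bot] at this
      exact hw₀1 (congrArg Subtype.val this)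
    obtain ⟨z, hzW, hz1, hzc⟩ := exists_central_of_normal hP (W.subgroupOf P) hne
    have hzW' : (z : X) ∈ W := Subgroup.mem_subgroupOf.mp hzW
    have hzZ : (z : X) ∈ (Subgroup.center ↥P).map P.subtype :=
      ⟨z, Subgroup.mem_center_iff.mpr hzc, rfl⟩
    have h1 : (z : X) * t = t * z := (Subgroup.mem_centralizer_iff.mp (hZ ht)) _ hzZ
    have h2 : t * (z : X) * t⁻¹ = (z : X)⁻¹ := hzW'.2
    have h3 : (z : X) = (z : X)⁻¹ := by
      rw [← h2, ← h1]; group
    have h4 : (z : X) ^ 2 = 1 := by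
      rw [sq]
      nth_rewrite 2 [h3]
      exact mul_inv_cancel _
    obtain ⟨k, hk⟩ := hP z
    have hk' : (z : X) ^ (p ^ k) = 1 := by
      have := congrArg Subtype.val hk
      simpa using this
    have h5 := pow_gcd_eq_one.mpr ⟨hk', h4⟩
    have hcop : Nat.gcd (p ^ k) 2 = 1 := by
      have : Nat.Coprime p 2 := Nat.Coprime.symm (Nat.coprime_two_left.mpr hodd)
      exact Nat.Coprime.pow_left k this
    rw [hcop, pow_one] at h5
    exact hz1 (Subtype.ext h5)
  -- conclude
  have hTV : t * v * t⁻¹ ∈ (Subgroup.center ↥R).map R.subtype := conj_mem_center_map R t (hTR ht) v hv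
  have hu : v⁻¹ * (t * v * t⁻¹) ∈ W := by
    refine ⟨Subgroup.mul_mem _ (Subgroup.inv_mem _ hv) hTV, ?_⟩
    have e1 : t * (v⁻¹ * (t * v * t⁻¹)) * t⁻¹ = (t * v * t⁻¹)⁻¹ * ((t * t) * v * (t * t)⁻¹) := by group
    rw [e1, ht2]
    have e2 : (v⁻¹ * (t * v * t⁻¹))⁻¹ = (t * v * t⁻¹)⁻¹ * v := by group
    rw [e2]
    simp
  have h6 := hWbot _ hu
  have h7 : t * v * t⁻¹ = v := by
    have : t * v * t⁻¹ = v * (v⁻¹ * (t * v * t⁻¹)) := by group
    rw [this, h6, mul_one]
  calc v * t = (t * v * t⁻¹) * t := by rw [h7]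
    _ = t * v := by group

end Cfsg.Agent.S3190
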