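import Mathlib
import Cfsg.Statements.S3196

set_option autoImplicit false
open Cfsg

namespace Cfsg.Agent.S3196

section Basic

variable {G : Type*} [Group G] {p : ℕ} {K : Set (Subgroup G)}

/-- The nontrivial elements generating a member of `K`. -/
def KE (K : Set (Subgroup G)) : Set G := {g | g ≠ 1 ∧ Subgroup.zpowers g ∈ K}

theorem orderOf_of_mem (hK : ∀ X ∈ K, Nat.card ↥X = p) {g : G} (hg : g ∈ KE K) :
    orderOf g = p := by
  rw [← Nat.card_zpowers]; exact hK _ hg.2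

theorem exists_zpow_eq (hp : p.Prime) {g : G} (hg : orderOf g = p) {i : ℤ} (hi : g ^ i ≠ 1) :
    ∃ m : ℤ, (g ^ i) ^ m = g := by
  have h1 : ¬ ((p : ℤ) ∣ i) := by
    intro hd
    apply hi
    rw [← hg] at hd
    exact orderOf_dvd_iff_zpow_eq_one.mp hd
  have hpi : Prime (p : ℤ) := Nat.prime_iff_prime_int.mp hp
  have hcop : IsCoprime (p : ℤ) i := (hpi.coprime_iff_not_dvd).mpr h1
  obtain ⟨a, b, hab⟩ := hcop
  refine ⟨b, ?_⟩
  rw [← zpow_mul]
  have h2 : i * b = 1 - (p : ℤ) * a := by linarith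
  have h3 : g ^ ((p : ℤ) * a) = 1 := by
    rw [zpow_mul, zpow_natCast, ← hg, pow_orderOf_eq_one, one_zpow]
  rw [h2, zpow_sub, zpow_one, h3, inv_one, mul_one]

theorem commute_of_commute_zpow (hp : p.Prime) {g t : G} (hg : orderOf g = p) {i : ℤ}
    (hi : g ^ i ≠ 1) (h : Commute t (g ^ i)) : Commute t g := by
  obtain ⟨m, hm⟩ := exists_zpow_eq hp hg hi
  have h1 := h.zpow_right m
  rwa [hm] at h1

theorem zpow_mem_KE (hp : p.Prime) (hK : ∀ X ∈ K, Nat.card ↥X = p) {g : G} (hg : g ∈ KE K)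
    {i : ℤ} (hi : g ^ i ≠ 1) : g ^ i ∈ KE K := by
  refine ⟨hi, ?_⟩
  have h0 : Subgroup.zpowers (g ^ i) = Subgroup.zpowers g := by
    apply le_antisymm
    · rw [Subgroup.zpowers_le]; exact zpow_mem (Subgroup.mem_zpowers g) i
    · rw [Subgroup.zpowers_le]
      obtain ⟨m, hm⟩ := exists_zpow_eq hp (orderOf_of_mem hK hg) hi
      have h1 := zpow_mem (Subgroup.mem_zpowers (g ^ i)) m
      rwa [hm] at h1
  rw [h0]; exact hg.2

theorem conj_mem_KE (hKc : ∀ X ∈ K, ∀ g : G, X.map (MulAut.conj g).toMonoidHom ∈ K) {g : G}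
    (hg : g ∈ KE K) (h : G) : h * g * h⁻¹ ∈ KE K := by
  refine ⟨?_, ?_⟩
  · intro h1
    apply hg.1
    have h2 : g = h⁻¹ * (h * g * h⁻¹) * h := by group
    rw [h2, h1]; group
  · have h1 := hKc _ hg.2 h
    rw [MonoidHom.map_zpowers] at h1
    exact h1

theorem mem_sup_zpowers {x y g : G} (hxy : Commute x y)
    (hg : g ∈ Subgroup.zpowers x ⊔ Subgroup.zpowers y) : ∃ i j : ℤ, g = x ^ i * y ^ j := by
  let M : Subgroup G :=
    { carrier := {g | ∃ i j : ℤ, g = x ^ i * y ^ j}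
      mul_mem' := by
        rintro _ _ ⟨i, j, rfl⟩ ⟨i', j', rfl⟩
        refine ⟨i + i', j + j', ?_⟩
        have hc : Commute (y ^ j) (x ^ i') := (hxy.zpow_zpow i' j).symm
        calc x ^ i * y ^ j * (x ^ i' * y ^ j')
            = x ^ i * (y ^ j * x ^ i') * y ^ j' := by simp only [mul_assoc]
          _ = x ^ i * (x ^ i' * y ^ j) * y ^ j' := by rw [hc.eq]
          _ = x ^ (i + i') * y ^ (j + j') := by rw [zpow_add, zpow_add]; simp only [mul_assoc]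
      one_mem' := ⟨0, 0, by simp⟩
      inv_mem' := by
        rintro _ ⟨i, j, rfl⟩
        refine ⟨-i, -j, ?_⟩
        rw [mul_inv_rev, zpow_neg, zpow_neg]
        exact ((hxy.zpow_zpow i j).inv_inv).symm.eq }
  have h1 : Subgroup.zpowers x ≤ M := by
    rw [Subgroup.zpowers_le]; exact ⟨1, 0, by simp⟩
  have h2 : Subgroup.zpowers y ≤ M := by
    rw [Subgroup.zpowers_le]; exact ⟨0, 1, by simp⟩
  exact sup_le h1 h2 hg

theorem zpow_pow_eq_one {g : G} (hg : g ^ p = 1) (i : ℤ) : (g ^ i) ^ p = 1 := by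
  rw [← zpow_natCast, ← zpow_mul, mul_comm, zpow_mul, zpow_natCast, hg, one_zpow]

theorem comm_zpowers {x y : G} (hxy : Commute x y) :
    ∀ a ∈ Subgroup.zpowers x, ∀ b ∈ Subgroup.zpowers y, a * b = b * a := by
  intro a ha b hb
  obtain ⟨i, rfl⟩ := Subgroup.mem_zpowers_iff.mp ha
  obtain ⟨j, rfl⟩ := Subgroup.mem_zpowers_iff.mp hb
  exact (hxy.zpow_zpow i j).eq

theorem sup_mem_KE (hp : p.Prime) (hK : ∀ X ∈ K, Nat.card ↥X = p)
    (ha : ∀ X ∈ K, ∀ Y ∈ K, X ≠ Y → (∀ x ∈ X, ∀ y ∈ Y, x * y = y * x) →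
      ∀ Z : Subgroup G, Z ≤ X ⊔ Y → Nat.card ↥Z = p → Z ∈ K)
    {x y g : G} (hx : x ∈ KE K) (hy : y ∈ KE K) (hxy : Commute x y)
    (hg : g ∈ Subgroup.zpowers x ⊔ Subgroup.zpowers y) (hg1 : g ≠ 1) : g ∈ KE K := by
  have hfact : Fact p.Prime := ⟨hp⟩
  by_cases heq : Subgroup.zpowers x = Subgroup.zpowers y
  · rw [← heq, sup_idem] at hg
    obtain ⟨i, rfl⟩ := Subgroup.mem_zpowers_iff.mp hg
    exact zpow_mem_KE hp hK hx hg1
  · refine ⟨hg1, ?_⟩
    apply ha _ hx.2 _ hy.2 heq (comm_zpowers hxy)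
    · rw [Subgroup.zpowers_le]; exact hg
    · rw [Nat.card_zpowers]
      obtain ⟨i, j, rfl⟩ := mem_sup_zpowers hxy hg
      apply orderOf_eq_prime _ hg1
      have hxp : x ^ p = 1 := by rw [← orderOf_of_mem hK hx]; exact pow_orderOf_eq_one x
      have hyp : y ^ p = 1 := by rw [← orderOf_of_mem hK hy]; exact pow_orderOf_eq_one y
      rw [(hxy.zpow_zpow i j).mul_pow, zpow_pow_eq_one hxp, zpow_pow_eq_one hyp, one_mul]

theorem exists_comm (hb : ∀ X ∈ K, ∀ Y ∈ K, X ≠ Y → (∀ x ∈ X, ∀ y ∈ Y, x * y = y * x) →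
      ∀ W ∈ K, (X ⊔ Y) ⊓ Subgroup.centralizer (W : Set G) ≠ ⊥)
    {x y w : G} (hx : x ∈ KE K) (hy : y ∈ KE K) (hxy : Commute x y)
    (hne : Subgroup.zpowers x ≠ Subgroup.zpowers y) (hw : w ∈ KE K) :
    ∃ g ∈ Subgroup.zpowers x ⊔ Subgroup.zpowers y, g ≠ 1 ∧ Commute g w := by
  have h1 := hb _ hx.2 _ hy.2 hne (comm_zpowers hxy) _ hw.2
  obtain ⟨⟨g, hg⟩, hg1⟩ := (Subgroup.ne_bot_iff_exists_ne_one).mp h1
  rw [Subgroup.mem_inf, Subgroup.mem_centralizer_iff] at hg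
  refine ⟨g, hg.1, fun h => hg1 (Subtype.ext h), ?_⟩
  exact (hg.2 w (Subgroup.mem_zpowers w)).symm

theorem zpowers_ne_of_commute {x y t : G} (h1 : Commute t x) (h2 : ¬ Commute t y) :
    Subgroup.zpowers x ≠ Subgroup.zpowers y := by
  intro heq
  have h3 : y ∈ Subgroup.zpowers x := heq ▸ Subgroup.mem_zpowers y
  obtain ⟨i, rfl⟩ := Subgroup.mem_zpowers_iff.mp h3
  exact h2 (h1.zpow_right i)

theorem exists_gen (hp : p.Prime) (hK : ∀ X ∈ K, Nat.card ↥X = p) {X : Subgroup G}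
    (hX : X ∈ K) : ∃ x ∈ KE K, Subgroup.zpowers x = X := by
  have hfact : Fact p.Prime := ⟨hp⟩
  have hc := hK X hX
  have hfin : Finite X := Nat.finite_of_card_ne_zero (by rw [hc]; exact hp.ne_zero)
  have hnt : Nontrivial X := by
    apply Finite.one_lt_card_iff_nontrivial.mp
    rw [hc]; exact hp.one_lt
  obtain ⟨⟨x, hxX⟩, hx1⟩ := exists_ne (1 : X)
  have hx1' : x ≠ 1 := fun h => hx1 (Subtype.ext h)
  have heq : Subgroup.zpowers x = X := by
    apply le_antisymm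
    · rw [Subgroup.zpowers_le]; exact hxX
    · intro y hy
      have h1 := mem_zpowers_of_prime_card (G := X) hc (g := ⟨x, hxX⟩) (g' := ⟨y, hy⟩) hx1
      obtain ⟨k, hk⟩ := Subgroup.mem_zpowers_iff.mp h1
      rw [Subgroup.mem_zpowers_iff]
      refine ⟨k, ?_⟩
      have h2 := congrArg Subtype.val hk
      simpa using h2
  exact ⟨x, ⟨hx1', heq ▸ hX⟩, heq⟩

end Basic

section Main

variable {G : Type*} [Group G] {p : ℕ} {K : Set (Subgroup G)}

/-- A good pair: non-commuting `K`-elements whose common `K`-neighbours do not all commute. -/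
def Good (K : Set (Subgroup G)) (z u : G) : Prop :=
  z ∈ KE K ∧ u ∈ KE K ∧ ¬ Commute z u ∧
    ∃ x x' : G, x ∈ KE K ∧ x' ∈ KE K ∧ Commute x z ∧ Commute x u ∧ Commute x' z ∧
      Commute x' u ∧ ¬ Commute x x'

theorem Good.symm' {z u : G} (h : Good K z u) : Good K u z := by
  obtain ⟨hz, hu, hzu, x, x', hx, hx', h1, h2, h3, h4, h5⟩ := h
  exact ⟨hu, hz, fun h => hzu h.symm, x, x', hx, hx', h2, h1, h4, h3, h5⟩

/-- A radical element: a `K`-element commuting with all `K`-elements. -/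
def Radical (K : Set (Subgroup G)) (v : G) : Prop := v ∈ KE K ∧ ∀ w ∈ KE K, Commute v w

theorem sep (hp : p.Prime) (hK : ∀ X ∈ K, Nat.card ↥X = p)
    (ha : ∀ X ∈ K, ∀ Y ∈ K, X ≠ Y → (∀ x ∈ X, ∀ y ∈ Y, x * y = y * x) →
      ∀ Z : Subgroup G, Z ≤ X ⊔ Y → Nat.card ↥Z = p → Z ∈ K)
    (hb : ∀ X ∈ K, ∀ Y ∈ K, X ≠ Y → (∀ x ∈ X, ∀ y ∈ Y, x * y = y * x) →
      ∀ W ∈ K, (X ⊔ Y) ⊓ Subgroup.centralizer (W : Set G) ≠ ⊥)
    {z u x x' : G} (hz : z ∈ KE K) (hu : u ∈ KE K) (hzu : ¬ Commute z u)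
    (hx : x ∈ KE K) (hx' : x' ∈ KE K) (hxz : Commute x z) (hxu : Commute x u)
    (hx'z : Commute x' z) (hx'u : Commute x' u) (hxx' : ¬ Commute x x') :
    ∃ v : G, Commute v (z * x) ∧ Commute v u ∧ ¬ Commute v x := by
  have hzx : z * x ∈ KE K := by
    apply sup_mem_KE hp hK ha hz hx hxz.symm (mul_mem
      (Subgroup.mem_sup_left (Subgroup.mem_zpowers z))
      (Subgroup.mem_sup_right (Subgroup.mem_zpowers x)))
    intro h1
    have h2 : z = x⁻¹ := eq_inv_of_mul_eq_one_left h1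
    apply hzu
    rw [h2]; exact hxu.inv_left
  have hne : Subgroup.zpowers x' ≠ Subgroup.zpowers u := zpowers_ne_of_commute hx'z.symm hzu
  obtain ⟨v, hv, hv1, hvc⟩ := exists_comm hb hx' hu hx'u hne hzx
  obtain ⟨i, j, rfl⟩ := mem_sup_zpowers hx'u hv
  refine ⟨_, hvc, ?_, ?_⟩
  · exact (hx'u.zpow_left i).mul_left ((Commute.refl u).zpow_left j)
  · intro hvx
    have hvz : Commute (x' ^ i * u ^ j) z := by
      have h1 : z = (z * x) * x⁻¹ := by group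
      rw [h1]; exact hvc.mul_right hvx.inv_right
    have huz : Commute (u ^ j) z := by
      have h1 : u ^ j = (x' ^ i)⁻¹ * (x' ^ i * u ^ j) := by group
      rw [h1]; exact ((hx'z.zpow_left i).inv_left).mul_left hvz
    by_cases huj : u ^ j = 1
    · rw [huj, mul_one] at hvx hv1
      exact hxx' (commute_of_commute_zpow hp (orderOf_of_mem hK hx') hv1 hvx.symm)
    · exact hzu (commute_of_commute_zpow hp (orderOf_of_mem hK hu) huj huz.symm)

theorem step [Finite G] (hp : p.Prime) (hK : ∀ X ∈ K, Nat.card ↥X = p)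
    (hKc : ∀ X ∈ K, ∀ g : G, X.map (MulAut.conj g).toMonoidHom ∈ K)
    (ha : ∀ X ∈ K, ∀ Y ∈ K, X ≠ Y → (∀ x ∈ X, ∀ y ∈ Y, x * y = y * x) →
      ∀ Z : Subgroup G, Z ≤ X ⊔ Y → Nat.card ↥Z = p → Z ∈ K)
    (hb : ∀ X ∈ K, ∀ Y ∈ K, X ≠ Y → (∀ x ∈ X, ∀ y ∈ Y, x * y = y * x) →
      ∀ W ∈ K, (X ⊔ Y) ⊓ Subgroup.centralizer (W : Set G) ≠ ⊥)
    {z u : G} (h : Good K z u) :
    Commute z (u * z * u⁻¹) ∨ ∃ z₁ u₁, Good K z₁ u₁ ∧
      Nat.card (Subgroup.closure ({z₁, u₁} : Set G)) < Nat.card (Subgroup.closure ({z, u} : Set G)) := by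
  obtain ⟨hz, hu, hzu, x, x', hx, hx', hxz, hxu, hx'z, hx'u, hxx'⟩ := h
  by_cases hc : Commute z (u * z * u⁻¹)
  · exact Or.inl hc
  right
  obtain ⟨v, hv1, hv2, hv3⟩ :=
    sep hp hK ha hb hu hz (fun h => hzu h.symm) hx hx' hxu hxz hx'u hx'z hxx'
  have hvu : ¬ Commute v u := by
    intro h1
    apply hv3
    have h2 : x = u⁻¹ * (u * x) := by group
    rw [h2]; exact h1.inv_right.mul_right hv1
  have hz1 : u * z * u⁻¹ ∈ KE K := conj_mem_KE hKc hz u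
  refine ⟨z, u * z * u⁻¹, ⟨hz, hz1, hc, x, x', hx, hx', hxz, ?_, hx'z, ?_, hxx'⟩, ?_⟩
  · exact (hxu.mul_right hxz).mul_right hxu.inv_right
  · exact (hx'u.mul_right hx'z).mul_right hx'u.inv_right
  · have hv4 : Commute v (u * z * u⁻¹) := by
      have h2 : u * z * u⁻¹ = (u * x) * z * (u * x)⁻¹ := by
        rw [mul_inv_rev, mul_assoc u x z, hxz.eq]; group
      rw [h2]; exact (hv1.mul_right hv2).mul_right hv1.inv_right
    have hzm : z ∈ Subgroup.closure ({z, u} : Set G) := Subgroup.subset_closure (by simp)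
    have hum : u ∈ Subgroup.closure ({z, u} : Set G) := Subgroup.subset_closure (by simp)
    have hle : Subgroup.closure ({z, u * z * u⁻¹} : Set G) ≤ Subgroup.closure ({z, u} : Set G) := by
      rw [Subgroup.closure_le]
      rintro t (rfl | rfl)
      · exact hzm
      · exact mul_mem (mul_mem hum hzm) (inv_mem hum)
    have hcent : Subgroup.closure ({z, u * z * u⁻¹} : Set G) ≤ Subgroup.centralizer ({v} : Set G) := by
      rw [Subgroup.closure_le]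
      rintro t (rfl | rfl)
      · rw [SetLike.mem_coe, Subgroup.mem_centralizer_iff]
        rintro _ rfl
        exact hv2.eq
      · rw [SetLike.mem_coe, Subgroup.mem_centralizer_iff]
        rintro _ rfl
        exact hv4.eq
    have hnot : u ∉ Subgroup.closure ({z, u * z * u⁻¹} : Set G) := by
      intro hmem
      have h3 := hcent hmem
      rw [Subgroup.mem_centralizer_iff] at h3
      exact hvu (h3 v rfl)
    have hss : (Subgroup.closure ({z, u * z * u⁻¹} : Set G) : Set G) ⊂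
        (Subgroup.closure ({z, u} : Set G) : Set G) :=
      ⟨hle, fun hge => hnot (hge hum)⟩
    exact Set.Finite.card_lt_card (Set.toFinite _) hss

theorem comm_elem_eq {A z h : G} (hAz : Commute A z) (hAh : Commute A h) :
    (A * z) * h * (A * z)⁻¹ * h⁻¹ = z * h * z⁻¹ * h⁻¹ := by
  have h1 : A⁻¹ * h⁻¹ = h⁻¹ * A⁻¹ := (hAh.inv_inv).eq
  have h2 : Commute A (z * h * z⁻¹ * h⁻¹) :=
    ((hAz.mul_right hAh).mul_right hAz.inv_right).mul_right hAh.inv_right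
  calc A * z * h * (A * z)⁻¹ * h⁻¹ = A * z * h * z⁻¹ * (A⁻¹ * h⁻¹) := by
        rw [mul_inv_rev]; simp only [mul_assoc]
    _ = A * z * h * z⁻¹ * (h⁻¹ * A⁻¹) := by rw [h1]
    _ = A * (z * h * z⁻¹ * h⁻¹) * A⁻¹ := by simp only [mul_assoc]
    _ = z * h * z⁻¹ * h⁻¹ := by rw [h2.eq, mul_inv_cancel_right]

theorem comm_elem_eq' {B z u : G} (hBz : Commute B z) (hBu : Commute B u) :
    z * (B * u) * z⁻¹ * (B * u)⁻¹ = z * u * z⁻¹ * u⁻¹ := by
  have h2 : Commute B (z * u * z⁻¹ * u⁻¹) :=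
    ((hBz.mul_right hBu).mul_right hBz.inv_right).mul_right hBu.inv_right
  calc z * (B * u) * z⁻¹ * (B * u)⁻¹ = (z * B) * u * z⁻¹ * (u⁻¹ * B⁻¹) := by
        rw [mul_inv_rev]; simp only [mul_assoc]
    _ = (B * z) * u * z⁻¹ * (u⁻¹ * B⁻¹) := by rw [hBz.eq]
    _ = B * (z * u * z⁻¹ * u⁻¹) * B⁻¹ := by simp only [mul_assoc]
    _ = z * u * z⁻¹ * u⁻¹ := by rw [h2.eq, mul_inv_cancel_right]

theorem radical_of_commuting (hp : p.Prime) (hK : ∀ X ∈ K, Nat.card ↥X = p)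
    (hKc : ∀ X ∈ K, ∀ g : G, X.map (MulAut.conj g).toMonoidHom ∈ K)
    (ha : ∀ X ∈ K, ∀ Y ∈ K, X ≠ Y → (∀ x ∈ X, ∀ y ∈ Y, x * y = y * x) →
      ∀ Z : Subgroup G, Z ≤ X ⊔ Y → Nat.card ↥Z = p → Z ∈ K)
    (hb : ∀ X ∈ K, ∀ Y ∈ K, X ≠ Y → (∀ x ∈ X, ∀ y ∈ Y, x * y = y * x) →
      ∀ W ∈ K, (X ⊔ Y) ⊓ Subgroup.centralizer (W : Set G) ≠ ⊥)
    {z u : G} (hz : z ∈ KE K) (hu : u ∈ KE K) (hzu : ¬ Commute z u)
    (h1 : Commute z (u * z * u⁻¹)) (h2 : Commute u (z * u * z⁻¹)) : ∃ v, Radical K v := by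
  obtain ⟨c, hc⟩ : ∃ c, c = z * u * z⁻¹ * u⁻¹ := ⟨_, rfl⟩
  have e : c = z * (u * z * u⁻¹)⁻¹ := by rw [hc]; group
  have hcz : Commute c z := by
    rw [e]; exact (Commute.refl z).mul_left h1.symm.inv_left
  have hcu : Commute c u := by
    rw [hc]; exact (h2.symm).mul_left ((Commute.refl u).inv_left)
  have hc1 : c ≠ 1 := by
    intro h0
    apply hzu
    rw [hc] at h0
    show z * u = u * z
    calc z * u = (z * u * z⁻¹ * u⁻¹) * (u * z) := by group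
      _ = u * z := by rw [h0, one_mul]
  have hz1 : u * z * u⁻¹ ∈ KE K := conj_mem_KE hKc hz u
  have hcK : c ∈ KE K := by
    apply sup_mem_KE hp hK ha hz hz1 h1 _ hc1
    rw [e]
    exact mul_mem (Subgroup.mem_sup_left (Subgroup.mem_zpowers z))
      (Subgroup.mem_sup_right (inv_mem (Subgroup.mem_zpowers _)))
  have hcp := orderOf_of_mem hK hcK
  have hne1 : Subgroup.zpowers c ≠ Subgroup.zpowers z :=
    zpowers_ne_of_commute (t := u) hcu.symm (fun h => hzu h.symm)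
  have hne2 : Subgroup.zpowers c ≠ Subgroup.zpowers u :=
    zpowers_ne_of_commute (t := z) hcz.symm hzu
  refine ⟨c, hcK, fun w hw => ?_⟩
  obtain ⟨g1, hg1, hg11, hg1w⟩ := exists_comm hb hcK hz hcz hne1 hw
  obtain ⟨g2, hg2, hg21, hg2w⟩ := exists_comm hb hcK hu hcu hne2 hw
  obtain ⟨a, i, rfl⟩ := mem_sup_zpowers hcz hg1
  obtain ⟨b, i', rfl⟩ := mem_sup_zpowers hcu hg2
  by_cases hzi : z ^ i = 1
  · rw [hzi, mul_one] at hg11 hg1w
    exact (commute_of_commute_zpow hp hcp hg11 hg1w.symm).symm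
  by_cases hui : u ^ i' = 1
  · rw [hui, mul_one] at hg21 hg2w
    exact (commute_of_commute_zpow hp hcp hg21 hg2w.symm).symm
  obtain ⟨m, hm⟩ := exists_zpow_eq hp (orderOf_of_mem hK hz) hzi
  obtain ⟨m', hm'⟩ := exists_zpow_eq hp (orderOf_of_mem hK hu) hui
  have e1 : (c ^ a * z ^ i) ^ m = (c ^ a) ^ m * z := by
    rw [((hcz.zpow_left a).zpow_right i).mul_zpow, hm]
  have e2 : (c ^ b * u ^ i') ^ m' = (c ^ b) ^ m' * u := by
    rw [((hcu.zpow_left b).zpow_right i').mul_zpow, hm']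
  have w1 : Commute w ((c ^ a) ^ m * z) := by rw [← e1]; exact hg1w.symm.zpow_right m
  have w2 : Commute w ((c ^ b) ^ m' * u) := by rw [← e2]; exact hg2w.symm.zpow_right m'
  have hAz : Commute ((c ^ a) ^ m) z := (hcz.zpow_left a).zpow_left m
  have hAu : Commute ((c ^ a) ^ m) u := (hcu.zpow_left a).zpow_left m
  have hBz : Commute ((c ^ b) ^ m') z := (hcz.zpow_left b).zpow_left m'
  have hBu : Commute ((c ^ b) ^ m') u := (hcu.zpow_left b).zpow_left m'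
  have hAB : Commute ((c ^ a) ^ m) ((c ^ b) ^ m') :=
    ((Commute.refl c).zpow_zpow a b).zpow_zpow m m'
  have e3 : ((c ^ a) ^ m * z) * ((c ^ b) ^ m' * u) * ((c ^ a) ^ m * z)⁻¹ * ((c ^ b) ^ m' * u)⁻¹
      = c := by
    rw [comm_elem_eq hAz (hAB.mul_right hAu), comm_elem_eq' hBz hBu, hc]
  have w3 : Commute w (((c ^ a) ^ m * z) * ((c ^ b) ^ m' * u) * ((c ^ a) ^ m * z)⁻¹ *
      ((c ^ b) ^ m' * u)⁻¹) :=
    ((w1.mul_right w2).mul_right w1.inv_right).mul_right w2.inv_right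
  rw [e3] at w3
  exact w3.symm

theorem radical_of_no_good (hp : p.Prime) (hK : ∀ X ∈ K, Nat.card ↥X = p)
    (ha : ∀ X ∈ K, ∀ Y ∈ K, X ≠ Y → (∀ x ∈ X, ∀ y ∈ Y, x * y = y * x) →
      ∀ Z : Subgroup G, Z ≤ X ⊔ Y → Nat.card ↥Z = p → Z ∈ K)
    (hb : ∀ X ∈ K, ∀ Y ∈ K, X ≠ Y → (∀ x ∈ X, ∀ y ∈ Y, x * y = y * x) →
      ∀ W ∈ K, (X ⊔ Y) ⊓ Subgroup.centralizer (W : Set G) ≠ ⊥)
    {z u x : G} (hz : z ∈ KE K) (hu : u ∈ KE K) (hzu : ¬ Commute z u)
    (hx : x ∈ KE K) (hxz : Commute x z) (hxu : Commute x u)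
    (hno : ∀ z' u', ¬ Good K z' u') : Radical K x := by
  refine ⟨hx, fun w hw => ?_⟩
  by_contra hxw
  have hne1 : Subgroup.zpowers x ≠ Subgroup.zpowers z :=
    zpowers_ne_of_commute (t := u) hxu.symm (fun h => hzu h.symm)
  have hne2 : Subgroup.zpowers x ≠ Subgroup.zpowers u :=
    zpowers_ne_of_commute (t := z) hxz.symm hzu
  obtain ⟨g, hg, hg1, hgw⟩ := exists_comm hb hx hz hxz hne1 hw
  obtain ⟨g', hg', hg'1, hg'w⟩ := exists_comm hb hx hu hxu hne2 hw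
  have hgK : g ∈ KE K := sup_mem_KE hp hK ha hx hz hxz hg hg1
  have hg'K : g' ∈ KE K := sup_mem_KE hp hK ha hx hu hxu hg' hg'1
  obtain ⟨i, j, rfl⟩ := mem_sup_zpowers hxz hg
  obtain ⟨i', j', rfl⟩ := mem_sup_zpowers hxu hg'
  have hxp := orderOf_of_mem hK hx
  have hzj : z ^ j ≠ 1 := by
    intro h0
    rw [h0, mul_one] at hg1 hgw
    exact hxw (commute_of_commute_zpow hp hxp hg1 hgw.symm).symm
  have huj : u ^ j' ≠ 1 := by
    intro h0
    rw [h0, mul_one] at hg'1 hg'w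
    exact hxw (commute_of_commute_zpow hp hxp hg'1 hg'w.symm).symm
  have hgx : Commute (x ^ i * z ^ j) x :=
    ((Commute.refl x).zpow_left i).mul_left (hxz.symm.zpow_left j)
  have hg'x : Commute (x ^ i' * u ^ j') x :=
    ((Commute.refl x).zpow_left i').mul_left (hxu.symm.zpow_left j')
  apply hno x w
  refine ⟨hx, hw, hxw, _, _, hgK, hg'K, hgx, hgw, hg'x, hg'w, ?_⟩
  intro hcomm
  have c1 : Commute (z ^ j) (u ^ j') := by
    have e1 : z ^ j = (x ^ i)⁻¹ * (x ^ i * z ^ j) := by group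
    have e2 : u ^ j' = (x ^ i')⁻¹ * (x ^ i' * u ^ j') := by group
    rw [e1, e2]
    have cx1 : Commute (x ^ i) (x ^ i') := (Commute.refl x).zpow_zpow i i'
    have cx2 : Commute (x ^ i) (u ^ j') := hxu.zpow_zpow i j'
    have cx3 : Commute (x ^ i') (z ^ j) := hxz.zpow_zpow i' j
    apply Commute.mul_left
    · exact (cx1.inv_inv).mul_right ((cx1.mul_right cx2).inv_left)
    · exact ((cx1.symm.mul_right cx3).symm.inv_right).mul_right hcomm
  have c2 : Commute z (u ^ j') :=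
    (commute_of_commute_zpow hp (orderOf_of_mem hK hz) hzj c1.symm).symm
  exact hzu (commute_of_commute_zpow hp (orderOf_of_mem hK hu) huj c2)

theorem exists_common (hp : p.Prime) (hK : ∀ X ∈ K, Nat.card ↥X = p)
    (ha : ∀ X ∈ K, ∀ Y ∈ K, X ≠ Y → (∀ x ∈ X, ∀ y ∈ Y, x * y = y * x) →
      ∀ Z : Subgroup G, Z ≤ X ⊔ Y → Nat.card ↥Z = p → Z ∈ K)
    (hb : ∀ X ∈ K, ∀ Y ∈ K, X ≠ Y → (∀ x ∈ X, ∀ y ∈ Y, x * y = y * x) →
      ∀ W ∈ K, (X ⊔ Y) ⊓ Subgroup.centralizer (W : Set G) ≠ ⊥)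
    {z u : G} (hz : z ∈ KE K) (hu : u ∈ KE K)
    (hex : ∃ X ∈ K, ∃ Y ∈ K, X ≠ Y ∧ ∀ x ∈ X, ∀ y ∈ Y, x * y = y * x) :
    ∃ x ∈ KE K, Commute x z ∧ Commute x u := by
  obtain ⟨X, hX, Y, hY, hXY, hcomm⟩ := hex
  obtain ⟨x₀, hx₀, rfl⟩ := exists_gen hp hK hX
  obtain ⟨y₀, hy₀, rfl⟩ := exists_gen hp hK hY
  have hxy : Commute x₀ y₀ := hcomm x₀ (Subgroup.mem_zpowers x₀) y₀ (Subgroup.mem_zpowers y₀)
  obtain ⟨e, he, he1, hez⟩ := exists_comm hb hx₀ hy₀ hxy hXY hz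
  have heK : e ∈ KE K := sup_mem_KE hp hK ha hx₀ hy₀ hxy he he1
  have hP : ∃ P ∈ KE K, Commute P z ∧ Subgroup.zpowers P ≠ Subgroup.zpowers z := by
    by_cases h1 : Subgroup.zpowers e = Subgroup.zpowers z
    · have hzmem : z ∈ Subgroup.zpowers x₀ ⊔ Subgroup.zpowers y₀ := by
        have h2 : z ∈ Subgroup.zpowers e := h1 ▸ Subgroup.mem_zpowers z
        exact (Subgroup.zpowers_le.mpr he) h2
      obtain ⟨i, j, hzij⟩ := mem_sup_zpowers hxy hzmem
      have cx : Commute x₀ z := by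
        rw [hzij]; exact ((Commute.refl x₀).zpow_right i).mul_right (hxy.zpow_right j)
      have cy : Commute y₀ z := by
        rw [hzij]; exact (hxy.symm.zpow_right i).mul_right ((Commute.refl y₀).zpow_right j)
      by_cases h2 : Subgroup.zpowers x₀ = Subgroup.zpowers z
      · refine ⟨y₀, hy₀, cy, ?_⟩
        intro h3; exact hXY (h2.trans h3.symm)
      · exact ⟨x₀, hx₀, cx, h2⟩
    · exact ⟨e, heK, hez, h1⟩
  obtain ⟨P, hPK, hPz, hPne⟩ := hP
  obtain ⟨x, hx, hx1, hxu⟩ := exists_comm hb hPK hz hPz hPne hu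
  have hxK : x ∈ KE K := sup_mem_KE hp hK ha hPK hz hPz hx hx1
  obtain ⟨i, j, rfl⟩ := mem_sup_zpowers hPz hx
  exact ⟨_, hxK, (hPz.zpow_left i).mul_left ((Commute.refl z).zpow_left j), hxu⟩

theorem exists_radical [Finite G] (hp : p.Prime) (hK : ∀ X ∈ K, Nat.card ↥X = p)
    (hKc : ∀ X ∈ K, ∀ g : G, X.map (MulAut.conj g).toMonoidHom ∈ K)
    (hex : ∃ X ∈ K, ∃ Y ∈ K, X ≠ Y ∧ ∀ x ∈ X, ∀ y ∈ Y, x * y = y * x)
    (ha : ∀ X ∈ K, ∀ Y ∈ K, X ≠ Y → (∀ x ∈ X, ∀ y ∈ Y, x * y = y * x) →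
      ∀ Z : Subgroup G, Z ≤ X ⊔ Y → Nat.card ↥Z = p → Z ∈ K)
    (hb : ∀ X ∈ K, ∀ Y ∈ K, X ≠ Y → (∀ x ∈ X, ∀ y ∈ Y, x * y = y * x) →
      ∀ W ∈ K, (X ⊔ Y) ⊓ Subgroup.centralizer (W : Set G) ≠ ⊥) :
    ∃ v, Radical K v := by
  by_cases hNC : ∃ z u, z ∈ KE K ∧ u ∈ KE K ∧ ¬ Commute z u
  · obtain ⟨z, u, hz, hu, hzu⟩ := hNC
    by_cases hgood : ∃ z' u', Good K z' u'
    · obtain ⟨z', u', hg⟩ := hgood
      have key : ∀ n : ℕ, ∀ z u : G, Good K z u →
          Nat.card (Subgroup.closure ({z, u} : Set G)) = n → ∃ v, Radical K v := by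
        intro n
        induction n using Nat.strong_induction_on with
        | _ n ih =>
          intro z u hg hn
          rcases step hp hK hKc ha hb hg with h1 | ⟨z₁, u₁, hg₁, hlt⟩
          · rcases step hp hK hKc ha hb hg.symm' with h2 | ⟨z₁, u₁, hg₁, hlt⟩
            · exact radical_of_commuting hp hK hKc ha hb hg.1 hg.2.1 hg.2.2.1 h1 h2
            · rw [Set.pair_comm u z, hn] at hlt
              exact ih _ hlt z₁ u₁ hg₁ rfl
          · rw [hn] at hlt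
            exact ih _ hlt z₁ u₁ hg₁ rfl
      exact key _ z' u' hg rfl
    · push Not at hgood
      obtain ⟨x, hx, hxz, hxu⟩ := exists_common hp hK ha hb hz hu hex
      exact ⟨x, radical_of_no_good hp hK ha hb hz hu hzu hx hxz hxu hgood⟩
  · push Not at hNC
    obtain ⟨X, hX, -⟩ := hex
    obtain ⟨x, hx, -⟩ := exists_gen hp hK hX
    exact ⟨x, hx, fun w hw => hNC x w hx hw⟩

end Main

section Final

variable {G : Type*} [Group G]

/-- Let p be a prime and K a set of subgroups of order p of a finite group G, closed under conjugation, such that at least two distinct members of K commute elementwise, and whenever two distinct members X, Y of K commute: every subgroup of order p of the group XY they generate belongs to K, and every member W of K has centralizer meeting XY nontrivially. Then some member V of K commutes elementwise with every member of K and lies in O_p(G); in particular G is not simple.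 -/
theorem result {G : Type*} [Group G] [Finite G]
    {p : ℕ} (hp : p.Prime) (K : Set (Subgroup G)) (hK : ∀ X ∈ K, Nat.card ↥X = p)
    (hKc : ∀ X ∈ K, ∀ g : G, X.map (MulAut.conj g).toMonoidHom ∈ K)
    (hex : ∃ X ∈ K, ∃ Y ∈ K, X ≠ Y ∧ ∀ x ∈ X, ∀ y ∈ Y, x * y = y * x)
    (ha : ∀ X ∈ K, ∀ Y ∈ K, X ≠ Y → (∀ x ∈ X, ∀ y ∈ Y, x * y = y * x) →
      ∀ Z : Subgroup G, Z ≤ X ⊔ Y → Nat.card ↥Z = p → Z ∈ K)
    (hb : ∀ X ∈ K, ∀ Y ∈ K, X ≠ Y → (∀ x ∈ X, ∀ y ∈ Y, x * y = y * x) →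
      ∀ W ∈ K, (X ⊔ Y) ⊓ Subgroup.centralizer (W : Set G) ≠ ⊥) :
    (∃ V ∈ K, (∀ W ∈ K, ∀ v ∈ V, ∀ w ∈ W, v * w = w * v) ∧ V ≤ Cfsg.pCore p G) ∧ ¬ IsSimpleGroup G := by
  obtain ⟨v, hvK, hvrad⟩ := exists_radical hp hK hKc hex ha hb
  have hvp : v ^ p = 1 := by rw [← orderOf_of_mem hK hvK]; exact pow_orderOf_eq_one v
  -- the normal closure of v
  set N := Subgroup.normalClosure ({v} : Set G) with hN
  have hNn : N.Normal := Subgroup.normalClosure_normal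
  -- conjugates of v are radical
  have hconj : ∀ g : G, g * v * g⁻¹ ∈ KE K ∧ ∀ w ∈ KE K, Commute (g * v * g⁻¹) w := by
    intro g
    refine ⟨conj_mem_KE hKc hvK g, fun w hw => ?_⟩
    have h1 : g⁻¹ * w * (g⁻¹)⁻¹ ∈ KE K := conj_mem_KE hKc hw g⁻¹
    have h2 : Commute v (g⁻¹ * w * (g⁻¹)⁻¹) := hvrad _ h1
    have h3 : w = g * (g⁻¹ * w * (g⁻¹)⁻¹) * g⁻¹ := by group
    rw [h3]
    show g * v * g⁻¹ * (g * (g⁻¹ * w * (g⁻¹)⁻¹) * g⁻¹) = g * (g⁻¹ * w * (g⁻¹)⁻¹) * g⁻¹ * (g * v * g⁻¹)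
    calc g * v * g⁻¹ * (g * (g⁻¹ * w * (g⁻¹)⁻¹) * g⁻¹)
        = g * (v * (g⁻¹ * w * (g⁻¹)⁻¹)) * g⁻¹ := by group
      _ = g * ((g⁻¹ * w * (g⁻¹)⁻¹) * v) * g⁻¹ := by rw [h2.eq]
      _ = g * (g⁻¹ * w * (g⁻¹)⁻¹) * g⁻¹ * (g * v * g⁻¹) := by group
  have hgen : ∀ t ∈ Group.conjugatesOfSet ({v} : Set G), ∃ g : G, t = g * v * g⁻¹ := by
    intro t ht
    rw [Group.mem_conjugatesOfSet_iff] at ht
    obtain ⟨a, ha', hconj'⟩ := ht
    rw [Set.mem_singleton_iff] at ha'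
    subst ha'
    obtain ⟨c, hc⟩ := isConj_iff.mp hconj'
    exact ⟨c, hc.symm⟩
  -- N centralizes KE
  have hNcent : ∀ t ∈ N, ∀ w ∈ KE K, Commute t w := by
    intro t ht w hw
    have hle : N ≤ Subgroup.centralizer ({w} : Set G) := by
      rw [hN, Subgroup.normalClosure, Subgroup.closure_le]
      intro s hs
      obtain ⟨g, rfl⟩ := hgen s hs
      rw [SetLike.mem_coe, Subgroup.mem_centralizer_iff]
      intro h' hh'
      rw [Set.mem_singleton_iff] at hh'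
      rw [hh']
      exact ((hconj g).2 w hw).symm.eq
    have h1 := hle ht
    rw [Subgroup.mem_centralizer_iff] at h1
    exact (h1 w rfl).symm
  -- N is abelian
  have hNab : ∀ s ∈ N, ∀ t ∈ N, Commute s t := by
    intro s hs t ht
    have hle : N ≤ Subgroup.centralizer ({s} : Set G) := by
      rw [hN, Subgroup.normalClosure, Subgroup.closure_le]
      intro r hr
      obtain ⟨g, rfl⟩ := hgen r hr
      rw [SetLike.mem_coe, Subgroup.mem_centralizer_iff]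
      intro h' hh'
      rw [Set.mem_singleton_iff] at hh'
      rw [hh']
      exact (hNcent s hs _ (hconj g).1).eq
    have h1 := hle ht
    rw [Subgroup.mem_centralizer_iff] at h1
    exact h1 s rfl
  -- every element of N has p-th power 1
  have hNp : ∀ t ∈ N, t ^ p = 1 := by
    intro t ht
    rw [hN, Subgroup.normalClosure] at ht
    induction ht using Subgroup.closure_induction with
    | mem x hx =>
      obtain ⟨g, rfl⟩ := hgen x hx
      rw [conj_pow, hvp, mul_one, mul_inv_cancel]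
    | one => exact one_pow p
    | mul x y hx hy ihx ihy =>
      have hc : Commute x y := hNab x hx y hy
      rw [hc.mul_pow, ihx, ihy, one_mul]
    | inv x hx ihx => rw [inv_pow, ihx, inv_one]
  have hNpg : IsPGroup p N := by
    intro t
    refine ⟨1, Subtype.ext ?_⟩
    rw [Subgroup.coe_pow, pow_one]
    exact hNp t.1 t.2
  have hvN : v ∈ N := Subgroup.subset_normalClosure (Set.mem_singleton v)
  refine ⟨⟨Subgroup.zpowers v, hvK.2, ?_, ?_⟩, ?_⟩
  · intro W hW v' hv' w hw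
    obtain ⟨w₀, hw₀, rfl⟩ := exists_gen hp hK hW
    obtain ⟨i, rfl⟩ := Subgroup.mem_zpowers_iff.mp hv'
    obtain ⟨j, rfl⟩ := Subgroup.mem_zpowers_iff.mp hw
    exact ((hvrad w₀ hw₀).zpow_zpow i j).eq
  · have h1 : N ≤ Cfsg.pCore p G := le_sSup ⟨hNn, hNpg⟩
    exact (Subgroup.zpowers_le.mpr hvN).trans h1
  · intro hs
    rcases hNn.eq_bot_or_eq_top with h0 | h0
    · rw [h0] at hvN
      exact hvK.1 (Subgroup.mem_bot.mp hvN)
    · have hab : ∀ s t : G, s * t = t * s := fun s t =>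
        (hNab s (h0 ▸ Subgroup.mem_top s) t (h0 ▸ Subgroup.mem_top t)).eq
      obtain ⟨X, hX, Y, hY, hXY, -⟩ := hex
      have htop : ∀ Z ∈ K, Z = ⊤ := by
        intro Z hZ
        have hZn : Z.Normal := ⟨fun n hn g => by
          have h1 : g * n * g⁻¹ = n := by rw [hab g n, mul_inv_cancel_right]
          rw [h1]; exact hn⟩
        rcases hZn.eq_bot_or_eq_top with h1 | h1
        · exfalso
          have h2 := hK Z hZ
          rw [h1, Subgroup.card_bot] at h2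
          exact hp.one_lt.ne h2
        · exact h1
      exact hXY ((htop X hX).trans (htop Y hY).symm)

end Final

end Cfsg.Agent.S3196
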