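-- Statement S3200: a Sylow 2-subgroup with an abelian complement (solvability, heredity).
import Mathlib
import Cfsg.Statements.S3200
import Cfsg.Agent.S0143
import Cfsg.Agent.H1.Hall

set_option autoImplicit false
open Cfsg

namespace Cfsg.Agent.S3200

universe u

/-- `H` has a Sylow 2-subgroup with an abelian complement. -/
def HasAbComp (H : Type u) [Group H] : Prop :=
  ∃ (S : Sylow 2 H) (C : Subgroup H), IsMulCommutative ↥C ∧
    Subgroup.IsComplement' (S : Subgroup H) C

theorem odd_card_comp {H : Type u} [Group H] [Finite H] (S : Sylow 2 H) (C : Subgroup H)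
    (hSC : Subgroup.IsComplement' (S : Subgroup H) C) : ¬ 2 ∣ Nat.card C := by
  have h1 := S.not_dvd_index
  have h2 : (S : Subgroup H).index = Nat.card C := hSC.symm.index_eq_card
  rwa [h2] at h1

theorem coprime_two_pow {d : ℕ} (hd : ¬ 2 ∣ d) (k : ℕ) : (2 ^ k).Coprime d :=
  Nat.Coprime.pow_left k ((Nat.Prime.coprime_iff_not_dvd Nat.prime_two).mpr hd)

theorem quot_comp {H : Type u} [Group H] [Finite H] (S : Sylow 2 H) (C : Subgroup H)
    (hC : IsMulCommutative ↥C) (hSC : Subgroup.IsComplement' (S : Subgroup H) C)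
    (N : Subgroup H) [N.Normal] :
    ∃ (P : Sylow 2 (H ⧸ N)) (D : Subgroup (H ⧸ N)),
      IsMulCommutative ↥D ∧ Subgroup.IsComplement' (P : Subgroup (H ⧸ N)) D := by
  have hCodd := odd_card_comp S C hSC
  obtain ⟨k, hk⟩ := IsPGroup.iff_card.mp S.isPGroup'
  have hcop : (Nat.card (S : Subgroup H)).Coprime (Nat.card C) := by
    rw [hk]; exact coprime_two_pow hCodd k
  refine ⟨S.mapSurjective (QuotientGroup.mk'_surjective N), C.map (QuotientGroup.mk' N),
    inferInstance, ?_⟩
  rw [Sylow.coe_mapSurjective]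
  apply Subgroup.isComplement'_of_disjoint_and_mul_eq_univ
  · apply Subgroup.disjoint_of_coprime_natCard
    exact Nat.Coprime.coprime_dvd_left (Subgroup.card_map_dvd _ _)
      (Nat.Coprime.coprime_dvd_right (Subgroup.card_map_dvd _ _) hcop)
  · apply Set.eq_univ_of_forall
    intro x
    obtain ⟨h, rfl⟩ := QuotientGroup.mk'_surjective N x
    obtain ⟨⟨s, c⟩, hsc⟩ := hSC.2 h
    refine Set.mem_mul.mpr ⟨QuotientGroup.mk' N s, Subgroup.mem_map_of_mem _ s.2,
      QuotientGroup.mk' N c, Subgroup.mem_map_of_mem _ c.2, ?_⟩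
    rw [← map_mul]
    exact congrArg _ hsc

theorem normal_comp {H : Type u} [Group H] [Finite H] (S : Sylow 2 H) (C : Subgroup H)
    (hC : IsMulCommutative ↥C) (hSC : Subgroup.IsComplement' (S : Subgroup H) C)
    (N : Subgroup H) [N.Normal] :
    ∃ (P : Sylow 2 ↥N) (D : Subgroup ↥N),
      IsMulCommutative ↥D ∧ Subgroup.IsComplement' (P : Subgroup ↥N) D := by
  have hCodd := odd_card_comp S C hSC
  obtain ⟨k, hk⟩ := IsPGroup.iff_card.mp S.isPGroup'
  have hcard := hSC.card_mul_card
  have hquot := Subgroup.card_eq_card_quotient_mul_card_subgroup N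
  have hmap := Cfsg.Agent.H1.card_map_mk'_mul N C
  obtain ⟨t, ht⟩ : Nat.card (C.map (QuotientGroup.mk' N)) ∣ Nat.card (H ⧸ N) :=
    Subgroup.card_subgroup_dvd_card _
  obtain ⟨r, hr⟩ : Nat.card (N ⊓ C : Subgroup H) ∣ Nat.card N :=
    Subgroup.card_dvd_of_le inf_le_left
  have hq : 0 < Nat.card (C.map (QuotientGroup.mk' N)) := Nat.card_pos
  have hd : 0 < Nat.card (N ⊓ C : Subgroup H) := Nat.card_pos
  have hs : Nat.card (S : Subgroup H) = t * r := by
    have h1 : Nat.card (S : Subgroup H) *
        (Nat.card (C.map (QuotientGroup.mk' N)) * Nat.card (N ⊓ C : Subgroup H))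
        = (t * r) * (Nat.card (C.map (QuotientGroup.mk' N)) * Nat.card (N ⊓ C : Subgroup H)) := by
      calc Nat.card (S : Subgroup H) *
            (Nat.card (C.map (QuotientGroup.mk' N)) * Nat.card (N ⊓ C : Subgroup H))
          = Nat.card (S : Subgroup H) * Nat.card C := by rw [hmap]
        _ = Nat.card H := hcard
        _ = Nat.card (H ⧸ N) * Nat.card N := hquot
        _ = (Nat.card (C.map (QuotientGroup.mk' N)) * t)
              * (Nat.card (N ⊓ C : Subgroup H) * r) := by rw [ht, hr]
        _ = _ := by ring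
    exact Nat.eq_of_mul_eq_mul_right (Nat.mul_pos hq hd) h1
  have hr2 : r ∣ 2 ^ k := by rw [← hk, hs]; exact dvd_mul_left r t
  obtain ⟨j, hj, rfl⟩ := (Nat.dvd_prime_pow Nat.prime_two).mp hr2
  have hdodd : ¬ 2 ∣ Nat.card (N ⊓ C : Subgroup H) :=
    fun h => hCodd (h.trans (Subgroup.card_dvd_of_le inf_le_right))
  let P : Sylow 2 ↥N := default
  obtain ⟨a, ha⟩ := IsPGroup.iff_card.mp P.isPGroup'
  have hidx : ¬ 2 ∣ (P : Subgroup ↥N).index := P.not_dvd_index
  have hPmul : Nat.card (P : Subgroup ↥N) * (P : Subgroup ↥N).index = Nat.card ↥N :=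
    Subgroup.card_mul_index _
  have haj : 2 ^ a = 2 ^ j := by
    apply Nat.dvd_antisymm
    · have h1 : 2 ^ a ∣ Nat.card (N ⊓ C : Subgroup H) * 2 ^ j := by
        rw [← hr, ← hPmul, ha]; exact dvd_mul_right _ _
      exact (coprime_two_pow hdodd a).dvd_of_dvd_mul_left h1
    · have h1 : 2 ^ j ∣ 2 ^ a * (P : Subgroup ↥N).index := by
        rw [← ha, hPmul, hr]; exact dvd_mul_left _ _
      exact (coprime_two_pow hidx j).dvd_of_dvd_mul_right h1
  have hDcard : Nat.card (C.subgroupOf N) = Nat.card (N ⊓ C : Subgroup H) := by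
    rw [Cfsg.Agent.H1.card_subgroupOf, inf_comm]
  refine ⟨P, C.subgroupOf N, inferInstance, Subgroup.isComplement'_of_coprime ?_ ?_⟩
  · rw [hDcard, ha, haj, hr, mul_comm]
  · rw [hDcard, ha]; exact coprime_two_pow hdodd a

theorem solvable_aux : ∀ (n : ℕ) (H : Type u) [Group H] [Finite H], Nat.card H = n →
    HasAbComp H → Group.IsSolvable H := by
  intro n
  induction n using Nat.strong_induction_on with
  | _ n ih =>
    intro H _ _ hn hH
    obtain ⟨S, C, hC, hSC⟩ := hH
    obtain ⟨k, hk⟩ := IsPGroup.iff_card.mp S.isPGroup'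
    by_cases hs : IsSimpleGroup H
    · by_cases hCbot : C = ⊥
      · have hcard := hSC.card_mul_card
        rw [hCbot, Subgroup.card_bot, mul_one, hk] at hcard
        have h2 : IsPGroup 2 H := IsPGroup.of_card hcard.symm
        have := h2.isNilpotent
        infer_instance
      · obtain ⟨⟨c, hcC⟩, hc1⟩ := (Subgroup.ne_bot_iff_exists_ne_one).mp hCbot
        have hc1' : c ≠ 1 := fun h => hc1 (Subtype.ext h)
        have hle : C ≤ Subgroup.centralizer ({c} : Set H) := by
          intro x hx
          rw [Subgroup.mem_centralizer_iff]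
          intro y hy
          rw [Set.mem_singleton_iff] at hy
          subst hy
          exact setLike_mul_comm hcC hx
        have hidx : (Subgroup.centralizer ({c} : Set H)).index ∣ 2 ^ k := by
          rw [← hk, ← hSC.index_eq_card]
          exact Subgroup.index_dvd_of_le hle
        obtain ⟨j, -, hj⟩ := (Nat.dvd_prime_pow Nat.prime_two).mp hidx
        have hp : (Nat.card H).Prime := Cfsg.Agent.S0143.result 2 j Nat.prime_two c hc1' hj
        have : Fact (Nat.card H).Prime := ⟨hp⟩
        have h2 : IsPGroup (Nat.card H) H := IsPGroup.of_card (n := 1) (pow_one _).symm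
        have := h2.isNilpotent
        infer_instance
    · by_cases hsub : Subsingleton H
      · infer_instance
      · rw [not_subsingleton_iff_nontrivial] at hsub
        have hex : ∃ N : Subgroup H, N.Normal ∧ N ≠ ⊥ ∧ N ≠ ⊤ := by
          by_contra hcon
          push Not at hcon
          exact hs { exists_pair_ne := hsub.exists_pair_ne
                     eq_bot_or_eq_top_of_normal := fun N hN => by
                      by_cases h : N = ⊥
                      · exact Or.inl h
                      · exact Or.inr (hcon N hN h) }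
        obtain ⟨N, hN, hNbot, hNtop⟩ := hex
        have := hN
        have hNcard : Nat.card N < n := by
          rw [← hn]
          refine lt_of_le_of_ne (Subgroup.card_le_card_group N) ?_
          intro h
          exact hNtop ((Subgroup.card_eq_iff_eq_top N).mp h)
        have hQcard : Nat.card (H ⧸ N) < n := by
          rw [← hn, Subgroup.card_eq_card_quotient_mul_card_subgroup N]
          have h1 : 1 < Nat.card N := (Subgroup.one_lt_card_iff_ne_bot N).mpr hNbot
          have h2 : 0 < Nat.card (H ⧸ N) := Nat.card_pos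
          nlinarith
        have : Group.IsSolvable N := ih _ hNcard ↥N rfl (normal_comp S C hC hSC N)
        have : Group.IsSolvable (H ⧸ N) := ih _ hQcard (H ⧸ N) rfl (quot_comp S C hC hSC N)
        exact Group.isSolvable_of_ker_le_range N.subtype (QuotientGroup.mk' N) (by simp)

/-- Let H be a finite group in which a Sylow 2-subgroup has an abelian complement (an abelian subgroup meeting it trivially whose product with it is all of H). Then H is solvable, and every subgroup and every quotient group of H again has a Sylow 2-subgroup with an abelian complement. -/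
theorem result {H : Type*} [Group H] [Finite H]
    (S : Sylow 2 H) (C : Subgroup H) (hC : IsMulCommutative ↥C) (hSC : Subgroup.IsComplement' (S : Subgroup H) C) :
    Group.IsSolvable H ∧
    (∀ L : Subgroup H, ∃ (P : Sylow 2 ↥L) (D : Subgroup ↥L), IsMulCommutative ↥D ∧ Subgroup.IsComplement' (P : Subgroup ↥L) D) ∧
    (∀ (N : Subgroup H) [N.Normal], ∃ (P : Sylow 2 (H ⧸ N)) (D : Subgroup (H ⧸ N)),
      IsMulCommutative ↥D ∧ Subgroup.IsComplement' (P : Subgroup (H ⧸ N)) D) := by
  have hsolv : Group.IsSolvable H := solvable_aux _ H rfl ⟨S, C, hC, hSC⟩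
  refine ⟨hsolv, ?_, fun N _ => quot_comp S C hC hSC N⟩
  intro L
  have hCodd := odd_card_comp S C hSC
  obtain ⟨k, hk⟩ := IsPGroup.iff_card.mp S.isPGroup'
  have hcop : (Nat.card C).Coprime (Nat.card (S : Subgroup H)) := by
    rw [hk]; exact (coprime_two_pow hCodd k).symm
  have hcard : Nat.card H = Nat.card C * Nat.card (S : Subgroup H) := by
    rw [mul_comm]; exact hSC.card_mul_card.symm
  let P : Sylow 2 ↥L := default
  obtain ⟨a, ha⟩ := IsPGroup.iff_card.mp P.isPGroup'
  have hidx : ¬ 2 ∣ (P : Subgroup ↥L).index := P.not_dvd_index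
  have hPmul : Nat.card (P : Subgroup ↥L) * (P : Subgroup ↥L).index = Nat.card ↥L :=
    Subgroup.card_mul_index _
  have hcopL : ((P : Subgroup ↥L).index).Coprime (Nat.card (P : Subgroup ↥L)) := by
    rw [ha]; exact (coprime_two_pow hidx a).symm
  obtain ⟨D, hD⟩ := Cfsg.Agent.H1.hall_exists (G := ↥L) ((P : Subgroup ↥L).index)
    (Nat.card (P : Subgroup ↥L)) (by rw [mul_comm]; exact hPmul.symm) hcopL
  refine ⟨P, D, ?_, Subgroup.isComplement'_of_coprime (by rw [hD]; exact hPmul)
    (by rw [hD]; exact hcopL.symm)⟩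
  have hKcard : Nat.card (D.map L.subtype) = (P : Subgroup ↥L).index := by
    rw [Subgroup.card_map_of_injective L.subtype_injective, hD]
  have hKcop : (Nat.card (D.map L.subtype)).Coprime (Nat.card (S : Subgroup H)) := by
    rw [hKcard, hk]; exact (coprime_two_pow hidx k).symm
  obtain ⟨H', hH', hKH'⟩ := Cfsg.Agent.H1.hall_le (Nat.card C) (Nat.card (S : Subgroup H))
    hcard hcop (D.map L.subtype) hKcop
  obtain ⟨g, hg⟩ := Cfsg.Agent.H1.hall_conj (Nat.card C) (Nat.card (S : Subgroup H))
    hcard hcop H' C hH' rfl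
  have key : ∀ x : ↥L, x ∈ D → g * (x : H) * g⁻¹ ∈ C := by
    intro x hx
    rw [← hg]
    have h1 : (x : H) ∈ H' := hKH' (Subgroup.mem_map_of_mem L.subtype hx)
    have h2 := Subgroup.smul_mem_pointwise_smul _ (MulAut.conj g) _ h1
    simpa [MulAut.smul_def] using h2
  apply IsMulCommutative.of_setLike_mul_comm
  intro x hx y hy
  have hxy := setLike_mul_comm (key x hx) (key y hy)
  have h3 : g * ((x : H) * (y : H)) * g⁻¹ = g * ((y : H) * (x : H)) * g⁻¹ := by
    calc g * ((x : H) * (y : H)) * g⁻¹ = g * (x : H) * g⁻¹ * (g * (y : H) * g⁻¹) := by group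
      _ = g * (y : H) * g⁻¹ * (g * (x : H) * g⁻¹) := hxy
      _ = g * ((y : H) * (x : H)) * g⁻¹ := by group
  exact Subtype.ext (mul_left_cancel (mul_right_cancel h3))

end Cfsg.Agent.S3200
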