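import Mathlib
import Cfsg.Statements.S3201
import Cfsg.Agent.H59.UniqueInvolution

set_option autoImplicit false
open Cfsg

namespace Cfsg.Agent.S3201

universe u

/-- The main argument, for a family of central subgroups `N i` of `S`. -/
theorem main {S : Type u} [Group S] [Finite S]
    (hS : IsPGroup 2 S) (n : ℕ) (h0 : 0 < n) (N : Fin n → Subgroup S)
    (hNle : ∀ i, N i ≤ Subgroup.center S)
    (hz0 : ∀ i, ∃ z₀ ∈ Subgroup.center S, z₀ ∉ N i)
    (hint : ∀ s : S, (∀ i, s ∈ N i) → s = 1)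
    (hNq : ∀ i, ∃ (_ : (N i).Normal), ¬ IsMulCommutative (S ⧸ N i) ∧
      ∃! x : S ⧸ N i, orderOf x = 2) :
    ∃ E Q : Subgroup S, Cfsg.IsInternalDirectProduct E Q ⊤ ∧ Cfsg.IsElementaryAbelian 2 E ∧
      ¬ IsMulCommutative ↥Q ∧ ∃! x : ↥Q, orderOf x = 2 := by
  have hfacts : ∀ i, (∀ d ∈ Subgroup.center S, d * d ∈ N i) ∧
      (∀ d ∈ Subgroup.center S, ∀ d' ∈ Subgroup.center S, d ∉ N i → d' ∉ N i →
        d⁻¹ * d' ∈ N i) ∧
      (∀ x : S, x ∉ N i → x * x ∈ N i → x ∈ Subgroup.center S) := by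
    intro i
    obtain ⟨hnorm, hnc, hu⟩ := hNq i
    obtain ⟨z₀, hz₀, hz₀N⟩ := hz0 i
    exact @Cfsg.Agent.H59.quotient_facts S _ _ hS (N i) hnorm (hNle i) hnc hu z₀ hz₀ hz₀N
  have hZsq : ∀ d ∈ Subgroup.center S, d * d = 1 := fun d hd =>
    hint _ (fun i => (hfacts i).1 d hd)
  have hWuniq : ∀ w w' : S, w ∈ Subgroup.center S → w' ∈ Subgroup.center S →
      (∀ i, w ∉ N i) → (∀ i, w' ∉ N i) → w = w' := by
    intro w w' hw hw' h1 h2
    have h3 := hint (w⁻¹ * w') (fun i => (hfacts i).2.1 w hw w' hw' (h1 i) (h2 i))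
    exact inv_mul_eq_one.mp h3
  have hWsq : ∀ s : S, s ∉ Subgroup.center S → ∀ i, s * s ∉ N i := by
    intro s hs i hss
    apply hs
    by_cases hsN : s ∈ N i
    · exact hNle i hsN
    · exact (hfacts i).2.2 s hsN hss
  -- the first quotient
  obtain ⟨hnorm, hnc, hu⟩ := hNq ⟨0, h0⟩
  have hfacts0 := hfacts ⟨0, h0⟩
  have hWN0 : ∀ w : S, (∀ i, w ∉ N i) → w ∉ N ⟨0, h0⟩ := fun w h => h _
  have hMle : N ⟨0, h0⟩ ≤ Subgroup.center S := hNle _
  generalize N ⟨0, h0⟩ = M at hnorm hnc hu hfacts0 hWN0 hMle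
  have hnorm' : M.Normal := hnorm
  obtain ⟨abar, gbar, k, hk2, hk, hg, eg1, eg2, hcos, hout, hinv, hz1, haa⟩ :=
    Cfsg.Agent.H59.quaternion_structure_of_noncomm (hS.to_quotient M) hnc hu
  obtain ⟨a, rfl⟩ := QuotientGroup.mk'_surjective M abar
  obtain ⟨g, rfl⟩ := QuotientGroup.mk'_surjective M gbar
  have hker : ∀ x : S, QuotientGroup.mk' M x = 1 ↔ x ∈ M := fun x =>
    QuotientGroup.eq_one_iff x
  generalize hπ : QuotientGroup.mk' M = π at *
  have hzz : π a ^ (2 ^ (k - 1)) * π a ^ (2 ^ (k - 1)) = 1 := by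
    rw [← pow_add, ← two_mul, ← pow_succ', Nat.sub_add_cancel (by omega), ← hk]
    exact pow_orderOf_eq_one _
  have houtZ : ∀ x : S, π x ∉ Subgroup.zpowers (π a) → x ∉ Subgroup.center S := by
    intro x hx hxZ
    obtain ⟨h1, -⟩ := hout (π x) hx
    apply haa
    have h2 : x * a * x⁻¹ = a := by
      rw [← Subgroup.mem_center_iff.mp hxZ a, mul_inv_cancel_right]
    have h3 : π x * π a * (π x)⁻¹ = π a := by rw [← map_inv, ← map_mul, ← map_mul, h2]
    exact mul_eq_one_iff_eq_inv.mpr (h3.symm.trans h1)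
  have hsqZ : ∀ x : S, π x * π x = π a ^ (2 ^ (k - 1)) → x * x ∈ Subgroup.center S := by
    intro x hx
    apply hfacts0.2.2 (x * x)
    · rw [← hker, map_mul, hx]; exact hz1
    · rw [← hker, map_mul, map_mul, hx]; exact hzz
  have hW : ∀ x : S, π x ∉ Subgroup.zpowers (π a) →
      (x * x ∈ Subgroup.center S ∧ ∀ i, x * x ∉ N i) := by
    intro x hx
    exact ⟨hsqZ x (hout (π x) hx).2, hWsq x (houtZ x hx)⟩
  have hgW := hW g hg
  have hgaout : π (g * a) ∉ Subgroup.zpowers (π a) := by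
    intro h
    apply hg
    have e : π g = π (g * a) * (π a)⁻¹ := by rw [map_mul, mul_inv_cancel_right]
    rw [e]
    exact mul_mem h (inv_mem (Subgroup.mem_zpowers _))
  have hgaW := hW (g * a) hgaout
  have e1 : (g * a) * (g * a) = g * g := hWuniq _ _ hgaW.1 hgW.1 hgaW.2 hgW.2
  have hgag : g * a * g⁻¹ = a⁻¹ := by
    have h1 : a * g * a = g := by
      have e : g * (a * g * a) = g * g := by rw [← e1]; simp only [mul_assoc]
      exact mul_left_cancel e
    have h2 : g * a = a⁻¹ * g := by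
      rw [eq_inv_mul_iff_mul_eq, ← mul_assoc]; exact h1
    rw [h2, mul_inv_cancel_right]
  obtain ⟨s, hs⟩ : ∃ s : S, s = a ^ (2 ^ (k - 2)) := ⟨_, rfl⟩
  have hss : s * s = a ^ (2 ^ (k - 1)) := by
    rw [hs, ← pow_add, ← two_mul, ← pow_succ']
    congr 2; omega
  have hπs : π s * π s = π a ^ (2 ^ (k - 1)) := by rw [← map_mul, hss, map_pow]
  have hsZ : s ∉ Subgroup.center S := by
    intro hsZ
    have h1 : g * s * g⁻¹ = s⁻¹ := by rw [hs, ← conj_pow, hgag, inv_pow]
    have h2 : g * s * g⁻¹ = s := by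
      rw [Subgroup.mem_center_iff.mp hsZ g, mul_inv_cancel_right]
    have h3 : s * s = 1 := mul_eq_one_iff_eq_inv.mpr (h2.symm.trans h1)
    apply hz1
    rw [← hπs, ← map_mul, h3, map_one]
  have hsW : s * s ∈ Subgroup.center S ∧ ∀ i, s * s ∉ N i := ⟨hsqZ s hπs, hWsq s hsZ⟩
  have e2 : g * g = a ^ (2 ^ (k - 1)) := by
    rw [← hss]; exact hWuniq _ _ hgW.1 hsW.1 hgW.2 hsW.2
  obtain ⟨w, hw⟩ : ∃ w : S, w = a ^ (2 ^ (k - 1)) := ⟨_, rfl⟩
  have hwZ : w ∈ Subgroup.center S := by rw [hw, ← hss]; exact hsW.1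
  have hwN : ∀ i, w ∉ N i := fun i => by rw [hw, ← hss]; exact hsW.2 i
  have hww : w * w = 1 := hZsq w hwZ
  have hwM : w ∉ M := hWN0 w hwN
  have hw1 : w ≠ 1 := fun h => hwM (h ▸ one_mem _)
  have horda : orderOf a = 2 ^ k := by
    have h1 : ¬ a ^ 2 ^ (k - 1) = 1 := by rw [← hw]; exact hw1
    have h2 : a ^ 2 ^ (k - 1 + 1) = 1 := by
      rw [pow_succ, pow_mul, ← hw, pow_two]; exact hww
    have h3 := orderOf_eq_prime_pow h1 h2
    rw [Nat.sub_add_cancel (by omega)] at h3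
    exact h3
  have hN2 : orderOf a = 2 * 2 ^ (k - 1) := by
    rw [horda, ← pow_succ', Nat.sub_add_cancel (by omega)]
  -- the quaternion subgroup
  have haQ : a ∈ (Cfsg.Agent.H59.quaternionHom hN2 hgag e2).range :=
    ⟨QuaternionGroup.a 1, by
      rw [Cfsg.Agent.H59.quaternionHom_a]
      have h := Cfsg.Agent.H59.zpw_intCast a hN2 1
      simpa using h⟩
  have hgQ : g ∈ (Cfsg.Agent.H59.quaternionHom hN2 hgag e2).range :=
    ⟨QuaternionGroup.xa 0, by
      rw [Cfsg.Agent.H59.quaternionHom_xa, Cfsg.Agent.H59.zpw_zero a hN2, mul_one]⟩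
  have hQnf : ∀ x ∈ (Cfsg.Agent.H59.quaternionHom hN2 hgag e2).range,
      x ∈ Subgroup.zpowers a ∨ g⁻¹ * x ∈ Subgroup.zpowers a := by
    rintro x ⟨q, rfl⟩
    rcases q with i | i
    · left
      rw [Cfsg.Agent.H59.quaternionHom_a]
      exact Cfsg.Agent.H59.zpw_mem_zpowers a i
    · right
      rw [Cfsg.Agent.H59.quaternionHom_xa, inv_mul_cancel_left]
      exact Cfsg.Agent.H59.zpw_mem_zpowers a i
  generalize (Cfsg.Agent.H59.quaternionHom hN2 hgag e2).range = Q at haQ hgQ hQnf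
  have hwQ : w ∈ Q := by rw [hw]; exact pow_mem haQ _
  have hdisj : ∀ x : S, x ∈ M → x ∈ Q → x = 1 := by
    intro x hxM hxQ
    have hπx : π x = 1 := (hker x).mpr hxM
    rcases hQnf x hxQ with h | h
    · obtain ⟨t, rfl⟩ := Subgroup.mem_zpowers_iff.mp h
      rw [map_zpow] at hπx
      have h1 := orderOf_dvd_iff_zpow_eq_one.mpr hπx
      rw [hk, ← horda] at h1
      exact orderOf_dvd_iff_zpow_eq_one.mp h1
    · exfalso
      obtain ⟨t, ht⟩ := Subgroup.mem_zpowers_iff.mp h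
      apply hg
      have hx' : x = g * a ^ t := by rw [ht, mul_inv_cancel_left]
      rw [hx', map_mul, map_zpow] at hπx
      have e : π g = ((π a) ^ t)⁻¹ := mul_eq_one_iff_eq_inv.mp hπx
      rw [e]
      exact inv_mem (Subgroup.zpow_mem_zpowers _ t)
  refine ⟨M, Q, ⟨le_top, le_top, ?_, ?_, ?_⟩, ⟨?_, ?_⟩, ?_, ?_⟩
  · intro x hx y _
    exact (Subgroup.mem_center_iff.mp (hMle hx) y).symm
  · rw [eq_bot_iff]
    intro x hx
    rw [Subgroup.mem_bot]
    exact hdisj x hx.1 hx.2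
  · rw [eq_top_iff]
    intro x _
    rcases hcos (π x) with h | h
    · obtain ⟨t, ht⟩ := Subgroup.mem_zpowers_iff.mp h
      have h1 : x * (a ^ t)⁻¹ ∈ M := by
        rw [← hker, map_mul, map_inv, map_zpow, ht, mul_inv_cancel]
      have h2 : x = (x * (a ^ t)⁻¹) * a ^ t := by group
      rw [h2]
      exact Subgroup.mul_mem_sup h1 (zpow_mem haQ t)
    · obtain ⟨t, ht⟩ := Subgroup.mem_zpowers_iff.mp h
      have h1 : x * (g * a ^ t)⁻¹ ∈ M := by
        rw [← hker, map_mul, map_inv, map_mul, map_zpow, ht, mul_inv_cancel_left,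
          mul_inv_cancel]
      have h2 : x = (x * (g * a ^ t)⁻¹) * (g * a ^ t) := by group
      rw [h2]
      exact Subgroup.mul_mem_sup h1 (mul_mem hgQ (zpow_mem haQ t))
  · rw [isMulCommutative_iff]
    rintro ⟨x, hx⟩ ⟨y, hy⟩
    exact Subtype.ext (Subgroup.mem_center_iff.mp (hMle hx) y).symm
  · intro x hx
    rw [pow_two]; exact hZsq x (hMle hx)
  · intro hcomm
    have h1 := mul_comm' (⟨g, hgQ⟩ : Q) ⟨a, haQ⟩
    have h2 : g * a = a * g := congrArg Subtype.val h1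
    apply haa
    have h3 : a = a⁻¹ := by
      have e : g * a * g⁻¹ = a := by rw [h2, mul_inv_cancel_right]
      rw [← hgag, e]
    rw [← map_mul, mul_eq_one_iff_eq_inv.mpr h3, map_one]
  · refine ⟨⟨w, hwQ⟩, ?_, ?_⟩
    · show orderOf (⟨w, hwQ⟩ : Q) = 2
      rw [Subgroup.orderOf_mk]
      exact orderOf_eq_prime (by rw [pow_two]; exact hww) hw1
    · rintro ⟨y, hyQ⟩ hy
      rw [Subgroup.orderOf_mk] at hy
      have hyy : y * y = 1 := by rw [← pow_two, ← hy]; exact pow_orderOf_eq_one y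
      have hy1 : y ≠ 1 := by
        intro h; rw [h, orderOf_one] at hy; omega
      apply Subtype.ext
      show y = w
      have h1 : π y * π y = 1 := by rw [← map_mul, hyy, map_one]
      rcases hinv _ h1 with h2 | h2
      · exact absurd (hdisj y ((hker y).mp h2) hyQ) hy1
      · have h3 : y * w⁻¹ ∈ M := by
          rw [← hker, map_mul, map_inv, h2, hw, map_pow, mul_inv_cancel]
        have h4 := hdisj _ h3 (mul_mem hyQ (inv_mem hwQ))
        exact mul_inv_eq_one.mp h4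

/-- Let S be a finite 2-group whose centre Z(S) has n ≥ 2 distinct maximal subgroups C₁, …, Cₙ with trivial intersection such that each quotient S/Cᵢ is a non-abelian group with exactly one involution (a generalized quaternion group). Then S is the internal direct product of an elementary abelian subgroup and a non-abelian subgroup with exactly one involution. -/
theorem result {S : Type*} [Group S] [Finite S]
    (hS : IsPGroup 2 S) (n : ℕ) (hn : 2 ≤ n) (C : Fin n → Subgroup ↥(Subgroup.center S))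
    (hCmax : ∀ i, IsCoatom (C i)) (hCinj : Function.Injective C) (hCint : ⨅ i, C i = ⊥)
    (hCq : ∀ i, ∃ (_ : ((C i).map (Subgroup.center S).subtype).Normal),
      ¬ IsMulCommutative (S ⧸ (C i).map (Subgroup.center S).subtype) ∧
      ∃! x : S ⧸ (C i).map (Subgroup.center S).subtype, orderOf x = 2) :
    ∃ E Q : Subgroup S, Cfsg.IsInternalDirectProduct E Q ⊤ ∧ Cfsg.IsElementaryAbelian 2 E ∧
      ¬ IsMulCommutative ↥Q ∧ ∃! x : ↥Q, orderOf x = 2 := by
  have h0 : 0 < n := by omega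
  refine main hS n h0 (fun i => (C i).map (Subgroup.center S).subtype)
    (fun i => Subgroup.map_subtype_le (C i)) ?_ ?_ hCq
  · intro i
    have hne : C i ≠ ⊤ := (hCmax i).1
    obtain ⟨x, hx⟩ : ∃ x : Subgroup.center S, x ∉ C i := by
      by_contra hcon
      push Not at hcon
      exact hne (eq_top_iff.mpr (fun x _ => hcon x))
    refine ⟨x.1, x.2, ?_⟩
    intro h
    obtain ⟨y, hy, hyx⟩ := Subgroup.mem_map.mp h
    have : y = x := Subtype.ext hyx
    exact hx (this ▸ hy)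
  · intro s hs
    obtain ⟨y, -, rfl⟩ := Subgroup.mem_map.mp (hs ⟨0, h0⟩)
    have hy : y ∈ ⨅ i, C i := by
      rw [Subgroup.mem_iInf]
      intro i
      obtain ⟨y', hy', hyy'⟩ := Subgroup.mem_map.mp (hs i)
      have : y' = y := Subtype.ext hyy'
      exact this ▸ hy'
    rw [hCint, Subgroup.mem_bot] at hy
    rw [hy]; rfl

end Cfsg.Agent.S3201
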