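import Cfsg.Statements.S3206
import Cfsg.Agent.H91.JRDefs
import Cfsg.Agent.H77.JRMod8
import Cfsg.Agent.H64.JRPslA
import Cfsg.Agent.H62.JRPslB
import Cfsg.Agent.H64.JRTrans
import Cfsg.Agent.H71.JRStr1
import Cfsg.Agent.H51.JRFus
import Cfsg.Agent.H62.JRCe2
import Cfsg.Agent.H75.JRRed
import Cfsg.Agent.H70.JRP2A
import Cfsg.Agent.H27.JRP2B
import Cfsg.Agent.H27.JRP2C
import Cfsg.Agent.H75.JRP2d

set_option autoImplicit false
open Cfsg

namespace Cfsg.Agent.S3206
open Cfsg.Agent.H91.JR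

/-- Let G be a non-abelian finite simple group with abelian Sylow 2-subgroups, and let t be an involution of G whose centralizer is a maximal subgroup of G and is the direct product of the subgroup generated by t with a subgroup E having a normal subgroup isomorphic to PSL(2, q), q odd and greater than 3, with trivial centralizer in E. Then every finite perfect group having a central 2-subgroup with quotient isomorphic to G has that central subgroup trivial (G has no nontrivial perfect central extension by a 2-group), and every automorphism of G of 2-power order that fixes every element of some Sylow 2-subgroup of G is inner. -/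
theorem result {G : Type*} [Group G] [Finite G] [IsSimpleGroup G]
    (hG : ¬ IsMulCommutative G) (hab : ∀ S : Sylow 2 G, IsMulCommutative ↥(S : Subgroup G))
    (t : G) (ht : orderOf t = 2) (hmax : IsCoatom (Subgroup.centralizer ({t} : Set G)))
    (E : Subgroup G) (hE : Cfsg.IsInternalDirectProduct (Subgroup.zpowers t) E (Subgroup.centralizer ({t} : Set G)))
    {F : Type*} [Field F] [Fintype F] (hFo : Odd (Fintype.card F)) (hF3 : 3 < Fintype.card F)
    (N : Subgroup ↥E) [N.Normal] (hN : Nonempty (↥N ≃* Matrix.ProjectiveSpecialLinearGroup (Fin 2) F))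
    (hNc : Subgroup.centralizer (N : Set ↥E) = ⊥) :
    (∀ (L : Type) (_ : Group L) (_ : Finite L) (Z : Subgroup L) (_ : Z.Normal), commutator L = ⊤ → Z ≤ Subgroup.center L →
        IsPGroup 2 ↥Z → Nonempty (L ⧸ Z ≃* G) → Z = ⊥) ∧
    (∀ (φ : G ≃* G) (k : ℕ), φ ^ (2 ^ k) = 1 → (∃ S : Sylow 2 G, ∀ s ∈ (S : Subgroup G), φ s = s) →
        ∃ g : G, ∀ x : G, φ x = g * x * g⁻¹) := by
  classical
  obtain ⟨iso⟩ := hN
  have hab' : ∀ S : Sylow 2 G, ∀ x ∈ S, ∀ y ∈ S, x * y = y * x := by
    intro S x hx y hy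
    have := (hab S).is_comm.comm ⟨x, hx⟩ ⟨y, hy⟩
    exact congrArg Subtype.val this
  have ht1 : t ≠ 1 := by
    rintro rfl
    rw [orderOf_one] at ht
    norm_num at ht
  have htt : t * t = 1 := by
    have := pow_orderOf_eq_one t
    rwa [ht, pow_two] at this
  obtain ⟨hE1, hE2, hE3, hE4, hE5⟩ := hE
  have hEt : ∀ e ∈ E, e * t = t * e := by
    intro e he
    exact (hE3 t (Subgroup.mem_zpowers t) e he).symm
  have htE : t ∉ E := by
    intro h
    have : t ∈ Subgroup.zpowers t ⊓ E := ⟨Subgroup.mem_zpowers t, h⟩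
    rw [hE4, Subgroup.mem_bot] at this
    exact ht1 this
  -- the subgroup `E ∪ tE`
  let M : Subgroup G :=
    { carrier := {g | ∃ e ∈ E, g = e ∨ g = t * e}
      mul_mem' := by
        rintro a b ⟨e, he, ha⟩ ⟨e', he', hb⟩
        rcases ha with ha | ha <;> rcases hb with hb | hb
        · exact ⟨e * e', E.mul_mem he he', Or.inl (by rw [ha, hb])⟩
        · refine ⟨e * e', E.mul_mem he he', Or.inr ?_⟩
          rw [ha, hb, ← mul_assoc, hEt e he, mul_assoc]
        · exact ⟨e * e', E.mul_mem he he', Or.inr (by rw [ha, hb, mul_assoc])⟩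
        · refine ⟨e * e', E.mul_mem he he', Or.inl ?_⟩
          rw [ha, hb]
          calc t * e * (t * e') = t * (e * t) * e' := by simp only [mul_assoc]
            _ = t * (t * e) * e' := by rw [hEt e he]
            _ = (t * t) * (e * e') := by simp only [mul_assoc]
            _ = e * e' := by rw [htt, one_mul]
      one_mem' := ⟨1, E.one_mem, Or.inl rfl⟩
      inv_mem' := by
        rintro a ⟨e, he, ha⟩
        rcases ha with ha | ha
        · exact ⟨e⁻¹, E.inv_mem he, Or.inl (by rw [ha])⟩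
        · refine ⟨e⁻¹, E.inv_mem he, Or.inr ?_⟩
          have h1 : t⁻¹ = t := inv_eq_of_mul_eq_one_right htt
          rw [ha, mul_inv_rev, h1]
          exact hEt e⁻¹ (E.inv_mem he) }
  have hcent : ∀ g : G, g * t = t * g → ∃ e ∈ E, g = e ∨ g = t * e := by
    intro g hg
    have hgC : g ∈ Subgroup.centralizer ({t} : Set G) := by
      rw [Subgroup.mem_centralizer_iff]
      intro h hh
      rw [Set.mem_singleton_iff] at hh
      rw [hh]
      exact hg.symm
    rw [← hE5] at hgC
    have hle : Subgroup.zpowers t ⊔ E ≤ M := by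
      rw [sup_le_iff]
      constructor
      · rw [Subgroup.zpowers_le]
        exact ⟨1, E.one_mem, Or.inr (by rw [mul_one])⟩
      · intro e he
        exact ⟨e, he, Or.inl rfl⟩
    exact hle hgC
  -- the image of `N` in `G`
  let N' : Subgroup G := N.map E.subtype
  have hN'E : N' ≤ E := by
    rintro _ ⟨n, -, rfl⟩
    exact n.2
  have hnorm : ∀ e ∈ E, ∀ n ∈ N', e * n * e⁻¹ ∈ N' := by
    rintro e he _ ⟨n, hn, rfl⟩
    refine ⟨⟨e, he⟩ * n * ⟨e, he⟩⁻¹, ?_, rfl⟩
    exact (inferInstance : N.Normal).conj_mem n hn ⟨e, he⟩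
  have hfaith : ∀ e ∈ E, (∀ n ∈ N', e * n = n * e) → e = 1 := by
    intro e he hc
    have : (⟨e, he⟩ : ↥E) ∈ Subgroup.centralizer (N : Set ↥E) := by
      rw [Subgroup.mem_centralizer_iff]
      intro n hn
      apply Subtype.ext
      exact (hc (n : G) ⟨n, hn, rfl⟩).symm
    rw [hNc, Subgroup.mem_bot] at this
    exact congrArg Subtype.val this
  let iso' : Matrix.ProjectiveSpecialLinearGroup (Fin 2) F ≃* ↥N' :=
    iso.symm.trans (N.equivMapOfInjective E.subtype E.subtype_injective)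
  have hmod : Fintype.card F % 8 = 3 ∨ Fintype.card F % 8 = 5 :=
    Cfsg.Agent.H77.JR.mod8 hab' hFo (N'.subtype.comp iso'.toMonoidHom)
      (N'.subtype_injective.comp iso'.injective)
  have hpsl0 : PslCfg (Matrix.ProjectiveSpecialLinearGroup (Fin 2) F) := by
    obtain ⟨hs, hV⟩ := Cfsg.Agent.H64.JR.pslA hF3 hmod
    exact ⟨hs, fun V => ⟨(hV V).1, (hV V).2, Cfsg.Agent.H62.JR.pslB hmod V⟩⟩
  have hpsl : PslCfg ↥N' := Cfsg.Agent.H64.JR.trans hpsl0 iso'
  have hset : Setting G t E N' :=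
    ⟨ht1, htt, hN'E, hnorm, hEt, htE, hcent, hfaith, hpsl⟩
  -- a Sylow 2-subgroup containing `t`
  have : Fact (Nat.Prime 2) := ⟨Nat.prime_two⟩
  obtain ⟨S, hS⟩ : ∃ S : Sylow 2 G, t ∈ S := by
    have hp : IsPGroup 2 ↥(Subgroup.zpowers t) := by
      rw [IsPGroup.iff_card, Nat.card_zpowers, ht]
      exact ⟨1, by norm_num⟩
    obtain ⟨S, hS⟩ := hp.exists_le_sylow
    exact ⟨S, hS (Subgroup.mem_zpowers t)⟩
  obtain ⟨hS2, hS8, -, -⟩ := Cfsg.Agent.H71.JR.str1 t E N' hset hab' S hS
  constructor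
  · intro L _ _ Z _ hperf hZc hZp hiso
    refine Cfsg.Agent.H75.JR.red (G := G) ?_ L Z hperf hZc hZp hiso
    intro D _ _ ρ hsurj hker hexp hDperf
    refine Cfsg.Agent.H62.JR.ce2 (S : Subgroup G) hS2 ?_ ?_ (by rw [hS8]) ρ hsurj hker hexp hDperf
    · have h := S.not_dvd_index
      exact Nat.odd_iff.mpr (Nat.two_dvd_ne_zero.mp h)
    · intro x hx y hy hx1 hy1
      obtain ⟨n, -, hn⟩ := Cfsg.Agent.H51.JR.fus Cfsg.Agent.H71.JR.str1 t E N' hset hab' S hS x hx y hy hx1 hy1
      exact ⟨n, hn⟩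
  · exact Cfsg.Agent.H75.JR.p2d t htt
      (Cfsg.Agent.H27.JR.p2c Cfsg.Agent.H71.JR.str1 (Cfsg.Agent.H51.JR.fus Cfsg.Agent.H71.JR.str1) (Cfsg.Agent.H70.JR.p2a Cfsg.Agent.H71.JR.str1) Cfsg.Agent.H27.JR.p2b t E N' hset hab' hmax)

end Cfsg.Agent.S3206
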