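import Mathlib
import Cfsg.Statements.S3208

set_option autoImplicit false
open Cfsg

namespace Cfsg.Agent.S3208

/-- If `T ≤ H` is a `p`-subgroup whose index in `H` is divisible by `p`, then so is its index in
its normalizer in `H`. -/
theorem dvd_relIndex_inf_normalizer {G : Type*} [Group G] [Finite G] {p : ℕ} [Fact p.Prime]
    (T H : Subgroup G) (hTH : T ≤ H) (hT : IsPGroup p ↥T) (h : p ∣ T.relIndex H) :
    p ∣ T.relIndex (H ⊓ Subgroup.normalizer (T : Set G)) := by
  obtain ⟨n, hn⟩ := IsPGroup.iff_card.mp hT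
  have hT' : Nat.card (T.subgroupOf H) = p ^ n := by
    rw [← hn]; exact Nat.card_congr (Subgroup.subgroupOfEquivOfLe hTH).toEquiv
  have key := Sylow.card_quotient_normalizer_modEq_card_quotient (G := ↥H) hT'
  have h1 : Nat.card (↥H ⧸ T.subgroupOf H) = T.relIndex H := rfl
  have h2 : Nat.card (↥(Subgroup.normalizer ((T.subgroupOf H : Subgroup ↥H) : Set ↥H)) ⧸
      (T.subgroupOf H).comap (Subgroup.normalizer ((T.subgroupOf H : Subgroup ↥H) : Set ↥H)).subtype)
      = T.relIndex (H ⊓ Subgroup.normalizer (T : Set G)) := by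
    have e1 : Nat.card (↥(Subgroup.normalizer ((T.subgroupOf H : Subgroup ↥H) : Set ↥H)) ⧸
      (T.subgroupOf H).comap (Subgroup.normalizer ((T.subgroupOf H : Subgroup ↥H) : Set ↥H)).subtype)
      = (T.subgroupOf H).relIndex (Subgroup.normalizer ((T.subgroupOf H : Subgroup ↥H) : Set ↥H)) := rfl
    rw [e1, ← Subgroup.subgroupOf_normalizer_eq hTH]
    have e2 : (Subgroup.normalizer (T : Set G)).subgroupOf H
        = (H ⊓ Subgroup.normalizer (T : Set G)).subgroupOf H := by
      rw [Subgroup.inf_subgroupOf_left]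
    rw [e2, Subgroup.relIndex_subgroupOf inf_le_left]
  rw [h1, h2] at key
  exact (Nat.modEq_zero_iff_dvd.mp (key.trans (Nat.modEq_zero_iff_dvd.mpr h)))

/-- Let j be an involution of a finite group G, H a subgroup of G, and T a Sylow 2-subgroup of H ∩ C_G(j) containing j such that ⟨j⟩ is a characteristic subgroup of T. Then T is a Sylow 2-subgroup of H. -/
theorem result {G : Type*} [Group G] [Finite G]
    (j : G) (hj : orderOf j = 2) (H T : Subgroup G) (hT : T ≤ H ⊓ Subgroup.centralizer ({j} : Set G)) (h2 : IsPGroup 2 ↥T)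
    (hSyl : ¬ 2 ∣ T.relIndex (H ⊓ Subgroup.centralizer ({j} : Set G))) (hjT : j ∈ T)
    (hchar : ((Subgroup.zpowers j).subgroupOf T).Characteristic) :
    ¬ 2 ∣ T.relIndex H := by
  intro hdvd
  have : Fact (Nat.Prime 2) := ⟨Nat.prime_two⟩
  have hTH : T ≤ H := hT.trans inf_le_left
  have h1 := dvd_relIndex_inf_normalizer T H hTH h2 hdvd
  -- the normalizer of T in H centralizes j
  have hN : H ⊓ Subgroup.normalizer (T : Set G) ≤ H ⊓ Subgroup.centralizer ({j} : Set G) := by
    intro g hg
    obtain ⟨hgH, hgN⟩ := Subgroup.mem_inf.mp hg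
    refine Subgroup.mem_inf.mpr ⟨hgH, ?_⟩
    rw [Subgroup.mem_centralizer_singleton_iff]
    -- conjugation by g as an automorphism of T
    have hmem : ∀ t : G, t ∈ T → g * t * g⁻¹ ∈ T := fun t ht =>
      (Subgroup.mem_normalizer_iff.mp hgN t).mp ht
    have hmem' : ∀ t : G, t ∈ T → g⁻¹ * t * g ∈ T := fun t ht => by
      have := (Subgroup.mem_normalizer_iff.mp (inv_mem hgN) t).mp ht
      simpa using this
    let φ : ↥T ≃* ↥T :=
      { toFun := fun t => ⟨g * t.1 * g⁻¹, hmem t.1 t.2⟩
        invFun := fun t => ⟨g⁻¹ * t.1 * g, hmem' t.1 t.2⟩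
        left_inv := fun t => by ext; simp [mul_assoc]
        right_inv := fun t => by ext; simp [mul_assoc]
        map_mul' := fun s t => by ext; simp [mul_assoc] }
    have hj' : g * j * g⁻¹ ∈ Subgroup.zpowers j := by
      have hmemj : (⟨j, hjT⟩ : ↥T) ∈ ((Subgroup.zpowers j).subgroupOf T).comap φ.toMonoidHom := by
        rw [hchar.fixed φ]
        exact Subgroup.mem_subgroupOf.mpr (Subgroup.mem_zpowers j)
      rw [Subgroup.mem_comap, Subgroup.mem_subgroupOf] at hmemj
      exact hmemj
    -- g * j * g⁻¹ is a power of j of order 2, so equals j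
    obtain ⟨k, hk⟩ := Subgroup.mem_zpowers_iff.mp hj'
    have hj2 : j ^ 2 = 1 := by rw [← hj]; exact pow_orderOf_eq_one j
    have hj1 : j ≠ 1 := by
      intro h; rw [h, orderOf_one] at hj; omega
    rcases Int.emod_two_eq_zero_or_one k with hk0 | hk1
    · exfalso
      have : j ^ k = 1 := by
        obtain ⟨m, rfl⟩ : ∃ m, k = 2 * m := ⟨k / 2, by omega⟩
        rw [zpow_mul, zpow_ofNat, hj2, one_zpow]
      rw [this] at hk
      apply hj1
      have : g * j * g⁻¹ = 1 := hk.symm
      have h3 : j = g⁻¹ * (g * j * g⁻¹) * g := by group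
      rw [h3, this]; group
    · have : j ^ k = j := by
        obtain ⟨m, rfl⟩ : ∃ m, k = 2 * m + 1 := ⟨k / 2, by omega⟩
        rw [zpow_add, zpow_mul, zpow_ofNat, hj2, one_zpow, zpow_one, one_mul]
      rw [this] at hk
      have : g * j * g⁻¹ = j := hk.symm
      calc g * j = (g * j * g⁻¹) * g := by group
        _ = j * g := by rw [this]
  have hTN : T ≤ H ⊓ Subgroup.normalizer (T : Set G) := le_inf hTH Subgroup.le_normalizer
  have h3 := Subgroup.relIndex_mul_relIndex T _ _ hTN hN
  exact hSyl (h3 ▸ Dvd.dvd.mul_right h1 _)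

end Cfsg.Agent.S3208
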