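import Cfsg.Statements.S3209
import Cfsg.Agent.H11.SL2Inv

set_option autoImplicit false
open Cfsg

namespace Cfsg.Agent.S3209

open Cfsg.Agent.H11.SL2Inv

/-- Let L₁ ≅ SL₂(q₁) and L₂ ≅ SL₂(q₂), q₁ and q₂ odd, be elementwise-commuting subgroups of a finite group meeting in ⟨j⟩ for an involution j. Then L₁L₂ has exactly two conjugacy classes of involutions: the central involution j, and one further class (there is an involution x ≠ j in L₁L₂, and every involution of L₁L₂ other than j is conjugate to x by an element of L₁L₂). -/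
theorem result {G : Type*} [Group G] [Finite G]
    {F₁ : Type*} [Field F₁] [Fintype F₁] {F₂ : Type*} [Field F₂] [Fintype F₂]
    (hF₁ : Odd (Fintype.card F₁)) (hF₂ : Odd (Fintype.card F₂)) (L₁ L₂ : Subgroup G)
    (e₁ : ↥L₁ ≃* Matrix.SpecialLinearGroup (Fin 2) F₁) (e₂ : ↥L₂ ≃* Matrix.SpecialLinearGroup (Fin 2) F₂)
    (hc : ∀ x ∈ L₁, ∀ y ∈ L₂, x * y = y * x) (j : G) (hj : orderOf j = 2) (hm : L₁ ⊓ L₂ = Subgroup.zpowers j) :
    ∃ x ∈ L₁ ⊔ L₂, orderOf x = 2 ∧ x ≠ j ∧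
      ∀ y ∈ L₁ ⊔ L₂, orderOf y = 2 → y = j ∨ ∃ g ∈ L₁ ⊔ L₂, g * x * g⁻¹ = y := by
  classical
  have hjm : j ∈ L₁ ⊓ L₂ := hm ▸ Subgroup.mem_zpowers j
  have hj1 : j ∈ L₁ := hjm.1
  have hj2 : j ∈ L₂ := hjm.2
  have hjj : j * j = 1 := by
    have := pow_orderOf_eq_one j
    rwa [hj, pow_two] at this
  have hj_ne : j ≠ 1 := by
    intro h; rw [h, orderOf_one] at hj; omega
  have hjinv : j⁻¹ = j := inv_eq_of_mul_eq_one_left hjj
  -- elements of L₁ ⊓ L₂ are 1 or j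
  have hmem : ∀ g, g ∈ L₁ → g ∈ L₂ → g = 1 ∨ g = j := by
    intro g h1 h2
    have : g ∈ Subgroup.zpowers j := hm ▸ (⟨h1, h2⟩ : g ∈ L₁ ⊓ L₂)
    obtain ⟨k, rfl⟩ := Subgroup.mem_zpowers_iff.mp this
    rcases Int.even_or_odd k with ⟨m, rfl⟩ | ⟨m, rfl⟩
    · left; rw [← two_mul, zpow_mul, zpow_two, hjj, one_zpow]
    · right; rw [zpow_add, zpow_mul, zpow_two, hjj, one_zpow, one_mul, zpow_one]
  -- unique involutions
  have hinv1 : ∀ g ∈ L₁, orderOf g = 2 → g = j := by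
    intro g hg ho
    have h1 : orderOf (e₁ ⟨g, hg⟩) = 2 := by
      rw [MulEquiv.orderOf_eq, ← ho]; exact Subgroup.orderOf_mk g hg
    have h2 : orderOf (e₁ ⟨j, hj1⟩) = 2 := by
      rw [MulEquiv.orderOf_eq, ← hj]; exact Subgroup.orderOf_mk j hj1
    have := e₁.injective (involution_unique hF₁ _ _ h1 h2)
    exact congrArg Subtype.val this
  have hinv2 : ∀ g ∈ L₂, orderOf g = 2 → g = j := by
    intro g hg ho
    have h1 : orderOf (e₂ ⟨g, hg⟩) = 2 := by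
      rw [MulEquiv.orderOf_eq, ← ho]; exact Subgroup.orderOf_mk g hg
    have h2 : orderOf (e₂ ⟨j, hj2⟩) = 2 := by
      rw [MulEquiv.orderOf_eq, ← hj]; exact Subgroup.orderOf_mk j hj2
    have := e₂.injective (involution_unique hF₂ _ _ h1 h2)
    exact congrArg Subtype.val this
  have hsq1 : ∀ g : G, g * g = 1 → g = 1 ∨ orderOf g = 2 := by
    intro g hg
    by_cases h1 : g = 1
    · left; exact h1
    · right; exact orderOf_eq_prime (by rw [pow_two]; exact hg) h1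
  -- the elements of order 4
  obtain ⟨a₁, ha₁, ha₁sq⟩ : ∃ a₁ : L₁, True ∧ (a₁ : G) * a₁ = j := by
    refine ⟨e₁.symm Jm, trivial, ?_⟩
    apply hinv1 _ (L₁.mul_mem (e₁.symm Jm).2 (e₁.symm Jm).2)
    have : orderOf (e₁.symm Jm * e₁.symm Jm) = 2 := by
      rw [← map_mul, MulEquiv.orderOf_eq]; exact orderOf_Jm_sq hF₁
    have h' : orderOf ((e₁.symm Jm * e₁.symm Jm : L₁) : G) = 2 := by
      rw [Subgroup.orderOf_coe]; exact this
    exact h'
  obtain ⟨b₁, hb₁, hb₁sq⟩ : ∃ b₁ : L₂, True ∧ (b₁ : G) * b₁ = j := by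
    refine ⟨e₂.symm Jm, trivial, ?_⟩
    apply hinv2 _ (L₂.mul_mem (e₂.symm Jm).2 (e₂.symm Jm).2)
    have : orderOf (e₂.symm Jm * e₂.symm Jm) = 2 := by
      rw [← map_mul, MulEquiv.orderOf_eq]; exact orderOf_Jm_sq hF₂
    have h' : orderOf ((e₂.symm Jm * e₂.symm Jm : L₂) : G) = 2 := by
      rw [Subgroup.orderOf_coe]; exact this
    exact h'
  -- conjugacy of square roots of j
  have hconj1 : ∀ a ∈ L₁, a * a = j → ∃ u ∈ L₁, u * (a₁ : G) * u⁻¹ = a := by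
    intro a ha haa
    have h1 : orderOf (e₁ ⟨a, ha⟩ * e₁ ⟨a, ha⟩) = 2 := by
      rw [← map_mul, MulEquiv.orderOf_eq, ← hj, ← Subgroup.orderOf_coe]
      exact congrArg orderOf haa
    have h2 : orderOf (e₁ a₁ * e₁ a₁) = 2 := by
      rw [← map_mul, MulEquiv.orderOf_eq, ← hj, ← Subgroup.orderOf_coe]
      exact congrArg orderOf ha₁sq
    obtain ⟨g, hg⟩ := conj_Jm_of_sq hF₁ _ h1
    obtain ⟨g', hg'⟩ := conj_Jm_of_sq hF₁ _ h2
    refine ⟨(e₁.symm (g * g'⁻¹) : L₁), (e₁.symm (g * g'⁻¹)).2, ?_⟩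
    have : e₁.symm (g * g'⁻¹) * a₁ * (e₁.symm (g * g'⁻¹))⁻¹ = ⟨a, ha⟩ := by
      apply e₁.injective
      rw [map_mul, map_mul, map_inv, MulEquiv.apply_symm_apply, ← hg, ← hg']
      group
    exact congrArg Subtype.val this
  have hconj2 : ∀ b ∈ L₂, b * b = j → ∃ v ∈ L₂, v * (b₁ : G) * v⁻¹ = b := by
    intro b hb hbb
    have h1 : orderOf (e₂ ⟨b, hb⟩ * e₂ ⟨b, hb⟩) = 2 := by
      rw [← map_mul, MulEquiv.orderOf_eq, ← hj, ← Subgroup.orderOf_coe]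
      exact congrArg orderOf hbb
    have h2 : orderOf (e₂ b₁ * e₂ b₁) = 2 := by
      rw [← map_mul, MulEquiv.orderOf_eq, ← hj, ← Subgroup.orderOf_coe]
      exact congrArg orderOf hb₁sq
    obtain ⟨g, hg⟩ := conj_Jm_of_sq hF₂ _ h1
    obtain ⟨g', hg'⟩ := conj_Jm_of_sq hF₂ _ h2
    refine ⟨(e₂.symm (g * g'⁻¹) : L₂), (e₂.symm (g * g'⁻¹)).2, ?_⟩
    have : e₂.symm (g * g'⁻¹) * b₁ * (e₂.symm (g * g'⁻¹))⁻¹ = ⟨b, hb⟩ := by
      apply e₂.injective
      rw [map_mul, map_mul, map_inv, MulEquiv.apply_symm_apply, ← hg, ← hg']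
      group
    exact congrArg Subtype.val this
  -- L₁ ⊔ L₂ = L₁ L₂
  have hsup : ∀ y ∈ L₁ ⊔ L₂, ∃ a ∈ L₁, ∃ b ∈ L₂, y = a * b := by
    intro y hy
    rw [Subgroup.sup_eq_closure_mul] at hy
    induction hy using Subgroup.closure_induction with
    | mem x hx =>
      obtain ⟨a, ha, b, hb, rfl⟩ := Set.mem_mul.mp hx
      exact ⟨a, ha, b, hb, rfl⟩
    | one => exact ⟨1, L₁.one_mem, 1, L₂.one_mem, (mul_one 1).symm⟩
    | mul x y _ _ hx hy =>
      obtain ⟨a, ha, b, hb, rfl⟩ := hx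
      obtain ⟨a', ha', b', hb', rfl⟩ := hy
      refine ⟨a * a', L₁.mul_mem ha ha', b * b', L₂.mul_mem hb hb', ?_⟩
      have := hc a' ha' b hb
      calc a * b * (a' * b') = a * (b * a') * b' := by group
        _ = a * (a' * b) * b' := by rw [this]
        _ = a * a' * (b * b') := by group
    | inv x _ hx =>
      obtain ⟨a, ha, b, hb, rfl⟩ := hx
      refine ⟨a⁻¹, L₁.inv_mem ha, b⁻¹, L₂.inv_mem hb, ?_⟩
      have := hc a⁻¹ (L₁.inv_mem ha) b⁻¹ (L₂.inv_mem hb)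
      rw [mul_inv_rev, this]
  have ha₁m : (a₁ : G) ∈ L₁ := a₁.2
  have hb₁m : (b₁ : G) ∈ L₂ := b₁.2
  have hx2 : (a₁ : G) * b₁ * ((a₁ : G) * b₁) = 1 := by
    have := hc a₁ ha₁m b₁ hb₁m
    calc (a₁ : G) * b₁ * ((a₁ : G) * b₁) = a₁ * (b₁ * a₁) * b₁ := by group
      _ = a₁ * (a₁ * b₁) * b₁ := by rw [this]
      _ = (a₁ * a₁) * (b₁ * b₁) := by group
      _ = 1 := by rw [ha₁sq, hb₁sq, hjj]
  have ha₁notin : (a₁ : G) ∉ L₂ := by
    intro h
    rcases hmem _ ha₁m h with h1 | h1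
    · rw [h1, one_mul] at ha₁sq; exact hj_ne ha₁sq.symm
    · rw [h1, hjj] at ha₁sq; exact hj_ne ha₁sq.symm
  have hx_ne1 : (a₁ : G) * b₁ ≠ 1 := by
    intro h
    apply ha₁notin
    have : (a₁ : G) = (b₁ : G)⁻¹ := eq_inv_of_mul_eq_one_left h
    rw [this]; exact L₂.inv_mem hb₁m
  have hx_nej : (a₁ : G) * b₁ ≠ j := by
    intro h
    apply ha₁notin
    have : (a₁ : G) = j * (b₁ : G)⁻¹ := by rw [← h]; group
    rw [this]; exact L₂.mul_mem hj2 (L₂.inv_mem hb₁m)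
  refine ⟨(a₁ : G) * b₁, Subgroup.mul_mem _ (Subgroup.mem_sup_left ha₁m) (Subgroup.mem_sup_right hb₁m),
    orderOf_eq_prime (by rw [pow_two]; exact hx2) hx_ne1, hx_nej, ?_⟩
  intro y hy hoy
  obtain ⟨a, ha, b, hb, rfl⟩ := hsup y hy
  have hyy : a * b * (a * b) = 1 := by
    have := pow_orderOf_eq_one (a * b)
    rwa [hoy, pow_two] at this
  have hab : a * a * (b * b) = 1 := by
    have := hc a ha b hb
    calc a * a * (b * b) = a * (a * b) * b := by group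
      _ = a * (b * a) * b := by rw [this]
      _ = a * b * (a * b) := by group
      _ = 1 := hyy
  have haa2 : a * a ∈ L₂ := by
    have : a * a = (b * b)⁻¹ := eq_inv_of_mul_eq_one_left hab
    rw [this]; exact L₂.inv_mem (L₂.mul_mem hb hb)
  have hy_ne1 : a * b ≠ 1 := by
    intro h; rw [h, orderOf_one] at hoy; omega
  rcases hmem _ (L₁.mul_mem ha ha) haa2 with h1 | h1
  · -- a² = 1, b² = 1
    left
    have hbb : b * b = 1 := by rw [h1, one_mul] at hab; exact hab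
    rcases hsq1 a h1 with ha1 | ha2
    · rcases hsq1 b hbb with hb1 | hb2
      · exfalso; apply hy_ne1; rw [ha1, hb1, one_mul]
      · rw [ha1, one_mul]; exact hinv2 b hb hb2
    · rcases hsq1 b hbb with hb1 | hb2
      · rw [hb1, mul_one]; exact hinv1 a ha ha2
      · exfalso; apply hy_ne1; rw [hinv1 a ha ha2, hinv2 b hb hb2, hjj]
  · -- a² = j, b² = j
    right
    have hbb : b * b = j := by
      rw [h1] at hab
      have : b * b = j⁻¹ := eq_inv_of_mul_eq_one_right hab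
      rw [this, hjinv]
    obtain ⟨u, hu, hua⟩ := hconj1 a ha h1
    obtain ⟨v, hv, hvb⟩ := hconj2 b hb hbb
    refine ⟨u * v, Subgroup.mul_mem _ (Subgroup.mem_sup_left hu) (Subgroup.mem_sup_right hv), ?_⟩
    have c1 := hc a₁ ha₁m v hv
    have c2 := hc u⁻¹ (L₁.inv_mem hu) (v * (b₁ : G) * v⁻¹) (L₂.mul_mem (L₂.mul_mem hv hb₁m) (L₂.inv_mem hv))
    calc u * v * ((a₁ : G) * b₁) * (u * v)⁻¹ = u * (v * a₁) * b₁ * v⁻¹ * u⁻¹ := by group
      _ = u * (a₁ * v) * b₁ * v⁻¹ * u⁻¹ := by rw [c1]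
      _ = u * a₁ * ((v * b₁ * v⁻¹) * u⁻¹) := by group
      _ = u * a₁ * (u⁻¹ * (v * b₁ * v⁻¹)) := by rw [c2]
      _ = (u * a₁ * u⁻¹) * (v * b₁ * v⁻¹) := by group
      _ = a * b := by rw [hua, hvb]

end Cfsg.Agent.S3209
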