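import Cfsg.Statements.S3210
import Cfsg.Agent.H11.SL2Pair

set_option autoImplicit false
open Cfsg

namespace Cfsg.Agent.S3210

open Cfsg.Agent.H11.SL2Inv Cfsg.Agent.H11.SL2Pair

theorem card_mono (a b : ℕ) (ha : 1 ≤ a) (hab : a < b) : a * (a ^ 2 - 1) < b * (b ^ 2 - 1) := by
  have h1 : a ^ 2 - 1 ≤ b ^ 2 - 1 := Nat.sub_le_sub_right (Nat.pow_le_pow_left hab.le 2) 1
  have h2 : 0 < b ^ 2 - 1 := by
    have hb : 2 ≤ b := by omega
    have : 4 ≤ b ^ 2 := by nlinarith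
    omega
  calc a * (a ^ 2 - 1) ≤ a * (b ^ 2 - 1) := Nat.mul_le_mul_left a h1
    _ < b * (b ^ 2 - 1) := (Nat.mul_lt_mul_right h2).mpr hab

/-- Let G be a finite group with subgroups L₁ ≅ SL₂(q₁) and L₂ ≅ SL₂(q₂), q₁ and q₂ odd prime powers, which commute elementwise and meet in ⟨j⟩ for an involution j, and suppose L₁L₂ has index 2 in C_G(j). Then every element n of C_G(j) outside L₁L₂ either normalizes both L₁ and L₂, or conjugates L₁ onto L₂; in the second case q₁ = q₂ and there is an element n′ of C_G(j) outside L₁L₂ conjugating L₁ onto L₂ with n′² ∈ ⟨j⟩. -/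
theorem result {G : Type*} [Group G] [Finite G]
    {F₁ : Type*} [Field F₁] [Fintype F₁] {F₂ : Type*} [Field F₂] [Fintype F₂]
    (hF₁ : Odd (Fintype.card F₁)) (hF₂ : Odd (Fintype.card F₂)) (L₁ L₂ : Subgroup G)
    (e₁ : ↥L₁ ≃* Matrix.SpecialLinearGroup (Fin 2) F₁) (e₂ : ↥L₂ ≃* Matrix.SpecialLinearGroup (Fin 2) F₂)
    (hc : ∀ x ∈ L₁, ∀ y ∈ L₂, x * y = y * x) (j : G) (hj : orderOf j = 2) (hm : L₁ ⊓ L₂ = Subgroup.zpowers j)
    (hle : L₁ ⊔ L₂ ≤ Subgroup.centralizer ({j} : Set G)) (hi : (L₁ ⊔ L₂).relIndex (Subgroup.centralizer ({j} : Set G)) = 2) (n : G) (hn : n ∈ Subgroup.centralizer ({j} : Set G)) (hn' : n ∉ L₁ ⊔ L₂) :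
    (L₁.map (MulAut.conj n).toMonoidHom = L₁ ∧ L₂.map (MulAut.conj n).toMonoidHom = L₂) ∨
      (L₁.map (MulAut.conj n).toMonoidHom = L₂ ∧ Fintype.card F₁ = Fintype.card F₂ ∧
        ∃ n' ∈ Subgroup.centralizer ({j} : Set G), n' ∉ L₁ ⊔ L₂ ∧ L₁.map (MulAut.conj n').toMonoidHom = L₂ ∧ n' ^ 2 ∈ Subgroup.zpowers j) := by
  classical
  have hjm : j ∈ L₁ ⊓ L₂ := hm ▸ Subgroup.mem_zpowers j
  have hj1 : j ∈ L₁ := hjm.1
  have hj2 : j ∈ L₂ := hjm.2
  have hjj : j * j = 1 := by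
    have := pow_orderOf_eq_one j
    rwa [hj, pow_two] at this
  have hj_ne : j ≠ 1 := by
    intro h; rw [h, orderOf_one] at hj; omega
  have hmem : ∀ g, g ∈ L₁ → g ∈ L₂ → g = 1 ∨ g = j := by
    intro g h1 h2
    have : g ∈ Subgroup.zpowers j := hm ▸ (⟨h1, h2⟩ : g ∈ L₁ ⊓ L₂)
    obtain ⟨k, rfl⟩ := Subgroup.mem_zpowers_iff.mp this
    rcases Int.even_or_odd k with ⟨m, rfl⟩ | ⟨m, rfl⟩
    · left; rw [← two_mul, zpow_mul, zpow_two, hjj, one_zpow]
    · right; rw [zpow_add, zpow_mul, zpow_two, hjj, one_zpow, one_mul, zpow_one]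
  have hinv1 : ∀ g ∈ L₁, orderOf g = 2 → g = j := by
    intro g hg ho
    have h1 : orderOf (e₁ ⟨g, hg⟩) = 2 := by
      rw [MulEquiv.orderOf_eq, ← ho]; exact Subgroup.orderOf_mk g hg
    have h2 : orderOf (e₁ ⟨j, hj1⟩) = 2 := by
      rw [MulEquiv.orderOf_eq, ← hj]; exact Subgroup.orderOf_mk j hj1
    have := e₁.injective (involution_unique hF₁ _ _ h1 h2)
    exact congrArg Subtype.val this
  have hinv2 : ∀ g ∈ L₂, orderOf g = 2 → g = j := by
    intro g hg ho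
    have h1 : orderOf (e₂ ⟨g, hg⟩) = 2 := by
      rw [MulEquiv.orderOf_eq, ← ho]; exact Subgroup.orderOf_mk g hg
    have h2 : orderOf (e₂ ⟨j, hj2⟩) = 2 := by
      rw [MulEquiv.orderOf_eq, ← hj]; exact Subgroup.orderOf_mk j hj2
    have := e₂.injective (involution_unique hF₂ _ _ h1 h2)
    exact congrArg Subtype.val this
  -- elements of order 4
  obtain ⟨a₁, ha₁m, ha₁sq⟩ : ∃ a₁ : G, a₁ ∈ L₁ ∧ a₁ * a₁ = j := by
    refine ⟨e₁.symm Jm, (e₁.symm Jm).2, ?_⟩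
    apply hinv1 _ (L₁.mul_mem (e₁.symm Jm).2 (e₁.symm Jm).2)
    have : orderOf (e₁.symm Jm * e₁.symm Jm) = 2 := by
      rw [← map_mul, MulEquiv.orderOf_eq]; exact orderOf_Jm_sq hF₁
    have h' : orderOf ((e₁.symm Jm * e₁.symm Jm : L₁) : G) = 2 := by
      rw [Subgroup.orderOf_coe]; exact this
    exact h'
  obtain ⟨b₁, hb₁m, hb₁sq⟩ : ∃ b₁ : G, b₁ ∈ L₂ ∧ b₁ * b₁ = j := by
    refine ⟨e₂.symm Jm, (e₂.symm Jm).2, ?_⟩
    apply hinv2 _ (L₂.mul_mem (e₂.symm Jm).2 (e₂.symm Jm).2)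
    have : orderOf (e₂.symm Jm * e₂.symm Jm) = 2 := by
      rw [← map_mul, MulEquiv.orderOf_eq]; exact orderOf_Jm_sq hF₂
    have h' : orderOf ((e₂.symm Jm * e₂.symm Jm : L₂) : G) = 2 := by
      rw [Subgroup.orderOf_coe]; exact this
    exact h'
  have ha₁notin : a₁ ∉ L₂ := by
    intro h
    rcases hmem _ ha₁m h with h1 | h1
    · rw [h1, one_mul] at ha₁sq; exact hj_ne ha₁sq.symm
    · rw [h1, hjj] at ha₁sq; exact hj_ne ha₁sq.symm
  have hb₁notin : b₁ ∉ L₁ := by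
    intro h
    rcases hmem _ h hb₁m with h1 | h1
    · rw [h1, one_mul] at hb₁sq; exact hj_ne hb₁sq.symm
    · rw [h1, hjj] at hb₁sq; exact hj_ne hb₁sq.symm
  -- normality of L in C
  have hnormal : ((L₁ ⊔ L₂).subgroupOf (Subgroup.centralizer ({j} : Set G))).Normal :=
    Subgroup.normal_of_index_eq_two hi
  have hconjL : ∀ c ∈ Subgroup.centralizer ({j} : Set G), ∀ y ∈ L₁ ⊔ L₂, c * y * c⁻¹ ∈ L₁ ⊔ L₂ := by
    intro c hc' y hy
    have := hnormal.conj_mem ⟨y, hle hy⟩ (Subgroup.mem_subgroupOf.mpr hy) ⟨c, hc'⟩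
    exact Subgroup.mem_subgroupOf.mp this
  have hnL := hconjL n hn
  have hnL' : ∀ y ∈ L₁ ⊔ L₂, n⁻¹ * y * n ∈ L₁ ⊔ L₂ := by
    intro y hy
    have := hconjL n⁻¹ (Subgroup.inv_mem _ hn) y hy
    rwa [inv_inv] at this
  have hnn : n * n ∈ L₁ ⊔ L₂ := by
    have := Subgroup.mul_self_mem_of_index_two hi ⟨n, hn⟩
    exact Subgroup.mem_subgroupOf.mp this
  -- membership in the conjugates
  have hmemM : ∀ (K : Subgroup G) (m : G) (z : G),
      z ∈ K.map (MulAut.conj m).toMonoidHom ↔ ∃ a ∈ K, m * a * m⁻¹ = z := by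
    intro K m z
    rw [Subgroup.mem_map]
    rfl
  have hML : ∀ K : Subgroup G, K ≤ L₁ ⊔ L₂ → K.map (MulAut.conj n).toMonoidHom ≤ L₁ ⊔ L₂ := by
    intro K hK z hz
    obtain ⟨a, ha, rfl⟩ := (hmemM K n z).mp hz
    exact hnL a (hK ha)
  have hnormM : ∀ K : Subgroup G, (∀ l ∈ L₁ ⊔ L₂, ∀ z ∈ K, l * z * l⁻¹ ∈ K) →
      ∀ l ∈ L₁ ⊔ L₂, ∀ m ∈ K.map (MulAut.conj n).toMonoidHom,
        l * m * l⁻¹ ∈ K.map (MulAut.conj n).toMonoidHom := by
    intro K hK l hl m hm'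
    obtain ⟨a, ha, rfl⟩ := (hmemM K n m).mp hm'
    rw [hmemM]
    refine ⟨(n⁻¹ * l * n) * a * (n⁻¹ * l * n)⁻¹, hK _ (hnL' l hl) a ha, by group⟩
  have hcardM : ∀ K : Subgroup G, Nat.card (K.map (MulAut.conj n).toMonoidHom) = Nat.card K :=
    fun K => (Nat.card_congr (K.equivMapOfInjective _ (MulAut.conj n).injective).toEquiv).symm
  -- the dichotomies
  have hP1 := le_left_or_le_right hF₁ hF₂ hF₁ L₁ L₂ (L₁.map (MulAut.conj n).toMonoidHom) e₁ e₂
    ((L₁.equivMapOfInjective _ (MulAut.conj n).injective).symm.trans e₁) hc j hj hm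
    (hML L₁ le_sup_left) (hnormM L₁ (conj_mem_left L₁ L₂ hc))
  have hP2 := le_left_or_le_right hF₁ hF₂ hF₂ L₁ L₂ (L₂.map (MulAut.conj n).toMonoidHom) e₁ e₂
    ((L₂.equivMapOfInjective _ (MulAut.conj n).injective).symm.trans e₂) hc j hj hm
    (hML L₂ le_sup_right) (hnormM L₂ (conj_mem_right L₁ L₂ hc))
  rcases hP1 with h1 | h1
  · -- M₁ ≤ L₁
    have hM1 : L₁.map (MulAut.conj n).toMonoidHom = L₁ :=
      Subgroup.eq_of_le_of_card_ge h1 (hcardM L₁).ge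
    rcases hP2 with h2 | h2
    · exfalso
      have : n * b₁ * n⁻¹ ∈ L₁.map (MulAut.conj n).toMonoidHom := by
        rw [hM1]; exact h2 ((hmemM L₂ n _).mpr ⟨b₁, hb₁m, rfl⟩)
      obtain ⟨a, ha, hab⟩ := (hmemM L₁ n _).mp this
      apply hb₁notin
      have : a = b₁ := by
        calc a = n⁻¹ * (n * a * n⁻¹) * n := by group
          _ = n⁻¹ * (n * b₁ * n⁻¹) * n := by rw [hab]
          _ = b₁ := by group
      rw [← this]; exact ha
    · left
      exact ⟨hM1, Subgroup.eq_of_le_of_card_ge h2 (hcardM L₂).ge⟩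
  · -- M₁ ≤ L₂
    rcases hP2 with h2 | h2
    · -- the swap
      right
      have c1 : Nat.card L₁ ≤ Nat.card L₂ := by
        rw [← hcardM L₁]; exact Subgroup.card_le_of_le h1
      have c2 : Nat.card L₂ ≤ Nat.card L₁ := by
        rw [← hcardM L₂]; exact Subgroup.card_le_of_le h2
      have hM1 : L₁.map (MulAut.conj n).toMonoidHom = L₂ :=
        Subgroup.eq_of_le_of_card_ge h1 (by rw [hcardM L₁]; exact c2)
      have hM2 : L₂.map (MulAut.conj n).toMonoidHom = L₁ :=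
        Subgroup.eq_of_le_of_card_ge h2 (by rw [hcardM L₂]; exact c1)
      refine ⟨hM1, ?_, ?_⟩
      · have k1 : Nat.card L₁ = Fintype.card F₁ * (Fintype.card F₁ ^ 2 - 1) := by
          rw [Nat.card_congr e₁.toEquiv]; exact Cfsg.Agent.H7.card_SL2
        have k2 : Nat.card L₂ = Fintype.card F₂ * (Fintype.card F₂ ^ 2 - 1) := by
          rw [Nat.card_congr e₂.toEquiv]; exact Cfsg.Agent.H7.card_SL2
        have heq : Fintype.card F₁ * (Fintype.card F₁ ^ 2 - 1) =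
            Fintype.card F₂ * (Fintype.card F₂ ^ 2 - 1) := by
          rw [← k1, ← k2]; exact le_antisymm c1 c2
        have p1 : 1 ≤ Fintype.card F₁ := Fintype.card_pos
        have p2 : 1 ≤ Fintype.card F₂ := Fintype.card_pos
        rcases lt_trichotomy (Fintype.card F₁) (Fintype.card F₂) with h | h | h
        · exact absurd heq (card_mono _ _ p1 h).ne
        · exact h
        · exact absurd heq.symm (card_mono _ _ p2 h).ne
      · obtain ⟨a, ha, b, hb, hab⟩ := exists_mul_of_mem_sup L₁ L₂ hc _ hnn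
        have hcen : n * a⁻¹ ∈ Subgroup.centralizer ({j} : Set G) :=
          Subgroup.mul_mem _ hn (Subgroup.inv_mem _ (hle (Subgroup.mem_sup_left ha)))
        have hmap : L₁.map (MulAut.conj (n * a⁻¹)).toMonoidHom = L₂ := by
          ext z
          rw [hmemM]
          constructor
          · rintro ⟨x, hx, rfl⟩
            rw [← hM1, hmemM]
            exact ⟨a⁻¹ * x * a, L₁.mul_mem (L₁.mul_mem (L₁.inv_mem ha) hx) ha, by group⟩
          · intro hz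
            rw [← hM1, hmemM] at hz
            obtain ⟨x₀, hx₀, rfl⟩ := hz
            exact ⟨a * x₀ * a⁻¹, L₁.mul_mem (L₁.mul_mem ha hx₀) (L₁.inv_mem ha), by group⟩
        have hpow : (n * a⁻¹) ^ 2 = (n * a⁻¹) * (n * a⁻¹) := pow_two _
        have hsq2 : (n * a⁻¹) ^ 2 ∈ L₂ := by
          have e1 := hc a ha b hb
          have : (n * a⁻¹) ^ 2 = (n * a⁻¹ * n⁻¹) * b := by
            calc (n * a⁻¹) ^ 2 = (n * a⁻¹) * (n * a⁻¹) := hpow
              _ = (n * a⁻¹ * n⁻¹) * (n * n) * a⁻¹ := by group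
              _ = (n * a⁻¹ * n⁻¹) * (a * b) * a⁻¹ := by rw [hab]
              _ = (n * a⁻¹ * n⁻¹) * (b * a) * a⁻¹ := by rw [e1]
              _ = (n * a⁻¹ * n⁻¹) * b := by group
          rw [this]
          refine L₂.mul_mem ?_ hb
          rw [← hM1, hmemM]
          exact ⟨a⁻¹, L₁.inv_mem ha, rfl⟩
        have hsq1 : (n * a⁻¹) ^ 2 ∈ L₁ := by
          rw [hpow] at hsq2 ⊢
          have e1 := hc a⁻¹ (L₁.inv_mem ha) _ hsq2
          have : (n * a⁻¹) * (n * a⁻¹) = n * ((n * a⁻¹) * (n * a⁻¹)) * n⁻¹ := by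
            calc (n * a⁻¹) * (n * a⁻¹) = n * (a⁻¹ * ((n * a⁻¹) * (n * a⁻¹))) * a * n⁻¹ := by group
              _ = n * (((n * a⁻¹) * (n * a⁻¹)) * a⁻¹) * a * n⁻¹ := by rw [e1]
              _ = n * ((n * a⁻¹) * (n * a⁻¹)) * n⁻¹ := by group
          rw [this, ← hM2, hmemM]
          exact ⟨_, hsq2, rfl⟩
        refine ⟨n * a⁻¹, hcen, ?_, hmap, ?_⟩
        · intro h
          apply hn'
          have : n = (n * a⁻¹) * a := by group
          rw [this]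
          exact Subgroup.mul_mem _ h (Subgroup.mem_sup_left ha)
        · rw [← hm]; exact ⟨hsq1, hsq2⟩
    · exfalso
      apply ha₁notin
      obtain ⟨a, ha, b, hb, hab⟩ := exists_mul_of_mem_sup L₁ L₂ hc _
        (hnL' a₁ (Subgroup.mem_sup_left ha₁m))
      have : a₁ = (n * a * n⁻¹) * (n * b * n⁻¹) := by
        calc a₁ = n * (n⁻¹ * a₁ * n) * n⁻¹ := by group
          _ = n * (a * b) * n⁻¹ := by rw [hab]
          _ = (n * a * n⁻¹) * (n * b * n⁻¹) := by group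
      rw [this]
      exact L₂.mul_mem (h1 ((hmemM L₁ n _).mpr ⟨a, ha, rfl⟩)) (h2 ((hmemM L₂ n _).mpr ⟨b, hb, rfl⟩))

end Cfsg.Agent.S3210
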