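import Cfsg.Statements.S3215
import Mathlib
import Cfsg.Agent.H13.InvCent

set_option autoImplicit false
set_option linter.style.haveILetI false
open Cfsg

namespace Cfsg.Agent.S3215

/-- Let H be a finite solvable group with no nontrivial normal subgroup of odd order in which the centralizer of every involution has a normal 2-complement. Let X be a Hall 2'-subgroup of H (odd order, index a power of 2) and Y = O₂(H). Then no non-identity element of X commutes with a non-identity element of Y (so for X ≠ 1 the group XY is a Frobenius group with kernel Y), every Sylow subgroup of X is cyclic, XY is normal in H, and H/XY is a cyclic 2-group. -/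
theorem result {H : Type*} [Group H] [Finite H] (hsol : Group.IsSolvable H)
    (hO : Cfsg.oddCore H = ⊥)
    (hI : ∀ t : H, orderOf t = 2 → Cfsg.HasNormalPComplement 2 ↥(Subgroup.centralizer ({t} : Set H)))
    (X : Subgroup H) (hXodd : Odd (Nat.card X)) (hXidx : ∃ k : ℕ, X.index = 2 ^ k) :
    (∀ x ∈ X, x ≠ 1 → ∀ y ∈ Cfsg.pCore 2 H, y ≠ 1 → x * y ≠ y * x) ∧
      (∀ (p : ℕ) [Fact p.Prime] (P : Sylow p ↥X), IsCyclic ↥(P : Subgroup ↥X)) ∧
      (X ⊔ Cfsg.pCore 2 H).Normal ∧
      ∀ hN : (X ⊔ Cfsg.pCore 2 H).Normal, IsCyclic (H ⧸ (X ⊔ Cfsg.pCore 2 H)) ∧ IsPGroup 2 (H ⧸ (X ⊔ Cfsg.pCore 2 H)) := by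
  classical
  haveI := hsol
  haveI : Fact (Nat.Prime 2) := ⟨Nat.prime_two⟩
  have hO' : Cfsg.pPrimeCore 2 H = ⊥ := hO
  obtain ⟨k, hk⟩ := hXidx
  have hYn : (Cfsg.pCore 2 H).Normal := Cfsg.Agent.H13.pCore_normal 2 H
  have hYp : IsPGroup 2 (Cfsg.pCore 2 H) := Cfsg.Agent.H13.pCore_isPGroup 2 H
  have hXo : ∀ x ∈ X, Odd (orderOf x) := by
    intro x hx
    have h1 := orderOf_dvd_natCard (⟨x, hx⟩ : X)
    rw [← Subgroup.orderOf_coe] at h1
    exact Odd.of_dvd_nat hXodd h1
  have h1 : ∀ x ∈ X, x ≠ 1 → ∀ y ∈ Cfsg.pCore 2 H, y ≠ 1 → x * y ≠ y * x := by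
    intro x hx hx1 y hy hy1
    obtain ⟨j, hj⟩ := hYp ⟨y, hy⟩
    exact Cfsg.Agent.H13.odd_not_commute_two_elt hO' hI x y hx1 (hXo x hx) hy1 j
      (by simpa using congrArg Subtype.val hj)
  obtain ⟨D, hDn, hDle, hDcyc⟩ := Cfsg.Agent.H13.exists_normal_le_sup_cyclic hO' hI X k hk
  haveI := hDn
  haveI := hDcyc
  have hMn : (X ⊔ Cfsg.pCore 2 H).Normal := by
    constructor
    intro m hm g
    have hcomm : g * m * g⁻¹ * m⁻¹ ∈ D := by
      rw [← QuotientGroup.eq_one_iff]
      have h2 : (QuotientGroup.mk' D g) * (QuotientGroup.mk' D m) =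
          (QuotientGroup.mk' D m) * (QuotientGroup.mk' D g) := mul_comm' _ _
      have h3 : QuotientGroup.mk' D (g * m * g⁻¹ * m⁻¹) = 1 := by
        rw [map_mul, map_mul, map_mul, map_inv, map_inv, h2]; group
      exact h3
    have h4 : g * m * g⁻¹ = (g * m * g⁻¹ * m⁻¹) * m := by group
    rw [h4]
    exact Subgroup.mul_mem _ (hDle hcomm) hm
  refine ⟨h1, ?_, hMn, ?_⟩
  · intro p hp P
    by_cases hYbot : Cfsg.pCore 2 H = ⊥
    · haveI := Cfsg.Agent.H13.subsingleton_of_pCore_eq_bot hO' hYbot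
      haveI : Subsingleton ↥(P : Subgroup ↥X) :=
        ⟨fun a b => Subtype.ext (Subtype.ext (Subsingleton.elim _ _))⟩
      exact isCyclic_of_subsingleton
    by_cases hp2 : p = 2
    · subst hp2
      obtain ⟨n, hn⟩ := IsPGroup.exists_card_eq P.2
      have hdvd : Nat.card (P : Subgroup ↥X) ∣ Nat.card X := Subgroup.card_subgroup_dvd_card _
      have hodd : Odd (Nat.card (P : Subgroup ↥X)) := Odd.of_dvd_nat hXodd hdvd
      have hn0 : n = 0 := by
        by_contra hn0
        rw [hn] at hodd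
        have : Even (2 ^ n) := (Nat.even_pow' hn0).mpr even_two
        exact (Nat.not_even_iff_odd.mpr hodd) this
      rw [hn0, pow_zero] at hn
      haveI : Subsingleton ↥(P : Subgroup ↥X) := (Nat.card_eq_one_iff_unique.mp hn).1
      exact isCyclic_of_subsingleton
    · apply Cfsg.Agent.H13.isCyclic_sylow_of_fpf X
        (Cfsg.pCore 2 H ⊓ Subgroup.centralizer (Cfsg.pCore 2 H : Set H))
        (fun v hv w hw => Subgroup.mem_centralizer_iff.mp (Subgroup.mem_inf.mp hw).2 v
          (Subgroup.mem_inf.mp hv).1)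
        (hYp.to_le inf_le_left)
        (Cfsg.Agent.H13.pCore_inf_centralizer_ne_bot hYbot)
        (by
          haveI := hYn
          haveI : (Cfsg.pCore 2 H ⊓ Subgroup.centralizer (Cfsg.pCore 2 H : Set H)).Normal :=
            inferInstance
          exact le_top.trans (Subgroup.normalizer_eq_top_iff.mpr this).ge)
        (by
          intro a ha ha1 v hv hav
          by_contra hv1
          exact h1 a ha ha1 v (Subgroup.mem_inf.mp hv).1 hv1 hav)
        p hp2 P
  · intro hN
    constructor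
    · have hle : D ≤ (X ⊔ Cfsg.pCore 2 H).comap (MonoidHom.id H) := hDle
      have hsurj : Function.Surjective
          (QuotientGroup.map D (X ⊔ Cfsg.pCore 2 H) (MonoidHom.id H) hle) := by
        intro q
        obtain ⟨h, rfl⟩ := QuotientGroup.mk_surjective q
        exact ⟨QuotientGroup.mk h, rfl⟩
      exact isCyclic_of_surjective _ hsurj
    · have hdvd : (X ⊔ Cfsg.pCore 2 H).index ∣ 2 ^ k := by
        rw [← hk]
        exact Subgroup.index_dvd_of_le le_sup_left
      obtain ⟨j, -, hj⟩ := (Nat.dvd_prime_pow Nat.prime_two).mp hdvd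
      apply IsPGroup.of_card (n := j)
      rw [← Subgroup.index_eq_card]
      exact hj

end Cfsg.Agent.S3215
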