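import Mathlib
import Cfsg.Statements.S3225

set_option autoImplicit false
open Cfsg

namespace Cfsg.Agent.S3225

open scoped Classical in
/-- The homomorphism `S → {±1}` with kernel the index-two subgroup `M`. -/
noncomputable def signHom {S : Type*} [Group S] (M : Subgroup S) (hM : M.index = 2) : S →* ℤˣ where
  toFun y := if y ∈ M then 1 else -1
  map_one' := by simp [one_mem]
  map_mul' a b := by
    by_cases ha : a ∈ M <;> by_cases hb : b ∈ M <;>
      simp [Subgroup.mul_mem_iff_of_index_two hM, ha, hb]

theorem signHom_apply_of_mem {S : Type*} [Group S] (M : Subgroup S) (hM : M.index = 2) {y : S}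
    (hy : y ∈ M) : signHom M hM y = 1 := by
  simp [signHom, hy]

theorem signHom_apply_of_not_mem {S : Type*} [Group S] (M : Subgroup S) (hM : M.index = 2) {y : S}
    (hy : y ∉ M) : signHom M hM y = -1 := by
  simp [signHom, hy]

theorem conj_inv_pow {G : Type*} [Group G] (k b : G) (i : ℕ) :
    (k⁻¹ * b * k) ^ i = k⁻¹ * b ^ i * k := by
  have := conj_pow (a := k⁻¹) (b := b) (i := i)
  simpa using this

/-- Let G be a finite group of even order with no subgroup of index 2, S a Sylow 2-subgroup of G and M a subgroup of index 2 in S such that, for some n ≥ 1, every element of S outside M has order greater than 2^(n−1). Then every element of S of order 2ⁿ is conjugate in G to an element of M. -/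
theorem result {G : Type*} [Group G] [Finite G] (hev : Even (Nat.card G))
    (hG : ∀ H : Subgroup G, H.index ≠ 2) (S : Sylow 2 G) (M : Subgroup G) (hMS : M ≤ (S : Subgroup G)) (hM : M.relIndex (S : Subgroup G) = 2)
    (n : ℕ) (hn : 1 ≤ n) (hord : ∀ y ∈ (S : Subgroup G), y ∉ M → 2 ^ (n - 1) < orderOf y)
    (x : G) (hx : x ∈ (S : Subgroup G)) (hxn : orderOf x = 2 ^ n) :
    ∃ g : G, g * x * g⁻¹ ∈ M := by
  by_contra hcon
  push Not at hcon
  have : Fact (Nat.Prime 2) := ⟨Nat.prime_two⟩
  have hM' : (M.subgroupOf (S : Subgroup G)).index = 2 := hM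
  let ϕ : ↥(S : Subgroup G) →* ℤˣ := signHom (M.subgroupOf (S : Subgroup G)) hM'
  let T : G →* ℤˣ := MonoidHom.transfer ϕ
  have : Fintype (Quotient (MulAction.orbitRel (Subgroup.zpowers x) (G ⧸ (S : Subgroup G)))) :=
    Fintype.ofFinite _
  have hT : T x = -1 := by
    change MonoidHom.transfer ϕ x = -1
    rw [MonoidHom.transfer_eq_prod_quotient_orbitRel_zpowers_quot]
    have hfac : ∀ q : Quotient (MulAction.orbitRel (Subgroup.zpowers x) (G ⧸ (S : Subgroup G))),
        ϕ ⟨q.out.out⁻¹ * x ^ Function.minimalPeriod (x • ·) q.out * q.out.out,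
            QuotientGroup.out_conj_pow_minimalPeriod_mem (S : Subgroup G) x q.out⟩
          = (-1 : ℤˣ) ^ Function.minimalPeriod (x • ·) q.out := by
      intro q
      have hmem := QuotientGroup.out_conj_pow_minimalPeriod_mem (S : Subgroup G) x q.out
      have hdvd : Function.minimalPeriod (x • ·) q.out ∣ 2 ^ n := by
        rw [← hxn]
        apply Function.IsPeriodicPt.minimalPeriod_dvd
        rw [Function.IsPeriodicPt, Function.IsFixedPt, smul_iterate, pow_orderOf_eq_one]
        simp
      obtain ⟨j, hj, hjp⟩ := (Nat.dvd_prime_pow Nat.prime_two).mp hdvd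
      rcases Nat.eq_zero_or_pos j with hj0 | hjpos
      · -- period one: a conjugate of x, not in M
        have hp1 : Function.minimalPeriod (x • ·) q.out = 1 := by rw [hjp, hj0, pow_zero]
        have hnot : (⟨q.out.out⁻¹ * x ^ Function.minimalPeriod (x • ·) q.out * q.out.out, hmem⟩ :
            ↥(S : Subgroup G)) ∉ M.subgroupOf (S : Subgroup G) := by
          rw [Subgroup.mem_subgroupOf]
          simp only [hp1, pow_one]
          have := hcon q.out.out⁻¹
          simpa using this
        rw [signHom_apply_of_not_mem _ hM' hnot, hp1, pow_one]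
      · -- even period: small order, so in M
        have hin : (⟨q.out.out⁻¹ * x ^ Function.minimalPeriod (x • ·) q.out * q.out.out, hmem⟩ :
            ↥(S : Subgroup G)) ∈ M.subgroupOf (S : Subgroup G) := by
          rw [Subgroup.mem_subgroupOf]
          by_contra hnotM
          have h1 := hord _ hmem hnotM
          have h2 : (q.out.out⁻¹ * x ^ Function.minimalPeriod (x • ·) q.out * q.out.out) ^ (2 ^ (n - j)) = 1 := by
            rw [conj_inv_pow, hjp, ← pow_mul, ← pow_add, Nat.add_sub_cancel' hj, ← hxn, pow_orderOf_eq_one]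
            group
          have h3 : orderOf (q.out.out⁻¹ * x ^ Function.minimalPeriod (x • ·) q.out * q.out.out) ≤ 2 ^ (n - j) :=
            Nat.le_of_dvd (by positivity) (orderOf_dvd_of_pow_eq_one h2)
          have h4 : 2 ^ (n - j) ≤ 2 ^ (n - 1) := Nat.pow_le_pow_right (by norm_num) (by omega)
          omega
        rw [signHom_apply_of_mem _ hM' hin, hjp]
        have : Even (2 ^ j) := (Nat.even_pow' (by omega)).mpr (by norm_num)
        rw [Even.neg_one_pow this]
    rw [Finset.prod_congr rfl (fun q _ => hfac q), Finset.prod_pow_eq_pow_sum,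
      ← Subgroup.index_eq_sum_minimalPeriod]
    have hodd : Odd (S : Subgroup G).index := by
      rw [← Nat.not_even_iff_odd, even_iff_two_dvd]
      exact S.not_dvd_index
    exact Odd.neg_one_pow hodd
  have hrange : T.range = ⊤ := by
    rw [eq_top_iff]
    intro u _
    rcases Int.units_eq_one_or u with rfl | rfl
    · exact one_mem _
    · exact ⟨x, hT⟩
  have hidx : T.ker.index = 2 := by
    rw [Subgroup.index_ker, hrange, Subgroup.card_top]
    simp
  exact hG _ hidx

end Cfsg.Agent.S3225
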