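import Mathlib
import Cfsg.Statements.S3266
import Cfsg.Agent.H7.InvGraph
import Cfsg.Agent.H7.PSL2Inv

set_option autoImplicit false
open Cfsg

namespace Cfsg.Agent.S3266

open Cfsg.Agent.H7 Matrix

open scoped MatrixGroups

/-- Let F be a finite field with at least 4 elements and let X be a conjugacy class of involutions of PSL(2, F). The graph on X joining two distinct involutions whose product has odd order is connected and has diameter exactly 2. -/
theorem result {F : Type*} [Field F] [Fintype F] (hF : 4 ≤ Fintype.card F)
    (t : Matrix.ProjectiveSpecialLinearGroup (Fin 2) F) (ht : orderOf t = 2) :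
    (SimpleGraph.fromRel fun x y : {x : Matrix.ProjectiveSpecialLinearGroup (Fin 2) F // IsConj t x} =>
        Odd (orderOf (x.1 * y.1))).Connected ∧
      (SimpleGraph.fromRel fun x y : {x : Matrix.ProjectiveSpecialLinearGroup (Fin 2) F // IsConj t x} =>
        Odd (orderOf (x.1 * y.1))).diam = 2 := by
  apply invGraph_connected_diam t ht
  · intro x y hx hy
    obtain ⟨A, rfl⟩ := QuotientGroup.mk_surjective x
    obtain ⟨B, rfl⟩ := QuotientGroup.mk_surjective y
    have hA := trace_zero_of_orderOf_two A hx
    have hB := trace_zero_of_orderOf_two B hy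
    suffices h : ∃ C : SL(2, F), C.1 0 0 + C.1 1 1 = 0 ∧
        Odd (orderOf (QuotientGroup.mk (A * C) : PSL(2, F))) ∧
        Odd (orderOf (QuotientGroup.mk (C * B) : PSL(2, F))) by
      obtain ⟨C, hC, h1, h2⟩ := h
      exact ⟨QuotientGroup.mk C, mk_mul_self_of_trace_zero C hC, h1, h2⟩
    by_cases h2 : (2 : F) = 0
    · exact exists_common_char_two h2 A B hx hy
    · by_cases hi : IsSquare (-1 : F)
      · obtain ⟨i, hi⟩ := hi
        exact exists_common_of_sq_neg_one h2 i hi.symm A B hA hB
      · have hq : Fintype.card F % 4 = 3 := by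
          by_contra hq
          exact hi (FiniteField.isSquare_neg_one_iff.mpr hq)
        exact exists_common_of_not_sq hq hF A B hA hB
  · obtain ⟨A, rfl⟩ := QuotientGroup.mk_surjective t
    have hA := trace_zero_of_orderOf_two A ht
    by_cases h2 : (2 : F) = 0
    · have hAc : A ∉ Subgroup.center SL(2, F) := by
        intro hc
        rw [← QuotientGroup.eq_one_iff] at hc
        rw [hc, orderOf_one] at ht
        exact absurd ht (by norm_num)
      obtain ⟨S, hS, hSc, hAS, hASc⟩ := exists_commuting_char_two h2 hF A hA hAc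
      exact ⟨QuotientGroup.mk S, orderOf_mk_eq_two S hS hSc, orderOf_mk_eq_two (A * S) hAS hASc⟩
    · obtain ⟨S, hS, hAS⟩ := exists_commuting_odd h2 A hA
      exact ⟨QuotientGroup.mk S, orderOf_mk_eq_two S hS (not_mem_center_of_trace_zero h2 S hS),
        orderOf_mk_eq_two (A * S) hAS (not_mem_center_of_trace_zero h2 (A * S) hAS)⟩

end Cfsg.Agent.S3266
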