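import Cfsg.Statements.S3276

set_option autoImplicit false
open Cfsg

namespace Cfsg.Agent.S3276

/-- Two involutions whose product has odd order are conjugate. -/
theorem conj_of_odd {G : Type*} [Group G] (x y : G) (hx : x * x = 1) (hy : y * y = 1)
    (j : ℕ) (hj : (x * y) ^ (2 * j + 1) = 1) : IsConj x y := by
  rw [isConj_iff]
  have hxi : x⁻¹ = x := inv_eq_of_mul_eq_one_left hx
  have hyi : y⁻¹ = y := inv_eq_of_mul_eq_one_left hy
  have hd : x * (x * y) * x⁻¹ = (x * y)⁻¹ := by
    rw [mul_inv_rev, hxi, hyi, ← mul_assoc, hx, one_mul]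
  have hc : x * (x * y) ^ j * x⁻¹ = ((x * y) ^ j)⁻¹ := by
    rw [← conj_pow, hd, inv_pow]
  have hc' : x * ((x * y) ^ j)⁻¹ * x⁻¹ = (x * y) ^ j := by
    calc x * ((x * y) ^ j)⁻¹ * x⁻¹ = (x * (x * y) ^ j * x⁻¹)⁻¹ := by group
      _ = (x * y) ^ j := by rw [hc, inv_inv]
  have hsq : (x * y) ^ j * (x * y) ^ j = (x * y)⁻¹ := by
    rw [eq_inv_iff_mul_eq_one, ← pow_add, ← pow_succ, ← two_mul]; exact hj
  refine ⟨(x * y) ^ j, ?_⟩
  calc (x * y) ^ j * x * ((x * y) ^ j)⁻¹
      = (x * y) ^ j * (x * ((x * y) ^ j)⁻¹ * x⁻¹) * x := by group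
    _ = (x * y) ^ j * (x * y) ^ j * x := by rw [hc']
    _ = y := by rw [hsq, mul_inv_rev, hxi, hyi, mul_assoc, hx, mul_one]

/-- A subgroup all of whose elements are `1` or `c` has at most two elements. -/
theorem card_le_two {H : Type*} [Group H] (K : Subgroup H) (c : H)
    (h : ∀ k ∈ K, k = 1 ∨ k = c) : Nat.card K ≤ 2 := by
  have h1 : (K : Set H) ⊆ {1, c} := fun k hk => by
    rcases h k hk with h | h <;> simp [h]
  have h2 : Nat.card K = (K : Set H).ncard := Nat.card_coe_set_eq (K : Set H)
  rw [h2]
  calc (K : Set H).ncard ≤ ({1, c} : Set H).ncard := Set.ncard_le_ncard h1 (Set.toFinite _)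
    _ ≤ ({c} : Set H).ncard + 1 := Set.ncard_insert_le _ _
    _ = 2 := by rw [Set.ncard_singleton]

/-- Let x and y be commuting, non-conjugate involutions of a finite group G, and suppose that for every involution u commuting with x, each conjugate of y that commutes with u also commutes with y. Then the normal closure of y is a proper, normal, elementary abelian 2-subgroup of G; and if y is the only involution of that normal closure commuting with x, it has order at most 4. -/
theorem result {G : Type*} [Group G] [Finite G] (x y : G) (hx : orderOf x = 2) (hy : orderOf y = 2)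
    (hxy : Commute x y) (hnc : ¬ IsConj x y)
    (hstar : ∀ u : G, orderOf u = 2 → Commute u x → ∀ g : G, Commute (g * y * g⁻¹) u → Commute (g * y * g⁻¹) y) :
    Subgroup.normalClosure ({y} : Set G) ≠ ⊤ ∧ Cfsg.IsElementaryAbelian 2 (Subgroup.normalClosure ({y} : Set G)) ∧
      ((∀ u ∈ Subgroup.normalClosure ({y} : Set G), orderOf u = 2 → Commute u x → u = y) →
        Nat.card ↥(Subgroup.normalClosure ({y} : Set G)) ≤ 4) := by
  have hx2 : x * x = 1 := by rw [← pow_two, ← hx, pow_orderOf_eq_one]
  have hy2 : y * y = 1 := by rw [← pow_two, ← hy, pow_orderOf_eq_one]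
  have hxi : x⁻¹ = x := inv_eq_of_mul_eq_one_left hx2
  have hyi : y⁻¹ = y := inv_eq_of_mul_eq_one_left hy2
  have hcy : ∀ g : G, (g * y * g⁻¹) * (g * y * g⁻¹) = 1 := by
    intro g
    calc (g * y * g⁻¹) * (g * y * g⁻¹) = g * (y * y) * g⁻¹ := by group
      _ = 1 := by rw [hy2]; group
  -- Step 1: every conjugate of `y` commutes with `y`.
  have h1 : ∀ g : G, Commute (g * y * g⁻¹) y := by
    intro g
    have hy'2 : (g * y * g⁻¹) * (g * y * g⁻¹) = 1 := hcy g
    have hy'i : (g * y * g⁻¹)⁻¹ = g * y * g⁻¹ := inv_eq_of_mul_eq_one_left hy'2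
    generalize hy' : g * y * g⁻¹ = y' at hy'2 hy'i
    have hdpos : 0 < orderOf (x * y') := orderOf_pos _
    rcases Nat.even_or_odd' (orderOf (x * y')) with ⟨m, hm | hm⟩
    · have hm0 : 0 < m := by omega
      have hdm2 : (x * y') ^ m * (x * y') ^ m = 1 := by
        rw [← pow_add, ← two_mul, ← hm, pow_orderOf_eq_one]
      have hdmi : ((x * y') ^ m)⁻¹ = (x * y') ^ m := inv_eq_of_mul_eq_one_left hdm2
      have hu : orderOf ((x * y') ^ m) = 2 := by
        apply orderOf_eq_prime
        · rw [pow_two]; exact hdm2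
        · intro h
          have := orderOf_dvd_of_pow_eq_one h
          rw [hm] at this
          have := Nat.le_of_dvd hm0 this
          omega
      have hxd : x * (x * y') * x⁻¹ = (x * y')⁻¹ := by
        rw [mul_inv_rev, hxi, hy'i, ← mul_assoc, hx2, one_mul]
      have hyd : y' * (x * y') * y'⁻¹ = (x * y')⁻¹ := by
        rw [mul_inv_rev, hxi, hy'i, mul_assoc, mul_assoc, hy'2, mul_one]
      have hcx : Commute ((x * y') ^ m) x := by
        have h : x * (x * y') ^ m * x⁻¹ = (x * y') ^ m := by
          rw [← conj_pow, hxd, inv_pow, hdmi]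
        exact (mul_inv_eq_iff_eq_mul.mp h).symm
      have hcy' : Commute y' ((x * y') ^ m) := by
        have h : y' * (x * y') ^ m * y'⁻¹ = (x * y') ^ m := by
          rw [← conj_pow, hyd, inv_pow, hdmi]
        exact mul_inv_eq_iff_eq_mul.mp h
      have := hstar ((x * y') ^ m) hu hcx g
      rw [hy'] at this
      exact this hcy'
    · exfalso
      apply hnc
      have h : IsConj x y' := conj_of_odd x y' hx2 hy'2 m (by rw [← hm]; exact pow_orderOf_eq_one _)
      refine h.trans (isConj_iff.mpr ⟨g⁻¹, ?_⟩)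
      rw [← hy']; group
  -- generators of the normal closure
  have hgen : ∀ a ∈ Group.conjugatesOfSet ({y} : Set G), ∃ g : G, a = g * y * g⁻¹ := by
    intro a ha
    rw [Group.mem_conjugatesOfSet_iff] at ha
    obtain ⟨b, hb, hba⟩ := ha
    rw [Set.mem_singleton_iff] at hb
    subst hb
    obtain ⟨c, hc⟩ := isConj_iff.mp hba
    exact ⟨c, hc.symm⟩
  have hcomm : ∀ a ∈ Group.conjugatesOfSet ({y} : Set G), ∀ b ∈ Group.conjugatesOfSet ({y} : Set G),
      a * b = b * a := by
    intro a ha b hb
    obtain ⟨g, rfl⟩ := hgen a ha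
    obtain ⟨h, rfl⟩ := hgen b hb
    have := (h1 (h⁻¹ * g)).eq
    calc g * y * g⁻¹ * (h * y * h⁻¹) = h * ((h⁻¹ * g) * y * (h⁻¹ * g)⁻¹ * y) * h⁻¹ := by group
      _ = h * (y * ((h⁻¹ * g) * y * (h⁻¹ * g)⁻¹)) * h⁻¹ := by rw [this]
      _ = h * y * h⁻¹ * (g * y * g⁻¹) := by group
  have hNc : IsMulCommutative (Subgroup.normalClosure ({y} : Set G)) :=
    Subgroup.isMulCommutative_closure hcomm
  have hN2 : ∀ a ∈ Subgroup.normalClosure ({y} : Set G), a ^ 2 = 1 := by
    intro a ha
    induction ha using Subgroup.closure_induction with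
    | mem a ha =>
      obtain ⟨g, rfl⟩ := hgen a ha
      rw [pow_two]; exact hcy g
    | one => simp
    | mul a b ha hb iha ihb =>
      have hab : Commute a b := setLike_mul_comm (s := Subgroup.normalClosure ({y} : Set G)) ha hb
      rw [hab.mul_pow, iha, ihb, one_mul]
    | inv a ha iha => rw [inv_pow, iha, inv_one]
  have hyN : y ∈ Subgroup.normalClosure ({y} : Set G) :=
    Subgroup.subset_normalClosure (Set.mem_singleton y)
  refine ⟨?_, ⟨hNc, hN2⟩, ?_⟩
  · -- properness
    intro htop
    have hab : ∀ a b : G, a * b = b * a := fun a b =>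
      setLike_mul_comm (s := Subgroup.normalClosure ({y} : Set G)) (htop ▸ Subgroup.mem_top a)
        (htop ▸ Subgroup.mem_top b)
    have hall : ∀ a ∈ Subgroup.normalClosure ({y} : Set G), a = 1 ∨ a = y := by
      intro a ha
      induction ha using Subgroup.closure_induction with
      | mem a ha =>
        obtain ⟨g, rfl⟩ := hgen a ha
        right
        rw [hab g y, mul_assoc, mul_inv_cancel, mul_one]
      | one => left; rfl
      | mul a b ha hb iha ihb =>
        rcases iha with rfl | rfl <;> rcases ihb with rfl | rfl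
        · left; simp
        · right; simp
        · right; simp
        · left; exact hy2
      | inv a ha iha =>
        rcases iha with rfl | rfl
        · left; simp
        · right; exact hyi
    rcases hall x (htop ▸ Subgroup.mem_top x) with h | h
    · rw [h, orderOf_one] at hx; omega
    · exact hnc (h ▸ IsConj.refl x)
  · -- the bound
    intro hu
    have hNn : (Subgroup.normalClosure ({y} : Set G)).Normal := Subgroup.normalClosure_normal
    -- elements of the normal closure commuting with `x` are `1` or `y`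
    have hfixed : ∀ v ∈ Subgroup.normalClosure ({y} : Set G), x * v * x⁻¹ = v → v = 1 ∨ v = y := by
      intro v hv hxv
      by_cases hv1 : v = 1
      · left; exact hv1
      · right
        have hov : orderOf v = 2 := orderOf_eq_prime (hN2 v hv) hv1
        exact hu v hv hov (mul_inv_eq_iff_eq_mul.mp hxv).symm
    let f : ↥(Subgroup.normalClosure ({y} : Set G)) →* ↥(Subgroup.normalClosure ({y} : Set G)) :=
      { toFun := fun n => ⟨(n : G) * (x * n * x⁻¹),
          Subgroup.mul_mem _ n.2 (hNn.conj_mem _ n.2 x)⟩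
        map_one' := by
          apply Subtype.ext
          simp
        map_mul' := by
          intro a b
          apply Subtype.ext
          have hc : (b : G) * (x * a * x⁻¹) = (x * a * x⁻¹) * b :=
            setLike_mul_comm (s := Subgroup.normalClosure ({y} : Set G)) b.2 (hNn.conj_mem _ a.2 x)
          show (a : G) * b * (x * (a * b) * x⁻¹) = a * (x * a * x⁻¹) * (b * (x * b * x⁻¹))
          calc (a : G) * b * (x * (a * b) * x⁻¹) = a * (b * (x * a * x⁻¹)) * (x * b * x⁻¹) := by group
            _ = a * ((x * a * x⁻¹) * b) * (x * b * x⁻¹) := by rw [hc]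
            _ = a * (x * a * x⁻¹) * (b * (x * b * x⁻¹)) := by group }
    have hfval : ∀ n : ↥(Subgroup.normalClosure ({y} : Set G)), ((f n : ↥(Subgroup.normalClosure ({y} : Set G))) : G) = (n : G) * (x * n * x⁻¹) :=
      fun n => rfl
    have hker : Nat.card f.ker ≤ 2 := by
      apply card_le_two f.ker ⟨y, hyN⟩
      intro n hn
      rw [MonoidHom.mem_ker] at hn
      have h1' : (n : G) * (x * n * x⁻¹) = 1 := by rw [← hfval, hn]; rfl
      have hn2 : (n : G) * n = 1 := by rw [← pow_two]; exact hN2 n n.2
      have h2' : x * n * x⁻¹ = n := by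
        have : x * n * x⁻¹ = (n : G)⁻¹ := (inv_eq_of_mul_eq_one_right h1').symm
        rw [this]; exact inv_eq_of_mul_eq_one_left hn2
      rcases hfixed n n.2 h2' with h | h
      · left; exact Subtype.ext h
      · right; exact Subtype.ext h
    have hrange : Nat.card f.range ≤ 2 := by
      apply card_le_two f.range ⟨y, hyN⟩
      rintro v ⟨n, rfl⟩
      have hfix : x * (f n : G) * x⁻¹ = (f n : G) := by
        rw [hfval]
        have hc : (x * n * x⁻¹) * (n : G) = n * (x * n * x⁻¹) :=
          setLike_mul_comm (s := Subgroup.normalClosure ({y} : Set G)) (hNn.conj_mem _ n.2 x) n.2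
        calc x * ((n : G) * (x * n * x⁻¹)) * x⁻¹ = (x * n * x⁻¹) * ((x * x) * n * (x * x)⁻¹) := by group
          _ = (x * n * x⁻¹) * n := by rw [hx2]; group
          _ = n * (x * n * x⁻¹) := hc
      rcases hfixed (f n) (f n).2 hfix with h | h
      · left; exact Subtype.ext h
      · right; exact Subtype.ext h
    have hcard : Nat.card f.ker * Nat.card f.range = Nat.card ↥(Subgroup.normalClosure ({y} : Set G)) := by
      rw [← Subgroup.index_ker, Subgroup.card_mul_index]
    rw [← hcard]
    calc Nat.card f.ker * Nat.card f.range ≤ 2 * 2 := Nat.mul_le_mul hker hrange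
      _ = 4 := rfl

end Cfsg.Agent.S3276
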