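import Cfsg.Statements.S3299
import Cfsg.Agent.H26.LES
import Cfsg.Agent.H26.Transfer
import Cfsg.Agent.H72.Subn
import Cfsg.Agent.Helper55.Extraspecial

set_option autoImplicit false
open Cfsg

namespace Cfsg.Agent.S3299

/-- Let G be a finite group with no nontrivial 2-group quotient (O^2(G) = G), z an involution of G with H = C_G(z), and suppose E = O_2(H) is extraspecial with C_G(E) ≤ E and of order 2^(2n+1) with n ≥ 2. Then E is contained in every normal subgroup of H of index 2. -/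
theorem result {G : Type*} [Group G] [Finite G] (hres : Cfsg.pResidual 2 G = ⊤) (z : G) (hz : orderOf z = 2)
    (E : Subgroup G) (hE : E = (Cfsg.pCore 2 ↥(Subgroup.centralizer ({z} : Set G))).map (Subgroup.centralizer ({z} : Set G)).subtype)
    (hext : Cfsg.IsExtraspecial 2 ↥E) (hcent : Subgroup.centralizer (E : Set G) ≤ E) (n : ℕ) (hn : 2 ≤ n) (hcard : Nat.card ↥E = 2 ^ (2 * n + 1))
    (K : Subgroup G) (hKH : K ≤ Subgroup.centralizer ({z} : Set G))
    (hKn : ∀ h ∈ Subgroup.centralizer ({z} : Set G), K.map (MulAut.conj h).toMonoidHom = K)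
    (hKi : K.relIndex (Subgroup.centralizer ({z} : Set G)) = 2) : E ≤ K := by
  classical
  have hz1 : z ≠ 1 := by
    intro h
    rw [h, orderOf_one] at hz
    omega
  have hzz : z * z = 1 := by
    rw [← pow_two, ← hz]
    exact pow_orderOf_eq_one z
  have hEH : E ≤ Subgroup.centralizer ({z} : Set G) := by
    rw [hE]
    exact Subgroup.map_subtype_le _
  have hEn : ∀ h ∈ Subgroup.centralizer ({z} : Set G), ∀ e ∈ E, h * e * h⁻¹ ∈ E := by
    intro h hh e he
    rw [hE] at he ⊢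
    obtain ⟨e', he', rfl⟩ := he
    have hnorm : (Cfsg.pCore 2 ↥(Subgroup.centralizer ({z} : Set G))).Normal :=
      Cfsg.Agent.H72.pCore_normal 2 _
    exact ⟨⟨h, hh⟩ * e' * ⟨h, hh⟩⁻¹, hnorm.conj_mem e' he' ⟨h, hh⟩, rfl⟩
  have hzb : ∀ b ∈ E, z * b = b * z := by
    intro b hb
    have h1 := hEH hb
    rw [Subgroup.mem_centralizer_iff] at h1
    exact h1 z rfl
  have hzE : z ∈ E := hcent (by
    rw [Subgroup.mem_centralizer_iff]
    intro b hb
    exact (hzb b hb).symm)
  have hzcen : (⟨z, hzE⟩ : ↥E) ∈ Subgroup.center ↥E := by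
    rw [Subgroup.mem_center_iff]
    intro g
    apply Subtype.ext
    exact (hzb g g.2).symm
  have hcenter : ∀ c : ↥E, c ∈ Subgroup.center ↥E → (c : G) = 1 ∨ (c : G) = z := by
    intro c hc
    obtain ⟨y, hy, huniq⟩ := (Nat.card_eq_two_iff' (1 : ↥(Subgroup.center ↥E))).mp hext.2
    by_cases hc1 : c = 1
    · left; rw [hc1]; rfl
    · right
      have h1 : (⟨c, hc⟩ : ↥(Subgroup.center ↥E)) = y :=
        huniq _ (by intro h; apply hc1; exact congrArg Subtype.val h)
      have h2 : (⟨⟨z, hzE⟩, hzcen⟩ : ↥(Subgroup.center ↥E)) = y :=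
        huniq _ (by
          intro h; apply hz1
          exact congrArg (fun t : ↥(Subgroup.center ↥E) => ((t : ↥E) : G)) h)
      have h3 := h1.trans h2.symm
      exact congrArg (fun t : ↥(Subgroup.center ↥E) => ((t : ↥E) : G)) h3
  have hcomm : ∀ a ∈ E, ∀ b ∈ E, Commute b a ∨ SemiconjBy b a (z * a) := by
    intro a ha b hb
    have h1 := Cfsg.Agent.Helper55.es_comm_mem_center hext ⟨b, hb⟩ ⟨a, ha⟩
    have h2 : (((⟨b, hb⟩ : ↥E) * ⟨a, ha⟩ * (⟨b, hb⟩ : ↥E)⁻¹ * (⟨a, ha⟩ : ↥E)⁻¹ : ↥E) : G) =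
        b * a * b⁻¹ * a⁻¹ := rfl
    rcases hcenter _ h1 with h | h
    · left
      rw [h2] at h
      show b * a = a * b
      calc b * a = (b * a * b⁻¹ * a⁻¹) * (a * b) := by group
        _ = a * b := by rw [h, one_mul]
    · right
      rw [h2] at h
      show b * a = z * a * b
      calc b * a = (b * a * b⁻¹ * a⁻¹) * (a * b) := by group
        _ = z * a * b := by rw [h, mul_assoc]
  have hsq : ∀ a ∈ E, a * a = 1 ∨ a * a = z := by
    intro a ha
    have h1 := Cfsg.Agent.Helper55.es_pow_mem_center hext ⟨a, ha⟩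
    have h2 : (((⟨a, ha⟩ : ↥E) ^ 2 : ↥E) : G) = a * a := by
      rw [pow_two]; rfl
    rcases hcenter _ h1 with h | h
    · left; rw [h2] at h; exact h
    · right; rw [h2] at h; exact h
  have hcen : ∀ a ∈ E, (∀ b ∈ E, Commute a b) → a = 1 ∨ a = z := by
    intro a ha hab
    have h1 : (⟨a, ha⟩ : ↥E) ∈ Subgroup.center ↥E := by
      rw [Subgroup.mem_center_iff]
      intro g
      apply Subtype.ext
      exact ((hab g g.2).eq).symm
    exact hcenter _ h1
  have hcard8 : 8 < Nat.card ↥E := by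
    rw [hcard]
    calc 8 < 2 ^ 5 := by norm_num
      _ ≤ 2 ^ (2 * n + 1) := Nat.pow_le_pow_right (by norm_num) (by omega)
  have hKn' : ∀ h ∈ Subgroup.centralizer ({z} : Set G), ∀ k ∈ K, h⁻¹ * k * h ∈ K := by
    intro h hh k hk
    have h1 := hKn h⁻¹ (Subgroup.inv_mem _ hh)
    rw [← h1]
    exact ⟨k, hk, by simp [MulAut.conj_apply]⟩
  have hG : ∀ f : G →* ℤˣ, ∀ g, f g = 1 := by
    intro f g
    have hker : Cfsg.pResidual 2 G ≤ f.ker := by
      unfold Cfsg.pResidual
      rw [Subgroup.closure_le]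
      intro g hg
      rw [SetLike.mem_coe, MonoidHom.mem_ker]
      have h1 : (f g) ^ (orderOf g) = 1 := by rw [← map_pow, pow_orderOf_eq_one, map_one]
      have h2 : (f g) ^ 2 = 1 := Int.units_sq (f g)
      exact Cfsg.Agent.H26.eq_one_of_pow_coprime h1 h2 hg
    have h3 : g ∈ f.ker := hker (by rw [hres]; trivial)
    exact MonoidHom.mem_ker.mp h3
  exact Cfsg.Agent.H26.LES.es_le_of_index_two z hz1 hzz E K hEH hEn hzE hcomm hsq hcen hcard8
    hcent hKn' hKi hG

end Cfsg.Agent.S3299
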