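import Cfsg.Statements.S3303
import Cfsg.Agent.H60.CyclicInter

set_option autoImplicit false
open Cfsg

namespace Cfsg.Agent.S3303

/-- Let G be a finite solvable group in which the intersection of any two distinct Sylow 2-subgroups is cyclic. Then G/O(G) has a normal Sylow 2-subgroup, where O(G) is the largest normal subgroup of odd order. -/
theorem result {G : Type*} [Group G] [Finite G] (hs : Group.IsSolvable G)
    (hC : ∀ S T : Sylow 2 G, S ≠ T → IsCyclic ↥((S : Subgroup G) ⊓ (T : Subgroup G))) :
    ∃ P : Sylow 2 (G ⧸ Cfsg.oddCore G), (P : Subgroup (G ⧸ Cfsg.oddCore G)).Normal := by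
  have : Fact (Nat.Prime 2) := ⟨Nat.prime_two⟩
  exact Cfsg.Agent.H60.exists_normal_sylow_two_of_cyclic_inter inferInstance
    (Cfsg.Agent.H60.pPrimeCore_quotient_eq_bot 2)
    (Cfsg.Agent.H60.cyclic_sylow_inter_quotient hC (Cfsg.oddCore G))

end Cfsg.Agent.S3303
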