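import Cfsg.Statements.S3305
import Cfsg.Agent.H60.SylowQuot

set_option autoImplicit false
open Cfsg

namespace Cfsg.Agent.S3305

/-- If any two distinct Sylow 2-subgroups of the finite group G intersect in a cyclic group, then the same holds in every quotient group G/H, H a normal subgroup of G. -/
theorem result {G : Type*} [Group G] [Finite G]
    (hC : ∀ S T : Sylow 2 G, S ≠ T → IsCyclic ↥((S : Subgroup G) ⊓ (T : Subgroup G))) (H : Subgroup G) [H.Normal] :
    ∀ S T : Sylow 2 (G ⧸ H), S ≠ T → IsCyclic ↥((S : Subgroup (G ⧸ H)) ⊓ (T : Subgroup (G ⧸ H))) := by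
  intro Sb Tb hne
  haveI : Fact (Nat.Prime 2) := ⟨Nat.prime_two⟩
  obtain ⟨S, T, hS, hT, hST⟩ := Cfsg.Agent.H60.exists_sylow_lift_inf H Sb Tb
  have hne' : S ≠ T := by
    rintro rfl
    apply hne
    apply Sylow.ext
    rw [← hS, ← hT]
  rw [← hST]
  exact Cfsg.Agent.H60.isCyclic_map _ (hC S T hne')

end Cfsg.Agent.S3305
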