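import Cfsg.Statements.S3313
import Cfsg.Agent.H47.J2Core
import Cfsg.Agent.H11.J2D
import Cfsg.Agent.H11.J2E
import Cfsg.Agent.H39.J2G
import Cfsg.Agent.H39.J2I

set_option autoImplicit false
open Cfsg

namespace Cfsg.Agent.S3313

/-- The order of a simple group with the involution pattern of the Hall–Janko group. Let G be a non-abelian finite simple group with exactly two conjugacy classes of involutions, represented by z and t, such that: F*(C_G(z)) is an extraspecial 2-group; Q = O₂(C_G(z)) has order 32 and C_G(z) is the semidirect product of Q by a subgroup isomorphic to A₅; every involution of Q is conjugate to z and every other involution of C_G(z) is conjugate to t; C_G(t) is an internal direct product V × B with V a four-group containing t and B ≅ A₅; every involution of B is conjugate to z and every other involution of C_G(t) is conjugate to t. Then |G| = 604800. -/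
theorem result {G : Type*} [Group G] [Finite G]
    [IsSimpleGroup G] (hna : ¬ IsMulCommutative G) (z t : G) (hz : orderOf z = 2) (ht : orderOf t = 2)
    (hzt : ¬ IsConj z t) (hcl : ∀ x : G, orderOf x = 2 → IsConj x z ∨ IsConj x t)
    (hex : Cfsg.IsExtraspecial 2 ↥(Cfsg.generalizedFittingSubgroup ↥(Subgroup.centralizer ({z} : Set G))))
    (hQ : Nat.card ↥(Cfsg.pCore 2 ↥(Subgroup.centralizer ({z} : Set G))) = 32)
    (K : Subgroup G) (hK : Nonempty (↥K ≃* alternatingGroup (Fin 5)))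
    (hKC : K ⊔ (Cfsg.pCore 2 ↥(Subgroup.centralizer ({z} : Set G))).map (Subgroup.centralizer ({z} : Set G)).subtype = Subgroup.centralizer ({z} : Set G))
    (hKQ : K ⊓ (Cfsg.pCore 2 ↥(Subgroup.centralizer ({z} : Set G))).map (Subgroup.centralizer ({z} : Set G)).subtype = ⊥)
    (hQz : ∀ x ∈ (Cfsg.pCore 2 ↥(Subgroup.centralizer ({z} : Set G))).map (Subgroup.centralizer ({z} : Set G)).subtype, orderOf x = 2 → IsConj x z)
    (hCz : ∀ x ∈ Subgroup.centralizer ({z} : Set G), orderOf x = 2 →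
      x ∉ (Cfsg.pCore 2 ↥(Subgroup.centralizer ({z} : Set G))).map (Subgroup.centralizer ({z} : Set G)).subtype → IsConj x t)
    (V B : Subgroup G) (hVB : Cfsg.IsInternalDirectProduct V B (Subgroup.centralizer ({t} : Set G)))
    (hV : Nat.card ↥V = 4) (hV2 : ∀ v ∈ V, v ^ 2 = 1) (htV : t ∈ V) (hB : Nonempty (↥B ≃* alternatingGroup (Fin 5)))
    (hBz : ∀ x ∈ B, orderOf x = 2 → IsConj x z)
    (hCt : ∀ x ∈ Subgroup.centralizer ({t} : Set G), orderOf x = 2 → x ∉ B → IsConj x t) :
    Nat.card G = 604800 := by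
  have hES := Cfsg.Agent.H47.J2Core.setup z hz hex
  have hQ32 := (Cfsg.Agent.H47.J2Core.card_map_subtype _ _).trans hQ
  obtain ⟨Q, hQdef⟩ : ∃ Q : Subgroup G, Q = (Cfsg.pCore 2 ↥(Subgroup.centralizer ({z} : Set G))).map
    (Subgroup.centralizer ({z} : Set G)).subtype := ⟨_, rfl⟩
  rw [← hQdef] at hES hQ32 hKC hKQ hQz hCz
  obtain ⟨eK⟩ := hK
  obtain ⟨eB⟩ := hB
  have hKle : K ≤ Subgroup.centralizer ({z} : Set G) := hKC ▸ le_sup_left
  have hKz : ∀ k ∈ K, k * z = z * k := fun k hk =>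
    Subgroup.mem_centralizer_singleton_iff.mp (hKle hk)
  have hCz1920 : Nat.card ↥(Subgroup.centralizer ({z} : Set G)) = 1920 := by
    rw [← hKC, Cfsg.Agent.H47.J2Core.card_sup_of_normalizes K Q hKQ
      (fun k hk q hq => hES.norm k (hKz k hk) q hq),
      Cfsg.Agent.H47.J2A5.a5_card eK, hQ32]
  have hCt240 : Nat.card ↥(Subgroup.centralizer ({t} : Set G)) = 240 := by
    rw [← hVB.2.2.2.2, Cfsg.Agent.H47.J2Core.card_sup_of_normalizes V B hVB.2.2.2.1
      (fun v hv b hb => by
        rw [hVB.2.2.1 v hv b hb, mul_assoc, mul_inv_cancel, mul_one]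
        exact hb), hV, Cfsg.Agent.H47.J2A5.a5_card eB]
  have hat := Cfsg.Agent.H11.J2.at_count z t hz ht hzt V B hVB hV2 htV ⟨eB⟩ hBz hCt
  obtain ⟨g0, hg0⟩ := Cfsg.Agent.H47.J2A5.a5_five eK
  have hg : orderOf (g0 : G) = 5 := by rw [Subgroup.orderOf_coe]; exact hg0
  have hJ := Cfsg.Agent.H39.J2.es32_invol hES hQ32
    (fun s hs hs1 hsz => Cfsg.Agent.H26.ES32.es32_card_centralizer hES hQ32 hs hs1 hsz)
    (Cfsg.Agent.H26.ES32.es32_card_sq_one hES hQ32) (g0 : G) hg (hKz _ g0.2)
  have hY := Cfsg.Agent.H47.J2Core.card_Y z t hz hzt hCz1920 hCt240 V B hVB eB hBz hCt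
  have hfib : ∀ y : G, IsConj t y → y * z = z * y →
      Nat.card {x : G // x ∈ Q ∧ orderOf x = 2 ∧ z ∈ Subgroup.zpowers (x * y)} = 8 := by
    intro y hy hyz
    have hE := Cfsg.Agent.H11.J2.card_centralizer_inv z t hz ht hzt Q hQz hCz hES.z_central
      V B hVB hV2 ⟨eB⟩ hBz hCt y hy hyz
    have hy2 : orderOf y = 2 := by rw [Cfsg.Agent.H47.J2Core.orderOf_conj_eq hy, ht]
    have hyQ : y ∉ Q := fun hyQ => hzt ((hQz y hyQ hy2).symm.trans hy.symm)
    exact Cfsg.Agent.H39.J2.f8_count hES hJ.1 hJ.2 y hy2 hyz hyQ hE.1 hE.2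
  have haz := Cfsg.Agent.H47.J2Core.az_count z t hz ht hzt Q hQz hCz hY hfib
  have hT := Cfsg.Agent.S0213.result z t hz ht hzt
    (fun x hx => (hcl x hx).imp IsConj.symm IsConj.symm)
  rw [hT, hCt240, hCz1920, haz, hat]

end Cfsg.Agent.S3313
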