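import Cfsg.Statements.S3366
import Cfsg.Agent.H83.PCDefs
import Cfsg.Agent.H83.PCTop
import Cfsg.Agent.H83.PCCard
import Cfsg.Agent.H83.PCInv
import Cfsg.Agent.H79.PCZC
import Cfsg.Agent.H27.PCCR
import Cfsg.Agent.H1.PCY
import Cfsg.Agent.H71.PCCompl
import Cfsg.Agent.H13.PCCoord
import Cfsg.Agent.H87.PCIso
import Cfsg.Agent.H53.PCStab
import Cfsg.Agent.H84.PCCent
import Cfsg.Agent.H24.PCOrd
import Cfsg.Agent.H24.PCTrans

set_option autoImplicit false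
open Cfsg

namespace Cfsg.Agent.S3366

/-- Let X be a finite group with O₃(X) extraspecial of order 27 and exponent 3, X/O₃(X) isomorphic to SL(2,3), O₂(X) = 1, and a Sylow 3-subgroup of X containing an elementary abelian subgroup of order 27. Then X is isomorphic to the centralizer in PSp(4,3) of a 3-central element of order 3 (an element of order 3 in the centre of a Sylow 3-subgroup). -/
theorem result {X : Type*} [Group X] [Finite X]
    (hR : Cfsg.IsExtraspecial 3 (Cfsg.pCore 3 X)) (hRcard : Nat.card (Cfsg.pCore 3 X) = 27)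
    (hRexp : ∀ r ∈ Cfsg.pCore 3 X, r ^ 3 = 1)
    (e : X ⧸ Cfsg.pCore 3 X ≃* Matrix.SpecialLinearGroup (Fin 2) (ZMod 3))
    (hO2 : Cfsg.pCore 2 X = ⊥)
    (hE : ∃ E : Subgroup X, IsMulCommutative E ∧ (∀ a ∈ E, a ^ 3 = 1) ∧ Nat.card E = 27)
    (F : Type*) [Field F] [Fintype F] (hF : Fintype.card F = 3) :
    ∃ (c : Cfsg.PSp 2 F) (S : Sylow 3 (Cfsg.PSp 2 F)), orderOf c = 3 ∧ c ∈ (S : Subgroup (Cfsg.PSp 2 F)) ∧
      c ∈ Subgroup.centralizer ((S : Subgroup (Cfsg.PSp 2 F)) : Set (Cfsg.PSp 2 F)) ∧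
      Nonempty (X ≃* Subgroup.centralizer ({c} : Set (Cfsg.PSp 2 F))) := by
  exact Cfsg.Agent.H83.PC.main_of_pieces Cfsg.Agent.H83.PC.inv
    (Cfsg.Agent.H1.PC.y Cfsg.Agent.H79.PC.zc)
    (Cfsg.Agent.H71.PC.compl Cfsg.Agent.H79.PC.zc (Cfsg.Agent.H27.PC.cr Cfsg.Agent.H83.PC.inv))
    Cfsg.Agent.H13.PC.coord Cfsg.Agent.H87.PC.iso Cfsg.Agent.H83.PC.card Cfsg.Agent.H53.PC.stab
    Cfsg.Agent.H84.PC.cent Cfsg.Agent.H83.PC.syl Cfsg.Agent.H24.PC.ord Cfsg.Agent.H24.PC.trans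
    hR hRcard hRexp e hO2 hE F hF

end Cfsg.Agent.S3366
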