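import Cfsg.Statements.S3389

set_option autoImplicit false
open Cfsg

namespace Cfsg.Agent.S3389

open MulAction in
/-- A finite group acting freely on a finite set has order dividing the size of the set. -/
theorem card_dvd_of_free {Z X : Type*} [Group Z] [MulAction Z X]
    (hfree : ∀ (z : Z) (x : X), z • x = x → z = 1) : Nat.card Z ∣ Nat.card X := by
  have h : ∀ b : X, MulAction.stabilizer Z b = ⊥ := by
    intro b
    rw [eq_bot_iff]
    intro z hz
    rw [Subgroup.mem_bot]
    exact hfree z b hz
  have e := MulAction.selfEquivOrbitsQuotientProd h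
  rw [Nat.card_congr e, Nat.card_prod]
  exact Dvd.intro_left _ rfl

/-- the fixed points of the cyclic group generated by `y` are the points fixed by `y`. -/
theorem fixedPoints_zpowers_eq {G Ω : Type*} [Group G] [MulAction G Ω] (y : G) :
    MulAction.fixedPoints (Subgroup.zpowers y) Ω = MulAction.fixedBy Ω y := by
  ext ω
  simp only [MulAction.mem_fixedPoints, MulAction.mem_fixedBy]
  constructor
  · intro h
    exact h ⟨y, Subgroup.mem_zpowers y⟩
  · intro h q
    have hle : Subgroup.zpowers y ≤ MulAction.stabilizer G ω :=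
      Subgroup.zpowers_le.2 (MulAction.mem_stabilizer_iff.2 h)
    exact MulAction.mem_stabilizer_iff.1 (hle q.2)

/-- Let G be a finite group acting faithfully and transitively on a finite set Ω with fixity k ≥ 1: every non-identity element fixes at most k points and some non-identity element fixes exactly k points. Then |Z(G)| divides k; if k = 2 then |G| is even; and for every prime p > k dividing |G| and every point α, either p does not divide |G_α| or G_α contains a Sylow p-subgroup of G. -/
theorem result {G : Type*} [Group G] [Finite G] {Ω : Type*} [Fintype Ω] [MulAction G Ω] [FaithfulSMul G Ω]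
    (htr : MulAction.IsPretransitive G Ω) (k : ℕ) (hk : 1 ≤ k)
    (hfix : ∀ g : G, g ≠ 1 → Nat.card (MulAction.fixedBy Ω g) ≤ k) (hex : ∃ g : G, g ≠ 1 ∧ Nat.card (MulAction.fixedBy Ω g) = k) :
    Nat.card (Subgroup.center G) ∣ k ∧ (k = 2 → 2 ∣ Nat.card G) ∧
      ∀ (p : ℕ), p.Prime → k < p → p ∣ Nat.card G → ∀ α : Ω,
        ¬ p ∣ Nat.card (MulAction.stabilizer G α) ∨ ¬ p ∣ (MulAction.stabilizer G α).index := by
  -- an element fixing one point and centralising a transitive group... central elements act freely
  have hcentral : ∀ z : G, z ∈ Subgroup.center G → ∀ ω : Ω, z • ω = ω → z = 1 := by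
    intro z hz ω hω
    apply FaithfulSMul.eq_of_smul_eq_smul (α := Ω)
    intro ω'
    obtain ⟨h, rfl⟩ := MulAction.exists_smul_eq G ω ω'
    rw [one_smul, smul_smul, ← (Subgroup.mem_center_iff.1 hz h), ← smul_smul, hω]
  -- general fact: prime-order element fixed points mod p
  have hmod : ∀ (p : ℕ), p.Prime → ∀ y : G, orderOf y = p →
      Nat.card Ω ≡ Nat.card (MulAction.fixedBy Ω y) [MOD p] := by
    intro p hp y hy
    have := Fact.mk hp
    have hQ : IsPGroup p (Subgroup.zpowers y) := by
      apply IsPGroup.of_card (n := 1)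
      rw [Nat.card_zpowers, hy, pow_one]
    have := hQ.card_modEq_card_fixedPoints Ω
    rwa [fixedPoints_zpowers_eq] at this
  refine ⟨?_, ?_, ?_⟩
  · -- the centre acts freely on the fixed points of g
    obtain ⟨g, hg1, hgk⟩ := hex
    rw [← hgk]
    letI : MulAction (Subgroup.center G) (MulAction.fixedBy Ω g) :=
      { smul := fun z ω => ⟨(z : G) • (ω : Ω), by
          have hω : g • (ω : Ω) = ω := ω.2
          show g • ((z : G) • (ω : Ω)) = (z : G) • (ω : Ω)
          rw [smul_smul, (Subgroup.mem_center_iff.1 z.2 g), ← smul_smul, hω]⟩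
        one_smul := by
          intro ω
          apply Subtype.ext
          show ((1 : Subgroup.center G) : G) • (ω : Ω) = ω
          simp
        mul_smul := by
          intro a b ω
          apply Subtype.ext
          show ((a * b : Subgroup.center G) : G) • (ω : Ω) = (a : G) • ((b : G) • (ω : Ω))
          simp [mul_smul] }
    apply card_dvd_of_free
    intro z ω hzω
    have h1 : (z : G) • (ω : Ω) = ω := congrArg Subtype.val hzω
    have := hcentral z z.2 ω h1
    exact Subtype.ext this
  · -- k = 2 implies even order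
    intro hk2
    subst hk2
    by_contra hodd
    obtain ⟨g, hg1, hg2⟩ := hex
    have hog : orderOf g ≠ 1 := by
      intro h
      exact hg1 (orderOf_eq_one_iff.1 h)
    have hogpos : 0 < orderOf g := orderOf_pos g
    set p := (orderOf g).minFac with hpdef
    have hp : p.Prime := Nat.minFac_prime hog
    have := Fact.mk hp
    have hpdvd : p ∣ orderOf g := Nat.minFac_dvd _
    have hpG : p ∣ Nat.card G := hpdvd.trans (orderOf_dvd_natCard g)
    have hp2 : p ≠ 2 := by
      intro h
      exact hodd (h ▸ hpG)
    have hp3 : 3 ≤ p := by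
      have := hp.two_le
      omega
    -- x of order p with exactly two fixed points
    set x := g ^ (orderOf g / p) with hxdef
    have hxord : orderOf x = p := orderOf_pow_orderOf_div hogpos.ne' hpdvd
    have hx1 : x ≠ 1 := by
      intro h
      rw [h, orderOf_one] at hxord
      exact hp.one_lt.ne hxord
    have hsub : MulAction.fixedBy Ω g ⊆ MulAction.fixedBy Ω x := by
      intro ω hω
      rw [MulAction.mem_fixedBy] at hω ⊢
      have hle : Subgroup.zpowers g ≤ MulAction.stabilizer G ω :=
        Subgroup.zpowers_le.2 (MulAction.mem_stabilizer_iff.2 hω)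
      exact MulAction.mem_stabilizer_iff.1 (hle (Subgroup.npow_mem_zpowers g _))
    have hx2 : Nat.card (MulAction.fixedBy Ω x) = 2 := by
      apply le_antisymm (hfix x hx1)
      rw [← hg2]
      exact Nat.card_mono (Set.toFinite _) hsub
    have hΩ2 : Nat.card Ω ≡ 2 [MOD p] := by
      have := hmod p hp x hxord
      rwa [hx2] at this
    -- a Sylow p-subgroup containing x
    have hQ : IsPGroup p (Subgroup.zpowers x) := by
      apply IsPGroup.of_card (n := 1)
      rw [Nat.card_zpowers, hxord, pow_one]
    obtain ⟨P, hP⟩ := hQ.exists_le_sylow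
    have hxP : x ∈ (P : Subgroup G) := hP (Subgroup.mem_zpowers x)
    have hPfix : MulAction.fixedPoints (P : Subgroup G) Ω ⊆ MulAction.fixedBy Ω x := by
      intro ω hω
      rw [MulAction.mem_fixedPoints] at hω
      exact hω ⟨x, hxP⟩
    have hPcard_le : Nat.card (MulAction.fixedPoints (P : Subgroup G) Ω) ≤ 2 := by
      rw [← hx2]
      exact Nat.card_mono (Set.toFinite _) hPfix
    have hPmod : Nat.card Ω ≡ Nat.card (MulAction.fixedPoints (P : Subgroup G) Ω) [MOD p] :=
      P.isPGroup'.card_modEq_card_fixedPoints Ω
    have hPcard : Nat.card (MulAction.fixedPoints (P : Subgroup G) Ω) = 2 := by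
      have h1 : Nat.card (MulAction.fixedPoints (P : Subgroup G) Ω) ≡ 2 [MOD p] :=
        hPmod.symm.trans hΩ2
      have h2 := (Nat.modEq_iff_dvd' hPcard_le).1 h1
      by_contra hne
      have h3 : 0 < 2 - Nat.card (MulAction.fixedPoints (P : Subgroup G) Ω) := by omega
      have := Nat.le_of_dvd h3 h2
      omega
    -- the two fixed points
    obtain ⟨a, b, hab, huniv⟩ := Nat.card_eq_two_iff.1 hPcard
    have hfixmem : ∀ ω : Ω, ω ∈ MulAction.fixedPoints (P : Subgroup G) Ω → ω = a ∨ ω = b := by
      intro ω hω
      have : (⟨ω, hω⟩ : MulAction.fixedPoints (P : Subgroup G) Ω) ∈ ({a, b} : Set _) := by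
        rw [huniv]; trivial
      rcases this with h | h
      · left; exact congrArg Subtype.val h
      · right; exact congrArg Subtype.val h
    have hαβ : (a : Ω) ≠ b := fun h => hab (Subtype.ext h)
    obtain ⟨h, hh⟩ := MulAction.exists_smul_eq G (a : Ω) (b : Ω)
    -- P and h • P are both contained in the stabilizer of b
    have h1 : (P : Subgroup G) ≤ MulAction.stabilizer G (b : Ω) := by
      intro y hy
      rw [MulAction.mem_stabilizer_iff]
      have := b.2
      rw [MulAction.mem_fixedPoints] at this
      exact this ⟨y, hy⟩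
    have h2 : ((h • P : Sylow p G) : Subgroup G) ≤ MulAction.stabilizer G (b : Ω) := by
      intro y hy
      rw [Sylow.smul_def, Sylow.pointwise_smul_def, Subgroup.mem_pointwise_smul_iff_inv_smul_mem] at hy
      rw [MulAction.mem_stabilizer_iff]
      have hy' : h⁻¹ * y * h ∈ (P : Subgroup G) := by
        simpa [MulAut.smul_def] using hy
      have ha := a.2
      rw [MulAction.mem_fixedPoints] at ha
      have := ha ⟨h⁻¹ * y * h, hy'⟩
      have e : (h⁻¹ * y * h) • (a : Ω) = a := this
      rw [← hh]
      calc y • h • (a : Ω) = h • ((h⁻¹ * y * h) • (a : Ω)) := by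
            simp [smul_smul, mul_assoc]
        _ = h • (a : Ω) := by rw [e]
    obtain ⟨c, hc⟩ :=
      MulAction.exists_smul_eq (MulAction.stabilizer G (b : Ω)) ((h • P).subtype h2) (P.subtype h1)
    simp_rw [Sylow.smul_subtype, Subgroup.smul_def, smul_smul] at hc
    have hn : (c : G) * h ∈ Subgroup.normalizer ((P : Subgroup G) : Set G) :=
      Sylow.smul_eq_iff_mem_normalizer.mp (Sylow.subtype_injective hc)
    set n : G := (c : G) * h with hndef
    have hna : n • (a : Ω) = b := by
      rw [hndef, mul_smul, hh]
      exact MulAction.mem_stabilizer_iff.1 c.2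
    -- n preserves the fixed points of P
    have hnfix : ∀ ω : Ω, ω ∈ MulAction.fixedPoints (P : Subgroup G) Ω →
        n • ω ∈ MulAction.fixedPoints (P : Subgroup G) Ω := by
      intro ω hω
      rw [MulAction.mem_fixedPoints] at hω ⊢
      rintro ⟨y, hy⟩
      show y • n • ω = n • ω
      have hy' : n⁻¹ * y * n ∈ (P : Subgroup G) := by
        have hn' : n⁻¹ ∈ Subgroup.normalizer ((P : Subgroup G) : Set G) := inv_mem hn
        have := (Subgroup.mem_normalizer_iff.1 hn' y).1 hy
        simpa using this
      have e : (n⁻¹ * y * n) • ω = ω := hω ⟨_, hy'⟩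
      calc y • n • ω = n • ((n⁻¹ * y * n) • ω) := by simp [smul_smul, mul_assoc]
        _ = n • ω := by rw [e]
    have hnb : n • (b : Ω) = a := by
      rcases hfixmem _ (hnfix b b.2) with h | h
      · exact h
      · exfalso
        have : n • (b : Ω) = n • (a : Ω) := by rw [h, hna]
        exact hαβ (smul_left_cancel n this).symm
    -- powers of n
    have hpow : ∀ m : ℕ, (n ^ (2 * m)) • (a : Ω) = a ∧ (n ^ (2 * m + 1)) • (a : Ω) = b := by
      intro m
      induction m with
      | zero => simp [hna]
      | succ m ih =>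
        have e1 : (n ^ (2 * (m + 1))) • (a : Ω) = a := by
          have : 2 * (m + 1) = (2 * m + 1) + 1 := by ring
          rw [this, pow_succ', mul_smul, ih.2, hnb]
        refine ⟨e1, ?_⟩
        have : 2 * (m + 1) + 1 = (2 * (m + 1)) + 1 := rfl
        rw [pow_succ', mul_smul, e1, hna]
    have hneven : 2 ∣ orderOf n := by
      by_contra hno
      have : orderOf n % 2 = 1 := by omega
      obtain ⟨m, hm⟩ : ∃ m, orderOf n = 2 * m + 1 := ⟨orderOf n / 2, by omega⟩
      have h1 := (hpow m).2
      rw [← hm, pow_orderOf_eq_one, one_smul] at h1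
      exact hαβ h1
    exact hodd (hneven.trans (orderOf_dvd_natCard n))
  · intro p hp hkp hpG α
    by_contra hcon
    rw [not_or, not_not, not_not] at hcon
    obtain ⟨h1, h2⟩ := hcon
    have := Fact.mk hp
    obtain ⟨x, hx⟩ := exists_prime_orderOf_dvd_card' p h1
    have hy : orderOf (x : G) = p := by rw [Subgroup.orderOf_coe, hx]
    have hy1 : (x : G) ≠ 1 := by
      intro h
      rw [h, orderOf_one] at hy
      exact hp.one_lt.ne hy
    have hmodp := hmod p hp (x : G) hy
    have hΩ : Nat.card Ω = (MulAction.stabilizer G α).index :=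
      (MulAction.index_stabilizer_of_transitive (G := G) (x := α)).symm
    have hdvd : p ∣ Nat.card (MulAction.fixedBy Ω (x : G)) := by
      rw [← Nat.modEq_zero_iff_dvd]
      exact hmodp.symm.trans (by rw [Nat.modEq_zero_iff_dvd, hΩ]; exact h2)
    have hαmem : α ∈ MulAction.fixedBy Ω (x : G) := by
      rw [MulAction.mem_fixedBy]
      exact MulAction.mem_stabilizer_iff.1 x.2
    have hpos : 0 < Nat.card (MulAction.fixedBy Ω (x : G)) := by
      have : Nonempty (MulAction.fixedBy Ω (x : G)) := ⟨⟨α, hαmem⟩⟩
      exact Nat.card_pos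
    have := Nat.le_of_dvd hpos hdvd
    have := hfix (x : G) hy1
    omega

end Cfsg.Agent.S3389
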