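import Cfsg.Statements.S3498

set_option autoImplicit false
open Cfsg

namespace Cfsg.Agent.S3498

theorem not_isPGroup_of_simple_noncomm {T : Type*} [Group T] [Finite T] [IsSimpleGroup T]
    (hTc : ¬ IsMulCommutative T) (r : ℕ) [Fact r.Prime] : ¬ IsPGroup r T := by
  intro h
  have hnt : Nontrivial (Subgroup.center T) := h.center_nontrivial
  have hc : Subgroup.center T = ⊤ := by
    rcases IsSimpleGroup.eq_bot_or_eq_top_of_normal (Subgroup.center T) inferInstance with h0 | h0
    · exfalso
      rw [Subgroup.nontrivial_iff_ne_bot] at hnt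
      exact hnt h0
    · exact h0
  apply hTc
  refine IsMulCommutative.of_comm (fun a b => ?_)
  have hb : b ∈ Subgroup.center T := hc ▸ Subgroup.mem_top b
  exact (Subgroup.mem_center_iff.1 hb a)

theorem le_normalizer_of_conj_mem {G : Type*} [Group G] (H R : Subgroup G)
    (h : ∀ a ∈ H, ∀ x ∈ R, a * x * a⁻¹ ∈ R) : H ≤ Subgroup.normalizer (R : Set G) := by
  intro a ha
  rw [Subgroup.mem_normalizer_iff]
  intro x
  constructor
  · exact h a ha x
  · intro hx
    have := h a⁻¹ (inv_mem ha) _ hx
    simpa [mul_assoc] using this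

/-- Claim 0: an `H`-invariant subgroup of `T` is trivial or `T`. -/
theorem invariant_subgroup {G : Type*} [Group G] (T H : Subgroup G) (hmax : IsCoatom H)
    (hHT : H ⊓ T = ⊥) (R : Subgroup G) (hRT : R ≤ T)
    (hRn : H ≤ Subgroup.normalizer (R : Set G)) : R = ⊥ ∨ R = T := by
  by_cases hRH : R ⊔ H = H
  · left
    have h1 : R ≤ H := by rw [← hRH]; exact le_sup_left
    rw [eq_bot_iff, ← hHT]
    exact le_inf h1 hRT
  · right
    have htop : R ⊔ H = ⊤ := hmax.2 _ (lt_of_le_of_ne le_sup_right (Ne.symm hRH))
    apply le_antisymm hRT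
    intro t ht
    have hmem : t ∈ ((R ⊔ H : Subgroup G) : Set G) := by rw [htop]; trivial
    rw [Subgroup.coe_mul_of_right_le_normalizer_left R H hRn] at hmem
    obtain ⟨r, hr, h, hh, rfl⟩ := hmem
    have hhT : h ∈ T := by
      have h5 : h = r⁻¹ * (r * h) := by group
      rw [h5]
      exact mul_mem (inv_mem (hRT hr)) ht
    have hh1 : h ∈ H ⊓ T := ⟨hh, hhT⟩
    rw [hHT, Subgroup.mem_bot] at hh1
    subst hh1
    simpa using hr

theorem normal_cases {G : Type*} [Group G] (T : Subgroup G) (hT : IsSimpleGroup T)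
    (K : Subgroup G) (hK : K.Normal) : K ⊓ T = ⊥ ∨ T ≤ K := by
  have hn : (K.subgroupOf T).Normal := inferInstance
  rcases hT.eq_bot_or_eq_top_of_normal (K.subgroupOf T) hn with h | h
  · left
    rw [Subgroup.subgroupOf_eq_bot] at h
    exact h.eq_bot
  · right
    rwa [Subgroup.subgroupOf_eq_top] at h

theorem prime_card_comm {G : Type*} [Group G] (H : Subgroup G) (hp : (Nat.card H).Prime) :
    ∀ a ∈ H, ∀ b ∈ H, a * b = b * a := by
  have : Fact (Nat.card H).Prime := ⟨hp⟩
  have hc : IsCyclic H := isCyclic_of_prime_card (p := Nat.card H) rfl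
  intro a ha b hb
  have h1 := (IsCyclic.isMulCommutative (α := H)).is_comm.comm ⟨a, ha⟩ ⟨b, hb⟩
  exact congrArg Subtype.val h1

theorem prime_card_ne_bot {G : Type*} [Group G] (H : Subgroup G) (hp : (Nat.card H).Prime) :
    H ≠ ⊥ := by
  intro h
  rw [h, Subgroup.card_bot] at hp
  exact Nat.not_prime_one hp

theorem caseA {G : Type*} [Group G] [Finite G] (T : Subgroup G) (hT : IsSimpleGroup T)
    (hTc : ¬ IsMulCommutative T) (hTtop : T = ⊤)
    (H : Subgroup G) (hmax : IsCoatom H) (hp : (Nat.card H).Prime) : False := by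
  have : Fact (Nat.card H).Prime := ⟨hp⟩
  have hnormal : ∀ K : Subgroup G, K.Normal → K = ⊥ ∨ K = ⊤ := by
    intro K hK
    rcases normal_cases T hT K hK with h | h
    · left
      rw [hTtop, inf_top_eq] at h
      exact h
    · right
      rw [hTtop] at h
      exact top_le_iff.1 h
  have hHpg : IsPGroup (Nat.card H) H := IsPGroup.of_card (n := 1) (by rw [pow_one])
  obtain ⟨P, hHP⟩ := hHpg.exists_le_sylow
  have hPH : (P : Subgroup G) = H := by
    by_contra hne
    have h1 : (P : Subgroup G) = ⊤ := hmax.2 _ (lt_of_le_of_ne hHP (Ne.symm hne))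
    have hpg : IsPGroup (Nat.card H) T := by
      rw [hTtop, ← h1]
      exact P.2
    exact not_isPGroup_of_simple_noncomm hTc _ hpg
  have hHne : H ≠ ⊥ := prime_card_ne_bot H hp
  have hHcomm := prime_card_comm H hp
  have hNP : Subgroup.normalizer (P : Set G) = H := by
    by_contra hne
    have hle : H ≤ Subgroup.normalizer (P : Set G) := by
      intro a ha
      have h5 : a ∈ (P : Subgroup G) := by rw [hPH]; exact ha
      exact Subgroup.le_normalizer h5
    have htop : Subgroup.normalizer (P : Set G) = ⊤ := hmax.2 _ (lt_of_le_of_ne hle (Ne.symm hne))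
    have hn : (P : Subgroup G).Normal := Subgroup.normalizer_eq_top_iff.1 htop
    rcases hnormal _ hn with h | h
    · exact hHne (hPH.symm.trans h)
    · exact hmax.1 (hPH.symm.trans h)
  have hP : Subgroup.normalizer (P : Set G) ≤ Subgroup.centralizer (P : Set G) := by
    rw [hNP]
    intro a ha
    rw [Subgroup.mem_centralizer_iff]
    intro b hb
    have hb' : b ∈ H := by rw [← hPH]; exact hb
    exact hHcomm b hb' a ha
  have hcomp := MonoidHom.ker_transferSylow_isComplement' P hP
  rcases hnormal _ (MonoidHom.normal_ker (MonoidHom.transferSylow P hP)) with h | h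
  · have h2 := hcomp.sup_eq_top
    rw [h, bot_sup_eq, hPH] at h2
    exact hmax.1 h2
  · have h2 := hcomp.disjoint.eq_bot
    rw [h, top_inf_eq, hPH] at h2
    exact hHne h2

theorem caseB {G : Type*} [Group G] [Finite G] (T : Subgroup G) [T.Normal] (hT : IsSimpleGroup T)
    (hTc : ¬ IsMulCommutative T) (hC : Subgroup.centralizer (T : Set G) = ⊥)
    (H : Subgroup G) (hmax : IsCoatom H) (hp : (Nat.card H).Prime) (hHT : H ⊓ T = ⊥) : False := by
  have : Fact (Nat.card H).Prime := ⟨hp⟩
  have hHpg : IsPGroup (Nat.card H) H := IsPGroup.of_card (n := 1) (by rw [pow_one])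
  have hHne : H ≠ ⊥ := prime_card_ne_bot H hp
  have hclaim := fun R hRT hRn => invariant_subgroup T H hmax hHT R hRT hRn
  -- the action of H on T
  let f : H →* ConjAct G := (ConjAct.toConjAct (G := G)).toMonoidHom.comp H.subtype
  let _ : MulDistribMulAction H T := MulDistribMulAction.compHom T f
  have hsmul : ∀ (h : H) (t : T), ((h • t : T) : G) = h * t * (h : G)⁻¹ := by
    intro h t
    rfl
  by_cases hpT : Nat.card H ∣ Nat.card T
  · -- fixed point
    have h1 : (1 : T) ∈ MulAction.fixedPoints H T := fun h => smul_one h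
    obtain ⟨t, ht, ht1⟩ := hHpg.exists_fixed_point_of_prime_dvd_card_of_fixed_point T hpT h1
    let R : Subgroup G := T ⊓ Subgroup.centralizer (H : Set G)
    have hRn : H ≤ Subgroup.normalizer (R : Set G) := by
      apply le_normalizer_of_conj_mem
      intro a ha x hx
      have hx' := hx
      rw [Subgroup.mem_inf] at hx'
      obtain ⟨hxT, hxC⟩ := hx'
      have h5 : a * x * a⁻¹ = x := by
        have h6 := hxC
        rw [Subgroup.mem_centralizer_iff] at h6
        rw [h6 a ha]
        group
      rw [h5]
      exact hx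
    have htR : (t : G) ∈ R := by
      rw [Subgroup.mem_inf]
      refine ⟨t.2, ?_⟩
      rw [Subgroup.mem_centralizer_iff]
      intro a ha
      have h5 := ht ⟨a, ha⟩
      have h6 := congrArg Subtype.val h5
      rw [hsmul] at h6
      have h7 : a * (t : G) = a * t * a⁻¹ * a := by group
      rw [h7]
      exact congrArg (· * a) h6
    rcases hclaim R inf_le_left hRn with h | h
    · rw [h, Subgroup.mem_bot] at htR
      exact ht1 (Subtype.ext htR.symm)
    · have hTC : T ≤ Subgroup.centralizer (H : Set G) := by
        rw [← h]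
        exact inf_le_right
      apply hHne
      rw [eq_bot_iff, ← hC]
      intro a ha
      rw [Subgroup.mem_centralizer_iff]
      intro b hb
      have h5 := hTC hb
      rw [Subgroup.mem_centralizer_iff] at h5
      exact (h5 a ha).symm
  · -- Sylow
    have hnt : Nontrivial T := hT.toNontrivial
    have hTcard : Nat.card T ≠ 1 := by
      intro h
      have := (Nat.card_eq_one_iff_unique.1 h).1
      exact not_subsingleton T this
    obtain ⟨r, hr, hrT⟩ := Nat.exists_prime_and_dvd hTcard
    have : Fact r.Prime := ⟨hr⟩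
    have hcard : ¬ Nat.card H ∣ Nat.card (Sylow r T) := by
      intro h
      obtain ⟨P0⟩ := (inferInstance : Nonempty (Sylow r T))
      exact hpT (h.trans ((Sylow.card_dvd_index P0).trans (Subgroup.index_dvd_card _)))
    obtain ⟨R0, hR0⟩ := hHpg.nonempty_fixed_point_of_prime_not_dvd_card (Sylow r T) hcard
    let R : Subgroup G := (R0 : Subgroup T).map T.subtype
    have hRT : R ≤ T := Subgroup.map_subtype_le _
    have hRn : H ≤ Subgroup.normalizer (R : Set G) := by
      apply le_normalizer_of_conj_mem
      rintro a ha _ ⟨y, hy, rfl⟩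
      have h1 := hR0 ⟨a, ha⟩
      have h2 : (⟨a, ha⟩ : H) • y ∈ (((⟨a, ha⟩ : H) • R0 : Sylow r T) : Subgroup T) := by
        rw [Sylow.pointwise_smul_def]
        exact Subgroup.smul_mem_pointwise_smul _ _ _ hy
      rw [h1] at h2
      exact ⟨_, h2, hsmul _ _⟩
    rcases hclaim R hRT hRn with h | h
    · have h5 := Sylow.ne_bot_of_dvd_card R0 hrT
      apply h5
      rwa [Subgroup.map_eq_bot_iff_of_injective _ T.subtype_injective] at h
    · have hR0top : (R0 : Subgroup T) = ⊤ := by
        rw [eq_top_iff]
        intro t _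
        have h5 : (t : G) ∈ R := by rw [h]; exact t.2
        obtain ⟨y, hy, hyt⟩ := h5
        have h6 : y = t := Subtype.ext hyt
        rw [← h6]
        exact hy
      have hpg : IsPGroup r T := by
        have h5 := R0.2
        rw [hR0top] at h5
        exact IsPGroup.of_equiv h5 Subgroup.topEquiv
      exact not_isPGroup_of_simple_noncomm hTc r hpg

/-- A maximal subgroup of a finite almost simple group does not have prime order. Here G is almost simple in the sense that it has a non-abelian simple normal subgroup T with trivial centralizer. -/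
theorem result {G : Type*} [Group G] [Finite G] (T : Subgroup G) [T.Normal] (hT : IsSimpleGroup T) (hTc : ¬ IsMulCommutative T)
    (hC : Subgroup.centralizer (T : Set G) = ⊥) (H : Subgroup G) (hmax : IsCoatom H) : ¬ (Nat.card H).Prime := by
  intro hp
  have hsup : T ⊔ H = ⊤ := by
    by_contra hne
    have hTH : T ⊔ H = H := by
      by_contra h2
      exact hne (hmax.2 _ (lt_of_le_of_ne le_sup_right (Ne.symm h2)))
    have hTleH : T ≤ H := by
      rw [← hTH]
      exact le_sup_left
    apply hTc
    refine IsMulCommutative.of_comm (fun a b => ?_)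
    have h5 := prime_card_comm H hp a (hTleH a.2) b (hTleH b.2)
    exact Subtype.ext h5
  have hdvd : Nat.card (H ⊓ T : Subgroup G) ∣ Nat.card H := Subgroup.card_dvd_of_le inf_le_left
  rcases (Nat.dvd_prime hp).1 hdvd with h1 | h1
  · exact caseB T hT hTc hC H hmax hp (Subgroup.card_eq_one.1 h1)
  · have hHT : H ≤ T := by
      have h5 : H ⊓ T = H := Subgroup.eq_of_le_of_card_ge inf_le_left (le_of_eq h1.symm)
      rw [← h5]
      exact inf_le_right
    have hTtop : T = ⊤ := by
      rw [← hsup]
      exact (sup_eq_left.2 hHT).symm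
    exact caseA T hT hTc hTtop H hmax hp

end Cfsg.Agent.S3498
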