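import Cfsg.Statements.S3504

set_option autoImplicit false
open Cfsg

namespace Cfsg.Agent.S3504

open Equiv

theorem cycleType_of_prime_derangement (n : ℕ) (g : Perm (Fin n)) (hg : (orderOf g).Prime)
    (hd : ∀ i : Fin n, g i ≠ i) :
    orderOf g ∣ n ∧ g.cycleType = Multiset.replicate (n / orderOf g) (orderOf g) := by
  obtain ⟨k, hk⟩ := Perm.cycleType_prime_order hg
  have hsum := Perm.sum_cycleType g
  have hsupp : g.support = Finset.univ := by
    ext i
    simp [hd i]
  rw [hsupp, Finset.card_univ, Fintype.card_fin, hk, Multiset.sum_replicate, smul_eq_mul] at hsum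
  have hpos : 0 < orderOf g := hg.pos
  refine ⟨⟨k + 1, hsum.symm.trans (mul_comm _ _)⟩, ?_⟩
  rw [hk, Nat.div_eq_of_eq_mul_left hpos hsum.symm]

theorem exists_prime_derangement (n : ℕ) (p : ℕ) (hp : p.Prime) (hpn : p ∣ n) (hn : 0 < n) :
    ∃ g : Perm (Fin n), orderOf g = p ∧ ∀ i : Fin n, g i ≠ i := by
  obtain ⟨k, hk⟩ := hpn
  have hk0 : k ≠ 0 := by
    rintro rfl
    simp at hk
    omega
  have hex : ∃ g : Perm (Fin n), g.cycleType = Multiset.replicate k p := by
    rw [Perm.exists_with_cycleType_iff]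
    constructor
    · rw [Multiset.sum_replicate, smul_eq_mul, Fintype.card_fin, hk, mul_comm]
    · intro a ha
      rw [Multiset.eq_of_mem_replicate ha]
      exact hp.two_le
  obtain ⟨g, hg⟩ := hex
  refine ⟨g, ?_, ?_⟩
  · rw [← Perm.lcm_cycleType, hg]
    obtain ⟨j, rfl⟩ := Nat.exists_eq_succ_of_ne_zero hk0
    clear hg hk hk0
    induction j with
    | zero => simp
    | succ j ih =>
      rw [Multiset.replicate_succ, Multiset.lcm_cons, ih]
      simp
  · have hsum := Perm.sum_cycleType g
    rw [hg, Multiset.sum_replicate, smul_eq_mul] at hsum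
    have hcard : g.support.card = Fintype.card (Fin n) := by
      rw [Fintype.card_fin, ← hsum, hk, mul_comm]
    have hsupp : g.support = Finset.univ := (Finset.card_eq_iff_eq_univ _).1 hcard
    intro i
    have : i ∈ g.support := by rw [hsupp]; exact Finset.mem_univ i
    exact Perm.mem_support.1 this

/-- the set of classes of derangements of prime order -/
def DClass (n : ℕ) : Type :=
  {c : ConjClasses (Equiv.Perm (Fin n)) // ∃ g : Equiv.Perm (Fin n), ConjClasses.mk g = c ∧
    (orderOf g).Prime ∧ ∀ i : Fin n, g i ≠ i}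

/-- the prime attached to a class -/
noncomputable def DClass.prime {n : ℕ} (c : DClass n) : ℕ := orderOf (Classical.choose c.2)

theorem DClass.prime_spec {n : ℕ} (c : DClass n) :
    ConjClasses.mk (Classical.choose c.2) = c.1 ∧ (orderOf (Classical.choose c.2)).Prime ∧
      ∀ i : Fin n, (Classical.choose c.2) i ≠ i := Classical.choose_spec c.2

theorem DClass.prime_injective (n : ℕ) : Function.Injective (DClass.prime (n := n)) := by
  intro c₁ c₂ h
  obtain ⟨h1, h1p, h1d⟩ := c₁.prime_spec
  obtain ⟨h2, h2p, h2d⟩ := c₂.prime_spec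
  have e1 := (cycleType_of_prime_derangement n _ h1p h1d).2
  have e2 := (cycleType_of_prime_derangement n _ h2p h2d).2
  have h' : orderOf (Classical.choose c₁.2) = orderOf (Classical.choose c₂.2) := h
  rw [h'] at e1
  have hconj : IsConj (Classical.choose c₁.2) (Classical.choose c₂.2) := by
    rw [Perm.isConj_iff_cycleType_eq, e1, e2]
  apply Subtype.ext
  rw [← h1, ← h2]
  exact ConjClasses.mk_eq_mk_iff_isConj.2 hconj

theorem DClass.range_prime (n : ℕ) (hn : 0 < n) :
    Set.range (DClass.prime (n := n)) = (n.primeFactors : Set ℕ) := by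
  ext p
  simp only [Set.mem_range, Finset.mem_coe, Nat.mem_primeFactors]
  constructor
  · rintro ⟨c, rfl⟩
    obtain ⟨h1, h1p, h1d⟩ := c.prime_spec
    exact ⟨h1p, (cycleType_of_prime_derangement n _ h1p h1d).1, hn.ne'⟩
  · rintro ⟨hp, hpn, -⟩
    obtain ⟨g, hg, hd⟩ := exists_prime_derangement n p hp hpn hn
    let c : DClass n := ⟨ConjClasses.mk g, g, rfl, hg ▸ hp, hd⟩
    refine ⟨c, ?_⟩
    obtain ⟨h1, h1p, h1d⟩ := c.prime_spec
    have hconj : IsConj (Classical.choose c.2) g := ConjClasses.mk_eq_mk_iff_isConj.1 h1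
    rw [Perm.isConj_iff_cycleType_eq] at hconj
    show orderOf (Classical.choose c.2) = p
    rw [← Perm.lcm_cycleType, hconj, Perm.lcm_cycleType, hg]

theorem DClass.card (n : ℕ) (hn : 0 < n) : Nat.card (DClass n) = n.primeFactors.card := by
  rw [Nat.card_congr (Equiv.ofInjective _ (DClass.prime_injective n)), DClass.range_prime n hn,
    Nat.card_coe_set_eq, Set.ncard_coe_finset]

/-- For n ≥ 5, the fixed-point-free permutations of prime order in the symmetric group of degree n form a single conjugacy class if and only if n is a prime power. -/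
theorem result (n : ℕ) (hn : 5 ≤ n) :
    Nat.card {c : ConjClasses (Equiv.Perm (Fin n)) // ∃ g : Equiv.Perm (Fin n), ConjClasses.mk g = c ∧ (orderOf g).Prime ∧ ∀ i : Fin n, g i ≠ i} = 1 ↔ IsPrimePow n := by
  rw [isPrimePow_iff_card_primeFactors_eq_one, ← DClass.card n (by omega)]
  rfl

end Cfsg.Agent.S3504
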