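import Cfsg.Statements.S3508

set_option autoImplicit false
open Cfsg

namespace Cfsg.Agent.S3508

open Polynomial

theorem la_lemma (p : ℕ) [Fact p.Prime] {V : Type*} [AddCommGroup V] [Module (ZMod p) V] [Finite V]
    (m : ℕ) (hV : Nat.card V = p ^ m) (c : V →ₗ[ZMod p] V) (r : ℕ) (hc : c ^ (p ^ r) = 1)
    (s : ℕ) (hq : m < p ^ s) :
    c ^ (p ^ s) = 1 ∧ ∑ i ∈ Finset.range (p ^ s), c ^ i = 0 := by
  have hp : p.Prime := Fact.out
  have hfin : Module.finrank (ZMod p) V = m := by
    have h1 := Module.natCard_eq_pow_finrank (K := ZMod p) (V := V)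
    rw [Nat.card_zmod, hV] at h1
    exact (Nat.pow_right_injective hp.two_le h1).symm
  -- polynomial identities
  have hpoly : ∀ k : ℕ, ((X : (ZMod p)[X]) - 1) ^ (p ^ k) = X ^ (p ^ k) - 1 := by
    intro k
    rw [sub_pow_char_pow, one_pow]
  have haev : ∀ k : ℕ, (c - 1) ^ (p ^ k) = c ^ (p ^ k) - 1 := by
    intro k
    have := congrArg (aeval c) (hpoly k)
    simpa using this
  have hnil : IsNilpotent (c - 1) := ⟨p ^ r, by rw [haev, hc, sub_self]⟩
  have hm : (c - 1) ^ m = 0 := by
    have h1 := (LinearMap.isNilpotent_iff_charpoly (c - 1)).1 hnil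
    have h2 := LinearMap.aeval_self_charpoly (c - 1)
    rw [h1, hfin] at h2
    simpa using h2
  constructor
  · have h1 : (c - 1) ^ (p ^ s) = 0 := pow_eq_zero_of_le hq.le hm
    rw [haev] at h1
    exact sub_eq_zero.1 h1
  · have hqpos : 0 < p ^ s := pos_of_gt hq
    have h1 : (c - 1) ^ (p ^ s - 1) = 0 := pow_eq_zero_of_le (by omega) hm
    have h2 : (∑ i ∈ Finset.range (p ^ s), (X : (ZMod p)[X]) ^ i) = (X - 1) ^ (p ^ s - 1) := by
      have h3 : ((X : (ZMod p)[X]) - 1) * ∑ i ∈ Finset.range (p ^ s), (X : (ZMod p)[X]) ^ i =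
          (X - 1) * (X - 1) ^ (p ^ s - 1) := by
        rw [mul_geom_sum, ← pow_succ', Nat.sub_add_cancel hqpos, hpoly]
      have hne : ((X : (ZMod p)[X]) - 1) ≠ 0 := by
        have := X_sub_C_ne_zero (1 : ZMod p)
        simpa using this
      exact mul_left_cancel₀ hne h3
    have h4 := congrArg (aeval c) h2
    simp only [map_sum, map_pow, aeval_X, map_sub, map_one] at h4
    rw [h4, h1]

open scoped IsMulCommutative in
theorem key {G : Type*} [Group G] [Finite G] {Ω : Type*} [Finite Ω] [MulAction G Ω] [FaithfulSMul G Ω]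
    (p m : ℕ) (hp : p.Prime) (hcard : Nat.card Ω = p ^ m)
    (N : Subgroup G) [N.Normal] (hNc : IsMulCommutative N) (hNp : ∀ n ∈ N, n ^ p = 1)
    (hNtr : MulAction.IsPretransitive N Ω) (hNreg : ∀ ω : Ω, MulAction.stabilizer N ω = ⊥)
    (g : G) (r : ℕ) (hg : g ^ (p ^ r) = 1) (s : ℕ) (hs : m < p ^ s) : g ^ (p ^ s) = 1 := by
  have : Fact p.Prime := ⟨hp⟩
  have hΩ : Nonempty Ω := by
    have h0 : 0 < Nat.card Ω := by rw [hcard]; exact pow_pos hp.pos _
    exact (Nat.card_pos_iff.1 h0).1
  obtain ⟨α⟩ := hΩ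
  have hinj : Function.Injective (fun n : N => n • α) := by
    intro n₁ n₂ h
    have h' : n₁ • α = n₂ • α := h
    have hmem : n₂⁻¹ * n₁ ∈ MulAction.stabilizer N α := by
      rw [MulAction.mem_stabilizer_iff, mul_smul, h', inv_smul_smul]
    rw [hNreg α, Subgroup.mem_bot] at hmem
    exact (inv_mul_eq_one.1 hmem).symm
  have hsurj : Function.Surjective (fun n : N => n • α) := fun ω => MulAction.exists_smul_eq N α ω
  have hNcard : Nat.card (Additive N) = p ^ m := by
    rw [← hcard]
    exact Nat.card_congr (Additive.toMul.trans (Equiv.ofBijective _ ⟨hinj, hsurj⟩))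
  have instMod : Module (ZMod p) (Additive N) := AddCommGroup.zmodModule (fun x => by
    have h1 : (Additive.toMul x) ^ p = 1 := Subtype.ext (hNp _ (Additive.toMul x).2)
    exact congrArg Additive.ofMul h1)
  let C : G → (Additive N →ₗ[ZMod p] Additive N) := fun k =>
    AddMonoidHom.toZModLinearMap p (MonoidHom.toAdditive (MulAut.conjNormal k : N ≃* N).toMonoidHom)
  have hC_apply : ∀ (k : G) (x : N),
      C k (Additive.ofMul x) = Additive.ofMul (MulAut.conjNormal k x) := fun _ _ => rfl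
  have hC_mul : ∀ a b : G, C (a * b) = C a * C b := by
    intro a b
    apply LinearMap.ext
    intro x
    obtain ⟨y, rfl⟩ : ∃ y : N, Additive.ofMul y = x := ⟨Additive.toMul x, rfl⟩
    rw [Module.End.mul_apply, hC_apply, hC_apply, hC_apply, map_mul]
    rfl
  have hC_one : C 1 = 1 := by
    apply LinearMap.ext
    intro x
    obtain ⟨y, rfl⟩ : ∃ y : N, Additive.ofMul y = x := ⟨Additive.toMul x, rfl⟩
    rw [hC_apply, map_one]
    rfl
  have hC_pow : ∀ k : ℕ, C (g ^ k) = (C g) ^ k := by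
    intro k
    induction k with
    | zero => rw [pow_zero, pow_zero, hC_one]
    | succ k ih => rw [pow_succ, pow_succ, hC_mul, ih]
  have hc : (C g) ^ (p ^ r) = 1 := by rw [← hC_pow, hg, hC_one]
  obtain ⟨h1, h2⟩ := la_lemma p m hNcard (C g) r hc s hs
  obtain ⟨n, hn⟩ := MulAction.exists_smul_eq N α (g • α)
  have hn' : (n : G) • α = g • α := hn
  have hclaim : ∀ k : ℕ,
      g ^ k • α = ((∏ i ∈ Finset.range k, MulAut.conjNormal (g ^ i) n : N) : G) • α := by
    intro k
    induction k with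
    | zero => simp
    | succ k ih =>
      rw [pow_succ', mul_smul, ih, Finset.prod_range_succ']
      have h3 : (∏ i ∈ Finset.range k, MulAut.conjNormal (g ^ (i + 1)) n : N) =
          MulAut.conjNormal g (∏ i ∈ Finset.range k, MulAut.conjNormal (g ^ i) n : N) := by
        rw [map_prod]
        apply Finset.prod_congr rfl
        intro i _
        rw [pow_succ', map_mul]
        rfl
      rw [h3, pow_zero, map_one]
      show g • ((∏ i ∈ Finset.range k, MulAut.conjNormal (g ^ i) n : N) : G) • α =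
        (((MulAut.conjNormal g (∏ i ∈ Finset.range k, MulAut.conjNormal (g ^ i) n : N) : N) : G) *
          (n : G)) • α
      rw [MulAut.conjNormal_apply, mul_smul, hn', ← mul_smul, ← mul_smul, inv_mul_cancel_right]
  have hP : (∏ i ∈ Finset.range (p ^ s), MulAut.conjNormal (g ^ i) n : N) = 1 := by
    have h3 := congrArg (fun f => f (Additive.ofMul n)) h2
    simp only [LinearMap.sum_apply, ← hC_pow, hC_apply, LinearMap.zero_apply] at h3
    rw [← ofMul_prod] at h3
    exact h3
  have hα : g ^ (p ^ s) • α = α := by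
    rw [hclaim, hP]
    simp
  apply FaithfulSMul.eq_of_smul_eq_smul (α := Ω)
  intro ω
  rw [one_smul]
  obtain ⟨n₁, rfl⟩ := MulAction.exists_smul_eq N α ω
  have hcomm : g ^ (p ^ s) * (n₁ : G) = n₁ * g ^ (p ^ s) := by
    have h3 := congrArg (fun f => f (Additive.ofMul n₁)) h1
    simp only [← hC_pow, hC_apply] at h3
    have h4 : MulAut.conjNormal (g ^ (p ^ s)) n₁ = n₁ := h3
    have h5 := congrArg Subtype.val h4
    rw [MulAut.conjNormal_apply] at h5
    calc g ^ (p ^ s) * (n₁ : G) = g ^ (p ^ s) * (n₁ : G) * (g ^ (p ^ s))⁻¹ * g ^ (p ^ s) := by group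
      _ = n₁ * g ^ (p ^ s) := by rw [h5]
  show g ^ (p ^ s) • ((n₁ : G) • α) = (n₁ : G) • α
  rw [← mul_smul, hcomm, mul_smul, hα]

theorem aux2 : ∀ k : ℕ, k + 3 < 2 ^ (k + 2) := by
  intro k
  induction k with
  | zero => norm_num
  | succ k ih => rw [pow_succ]; omega

theorem aux3 : ∀ k : ℕ, k + 2 < 3 ^ (k + 1) := by
  intro k
  induction k with
  | zero => norm_num
  | succ k ih => rw [pow_succ]; omega

/-- Let a finite group G act faithfully on a set Ω with p ^ m points (p prime) and have an elementary abelian normal p-subgroup N acting regularly on Ω (so G is a group of affine transformations of an m-dimensional space over the field with p elements). If G contains an element of order p ^ r with r ≥ 1, then p ^ (r − 1) ≤ m. In particular an element of order p ^ m forces m ≤ 2, and m ≤ 1 when p is odd. -/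
theorem result {G : Type*} [Group G] [Finite G] {Ω : Type*} [Fintype Ω] [MulAction G Ω] [FaithfulSMul G Ω] (p m : ℕ) (hp : p.Prime) (hcard : Fintype.card Ω = p ^ m)
    (N : Subgroup G) [N.Normal] (hNc : IsMulCommutative N) (hNp : ∀ n ∈ N, n ^ p = 1)
    (hNtr : MulAction.IsPretransitive N Ω) (hNreg : ∀ ω : Ω, MulAction.stabilizer N ω = ⊥)
    (g : G) (r : ℕ) (hr : 1 ≤ r) (hg : orderOf g = p ^ r) :
    p ^ (r - 1) ≤ m ∧ (r = m → m ≤ 2 ∧ (2 < p → m ≤ 1)) := by
  have h1 : p ^ (r - 1) ≤ m := by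
    by_contra hlt
    push Not at hlt
    have h2 := key p m hp (by rw [Nat.card_eq_fintype_card]; exact hcard) N hNc hNp hNtr hNreg g r
      (by rw [← hg]; exact pow_orderOf_eq_one g) (r - 1) hlt
    have hdvd := orderOf_dvd_of_pow_eq_one h2
    rw [hg] at hdvd
    have h3 : p ^ r ≤ p ^ (r - 1) := Nat.le_of_dvd (pow_pos hp.pos _) hdvd
    have h4 : p ^ (r - 1) < p ^ r := Nat.pow_lt_pow_right hp.one_lt (by omega)
    omega
  refine ⟨h1, ?_⟩
  intro hrm
  subst hrm
  constructor
  · by_contra h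
    push Not at h
    have h2 : 2 ^ (r - 1) ≤ p ^ (r - 1) := Nat.pow_le_pow_left hp.two_le _
    obtain ⟨k, rfl⟩ : ∃ k, r = k + 3 := ⟨r - 3, by omega⟩
    have h3 := aux2 k
    have h4 : k + 3 - 1 = k + 2 := by omega
    rw [h4] at h2 h1
    omega
  · intro hp2
    by_contra h
    push Not at h
    have h2 : 3 ^ (r - 1) ≤ p ^ (r - 1) := Nat.pow_le_pow_left (by omega) _
    obtain ⟨k, rfl⟩ : ∃ k, r = k + 2 := ⟨r - 2, by omega⟩
    have h3 := aux3 k
    have h4 : k + 2 - 1 = k + 1 := by omega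
    rw [h4] at h2 h1
    omega

end Cfsg.Agent.S3508
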