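import Cfsg.Statements.S3511

set_option autoImplicit false
open Cfsg

namespace Cfsg.Agent.S3511

theorem stab_eq_bot_iff {G : Type*} [Group G] {Ω : Type*} [MulAction G Ω] (g : G) (ω : Ω) :
    MulAction.stabilizer (Subgroup.zpowers g) ω = ⊥ ↔
      ∀ x ∈ Subgroup.zpowers g, x • ω = ω → x = 1 := by
  rw [Subgroup.eq_bot_iff_forall]
  constructor
  · intro h x hx hxω
    have := h ⟨x, hx⟩ (by rw [MulAction.mem_stabilizer_iff]; exact hxω)
    exact congrArg Subtype.val this
  · intro h x hx
    rw [MulAction.mem_stabilizer_iff] at hx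
    have := h x.1 x.2 hx
    exact Subtype.ext this

theorem aux {G : Type*} [Group G] [Finite G] {Ω : Type*} [MulAction G Ω]
    (h : ∀ g : G, Squarefree (orderOf g) → ∃ ω : Ω, ∀ x ∈ Subgroup.zpowers g, x • ω = ω → x = 1) :
    ∀ n : ℕ, ∀ g : G, orderOf g = n → ∃ ω : Ω, ∀ x ∈ Subgroup.zpowers g, x • ω = ω → x = 1 := by
  intro n
  induction n using Nat.strong_induction_on with
  | _ n ih =>
    intro g hg
    by_cases hsq : Squarefree (orderOf g)
    · exact h g hsq
    · rw [Nat.squarefree_iff_prime_squarefree] at hsq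
      push Not at hsq
      obtain ⟨p, hp, hpp⟩ := hsq
      have hnpos : 0 < orderOf g := orderOf_pos g
      have hpn : p ∣ orderOf g := dvd_trans (dvd_mul_right p p) hpp
      have hord : orderOf (g ^ p) = orderOf g / p := orderOf_pow_of_dvd hp.ne_zero hpn
      have hlt : orderOf (g ^ p) < n := by
        rw [hord, ← hg]
        exact Nat.div_lt_self hnpos hp.one_lt
      obtain ⟨ω, hω⟩ := ih _ hlt (g ^ p) rfl
      refine ⟨ω, ?_⟩
      intro x hx hxω
      by_contra hx1
      have hxo : orderOf x ≠ 1 := by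
        rwa [Ne, orderOf_eq_one_iff]
      obtain ⟨q, hq, hqx⟩ := Nat.exists_prime_and_dvd hxo
      set y := x ^ (orderOf x / q) with hy
      have hyo : orderOf y = q := orderOf_pow_orderOf_div (orderOf_pos x).ne' hqx
      have hyω : y • ω = ω := by
        rw [hy]
        exact MulAction.mem_stabilizer_iff.mp
          (Subgroup.pow_mem _ (MulAction.mem_stabilizer_iff.mpr hxω) _)
      have hyg : y ∈ Subgroup.zpowers g := Subgroup.pow_mem _ hx _
      have hyg' : y ∈ Submonoid.powers g := (isOfFinOrder_of_finite g).mem_powers_iff_mem_zpowers.mpr hyg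
      obtain ⟨j, hj⟩ := (Submonoid.mem_powers_iff _ _).mp hyg'
      have hyq : y ^ q = 1 := by rw [← hyo]; exact pow_orderOf_eq_one y
      have hgjq : g ^ (j * q) = 1 := by rw [pow_mul, hj, hyq]
      have hdvd : orderOf g ∣ j * q := orderOf_dvd_of_pow_eq_one hgjq
      have hppjq : p * p ∣ j * q := dvd_trans hpp hdvd
      have hpj : p ∣ j := by
        by_contra hpj
        have hcop : Nat.Coprime p j := (Nat.Prime.coprime_iff_not_dvd hp).mpr hpj
        have hpq : p ∣ q := hcop.dvd_of_dvd_mul_left (dvd_trans (dvd_mul_right p p) hppjq)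
        have hpq' : p = q := (Nat.prime_dvd_prime_iff_eq hp hq).mp hpq
        rw [← hpq'] at hppjq
        exact hpj (Nat.dvd_of_mul_dvd_mul_right hp.pos hppjq)
      obtain ⟨j', rfl⟩ := hpj
      have hy' : y ∈ Subgroup.zpowers (g ^ p) := by
        rw [← hj, pow_mul]
        exact Subgroup.pow_mem _ (Subgroup.mem_zpowers _) _
      have hy1 : y = 1 := hω y hy' hyω
      rw [hy1, orderOf_one] at hyo
      exact hq.one_lt.ne hyo

/-- Let a finite group G act faithfully on a set Ω. If every element of G of square-free order has a regular cycle (an orbit of the cyclic group it generates with trivial stabilizer), then every element of G has a regular cycle. -/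
theorem result {G : Type*} [Group G] [Finite G] {Ω : Type*} [MulAction G Ω] [FaithfulSMul G Ω]
    (h : ∀ g : G, Squarefree (orderOf g) → ∃ ω : Ω, MulAction.stabilizer (Subgroup.zpowers g) ω = ⊥) (g : G) :
    ∃ ω : Ω, MulAction.stabilizer (Subgroup.zpowers g) ω = ⊥ := by
  have h' : ∀ g : G, Squarefree (orderOf g) → ∃ ω : Ω, ∀ x ∈ Subgroup.zpowers g, x • ω = ω → x = 1 := by
    intro g hg
    obtain ⟨ω, hω⟩ := h g hg
    exact ⟨ω, (stab_eq_bot_iff g ω).mp hω⟩
  obtain ⟨ω, hω⟩ := aux h' (orderOf g) g rfl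
  exact ⟨ω, (stab_eq_bot_iff g ω).mpr hω⟩

end Cfsg.Agent.S3511
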