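import Cfsg.Statements.S3514
import Cfsg.Agent.H63.RelIndex

set_option autoImplicit false
open Cfsg

namespace Cfsg.Agent.S3514

open MulAction Cfsg.Agent.H63

theorem card_orbit_set {p : ℕ} {V : Type*} [AddCommGroup V] [Module (ZMod p) V]
    (S : Subgroup (V ≃ₗ[ZMod p] V)) (v : V) :
    Nat.card {u : V | ∃ h ∈ S, h v = u} = (stabilizer (V ≃ₗ[ZMod p] V) v).relIndex S := by
  rw [Nat.card_coe_set_eq]
  exact ncard_orbit_subgroup_eq_relIndex S v

/-- Let p be a prime, V a finite vector space over the field with p elements, and H a group of linear transformations of V all of whose orbits on V have size coprime to p. (i) Every normal subgroup K of H has all its orbits on V of size coprime to p. (ii) If N is a group of linear transformations of V of order coprime to p that is normalized by H, then the group generated by N and H has all its orbits on V of size coprime to p. -/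
theorem result (p : ℕ) [Fact p.Prime] {V : Type*} [AddCommGroup V] [Module (ZMod p) V] [Finite V]
    (H : Subgroup (V ≃ₗ[ZMod p] V)) (hH : ∀ v : V, ¬ p ∣ Nat.card {u : V | ∃ h ∈ H, h v = u}) :
    (∀ K : Subgroup (V ≃ₗ[ZMod p] V), K ≤ H → H ≤ Subgroup.normalizer (K : Set (V ≃ₗ[ZMod p] V)) →
        ∀ v : V, ¬ p ∣ Nat.card {u : V | ∃ k ∈ K, k v = u}) ∧
    (∀ N : Subgroup (V ≃ₗ[ZMod p] V), ¬ p ∣ Nat.card N → H ≤ Subgroup.normalizer (N : Set (V ≃ₗ[ZMod p] V)) →
        ∀ v : V, ¬ p ∣ Nat.card {u : V | ∃ x ∈ N ⊔ H, x v = u}) := by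
  have hp : p.Prime := Fact.out
  have hfin : Finite (V ≃ₗ[ZMod p] V) := Finite.of_injective (fun f : V ≃ₗ[ZMod p] V => (f : V → V))
    DFunLike.coe_injective
  constructor
  · intro K hKH hnorm v
    rw [card_orbit_set]
    have hHv := hH v
    rw [card_orbit_set] at hHv
    set S := stabilizer (V ≃ₗ[ZMod p] V) v with hS
    have hA : S ⊓ H ≤ Subgroup.normalizer (K : Set (V ≃ₗ[ZMod p] V)) := inf_le_right.trans hnorm
    have h1 := relIndex_sup_of_le_normalizer (S ⊓ H) K hA
    have hle : (S ⊓ H) ⊔ K ≤ H := sup_le inf_le_right hKH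
    have h2 := Subgroup.relIndex_mul_relIndex (S ⊓ H) ((S ⊓ H) ⊔ K) H le_sup_left hle
    rw [h1, Subgroup.inf_relIndex_right] at h2
    have h3 : (S ⊓ H).relIndex K = S.relIndex K := by
      rw [← Subgroup.inf_relIndex_right (S ⊓ H) K, inf_assoc, inf_of_le_right hKH,
        Subgroup.inf_relIndex_right]
    rw [h3] at h2
    intro hdvd
    exact hHv (h2 ▸ dvd_mul_of_dvd_left hdvd _)
  · intro N hN hnorm v
    rw [card_orbit_set]
    have hHv := hH v
    rw [card_orbit_set] at hHv
    set S := stabilizer (V ≃ₗ[ZMod p] V) v with hS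
    have h1 := relIndex_sup_of_le_normalizer H N hnorm
    rw [sup_comm] at h1
    have hHN : ¬ p ∣ H.relIndex (N ⊔ H) := by
      rw [h1]
      intro hdvd
      exact hN (dvd_trans hdvd (Subgroup.relIndex_dvd_card H N))
    have h2 := Subgroup.relIndex_mul_relIndex (S ⊓ H) H (N ⊔ H) inf_le_right le_sup_right
    rw [Subgroup.inf_relIndex_right] at h2
    have h3 := Subgroup.relIndex_mul_relIndex (S ⊓ H) (S ⊓ (N ⊔ H)) (N ⊔ H)
      (inf_le_inf_left S le_sup_right) inf_le_right
    rw [Subgroup.inf_relIndex_right] at h3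
    intro hdvd
    have : p ∣ S.relIndex H * H.relIndex (N ⊔ H) := by
      rw [h2, ← h3]
      exact dvd_mul_of_dvd_right hdvd _
    rcases (Nat.Prime.dvd_mul hp).mp this with h | h
    · exact hHv h
    · exact hHN h

end Cfsg.Agent.S3514
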