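import Cfsg.Statements.S3515
import Cfsg.Agent.H63.Affine

set_option autoImplicit false
open Cfsg

namespace Cfsg.Agent.S3515

theorem four_points : ∀ x : Fin 2 → ZMod 2,
    x = 0 ∨ x = Pi.single 0 1 ∨ x = Pi.single 1 1 ∨ x = Pi.single 0 1 + Pi.single 1 1 := by
  decide

theorem ne0 : (Pi.single 0 1 + Pi.single 1 1 : Fin 2 → ZMod 2) ≠ 0 := by decide
theorem ne1 : (Pi.single 0 1 + Pi.single 1 1 : Fin 2 → ZMod 2) ≠ Pi.single 0 1 := by decide
theorem ne2 : (Pi.single 0 1 + Pi.single 1 1 : Fin 2 → ZMod 2) ≠ Pi.single 1 1 := by decide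

/-- Every primitive affine permutation group of degree p² is 3-closed. Let p be a prime and G a group of permutations of the plane V = F_p² consisting of affine maps x ↦ Ax + b, containing all translations, and acting primitively on V. Then any permutation σ of V that agrees on every triple of points with some element of G (σ preserves every G-orbit on ordered triples) already lies in G. -/
theorem result (p : ℕ) [Fact p.Prime] (G : Subgroup (Equiv.Perm (Fin 2 → ZMod p)))
    (haff : (G : Set (Equiv.Perm (Fin 2 → ZMod p))) ⊆ {τ : Equiv.Perm (Fin 2 → ZMod p) | ∃ (A : (Fin 2 → ZMod p) ≃ₗ[ZMod p] (Fin 2 → ZMod p)) (b : Fin 2 → ZMod p), ∀ x, τ x = A x + b})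
    (htrans : ∀ b : Fin 2 → ZMod p, ∃ g ∈ G, ∀ x, g x = x + b) (hprim : MulAction.IsPreprimitive G (Fin 2 → ZMod p))
    (σ : Equiv.Perm (Fin 2 → ZMod p)) (hσ : (∀ t : Fin 3 → (Fin 2 → ZMod p), ∃ g ∈ G, ∀ i, σ (t i) = g (t i))) : σ ∈ G := by
  obtain ⟨g, hg, hgt⟩ := hσ ![0, Pi.single 0 1, Pi.single 1 1]
  have h0 : σ 0 = g 0 := hgt 0
  have h1 : σ (Pi.single 0 1) = g (Pi.single 0 1) := hgt 1
  have h2 : σ (Pi.single 1 1) = g (Pi.single 1 1) := hgt 2
  suffices hsg : σ = g by rw [hsg]; exact hg
  by_cases hp2 : p = 2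
  · subst hp2
    -- four points
    set τ : Equiv.Perm (Fin 2 → ZMod 2) := g⁻¹ * σ with hτ
    have t0 : τ 0 = 0 := by rw [hτ, Equiv.Perm.mul_apply, h0]; simp
    have t1 : τ (Pi.single 0 1) = Pi.single 0 1 := by rw [hτ, Equiv.Perm.mul_apply, h1]; simp
    have t2 : τ (Pi.single 1 1) = Pi.single 1 1 := by rw [hτ, Equiv.Perm.mul_apply, h2]; simp
    have hτ1 : τ = 1 := by
      ext1 x
      rcases four_points x with rfl | rfl | rfl | rfl
      · rw [t0]; rfl
      · rw [t1]; rfl
      · rw [t2]; rfl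
      · rcases four_points (τ (Pi.single 0 1 + Pi.single 1 1)) with h | h | h | h
        · exact absurd (τ.injective (h.trans t0.symm)) ne0
        · exact absurd (τ.injective (h.trans t1.symm)) ne1
        · exact absurd (τ.injective (h.trans t2.symm)) ne2
        · rw [h]; rfl
    have : g * τ = g := by rw [hτ1, mul_one]
    rw [hτ, mul_inv_cancel_left] at this
    exact this
  · -- σ and g are affine
    have hσaff : ∃ (A : (Fin 2 → ZMod p) ≃ₗ[ZMod p] (Fin 2 → ZMod p)) (b : Fin 2 → ZMod p),
        ∀ x, σ x = A x + b := by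
      apply Cfsg.Agent.H63.affine_of_triples hp2
      intro t
      obtain ⟨g', hg', hg't⟩ := hσ t
      obtain ⟨A, b, hA⟩ := haff hg'
      exact ⟨A, b, fun i => by rw [hg't i, hA]⟩
    obtain ⟨A, b, hA⟩ := hσaff
    obtain ⟨A', b', hA'⟩ := haff hg
    have hb : b = b' := by
      have := h0
      rw [hA, hA', map_zero, map_zero, zero_add, zero_add] at this
      exact this
    have hAA' : (A : (Fin 2 → ZMod p) →ₗ[ZMod p] (Fin 2 → ZMod p)) = A' := by
      apply (Pi.basisFun (ZMod p) (Fin 2)).ext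
      intro i
      fin_cases i
      · have := h1
        rw [hA, hA', hb] at this
        simpa using add_right_cancel this
      · have := h2
        rw [hA, hA', hb] at this
        simpa using add_right_cancel this
    ext1 x
    rw [hA, hA', hb]
    congr 1
    exact LinearMap.congr_fun hAA' x

end Cfsg.Agent.S3515
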