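import Cfsg.Statements.S3516
import Cfsg.Agent.H63.Affine

set_option autoImplicit false
open Cfsg

namespace Cfsg.Agent.S3516

open Module

/-- Given a linear automorphism `A` of a space of dimension at least 3 and a triple of points,
there is a determinant-one automorphism `A'` and a vector `c` such that `A'` plus translation
by `c` agrees with `A` on the triple. -/
theorem exists_det_one {K V : Type*} [Field K] [AddCommGroup V] [Module K V] [FiniteDimensional K V]
    (hd : 3 ≤ finrank K V) (A : V ≃ₗ[K] V) (t : Fin 3 → V) :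
    ∃ (A' : V ≃ₗ[K] V) (c : V), LinearMap.det (A' : V →ₗ[K] V) = 1 ∧ ∀ i, A' (t i) + c = A (t i) := by
  classical
  set W : Submodule K V := Submodule.span K (Set.range ![t 1 - t 0, t 2 - t 0]) with hW
  have hWlt : W < ⊤ := by
    rw [lt_top_iff_ne_top]
    intro htop
    have h1 : finrank K W ≤ 2 := by
      have := finrank_range_le_card (R := K) ![t 1 - t 0, t 2 - t 0]
      simpa [Set.finrank] using this
    rw [htop, finrank_top] at h1
    omega
  obtain ⟨f, hf0, hfW⟩ := Submodule.exists_le_ker_of_lt_top W hWlt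
  obtain ⟨e, he⟩ : ∃ e, f e ≠ 0 := by
    by_contra hcon
    push Not at hcon
    exact hf0 (LinearMap.ext hcon)
  have hdetA : LinearMap.det (A : V →ₗ[K] V) ≠ 0 := (LinearEquiv.isUnit_det' A).ne_zero
  set c := (LinearMap.det (A : V →ₗ[K] V))⁻¹ with hc
  have hc0 : c ≠ 0 := inv_ne_zero hdetA
  set w : V := ((c - 1) / f e) • e with hw
  have hfw : 1 + f w = c := by
    rw [hw, map_smul, smul_eq_mul, div_mul_cancel₀ _ he]; ring
  have hunit : IsUnit (1 + f w) := by rw [hfw]; exact hc0.isUnit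
  set B : V ≃ₗ[K] V := LinearEquiv.dilatransvection hunit with hB
  have hBapp : ∀ x, B x = x + f x • w := fun x => LinearEquiv.dilatransvection.apply
  have hBdet : LinearMap.det (B : V →ₗ[K] V) = c := by
    rw [hB, LinearEquiv.dilatransvection.coe_toLinearMap, LinearMap.transvection.det, hfw]
  refine ⟨B.trans A, -(f (t 0) • A w), ?_, ?_⟩
  · rw [LinearEquiv.coe_trans, LinearMap.det_comp, hBdet, hc, mul_inv_cancel₀ hdetA]
  · intro i
    have hfi : f (t i) = f (t 0) := by
      have hmem : t i - t 0 ∈ W := by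
        fin_cases i
        · simp
        · exact Submodule.subset_span ⟨0, rfl⟩
        · exact Submodule.subset_span ⟨1, rfl⟩
      have := hfW hmem
      rw [LinearMap.mem_ker, map_sub, sub_eq_zero] at this
      exact this
    rw [LinearEquiv.trans_apply, hBapp, map_add, map_smul, hfi]
    abel

/-- Let p be an odd prime, d ≥ 3, and G a group of affine permutations x ↦ Ax + b of V = F_p^d containing all translations and all maps x ↦ Ax with A of determinant 1. Then the 3-closure of G is the full affine group: a permutation σ of V agrees on every triple of points with some element of G if and only if σ is an affine map. -/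
theorem result (p : ℕ) [Fact p.Prime] (hp : p ≠ 2) (d : ℕ) (hd : 3 ≤ d) (G : Subgroup (Equiv.Perm (Fin d → ZMod p)))
    (haff : (G : Set (Equiv.Perm (Fin d → ZMod p))) ⊆ {τ : Equiv.Perm (Fin d → ZMod p) | ∃ (A : (Fin d → ZMod p) ≃ₗ[ZMod p] (Fin d → ZMod p)) (b : Fin d → ZMod p), ∀ x, τ x = A x + b})
    (htrans : ∀ b : Fin d → ZMod p, ∃ g ∈ G, ∀ x, g x = x + b)
    (hsl : ∀ A : (Fin d → ZMod p) ≃ₗ[ZMod p] (Fin d → ZMod p), LinearMap.det (A : (Fin d → ZMod p) →ₗ[ZMod p] (Fin d → ZMod p)) = 1 → ∃ g ∈ G, ∀ x, g x = A x)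
    (σ : Equiv.Perm (Fin d → ZMod p)) :
    (∀ t : Fin 3 → (Fin d → ZMod p), ∃ g ∈ G, ∀ i, σ (t i) = g (t i)) ↔ σ ∈ {τ : Equiv.Perm (Fin d → ZMod p) | ∃ (A : (Fin d → ZMod p) ≃ₗ[ZMod p] (Fin d → ZMod p)) (b : Fin d → ZMod p), ∀ x, τ x = A x + b} := by
  constructor
  · intro hσ
    apply Cfsg.Agent.H63.affine_of_triples hp
    intro t
    obtain ⟨g', hg', hg't⟩ := hσ t
    obtain ⟨A, b, hA⟩ := haff hg'
    exact ⟨A, b, fun i => by rw [hg't i, hA]⟩
  · rintro ⟨A, b, hA⟩ t
    have hfr : 3 ≤ finrank (ZMod p) (Fin d → ZMod p) := by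
      rw [finrank_fin_fun]; exact hd
    obtain ⟨A', c, hdet, hA'⟩ := exists_det_one hfr A t
    obtain ⟨g₁, hg₁, hg₁x⟩ := hsl A' hdet
    obtain ⟨g₂, hg₂, hg₂x⟩ := htrans (c + b)
    refine ⟨g₂ * g₁, G.mul_mem hg₂ hg₁, fun i => ?_⟩
    rw [Equiv.Perm.mul_apply, hg₂x, hg₁x, hA, ← hA' i]
    abel

end Cfsg.Agent.S3516
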