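import Cfsg.Statements.S3517
import Cfsg.Agent.H63.LinRel

set_option autoImplicit false
open Cfsg

namespace Cfsg.Agent.S3517

/-- For d ≥ 3, the 3-closure of the affine group AGL_d(2) acting on F_2^d is the full symmetric group: every permutation of F_2^d agrees on every ordered triple of points with some affine map (AGL_d(2) is 3-transitive). -/
theorem result (d : ℕ) (hd : 3 ≤ d) (σ : Equiv.Perm (Fin d → ZMod 2)) (t : Fin 3 → (Fin d → ZMod 2)) :
    ∃ (A : (Fin d → ZMod 2) ≃ₗ[ZMod 2] (Fin d → ZMod 2)) (b : Fin d → ZMod 2), ∀ i, σ (t i) = A (t i) + b := by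
  have h2 : ∀ a : ZMod 2, a = 0 ∨ a = 1 := by decide
  have hadd : ∀ x : Fin d → ZMod 2, x + x = 0 := by
    intro x; funext i
    have : ∀ a : ZMod 2, a + a = 0 := by decide
    simpa using this (x i)
  have hsub : ∀ x y : Fin d → ZMod 2, x - y = x + y := by
    intro x y
    rw [sub_eq_iff_eq_add, add_assoc, hadd, add_zero]
  have hiff : ∀ x y : Fin d → ZMod 2, x + y = 0 ↔ x = y := by
    intro x y
    rw [← hsub, sub_eq_zero]
  obtain ⟨A, hA⟩ := Cfsg.Agent.H63.exists_linearEquiv_of_same_relations (K := ZMod 2)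
    (u := ![t 1 + t 0, t 2 + t 0]) (v := ![σ (t 1) + σ (t 0), σ (t 2) + σ (t 0)]) (by
      intro c
      simp only [Fin.sum_univ_two, Matrix.cons_val_zero, Matrix.cons_val_one]
      rcases h2 (c 0) with h0 | h0 <;> rcases h2 (c 1) with h1 | h1 <;>
        simp only [h0, h1, zero_smul, one_smul, add_zero, zero_add]
      · rw [hiff, hiff]; exact σ.injective.eq_iff.symm
      · rw [hiff, hiff]; exact σ.injective.eq_iff.symm
      · have e1 : t 1 + t 0 + (t 2 + t 0) = t 1 + t 2 := by
          rw [add_add_add_comm, hadd, add_zero]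
        have e2 : σ (t 1) + σ (t 0) + (σ (t 2) + σ (t 0)) = σ (t 1) + σ (t 2) := by
          rw [add_add_add_comm, hadd, add_zero]
        rw [e1, e2, hiff, hiff]; exact σ.injective.eq_iff.symm)
  have hA1 : A (t 1 + t 0) = σ (t 1) + σ (t 0) := by simpa using hA 0
  have hA2 : A (t 2 + t 0) = σ (t 2) + σ (t 0) := by simpa using hA 1
  refine ⟨A, σ (t 0) + A (t 0), ?_⟩
  intro i
  fin_cases i
  · show σ (t 0) = A (t 0) + (σ (t 0) + A (t 0))
    rw [add_left_comm, hadd, add_zero]
  · show σ (t 1) = A (t 1) + (σ (t 0) + A (t 0))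
    rw [map_add] at hA1
    have : A (t 1) + (σ (t 0) + A (t 0)) = (A (t 1) + A (t 0)) + σ (t 0) := by abel
    rw [this, hA1, add_assoc, hadd, add_zero]
  · show σ (t 2) = A (t 2) + (σ (t 0) + A (t 0))
    rw [map_add] at hA2
    have : A (t 2) + (σ (t 0) + A (t 0)) = (A (t 2) + A (t 0)) + σ (t 0) := by abel
    rw [this, hA2, add_assoc, hadd, add_zero]

end Cfsg.Agent.S3517
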