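import Cfsg.Statements.S3518
import Cfsg.Agent.H97.McConnel

set_option autoImplicit false
open Cfsg

namespace Cfsg.Agent.S3518

/-- Closures of subgroups of the one-dimensional affine group. Let p be a prime and G a group of permutations of F_p lying in the affine group AGL₁(p) = {x ↦ ax + b, a ≠ 0} and containing all translations. (1) If G is a proper subgroup of AGL₁(p), then G is 2-closed: a permutation of F_p agreeing on every ordered pair of points with some element of G lies in G. (2) Every permutation of F_p agrees on every ordered pair with some element of AGL₁(p) (the 2-closure of AGL₁(p) is the symmetric group). (3) AGL₁(p) is 3-closed: a permutation agreeing on every ordered triple with some affine map is affine. -/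
theorem result (p : ℕ) [Fact p.Prime] (G : Subgroup (Equiv.Perm (ZMod p))) (hG : G ≤ Cfsg.affineGroup (ZMod p))
    (htrans : ∀ b : ZMod p, ∃ g ∈ G, ∀ x, g x = x + b) :
    (G ≠ Cfsg.affineGroup (ZMod p) → ∀ σ : Equiv.Perm (ZMod p), (∀ t : Fin 2 → ZMod p, ∃ g ∈ G, ∀ i, σ (t i) = g (t i)) → σ ∈ G) ∧
    (∀ σ : Equiv.Perm (ZMod p), (∀ t : Fin 2 → ZMod p, ∃ g ∈ Cfsg.affineGroup (ZMod p), ∀ i, σ (t i) = g (t i))) ∧
    (∀ σ : Equiv.Perm (ZMod p), (∀ t : Fin 3 → ZMod p, ∃ g ∈ Cfsg.affineGroup (ZMod p), ∀ i, σ (t i) = g (t i)) → σ ∈ Cfsg.affineGroup (ZMod p)) := by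
  classical
  have hpr : p.Prime := Fact.out
  refine ⟨?_, ?_, ?_⟩
  · intro hne σ hσ
    let ψ : (ZMod p)ˣ →* Equiv.Perm (ZMod p) := MulAction.toPermHom (ZMod p)ˣ (ZMod p)
    have hψ : ∀ (a : (ZMod p)ˣ) (x : ZMod p), ψ a x = (a : ZMod p) * x := fun a x => rfl
    let H : Subgroup (ZMod p)ˣ := G.comap ψ
    have hslope : ∀ g ∈ G, ∀ (a : (ZMod p)ˣ) (b : ZMod p),
        (∀ x, g x = (a : ZMod p) * x + b) → a ∈ H := by
      intro g hg a b hgab
      obtain ⟨t, ht, htb⟩ := htrans b
      show ψ a ∈ G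
      have : ψ a = t⁻¹ * g := by
        rw [eq_inv_mul_iff_mul_eq]
        ext x
        rw [Equiv.Perm.mul_apply, htb, hψ, hgab]
      rw [this]
      exact G.mul_mem (G.inv_mem ht) hg
    have hHtop : H ≠ ⊤ := by
      intro htop
      apply hne
      apply le_antisymm hG
      rintro g ⟨a, b, hgab⟩
      obtain ⟨t, ht, htb⟩ := htrans b
      have ha : ψ a ∈ G := by
        have : a ∈ H := htop ▸ Subgroup.mem_top a
        exact this
      have : g = t * ψ a := by
        ext x
        rw [Equiv.Perm.mul_apply, htb, hψ, hgab]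
      rw [this]
      exact G.mul_mem ht ha
    have hd0 : 0 < Nat.card H := Nat.card_pos
    have hcardU : Nat.card (ZMod p)ˣ = p - 1 := by
      rw [Nat.card_eq_fintype_card, ZMod.card_units_eq_totient, Nat.totient_prime hpr]
    have hdvd : Nat.card H ∣ p - 1 := by
      rw [← hcardU]; exact Subgroup.card_subgroup_dvd_card H
    have hdne : Nat.card H ≠ p - 1 := by
      intro heq
      apply hHtop
      rw [← hcardU] at heq
      exact (Subgroup.card_eq_iff_eq_top H).mp heq
    have h2d : 2 * Nat.card H ≤ p - 1 := by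
      obtain ⟨k, hk⟩ := hdvd
      have hp1 : 0 < p - 1 := by have := hpr.two_le; omega
      rcases Nat.lt_or_ge k 2 with hk2 | hk2
      · interval_cases k
        · omega
        · omega
      · rw [hk]; nlinarith
    have hpow : ∀ a ∈ H, ((a : (ZMod p)ˣ) : ZMod p) ^ Nat.card H = 1 := by
      intro a ha
      have h1 : (⟨a, ha⟩ : H) ^ Nat.card H = 1 := pow_card_eq_one'
      have h2 : a ^ Nat.card H = 1 := by
        have h3 := congrArg Subtype.val h1
        rwa [Subgroup.coe_pow, Subgroup.coe_one] at h3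
      rw [← Units.val_pow_eq_pow_val, h2, Units.val_one]
    have hpair : ∀ x y : ZMod p, ∃ a ∈ H, σ x - σ y = (a : ZMod p) * (x - y) := by
      intro x y
      obtain ⟨g, hg, hgt⟩ := hσ ![x, y]
      have h0 := hgt 0
      have h1 := hgt 1
      simp only [Matrix.cons_val_zero, Matrix.cons_val_one] at h0 h1
      obtain ⟨a, b, hgab⟩ := hG hg
      refine ⟨a, hslope g hg a b hgab, ?_⟩
      rw [h0, h1, hgab, hgab]; ring
    have hσd : ∀ x y : ZMod p, (σ x - σ y) ^ Nat.card H = (x - y) ^ Nat.card H := by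
      intro x y
      obtain ⟨a, ha, hxy⟩ := hpair x y
      rw [hxy, mul_pow, hpow a ha, one_mul]
    obtain ⟨a, b, hab⟩ := Cfsg.Agent.H97.mcconnel (Nat.card H) hd0 h2d σ hσd
    obtain ⟨a', ha', h10⟩ := hpair 1 0
    have haa : a = (a' : ZMod p) := by
      rw [hab, hab] at h10
      linear_combination h10
    obtain ⟨t, ht, htb⟩ := htrans b
    have : σ = t * ψ a' := by
      ext x
      rw [Equiv.Perm.mul_apply, htb, hψ, hab, haa]
    rw [this]
    exact G.mul_mem ht ha'
  · intro σ t
    by_cases h01 : t 0 = t 1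
    · refine ⟨Equiv.addRight (σ (t 0) - t 0), ⟨1, σ (t 0) - t 0, fun x => by simp⟩, ?_⟩
      intro i
      fin_cases i
      · simp
      · simp [← h01]
    · have hne : σ (t 0) - σ (t 1) ≠ 0 := by
        intro h; apply h01; exact σ.injective (sub_eq_zero.mp h)
      have hne' : t 0 - t 1 ≠ 0 := sub_ne_zero.mpr h01
      have ha0 : (σ (t 0) - σ (t 1)) / (t 0 - t 1) ≠ 0 := div_ne_zero hne hne'
      have hmul : (σ (t 0) - σ (t 1)) / (t 0 - t 1) * (t 0 - t 1) = σ (t 0) - σ (t 1) :=
        div_mul_cancel₀ _ hne'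
      refine ⟨(Equiv.mulLeft₀ _ ha0).trans
        (Equiv.addRight (σ (t 0) - (σ (t 0) - σ (t 1)) / (t 0 - t 1) * t 0)),
        ⟨Units.mk0 _ ha0, σ (t 0) - (σ (t 0) - σ (t 1)) / (t 0 - t 1) * t 0, fun x => by simp⟩, ?_⟩
      intro i
      fin_cases i
      · simp
      · show σ (t 1) = (σ (t 0) - σ (t 1)) / (t 0 - t 1) * t 1
          + (σ (t 0) - (σ (t 0) - σ (t 1)) / (t 0 - t 1) * t 0)
        linear_combination hmul
  · intro σ hσ
    have h10 : σ 1 - σ 0 ≠ 0 := by
      intro h
      exact one_ne_zero (σ.injective (sub_eq_zero.mp h))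
    refine ⟨Units.mk0 _ h10, σ 0, fun x => ?_⟩
    obtain ⟨g, ⟨a, b, hgab⟩, hgt⟩ := hσ ![0, 1, x]
    have h0 := hgt 0
    have h1 := hgt 1
    have h2 := hgt 2
    simp only [Matrix.cons_val_zero, Matrix.cons_val_one, Matrix.cons_val_two,
      Matrix.tail_cons, Matrix.head_cons] at h0 h1 h2
    rw [hgab] at h0 h1 h2
    rw [Units.val_mk0, h2, h0, h1]; ring

end Cfsg.Agent.S3518
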