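import Cfsg.Statements.S3532
import Cfsg.Agent.H62.FrobField

set_option autoImplicit false
open Cfsg

namespace Cfsg.Agent.S3532

/-- Let q ≥ 4 be a prime power and L = PSL(2,q). There is a finite solvable group with the same set of element orders as L × L (so L × L is not determined by its spectrum). -/
theorem result {F : Type*} [Field F] [Fintype F] (hF : 4 ≤ Fintype.card F) :
    ∃ (H : Type) (_ : Group H) (_ : Finite H), Group.IsSolvable H ∧
      Set.range (orderOf : H → ℕ) = Set.range (orderOf : Matrix.ProjectiveSpecialLinearGroup (Fin 2) F × Matrix.ProjectiveSpecialLinearGroup (Fin 2) F → ℕ) := by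
  rw [Fintype.card_eq_nat_card] at hF
  exact Cfsg.Agent.H62.psl2_sq_isospectral hF

end Cfsg.Agent.S3532
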