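import Cfsg.Statements.S3547
import Cfsg.Agent.H63.Derange

set_option autoImplicit false
open Cfsg

namespace Cfsg.Agent.S3547

open MulAction

theorem card_fixedBy_prod {G Ω : Type*} [Group G] [MulAction G Ω] (g : G) :
    Nat.card (fixedBy (Ω × Ω) g) = Nat.card (fixedBy Ω g) * Nat.card (fixedBy Ω g) := by
  rw [← Nat.card_prod]
  refine Nat.card_congr ?_
  refine
    { toFun := fun p => (⟨p.1.1, congrArg Prod.fst p.2⟩, ⟨p.1.2, congrArg Prod.snd p.2⟩)
      invFun := fun q => ⟨(q.1.1, q.2.1), by
        show g • (q.1.1, q.2.1) = (q.1.1, q.2.1)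
        rw [Prod.smul_mk, q.1.2, q.2.2]⟩
      left_inv := fun p => rfl
      right_inv := fun q => rfl }

/-- Let G act faithfully and transitively on a finite set Ω, let D be the subgroup generated by the derangements, and let r_G and r_D be the numbers of orbits of G and of D on ordered pairs of points (the permutation ranks). Then r_D − 1 = (r_G − 1)·[G : D]. -/
theorem result {G Ω : Type*} [Group G] [Finite G] [MulAction G Ω] [FaithfulSMul G Ω] [Finite Ω]
    (htrans : MulAction.IsPretransitive G Ω) :
    Nat.card (MulAction.orbitRel.Quotient ↥(Subgroup.closure {g : G | ∀ ω : Ω, g • ω ≠ ω}) (Ω × Ω)) - 1 =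
      (Nat.card (MulAction.orbitRel.Quotient G (Ω × Ω)) - 1) * (Subgroup.closure {g : G | ∀ ω : Ω, g • ω ≠ ω}).index := by
  classical
  rcases isEmpty_or_nonempty Ω with hΩ | hΩ
  · have h1 : IsEmpty (MulAction.orbitRel.Quotient ↥(Subgroup.closure {g : G | ∀ ω : Ω, g • ω ≠ ω}) (Ω × Ω)) :=
      ⟨fun q => Quotient.inductionOn' q (fun p => isEmptyElim p.1)⟩
    have h2 : IsEmpty (MulAction.orbitRel.Quotient G (Ω × Ω)) :=
      ⟨fun q => Quotient.inductionOn' q (fun p => isEmptyElim p.1)⟩
    rw [Nat.card_of_isEmpty, Nat.card_of_isEmpty]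
    simp
  · set D := Subgroup.closure {g : G | ∀ ω : Ω, g • ω ≠ ω} with hDdef
    have hcore := Cfsg.Agent.H63.derange_core (G := G) (Ω := Ω) D
      (fun g hg => Subgroup.subset_closure hg)
    have := Fintype.ofFinite G
    have hG := Cfsg.Agent.H63.sum_card_fixedBy G (Ω × Ω)
    have hDsum := Cfsg.Agent.H63.sum_card_fixedBy_subgroup G (Ω × Ω) D
    have hsplit := Finset.sum_filter_add_sum_filter_not (Finset.univ : Finset G) (· ∈ D)
      (fun g => Nat.card (fixedBy (Ω × Ω) g))
    have hout : ∑ g ∈ Finset.univ.filter (fun g : G => ¬ g ∈ D), Nat.card (fixedBy (Ω × Ω) g) =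
        (Finset.univ.filter (fun g : G => ¬ g ∈ D)).card := by
      rw [Finset.card_eq_sum_ones]
      apply Finset.sum_congr rfl
      intro g hg
      rw [Finset.mem_filter] at hg
      rw [card_fixedBy_prod, hcore.2 g hg.2]
    have hcardsplit : (Finset.univ.filter (fun g : G => g ∈ D)).card +
        (Finset.univ.filter (fun g : G => ¬ g ∈ D)).card = Nat.card G := by
      rw [Finset.card_filter_add_card_filter_not, Finset.card_univ, Nat.card_eq_fintype_card]
    have hcardD : (Finset.univ.filter (fun g : G => g ∈ D)).card = Nat.card D := by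
      rw [Nat.card_eq_fintype_card, Fintype.card_subtype]
    have hDpos : 0 < Nat.card D := Nat.card_pos
    have hidx : Nat.card D * D.index = Nat.card G := D.card_mul_index
    set rD := Nat.card (MulAction.orbitRel.Quotient ↥D (Ω × Ω)) with hrD
    set rG := Nat.card (MulAction.orbitRel.Quotient G (Ω × Ω)) with hrG
    set m := D.index with hm
    set c := (Finset.univ.filter (fun g : G => ¬ g ∈ D)).card with hc
    -- rG * |G| = rD * |D| + c,  |D| + c = |G|, |G| = |D| * m
    have key : rG * Nat.card G = rD * Nat.card D + c := by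
      rw [← hG, ← hsplit, hDsum, hout]
    have hc' : Nat.card D + c = Nat.card D * m := by rw [hidx, ← hcardsplit, hcardD]
    -- rG * m + 1 = rD + m
    have key2 : rG * m + 1 = rD + m := by
      have : Nat.card D * (rG * m + 1) = Nat.card D * (rD + m) := by
        have e1 : Nat.card D * (rG * m + 1) = rG * (Nat.card D * m) + Nat.card D := by ring
        have e2 : Nat.card D * (rD + m) = rD * Nat.card D + Nat.card D * m := by ring
        have hc'' : Nat.card D + c = Nat.card G := by rw [hc', hidx]
        rw [e1, e2, hidx, key]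
        linarith
      exact Nat.eq_of_mul_eq_mul_left hDpos this
    have hmpos : 0 < m := by
      rcases Nat.eq_zero_or_pos m with h0 | h0
      · rw [h0, mul_zero] at hidx
        have : 0 < Nat.card G := Nat.card_pos
        omega
      · exact h0
    rcases Nat.eq_zero_or_pos rG with h0 | h0
    · rw [h0] at key2 ⊢
      simp only [zero_mul, zero_add] at key2
      have : rD = 0 := by omega
      rw [this]
      simp
    · obtain ⟨k, hk⟩ : ∃ k, rG = k + 1 := ⟨rG - 1, by omega⟩
      rw [hk] at key2 ⊢
      have : k * m + 1 = rD := by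
        have : (k + 1) * m = k * m + m := by ring
        omega
      rw [← this]
      simp

end Cfsg.Agent.S3547
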