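import Cfsg.Statements.S3548
import Cfsg.Agent.H63.Derange2

set_option autoImplicit false
open Cfsg

namespace Cfsg.Agent.S3548

open MulAction Cfsg.Agent.H63

/-- Let G act faithfully and transitively on a finite set with n ≥ 2 points and let D be the subgroup generated by the derangements. Then the index of D in G divides n − 1, and if it equals n − 1 then n is a prime power. -/
theorem result {G Ω : Type*} [Group G] [Finite G] [MulAction G Ω] [FaithfulSMul G Ω] [Finite Ω]
    (htrans : MulAction.IsPretransitive G Ω) (hΩ : 2 ≤ Nat.card Ω) :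
    (Subgroup.closure {g : G | ∀ ω : Ω, g • ω ≠ ω}).index ∣ Nat.card Ω - 1 ∧
    ((Subgroup.closure {g : G | ∀ ω : Ω, g • ω ≠ ω}).index = Nat.card Ω - 1 → IsPrimePow (Nat.card Ω)) := by
  classical
  set D := Subgroup.closure {g : G | ∀ ω : Ω, g • ω ≠ ω} with hDdef
  have hD : ∀ g : G, (∀ ω : Ω, g • ω ≠ ω) → g ∈ D := fun g hg => Subgroup.subset_closure hg
  have hne : Nonempty Ω := by
    by_contra h
    rw [not_nonempty_iff] at h
    rw [Nat.card_of_isEmpty] at hΩ
    omega
  obtain ⟨α⟩ := hne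
  have : Nonempty Ω := ⟨α⟩
  obtain ⟨hDt, hD1⟩ := derange_core D hD
  set H := stabilizer G α with hH
  have hinv : ∀ h ∈ H, ∀ β ∈ ({α}ᶜ : Set Ω), h • β ∈ ({α}ᶜ : Set Ω) := by
    intro h hh β hβ
    rw [Set.mem_compl_singleton_iff] at hβ ⊢
    intro hcon
    apply hβ
    have h1 : h • α = α := mem_stabilizer_iff.mp hh
    rw [← h1] at hcon
    exact smul_left_cancel h hcon
  have hcompl : ({α}ᶜ : Set Ω).ncard = Nat.card Ω - 1 := by
    rw [Set.ncard_compl, Set.ncard_singleton]
  have hdvd : D.index ∣ Nat.card Ω - 1 := by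
    apply dvd_ncard_of_invariant H D.index (Nat.card Ω - 1) ({α}ᶜ : Set Ω) hcompl hinv
    intro β hβ
    exact index_dvd_orbit_ncard D hD (Set.mem_compl_singleton_iff.mp hβ)
  refine ⟨hdvd, ?_⟩
  intro hm
  have hmpos : 0 < D.index := by omega
  -- orbits of H on other points are everything
  have horb : ∀ β : Ω, β ≠ α → orbit H β = ({α}ᶜ : Set Ω) := by
    intro β hβ
    have hsub : orbit H β ⊆ ({α}ᶜ : Set Ω) := by
      rintro x ⟨h, rfl⟩
      exact hinv h.1 h.2 β (Set.mem_compl_singleton_iff.mpr hβ)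
    apply Set.eq_of_subset_of_ncard_le hsub _ (Set.toFinite _)
    rw [hcompl, ← hm]
    have hpos : 0 < (orbit H β).ncard :=
      (Set.ncard_pos (Set.toFinite _)).mpr ⟨β, mem_orbit_self β⟩
    exact Nat.le_of_dvd hpos (index_dvd_orbit_ncard D hD hβ)
  -- D ⊓ H fixes everything
  have hE : D ⊓ H = ⊥ := by
    rw [Subgroup.eq_bot_iff_forall]
    intro g hg
    apply FaithfulSMul.eq_of_smul_eq_smul (α := Ω)
    intro β
    rw [one_smul]
    by_cases hβ : β = α
    · rw [hβ]; exact mem_stabilizer_iff.mp (Subgroup.mem_inf.mp hg).2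
    · obtain ⟨hKE, hcard⟩ := orbit_ncard_eq_mul_index D hD hβ
      rw [horb β hβ, hcompl, ← hm] at hcard
      have h1 : (stabilizer G β ⊓ stabilizer G α).relIndex (D ⊓ stabilizer G α) = 1 := by
        have : 1 * D.index = (stabilizer G β ⊓ stabilizer G α).relIndex (D ⊓ stabilizer G α) * D.index := by
          rw [one_mul]; exact hcard
        exact (Nat.eq_of_mul_eq_mul_right hmpos this).symm
      rw [Subgroup.relIndex_eq_one] at h1
      exact mem_stabilizer_iff.mp (Subgroup.mem_inf.mp (h1 hg)).1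
  have hDn : D.Normal := derange_closure_normal
  -- card D = card Ω
  have hcardD : Nat.card D = Nat.card Ω := by
    have h2 : (D ⊓ H).relIndex D = Nat.card Ω := by
      rw [Subgroup.inf_relIndex_left, ← orbit_ncard_eq_relIndex, orbit_eq_univ, Set.ncard_univ]
    rw [hE, Subgroup.relIndex_bot_left] at h2
    exact h2
  -- nonidentity elements of D move α
  have hmove : ∀ d ∈ D, d ≠ 1 → d • α ≠ α := by
    intro d hd hd1 hfix
    apply hd1
    have : d ∈ D ⊓ H := Subgroup.mem_inf.mpr ⟨hd, mem_stabilizer_iff.mpr hfix⟩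
    rw [hE] at this
    exact Subgroup.mem_bot.mp this
  -- all nonidentity elements of D have the same order
  have hsame : ∀ d ∈ D, ∀ d' ∈ D, d ≠ 1 → d' ≠ 1 → orderOf d' = orderOf d := by
    intro d hd d' hd' hd1 hd'1
    have h1 : d' • α ∈ orbit H (d • α) := by
      rw [horb _ (hmove d hd hd1)]
      exact Set.mem_compl_singleton_iff.mpr (hmove d' hd' hd'1)
    obtain ⟨h, hh⟩ := h1
    have hh' : (h : G) • d • α = d' • α := hh
    have hha : (h : G) • α = α := mem_stabilizer_iff.mp h.2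
    have hha' : (h : G)⁻¹ • α = α := by
      rw [inv_smul_eq_iff, hha]
    have hmem : d'⁻¹ * ((h : G) * d * (h : G)⁻¹) ∈ D ⊓ H := by
      refine Subgroup.mem_inf.mpr ⟨D.mul_mem (D.inv_mem hd') (hDn.conj_mem d hd h), ?_⟩
      rw [mem_stabilizer_iff, mul_smul, mul_smul, mul_smul, hha', hh', inv_smul_smul]
    rw [hE, Subgroup.mem_bot] at hmem
    have heq : (h : G) * d * (h : G)⁻¹ = d' := by
      have := congrArg (fun z => d' * z) hmem
      simpa using this
    rw [← heq]
    exact (MulAut.conj (h : G)).orderOf_eq d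
  -- D is nontrivial
  have hcard2 : 2 ≤ Nat.card D := by rw [hcardD]; exact hΩ
  have : Nontrivial D := (Finite.one_lt_card_iff_nontrivial).mp (by omega)
  obtain ⟨d₀, hd₀⟩ := exists_ne (1 : D)
  have hd₀o : orderOf d₀ ≠ 1 := by rwa [Ne, orderOf_eq_one_iff]
  obtain ⟨q, hq, hqd⟩ := Nat.exists_prime_and_dvd hd₀o
  set d₁ := d₀ ^ (orderOf d₀ / q) with hd₁
  have hd₁o : orderOf d₁ = q := orderOf_pow_orderOf_div (orderOf_pos d₀).ne' hqd
  have hd₁ne : (d₁ : G) ≠ 1 := by
    intro h
    have : d₁ = 1 := Subtype.ext h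
    rw [this, orderOf_one] at hd₁o
    exact hq.one_lt.ne hd₁o
  have hd₁o' : orderOf (d₁ : G) = q := by rw [Subgroup.orderOf_coe, hd₁o]
  have hpg : IsPGroup q D := by
    intro g
    refine ⟨1, ?_⟩
    rw [pow_one]
    by_cases hg : g = 1
    · rw [hg, one_pow]
    · have hg' : (g : G) ≠ 1 := fun h => hg (Subtype.ext h)
      have := hsame (d₁ : G) d₁.2 (g : G) g.2 hd₁ne hg'
      rw [hd₁o', Subgroup.orderOf_coe] at this
      rw [← this]
      exact pow_orderOf_eq_one g
  have hqf : Fact q.Prime := ⟨hq⟩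
  obtain ⟨k, hk⟩ := (IsPGroup.iff_card (p := q) (G := D)).mp hpg
  rw [hcardD] at hk
  rw [isPrimePow_nat_iff]
  refine ⟨q, k, hq, ?_, hk.symm⟩
  rcases Nat.eq_zero_or_pos k with h0 | h0
  · rw [h0, pow_zero] at hk
    omega
  · exact h0

end Cfsg.Agent.S3548
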