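import Cfsg.Statements.S3549
import Cfsg.Agent.H63.Derange2

set_option autoImplicit false
open Cfsg

namespace Cfsg.Agent.S3549

open MulAction Cfsg.Agent.H63
open scoped Pointwise

/-- Let G act faithfully, transitively but imprimitively on a finite set with n points, and let D be the subgroup generated by the derangements. Then the index of D in G is at most √n − 1. -/
theorem result {G Ω : Type*} [Group G] [Finite G] [MulAction G Ω] [FaithfulSMul G Ω] [Finite Ω]
    (htrans : MulAction.IsPretransitive G Ω) (himp : ¬ MulAction.IsPreprimitive G Ω) :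
    ((Subgroup.closure {g : G | ∀ ω : Ω, g • ω ≠ ω}).index : ℝ) ≤ Real.sqrt (Nat.card Ω) - 1 := by
  classical
  set D := Subgroup.closure {g : G | ∀ ω : Ω, g • ω ≠ ω} with hDdef
  have hD : ∀ g : G, (∀ ω : Ω, g • ω ≠ ω) → g ∈ D := fun g hg => Subgroup.subset_closure hg
  have hblock : ∃ B : Set Ω, IsBlock G B ∧ ¬ IsTrivialBlock B := by
    by_contra hcon
    push Not at hcon
    exact himp ⟨fun {B} hB => hcon B hB⟩
  obtain ⟨B, hB, hBnt⟩ := hblock
  rw [IsTrivialBlock, not_or] at hBnt
  obtain ⟨hBns, hBne⟩ := hBnt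
  obtain ⟨α, hα, β, hβ, hαβ⟩ := Set.not_subsingleton_iff.mp hBns
  have : Nonempty Ω := ⟨α⟩
  have hinvB : ∀ h ∈ stabilizer G α, ∀ γ ∈ B \ {α}, h • γ ∈ B \ {α} := by
    intro h hh γ hγ
    refine ⟨?_, ?_⟩
    · have h1 : h • B = B := mem_stabilizer_iff.mp (hB.stabilizer_le hα hh)
      rw [← h1]
      exact Set.smul_mem_smul_set hγ.1
    · exact stabilizer_smul_mem_compl_singleton hh hγ.2
  have hdvdB : D.index ∣ B.ncard - 1 := by
    have := index_dvd_ncard_of_invariant D hD α (B \ {α}) (by simp) hinvB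
    rwa [Set.ncard_sdiff_singleton_of_mem hα] at this
  have hdvdn : D.index ∣ Nat.card Ω - 1 := by
    have := index_dvd_ncard_of_invariant D hD α ({α}ᶜ : Set Ω) (by simp)
      (fun h hh γ hγ => stabilizer_smul_mem_compl_singleton hh hγ)
    rwa [Set.ncard_compl, Set.ncard_singleton] at this
  obtain ⟨c, hc⟩ := hB.ncard_dvd_card ⟨α, hα⟩
  have hb2 : 2 ≤ B.ncard := by
    have := (Set.one_lt_ncard (Set.toFinite B)).mpr ⟨α, hα, β, hβ, hαβ⟩
    omega
  have hnpos : 0 < Nat.card Ω := Nat.card_pos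
  have hc2 : 2 ≤ c := by
    rcases Nat.lt_or_ge c 2 with hlt | hge
    · exfalso
      have hc01 : c = 0 ∨ c = 1 := by omega
      rcases hc01 with h0 | h1
      · rw [h0, mul_zero] at hc; omega
      · rw [h1, mul_one] at hc
        apply hBne
        rw [← Set.ncard_univ] at hc
        exact Set.eq_of_subset_of_ncard_le (Set.subset_univ B) (le_of_eq hc) (Set.toFinite _)
    · exact hge
  have hdvdc : D.index ∣ c - 1 := by
    have hdecomp : Nat.card Ω - 1 = (B.ncard - 1) * c + (c - 1) := by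
      rw [hc, Nat.sub_one_mul]
      have : c ≤ B.ncard * c := Nat.le_mul_of_pos_left c (by omega)
      omega
    rw [hdecomp] at hdvdn
    exact (Nat.dvd_add_right (dvd_mul_of_dvd_left hdvdB c)).mp hdvdn
  have hm1 : D.index + 1 ≤ B.ncard := by
    have := Nat.le_of_dvd (by omega) hdvdB; omega
  have hm2 : D.index + 1 ≤ c := by
    have := Nat.le_of_dvd (by omega) hdvdc; omega
  have hsq : (D.index + 1) * (D.index + 1) ≤ Nat.card Ω := by
    rw [hc]; exact Nat.mul_le_mul hm1 hm2
  have hreal : ((D.index : ℝ) + 1) ≤ Real.sqrt (Nat.card Ω) := by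
    apply Real.le_sqrt_of_sq_le
    have : (((D.index + 1) * (D.index + 1) : ℕ) : ℝ) ≤ ((Nat.card Ω : ℕ) : ℝ) := by
      exact_mod_cast hsq
    push_cast at this
    nlinarith
  linarith

end Cfsg.Agent.S3549
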