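-- Statement S3559: Schur's theorem on regular cyclic subgroups of non-prime-power order (helper74).
import Cfsg.Statements.S3559
import Cfsg.Agent.H74.SRingSchur

set_option autoImplicit false
open Cfsg

namespace Cfsg.Agent.S3559

open Cfsg.Agent.H74.SR

/-- Let G act faithfully and transitively on a finite set whose number of points n ≥ 2 is not a prime power, and suppose G has a cyclic subgroup acting regularly (transitively with trivial point stabilizers). Then G is imprimitive or doubly transitive. -/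
theorem result {G Ω : Type*} [Group G] [Finite G] [MulAction G Ω] [FaithfulSMul G Ω] [Finite Ω]
    (htrans : MulAction.IsPretransitive G Ω) (hn : 2 ≤ Nat.card Ω) (hnp : ¬ IsPrimePow (Nat.card Ω))
    (C : Subgroup G) (hcyc : IsCyclic ↥C) (hC : MulAction.IsPretransitive ↥C Ω ∧ ∀ a : Ω, MulAction.stabilizer ↥C a = ⊥) :
    ¬ MulAction.IsPreprimitive G Ω ∨ MulAction.IsMultiplyPretransitive G Ω 2 := by
  by_cases hprim : MulAction.IsPreprimitive G Ω
  swap
  · exact Or.inl hprim
  right
  haveI : NeZero (Nat.card Ω) := ⟨by omega⟩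
  haveI : Nonempty Ω := by
    have : 0 < Nat.card Ω := by omega
    exact (Nat.card_pos_iff.1 this).1
  obtain ⟨ω₀⟩ := ‹Nonempty Ω›
  obtain ⟨g₀, hg₀⟩ := hcyc.exists_generator
  obtain ⟨hCtr, hCst⟩ := hC
  -- the orbit map is bijective
  have hbij : Function.Bijective (fun y : C => y • ω₀) := by
    constructor
    · intro y y' h
      have h1 : (y'⁻¹ * y) • ω₀ = ω₀ := by
        rw [mul_smul]
        show y'⁻¹ • (y • ω₀) = ω₀
        have h' : y • ω₀ = y' • ω₀ := h
        rw [h', inv_smul_smul]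
      have h2 : y'⁻¹ * y ∈ MulAction.stabilizer C ω₀ := h1
      rw [hCst ω₀, Subgroup.mem_bot] at h2
      exact (inv_mul_eq_one.1 h2).symm
    · intro ω
      obtain ⟨y, hy⟩ := hCtr.exists_smul_eq ω₀ ω
      exact ⟨y, hy⟩
  have hcard : Nat.card C = Nat.card Ω := Nat.card_eq_of_bijective _ hbij
  have hord : orderOf g₀ = Nat.card Ω := by
    rw [← hcard]
    exact orderOf_eq_card_of_forall_mem_zpowers hg₀
  have hcn : (g₀ : G) ^ Nat.card Ω = 1 := by
    rw [← Subgroup.coe_pow, ← hord, pow_orderOf_eq_one]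
    rfl
  have hinj : ∀ a b : ℕ, a < Nat.card Ω → b < Nat.card Ω →
      (g₀ : G) ^ a • ω₀ = (g₀ : G) ^ b • ω₀ → a = b := by
    intro a b ha hb h
    have h1 : (g₀ ^ a) • ω₀ = (g₀ ^ b) • ω₀ := h
    have h2 : g₀ ^ a = g₀ ^ b := hbij.1 h1
    rw [pow_eq_pow_iff_modEq, hord] at h2
    exact Nat.ModEq.eq_of_lt_of_lt h2 ha hb
  let S : CSetup G Ω (Nat.card Ω) := CSetup.ofRegular (g₀ : G) ω₀ rfl hcn hinj
  exact two_trans_of S (fun i j hi hj => schur_trans (S := S) hnp hn i j hi hj)

end Cfsg.Agent.S3559
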