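import Cfsg.Statements.S3560
import Cfsg.Agent.H63.Hamming

set_option autoImplicit false
open Cfsg

namespace Cfsg.Agent.S3560

/-- Let K be a finite group isomorphic to a direct product of r ≥ 2 groups all of the same order m ≥ 3. Then K is not a B-group: there is a primitive but not doubly transitive permutation group (on some finite set) containing a regular subgroup isomorphic to K. -/
theorem result {K : Type*} [Group K] [Finite K] {ι : Type*} [Fintype ι] (F : ι → Type*) [∀ i, Group (F i)]
    (hr : 2 ≤ Fintype.card ι) (m : ℕ) (hm : 3 ≤ m) (hcard : ∀ i, Nat.card (F i) = m) (e : K ≃* (∀ i, F i)) :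
    ∃ (n : ℕ) (G R : Subgroup (Equiv.Perm (Fin n))), R ≤ G ∧ Nonempty (↥R ≃* K) ∧
      MulAction.IsPretransitive ↥R (Fin n) ∧ (∀ a : Fin n, MulAction.stabilizer ↥R a = ⊥) ∧
      MulAction.IsPreprimitive ↥G (Fin n) ∧ ¬ MulAction.IsMultiplyPretransitive ↥G (Fin n) 2 := by
  classical
  have hfin : ∀ i, Finite (F i) := fun i => Nat.finite_of_card_ne_zero (by rw [hcard i]; omega)
  let φ : ∀ i, F i ≃ Fin m := fun i => Finite.equivFinOfCardEq (hcard i)
  obtain ⟨G', R', h1, h2, h3, h4, h5, h6⟩ :=
    H63.Hamming.transport (Fintype.equivFin (ι → Fin m)) (K := K)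
      (H63.Hamming.isoGroup ι (Fin m)) (H63.Hamming.regHom φ e).range
      (by rintro _ ⟨k, rfl⟩; exact H63.Hamming.regHom_mem φ e k)
      ⟨(MonoidHom.ofInjective (H63.Hamming.regHom_injective φ e)).symm⟩
      (by
        refine ⟨fun x y => ?_⟩
        obtain ⟨k, hk⟩ := H63.Hamming.regHom_trans φ e x y
        exact ⟨⟨_, k, rfl⟩, hk⟩)
      (by
        intro a
        rw [eq_bot_iff]
        rintro ⟨_, k, rfl⟩ hk
        have hka : H63.Hamming.regHom φ e k a = a := hk
        rw [H63.Hamming.regHom_eq_self_iff] at hka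
        subst hka
        simp)
      (H63.Hamming.isoGroup_preprimitive (by simpa using hm))
      (H63.Hamming.isoGroup_not_two hr (by simp; omega))
  exact ⟨_, G', R', h1, h2, h3, h4, h5, h6⟩

end Cfsg.Agent.S3560
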