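import Cfsg.Statements.S3572
import Cfsg.Agent.H74.DihMain

set_option autoImplicit false
open Cfsg

namespace Cfsg.Agent.S3572

/-- A finite primitive permutation group containing a dihedral subgroup that acts regularly (transitively with trivial point stabilizers) is doubly transitive. -/
theorem result {G Ω : Type*} [Group G] [Finite G] [MulAction G Ω] [FaithfulSMul G Ω] [Finite Ω]
    (hprim : MulAction.IsPreprimitive G Ω) (D : Subgroup G) (m : ℕ) (hD : Nonempty (↥D ≃* DihedralGroup m))
    (hDreg : MulAction.IsPretransitive ↥D Ω ∧ ∀ a : Ω, MulAction.stabilizer ↥D a = ⊥) :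
    MulAction.IsMultiplyPretransitive G Ω 2 := by
  rcases Nat.eq_zero_or_pos m with rfl | hm
  · exfalso
    obtain ⟨e⟩ := hD
    have : Finite (DihedralGroup 0) := Finite.of_equiv D e.toEquiv
    exact not_finite (DihedralGroup 0)
  · haveI : NeZero m := ⟨hm.ne'⟩
    obtain ⟨P, hP⟩ := Cfsg.Agent.H71.Dih.exists_PSR_of_regular hprim D hD hDreg
    exact hP (Cfsg.Agent.H74.Dih.PSR.triv P)

end Cfsg.Agent.S3572
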