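import Cfsg.Statements.S3573
import Cfsg.Agent.H63.KSubsets

set_option autoImplicit false
open Cfsg

namespace Cfsg.Agent.S3573

/-- Let 1 ≤ k with 2k < n and consider the symmetric group of degree n acting on the k-subsets of an n-set. Let r be a prime dividing the number C(n,k) of k-subsets. If r is odd, then every permutation of order r fixes some k-subset if and only if r ≤ k and the remainder of k modulo r is at most the remainder of n modulo r. If r = 2, then every involution fixes some k-subset if and only if k is even or n is odd. -/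
theorem result (n k : ℕ) (hk : 1 ≤ k) (hkn : 2 * k < n) (r : ℕ) (hr : r.Prime) (hrd : r ∣ Nat.choose n k) :
    (r ≠ 2 → ((∀ σ : Equiv.Perm (Fin n), orderOf σ = r → ∃ s : Finset (Fin n), s.card = k ∧ s.image σ = s) ↔
      (r ≤ k ∧ k % r ≤ n % r))) ∧
    (r = 2 → ((∀ σ : Equiv.Perm (Fin n), orderOf σ = 2 → ∃ s : Finset (Fin n), s.card = k ∧ s.image σ = s) ↔
      (Even k ∨ Odd n))) := by
  have hkn' : k ≤ n := by omega
  have hrn : r ≤ n := Cfsg.Agent.H63.KSubsets.le_of_dvd_choose' n k r hr hkn' hrd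
  have key : (∀ σ : Equiv.Perm (Fin n), orderOf σ = r →
      ∃ s : Finset (Fin n), s.card = k ∧ s.image σ = s) ↔ k % r ≤ n % r :=
    ⟨Cfsg.Agent.H63.KSubsets.necessity n k r hr hrn,
      fun h σ hσ => Cfsg.Agent.H63.KSubsets.sufficiency n k r hr hkn' h σ hσ⟩
  refine ⟨fun _ => ?_, fun h2 => ?_⟩
  · rw [key]
    exact ⟨fun h => ⟨Cfsg.Agent.H63.KSubsets.le_of_dvd_choose n k r hr hrd h, h⟩, fun h => h.2⟩
  · subst h2
    rw [key, Nat.even_iff, Nat.odd_iff]
    omega

end Cfsg.Agent.S3573
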