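import Cfsg.Statements.S3575
import Cfsg.Agent.H63.UPart

set_option autoImplicit false
open Cfsg

namespace Cfsg.Agent.S3575

/-- Let a, b ≥ 2 and consider the symmetric group of degree a·b acting on the partitions of an (a·b)-set into b parts of size a (encoded as maps onto a b-element set all of whose fibres have a elements; a permutation fixes such a partition when it permutes the fibres). Let r be a prime dividing the number (ab)!/((a!)^b·b!) of such partitions, and let ℓ and k be the remainders of a and b modulo r. Then every permutation of order r fixes some such partition if and only if r ≤ a and one of the following holds: ℓ = 0; or k = 0 and ℓ = 1; or ℓ and k are non-zero, k·ℓ < r, and either b < r or (k + r)·ℓ ≤ k·a + r. -/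
theorem result (a b : ℕ) (ha : 2 ≤ a) (hb : 2 ≤ b) (r : ℕ) (hr : r.Prime)
    (hrd : r ∣ (a * b).factorial / (a.factorial ^ b * b.factorial)) :
    (∀ σ : Equiv.Perm (Fin (a * b)), orderOf σ = r →
        ∃ f : Fin (a * b) → Fin b, (∀ j : Fin b, Nat.card {x : Fin (a * b) // f x = j} = a) ∧
          ∃ π : Equiv.Perm (Fin b), ∀ x : Fin (a * b), f (σ x) = π (f x)) ↔
      (r ≤ a ∧ (a % r = 0 ∨ (b % r = 0 ∧ a % r = 1) ∨
        (a % r ≠ 0 ∧ b % r ≠ 0 ∧ (b % r) * (a % r) < r ∧ (b < r ∨ (b % r + r) * (a % r) ≤ (b % r) * a + r)))) := by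
  have hrab : r ≤ a * b := Cfsg.Agent.H63.UPart.le_of_dvd a b r hr (by omega) hrd
  have hA := (Nat.div_add_mod a r).symm
  have hB := (Nat.div_add_mod b r).symm
  have hℓ := Nat.mod_lt a hr.pos
  have hk := Nat.mod_lt b hr.pos
  have hAr : a / r * r ≤ a := Nat.div_mul_le_self a r
  have : Fact r.Prime := ⟨hr⟩
  constructor
  · intro H
    apply Cfsg.Agent.H63.UPart.rhs_of_cover a b r (a / r) (a % r) (b / r) (b % r) hr.two_le ha hb
      hA hℓ hB hk hrab
    intro m hm1 hm2
    obtain ⟨σ, hσr, hσs⟩ := Cfsg.Agent.H63.UPart.exists_perm (a * b) m r hr hm2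
    have hσne : σ ≠ 1 := by
      intro h
      rw [h, Equiv.Perm.support_one, Finset.card_empty] at hσs
      have : 0 < m * r := Nat.mul_pos hm1 hr.pos
      omega
    have hord : orderOf σ = r := orderOf_eq_prime hσr hσne
    obtain ⟨f, hf, π, hπ⟩ := H σ hord
    have hc := Cfsg.Agent.H63.UPart.cover_of_invariant a b r hr (by omega) σ hσr f hf π hπ
    rwa [hσs, Nat.mul_div_cancel _ hr.pos] at hc
  · intro H σ hσ
    apply Cfsg.Agent.H63.UPart.invariant_of_cover a b r (a / r) hr hAr σ hσ
    apply Cfsg.Agent.H63.UPart.cover_of_rhs a b r (a / r) (a % r) (b / r) (b % r) _ hr.two_le ha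
      hA hℓ hB hk ?_ H.1 H.2
    calc σ.support.card / r * r ≤ σ.support.card := Nat.div_mul_le_self _ _
      _ ≤ a * b := by simpa using Finset.card_le_univ σ.support

end Cfsg.Agent.S3575
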