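import Cfsg.Statements.S3599
import Cfsg.Agent.H64.CritProd

set_option autoImplicit false
open Cfsg

namespace Cfsg.Agent.S3599

open Cfsg.Agent.H64

/-- A finite group is critical with respect to a set Ω of natural numbers when its set of element orders is Ω while no proper section H/N (H a subgroup, N normal in H, (H, N) ≠ (whole group, 1)) has Ω as its set of element orders. Let s ≥ 1 and let p(j,0), p(j,1) (j < s) be 2s pairwise distinct primes, and let Ω be the set of all products c(0)·…·c(s−1) with each c(j) ∈ {1, p(j,0), p(j,1)}. Then there are 2^s pairwise non-isomorphic finite groups critical with respect to Ω. -/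
theorem result (s : ℕ) (hs : 1 ≤ s) (p : Fin s → Fin 2 → ℕ)
    (hp : ∀ j i, (p j i).Prime) (hinj : ∀ j i j' i', p j i = p j' i' → j = j' ∧ i = i') :
    ∃ (G : Fin (2 ^ s) → Type) (_ : ∀ a, Group (G a)) (_ : ∀ a, Fintype (G a)),
      (∀ a b, a ≠ b → ¬ Nonempty (G a ≃* G b)) ∧
      ∀ a, Set.range (orderOf : (G a) → ℕ) = {m : ℕ | ∃ c : Fin s → ℕ, (∀ j, c j = 1 ∨ c j = p j 0 ∨ c j = p j 1) ∧ m = ∏ j, c j} ∧
      ∀ (H : Subgroup (G a)) (N : Subgroup ↥H) [N.Normal], (H ≠ ⊤ ∨ N ≠ ⊥) → Set.range (orderOf : (↥H ⧸ N) → ℕ) ≠ {m : ℕ | ∃ c : Fin s → ℕ, (∀ j, c j = 1 ∨ c j = p j 0 ∨ c j = p j 1) ∧ m = ∏ j, c j} := by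
  classical
  have hne : ∀ (j : Fin s) (i : Fin 2), p j i ≠ p j (1 - i) := by
    intro j i h
    have h2 := (hinj _ _ _ _ h).2
    fin_cases i <;> simp at h2
  have hcopr : ∀ j i j' i', j ≠ j' → (p j i).Coprime (p j' i') := by
    intro j i j' i' hjj'
    exact (Nat.coprime_primes (hp j i) (hp j' i')).mpr (fun h => hjj' (hinj _ _ _ _ h).1)
  have hcase : ∀ (j : Fin s) (i : Fin 2) (c : ℕ),
      (c = 1 ∨ c = p j i ∨ c = p j (1 - i)) ↔ (c = 1 ∨ c = p j 0 ∨ c = p j 1) := by
    intro j i c
    fin_cases i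
    · simp
    · simp only [Fin.mk_one, sub_self]
      tauto
  have hmemΩ : ∀ (j : Fin s) (i : Fin 2), p j i ∈ {m : ℕ | ∃ c : Fin s → ℕ,
      (∀ j, c j = 1 ∨ c j = p j 0 ∨ c j = p j 1) ∧ m = ∏ j, c j} := by
    intro j i
    refine ⟨fun j' => if j' = j then p j i else 1, ?_, ?_⟩
    · intro j'
      by_cases h : j' = j
      · subst h
        simp only [if_true]
        fin_cases i
        · exact Or.inr (Or.inl rfl)
        · exact Or.inr (Or.inr rfl)
      · simp [h]
    · simp
  let D : ∀ (j : Fin s) (i : Fin 2), CritGroup (p j i) (p j (1 - i)) := fun j i =>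
    Classical.choice (nonempty_critGroup _ _ (hp j i) (hp j (1 - i)) (hne j i))
  let e : Fin (2 ^ s) ≃ (Fin s → Fin 2) := finFunctionFinEquiv.symm
  have hcop : ∀ (a : Fin (2 ^ s)) (j j' : Fin s), j ≠ j' →
      (p j (e a j)).Coprime (p j' (e a j')) ∧ (p j (e a j)).Coprime (p j' (1 - e a j')) ∧
      (p j (1 - e a j)).Coprime (p j' (e a j')) ∧ (p j (1 - e a j)).Coprime (p j' (1 - e a j')) :=
    fun a j j' hjj' => ⟨hcopr _ _ _ _ hjj', hcopr _ _ _ _ hjj', hcopr _ _ _ _ hjj',
      hcopr _ _ _ _ hjj'⟩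
  refine ⟨fun a => ∀ j : Fin s, (D j (e a j)).carrier, fun a => Pi.group,
    fun a => Fintype.ofFinite _, ?_, ?_⟩
  · rintro a b hab ⟨φ⟩
    have hab' : e a ≠ e b := fun h => hab (e.injective h)
    obtain ⟨j, hj⟩ := Function.ne_iff.mp hab'
    have hN := crit_prod_normP (P := fun j => p j (e a j)) (Q := fun j => p j (1 - e a j))
      (fun j => D j (e a j)) (fun j => hp _ _) (fun j => hp _ _) (hcop a) j
    have hN' := normP_of_mulEquiv φ _ hN
    have hq : e a j = 1 - e b j := by
      generalize e a j = u at hj ⊢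
      generalize e b j = v at hj ⊢
      fin_cases u <;> fin_cases v <;> simp at hj ⊢
    have hq' : p j (e a j) = p j (1 - e b j) := by rw [hq]
    simp only [hq'] at hN'
    exact crit_prod_not_normQ (P := fun j => p j (e b j)) (Q := fun j => p j (1 - e b j))
      (fun j => D j (e b j)) (fun j => hp _ _) (fun j => hp _ _) (fun j => hne _ _) j hN'
  · intro a
    have hset : {m | ∃ c : Fin s → ℕ, (∀ j, c j = 1 ∨ c j = p j (e a j) ∨ c j = p j (1 - e a j)) ∧
        m = ∏ j, c j} = {m : ℕ | ∃ c : Fin s → ℕ,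
          (∀ j, c j = 1 ∨ c j = p j 0 ∨ c j = p j 1) ∧ m = ∏ j, c j} := by
      ext m
      constructor
      · rintro ⟨c, hc, hm⟩
        exact ⟨c, fun j => (hcase j (e a j) (c j)).mp (hc j), hm⟩
      · rintro ⟨c, hc, hm⟩
        exact ⟨c, fun j => (hcase j (e a j) (c j)).mpr (hc j), hm⟩
    constructor
    · rw [← hset]
      exact crit_prod_orders (P := fun j => p j (e a j)) (Q := fun j => p j (1 - e a j))
        (fun j => D j (e a j)) (hcop a)
    · intro H N _ hHN hrange
      have hex : ∀ (j : Fin s) (i : Fin 2), ∃ w : ↥H ⧸ N, orderOf w = p j i := by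
        intro j i
        have := hmemΩ j i
        rw [← hrange] at this
        exact this
      have := crit_prod_crit (P := fun j => p j (e a j)) (Q := fun j => p j (1 - e a j))
        (fun j => D j (e a j)) (fun j => hp _ _) (fun j => hp _ _) (hcop a) H N
        (fun j => hex j _) (fun j => hex j _)
      rcases hHN with h | h
      · exact h this.1
      · exact h this.2

end Cfsg.Agent.S3599
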