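-- Statement S3619 (row 3619).
import Cfsg.Statements.S3619
import Cfsg.Agent.H64.Jordan

set_option autoImplicit false
open Cfsg

namespace Cfsg.Agent.S3619

/-- Let G act faithfully on a finite set in such a way that every non-trivial normal subgroup of G is transitive (G is quasiprimitive). Let Γ be a subset with more than one point and not the whole set, such that the pointwise stabilizer of the complement of Γ acts transitively on Γ (a Jordan set). If that pointwise stabilizer acts primitively on Γ, then G is k-fold transitive where k is one more than the number of points outside Γ (the Jordan set is a trivial one). -/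
theorem result {G Ω : Type*} [Group G] [Finite G] [MulAction G Ω] [FaithfulSMul G Ω] [Finite Ω]
    (hqp : ∀ N : Subgroup G, N.Normal → N ≠ ⊥ → MulAction.IsPretransitive ↥N Ω)
    (Γ : Set Ω) (hΓ1 : 1 < Γ.ncard) (hΓ2 : Γ.ncard < Nat.card Ω)
    (hJ : MulAction.IsPretransitive ↥(fixingSubgroup G Γᶜ) ↥(SubMulAction.ofFixingSubgroup G Γᶜ))
    (hJp : MulAction.IsPreprimitive ↥(fixingSubgroup G Γᶜ) ↥(SubMulAction.ofFixingSubgroup G Γᶜ)) :
    MulAction.IsMultiplyPretransitive G Ω (Nat.card Ω - Γ.ncard + 1) := by
  have hprim : MulAction.IsPreprimitive G Ω :=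
    Cfsg.Agent.H64.isPreprimitive_of_quasi_of_jordan hqp Γ hΓ1 hJp
  have hc : Γ.ncard + Γᶜ.ncard = Nat.card Ω := Set.ncard_add_ncard_compl Γ
  have hsn : Γᶜ.ncard = (Nat.card Ω - Γ.ncard - 1) + 1 := by omega
  have hsn' : (Nat.card Ω - Γ.ncard - 1) + 2 < Nat.card Ω := by omega
  have key := hprim.isMultiplyPreprimitive hsn hsn' hJp
  have e : Nat.card Ω - Γ.ncard + 1 = (Nat.card Ω - Γ.ncard - 1) + 2 := by omega
  rw [e]
  exact MulAction.IsMultiplyPreprimitive.isMultiplyPretransitive ..

end Cfsg.Agent.S3619
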