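import Cfsg.Statements.S3620
import Cfsg.Agent.H64.MgAsm
import Cfsg.Agent.H64.MgGood
import Cfsg.Agent.H3.MgK2M
import Cfsg.Agent.H3.MgConv1
import Cfsg.Agent.H3.MgU1
import Cfsg.Agent.H3.MgB3T
import Cfsg.Agent.H19.MgConj
import Cfsg.Agent.H19.MgTr1
import Cfsg.Agent.H19.MgCntB
import Cfsg.Agent.H40.MgCntC
import Cfsg.Agent.H40.MgCls
import Cfsg.Agent.H12.MgDes
import Cfsg.Agent.H12.MgDA
import Cfsg.Agent.H12.MgC1Sub
import Cfsg.Agent.H26.MgQPA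
import Cfsg.Agent.H26.MgA3
import Cfsg.Agent.H61.MgQpb
import Cfsg.Agent.H62.MgM2K
import Cfsg.Agent.H62.MgJT2
import Cfsg.Agent.H62.MgDB
import Cfsg.Agent.H73.MgLCG
import Cfsg.Agent.H91.MgLCW

set_option autoImplicit false
open Cfsg

namespace Cfsg.Agent.S3620

universe u v

open Cfsg.Agent.H64.Mg in
/-- Marggraf, primitive case, every degree. -/
theorem mstmt : ∀ N, MStmt.{u, v} N :=
  mstmt_all
    (Cfsg.Agent.H62.Mg.jt2 Cfsg.Agent.H3.Mg.conv1 Cfsg.Agent.H62.Mg.m2k)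
    (Cfsg.Agent.H91.Mg.lcw
      (Cfsg.Agent.H73.Mg.lcg Cfsg.Agent.H12.Mg.des Cfsg.Agent.H19.Mg.cntB Cfsg.Agent.H40.Mg.cntC))
    Cfsg.Agent.H64.Mg.good
    Cfsg.Agent.H26.Mg.a3
    (Cfsg.Agent.H3.Mg.b3t_of Cfsg.Agent.H62.Mg.m2k)
    Cfsg.Agent.H3.Mg.u1
    Cfsg.Agent.H19.Mg.tr1
    Cfsg.Agent.H40.Mg.cls
    (Cfsg.Agent.H12.Mg.c1sub Cfsg.Agent.H19.Mg.conj)
    (Cfsg.Agent.H12.Mg.da Cfsg.Agent.H19.Mg.conj)
    Cfsg.Agent.H62.Mg.db

/-- Let G act faithfully on a finite set in such a way that every non-trivial normal subgroup of G is transitive (G is quasiprimitive). Let Γ be a subset with more than one point and fewer than half of the points, such that the pointwise stabilizer of the complement of Γ acts transitively on Γ. Then G induces every even permutation of the set (G is the alternating or the symmetric group). -/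
theorem result {G Ω : Type*} [Group G] [Finite G] [MulAction G Ω] [FaithfulSMul G Ω] [Fintype Ω] [DecidableEq Ω]
    (hqp : ∀ N : Subgroup G, N.Normal → N ≠ ⊥ → MulAction.IsPretransitive ↥N Ω)
    (Γ : Set Ω) (hΓ1 : 1 < Γ.ncard) (hΓ2 : 2 * Γ.ncard < Fintype.card Ω)
    (hJ : MulAction.IsPretransitive ↥(fixingSubgroup G Γᶜ) ↥(SubMulAction.ofFixingSubgroup G Γᶜ)) :
    ∀ σ : Equiv.Perm Ω, Equiv.Perm.sign σ = 1 → ∃ x : G, (MulAction.toPerm x : Equiv.Perm Ω) = σ :=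
  Cfsg.Agent.H64.Mg.marggraf mstmt mstmt Cfsg.Agent.H3.Mg.conv1 Cfsg.Agent.H26.Mg.qpa
    Cfsg.Agent.H61.Mg.qpb hqp Γ hΓ1 hΓ2 hJ

end Cfsg.Agent.S3620
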