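-- Statement S3633 (row 3633).
import Cfsg.Statements.S3633
import Cfsg.Agent.H64.PrimeGraph

set_option autoImplicit false
open Cfsg

namespace Cfsg.Agent.S3633

/-- Let G be a finite group and ρ a set of at least three prime divisors of the order of G that are pairwise non-adjacent in the prime graph (no element of order rs for distinct r, s ∈ ρ). Then at most one prime of ρ divides the order of any given solvable normal subgroup of G; in particular G is not solvable. -/
theorem result {G : Type*} [Group G] [Finite G] (ρ : Finset ℕ) (hρ : 3 ≤ ρ.card) (hc : ((∀ r ∈ ρ, r.Prime ∧ r ∣ Nat.card G) ∧ (∀ r ∈ ρ, ∀ s ∈ ρ, r ≠ s → ¬ ∃ x : G, orderOf x = r * s)))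
    (K : Subgroup G) [K.Normal] (hK : Group.IsSolvable ↥K) :
    (∀ r ∈ ρ, ∀ s ∈ ρ, r ∣ Nat.card ↥K → s ∣ Nat.card ↥K → r = s) ∧ ¬ Group.IsSolvable G := by
  obtain ⟨hc1, hc2⟩ := hc
  -- a third element of ρ
  have third : ∀ r ∈ ρ, ∀ s ∈ ρ, ∃ t ∈ ρ, t ≠ r ∧ t ≠ s := by
    intro r hr s hs
    by_contra hcon
    push Not at hcon
    have hsub : ρ ⊆ {r, s} := by
      intro t ht
      by_cases htr : t = r
      · simp [htr]
      · simp [hcon t ht htr]
    have := Finset.card_le_card hsub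
    have h2 : ({r, s} : Finset ℕ).card ≤ 2 := Finset.card_le_two
    omega
  have key : ∀ (K : Subgroup G) [K.Normal], Group.IsSolvable ↥K →
      ∀ r ∈ ρ, ∀ s ∈ ρ, r ∣ Nat.card ↥K → s ∣ Nat.card ↥K → r = s := by
    intro K _ hK r hr s hs hrK hsK
    by_contra hrs
    obtain ⟨t, ht, htr, hts⟩ := third r hr s hs
    rcases Cfsg.Agent.H64.solvable_normal_three_primes K hK (hc1 r hr).1 (hc1 s hs).1 (hc1 t ht).1
      hrs (Ne.symm htr) (Ne.symm hts) hrK hsK (hc1 t ht).2 with h | h | h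
    · exact hc2 r hr s hs hrs h
    · exact hc2 r hr t ht (Ne.symm htr) h
    · exact hc2 s hs t ht (Ne.symm hts) h
  refine ⟨key K hK, ?_⟩
  intro hG
  -- apply `key` to ⊤
  have hsol : Group.IsSolvable ↥(⊤ : Subgroup G) := inferInstance
  have htop := key ⊤ hsol
  obtain ⟨r, s, hr, hs, hrs⟩ : ∃ r s, r ∈ ρ ∧ s ∈ ρ ∧ r ≠ s := by
    have h1 : 1 < ρ.card := by omega
    obtain ⟨r, hr, s, hs, hrs⟩ := Finset.one_lt_card.mp h1
    exact ⟨r, s, hr, hs, hrs⟩
  apply hrs
  apply htop r hr s hs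
  · rw [Subgroup.card_top]; exact (hc1 r hr).2
  · rw [Subgroup.card_top]; exact (hc1 s hs).2

end Cfsg.Agent.S3633
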