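import Cfsg.Statements.S3641
import Cfsg.Agent.S0732
import Cfsg.Agent.H80.SNN3
import Cfsg.Agent.H87.SNN2
import Cfsg.Agent.H57.SNQ
import Cfsg.Agent.H67.SNAct
import Cfsg.Agent.H24.S3641C
import Cfsg.Agent.H20.SNB
import Cfsg.Agent.H4.SNTrans
import Cfsg.Agent.H62.SNOrd9

set_option autoImplicit false
open Cfsg

namespace Cfsg.Agent.S3641

/-- If `r ∤ |H|` then `H` has exactly one Sylow `r`-subgroup. -/
theorem card_sylow_eq_one_of_not_dvd {H : Type*} [Group H] [Finite H] (r : ℕ) [Fact r.Prime]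
    (h : ¬ r ∣ Nat.card H) : Nat.card (Sylow r H) = 1 := by
  have hr : r.Prime := Fact.out
  obtain ⟨R⟩ : Nonempty (Sylow r H) := inferInstance
  have h1 := R.card_eq_multiplicity
  rw [Nat.factorization_eq_zero_of_not_dvd h, pow_zero] at h1
  have h2 : (R : Subgroup H) = ⊥ := Subgroup.card_eq_one.1 h1
  rw [R.card_eq_index_normalizer, Subgroup.index_eq_one]
  have h3 : Subgroup.normalizer (((R : Subgroup H)) : Set H) = ⊤ := by
    rw [h2]
    exact Subgroup.normalizer_eq_top_iff.2 inferInstance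
  exact h3

/-- Let G be a finite group with trivial centre whose set of Sylow numbers (numbers of Sylow r-subgroups, r over the prime divisors of its order) is exactly {18, 136, 153}. Then G is isomorphic to PSL(2, 17) or to PGL(2, 17). -/
theorem result {G : Type*} [Group G] [Finite G] (hZ : Subgroup.center G = ⊥) (hNS : {c : ℕ | ∃ r : ℕ, r.Prime ∧ r ∣ Nat.card G ∧ c = Nat.card (Sylow r G)} = ({18, 136, 153} : Set ℕ))
    {F : Type*} [Field F] [Fintype F] (hF : Fintype.card F = 17) :
    Nonempty (G ≃* Matrix.ProjectiveSpecialLinearGroup (Fin 2) F) ∨ Nonempty (G ≃* (GL (Fin 2) F ⧸ Subgroup.center (GL (Fin 2) F))) := by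
  classical
  have h17 : Fact (Nat.Prime 17) := ⟨by norm_num⟩
  have : Fact (Nat.Prime 2) := ⟨Nat.prime_two⟩
  have : Fact (Nat.Prime 3) := ⟨Nat.prime_three⟩
  have h5 : Fact (Nat.Prime 5) := ⟨by norm_num⟩
  have h19 : Fact (Nat.Prime 19) := ⟨by norm_num⟩
  -- arithmetic of the Sylow numbers
  have hmem : ∀ r : ℕ, r.Prime → r ∣ Nat.card G → Nat.card (Sylow r G) = 18 ∨
      Nat.card (Sylow r G) = 136 ∨ Nat.card (Sylow r G) = 153 := by
    intro r hr hd
    have h1 : Nat.card (Sylow r G) ∈ ({18, 136, 153} : Set ℕ) := by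
      rw [← hNS]; exact ⟨r, hr, hd, rfl⟩
    simpa using h1
  have hmod : ∀ r : ℕ, r.Prime → Nat.card (Sylow r G) % r = 1 := by
    intro r hr
    have := Fact.mk hr
    have h1 : Nat.card (Sylow r G) % r = 1 % r := card_sylow_modEq_one r G
    rwa [Nat.mod_eq_of_lt hr.one_lt] at h1
  have hdvd_sub : ∀ r c : ℕ, r.Prime → c % r = 1 → 1 ≤ c → r ∣ c - 1 := by
    intro r c hr hc hc1
    have h1 := Nat.div_add_mod c r
    rw [hc] at h1
    exact ⟨c / r, by omega⟩
  obtain ⟨r0, hr0, hr0d, h18⟩ : ∃ r : ℕ, r.Prime ∧ r ∣ Nat.card G ∧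
      18 = Nat.card (Sylow r G) := by
    have h1 : (18 : ℕ) ∈ {c : ℕ | ∃ r : ℕ, r.Prime ∧ r ∣ Nat.card G ∧
        c = Nat.card (Sylow r G)} := by rw [hNS]; simp
    exact h1
  have hr0' : r0 = 17 := by
    have h1 := hdvd_sub r0 18 hr0 (by rw [h18]; exact hmod r0 hr0) (by norm_num)
    exact (Nat.prime_dvd_prime_iff_eq hr0 (by norm_num)).1 h1
  subst hr0'
  have hn17 : Nat.card (Sylow 17 G) = 17 + 1 := by rw [← h18]
  -- the action on the Sylow 17-subgroups
  obtain ⟨d, hd16, hcardH⟩ := Cfsg.Agent.H67.SN.sylow_action_card (G := G) 17 hn17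
  haveI : Fintype (Sylow 17 G) := Fintype.ofFinite _
  have hα : Fintype.card (Sylow 17 G) = 17 + 1 := by
    rw [← Nat.card_eq_fintype_card]; exact hn17
  obtain ⟨φ, hφdef⟩ : ∃ φ : G →* Equiv.Perm (Sylow 17 G),
      φ = MulAction.toPermHom G (Sylow 17 G) := ⟨_, rfl⟩
  rw [← hφdef] at hcardH
  have hφapp : ∀ (g : G) (a : Sylow 17 G), φ g a = g • a := by
    intro g a; rw [hφdef]; rfl
  haveI : MulAction.IsPretransitive φ.range (Sylow 17 G) := by
    constructor
    intro a b
    obtain ⟨g, hg⟩ := MulAction.exists_smul_eq G a b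
    refine ⟨⟨φ g, ⟨g, rfl⟩⟩, ?_⟩
    show φ g a = b
    rw [hφapp]; exact hg
  have hd17 : d < 17 := lt_of_le_of_lt (Nat.le_of_dvd (by norm_num) hd16) (by norm_num)
  have key := Cfsg.Agent.S0732.result (p := 17) (d := d) (by norm_num) hα φ.range hcardH hd17
  -- `d`, an element of order 9, and the isomorphism type of the image
  obtain ⟨hd, x, hx, hiso⟩ : (d = 8 ∨ d = 16) ∧ ∃ x : φ.range, orderOf x = 9 ∧
      (Nonempty (φ.range ≃* Matrix.ProjectiveSpecialLinearGroup (Fin 2) F) ∨
        Nonempty (φ.range ≃* (GL (Fin 2) F ⧸ Subgroup.center (GL (Fin 2) F)))) := by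
    rcases key with ⟨hd', ⟨e⟩⟩ | ⟨hd', ⟨e⟩⟩ | ⟨q, hq, h18q, -⟩
    · obtain ⟨y, hy⟩ := Cfsg.Agent.H62.SN.exists_orderOf_nine_pgl
      obtain ⟨e2⟩ := Cfsg.Agent.H4.SN.pgl_zmod_equiv hF
      refine ⟨Or.inr (by omega), e.symm y, ?_, Or.inr ⟨e.trans e2⟩⟩
      rw [MulEquiv.orderOf_eq]; exact hy
    · obtain ⟨y, hy⟩ := Cfsg.Agent.H62.SN.exists_orderOf_nine_psl
      obtain ⟨e2⟩ := Cfsg.Agent.H4.SN.psl_zmod_equiv hF
      refine ⟨Or.inl (by omega), e.symm y, ?_, Or.inl ⟨e.trans e2⟩⟩
      rw [MulEquiv.orderOf_eq]; exact hy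
    · exfalso
      have h1 : q ≤ 5 := by
        by_contra hcon
        have h2 : 2 ^ 6 ≤ 2 ^ q := Nat.pow_le_pow_right (by norm_num) (by omega)
        omega
      interval_cases q <;> omega
  have hcardH' : Nat.card φ.range = 18 * 17 * d := by rw [hcardH]
  have hn2H := Cfsg.Agent.H87.SN.card_sylow_two hα φ.range d hd hcardH'
  have hn3H := Cfsg.Agent.H80.SN.card_sylow_three hα φ.range d hd hcardH' x hx
  -- the kernel
  have hK17 : ∀ P : Sylow 17 G, φ.ker ≤ Subgroup.normalizer ((P : Subgroup G) : Set G) := by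
    intro P g hg
    rw [MonoidHom.mem_ker] at hg
    have h1 : g • P = P := by rw [← hφapp, hg]; rfl
    exact Sylow.smul_eq_iff_mem_normalizer.1 h1
  have hQ : ∀ (r : ℕ) [Fact r.Prime] (R : Sylow r G), Nat.card (Sylow r G) =
      Nat.card (Sylow r φ.range) *
        (Subgroup.normalizer ((R : Subgroup G) : Set G)).relIndex φ.ker := by
    intro r _ R
    have h1 := Cfsg.Agent.H57.SN.card_sylow_eq_mul_relIndex φ.rangeRestrict
      φ.rangeRestrict_surjective r R
    rwa [MonoidHom.ker_rangeRestrict] at h1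
  have hHdvd : Nat.card φ.range ∣ Nat.card G := by
    have h1 := Subgroup.card_mul_index φ.ker
    have h2 : φ.ker.index = Nat.card φ.range := by
      rw [Subgroup.index_ker]
    rw [h2] at h1
    exact ⟨_, by rw [← h1, mul_comm]⟩
  have hall : ∀ (r : ℕ) [Fact r.Prime] (R : Sylow r G),
      φ.ker ≤ Subgroup.normalizer ((R : Subgroup G) : Set G) := by
    intro r hrf R
    have hr : r.Prime := hrf.out
    by_cases hrd : r ∣ Nat.card G
    swap
    · have h1 := R.card_eq_multiplicity
      rw [Nat.factorization_eq_zero_of_not_dvd hrd, pow_zero] at h1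
      have h2 : (R : Subgroup G) = ⊥ := Subgroup.card_eq_one.1 h1
      rw [h2]
      have h3 : Subgroup.normalizer (((⊥ : Subgroup G)) : Set G) = ⊤ :=
        Subgroup.normalizer_eq_top_iff.2 inferInstance
      rw [h3]
      exact le_top
    have hq := hQ r R
    have hm := hmod r hr
    rcases hmem r hr hrd with h | h | h
    · -- n_r = 18 : r = 17
      have h1 := hdvd_sub r 18 hr (by rw [← h]; exact hm) (by norm_num)
      have h2 : r = 17 := (Nat.prime_dvd_prime_iff_eq hr (by norm_num)).1 h1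
      subst h2
      exact hK17 R
    · -- n_r = 136 : r = 3 or r = 5
      have h1 := hdvd_sub r 136 hr (by rw [← h]; exact hm) (by norm_num)
      have h2 : r = 3 ∨ r = 5 := by
        have h3 : r ∣ 3 ^ 3 * 5 := by norm_num; exact h1
        rcases (Nat.Prime.dvd_mul hr).1 h3 with h4 | h4
        · left
          exact (Nat.prime_dvd_prime_iff_eq hr (by norm_num)).1 (hr.dvd_of_dvd_pow h4)
        · right
          exact (Nat.prime_dvd_prime_iff_eq hr (by norm_num)).1 h4
      rcases h2 with rfl | rfl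
      · rw [h] at hq
        have h3 := hn3H ⟨_, hq⟩
        rw [h3] at hq
        have h4 : (Subgroup.normalizer ((R : Subgroup G) : Set G)).relIndex φ.ker = 1 := by
          omega
        exact Subgroup.relIndex_eq_one.1 h4
      · exfalso
        have h3 : Nat.card (Sylow 5 φ.range) = 1 := by
          apply card_sylow_eq_one_of_not_dvd
          rw [hcardH']
          rcases hd with rfl | rfl <;> norm_num
        rw [h, h3, one_mul] at hq
        obtain ⟨P⟩ : Nonempty (Sylow 17 G) := inferInstance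
        have h4 := Cfsg.Agent.H24.S3641.ordProj_relIndex_modEq_one φ.ker 17 5 (by norm_num)
          P (hK17 P) R
        rw [← hq] at h4
        have h5 : (136 : ℕ).factorization 17 = 1 := by
          have h6 : (136 : ℕ) = 17 ^ 1 * 8 := by norm_num
          rw [h6, Nat.factorization_mul (by norm_num) (by norm_num)]
          simp [Nat.factorization_eq_zero_of_not_dvd (show ¬ 17 ∣ 8 by norm_num),
            Nat.Prime.factorization_self (show Nat.Prime 17 by norm_num)]
        rw [h5] at h4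
        have h6 : (17 ^ 1) % 5 = 1 % 5 := h4
        norm_num at h6
    · -- n_r = 153 : r = 2 or r = 19
      have h1 := hdvd_sub r 153 hr (by rw [← h]; exact hm) (by norm_num)
      have h2 : r = 2 ∨ r = 19 := by
        have h3 : r ∣ 2 ^ 3 * 19 := by norm_num; exact h1
        rcases (Nat.Prime.dvd_mul hr).1 h3 with h4 | h4
        · left
          exact (Nat.prime_dvd_prime_iff_eq hr (by norm_num)).1 (hr.dvd_of_dvd_pow h4)
        · right
          exact (Nat.prime_dvd_prime_iff_eq hr (by norm_num)).1 h4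
      rcases h2 with rfl | rfl
      · rw [h, hn2H] at hq
        have h4 : (Subgroup.normalizer ((R : Subgroup G) : Set G)).relIndex φ.ker = 1 := by
          omega
        exact Subgroup.relIndex_eq_one.1 h4
      · exfalso
        have h3 : Nat.card (Sylow 19 φ.range) = 1 := by
          apply card_sylow_eq_one_of_not_dvd
          rw [hcardH']
          rcases hd with rfl | rfl <;> norm_num
        rw [h, h3, one_mul] at hq
        obtain ⟨P⟩ : Nonempty (Sylow 17 G) := inferInstance
        have h4 := Cfsg.Agent.H24.S3641.ordProj_relIndex_modEq_one φ.ker 17 19 (by norm_num)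
          P (hK17 P) R
        rw [← hq] at h4
        have h5 : (153 : ℕ).factorization 17 = 1 := by
          have h6 : (153 : ℕ) = 17 ^ 1 * 9 := by norm_num
          rw [h6, Nat.factorization_mul (by norm_num) (by norm_num)]
          simp [Nat.factorization_eq_zero_of_not_dvd (show ¬ 17 ∣ 9 by norm_num),
            Nat.Prime.factorization_self (show Nat.Prime 17 by norm_num)]
        rw [h5] at h4
        have h6 : (17 ^ 1) % 19 = 1 % 19 := h4
        norm_num at h6
  have hKbot : φ.ker = ⊥ := Cfsg.Agent.H20.SN.eq_bot_of_normalizes_sylows hZ φ.ker hall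
  have hinj : Function.Injective φ := (MonoidHom.ker_eq_bot_iff φ).1 hKbot
  rcases hiso with ⟨⟨e⟩⟩ | ⟨⟨e⟩⟩
  · exact Or.inl ⟨(MonoidHom.ofInjective hinj).trans e⟩
  · exact Or.inr ⟨(MonoidHom.ofInjective hinj).trans e⟩

end Cfsg.Agent.S3641
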