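-- Statement S3660 (row 3660).
import Mathlib
import Cfsg.Statements.S3660

set_option autoImplicit false
open Cfsg

namespace Cfsg.Agent.S3660

open Matrix

/-- In characteristic 2, a matrix of determinant 1 with a nonzero fixed vector squares to 1. -/
theorem sq_eq_one_of_fixed {K : Type*} [Field K] [CharP K 2] (A : Matrix (Fin 2) (Fin 2) K)
    (hdet : A.det = 1) (v : Fin 2 → K) (hv : v ≠ 0) (hAv : A.mulVec v = v) : A * A = 1 := by
  have h2 : (2 : K) = 0 := CharTwo.two_eq_zero
  rw [Matrix.det_fin_two] at hdet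
  have e0 := congrFun hAv 0
  have e1 := congrFun hAv 1
  simp only [Matrix.mulVec, dotProduct, Fin.sum_univ_two] at e0 e1
  have hs : (A 0 0 + A 1 1) = 0 := by
    have hx : ((A 0 0 - 1) * (A 1 1 - 1) - A 0 1 * A 1 0) * v 0 = 0 := by
      linear_combination (A 1 1 - 1) * e0 - A 0 1 * e1
    have hy : ((A 0 0 - 1) * (A 1 1 - 1) - A 0 1 * A 1 0) * v 1 = 0 := by
      linear_combination (A 0 0 - 1) * e1 - A 1 0 * e0
    have hne : v 0 ≠ 0 ∨ v 1 ≠ 0 := by
      by_contra hcon
      push Not at hcon
      apply hv
      ext i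
      fin_cases i
      · exact hcon.1
      · exact hcon.2
    have hz : (A 0 0 - 1) * (A 1 1 - 1) - A 0 1 * A 1 0 = 0 := by
      rcases hne with h | h
      · exact (mul_eq_zero.mp hx).resolve_right h
      · exact (mul_eq_zero.mp hy).resolve_right h
    linear_combination hdet - hz + h2
  ext i j
  fin_cases i <;> fin_cases j <;> simp [Matrix.mul_apply, Fin.sum_univ_two]
  · linear_combination A 0 0 * hs - hdet - h2
  · linear_combination A 0 1 * hs
  · linear_combination A 1 0 * hs
  · linear_combination A 1 1 * hs - hdet - h2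

variable (K : Type) [Field K] (k : ℕ)

theorem coe_inv_mul (s : SpecialLinearGroup (Fin 2) K) (B : Matrix (Fin 2) (Fin k) K) :
    ((s⁻¹ : SpecialLinearGroup (Fin 2) K) : Matrix (Fin 2) (Fin 2) K) *
      ((s : Matrix (Fin 2) (Fin 2) K) * B) = B := by
  have h : ((s⁻¹ : SpecialLinearGroup (Fin 2) K) : Matrix (Fin 2) (Fin 2) K) *
      (s : Matrix (Fin 2) (Fin 2) K) = 1 := by
    have := Matrix.SpecialLinearGroup.coe_mul s⁻¹ s
    rw [inv_mul_cancel, Matrix.SpecialLinearGroup.coe_one] at this
    exact this.symm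
  rw [← Matrix.mul_assoc]
  exact (congrArg (fun M => M * B) h).trans (Matrix.one_mul B)

theorem coe_mul_inv (s : SpecialLinearGroup (Fin 2) K) (B : Matrix (Fin 2) (Fin k) K) :
    (s : Matrix (Fin 2) (Fin 2) K) *
      (((s⁻¹ : SpecialLinearGroup (Fin 2) K) : Matrix (Fin 2) (Fin 2) K) * B) = B := by
  have h : (s : Matrix (Fin 2) (Fin 2) K) *
      ((s⁻¹ : SpecialLinearGroup (Fin 2) K) : Matrix (Fin 2) (Fin 2) K) = 1 := by
    have := Matrix.SpecialLinearGroup.coe_mul s s⁻¹
    rw [mul_inv_cancel, Matrix.SpecialLinearGroup.coe_one] at this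
    exact this.symm
  rw [← Matrix.mul_assoc]
  exact (congrArg (fun M => M * B) h).trans (Matrix.one_mul B)

/-- The action of `SL(2, K)` on `2 × k` matrices by left multiplication. -/
def act : SpecialLinearGroup (Fin 2) K →* MulAut (Multiplicative (Matrix (Fin 2) (Fin k) K)) where
  toFun s := AddEquiv.toMultiplicative
    { toFun := fun B => (s : Matrix (Fin 2) (Fin 2) K) * B
      invFun := fun B => ((s⁻¹ : SpecialLinearGroup (Fin 2) K) : Matrix (Fin 2) (Fin 2) K) * B
      left_inv := fun B => coe_inv_mul K k s B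
      right_inv := fun B => coe_mul_inv K k s B
      map_add' := fun B C => Matrix.mul_add _ _ _ }
  map_one' := by
    ext B
    simp
  map_mul' := fun s t => by
    ext B
    simp [Matrix.mul_assoc]

theorem act_apply (s : SpecialLinearGroup (Fin 2) K) (B : Matrix (Fin 2) (Fin k) K) :
    act K k s (Multiplicative.ofAdd B) = Multiplicative.ofAdd ((s : Matrix (Fin 2) (Fin 2) K) * B) :=
  rfl

/-- The group `(K²)^k ⋊ SL(2, K)`. -/
abbrev HH : Type := Multiplicative (Matrix (Fin 2) (Fin k) K) ⋊[act K k] SpecialLinearGroup (Fin 2) K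

theorem act_eq_of_commute (h : HH K k) (v : Multiplicative (Matrix (Fin 2) (Fin k) K))
    (hc : h * SemidirectProduct.inl v = SemidirectProduct.inl v * h) : act K k h.right v = v := by
  have := congrArg SemidirectProduct.left hc
  rw [SemidirectProduct.mul_left, SemidirectProduct.mul_left] at this
  simp only [SemidirectProduct.left_inl, SemidirectProduct.right_inl, map_one, MulAut.one_apply] at this
  rw [mul_comm v] at this
  exact mul_left_cancel this

theorem pow_right (g : HH K k) (n : ℕ) : (g ^ n).right = g.right ^ n :=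
  map_pow (SemidirectProduct.rightHom : HH K k →* _) g n

theorem orderOf_right_dvd (g : HH K k) : orderOf g.right ∣ orderOf g :=
  orderOf_map_dvd (SemidirectProduct.rightHom : HH K k →* _) g

variable [CharP K 2]

theorem vv_mul_self (v : Multiplicative (Matrix (Fin 2) (Fin k) K)) : v * v = 1 := by
  apply Multiplicative.toAdd.injective
  change Multiplicative.toAdd v + Multiplicative.toAdd v = 0
  ext i j
  simp only [Matrix.add_apply, Matrix.zero_apply]
  exact CharTwo.add_self_eq_zero _

theorem sq_of_right_eq_one (h : HH K k) (hr : h.right = 1) : h * h = 1 := by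
  ext1
  · rw [SemidirectProduct.mul_left, hr, map_one]
    exact vv_mul_self K k h.left
  · rw [SemidirectProduct.mul_right, hr]
    simp

theorem sq_eq_one_of_act_fixed (s : SpecialLinearGroup (Fin 2) K)
    (v : Multiplicative (Matrix (Fin 2) (Fin k) K)) (hv : v ≠ 1) (hs : act K k s v = v) :
    s * s = 1 := by
  have hB : Multiplicative.toAdd v ≠ 0 := fun h => hv (Multiplicative.toAdd.injective h)
  have hsB : (s : Matrix (Fin 2) (Fin 2) K) * Multiplicative.toAdd v = Multiplicative.toAdd v :=
    congrArg Multiplicative.toAdd hs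
  generalize Multiplicative.toAdd v = B at hB hsB
  obtain ⟨i, j, hij⟩ : ∃ i j, B i j ≠ 0 := by
    by_contra hcon
    push Not at hcon
    apply hB
    ext i j
    exact hcon i j
  have hw : (fun l => B l j) ≠ 0 := fun h => hij (congrFun h i)
  have hfix : (s : Matrix (Fin 2) (Fin 2) K).mulVec (fun l => B l j) = fun l => B l j := by
    ext l
    have := congrFun (congrFun hsB l) j
    simpa [Matrix.mul_apply, Matrix.mulVec, dotProduct] using this
  apply Subtype.ext
  rw [Matrix.SpecialLinearGroup.coe_mul, Matrix.SpecialLinearGroup.coe_one]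
  exact sq_eq_one_of_fixed _ s.2 _ hw hfix

theorem dvd_two_mul_orderOf_right (g : HH K k) : orderOf g ∣ 2 * orderOf g.right := by
  apply orderOf_dvd_of_pow_eq_one
  have h1 : (g ^ orderOf g.right).right = 1 := by
    rw [pow_right, pow_orderOf_eq_one]
  have h2 := sq_of_right_eq_one K k _ h1
  rw [two_mul, pow_add]
  exact h2

theorem orderOf_right_of_odd (g : HH K k) (hodd : Odd (orderOf g)) :
    orderOf g.right = orderOf g := by
  apply Nat.dvd_antisymm (orderOf_right_dvd K k g)
  have h := dvd_two_mul_orderOf_right K k g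
  exact (Nat.Coprime.dvd_mul_left (Nat.Coprime.symm (Nat.coprime_two_left.mpr hodd))).mp h

theorem orderOf_right_of_two_mul (g : HH K k) (q : ℕ) (hq : q.Prime) (hq2 : q ≠ 2)
    (hg : orderOf g = 2 * q) : orderOf g.right = 2 * q := by
  have h1 := orderOf_right_dvd K k g
  have h2 := dvd_two_mul_orderOf_right K k g
  rw [hg] at h1 h2
  have hqn : q ∣ orderOf g.right := (Nat.mul_dvd_mul_iff_left (by norm_num)).mp h2
  obtain ⟨c, hc⟩ := hqn
  have hc2 : c ∣ 2 := by
    rw [hc, mul_comm q c] at h1
    exact (Nat.mul_dvd_mul_iff_right hq.pos).mp h1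
  rcases (Nat.dvd_prime Nat.prime_two).mp hc2 with h | h
  · -- orderOf g.right = q : impossible
    exfalso
    rw [h, mul_one] at hc
    have hr1 : (g ^ q).right = 1 := by
      rw [pow_right, ← hc, pow_orderOf_eq_one]
    have hgq : g ^ q = SemidirectProduct.inl (g ^ q).left := by
      ext1
      · simp
      · simp [hr1]
    have hne : (g ^ q).left ≠ 1 := by
      intro h0
      rw [h0, map_one] at hgq
      have := orderOf_dvd_of_pow_eq_one hgq
      rw [hg] at this
      have := Nat.le_of_dvd hq.pos this
      have := hq.pos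
      omega
    have hcomm : g * SemidirectProduct.inl (g ^ q).left = SemidirectProduct.inl (g ^ q).left * g := by
      rw [← hgq, ← pow_succ', ← pow_succ]
    have hfix := act_eq_of_commute K k g _ hcomm
    have hsq := sq_eq_one_of_act_fixed K k g.right _ hne hfix
    have hd : orderOf g.right ∣ 2 := orderOf_dvd_of_pow_eq_one (by rw [pow_two]; exact hsq)
    rw [hc] at hd
    exact hq2 ((Nat.prime_dvd_prime_iff_eq hq Nat.prime_two).mp hd)
  · rw [hc, h, mul_comm]

/-- An element of order 2 in `SL(2, K)`. -/
theorem exists_orderOf_two : ∃ t : SpecialLinearGroup (Fin 2) K, orderOf t = 2 := by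
  have h2 : (2 : K) = 0 := CharTwo.two_eq_zero
  let M : Matrix (Fin 2) (Fin 2) K := !![1, 1; 0, 1]
  have hdet : M.det = 1 := by simp [M, Matrix.det_fin_two]
  let t : SpecialLinearGroup (Fin 2) K := ⟨M, hdet⟩
  have ht : t * t = 1 := by
    apply Subtype.ext
    rw [Matrix.SpecialLinearGroup.coe_mul, Matrix.SpecialLinearGroup.coe_one]
    change M * M = 1
    ext i j
    fin_cases i <;> fin_cases j <;> simp [M, Matrix.mul_apply, Fin.sum_univ_two]
    linear_combination h2
  refine ⟨t, orderOf_eq_prime (by rw [pow_two]; exact ht) ?_⟩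
  intro h
  have h01 : M 0 1 = (1 : Matrix (Fin 2) (Fin 2) K) 0 1 := by
    have := congrArg (fun t : SpecialLinearGroup (Fin 2) K => (t : Matrix (Fin 2) (Fin 2) K)) h
    exact congrFun (congrFun this 0) 1
  simp [M] at h01

omit [CharP K 2] in
theorem finite_HH [Finite K] : Finite (HH K k) :=
  Finite.of_equiv _ (SemidirectProduct.equivProd (φ := act K k)).symm

theorem center_eq_bot {F : Type*} [Field F] [CharP F 2] :
    Subgroup.center (SpecialLinearGroup (Fin 2) F) = ⊥ := by
  rw [eq_bot_iff]
  intro A hA
  rw [Matrix.SpecialLinearGroup.mem_center_iff] at hA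
  obtain ⟨r, hr, hrA⟩ := hA
  have h2 : (2 : F) = 0 := CharTwo.two_eq_zero
  have hr1 : r = 1 := by
    have h3 : (r - 1) ^ 2 = 0 := by
      simp only [Fintype.card_fin] at hr
      linear_combination hr - r * h2 + h2
    have := pow_eq_zero_iff (two_ne_zero) |>.mp h3
    exact sub_eq_zero.mp this
  rw [Subgroup.mem_bot]
  apply Subtype.ext
  rw [← hrA, hr1]
  simp

theorem map_injective {R S : Type*} [CommRing R] [CommRing S] (f : R →+* S)
    (hf : Function.Injective f) :
    Function.Injective (Matrix.SpecialLinearGroup.map (n := Fin 2) f) := by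
  intro A B h
  apply Subtype.ext
  ext i j
  have := congrArg (fun M : SpecialLinearGroup (Fin 2) S => (M : Matrix (Fin 2) (Fin 2) S) i j) h
  simp only [Matrix.SpecialLinearGroup.map_apply_coe, RingHom.mapMatrix_apply, Matrix.map_apply] at this
  exact hf this

/-- The prime graph of `PSL(2, F)`, `F` of characteristic 2, is shared by groups of arbitrarily
large order. -/
theorem main.{u} {F : Type u} [Field F] [Fintype F] [CharP F 2] (N : ℕ) :
    ∃ (H : Type) (_ : Group H) (_ : Finite H), N < Nat.card H ∧
      ((∀ p : ℕ, p.Prime → (p ∣ Nat.card (Matrix.ProjectiveSpecialLinearGroup (Fin 2) F) ↔ p ∣ Nat.card H)) ∧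
      (∀ p q : ℕ, p.Prime → q.Prime → p ≠ q → ((∃ g : (Matrix.ProjectiveSpecialLinearGroup (Fin 2) F), orderOf g = p * q) ↔ (∃ g : H, orderOf g = p * q)))) := by
  classical
  let e : Shrink.{0} F ≃+* F := Shrink.ringEquiv.{0, u} F
  have hchar : CharP (Shrink.{0} F) 2 :=
    charP_of_injective_ringHom (f := (e.symm : F →+* Shrink.{0} F)) e.symm.injective 2
  have hfin : Finite (Shrink.{0} F) := Finite.of_equiv F (equivShrink.{0, u} F)
  have hfinH : Finite (HH (Shrink.{0} F) N) := finite_HH (Shrink.{0} F) N
  have hcen : Subgroup.center (SpecialLinearGroup (Fin 2) F) = ⊥ := center_eq_bot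
  let iso1 : ProjectiveSpecialLinearGroup (Fin 2) F ≃* SpecialLinearGroup (Fin 2) F :=
    (QuotientGroup.quotientMulEquivOfEq hcen).trans QuotientGroup.quotientBot
  let j1 : ProjectiveSpecialLinearGroup (Fin 2) F →* SpecialLinearGroup (Fin 2) (Shrink.{0} F) :=
    (Matrix.SpecialLinearGroup.map (e.symm : F →+* Shrink.{0} F)).comp iso1.toMonoidHom
  let j2 : SpecialLinearGroup (Fin 2) (Shrink.{0} F) →* ProjectiveSpecialLinearGroup (Fin 2) F :=
    iso1.symm.toMonoidHom.comp (Matrix.SpecialLinearGroup.map (e : Shrink.{0} F →+* F))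
  have hj1 : Function.Injective j1 :=
    (map_injective (e.symm : F →+* Shrink.{0} F) e.symm.injective).comp iso1.injective
  have hj2 : Function.Injective j2 :=
    iso1.symm.injective.comp (map_injective (e : Shrink.{0} F →+* F) e.injective)
  have hcard : Nat.card (ProjectiveSpecialLinearGroup (Fin 2) F) =
      Nat.card (SpecialLinearGroup (Fin 2) (Shrink.{0} F)) :=
    Nat.dvd_antisymm (Subgroup.card_dvd_of_injective j1 hj1) (Subgroup.card_dvd_of_injective j2 hj2)
  have hH : Nat.card (HH (Shrink.{0} F) N) =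
      Nat.card (Multiplicative (Matrix (Fin 2) (Fin N) (Shrink.{0} F))) *
        Nat.card (SpecialLinearGroup (Fin 2) (Shrink.{0} F)) := SemidirectProduct.card
  have hV2 : IsPGroup 2 (Multiplicative (Matrix (Fin 2) (Fin N) (Shrink.{0} F))) := by
    intro v
    exact ⟨1, by rw [pow_one, pow_two]; exact vv_mul_self _ N v⟩
  obtain ⟨m, hm⟩ := (IsPGroup.iff_card (p := 2)).mp hV2
  obtain ⟨t, ht⟩ := exists_orderOf_two (Shrink.{0} F)
  have h2S : 2 ∣ Nat.card (SpecialLinearGroup (Fin 2) (Shrink.{0} F)) := by
    have := orderOf_dvd_natCard t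
    rwa [ht] at this
  refine ⟨HH (Shrink.{0} F) N, inferInstance, hfinH, ?_, ?_, ?_⟩
  · -- the order is large
    have hVcard : Nat.card (Multiplicative (Matrix (Fin 2) (Fin N) (Shrink.{0} F))) =
        (Nat.card (Shrink.{0} F) ^ N) ^ 2 := by
      have h1 : Nat.card (Multiplicative (Matrix (Fin 2) (Fin N) (Shrink.{0} F))) =
          Nat.card (Fin 2 → Fin N → Shrink.{0} F) :=
        Nat.card_congr (Multiplicative.toAdd.trans (Matrix.of (m := Fin 2) (n := Fin N)
          (α := Shrink.{0} F)).symm)
      rw [h1, Nat.card_fun, Nat.card_fun]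
      simp
    have hK2 : 2 ≤ Nat.card (Shrink.{0} F) := by
      have := Finite.one_lt_card_iff_nontrivial.mpr (inferInstance : Nontrivial (Shrink.{0} F))
      exact this
    have h1 : N < 2 ^ N := Nat.lt_two_pow_self
    have h2 : 2 ^ N ≤ Nat.card (Shrink.{0} F) ^ N := Nat.pow_le_pow_left hK2 N
    have h3 : Nat.card (Shrink.{0} F) ^ N ≤ (Nat.card (Shrink.{0} F) ^ N) ^ 2 :=
      Nat.le_self_pow (by norm_num) _
    have h4 : 0 < Nat.card (SpecialLinearGroup (Fin 2) (Shrink.{0} F)) := Nat.card_pos
    rw [hH, hVcard]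
    calc N < 2 ^ N := h1
      _ ≤ (Nat.card (Shrink.{0} F) ^ N) ^ 2 := h2.trans h3
      _ ≤ (Nat.card (Shrink.{0} F) ^ N) ^ 2 * Nat.card (SpecialLinearGroup (Fin 2) (Shrink.{0} F)) :=
        Nat.le_mul_of_pos_right _ h4
  · -- prime divisors
    intro p hp
    rw [hcard, hH, hm]
    constructor
    · intro h
      exact dvd_mul_of_dvd_right h _
    · intro h
      rcases (Nat.Prime.dvd_mul hp).mp h with h | h
      · have := hp.dvd_of_dvd_pow h
        rw [(Nat.prime_dvd_prime_iff_eq hp Nat.prime_two).mp this]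
        exact h2S
      · exact h
  · -- the graph
    intro p q hp hq hpq
    constructor
    · rintro ⟨g, hg⟩
      refine ⟨SemidirectProduct.inr (j1 g), ?_⟩
      rw [orderOf_injective _ SemidirectProduct.inr_injective, orderOf_injective j1 hj1]
      exact hg
    · rintro ⟨g, hg⟩
      suffices hs : ∃ s : SpecialLinearGroup (Fin 2) (Shrink.{0} F), orderOf s = p * q by
        obtain ⟨s, hs⟩ := hs
        exact ⟨j2 s, by rw [orderOf_injective j2 hj2]; exact hs⟩
      by_cases hp2 : p = 2
      · subst hp2
        exact ⟨g.right, orderOf_right_of_two_mul _ N g q hq (Ne.symm hpq) hg⟩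
      · by_cases hq2 : q = 2
        · subst hq2
          rw [mul_comm] at hg ⊢
          exact ⟨g.right, orderOf_right_of_two_mul _ N g p hp hp2 hg⟩
        · refine ⟨g.right, ?_⟩
          rw [orderOf_right_of_odd _ N g (by
            rw [hg]; exact (hp.odd_of_ne_two hp2).mul (hq.odd_of_ne_two hq2))]
          exact hg

/-- The prime graph of a finite group has the prime divisors of its order as vertices, two distinct primes p, q being joined when the group has an element of order pq; two groups have the same prime graph when they have the same prime divisors and the same joined pairs. Let F be a finite field of characteristic 2 with at least 4 elements. Then there are finite groups of arbitrarily large order with the same prime graph as PSL(2,F); in particular PSL(2,F) is not determined by its prime graph. -/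
theorem result {F : Type*} [Field F] [Fintype F] [CharP F 2] (hF : 4 ≤ Fintype.card F) (N : ℕ) :
    ∃ (H : Type) (_ : Group H) (_ : Finite H), N < Nat.card H ∧
      ((∀ p : ℕ, p.Prime → (p ∣ Nat.card (Matrix.ProjectiveSpecialLinearGroup (Fin 2) F) ↔ p ∣ Nat.card H)) ∧
      (∀ p q : ℕ, p.Prime → q.Prime → p ≠ q → ((∃ g : (Matrix.ProjectiveSpecialLinearGroup (Fin 2) F), orderOf g = p * q) ↔ (∃ g : H, orderOf g = p * q)))) := by
  exact main N

end Cfsg.Agent.S3660
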