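import Cfsg.Statements.S3662
import Cfsg.Agent.H9.G2Only
import Cfsg.Agent.S1059
import Cfsg.Agent.H9.PGMain
import Cfsg.Agent.H13.PGSyl
import Cfsg.Agent.H13.PGHom
import Cfsg.Agent.H13.PGRho
import Cfsg.Agent.H13.PGOrd
import Cfsg.Agent.H53.PGR1
import Cfsg.Agent.H53.PGR2
import Cfsg.Agent.H53.PGSymp
import Cfsg.Agent.H53.PGFpf
import Cfsg.Agent.H85.PGCent
import Cfsg.Agent.H35.PGSemi
import Cfsg.Agent.H35.PGField

set_option autoImplicit false
open Cfsg

namespace Cfsg.Agent.S3662

/-- The prime graph of a finite group has the prime divisors of its order as vertices, two distinct primes p, q being joined when the group has an element of order pq; two groups have the same prime graph when they have the same prime divisors and the same joined pairs. Let F be the field with 4 elements and L the Chevalley group of type G₂ over F. There are finite groups of arbitrarily large order with the same prime graph as L. -/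
theorem result {F : Type*} [Field F] [Fintype F] (hF : Fintype.card F = 4) (N : ℕ) :
    ∃ (H : Type) (_ : Group H) (_ : Finite H), N < Nat.card H ∧
      ((∀ p : ℕ, p.Prime → (p ∣ Nat.card ↥(Cfsg.Lie.chevG2.group F) ↔ p ∣ Nat.card H)) ∧
      (∀ p q : ℕ, p.Prime → q.Prime → p ≠ q → ((∃ g : ↥(Cfsg.Lie.chevG2.group F), orderOf g = p * q) ↔ (∃ g : H, orderOf g = p * q)))) := by
  -- `F ≃+* K4` (helper94's computable field with 4 elements)
  obtain ⟨e⟩ := Cfsg.Agent.H35.PG.field F hF
  have hne : ∃ a : F, a ≠ 0 ∧ a ≠ 1 := by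
    refine ⟨e.symm Cfsg.Agent.H94.HS.F4.w, fun h => ?_, fun h => ?_⟩
    · have h' := congrArg e h
      rw [RingEquiv.apply_symm_apply, map_zero] at h'
      exact absurd h' (by decide)
    · have h' := congrArg e h
      rw [RingEquiv.apply_symm_apply, map_one] at h'
      exact absurd h' (by decide)
  -- the Steinberg cover of `chevG2.group F` and simplicity (the `G₂` branches of S2396 and S1055,
  -- `H9/G2Only.lean`), and the order (S1059)
  have hθ := Cfsg.Agent.H9.G2Only.cover F
  have hsimple := (Cfsg.Agent.H9.G2Only.simple hne).1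
  have hcard : Nat.card ↥(Cfsg.Lie.chevG2.group F) = 251596800 := by
    rw [Cfsg.Agent.S1059.result hF]; norm_num
  -- the faithful 6-dimensional representation over `K4` through the Steinberg cover
  obtain ⟨ρ, x, hinj, hx⟩ :=
    Cfsg.Agent.H13.PG.rho Cfsg.Agent.H53.PG.symp Cfsg.Agent.H85.PG2.cent F e hθ hsimple
      (Cfsg.Agent.H13.PG.hom Cfsg.Agent.H53.PG.r1 Cfsg.Agent.H53.PG.r2 F e)
  -- `H = (K4⁶)^k ⋊ L`
  exact Cfsg.Agent.H9.PG.main Cfsg.Agent.H13.PG.syl Cfsg.Agent.H35.PG.semi Cfsg.Agent.H13.PG.ord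
    Cfsg.Agent.H53.PG.fpf e hcard ρ x hinj hx N

end Cfsg.Agent.S3662
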