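import Cfsg.Statements.S3663
import Cfsg.Agent.H34.PgAsm
import Cfsg.Agent.H34.PgFix0
import Cfsg.Agent.H39.PgTc
import Cfsg.Agent.H19.PgExt
import Cfsg.Agent.H18.PgEx
import Cfsg.Agent.H18.PgFpf
import Cfsg.Agent.H85.PgNz

set_option autoImplicit false
open Cfsg

namespace Cfsg.Agent.S3663

/-- The prime graph of a finite group has the prime divisors of its order as vertices, two distinct primes p, q being joined when the group has an element of order pq; two groups have the same prime graph when they have the same prime divisors and the same joined pairs. Let F be the field with 16 elements and L = PSU(3,4) realised over F. There are finite groups of arbitrarily large order with the same prime graph as L. -/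
theorem result {F : Type*} [Field F] [Fintype F] (hF : Fintype.card F = 16) (N : ℕ) :
    ∃ (H : Type) (_ : Group H) (_ : Finite H), N < Nat.card H ∧
      ((∀ p : ℕ, p.Prime → (p ∣ Nat.card (Cfsg.PSU 3 F 4) ↔ p ∣ Nat.card H)) ∧
      (∀ p q : ℕ, p.Prime → q.Prime → p ≠ q → ((∃ g : (Cfsg.PSU 3 F 4), orderOf g = p * q) ↔ (∃ g : H, orderOf g = p * q)))) := by
  exact Cfsg.Agent.H34.PG.main Cfsg.Agent.H39.PG.trans Cfsg.Agent.H39.PG.card Cfsg.Agent.H18.PG.ex
    (Cfsg.Agent.H18.PG.fpf Cfsg.Agent.H39.PG.card Cfsg.Agent.H34.PG.fix0) Cfsg.Agent.H85.PG.nz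
    Cfsg.Agent.H19.PG.ext hF N

end Cfsg.Agent.S3663
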