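import Cfsg.Statements.S3670
import Cfsg.Agent.H93.U33Main
import Cfsg.Agent.H93.U33RkI
import Cfsg.Agent.H93.U33Rk
import Cfsg.Agent.H93.U33RkM
import Cfsg.Agent.H93.U33SolvA
import Cfsg.Agent.H93.U33SolvB
import Cfsg.Agent.H84.U33Spec
import Cfsg.Agent.H84.U33TI2
import Cfsg.Agent.H20.U33TI1
import Cfsg.Agent.H20.U33TI3
import Cfsg.Agent.H20.U33Prod

set_option autoImplicit false
open Cfsg

namespace Cfsg.Agent.S3670

/-- The character degree graph of a finite group has as vertices the primes dividing some irreducible complex character degree, two distinct primes being joined when their product divides some irreducible character degree; two groups have the same character degree graph when they have the same vertices and the same joined pairs. Let F be the field with 9 elements and L = PSU(3,3) realised over F (order 6048). There is a finite solvable group of order 6048 with the same character degree graph as L; so L is not determined by its order together with its character degree graph. -/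
theorem result {F : Type*} [Field F] [Fintype F] (hF : Fintype.card F = 9) :
    ∃ (H : Type) (_ : Group H) (_ : Fintype H), Group.IsSolvable H ∧ Nat.card H = 6048 ∧ Cfsg.degreePrimes H = Cfsg.degreePrimes (Cfsg.PSU 3 F 3) ∧ Cfsg.degreeGraph H = Cfsg.degreeGraph (Cfsg.PSU 3 F 3) := by
  exact Cfsg.Agent.H93.U33.main_of Cfsg.Agent.H93.U33.rkT Cfsg.Agent.H93.U33.rkR
    Cfsg.Agent.H93.U33.rkI Cfsg.Agent.H93.U33.rkM Cfsg.Agent.H84.U33.spec
    Cfsg.Agent.H20.U33.ti1 Cfsg.Agent.H84.U33.ti2 Cfsg.Agent.H20.U33.ti3
    Cfsg.Agent.H93.U33.solvA Cfsg.Agent.H93.U33.solvB Cfsg.Agent.H20.U33.prod hF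

end Cfsg.Agent.S3670
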