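import Mathlib
import Cfsg.Statements.S3678

set_option autoImplicit false
open Cfsg

namespace Cfsg.Agent.S3678

open Matrix

section CH
variable {R : Type*} [CommRing R]

/-- coefficients of `M^k = a_k M + b_k` when `M^2 = t M - 1`. -/
def ab (t : R) : ℕ → R × R
  | 0 => (0, 1)
  | (k+1) => (t * (ab t k).1 + (ab t k).2, -(ab t k).1)

lemma ab2 (t : R) : ab t 2 = (t, -1) := by
  simp only [ab, Prod.mk.injEq]; constructor <;> ring

lemma ab3 (t : R) : ab t 3 = (t^2 - 1, -t) := by
  simp only [ab, Prod.mk.injEq]; constructor <;> ring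

lemma ab4 (t : R) : ab t 4 = (t^3 - 2*t, -t^2 + 1) := by
  simp only [ab, Prod.mk.injEq]; constructor <;> ring

lemma ab7 (t : R) : ab t 7 = (t^6 - 5*t^4 + 6*t^2 - 1, -t^5 + 4*t^3 - 3*t) := by
  simp only [ab, Prod.mk.injEq]; constructor <;> ring

lemma ab9 (t : R) : ab t 9 = (t^8 - 7*t^6 + 15*t^4 - 10*t^2 + 1, -t^7 + 6*t^5 - 10*t^3 + 4*t) := by
  simp only [ab, Prod.mk.injEq]; constructor <;> ring

lemma cayley (M : Matrix (Fin 2) (Fin 2) R) (hM : M.det = 1) :
    M * M = (M 0 0 + M 1 1) • M - 1 := by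
  rw [Matrix.det_fin_two] at hM
  ext i j
  fin_cases i <;> fin_cases j <;>
    simp [Matrix.mul_apply, Fin.sum_univ_two] <;>
    first | ring1 | linear_combination (-1 : R) * hM

lemma pow_eq (M : Matrix (Fin 2) (Fin 2) R) (t : R) (hM : M * M = t • M - 1) (k : ℕ) :
    M ^ k = (ab t k).1 • M + (ab t k).2 • (1 : Matrix (Fin 2) (Fin 2) R) := by
  induction k with
  | zero => simp [ab]
  | succ k ih =>
    rw [pow_succ, ih, add_mul, smul_mul_assoc, smul_mul_assoc, one_mul, hM]
    simp only [ab]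
    module

end CH

/-! ### the prime graph lemma -/

lemma prime_eq_of_dvd_pow {p r e : ℕ} (hp : p.Prime) (hr : r.Prime) (h : p ∣ r ^ e) : p = r :=
  (Nat.prime_dvd_prime_iff_eq hp hr).mp (hp.dvd_of_dvd_pow h)

lemma key {G : Type*} [Group G] [Finite G]
    (hk : ∀ x : G, x ^ 3 = 1 ∨ x ^ 4 = 1 ∨ x ^ 7 = 1 ∨ x ^ 9 = 1) :
    (∀ p : ℕ, p.Prime → p ∣ Nat.card G → p = 2 ∨ p = 3 ∨ p = 7) ∧
    (∀ p q : ℕ, p.Prime → q.Prime → p ≠ q → ¬ ∃ g : G, orderOf g = p * q) := by
  have aux : ∀ (g : G) (p : ℕ), p.Prime → p ∣ orderOf g → p = 2 ∨ p = 3 ∨ p = 7 := by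
    intro g p hp hpg
    rcases hk g with h | h | h | h
    · right; left
      exact prime_eq_of_dvd_pow (e := 1) hp Nat.prime_three
        (by simpa using hpg.trans (orderOf_dvd_of_pow_eq_one h))
    · left
      exact prime_eq_of_dvd_pow (e := 2) hp Nat.prime_two
        (by simpa using hpg.trans (orderOf_dvd_of_pow_eq_one h))
    · right; right
      exact prime_eq_of_dvd_pow (r := 7) (e := 1) hp (by norm_num)
        (by simpa using hpg.trans (orderOf_dvd_of_pow_eq_one h))
    · right; left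
      exact prime_eq_of_dvd_pow (e := 2) hp Nat.prime_three
        (by simpa using hpg.trans (orderOf_dvd_of_pow_eq_one h))
  constructor
  · intro p hp hdvd
    have : Fact p.Prime := ⟨hp⟩
    obtain ⟨g, hg⟩ := exists_prime_orderOf_dvd_card' (G := G) p hdvd
    exact aux g p hp (by rw [hg])
  · rintro p q hp hq hpq ⟨g, hg⟩
    have aux2 : ∀ (r e : ℕ), r.Prime → g ^ (r ^ e) = 1 → False := by
      intro r e hr h
      have hd : p * q ∣ r ^ e := hg ▸ orderOf_dvd_of_pow_eq_one h
      have h1 : p = r := prime_eq_of_dvd_pow hp hr ((dvd_mul_right p q).trans hd)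
      have h2 : q = r := prime_eq_of_dvd_pow hq hr ((dvd_mul_left q p).trans hd)
      exact hpq (h1.trans h2.symm)
    rcases hk g with h | h | h | h
    · exact aux2 3 1 Nat.prime_three (by simpa using h)
    · exact aux2 2 2 Nat.prime_two (by simpa using h)
    · exact aux2 7 1 (by norm_num : Nat.Prime 7) (by simpa using h)
    · exact aux2 3 2 Nat.prime_three (by simpa using h)

lemma dvd_card_of_pow {G : Type*} [Group G] [Finite G] (p : ℕ) (hp : p.Prime) (x : G)
    (h1 : x ≠ 1) (hx : x ^ p = 1) : p ∣ Nat.card G := by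
  have : Fact p.Prime := ⟨hp⟩
  rw [← orderOf_eq_prime hx h1]
  exact orderOf_dvd_natCard x

/-! ### `PSL(2,7)` -/

section PSL7
variable {F : Type*} [Field F] [Fintype F]

lemma central_of_scalar (A : Matrix.SpecialLinearGroup (Fin 2) F) (k : ℕ) (r : F) (hr : r ^ 2 = 1)
    (h : (A : Matrix (Fin 2) (Fin 2) F) ^ k = r • (1 : Matrix (Fin 2) (Fin 2) F)) :
    (QuotientGroup.mk A : ProjectiveSpecialLinearGroup (Fin 2) F) ^ k = 1 := by
  rw [← QuotientGroup.mk_pow, QuotientGroup.eq_one_iff, Matrix.SpecialLinearGroup.mem_center_iff]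
  refine ⟨r, by simpa using hr, ?_⟩
  show Matrix.scalar (Fin 2) r = (A : Matrix (Fin 2) (Fin 2) F) ^ k
  rw [h]
  ext i j
  simp [Matrix.one_apply, Matrix.diagonal_apply]

lemma not_central (A : Matrix.SpecialLinearGroup (Fin 2) F)
    (h : (A : Matrix (Fin 2) (Fin 2) F) 0 1 ≠ 0 ∨ (A : Matrix (Fin 2) (Fin 2) F) 1 0 ≠ 0) :
    (QuotientGroup.mk A : ProjectiveSpecialLinearGroup (Fin 2) F) ≠ 1 := by
  rw [Ne, QuotientGroup.eq_one_iff, Matrix.SpecialLinearGroup.mem_center_iff]
  rintro ⟨r, -, hr⟩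
  rcases h with h | h
  · apply h; rw [← hr]; simp [Matrix.diagonal_apply]
  · apply h; rw [← hr]; simp [Matrix.diagonal_apply]

lemma psl7_cases (hF : Fintype.card F = 7) (A : Matrix.SpecialLinearGroup (Fin 2) F) :
    let t := (A : Matrix (Fin 2) (Fin 2) F) 0 0 + (A : Matrix (Fin 2) (Fin 2) F) 1 1
    let x := (QuotientGroup.mk A : ProjectiveSpecialLinearGroup (Fin 2) F)
    (t = 0 → x ^ 2 = 1) ∧ (t ^ 2 - 1 = 0 → x ^ 3 = 1) ∧ (t ^ 2 - 4 = 0 → x ^ 7 = 1) ∧
      (t ^ 2 - 2 = 0 → x ^ 4 = 1) := by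
  intro t x
  have hdet : (A : Matrix (Fin 2) (Fin 2) F).det = 1 := A.2
  have hCH := cayley (A : Matrix (Fin 2) (Fin 2) F) hdet
  have h7 : (7 : F) = 0 := by
    have := FiniteField.cast_card_eq_zero F
    rw [hF] at this; exact_mod_cast this
  have hp := pow_eq (A : Matrix (Fin 2) (Fin 2) F) t hCH
  refine ⟨fun h1 => ?_, fun h2 => ?_, fun h3 => ?_, fun h4 => ?_⟩
  · apply central_of_scalar A 2 (-1) (by norm_num)
    rw [hp 2, ab2, h1]; simp
  · apply central_of_scalar A 3 (-t) (by linear_combination h2)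
    rw [hp 3, ab3]
    simp only
    rw [h2]; simp
  · apply central_of_scalar A 7 (-t^5 + 4*t^3 - 3*t)
    · linear_combination (t^8 - 4*t^6 + 6*t^4 + 9) * h3 + 5 * h7
    · rw [hp 7, ab7]
      simp only
      have ha : t^6 - 5*t^4 + 6*t^2 - 1 = 0 := by
        linear_combination (t^4 - t^2 + 2) * h3 + h7
      rw [ha]; simp
  · apply central_of_scalar A 4 (-1) (by norm_num)
    rw [hp 4, ab4]
    simp only
    have ha : t^3 - 2*t = 0 := by linear_combination t * h4
    have hb : -t^2 + 1 = -1 := by linear_combination (-1 : F) * h4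
    rw [ha, hb]; simp

lemma psl7_pow (hF : Fintype.card F = 7) (x : ProjectiveSpecialLinearGroup (Fin 2) F) :
    x ^ 3 = 1 ∨ x ^ 4 = 1 ∨ x ^ 7 = 1 ∨ x ^ 9 = 1 := by
  obtain ⟨A, rfl⟩ := QuotientGroup.mk_surjective x
  obtain ⟨c1, c2, c3, c4⟩ := psl7_cases hF A
  set t := (A : Matrix (Fin 2) (Fin 2) F) 0 0 + (A : Matrix (Fin 2) (Fin 2) F) 1 1 with ht
  have h7 : (7 : F) = 0 := by
    have := FiniteField.cast_card_eq_zero F
    rw [hF] at this; exact_mod_cast this
  have hpow : t ^ 7 = t := by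
    have := FiniteField.pow_card t; rw [hF] at this; exact this
  have hfac : t * (t^2 - 1) * (t^2 - 4) * (t^2 - 2) = 0 := by
    linear_combination hpow - (t^5 - 2*t^3 + t) * h7
  rcases mul_eq_zero.mp hfac with h | h4
  · rcases mul_eq_zero.mp h with h | h3
    · rcases mul_eq_zero.mp h with h1 | h2
      · right; left
        have := c1 h1
        rw [show (4 : ℕ) = 2 * 2 from rfl, pow_mul, this, one_pow]
      · left; exact c2 h2
    · right; right; left; exact c3 h3
  · right; left; exact c4 h4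

lemma psl7_dvd (hF : Fintype.card F = 7) :
    2 ∣ Nat.card (ProjectiveSpecialLinearGroup (Fin 2) F) ∧
    3 ∣ Nat.card (ProjectiveSpecialLinearGroup (Fin 2) F) ∧
    7 ∣ Nat.card (ProjectiveSpecialLinearGroup (Fin 2) F) := by
  have h7 : (7 : F) = 0 := by
    have := FiniteField.cast_card_eq_zero F
    rw [hF] at this; exact_mod_cast this
  refine ⟨?_, ?_, ?_⟩
  · let A : Matrix.SpecialLinearGroup (Fin 2) F := ⟨!![0, -1; 1, 0], by simp [Matrix.det_fin_two]⟩
    apply dvd_card_of_pow 2 Nat.prime_two (QuotientGroup.mk A)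
    · apply not_central; right; simp [A]
    · exact (psl7_cases hF A).1 (by simp [A])
  · let A : Matrix.SpecialLinearGroup (Fin 2) F := ⟨!![0, -1; 1, -1], by simp [Matrix.det_fin_two]⟩
    apply dvd_card_of_pow 3 Nat.prime_three (QuotientGroup.mk A)
    · apply not_central; right; simp [A]
    · exact (psl7_cases hF A).2.1 (by simp [A])
  · let A : Matrix.SpecialLinearGroup (Fin 2) F := ⟨!![1, 1; 0, 1], by simp [Matrix.det_fin_two]⟩
    apply dvd_card_of_pow 7 (by norm_num : Nat.Prime 7) (QuotientGroup.mk A)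
    · apply not_central; left; simp [A]
    · exact (psl7_cases hF A).2.2.1 (by simp [A]; norm_num)

end PSL7

/-! ### the affine group `K^(2m) ⋊ SL(2,K)` -/

section Aff8

/-- The group of pairs `(v, g)`, `v` a `2 × m` matrix and `g ∈ SL(2,K)`, with
`(v, g) (w, h) = (v + g w, g h)`. -/
@[ext] structure Aff (m : ℕ) (K : Type) [Field K] where
  v : Matrix (Fin 2) (Fin m) K
  g : Matrix.SpecialLinearGroup (Fin 2) K

variable {m : ℕ} {K : Type} [Field K]

lemma sl_ext {A B : Matrix.SpecialLinearGroup (Fin 2) K}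
    (h : (A : Matrix (Fin 2) (Fin 2) K) = (B : Matrix (Fin 2) (Fin 2) K)) : A = B := Subtype.ext h

namespace Aff

instance : Mul (Aff m K) :=
  ⟨fun x y => ⟨x.v + (x.g : Matrix (Fin 2) (Fin 2) K) * y.v, x.g * y.g⟩⟩
instance : One (Aff m K) := ⟨⟨0, 1⟩⟩
instance : Inv (Aff m K) :=
  ⟨fun x => ⟨-(((x.g⁻¹ : Matrix.SpecialLinearGroup (Fin 2) K) : Matrix (Fin 2) (Fin 2) K) * x.v), x.g⁻¹⟩⟩

@[simp] lemma mul_v (x y : Aff m K) :
    (x * y).v = x.v + (x.g : Matrix (Fin 2) (Fin 2) K) * y.v := rfl
@[simp] lemma mul_g (x y : Aff m K) : (x * y).g = x.g * y.g := rfl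
@[simp] lemma one_v : (1 : Aff m K).v = 0 := rfl
@[simp] lemma one_g : (1 : Aff m K).g = 1 := rfl
@[simp] lemma inv_v (x : Aff m K) :
    (x⁻¹).v = -(((x.g⁻¹ : Matrix.SpecialLinearGroup (Fin 2) K) : Matrix (Fin 2) (Fin 2) K) * x.v) := rfl
@[simp] lemma inv_g (x : Aff m K) : (x⁻¹).g = x.g⁻¹ := rfl

instance : Group (Aff m K) where
  mul_assoc x y z := by
    apply Aff.ext
    · simp [Matrix.mul_add, Matrix.mul_assoc, add_assoc]
    · simp [mul_assoc]
  one_mul x := by apply Aff.ext <;> simp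
  mul_one x := by apply Aff.ext <;> simp
  inv_mul_cancel x := by
    apply Aff.ext
    · simp
    · simp

lemma pow_spec (x : Aff m K) (n : ℕ) :
    (x ^ n).v = (∑ i ∈ Finset.range n, (x.g : Matrix (Fin 2) (Fin 2) K) ^ i) * x.v ∧
      (x ^ n).g = x.g ^ n := by
  induction n with
  | zero => simp
  | succ n ih =>
    rw [pow_succ]
    constructor
    · rw [mul_v, ih.1, ih.2, Finset.sum_range_succ, Matrix.add_mul]
      rfl
    · rw [mul_g, ih.2, pow_succ]

instance [Finite K] : Finite (Aff m K) :=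
  Finite.of_injective (fun x : Aff m K => (x.v, x.g)) (fun x y h => by
    simp only [Prod.mk.injEq] at h
    exact Aff.ext h.1 h.2)

/-- the embedding of `SL(2,K)` -/
def ι (g : Matrix.SpecialLinearGroup (Fin 2) K) : Aff m K := ⟨0, g⟩

lemma ι_pow (g : Matrix.SpecialLinearGroup (Fin 2) K) (n : ℕ) : (ι g : Aff m K) ^ n = ι (g ^ n) := by
  apply Aff.ext
  · rw [(pow_spec _ n).1]; simp [ι]
  · rw [(pow_spec _ n).2]; simp [ι]

lemma ι_ne_one (g : Matrix.SpecialLinearGroup (Fin 2) K) (hg : g ≠ 1) : (ι g : Aff m K) ≠ 1 := by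
  intro h
  apply hg
  have := congrArg Aff.g h
  simpa [ι] using this

lemma ι_one : (ι 1 : Aff m K) = 1 := rfl

end Aff

variable [Finite K]

lemma two_eq_zero (hK : Nat.card K = 8) : (2 : K) = 0 := by
  have := Fintype.ofFinite K
  have h8 : ((Fintype.card K : ℕ) : K) = 0 := FiniteField.cast_card_eq_zero K
  rw [← Nat.card_eq_fintype_card, hK] at h8
  have : (2 : K) ^ 3 = 0 := by
    have : ((8 : ℕ) : K) = (2 : K) ^ 3 := by norm_num
    rw [← this]; exact h8
  exact pow_eq_zero_iff (by norm_num) |>.mp this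

lemma aff_pow (hK : Nat.card K = 8) (x : Aff m K) :
    x ^ 3 = 1 ∨ x ^ 4 = 1 ∨ x ^ 7 = 1 ∨ x ^ 9 = 1 := by
  have := Fintype.ofFinite K
  have hK' : Fintype.card K = 8 := by rw [← Nat.card_eq_fintype_card]; exact hK
  have h2 := two_eq_zero hK
  set M : Matrix (Fin 2) (Fin 2) K := (x.g : Matrix (Fin 2) (Fin 2) K) with hM
  have hdet : M.det = 1 := x.g.2
  set t := M 0 0 + M 1 1 with ht
  have hCH := cayley M hdet
  have hp := pow_eq M t hCH
  by_cases ht0 : t = 0
  · right; left
    have hM2 : M ^ 2 = 1 := by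
      rw [hp 2, ab2, ht0]
      have : (-1 : K) = 1 := by linear_combination (-1 : K) * h2
      simp [this]
    have hM3 : M ^ 3 = M := by rw [pow_succ, hM2, one_mul]
    apply Aff.ext
    · rw [(Aff.pow_spec x 4).1]
      have : ∑ i ∈ Finset.range 4, M ^ i = 0 := by
        simp only [Finset.sum_range_succ, Finset.sum_range_zero, zero_add, pow_zero, pow_one]
        rw [hM2, hM3]
        have : (1 : Matrix (Fin 2) (Fin 2) K) + M + 1 + M = (2 : K) • (1 + M) := by
          rw [two_smul]; abel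
        rw [this, h2, zero_smul]
      rw [← hM, this]; simp
    · rw [(Aff.pow_spec x 4).2]
      apply sl_ext
      show M ^ 4 = 1
      rw [show (4 : ℕ) = 2 * 2 from rfl, pow_mul, hM2, one_pow]
  · have ht7 : t ^ 7 = 1 := by
      have := FiniteField.pow_card_sub_one_eq_one t ht0
      rw [hK'] at this; exact this
    have hprod : (t^6 - 5*t^4 + 6*t^2 - 1) * (t^8 - 7*t^6 + 15*t^4 - 10*t^2 + 1) = 0 := by
      linear_combination (t^7 - 1) * ht7 +
        (-6*t^12 + 28*t^10 - 64*t^8 + t^7 + 74*t^6 - 40*t^4 + 8*t^2 - 1) * h2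
    have hunit : IsUnit (M - 1) := by
      rw [Matrix.isUnit_iff_isUnit_det]
      have hd : (M - 1).det = -t := by
        rw [Matrix.det_fin_two] at hdet ⊢
        simp only [Matrix.sub_apply, Matrix.one_apply_eq, ne_eq, zero_ne_one, not_false_eq_true,
          Matrix.one_apply_ne, one_ne_zero, sub_zero]
        linear_combination hdet + h2
      rw [hd]
      exact isUnit_iff_ne_zero.mpr (neg_ne_zero.mpr ht0)
    have hfin : ∀ n, M ^ n = 1 → x ^ n = 1 := by
      intro n hn
      apply Aff.ext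
      · rw [(Aff.pow_spec x n).1]
        have h1 : (∑ i ∈ Finset.range n, M ^ i) * (M - 1) = 0 := by
          rw [geom_sum_mul, hn, sub_self]
        rw [← hM, hunit.mul_left_eq_zero.mp h1]; simp
      · rw [(Aff.pow_spec x n).2]
        apply sl_ext
        show M ^ n = 1
        exact hn
    rcases mul_eq_zero.mp hprod with h7 | h9
    · right; right; left
      apply hfin
      rw [hp 7, ab7]
      simp only
      have hb : -t^5 + 4*t^3 - 3*t = 1 := by
        linear_combination t * h7 + ht7 + (-t^7 + 2*t^5 - t^3 - t) * h2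
      rw [h7, hb]; simp
    · right; right; right
      apply hfin
      rw [hp 9, ab9]
      simp only
      have hb : -t^7 + 6*t^5 - 10*t^3 + 4*t = 1 := by
        linear_combination ht7 + (-t^7 + 3*t^5 - 5*t^3 + 2*t) * h2
      rw [h9, hb]; simp

lemma aff_dvd (hK : Nat.card K = 8) :
    2 ∣ Nat.card (Aff m K) ∧ 3 ∣ Nat.card (Aff m K) ∧ 7 ∣ Nat.card (Aff m K) := by
  classical
  have := Fintype.ofFinite K
  have hK' : Fintype.card K = 8 := by rw [← Nat.card_eq_fintype_card]; exact hK
  have h2 := two_eq_zero hK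
  have hneg : (-1 : K) = 1 := by linear_combination (-1 : K) * h2
  refine ⟨?_, ?_, ?_⟩
  · let A : Matrix.SpecialLinearGroup (Fin 2) K := ⟨!![1, 1; 0, 1], by simp [Matrix.det_fin_two]⟩
    apply dvd_card_of_pow 2 Nat.prime_two (Aff.ι A : Aff m K)
    · apply Aff.ι_ne_one
      intro h
      have := congrArg (fun B : Matrix.SpecialLinearGroup (Fin 2) K => (B : Matrix (Fin 2) (Fin 2) K) 0 1) h
      simp [A] at this
    · rw [Aff.ι_pow]
      have : A ^ 2 = 1 := by
        apply sl_ext
        show (!![1, 1; 0, 1] : Matrix (Fin 2) (Fin 2) K) ^ 2 = 1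
        ext i j
        fin_cases i <;> fin_cases j <;> simp [pow_two, Matrix.mul_apply, Fin.sum_univ_two]
        linear_combination h2
      rw [this]; rfl
  · let A : Matrix.SpecialLinearGroup (Fin 2) K := ⟨!![0, 1; 1, 1], by simp [Matrix.det_fin_two, hneg]⟩
    apply dvd_card_of_pow 3 Nat.prime_three (Aff.ι A : Aff m K)
    · apply Aff.ι_ne_one
      intro h
      have := congrArg (fun B : Matrix.SpecialLinearGroup (Fin 2) K => (B : Matrix (Fin 2) (Fin 2) K) 0 1) h
      simp [A] at this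
    · rw [Aff.ι_pow]
      have : A ^ 3 = 1 := by
        apply sl_ext
        show (!![0, 1; 1, 1] : Matrix (Fin 2) (Fin 2) K) ^ 3 = 1
        ext i j
        fin_cases i <;> fin_cases j <;>
          simp [pow_succ, Matrix.mul_apply, Fin.sum_univ_two] <;>
          linear_combination h2
      rw [this]; rfl
  · obtain ⟨u, -, hu⟩ : ∃ u ∈ (Finset.univ : Finset K), u ∉ ({0, 1} : Finset K) := by
      apply Finset.exists_mem_notMem_of_card_lt_card
      calc ({0, 1} : Finset K).card ≤ 2 := Finset.card_le_two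
        _ < 8 := by norm_num
        _ = (Finset.univ : Finset K).card := by rw [Finset.card_univ, hK']
    simp only [Finset.mem_insert, Finset.mem_singleton, not_or] at hu
    obtain ⟨hu0, hu1⟩ := hu
    have hu7 : u ^ 7 = 1 := by
      have := FiniteField.pow_card_sub_one_eq_one u hu0
      rw [hK'] at this; exact this
    let A : Matrix.SpecialLinearGroup (Fin 2) K :=
      ⟨Matrix.diagonal ![u, u⁻¹], by simp [Matrix.det_diagonal, Fin.prod_univ_two, hu0]⟩
    apply dvd_card_of_pow 7 (by norm_num : Nat.Prime 7) (Aff.ι A : Aff m K)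
    · apply Aff.ι_ne_one
      intro h
      have := congrArg (fun B : Matrix.SpecialLinearGroup (Fin 2) K => (B : Matrix (Fin 2) (Fin 2) K) 0 0) h
      simp [A] at this
      exact hu1 this
    · rw [Aff.ι_pow]
      have : A ^ 7 = 1 := by
        apply sl_ext
        show (Matrix.diagonal ![u, u⁻¹] : Matrix (Fin 2) (Fin 2) K) ^ 7 = 1
        rw [Matrix.diagonal_pow]
        ext i j
        fin_cases i <;> fin_cases j <;> simp [Matrix.diagonal_apply, hu7, inv_pow]
      rw [this]; rfl

lemma aff_card_gt (hK : Nat.card K = 8) (N : ℕ) : N < Nat.card (Aff N K) := by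
  have := Fintype.ofFinite K
  have hK' : Fintype.card K = 8 := by rw [← Nat.card_eq_fintype_card]; exact hK
  have hinj : Function.Injective (fun w : Fin N → K => (⟨fun _ j => w j, 1⟩ : Aff N K)) := by
    intro w w' h
    have := congrArg Aff.v h
    funext j
    exact congrFun (congrFun this 0) j
  have h1 := Nat.card_le_card_of_injective _ hinj
  rw [Nat.card_eq_fintype_card, Fintype.card_fun, hK', Fintype.card_fin] at h1
  calc N < 2 ^ N := Nat.lt_two_pow_self
    _ ≤ 8 ^ N := Nat.pow_le_pow_left (by norm_num) N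
    _ ≤ _ := h1

end Aff8

/-- The prime graph of a finite group has the prime divisors of its order as vertices, two distinct primes p, q being joined when the group has an element of order pq; two groups have the same prime graph when they have the same prime divisors and the same joined pairs. Let F be the field with 7 elements. There are finite groups of arbitrarily large order with the same prime graph as PSL(2,F) (the graph on {2, 3, 7} with no edges, which is also the prime graph of PSL(2,8)). -/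
theorem result {F : Type*} [Field F] [Fintype F] (hF : Fintype.card F = 7) (N : ℕ) :
    ∃ (H : Type) (_ : Group H) (_ : Finite H), N < Nat.card H ∧
      ((∀ p : ℕ, p.Prime → (p ∣ Nat.card (Matrix.ProjectiveSpecialLinearGroup (Fin 2) F) ↔ p ∣ Nat.card H)) ∧
      (∀ p q : ℕ, p.Prime → q.Prime → p ≠ q → ((∃ g : (Matrix.ProjectiveSpecialLinearGroup (Fin 2) F), orderOf g = p * q) ↔ (∃ g : H, orderOf g = p * q)))) := by
  have hK : Nat.card (GaloisField 2 3) = 8 := by
    rw [GaloisField.card 2 3 (by norm_num)]; norm_num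
  obtain ⟨k1, k2⟩ := key (psl7_pow hF)
  obtain ⟨k3, k4⟩ := key (G := Aff N (GaloisField 2 3)) (aff_pow hK)
  obtain ⟨d2, d3, d7⟩ := psl7_dvd hF
  obtain ⟨e2, e3, e7⟩ := aff_dvd (m := N) hK
  refine ⟨Aff N (GaloisField 2 3), inferInstance, inferInstance, aff_card_gt hK N, ?_, ?_⟩
  · intro p hp
    constructor
    · intro h
      rcases k1 p hp h with rfl | rfl | rfl
      · exact e2
      · exact e3
      · exact e7
    · intro h
      rcases k3 p hp h with rfl | rfl | rfl
      · exact d2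
      · exact d3
      · exact d7
  · intro p q hp hq hpq
    exact ⟨fun h => absurd h (k2 p q hp hq hpq), fun h => absurd h (k4 p q hp hq hpq)⟩

end Cfsg.Agent.S3678
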