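import Cfsg.Statements.S3681

set_option autoImplicit false
open Cfsg

namespace Cfsg.Agent.S3681

open Equiv

variable {Ω : Type*} [Fintype Ω] [DecidableEq Ω]

/-- If the supports of `σ` and `τ` meet exactly in `δ`, the commutator is a 3-cycle. -/
lemma comm_eq_swap_mul_swap (σ τ : Perm Ω) (δ : Ω) (hσ : σ δ ≠ δ) (hτ : τ δ ≠ δ)
    (h : ∀ y, y ≠ δ → σ y = y ∨ τ y = y) :
    σ * τ * σ⁻¹ * τ⁻¹ = swap δ (τ δ) * swap δ (σ δ) := by
  have hτσ : τ (σ δ) = σ δ := by
    rcases h (σ δ) hσ with h1 | h1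
    · exact absurd (σ.injective h1) hσ
    · exact h1
  have hστ : σ (τ δ) = τ δ := by
    rcases h (τ δ) hτ with h1 | h1
    · exact h1
    · exact absurd (τ.injective h1) hτ
  have hne : σ δ ≠ τ δ := by
    intro he
    rw [he] at hτσ
    exact hτ (τ.injective hτσ)
  -- general facts about inverses
  have hσinv : ∀ y, y ≠ σ δ → σ y = y ∨ τ (σ⁻¹ y) = σ⁻¹ y := by
    intro y hy
    by_cases hy' : σ y = y
    · exact Or.inl hy'
    · right
      have h1 : σ⁻¹ y ≠ δ := by
        intro he; apply hy; rw [← he]; simp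
      rcases h _ h1 with h2 | h2
      · exfalso; apply hy'
        have h3 : σ⁻¹ y = y := by
          have : σ (σ⁻¹ y) = y := by simp
          rw [this] at h2; exact h2.symm
        have : σ (σ⁻¹ y) = y := by simp
        rw [h3] at this; exact this
      · exact h2
  have hτinv : ∀ y, y ≠ τ δ → τ y = y ∨ σ (τ⁻¹ y) = τ⁻¹ y := by
    intro y hy
    by_cases hy' : τ y = y
    · exact Or.inl hy'
    · right
      have h1 : τ⁻¹ y ≠ δ := by
        intro he; apply hy; rw [← he]; simp
      rcases h _ h1 with h2 | h2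
      · exact h2
      · exfalso; apply hy'
        have h3 : τ⁻¹ y = y := by
          have : τ (τ⁻¹ y) = y := by simp
          rw [this] at h2; exact h2.symm
        have : τ (τ⁻¹ y) = y := by simp
        rw [h3] at this; exact this
  ext x
  simp only [Perm.coe_mul, Function.comp_apply]
  by_cases hx1 : x = δ
  · subst hx1
    rw [swap_apply_left, swap_apply_of_ne_of_ne hσ hne]
    -- σ (τ (σ⁻¹ (τ⁻¹ x))) = σ x
    have h1 : σ (τ⁻¹ x) = τ⁻¹ x := by
      rcases hτinv x (Ne.symm hτ) with h2 | h2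
      · exact absurd h2 hτ
      · exact h2
    have h2 : σ⁻¹ (τ⁻¹ x) = τ⁻¹ x := by
      rw [Perm.inv_eq_iff_eq]; exact h1.symm
    rw [h2]; simp
  by_cases hx2 : x = σ δ
  · subst hx2
    rw [swap_apply_right, swap_apply_left]
    have h1 : τ⁻¹ (σ δ) = σ δ := by
      rw [Perm.inv_eq_iff_eq]; exact hτσ.symm
    rw [h1]; simp [hστ]
  by_cases hx3 : x = τ δ
  · subst hx3
    rw [swap_apply_of_ne_of_ne hτ (Ne.symm hne), swap_apply_right]
    have h1 : τ⁻¹ (τ δ) = δ := by simp
    rw [h1]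
    have h2 : τ (σ⁻¹ δ) = σ⁻¹ δ := by
      rcases hσinv δ (Ne.symm hσ) with h3 | h3
      · exact absurd h3 hσ
      · exact h3
    rw [h2]; simp
  rw [swap_apply_of_ne_of_ne hx1 hx2, swap_apply_of_ne_of_ne hx1 hx3]
  by_cases hτx : τ x = x
  · have h1 : τ⁻¹ x = x := by rw [Perm.inv_eq_iff_eq]; exact hτx.symm
    rw [h1]
    rcases hσinv x hx2 with h2 | h2
    · have h3 : σ⁻¹ x = x := by rw [Perm.inv_eq_iff_eq]; exact h2.symm
      rw [h3, hτx, h2]
    · rw [h2]; simp
  · have hσx : σ x = x := by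
      rcases h x hx1 with h1 | h1
      · exact h1
      · exact absurd h1 hτx
    rcases hτinv x hx3 with h2 | h2
    · exact absurd h2 hτx
    · have h3 : σ⁻¹ (τ⁻¹ x) = τ⁻¹ x := by rw [Perm.inv_eq_iff_eq]; exact h2.symm
      rw [h3]; simp [hσx]

omit [DecidableEq Ω] in
lemma card_mul_le (P K : Subgroup (Perm Ω)) (h : P ⊓ K = ⊥) :
    Nat.card P * Nat.card K ≤ Nat.card (Perm Ω) := by
  rw [← Nat.card_prod]
  exact Nat.card_le_card_of_injective _
    (Subgroup.mul_injective_of_disjoint (disjoint_iff.mpr h))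

omit [Fintype Ω] in
lemma card_range_ofSubtype (Δ : Finset Ω) :
    Nat.card (Perm.ofSubtype : Perm {x // x ∈ Δ} →* Perm Ω).range = Nat.factorial Δ.card := by
  rw [← Nat.card_congr (MonoidHom.ofInjective (f := (Perm.ofSubtype : Perm {x // x ∈ Δ} →* Perm Ω))
    Perm.ofSubtype_injective).toEquiv]
  rw [Nat.card_eq_fintype_card, Fintype.card_perm, Fintype.card_coe]

lemma card_range_ofSubtype' (Δ : Finset Ω) :
    Nat.card (Perm.ofSubtype : Perm {x // x ∉ Δ} →* Perm Ω).range =
      Nat.factorial (Fintype.card Ω - Δ.card) := by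
  rw [← Nat.card_congr (MonoidHom.ofInjective (f := (Perm.ofSubtype : Perm {x // x ∉ Δ} →* Perm Ω))
    Perm.ofSubtype_injective).toEquiv]
  rw [Nat.card_eq_fintype_card, Fintype.card_perm]
  congr 1
  rw [Fintype.card_subtype_compl, Fintype.card_coe]

theorem main (P : Subgroup (Perm Ω)) (hprim : MulAction.IsPreprimitive P Ω)
    (hA : ¬ alternatingGroup Ω ≤ P) :
    Nat.card P * Nat.factorial ((Fintype.card Ω + 1) / 2) ≤ Nat.factorial (Fintype.card Ω) := by
  classical
  have hno3 : ∀ g ∈ P, ¬ Perm.IsThreeCycle g := fun g hg h3 =>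
    hA (Perm.alternatingGroup_le_of_isPreprimitive_of_isThreeCycle_mem hprim h3 hg)
  let B : Finset Ω → Prop := fun Δ => ∀ σ ∈ P, (∀ x ∈ Δ, σ x = x) → σ = 1
  have hBuniv : B Finset.univ := by
    intro σ _ hσ
    ext x
    simpa using hσ x (Finset.mem_univ x)
  obtain ⟨Δ, hΔ, hmin⟩ := (Set.toFinite {Δ : Finset Ω | B Δ}).exists_minimal ⟨_, hBuniv⟩
  have hΔ' : B Δ := hΔ
  -- Claim A
  have hA' : ∀ τ ∈ P, (∀ x, x ∉ Δ → τ x = x) → τ = 1 := by
    intro τ hτP hτ
    by_contra hτ1
    obtain ⟨δ, hδ⟩ : ∃ δ, τ δ ≠ δ := by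
      by_contra hall
      push Not at hall
      exact hτ1 (Perm.ext hall)
    have hδΔ : δ ∈ Δ := by
      by_contra hn
      exact hδ (hτ δ hn)
    have hnotB : ¬ B (Δ.erase δ) := by
      intro hB
      have := hmin (show Δ.erase δ ∈ {Δ : Finset Ω | B Δ} from hB) (Finset.erase_subset δ Δ)
      exact Finset.notMem_erase δ Δ (this hδΔ)
    simp only [B] at hnotB
    push Not at hnotB
    obtain ⟨σ, hσP, hσfix, hσ1⟩ := hnotB
    have hσδ : σ δ ≠ δ := by
      intro he
      apply hσ1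
      apply hΔ' σ hσP
      intro x hx
      by_cases hxδ : x = δ
      · rw [hxδ]; exact he
      · exact hσfix x (Finset.mem_erase.mpr ⟨hxδ, hx⟩)
    have h : ∀ y, y ≠ δ → σ y = y ∨ τ y = y := by
      intro y hy
      by_cases hyΔ : y ∈ Δ
      · exact Or.inl (hσfix y (Finset.mem_erase.mpr ⟨hy, hyΔ⟩))
      · exact Or.inr (hτ y hyΔ)
    have hc := comm_eq_swap_mul_swap σ τ δ hσδ hδ h
    have hne : τ δ ≠ σ δ := by
      intro he
      rcases h (σ δ) hσδ with h1 | h1
      · exact hσδ (σ.injective h1)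
      · rw [← he] at h1; exact hδ (τ.injective h1)
    have h3 : Perm.IsThreeCycle (swap δ (τ δ) * swap δ (σ δ)) :=
      Perm.isThreeCycle_swap_mul_swap_same (Ne.symm hδ) (Ne.symm hσδ) hne
    rw [← hc] at h3
    exact hno3 _ (P.mul_mem (P.mul_mem (P.mul_mem hσP hτP) (P.inv_mem hσP)) (P.inv_mem hτP)) h3
  -- counting
  have h1 : P ⊓ (Perm.ofSubtype : Perm {x // x ∈ Δ} →* Perm Ω).range = ⊥ := by
    rw [eq_bot_iff]
    rintro τ ⟨hτP, f, rfl⟩
    rw [Subgroup.mem_bot]
    apply hA' _ hτP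
    intro x hx
    exact Perm.ofSubtype_apply_of_not_mem f hx
  have h2 : P ⊓ (Perm.ofSubtype : Perm {x // x ∉ Δ} →* Perm Ω).range = ⊥ := by
    rw [eq_bot_iff]
    rintro τ ⟨hτP, f, rfl⟩
    rw [Subgroup.mem_bot]
    apply hΔ' _ hτP
    intro x hx
    exact Perm.ofSubtype_apply_of_not_mem f (not_not.mpr hx)
  have c1 := card_mul_le P _ h1
  have c2 := card_mul_le P _ h2
  rw [card_range_ofSubtype, Nat.card_eq_fintype_card (α := Perm Ω), Fintype.card_perm] at c1
  rw [card_range_ofSubtype', Nat.card_eq_fintype_card (α := Perm Ω), Fintype.card_perm] at c2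
  have hle : Δ.card ≤ Fintype.card Ω := Finset.card_le_univ Δ
  by_cases hcase : (Fintype.card Ω + 1) / 2 ≤ Δ.card
  · exact le_trans (Nat.mul_le_mul_left _ (Nat.factorial_le hcase)) c1
  · have : (Fintype.card Ω + 1) / 2 ≤ Fintype.card Ω - Δ.card := by omega
    exact le_trans (Nat.mul_le_mul_left _ (Nat.factorial_le this)) c2

/-- Bochert's bound for primitive groups. Let a finite group G act faithfully and primitively on a finite set Ω with n elements, and suppose the image of G in the symmetric group of Ω does not contain the alternating group of Ω. Then |G| · ⌊(n + 1)/2⌋! ≤ n!, that is, the index of G in the symmetric group is at least ⌊(n + 1)/2⌋!. -/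
theorem result {G Ω : Type*} [Group G] [Finite G] [MulAction G Ω] [FaithfulSMul G Ω] [Fintype Ω] [DecidableEq Ω]
    (hprim : MulAction.IsPreprimitive G Ω) (hA : ¬ alternatingGroup Ω ≤ (MulAction.toPermHom G Ω).range) :
    Nat.card G * Nat.factorial ((Fintype.card Ω + 1) / 2) ≤ Nat.factorial (Fintype.card Ω) := by
  have hinj : Function.Injective (MulAction.toPermHom G Ω) := MulAction.toPerm_injective
  have hcard : Nat.card G = Nat.card (MulAction.toPermHom G Ω).range :=
    Nat.card_congr (MonoidHom.ofInjective hinj).toEquiv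
  rw [hcard]
  apply main _ _ hA
  let φ : G → (MulAction.toPermHom G Ω).range := (MulAction.toPermHom G Ω).rangeRestrict
  let f : Ω →ₑ[φ] Ω := { toFun := id, map_smul' := fun g x => rfl }
  exact MulAction.IsPreprimitive.of_surjective (f := f) Function.surjective_id

end Cfsg.Agent.S3681
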