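import Cfsg.Statements.S3683

set_option autoImplicit false
open Cfsg

namespace Cfsg.Agent.S3683

/-- Let a finite group G act faithfully and primitively on a set Ω, and suppose the stabilizer of a point a fixes a second point b ≠ a (a suborbit of length 1 other than {a}). Then the stabilizer of a is trivial and G is cyclic of prime order. -/
theorem result {G Ω : Type*} [Group G] [Finite G] [MulAction G Ω] [FaithfulSMul G Ω] [Finite Ω]
    (hprim : MulAction.IsPreprimitive G Ω) (a b : Ω) (hab : a ≠ b) (hfix : ∀ g : G, g • a = a → g • b = b) :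
    MulAction.stabilizer G a = ⊥ ∧ IsCyclic G ∧ (Nat.card G).Prime := by
  have : Nontrivial Ω := ⟨a, b, hab⟩
  have := hprim.toIsPretransitive
  have hco : IsCoatom (MulAction.stabilizer G a) :=
    MulAction.IsPreprimitive.isCoatom_stabilizer_of_isPreprimitive G a
  have hco' : IsCoatom (MulAction.stabilizer G b) :=
    MulAction.IsPreprimitive.isCoatom_stabilizer_of_isPreprimitive G b
  have hle : MulAction.stabilizer G a ≤ MulAction.stabilizer G b := fun g hg => hfix g hg
  have heq : MulAction.stabilizer G a = MulAction.stabilizer G b := by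
    rcases eq_or_lt_of_le hle with h | h
    · exact h
    · exact absurd (hco.2 _ h) hco'.1
  obtain ⟨g, hg⟩ := MulAction.exists_smul_eq G a b
  -- g normalizes the stabilizer of a
  have hgN : g ∈ Subgroup.normalizer (MulAction.stabilizer G a : Set G) := by
    rw [Subgroup.mem_normalizer_iff]
    intro h
    have h1 : g * h * g⁻¹ ∈ MulAction.stabilizer G b ↔ h ∈ MulAction.stabilizer G a := by
      rw [MulAction.mem_stabilizer_iff, MulAction.mem_stabilizer_iff, ← hg, mul_smul, mul_smul,
        inv_smul_smul, smul_left_cancel_iff]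
    rw [heq, h1, ← heq]
  have hgnot : g ∉ MulAction.stabilizer G a := by
    intro h
    rw [MulAction.mem_stabilizer_iff] at h
    exact hab (h.symm.trans hg)
  have hNtop : Subgroup.normalizer (MulAction.stabilizer G a : Set G) = ⊤ := by
    apply hco.2
    exact lt_of_le_of_ne Subgroup.le_normalizer (fun h => hgnot (h ▸ hgN))
  have hnormal : (MulAction.stabilizer G a).Normal :=
    Subgroup.normalizer_eq_top_iff.mp hNtop
  have hbot : MulAction.stabilizer G a = ⊥ := by
    rw [Subgroup.eq_bot_iff_forall]
    intro x hx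
    apply FaithfulSMul.eq_of_smul_eq_smul (α := Ω)
    intro ω
    obtain ⟨k, hk⟩ := MulAction.exists_smul_eq G a ω
    have h2 : k⁻¹ * x * k ∈ MulAction.stabilizer G a := by
      have := hnormal.conj_mem x hx k⁻¹
      simpa using this
    rw [MulAction.mem_stabilizer_iff, mul_smul, mul_smul, inv_smul_eq_iff] at h2
    rw [one_smul, ← hk]
    exact h2
  rw [hbot] at hco
  have hsub : ∀ H : Subgroup G, H = ⊥ ∨ H = ⊤ := by
    intro H
    by_cases h : H = ⊥
    · exact Or.inl h
    · exact Or.inr (hco.2 H (bot_lt_iff_ne_bot.mpr h))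
  have : Nontrivial G := by
    by_contra hnt
    rw [not_nontrivial_iff_subsingleton] at hnt
    exact hco.1 (Subsingleton.elim _ _)
  obtain ⟨x, hx⟩ := exists_ne (1 : G)
  have hz : Subgroup.zpowers x = ⊤ :=
    (hsub _).resolve_left (Subgroup.zpowers_ne_bot.2 hx)
  have hcyc : IsCyclic G := ⟨⟨x, (Subgroup.eq_top_iff' _).1 hz⟩⟩
  refine ⟨hbot, hcyc, ?_⟩
  have : IsSimpleGroup G := ⟨fun H _ => hsub H⟩
  have : IsMulCommutative G := ⟨⟨fun a b => (IsCyclic.commGroup (α := G)).mul_comm a b⟩⟩
  exact Group.is_simple_iff_prime_card.mp inferInstance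

end Cfsg.Agent.S3683
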