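import Mathlib
import Cfsg.Statements.S3696
-- import your own Cfsg.Agent.* helpers here

set_option autoImplicit false
open Cfsg

namespace Cfsg.Agent.S3696


theorem amgm_nat (r s x y : ℕ) : x ^ r * y ^ s * (r + s) ^ (r + s) ≤ (x + y) ^ (r + s) * r ^ r * s ^ s := by
  rcases Nat.eq_zero_or_pos r with hr | hr
  · subst hr
    simp only [pow_zero, one_mul, zero_add, mul_one]
    exact Nat.mul_le_mul_right _ (Nat.pow_le_pow_left (by omega) _)
  rcases Nat.eq_zero_or_pos s with hs | hs
  · subst hs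
    simp only [pow_zero, mul_one, add_zero]
    exact Nat.mul_le_mul_right _ (Nat.pow_le_pow_left (by omega) _)
  have hr' : (0 : ℝ) < r := by exact_mod_cast hr
  have hs' : (0 : ℝ) < s := by exact_mod_cast hs
  have hK : (0 : ℝ) < (r : ℝ) + s := by positivity
  have h := Real.geom_mean_le_arith_mean2_weighted (w₁ := (r : ℝ) / (r + s)) (w₂ := (s : ℝ) / (r + s))
    (p₁ := (x : ℝ) / r) (p₂ := (y : ℝ) / s) (by positivity) (by positivity) (by positivity) (by positivity)
    (by field_simp)
  have h1 : (r : ℝ) / (r + s) * ((x : ℝ) / r) + (s : ℝ) / (r + s) * ((y : ℝ) / s) = ((x : ℝ) + y) / (r + s) := by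
    field_simp
  rw [h1] at h
  have h2 : (((x : ℝ) / r) ^ ((r : ℝ) / (r + s)) * ((y : ℝ) / s) ^ ((s : ℝ) / (r + s))) ^ (r + s) =
      ((x : ℝ) / r) ^ r * ((y : ℝ) / s) ^ s := by
    rw [mul_pow, ← Real.rpow_natCast, ← Real.rpow_natCast, ← Real.rpow_mul (by positivity),
      ← Real.rpow_mul (by positivity)]
    push_cast
    rw [div_mul_cancel₀ _ hK.ne', div_mul_cancel₀ _ hK.ne', Real.rpow_natCast, Real.rpow_natCast]
  have h3 := pow_le_pow_left₀ (by positivity) h (r + s)
  rw [h2, div_pow, div_pow, div_pow, div_mul_div_comm, div_le_div_iff₀ (by positivity) (by positivity)] at h3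
  have h4 : (x : ℝ) ^ r * (y : ℝ) ^ s * ((r : ℝ) + s) ^ (r + s) ≤ ((x : ℝ) + y) ^ (r + s) * ((r : ℝ) ^ r * (s : ℝ) ^ s) := h3
  have h5 : ((x ^ r * y ^ s * (r + s) ^ (r + s) : ℕ) : ℝ) ≤ (((x + y) ^ (r + s) * r ^ r * s ^ s : ℕ) : ℝ) := by
    push_cast
    linarith
  exact_mod_cast h5

theorem pow_ineq (r x : ℕ) (hr : 1 ≤ r) (hx : 2 ^ r ≤ x) : x * r ^ r ≤ x ^ r := by
  obtain ⟨t, rfl⟩ : ∃ t, r = t + 1 := ⟨r - 1, by omega⟩
  rw [pow_succ x t, mul_comm (x ^ t) x]
  apply Nat.mul_le_mul_left
  calc (t + 1) ^ (t + 1) ≤ (2 ^ t) ^ (t + 1) := Nat.pow_le_pow_left (Nat.lt_two_pow_self) _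
    _ = (2 ^ (t + 1)) ^ t := by rw [← pow_mul, ← pow_mul, mul_comm]
    _ ≤ x ^ t := Nat.pow_le_pow_left hx _

/-- the combined inequality -/
theorem key_ineq (r k' x N' : ℕ) (hr : 1 ≤ r) (hx : 2 ^ r ≤ x) :
    x * N' ^ k' * (k' + r) ^ (k' + r) ≤ (N' + x) ^ (k' + r) * k' ^ k' := by
  have h1 := amgm_nat r k' x N'
  have h2 := pow_ineq r x hr hx
  have hpos : 0 < r ^ r := Nat.pow_pos (by omega)
  apply Nat.le_of_mul_le_mul_right _ hpos
  calc x * N' ^ k' * (k' + r) ^ (k' + r) * r ^ r = (x * r ^ r) * N' ^ k' * (k' + r) ^ (k' + r) := by ring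
    _ ≤ x ^ r * N' ^ k' * (k' + r) ^ (k' + r) := by
        apply Nat.mul_le_mul_right
        apply Nat.mul_le_mul_right
        exact h2
    _ = x ^ r * N' ^ k' * (r + k') ^ (r + k') := by rw [add_comm k' r]
    _ ≤ (x + N') ^ (r + k') * r ^ r * k' ^ k' := h1
    _ = (N' + x) ^ (k' + r) * k' ^ k' * r ^ r := by rw [add_comm k' r, add_comm N' x]; ring


theorem orbit_stab {Ω : Type*} (B : Subgroup (Equiv.Perm Ω)) (ω : Ω) :
    Nat.card B = Nat.card {x : Ω // ∃ g ∈ B, g ω = x} * Nat.card {g : Equiv.Perm Ω // g ∈ B ∧ g ω = ω} := by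
  have h := Subgroup.card_mul_index (MulAction.stabilizer ↥B ω)
  rw [MulAction.index_stabilizer] at h
  rw [← h, mul_comm]
  congr 1
  · rw [← Nat.card_coe_set_eq]
    apply Nat.card_congr
    apply Equiv.subtypeEquivRight
    intro x
    constructor
    · rintro ⟨g, rfl⟩
      exact ⟨g.1, g.2, rfl⟩
    · rintro ⟨g, hg, rfl⟩
      exact ⟨⟨g, hg⟩, rfl⟩
  · refine Nat.card_congr ⟨fun g => ⟨g.1.1, g.1.2, g.2⟩, fun g => ⟨⟨g.1, g.2.1⟩, g.2.2⟩, fun g => rfl, fun g => rfl⟩


/-- the socle as a subgroup -/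
def socle {Ω : Type*} (p : ℕ) (A : Subgroup (Equiv.Perm Ω)) (hcomm : ∀ g ∈ A, ∀ h ∈ A, g * h = h * g) :
    Subgroup (Equiv.Perm Ω) where
  carrier := {g | g ∈ A ∧ g ^ p = 1}
  mul_mem' := by
    rintro g h ⟨hg, hg1⟩ ⟨hh, hh1⟩
    refine ⟨A.mul_mem hg hh, ?_⟩
    rw [(show Commute g h from hcomm g hg h hh).mul_pow, hg1, hh1, one_mul]
  one_mem' := ⟨A.one_mem, one_pow _⟩
  inv_mem' := by
    rintro g ⟨hg, hg1⟩
    exact ⟨A.inv_mem hg, by rw [inv_pow, hg1, inv_one]⟩

theorem main {Ω : Type*} [Fintype Ω] [DecidableEq Ω] (p : ℕ) (hp : p.Prime) :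
    ∀ (N : ℕ) (A : Subgroup (Equiv.Perm Ω)), Nat.card A ≤ N → IsPGroup p A →
      (∀ g ∈ A, ∀ h ∈ A, g * h = h * g) →
      ∀ (T : Finset Ω), (∀ g ∈ A, ∀ x, g x ≠ x → x ∈ T) →
      ∀ k, Nat.card {g : Equiv.Perm Ω // g ∈ A ∧ g ^ p = 1} = p ^ k → Nat.card A * k ^ k ≤ T.card ^ k := by
  classical
  have : Fact p.Prime := ⟨hp⟩
  intro N
  induction N with
  | zero =>
    intro A hN
    have := Nat.card_pos (α := A)
    omega
  | succ N ih =>
    intro A hN hA hcomm T hT k hk
    rcases Nat.eq_zero_or_pos k with hk0 | hkpos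
    · -- k = 0 : A is trivial
      subst hk0
      have hbot : A = ⊥ := by
        rw [Subgroup.eq_bot_iff_forall]
        intro g hg
        by_contra hg1
        -- an element of order p
        obtain ⟨e, he⟩ := hA ⟨g, hg⟩
        have he' : g ^ p ^ e = 1 := by
          have := congrArg Subtype.val he
          simpa using this
        -- minimal e
        have hex : ∃ e, g ^ p ^ e = 1 := ⟨e, he'⟩
        have hmin := Nat.find_spec hex
        have hne : Nat.find hex ≠ 0 := by
          intro h0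
          rw [h0] at hmin
          simp at hmin
          exact hg1 hmin
        obtain ⟨e', he'⟩ := Nat.exists_eq_succ_of_ne_zero hne
        have hz : g ^ p ^ e' ≠ 1 := by
          have := Nat.find_min hex (m := e') (by omega)
          exact this
        have hzp : (g ^ p ^ e') ^ p = 1 := by
          rw [← pow_mul, ← pow_succ]
          rw [he'] at hmin
          exact hmin
        have hcard : 1 < Nat.card {g : Equiv.Perm Ω // g ∈ A ∧ g ^ p = 1} := by
          rw [Finite.one_lt_card_iff_nontrivial]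
          exact ⟨⟨⟨1, A.one_mem, one_pow _⟩, ⟨g ^ p ^ e', A.pow_mem hg _, hzp⟩, fun h => hz (congrArg Subtype.val h).symm⟩⟩
        rw [hk] at hcard
        simp at hcard
      subst hbot
      simp
    · -- k ≥ 1
      have hcard : 1 < Nat.card {g : Equiv.Perm Ω // g ∈ A ∧ g ^ p = 1} := by
        rw [hk]
        exact Nat.one_lt_pow (by omega) hp.one_lt
      rw [Finite.one_lt_card_iff_nontrivial] at hcard
      obtain ⟨⟨z, hzA, hzp⟩, hz1⟩ := exists_ne (⟨1, A.one_mem, one_pow _⟩ : {g : Equiv.Perm Ω // g ∈ A ∧ g ^ p = 1})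
      have hz1' : z ≠ 1 := fun h => hz1 (Subtype.ext h)
      obtain ⟨ω, hω⟩ : ∃ ω, z ω ≠ ω := by
        by_contra hcon
        push Not at hcon
        exact hz1' (Equiv.ext hcon)
      -- orbit-stabilizer for A and for the socle
      have hA1 := orbit_stab A ω
      have hS1 := orbit_stab (socle p A hcomm) ω
      have hScard : Nat.card (socle p A hcomm) = p ^ k := hk
      obtain ⟨e, he⟩ := IsPGroup.iff_card.mp hA
      -- sizes are powers of p
      obtain ⟨a, ha, hOa⟩ := (Nat.dvd_prime_pow hp).mp (Dvd.intro _ (hA1.symm.trans he))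
      obtain ⟨r, hr, hOr⟩ := (Nat.dvd_prime_pow hp).mp (Dvd.intro _ (hS1.symm.trans hScard))
      obtain ⟨k', hk', hKk'⟩ := (Nat.dvd_prime_pow hp).mp (Dvd.intro_left _ (hS1.symm.trans hScard))
      have hrk : r + k' = k := by
        rw [hScard, hOr, hKk', ← pow_add] at hS1
        exact (Nat.pow_right_injective hp.two_le hS1).symm
      -- r ≥ 1
      have hr1 : 1 ≤ r := by
        by_contra hcon
        have hr0 : r = 0 := by omega
        rw [hr0, pow_zero] at hOr
        have hsub := (Nat.card_eq_one_iff_unique.mp hOr).1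
        have h1 : (⟨ω, 1, (socle p A hcomm).one_mem, rfl⟩ : {x : Ω // ∃ g ∈ socle p A hcomm, g ω = x}) =
            ⟨z ω, z, ⟨hzA, hzp⟩, rfl⟩ := Subsingleton.elim _ _
        exact hω (congrArg Subtype.val h1).symm
      -- r ≤ a
      have hra : r ≤ a := by
        have hle : Nat.card {x : Ω // ∃ g ∈ socle p A hcomm, g ω = x} ≤ Nat.card {x : Ω // ∃ g ∈ A, g ω = x} := by
          apply Nat.card_le_card_of_injective (fun x => ⟨x.1, by obtain ⟨g, hg, hgx⟩ := x.2; exact ⟨g, hg.1, hgx⟩⟩)
          intro x y hxy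
          have := congrArg Subtype.val hxy
          exact Subtype.ext this
        rw [hOr, hOa] at hle
        exact (Nat.pow_le_pow_iff_right hp.one_lt).mp hle
      -- the stabilizer K
      set K : Subgroup (Equiv.Perm Ω) := A ⊓ MulAction.stabilizer (Equiv.Perm Ω) ω with hKdef
      have hKA : K ≤ A := inf_le_left
      have hKcard : Nat.card K = Nat.card {g : Equiv.Perm Ω // g ∈ A ∧ g ω = ω} := by
        apply Nat.card_congr
        apply Equiv.subtypeEquivRight
        intro g
        simp [hKdef, Subgroup.mem_inf, MulAction.mem_stabilizer_iff]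
      have hKsocle : Nat.card {g : Equiv.Perm Ω // g ∈ K ∧ g ^ p = 1} = p ^ k' := by
        rw [← hKk']
        apply Nat.card_congr
        apply Equiv.subtypeEquivRight
        intro g
        simp only [hKdef, Subgroup.mem_inf, MulAction.mem_stabilizer_iff, socle, Subgroup.mem_mk,
          Submonoid.mem_mk, Subsemigroup.mem_mk, Set.mem_ofPred_eq, Equiv.Perm.smul_def]
        tauto
      rw [hOa, ← hKcard] at hA1
      -- the orbit as a finset
      set O : Finset Ω := Finset.univ.filter (fun x => ∃ g ∈ A, g ω = x) with hOdef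
      have hOcard : O.card = p ^ a := by
        rw [← hOa, Nat.card_eq_fintype_card, Fintype.card_subtype]
      have hOT : O ⊆ T := by
        intro x hx
        obtain ⟨g, hg, rfl⟩ := (Finset.mem_filter.mp hx).2
        apply hT z hzA
        intro hcon
        apply hω
        apply g.injective
        have : z (g ω) = g (z ω) := by
          have := congrArg (fun f : Equiv.Perm Ω => f ω) (hcomm z hzA g hg)
          simpa using this
        rw [← this, hcon]
      have hT'card : (T \ O).card + p ^ a = T.card := by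
        rw [← hOcard, Finset.card_sdiff_add_card_eq_card hOT]
      have hKsupp : ∀ g ∈ K, ∀ x, g x ≠ x → x ∈ T \ O := by
        intro g hg x hx
        rw [Finset.mem_sdiff]
        refine ⟨hT g (hKA hg) x hx, ?_⟩
        intro hxO
        obtain ⟨h, hh, rfl⟩ := (Finset.mem_filter.mp hxO).2
        apply hx
        have hgω : g ω = ω := by
          have := hg.2
          simpa [MulAction.mem_stabilizer_iff] using this
        have : g (h ω) = h (g ω) := by
          have := congrArg (fun f : Equiv.Perm Ω => f ω) (hcomm g (hKA hg) h hh)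
          simpa using this
        rw [this, hgω]
      have ha1 : 1 ≤ a := by omega
      have hKlt : Nat.card K ≤ N := by
        have h2 : 2 ≤ p ^ a := by
          calc 2 ≤ p := hp.two_le
            _ = p ^ 1 := (pow_one p).symm
            _ ≤ p ^ a := Nat.pow_le_pow_right hp.pos ha1
        have hKpos := Nat.card_pos (α := K)
        nlinarith
      have hIH := ih K hKlt (hA.to_le hKA) (fun g hg h hh => hcomm g (hKA hg) h (hKA hh)) (T \ O) hKsupp k' hKsocle
      have hkey := key_ineq r k' (p ^ a) (T \ O).card hr1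
        (le_trans (Nat.pow_le_pow_left hp.two_le r) (Nat.pow_le_pow_right hp.pos hra))
      rw [hT'card] at hkey
      have hkk : k' + r = k := by omega
      rw [hkk] at hkey
      have hpos : 0 < k' ^ k' := Nat.pow_self_pos
      apply Nat.le_of_mul_le_mul_right _ hpos
      calc Nat.card A * k ^ k * k' ^ k' = p ^ a * (Nat.card K * k' ^ k') * k ^ k := by rw [hA1]; ring
        _ ≤ p ^ a * (T \ O).card ^ k' * k ^ k := by
            apply Nat.mul_le_mul_right
            exact Nat.mul_le_mul_left _ hIH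
        _ ≤ T.card ^ k * k' ^ k' := hkey



/-- Let p be a prime, Ω a finite set with n ≥ p elements, and A an abelian p-subgroup of the symmetric group on Ω whose elements of order dividing p number p^k (so k is the rank of A). Then |A| · k^k ≤ n^k, that is, |A| ≤ (n/k)^k. -/
theorem result {Ω : Type*} [Fintype Ω] [DecidableEq Ω]
    (p : ℕ) (hp : p.Prime) (hn : p ≤ Fintype.card Ω) (A : Subgroup (Equiv.Perm Ω)) (hA : IsPGroup p A) (hab : IsMulCommutative A)
    (k : ℕ) (hk : Nat.card {x : A // x ^ p = 1} = p ^ k) :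
    Nat.card A * k ^ k ≤ Fintype.card Ω ^ k := by
  have hcomm : ∀ g ∈ A, ∀ h ∈ A, g * h = h * g := by
    intro g hg h hh
    have := hab.is_comm.comm (⟨g, hg⟩ : A) ⟨h, hh⟩
    exact congrArg Subtype.val this
  have hk' : Nat.card {g : Equiv.Perm Ω // g ∈ A ∧ g ^ p = 1} = p ^ k := by
    rw [← hk]
    apply Nat.card_congr
    exact ⟨fun g => ⟨⟨g.1, g.2.1⟩, Subtype.ext g.2.2⟩, fun x => ⟨x.1.1, x.1.2, congrArg Subtype.val x.2⟩,
      fun g => rfl, fun x => rfl⟩
  have := main p hp (Nat.card A) A le_rfl hA hcomm Finset.univ (fun _ _ x _ => Finset.mem_univ x) k hk'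
  simpa using this

end Cfsg.Agent.S3696
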