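import Cfsg.Statements.S3744
import Cfsg.Agent.H1.Hall

set_option autoImplicit false
open Cfsg
open scoped Pointwise

namespace Cfsg.Agent.S3744

universe u

open Cfsg.Agent.H1

/-- A quotient of a `p`-soluble group is `p`-soluble. -/
theorem isPSolvable_quotient {G : Type*} [Group G] [Finite G] {p : ℕ} [hp : Fact p.Prime]
    (hG : Cfsg.IsPSolvable p G) (N : Subgroup G) [N.Normal] : Cfsg.IsPSolvable p (G ⧸ N) := by
  obtain ⟨n, H, h0, hlast, hmono, hnorm, hstep⟩ := hG
  refine ⟨n, fun i => (H i).map (QuotientGroup.mk' N), ?_, ?_, ?_, ?_, ?_⟩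
  · show (H 0).map (QuotientGroup.mk' N) = ⊥
    rw [h0, Subgroup.map_bot]
  · show (H (Fin.last n)).map (QuotientGroup.mk' N) = ⊤
    rw [hlast]; exact Subgroup.map_top_of_surjective _ (QuotientGroup.mk'_surjective N)
  · intro i j hij; exact Subgroup.map_mono (hmono hij)
  · intro i; exact Subgroup.Normal.map (hnorm i) _ (QuotientGroup.mk'_surjective N)
  · intro i
    have hdvd : ((H i.castSucc).map (QuotientGroup.mk' N)).relIndex
        ((H i.succ).map (QuotientGroup.mk' N)) ∣ (H i.castSucc).relIndex (H i.succ) := by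
      rw [Subgroup.relIndex_map_map, QuotientGroup.ker_mk']
      have hAB : H i.castSucc ≤ H i.succ := hmono (Fin.castSucc_le_succ i)
      haveI := hnorm i.castSucc
      have e : H i.succ ⊔ N = H i.succ ⊔ (H i.castSucc ⊔ N) := by
        rw [← sup_assoc, sup_eq_left.mpr hAB]
      rw [e, Subgroup.relIndex_sup_right]
      exact Subgroup.relIndex_dvd_of_le_left _ le_sup_left
    rcases hstep i with ⟨m, hm⟩ | hc
    · left
      rw [hm] at hdvd
      obtain ⟨k, _, hk⟩ := (Nat.dvd_prime_pow hp.out).1 hdvd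
      exact ⟨k, hk⟩
    · right
      exact Nat.Coprime.coprime_dvd_left hdvd hc

/-- A nontrivial `p`-soluble group has a nontrivial normal `p`-subgroup or `p'`-subgroup. -/
theorem exists_normal_of_isPSolvable {G : Type*} [Group G] [Finite G] [Nontrivial G] {p : ℕ}
    [hp : Fact p.Prime] (hG : Cfsg.IsPSolvable p G) :
    ∃ N : Subgroup G, N.Normal ∧ N ≠ ⊥ ∧ (IsPGroup p N ∨ (Nat.card N).Coprime p) := by
  by_contra hcon
  push Not at hcon
  obtain ⟨n, H, h0, hlast, hmono, hnorm, hstep⟩ := hG
  have key : ∀ i : Fin (n + 1), H i = ⊥ := by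
    intro i
    induction i using Fin.induction with
    | zero => exact h0
    | succ i ih =>
      by_contra hne
      have hc := hcon (H i.succ) (hnorm _) hne
      have hrel : (H i.castSucc).relIndex (H i.succ) = Nat.card (H i.succ) := by
        rw [ih, Subgroup.relIndex_bot_left]
      rcases hstep i with ⟨m, hm⟩ | hc'
      · exact hc.1 (IsPGroup.of_card (hrel ▸ hm))
      · exact hc.2 (hrel ▸ hc')
  have : (⊤ : Subgroup G) = ⊥ := by rw [← hlast, key]
  exact top_ne_bot this

theorem hall_aux (p : ℕ) [hp : Fact p.Prime] (k : ℕ) : ∀ (G : Type u) [Group G] [Finite G],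
    Nat.card G = k → Cfsg.IsPSolvable p G →
    (∃ H : Subgroup G, (Nat.card H).Coprime p ∧ ∃ n : ℕ, H.index = p ^ n) ∧
    (∀ U H : Subgroup G, (Nat.card U).Coprime p → (Nat.card H).Coprime p →
      (∃ n : ℕ, H.index = p ^ n) → ∃ g : G, MulAut.conj g • U ≤ H) := by
  induction k using Nat.strong_induction_on with
  | _ k ih =>
  intro G _ _ hk hG
  rcases subsingleton_or_nontrivial G with hsub | hnt
  · refine ⟨⟨⊤, ?_, 0, ?_⟩, ?_⟩
    · rw [Subgroup.card_top, Nat.card_of_subsingleton (1 : G)]; exact Nat.coprime_one_left p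
    · simp
    · intro U H _ _ _
      refine ⟨1, ?_⟩
      intro x _
      rw [Subsingleton.elim x 1]; exact H.one_mem
  · obtain ⟨N, hNn, hNb, hN⟩ := exists_normal_of_isPSolvable hG
    haveI := hNn
    have hNgt : 1 < Nat.card N := (Subgroup.one_lt_card_iff_ne_bot N).mpr hNb
    have hQcard : Nat.card (G ⧸ N) * Nat.card N = Nat.card G :=
      (Subgroup.card_eq_card_quotient_mul_card_subgroup N).symm
    have hQlt : Nat.card (G ⧸ N) < k := by
      rw [← hk, ← hQcard]; exact lt_mul_of_one_lt_right Nat.card_pos hNgt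
    obtain ⟨⟨Hb, hHbc, nb, hHbi⟩, ihU⟩ := ih _ hQlt (G ⧸ N) rfl (isPSolvable_quotient hG N)
    have hmapHall : ∀ H : Subgroup G, (Nat.card H).Coprime p → (∃ n : ℕ, H.index = p ^ n) →
        (Nat.card (H.map (QuotientGroup.mk' N))).Coprime p ∧
          ∃ n : ℕ, (H.map (QuotientGroup.mk' N)).index = p ^ n := by
      rintro H hc ⟨n, hn⟩
      refine ⟨Nat.Coprime.coprime_dvd_left (Subgroup.card_map_dvd _ _) hc, ?_⟩
      have := Subgroup.index_map_dvd H (QuotientGroup.mk'_surjective N)
      rw [hn] at this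
      obtain ⟨k', _, hk'⟩ := (Nat.dvd_prime_pow hp.out).1 this
      exact ⟨k', hk'⟩
    have hlift : ∀ U H : Subgroup G, (Nat.card U).Coprime p → (Nat.card H).Coprime p →
        (∃ n : ℕ, H.index = p ^ n) → ∃ g : G, MulAut.conj g • U ≤ H ⊔ N := by
      intro U H hU hHc hHi
      obtain ⟨hc', hi'⟩ := hmapHall H hHc hHi
      obtain ⟨gb, hgb⟩ := ihU (U.map (QuotientGroup.mk' N)) (H.map (QuotientGroup.mk' N))
        (Nat.Coprime.coprime_dvd_left (Subgroup.card_map_dvd _ _) hU) hc' hi'
      obtain ⟨g, rfl⟩ := QuotientGroup.mk'_surjective N gb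
      refine ⟨g, ?_⟩
      intro x hx
      have h1 : QuotientGroup.mk' N x ∈
          MulAut.conj (QuotientGroup.mk' N g) • U.map (QuotientGroup.mk' N) := by
        rw [← map_conj_smul]
        exact Subgroup.mem_map_of_mem _ hx
      have h2 := hgb h1
      have h3 : x ∈ (H.map (QuotientGroup.mk' N)).comap (QuotientGroup.mk' N) := h2
      rwa [Subgroup.comap_map_eq, QuotientGroup.ker_mk'] at h3
    rcases hN with hNp | hNp'
    · -- `N` is a `p`-group
      obtain ⟨a, ha⟩ := IsPGroup.iff_card.mp hNp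
      have hNsolv : Group.IsSolvable N := isSolvable_of_isPGroup N hNp
      constructor
      · -- existence via Schur–Zassenhaus
        have hKcard : Nat.card (Hb.comap (QuotientGroup.mk' N)) = Nat.card Hb * Nat.card N :=
          card_comap_mk' N Hb
        have hNK : N ≤ Hb.comap (QuotientGroup.mk' N) := by
          have := MonoidHom.ker_le_comap (QuotientGroup.mk' N) Hb
          rwa [QuotientGroup.ker_mk'] at this
        have hidx : (N.subgroupOf (Hb.comap (QuotientGroup.mk' N))).index = Nat.card Hb := by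
          have h2 := Subgroup.card_mul_index (N.subgroupOf (Hb.comap (QuotientGroup.mk' N)))
          rw [card_subgroupOf_of_le hNK, hKcard, mul_comm (Nat.card Hb)] at h2
          exact Nat.eq_of_mul_eq_mul_left Nat.card_pos h2
        have hcop : (Nat.card (N.subgroupOf (Hb.comap (QuotientGroup.mk' N)))).Coprime
            (N.subgroupOf (Hb.comap (QuotientGroup.mk' N))).index := by
          rw [card_subgroupOf_of_le hNK, hidx, ha]
          exact (Nat.Coprime.pow_right a hHbc).symm
        have hnorm : (N.subgroupOf (Hb.comap (QuotientGroup.mk' N))).Normal :=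
          Subgroup.normal_subgroupOf
        obtain ⟨H', hH'⟩ := Subgroup.exists_right_complement'_of_coprime hcop
        have hHcard : Nat.card (H'.map (Subgroup.subtype _)) = Nat.card Hb := by
          rw [Subgroup.card_subtype, ← hH'.symm.index_eq_card, hidx]
        refine ⟨H'.map (Subgroup.subtype _), hHcard ▸ hHbc, nb + a, ?_⟩
        have h1 := Subgroup.card_mul_index (H'.map (Subgroup.subtype _))
        have h2 := Subgroup.card_mul_index Hb
        rw [hHcard, ← hQcard, ← h2, hHbi, ha] at h1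
        have h3 : Nat.card Hb * (H'.map (Subgroup.subtype _)).index
            = Nat.card Hb * (p ^ (nb + a)) := by rw [h1, pow_add]; ring
        exact Nat.eq_of_mul_eq_mul_left Nat.card_pos h3
      · intro U H hU hHc hHi
        obtain ⟨g, hg⟩ := hlift U H hU hHc hHi
        have hVc : Nat.card (MulAut.conj g • U : Subgroup G) = Nat.card U := card_conj_smul g U
        have hVcop : (Nat.card (MulAut.conj g • U : Subgroup G)).Coprime (Nat.card N) := by
          rw [hVc, ha]; exact Nat.Coprime.pow_right a hU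
        have hVN : (MulAut.conj g • U : Subgroup G) ≤ Subgroup.normalizer (N : Set G) := by
          rw [Subgroup.normalizer_eq_top]; exact le_top
        have hHN : H ≤ Subgroup.normalizer (N : Set G) := by
          rw [Subgroup.normalizer_eq_top]; exact le_top
        have hHcop : (Nat.card H).Coprime (Nat.card N) := by
          rw [ha]; exact Nat.Coprime.pow_right a hHc
        have hBsup : (H ⊓ (MulAut.conj g • U ⊔ N)) ⊔ N = MulAut.conj g • U ⊔ N := by
          apply le_antisymm
          · exact sup_le inf_le_right le_sup_right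
          · intro x hx
            have hx' : x ∈ H ⊔ N := (sup_le hg le_sup_right) hx
            obtain ⟨h, hh, n, hn, rfl⟩ := Subgroup.mem_sup_of_normal_right.mp hx'
            have hmem : h ∈ MulAut.conj g • U ⊔ N := by
              have := (MulAut.conj g • U ⊔ N).mul_mem hx
                ((MulAut.conj g • U ⊔ N).inv_mem
                  ((le_sup_right : N ≤ MulAut.conj g • U ⊔ N) hn))
              simpa using this
            exact Subgroup.mul_mem_sup ⟨hh, hmem⟩ hn
        have hBc : Nat.card (H ⊓ (MulAut.conj g • U ⊔ N) : Subgroup G)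
            = Nat.card (MulAut.conj g • U : Subgroup G) := by
          have hdisj : (H ⊓ (MulAut.conj g • U ⊔ N)) ⊓ N = ⊥ := by
            have h0 : H ⊓ N = ⊥ := (Subgroup.disjoint_of_coprime_natCard hHcop).eq_bot
            rw [eq_bot_iff, ← h0]
            exact le_inf (inf_le_left.trans inf_le_left) inf_le_right
          have h1 := card_sup_of_le_normalizer (H ⊓ (MulAut.conj g • U ⊔ N)) N
            (inf_le_left.trans hHN) hdisj
          have h2 := card_sup_of_le_normalizer (MulAut.conj g • U) N hVN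
            (Subgroup.disjoint_of_coprime_natCard hVcop).eq_bot
          rw [hBsup, h2] at h1
          exact (Nat.eq_of_mul_eq_mul_right Nat.card_pos h1).symm
        obtain ⟨d, hd, hdB⟩ := sz_conj_internal (MulAut.conj g • U) N
          (H ⊓ (MulAut.conj g • U ⊔ N)) hVN hVcop (Or.inr hNsolv) inf_le_right hBc
        refine ⟨d * g, ?_⟩
        rw [conj_mul_smul, hdB]; exact inf_le_left
    · -- `N` is a `p'`-group
      have hNH : ∀ H : Subgroup G, (Nat.card H).Coprime p → (∃ n : ℕ, H.index = p ^ n) →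
          N ≤ H := by
        rintro H hc ⟨n, hn⟩
        have h1 : (Nat.card (H ⊔ N : Subgroup G)).Coprime p :=
          Nat.Coprime.coprime_dvd_left (card_sup_dvd_of_normal H N) (Nat.Coprime.mul_left hc hNp')
        have h2 : H.relIndex (H ⊔ N) ∣ p ^ n := hn ▸ Subgroup.relIndex_dvd_index_of_le le_sup_left
        have h3 : H.relIndex (H ⊔ N) ∣ Nat.card (H ⊔ N : Subgroup G) :=
          Subgroup.relIndex_dvd_card _ _
        have h4 : H.relIndex (H ⊔ N) = 1 :=
          Nat.eq_one_of_dvd_coprimes (Nat.Coprime.pow_right n h1) h3 h2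
        exact le_sup_right.trans (Subgroup.relIndex_eq_one.mp h4)
      constructor
      · refine ⟨Hb.comap (QuotientGroup.mk' N), ?_, nb, ?_⟩
        · rw [card_comap_mk']; exact Nat.Coprime.mul_left hHbc hNp'
        · rw [Subgroup.index_comap_of_surjective _ (QuotientGroup.mk'_surjective N)]; exact hHbi
      · intro U H hU hHc hHi
        obtain ⟨g, hg⟩ := hlift U H hU hHc hHi
        exact ⟨g, hg.trans (sup_le le_rfl (hNH H hHc hHi))⟩

theorem hall_card_eq {G : Type*} [Group G] [Finite G] {p : ℕ} [hp : Fact p.Prime]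
    (H₁ H₂ : Subgroup G) (h1 : (Nat.card H₁).Coprime p) (h1' : ∃ n : ℕ, H₁.index = p ^ n)
    (h2 : (Nat.card H₂).Coprime p) (h2' : ∃ n : ℕ, H₂.index = p ^ n) :
    Nat.card H₁ = Nat.card H₂ := by
  obtain ⟨n1, hn1⟩ := h1'
  obtain ⟨n2, hn2⟩ := h2'
  have e1 := Subgroup.card_mul_index H₁
  have e2 := Subgroup.card_mul_index H₂
  rw [hn1] at e1
  rw [hn2] at e2
  apply Nat.dvd_antisymm
  · have : Nat.card H₁ ∣ Nat.card H₂ * p ^ n2 := by rw [e2, ← e1]; exact dvd_mul_right _ _
    exact (Nat.Coprime.pow_right n2 h1).dvd_of_dvd_mul_right this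
  · have : Nat.card H₂ ∣ Nat.card H₁ * p ^ n1 := by rw [e1, ← e2]; exact dvd_mul_right _ _
    exact (Nat.Coprime.pow_right n1 h2).dvd_of_dvd_mul_right this

/-- A finite p-soluble group has a p-complement, all its p-complements are conjugate, and every subgroup of order prime to p lies in one of them. Here a p-complement is a subgroup of order prime to p whose index is a power of p. -/
theorem result {G : Type*} [Group G] [Finite G] {p : ℕ} [Fact p.Prime] (hG : Cfsg.IsPSolvable p G) : (∃ H : Subgroup G, (Nat.card H).Coprime p ∧ ∃ n : ℕ, H.index = p ^ n) ∧ (∀ H₁ H₂ : Subgroup G, (Nat.card H₁).Coprime p → (∃ n : ℕ, H₁.index = p ^ n) → (Nat.card H₂).Coprime p → (∃ n : ℕ, H₂.index = p ^ n) → ∃ g : G, H₂ = H₁.map (MulAut.conj g).toMonoidHom) ∧ (∀ U : Subgroup G, (Nat.card U).Coprime p → ∃ H : Subgroup G, (Nat.card H).Coprime p ∧ (∃ n : ℕ, H.index = p ^ n) ∧ ∃ g : G, U.map (MulAut.conj g).toMonoidHom ≤ H) := by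
  obtain ⟨hex, hconj⟩ := hall_aux p (Nat.card G) G rfl hG
  refine ⟨hex, ?_, ?_⟩
  · intro H₁ H₂ h1 h1' h2 h2'
    obtain ⟨g, hg⟩ := hconj H₁ H₂ h1 h2 h2'
    refine ⟨g, ?_⟩
    have hc : Nat.card H₂ ≤ Nat.card (MulAut.conj g • H₁ : Subgroup G) := by
      rw [card_conj_smul, hall_card_eq H₁ H₂ h1 h1' h2 h2']
    exact (Subgroup.eq_of_le_of_card_ge hg hc).symm
  · intro U hU
    obtain ⟨H, hH, hH'⟩ := hex
    obtain ⟨g, hg⟩ := hconj U H hU hH hH'
    exact ⟨H, hH, hH', g, hg⟩

end Cfsg.Agent.S3744
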