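import Cfsg.Statements.S5396
import Cfsg.Agent.H54.ES2
import Cfsg.Agent.H54.ES2Count
import Cfsg.Agent.H3.PGroup
import Cfsg.Agent.H3.Critical

set_option autoImplicit false
open Cfsg

namespace Cfsg.Agent.S5396

open scoped commutatorElement

/-- the local bilinear cocycle on `ZMod 2 × ZMod 2` (`s = 0`: dihedral type, `s = 1`: quaternion type) -/
def bl (s : ZMod 2) (p q : ZMod 2 × ZMod 2) : ZMod 2 := p.1 * q.2 + s * (p.1 * q.1 + p.2 * q.2)

theorem bl_add_left : ∀ (s : ZMod 2) (p p' q : ZMod 2 × ZMod 2),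
    bl s (p + p') q = bl s p q + bl s p' q := by decide

theorem bl_add_right : ∀ (s : ZMod 2) (p q q' : ZMod 2 × ZMod 2),
    bl s p (q + q') = bl s p q + bl s p q' := by decide

theorem bl_zero_left : ∀ (s : ZMod 2) (q : ZMod 2 × ZMod 2), bl s 0 q = 0 := by decide

theorem bl_zero_right : ∀ (s : ZMod 2) (p : ZMod 2 × ZMod 2), bl s p 0 = 0 := by decide

theorem bl_symm_zero : ∀ (s : ZMod 2) (q : ZMod 2 × ZMod 2), (∀ p, bl s p q = bl s q p) → q = 0 := by
  decide

theorem bl_gen : ∀ s : ZMod 2, bl s (1, 0) (0, 1) = 1 ∧ bl s (0, 1) (1, 0) = 0 := by decide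

theorem bl_iso : ∀ (s b c : ZMod 2), bl 0 (0, b) (0, c) = 0 ∧ bl s 0 0 = 0 := by decide

theorem two_add : ∀ a : ZMod 2, a + a = 0 := by decide

theorem pair_add : ∀ p : ZMod 2 × ZMod 2, p + p = 0 := by decide

/-- the global cocycle -/
def beta (m : ℕ) (s : ZMod 2) (v w : (Fin m → ZMod 2 × ZMod 2) × (ZMod 2 × ZMod 2)) : ZMod 2 :=
  (∑ i, bl 0 (v.1 i) (w.1 i)) + bl s v.2 w.2

theorem beta_add_left (m : ℕ) (s : ZMod 2) (u v w : (Fin m → ZMod 2 × ZMod 2) × (ZMod 2 × ZMod 2)) :
    beta m s (u + v) w = beta m s u w + beta m s v w := by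
  unfold beta
  have h1 : ∀ i, bl 0 ((u + v).1 i) (w.1 i) = bl 0 (u.1 i) (w.1 i) + bl 0 (v.1 i) (w.1 i) :=
    fun i => bl_add_left 0 _ _ _
  have h2 : bl s (u + v).2 w.2 = bl s u.2 w.2 + bl s v.2 w.2 := bl_add_left s _ _ _
  rw [Finset.sum_congr rfl (fun i _ => h1 i), Finset.sum_add_distrib, h2]
  abel

theorem beta_add_right (m : ℕ) (s : ZMod 2) (u v w : (Fin m → ZMod 2 × ZMod 2) × (ZMod 2 × ZMod 2)) :
    beta m s u (v + w) = beta m s u v + beta m s u w := by
  unfold beta
  have h1 : ∀ i, bl 0 (u.1 i) ((v + w).1 i) = bl 0 (u.1 i) (v.1 i) + bl 0 (u.1 i) (w.1 i) :=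
    fun i => bl_add_right 0 _ _ _
  have h2 : bl s u.2 (v + w).2 = bl s u.2 v.2 + bl s u.2 w.2 := bl_add_right s _ _ _
  rw [Finset.sum_congr rfl (fun i _ => h1 i), Finset.sum_add_distrib, h2]
  abel

theorem beta_zero_left (m : ℕ) (s : ZMod 2) (w : (Fin m → ZMod 2 × ZMod 2) × (ZMod 2 × ZMod 2)) :
    beta m s 0 w = 0 := by
  unfold beta
  have h1 : ∀ i, bl 0 ((0 : (Fin m → ZMod 2 × ZMod 2) × (ZMod 2 × ZMod 2)).1 i) (w.1 i) = 0 :=
    fun i => bl_zero_left 0 _
  have h2 : bl s (0 : (Fin m → ZMod 2 × ZMod 2) × (ZMod 2 × ZMod 2)).2 w.2 = 0 := bl_zero_left s _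
  rw [Finset.sum_congr rfl (fun i _ => h1 i), Finset.sum_const_zero, h2, add_zero]

theorem beta_zero_right (m : ℕ) (s : ZMod 2) (w : (Fin m → ZMod 2 × ZMod 2) × (ZMod 2 × ZMod 2)) :
    beta m s w 0 = 0 := by
  unfold beta
  have h1 : ∀ i, bl 0 (w.1 i) ((0 : (Fin m → ZMod 2 × ZMod 2) × (ZMod 2 × ZMod 2)).1 i) = 0 :=
    fun i => bl_zero_right 0 _
  have h2 : bl s w.2 (0 : (Fin m → ZMod 2 × ZMod 2) × (ZMod 2 × ZMod 2)).2 = 0 := bl_zero_right s _
  rw [Finset.sum_congr rfl (fun i _ => h1 i), Finset.sum_const_zero, h2, add_zero]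

/-- the extraspecial group of order `2 ^ (2 m + 3)` of type `s` -/
@[ext] structure ESG (m : ℕ) (s : ZMod 2) where
  v : (Fin m → ZMod 2 × ZMod 2) × (ZMod 2 × ZMod 2)
  a : ZMod 2

instance instGroupESG (m : ℕ) (s : ZMod 2) : Group (ESG m s) where
  mul g h := ⟨g.v + h.v, g.a + h.a + beta m s g.v h.v⟩
  one := ⟨0, 0⟩
  inv g := ⟨-g.v, -g.a + beta m s g.v g.v⟩
  mul_assoc g h k := by
    apply ESG.ext
    · exact add_assoc _ _ _
    · show g.a + h.a + beta m s g.v h.v + k.a + beta m s (g.v + h.v) k.v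
        = g.a + (h.a + k.a + beta m s h.v k.v) + beta m s g.v (h.v + k.v)
      rw [beta_add_left, beta_add_right]
      abel
  one_mul g := by
    apply ESG.ext
    · exact zero_add _
    · show 0 + g.a + beta m s 0 g.v = g.a
      rw [beta_zero_left, zero_add, add_zero]
  mul_one g := by
    apply ESG.ext
    · exact add_zero _
    · show g.a + 0 + beta m s g.v 0 = g.a
      rw [beta_zero_right, add_zero, add_zero]
  inv_mul_cancel g := by
    apply ESG.ext
    · exact neg_add_cancel _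
    · show -g.a + beta m s g.v g.v + g.a + beta m s (-g.v) g.v = 0
      have h : beta m s g.v g.v + beta m s (-g.v) g.v = 0 := by
        rw [← beta_add_left, add_neg_cancel, beta_zero_left]
      calc -g.a + beta m s g.v g.v + g.a + beta m s (-g.v) g.v
          = (beta m s g.v g.v + beta m s (-g.v) g.v) := by abel
        _ = 0 := h

theorem mul_v {m : ℕ} {s : ZMod 2} (g h : ESG m s) : (g * h).v = g.v + h.v := rfl
theorem mul_a {m : ℕ} {s : ZMod 2} (g h : ESG m s) : (g * h).a = g.a + h.a + beta m s g.v h.v := rfl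
theorem one_v {m : ℕ} {s : ZMod 2} : (1 : ESG m s).v = 0 := rfl
theorem one_a {m : ℕ} {s : ZMod 2} : (1 : ESG m s).a = 0 := rfl

/-- the underlying equivalence with a product -/
def esgEquiv (m : ℕ) (s : ZMod 2) :
    ESG m s ≃ ((Fin m → ZMod 2 × ZMod 2) × (ZMod 2 × ZMod 2)) × ZMod 2 where
  toFun g := (g.v, g.a)
  invFun p := ⟨p.1, p.2⟩
  left_inv _ := rfl
  right_inv _ := rfl

instance instFiniteESG (m : ℕ) (s : ZMod 2) : Finite (ESG m s) := Finite.of_equiv _ (esgEquiv m s).symm

theorem card_esg (m : ℕ) (s : ZMod 2) : Nat.card (ESG m s) = 2 ^ (2 * (m + 1) + 1) := by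
  rw [Nat.card_congr (esgEquiv m s), Nat.card_eq_fintype_card]
  simp only [Fintype.card_prod, Fintype.card_pi, ZMod.card, Finset.prod_const, Finset.card_univ,
    Fintype.card_fin]
  have : (2 * 2 : ℕ) = 2 ^ 2 := by norm_num
  rw [this, ← pow_mul]
  ring

theorem comm_iff {m : ℕ} {s : ZMod 2} (g h : ESG m s) :
    g * h = h * g ↔ beta m s g.v h.v = beta m s h.v g.v := by
  constructor
  · intro e
    have e2 : (g * h).a = (h * g).a := by rw [e]
    rw [mul_a, mul_a] at e2
    have e3 : g.a + h.a + beta m s g.v h.v = g.a + h.a + beta m s h.v g.v := by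
      rw [e2]; abel
    exact add_left_cancel e3
  · intro e
    apply ESG.ext
    · rw [mul_v, mul_v, add_comm]
    · rw [mul_a, mul_a, e]; abel

theorem mem_center_iff' {m : ℕ} {s : ZMod 2} (g : ESG m s) :
    g ∈ Subgroup.center (ESG m s) ↔ g.v = 0 := by
  rw [Subgroup.mem_center_iff]
  constructor
  · intro hg
    have key : ∀ w : (Fin m → ZMod 2 × ZMod 2) × (ZMod 2 × ZMod 2),
        beta m s w g.v = beta m s g.v w := by
      intro w
      exact (comm_iff (⟨w, 0⟩ : ESG m s) g).mp (hg ⟨w, 0⟩)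
    apply Prod.ext
    · funext i
      apply bl_symm_zero 0
      intro p
      have h := key (Pi.single i p, 0)
      unfold beta at h
      rw [Finset.sum_eq_single i, Finset.sum_eq_single i] at h
      · simp only [Pi.single_eq_same] at h
        rw [bl_zero_left, bl_zero_right, add_zero, add_zero] at h
        exact h
      · intro j _ hj
        show bl 0 (g.v.1 j) ((Pi.single i p : Fin m → ZMod 2 × ZMod 2) j) = 0
        rw [Pi.single_eq_of_ne hj, bl_zero_right]
      · intro h'; exact absurd (Finset.mem_univ i) h'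
      · intro j _ hj
        show bl 0 ((Pi.single i p : Fin m → ZMod 2 × ZMod 2) j) (g.v.1 j) = 0
        rw [Pi.single_eq_of_ne hj, bl_zero_left]
      · intro h'; exact absurd (Finset.mem_univ i) h'
    · apply bl_symm_zero s
      intro p
      have h := key (0, p)
      unfold beta at h
      have z1 : ∀ i, bl 0 ((0 : Fin m → ZMod 2 × ZMod 2) i) (g.v.1 i) = 0 := fun i => bl_zero_left 0 _
      have z2 : ∀ i, bl 0 (g.v.1 i) ((0 : Fin m → ZMod 2 × ZMod 2) i) = 0 := fun i => bl_zero_right 0 _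
      rw [Finset.sum_congr rfl (fun i _ => z1 i), Finset.sum_congr rfl (fun i _ => z2 i),
        Finset.sum_const_zero, zero_add, zero_add] at h
      exact h
  · intro hv h
    apply (comm_iff h g).mpr
    rw [hv, beta_zero_left, beta_zero_right]

/-- the projection to the underlying elementary abelian group -/
def proj (m : ℕ) (s : ZMod 2) :
    ESG m s →* Multiplicative ((Fin m → ZMod 2 × ZMod 2) × (ZMod 2 × ZMod 2)) where
  toFun g := Multiplicative.ofAdd g.v
  map_one' := rfl
  map_mul' _ _ := rfl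

theorem proj_surj (m : ℕ) (s : ZMod 2) : Function.Surjective (proj m s) := fun w =>
  ⟨⟨Multiplicative.toAdd w, 0⟩, rfl⟩

theorem comm_v {m : ℕ} {s : ZMod 2} (g h : ESG m s) : (⁅g, h⁆).v = 0 := by
  have h1 : proj m s ⁅g, h⁆ = 1 := by
    rw [map_commutatorElement]
    exact commutatorElement_eq_one_iff_mul_comm.mpr (mul_comm _ _)
  exact h1

/-- the central involution -/
def zelt (m : ℕ) (s : ZMod 2) : ESG m s := ⟨0, 1⟩

theorem zelt_comm (m : ℕ) (s : ZMod 2) :
    ⁅(⟨(0, (1, 0)), 0⟩ : ESG m s), (⟨(0, (0, 1)), 0⟩ : ESG m s)⁆ = zelt m s := by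
  have key : (⟨(0, (1, 0)), 0⟩ : ESG m s) * ⟨(0, (0, 1)), 0⟩
      = zelt m s * ((⟨(0, (0, 1)), 0⟩ : ESG m s) * ⟨(0, (1, 0)), 0⟩) := by
    apply ESG.ext
    · show ((0 : Fin m → ZMod 2 × ZMod 2), ((1 : ZMod 2), (0 : ZMod 2))) + (0, (0, 1))
        = 0 + ((0, (0, 1)) + (0, (1, 0)))
      rw [zero_add, add_comm]
    · show (0 : ZMod 2) + 0 + beta m s (0, (1, 0)) (0, (0, 1))
        = 1 + (0 + 0 + beta m s (0, (0, 1)) (0, (1, 0))) + beta m s 0 ((0, (0, 1)) + (0, (1, 0)))
      rw [beta_zero_left]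
      unfold beta
      have z1 : ∀ i : Fin m, bl 0 ((0 : Fin m → ZMod 2 × ZMod 2) i) ((0 : Fin m → ZMod 2 × ZMod 2) i) = 0 :=
        fun i => bl_zero_left 0 _
      simp only [Finset.sum_congr rfl (fun i _ => z1 i), Finset.sum_const_zero, (bl_gen s).1,
        (bl_gen s).2]
      decide
  rw [commutatorElement_def, key]
  group

theorem center_cases {m : ℕ} {s : ZMod 2} (g : ESG m s) (hg : g ∈ Subgroup.center (ESG m s)) :
    g = 1 ∨ g = zelt m s := by
  have hv := (mem_center_iff' g).mp hg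
  have h2 : ∀ a : ZMod 2, a = 0 ∨ a = 1 := by decide
  rcases h2 g.a with h | h
  · left; exact ESG.ext hv h
  · right; exact ESG.ext hv h

theorem commutator_eq_center (m : ℕ) (s : ZMod 2) :
    commutator (ESG m s) = Subgroup.center (ESG m s) := by
  apply le_antisymm
  · rw [commutator_def, Subgroup.commutator_le]
    intro g _ h _
    exact (mem_center_iff' _).mpr (comm_v g h)
  · intro g hg
    rcases center_cases g hg with h | h
    · rw [h]; exact Subgroup.one_mem _
    · rw [h, ← zelt_comm, commutator_def]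
      exact Subgroup.commutator_mem_commutator (Subgroup.mem_top _) (Subgroup.mem_top _)

theorem isPGroup_esg (m : ℕ) (s : ZMod 2) : IsPGroup 2 (ESG m s) :=
  IsPGroup.of_card (card_esg m s)

theorem frattini_eq_center (m : ℕ) (s : ZMod 2) :
    frattini (ESG m s) = Subgroup.center (ESG m s) := by
  have : Fact (Nat.Prime 2) := ⟨Nat.prime_two⟩
  apply le_antisymm
  · have h1 := frattini_le_comap_frattini_of_surjective (proj_surj m s)
    have h2 : frattini (Multiplicative ((Fin m → ZMod 2 × ZMod 2) × (ZMod 2 × ZMod 2))) = ⊥ := by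
      apply Cfsg.Agent.H3.frattini_eq_bot_of_elementary (p := 2) (fun a b => mul_comm a b)
      intro a
      have : Multiplicative.toAdd a + Multiplicative.toAdd a = 0 := by
        apply Prod.ext
        · funext i; exact pair_add _
        · exact pair_add _
      rw [pow_two]
      exact this
    rw [h2] at h1
    intro g hg
    have h3 : proj m s g = 1 := h1 hg
    exact (mem_center_iff' g).mpr h3
  · rw [← commutator_eq_center]
    exact Cfsg.Agent.H3.commutator_le_frattini (isPGroup_esg m s)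

theorem card_center (m : ℕ) (s : ZMod 2) : Nat.card (Subgroup.center (ESG m s)) = 2 := by
  have e : Subgroup.center (ESG m s) ≃ ZMod 2 :=
    { toFun := fun g => g.1.a
      invFun := fun a => ⟨⟨0, a⟩, (mem_center_iff' _).mpr rfl⟩
      left_inv := fun g => Subtype.ext (ESG.ext ((mem_center_iff' g.1).mp g.2).symm rfl)
      right_inv := fun a => rfl }
  rw [Nat.card_congr e, Nat.card_zmod]

theorem isExtraspecial_esg (m : ℕ) (s : ZMod 2) : IsExtraspecial 2 (ESG m s) :=
  ⟨⟨isPGroup_esg m s, frattini_eq_center m s, commutator_eq_center m s⟩, card_center m s⟩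

/-- the image of an injective "homomorphism" from an additive group of exponent two is an
elementary abelian subgroup -/
theorem range_subgroup {E U : Type} [Group E] [AddCommGroup U] (f : U → E)
    (hf : ∀ u u', f u * f u' = f (u + u')) (h2 : ∀ u : U, u + u = 0)
    (hinj : Function.Injective f) :
    ∃ A : Subgroup E, IsElementaryAbelian 2 A ∧ Nat.card A = Nat.card U := by
  have f0 : f 0 = 1 := by
    have h := hf 0 0
    rw [add_zero] at h
    have h' : f 0 * f 0 = f 0 * 1 := by rw [h, mul_one]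
    exact mul_left_cancel h'
  let A : Subgroup E :=
    { carrier := Set.range f
      mul_mem' := by
        rintro _ _ ⟨u, rfl⟩ ⟨u', rfl⟩
        exact ⟨u + u', (hf u u').symm⟩
      one_mem' := ⟨0, f0⟩
      inv_mem' := by
        rintro _ ⟨u, rfl⟩
        refine ⟨u, ?_⟩
        symm
        apply inv_eq_of_mul_eq_one_right
        rw [hf, h2, f0] }
  refine ⟨A, ⟨⟨⟨?_⟩⟩, ?_⟩, ?_⟩
  · intro a b
    obtain ⟨u, hu⟩ := a.2
    obtain ⟨u', hu'⟩ := b.2
    apply Subtype.ext
    show (a : E) * (b : E) = (b : E) * (a : E)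
    rw [← hu, ← hu', hf, hf, add_comm]
  · rintro _ ⟨u, rfl⟩
    rw [pow_two, hf, h2, f0]
  · show Nat.card (Set.range f) = Nat.card U
    exact Nat.card_range_of_injective hinj

theorem exists_plus (m : ℕ) : ∃ A : Subgroup (ESG m 0),
    IsElementaryAbelian 2 A ∧ Nat.card A = 2 ^ (m + 1 + 1) := by
  obtain ⟨A, hA, hc⟩ := range_subgroup (E := ESG m 0) (U := (Fin m → ZMod 2) × ZMod 2 × ZMod 2)
    (fun u => ⟨(fun i => (0, u.1 i), (0, u.2.1)), u.2.2⟩)
    (by
      intro u u'
      apply ESG.ext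
      · show ((fun i => ((0 : ZMod 2), u.1 i)), ((0 : ZMod 2), u.2.1)) + ((fun i => ((0 : ZMod 2), u'.1 i)), ((0 : ZMod 2), u'.2.1))
          = ((fun i => ((0 : ZMod 2), (u + u').1 i)), ((0 : ZMod 2), (u + u').2.1))
        apply Prod.ext
        · funext i
          apply Prod.ext
          · exact add_zero _
          · rfl
        · apply Prod.ext
          · exact add_zero _
          · rfl
      · show u.2.2 + u'.2.2 + beta m 0 ((fun i => ((0 : ZMod 2), u.1 i)), ((0 : ZMod 2), u.2.1))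
            ((fun i => ((0 : ZMod 2), u'.1 i)), ((0 : ZMod 2), u'.2.1)) = (u + u').2.2
        unfold beta
        have z1 : ∀ i : Fin m, bl 0 ((0 : ZMod 2), u.1 i) ((0 : ZMod 2), u'.1 i) = 0 :=
          fun i => (bl_iso 0 _ _).1
        have z2 : bl 0 ((0 : ZMod 2), u.2.1) ((0 : ZMod 2), u'.2.1) = 0 := (bl_iso 0 _ _).1
        simp only [Finset.sum_congr rfl (fun i _ => z1 i), Finset.sum_const_zero, z2, add_zero]
        rfl)
    (by
      intro u
      apply Prod.ext
      · funext i; exact two_add _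
      · apply Prod.ext
        · exact two_add _
        · exact two_add _)
    (by
      intro u u' h
      have hv : ((fun i => ((0 : ZMod 2), u.1 i)), ((0 : ZMod 2), u.2.1))
          = ((fun i => ((0 : ZMod 2), u'.1 i)), ((0 : ZMod 2), u'.2.1)) := congrArg ESG.v h
      have ha : u.2.2 = u'.2.2 := congrArg ESG.a h
      have h1 := congrArg Prod.fst hv
      have h2 := congrArg Prod.snd hv
      apply Prod.ext
      · funext i
        exact congrArg Prod.snd (congrFun h1 i)
      · apply Prod.ext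
        · exact congrArg Prod.snd h2
        · exact ha)
  refine ⟨A, hA, ?_⟩
  rw [hc, Nat.card_eq_fintype_card]
  simp only [Fintype.card_prod, Fintype.card_pi, ZMod.card, Finset.prod_const, Finset.card_univ,
    Fintype.card_fin]
  ring

theorem exists_minus (m : ℕ) : ∃ A : Subgroup (ESG m 1),
    IsElementaryAbelian 2 A ∧ Nat.card A = 2 ^ (m + 1) := by
  obtain ⟨A, hA, hc⟩ := range_subgroup (E := ESG m 1) (U := (Fin m → ZMod 2) × ZMod 2)
    (fun u => ⟨(fun i => (0, u.1 i), 0), u.2⟩)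
    (by
      intro u u'
      apply ESG.ext
      · show ((fun i => ((0 : ZMod 2), u.1 i)), (0 : ZMod 2 × ZMod 2)) + ((fun i => ((0 : ZMod 2), u'.1 i)), 0)
          = ((fun i => ((0 : ZMod 2), (u + u').1 i)), 0)
        apply Prod.ext
        · funext i
          apply Prod.ext
          · exact add_zero _
          · rfl
        · exact add_zero _
      · show u.2 + u'.2 + beta m 1 ((fun i => ((0 : ZMod 2), u.1 i)), (0 : ZMod 2 × ZMod 2))
            ((fun i => ((0 : ZMod 2), u'.1 i)), 0) = (u + u').2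
        unfold beta
        have z1 : ∀ i : Fin m, bl 0 ((0 : ZMod 2), u.1 i) ((0 : ZMod 2), u'.1 i) = 0 :=
          fun i => (bl_iso 0 _ _).1
        have z2 : bl 1 (0 : ZMod 2 × ZMod 2) 0 = 0 := bl_zero_left 1 0
        simp only [Finset.sum_congr rfl (fun i _ => z1 i), Finset.sum_const_zero, z2, add_zero]
        rfl)
    (by
      intro u
      apply Prod.ext
      · funext i; exact two_add _
      · exact two_add _)
    (by
      intro u u' h
      have hv : ((fun i => ((0 : ZMod 2), u.1 i)), (0 : ZMod 2 × ZMod 2))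
          = ((fun i => ((0 : ZMod 2), u'.1 i)), 0) := congrArg ESG.v h
      have ha : u.2 = u'.2 := congrArg ESG.a h
      have h1 := congrArg Prod.fst hv
      apply Prod.ext
      · funext i
        exact congrArg Prod.snd (congrFun h1 i)
      · exact ha)
  refine ⟨A, hA, ?_⟩
  rw [hc, Nat.card_eq_fintype_card]
  simp only [Fintype.card_prod, Fintype.card_pi, ZMod.card, Finset.prod_const, Finset.card_univ,
    Fintype.card_fin]
  ring

/-- the 2-rank of an extraspecial group of order `2 ^ (2 n + 1)` is at most `n + 1` -/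
theorem rank_le {E : Type} [Group E] [Finite E] (n : ℕ) (hE : IsExtraspecial 2 E)
    (hcard : Nat.card E = 2 ^ (2 * n + 1)) (A : Subgroup E) (hA : IsElementaryAbelian 2 A)
    (k : ℕ) (hk : Nat.card A = 2 ^ k) : k ≤ n + 1 := by
  have hES := Cfsg.Agent.H54.ES2.of_isExtraspecial hE
  have h := hES.card_mul_card_centralizer_le A
  have hle : A ≤ Subgroup.centralizer (A : Set E) := by
    intro x hx
    rw [Subgroup.mem_centralizer_iff]
    intro y hy
    exact congrArg Subtype.val (hA.1.is_comm.comm ⟨y, hy⟩ ⟨x, hx⟩)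
  have h2 := Subgroup.card_le_of_le hle
  rw [hcard, hk] at h
  rw [hk] at h2
  have h3 : 2 ^ k * 2 ^ k ≤ 2 ^ (2 * n + 1) * 2 :=
    le_trans (Nat.mul_le_mul_left _ h2) h
  have h4 : 2 ^ (2 * k) ≤ 2 ^ (2 * n + 2) := by
    calc 2 ^ (2 * k) = 2 ^ k * 2 ^ k := by ring
      _ ≤ 2 ^ (2 * n + 1) * 2 := h3
      _ = 2 ^ (2 * n + 2) := by ring
  have h5 := (Nat.pow_le_pow_iff_right (by norm_num : 1 < 2)).mp h4
  omega

/-- the sign character of `ZMod 2` -/
def chi (a : ZMod 2) : ℤ := if a = 0 then 1 else -1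

theorem chi_add : ∀ a b : ZMod 2, chi (a + b) = chi a * chi b := by decide

theorem chi_sum {ι : Type} (s : Finset ι) (g : ι → ZMod 2) :
    chi (∑ i ∈ s, g i) = ∏ i ∈ s, chi (g i) := by
  classical
  induction s using Finset.induction_on with
  | empty => rfl
  | insert a s ha ih => rw [Finset.sum_insert ha, Finset.prod_insert ha, chi_add, ih]

theorem local_sum0 : ∑ q : ZMod 2 × ZMod 2, chi (bl 0 q q) = 2 := by decide

theorem local_sum1 : ∑ q : ZMod 2 × ZMod 2, chi (bl 1 q q) = -2 := by decide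

theorem char_sum (m : ℕ) (s : ZMod 2) :
    ∑ v : (Fin m → ZMod 2 × ZMod 2) × (ZMod 2 × ZMod 2), chi (beta m s v v)
      = 2 ^ m * ∑ q : ZMod 2 × ZMod 2, chi (bl s q q) := by
  rw [Fintype.sum_prod_type]
  simp only [beta, chi_add, chi_sum]
  rw [← Finset.sum_mul_sum]
  congr 1
  rw [← Fintype.prod_sum (fun (_ : Fin m) (q : ZMod 2 × ZMod 2) => chi (bl 0 q q))]
  simp only [local_sum0, Finset.prod_const, Finset.card_univ, Fintype.card_fin]

theorem chi_count {α : Type} [Fintype α] (g : α → ZMod 2) :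
    ∑ x, chi (g x) = 2 * (Fintype.card {x // g x = 0} : ℤ) - Fintype.card α := by
  classical
  have h1 : ∀ x, chi (g x) = 2 * (if g x = 0 then (1 : ℤ) else 0) - 1 := by
    intro x
    unfold chi
    split_ifs <;> norm_num
  rw [Finset.sum_congr rfl (fun x _ => h1 x), Finset.sum_sub_distrib, ← Finset.mul_sum,
    Finset.sum_boole, Fintype.card_subtype]
  simp

theorem sq_eq_one_iff {m : ℕ} {s : ZMod 2} (x : ESG m s) : x * x = 1 ↔ beta m s x.v x.v = 0 := by
  have hv : x.v + x.v = 0 := by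
    apply Prod.ext
    · funext i; exact pair_add _
    · exact pair_add _
  constructor
  · intro h
    have h2 : (x * x).a = 0 := by rw [h]; rfl
    rw [mul_a, two_add, zero_add] at h2
    exact h2
  · intro h
    apply ESG.ext
    · rw [mul_v, hv]; rfl
    · rw [mul_a, two_add, zero_add, h]; rfl

theorem card_sq_eq_one (m : ℕ) (s : ZMod 2) :
    Nat.card {x : ESG m s // x * x = 1}
      = Fintype.card {v : (Fin m → ZMod 2 × ZMod 2) × (ZMod 2 × ZMod 2) // beta m s v v = 0} * 2 := by
  have e : {x : ESG m s // x * x = 1}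
      ≃ {v : (Fin m → ZMod 2 × ZMod 2) × (ZMod 2 × ZMod 2) // beta m s v v = 0} × ZMod 2 :=
    { toFun := fun x => (⟨x.1.v, (sq_eq_one_iff x.1).mp x.2⟩, x.1.a)
      invFun := fun p => ⟨⟨p.1.1, p.2⟩, (sq_eq_one_iff _).mpr p.1.2⟩
      left_inv := fun x => rfl
      right_inv := fun p => rfl }
  rw [Nat.card_congr e, Nat.card_eq_fintype_card, Fintype.card_prod, ZMod.card]

/-- no elementary abelian subgroup of order `2 ^ (n + 1)` in the group of minus type -/
theorem minus_no_big (m : ℕ) (A : Subgroup (ESG m 1)) (hA : IsElementaryAbelian 2 A)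
    (hk : Nat.card A = 2 ^ (m + 1 + 1)) : False := by
  have hE := isExtraspecial_esg m 1
  have hES := Cfsg.Agent.H54.ES2.of_isExtraspecial hE
  have hcomm : ∀ u ∈ A, ∀ v ∈ A, u * v = v * u := fun u hu v hv =>
    congrArg Subtype.val (hA.1.is_comm.comm ⟨u, hu⟩ ⟨v, hv⟩)
  have hsq : ∀ u ∈ A, u * u = 1 := fun u hu => by rw [← pow_two]; exact hA.2 u hu
  have hCA := hES.centralizer_le_of_card (m + 1) (card_esg m 1) A hcomm hk
  have hcount := hES.two_mul_card_sq_eq_one A hsq hcomm hCA
  rw [card_sq_eq_one, card_esg, hk] at hcount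
  have h1 := char_sum m 1
  rw [chi_count, local_sum1] at h1
  have hV : (Fintype.card ((Fin m → ZMod 2 × ZMod 2) × (ZMod 2 × ZMod 2)) : ℤ) = 4 * 4 ^ m := by
    simp only [Fintype.card_prod, Fintype.card_pi, ZMod.card, Finset.prod_const, Finset.card_univ,
      Fintype.card_fin]
    push_cast
    ring
  rw [hV] at h1
  have hcount' : (2 : ℤ) * ((Fintype.card {v : (Fin m → ZMod 2 × ZMod 2) × (ZMod 2 × ZMod 2) //
      beta m 1 v v = 0} : ℤ) * 2) = 2 ^ (2 * (m + 1) + 1) + 2 ^ (m + 1 + 1) := by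
    exact_mod_cast hcount
  have e1 : (2 : ℤ) ^ (2 * (m + 1) + 1) = 8 * 4 ^ m := by
    have h4 : (4 : ℤ) ^ m = 2 ^ (2 * m) := by rw [pow_mul]; norm_num
    rw [h4]; ring
  have e2 : (2 : ℤ) ^ (m + 1 + 1) = 4 * 2 ^ m := by ring
  rw [e1, e2] at hcount'
  have hpos : (0 : ℤ) < 2 ^ m := by positivity
  linarith

/-- Sets of exponents with greatest element. -/
theorem sSup_eq {S : Set ℕ} {r : ℕ} (h1 : r ∈ S) (h2 : ∀ k ∈ S, k ≤ r) : sSup S = r :=
  IsGreatest.csSup_eq ⟨h1, h2⟩

/-- For every n ≥ 1 there exist finite extraspecial 2-groups of order 2^(2n+1) whose 2-rank (the largest rank of an elementary abelian subgroup) is n, and ones whose 2-rank is n + 1 (so for each such order there are two non-isomorphic extraspecial 2-groups, told apart by their 2-rank). -/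
theorem result (n : ℕ) (hn : 1 ≤ n) : ∀ r ∈ ({n, n + 1} : Set ℕ), ∃ (E : Type) (_ : Group E) (_ : Finite E), Cfsg.IsExtraspecial 2 E ∧ Nat.card E = 2 ^ (2 * n + 1) ∧ sSup {k : ℕ | ∃ A : Subgroup E, Cfsg.IsElementaryAbelian 2 A ∧ Nat.card A = 2 ^ k} = r := by
  obtain ⟨m, rfl⟩ : ∃ m, n = m + 1 := ⟨n - 1, by omega⟩
  intro r hr
  rcases hr with rfl | hr
  · refine ⟨ESG m 1, inferInstance, inferInstance, isExtraspecial_esg m 1, card_esg m 1, ?_⟩
    apply sSup_eq
    · exact exists_minus m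
    · rintro k ⟨A, hA, hk⟩
      have h1 := rank_le (m + 1) (isExtraspecial_esg m 1) (card_esg m 1) A hA k hk
      rcases Nat.lt_or_ge k (m + 1 + 1) with h | h
      · omega
      · have hk' : k = m + 1 + 1 := by omega
        rw [hk'] at hk
        exact (minus_no_big m A hA hk).elim
  · rw [Set.mem_singleton_iff] at hr
    subst hr
    refine ⟨ESG m 0, inferInstance, inferInstance, isExtraspecial_esg m 0, card_esg m 0, ?_⟩
    apply sSup_eq
    · exact exists_plus m
    · rintro k ⟨A, hA, hk⟩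
      exact rank_le (m + 1) (isExtraspecial_esg m 0) (card_esg m 0) A hA k hk

end Cfsg.Agent.S5396
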