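import Cfsg.Statements.S3763
import Cfsg.Agent.S5396

set_option autoImplicit false
open Cfsg

namespace Cfsg.Agent.S3763

open scoped commutatorElement
open Cfsg.Agent.H54 Cfsg.Agent.S5396

universe u v

theorem z2_cases : ∀ a : ZMod 2, a = 0 ∨ a = 1 := by decide

section basic

variable {E : Type u} [Group E]

/-- power with exponent in `ZMod 2` -/
def pw (x : E) (a : ZMod 2) : E := if a = 0 then 1 else x

theorem pw_zero (x : E) : pw x 0 = 1 := if_pos rfl

theorem pw_one (x : E) : pw x 1 = x := if_neg (by decide)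

/-- an `ES2` group together with its central involution -/
structure ZData (E : Type u) [Group E] (z : E) : Prop where
  es : ES2 E
  mem : z ∈ Subgroup.center E
  ne : z ≠ 1
  sq : z * z = 1
  all : ∀ c ∈ Subgroup.center E, c = 1 ∨ c = z

theorem exists_zdata (hES : ES2 E) : ∃ z : E, ZData E z := by
  have hne : Subgroup.center E ≠ ⊥ := by
    intro h
    have h1 := hES.card_center
    rw [h, Subgroup.card_bot] at h1
    omega
  obtain ⟨⟨z, hz⟩, hz1⟩ := (Subgroup.ne_bot_iff_exists_ne_one).mp hne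
  have hz1' : z ≠ 1 := fun h => hz1 (Subtype.ext h)
  refine ⟨z, hES, hz, hz1', hES.central_sq hz, ?_⟩
  intro c hc
  by_cases h : c = 1
  · exact Or.inl h
  · exact Or.inr (hES.central_eq hc hz h hz1')

variable {z : E}

theorem ZData.zc (h : ZData E z) (g : E) : z * g = g * z :=
  (Subgroup.mem_center_iff.mp h.mem g).symm

theorem ZData.comm_cases (h : ZData E z) (x y : E) : x * y = y * x ∨ x * y = z * y * x := by
  rcases h.all _ (h.es.comm_mem x y) with h1 | h1
  · left
    exact commutatorElement_eq_one_iff_mul_comm.mp h1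
  · right
    rw [commutatorElement_def] at h1
    calc x * y = (x * y * x⁻¹ * y⁻¹) * y * x := by group
      _ = z * y * x := by rw [h1]

theorem ZData.ncomm (h : ZData E z) {x y : E} (hxy : x * y ≠ y * x) : x * y = z * y * x := by
  rcases h.comm_cases x y with h1 | h1
  · exact absurd h1 hxy
  · exact h1

theorem ZData.sq_cases (h : ZData E z) (x : E) : x * x = 1 ∨ x * x = z :=
  h.all _ (h.es.sq_mem x)

/-- a non-commuting pair either yields a dihedral pair or is of quaternion type -/
theorem d8_or_q8 (h : ZData E z) {u w : E} (huw : u * w ≠ w * u) :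
    (∃ x y : E, x * x = 1 ∧ y * y = 1 ∧ x * y ≠ y * x) ∨ (u * u = z ∧ w * w = z) := by
  have hwu : w * u = z * u * w := h.ncomm (fun e => huw e.symm)
  have hzu := h.zc u
  have key : u * w * (u * w) = z * (u * u) * (w * w) := by
    calc u * w * (u * w) = u * (w * u) * w := by simp only [mul_assoc]
      _ = u * (z * u * w) * w := by rw [hwu]
      _ = (u * z) * u * w * w := by simp only [mul_assoc]
      _ = (z * u) * u * w * w := by rw [hzu]
      _ = z * (u * u) * (w * w) := by simp only [mul_assoc]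
  rcases h.sq_cases u with hu | hu <;> rcases h.sq_cases w with hw | hw
  · exact Or.inl ⟨u, w, hu, hw, huw⟩
  · refine Or.inl ⟨u, u * w, hu, ?_, ?_⟩
    · rw [key, hu, hw, mul_one, h.sq]
    · intro e
      apply huw
      have e' : u * (u * w) = u * (w * u) := by rw [e]; simp only [mul_assoc]
      exact mul_left_cancel e'
  · refine Or.inl ⟨u * w, w, ?_, hw, ?_⟩
    · rw [key, hu, hw, mul_one, h.sq]
    · intro e
      apply huw
      have e' : u * w * w = w * u * w := by rw [e]; simp only [mul_assoc]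
      exact mul_right_cancel e'
  · exact Or.inr ⟨hu, hw⟩

theorem exists_d8 (h : ZData E z) {u w u' w' : E} (huw : u * w ≠ w * u)
    (hu'w' : u' * w' ≠ w' * u') (c1 : u' * u = u * u') (c2 : u' * w = w * u') :
    ∃ x y : E, x * x = 1 ∧ y * y = 1 ∧ x * y ≠ y * x := by
  rcases d8_or_q8 h huw with h1 | ⟨hu, hw⟩
  · exact h1
  rcases d8_or_q8 h hu'w' with h2 | ⟨hu', -⟩
  · exact h2
  refine ⟨u * u', w * u', ?_, ?_, ?_⟩
  · calc u * u' * (u * u') = u * (u' * u) * u' := by simp only [mul_assoc]
      _ = u * (u * u') * u' := by rw [c1]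
      _ = (u * u) * (u' * u') := by simp only [mul_assoc]
      _ = 1 := by rw [hu, hu', h.sq]
  · calc w * u' * (w * u') = w * (u' * w) * u' := by simp only [mul_assoc]
      _ = w * (w * u') * u' := by rw [c2]
      _ = (w * w) * (u' * u') := by simp only [mul_assoc]
      _ = 1 := by rw [hw, hu', h.sq]
  · intro e
    apply huw
    have e1 : u * u' * (w * u') = u * w * (u' * u') := by
      calc u * u' * (w * u') = u * (u' * w) * u' := by simp only [mul_assoc]
        _ = u * (w * u') * u' := by rw [c2]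
        _ = u * w * (u' * u') := by simp only [mul_assoc]
    have e2 : w * u' * (u * u') = w * u * (u' * u') := by
      calc w * u' * (u * u') = w * (u' * u) * u' := by simp only [mul_assoc]
        _ = w * (u * u') * u' := by rw [c1]
        _ = w * u * (u' * u') := by simp only [mul_assoc]
    rw [e1, e2] at e
    exact mul_right_cancel e

theorem exists_ncomm (hES : ES2 E) (hcard : Nat.card E ≠ 2) : ∃ x y : E, x * y ≠ y * x := by
  by_contra hcon
  push Not at hcon
  apply hcard
  have htop : Subgroup.center E = ⊤ := by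
    rw [Subgroup.eq_top_iff']
    intro g
    rw [Subgroup.mem_center_iff]
    intro k
    exact hcon k g
  have := hES.card_center
  rw [htop, Subgroup.card_top] at this
  exact this

/-- the common centralizer of `x` and `y` -/
def CC (x y : E) : Subgroup E := Subgroup.centralizer {x} ⊓ Subgroup.centralizer {y}

theorem mem_CC {x y c : E} : c ∈ CC x y ↔ x * c = c * x ∧ y * c = c * y := by
  unfold CC
  rw [Subgroup.mem_inf, Subgroup.mem_centralizer_iff, Subgroup.mem_centralizer_iff]
  simp

theorem commHom_eq_one_iff (hc : ∀ x y : E, ⁅x, y⁆ ∈ Subgroup.center E) (y g : E) :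
    commHomCenter hc y g = 1 ↔ y * g = g * y := by
  rw [← MonoidHom.mem_ker, commHomCenter_ker, Subgroup.mem_centralizer_iff]
  simp

theorem center_two (h : ZData E z) (a b : Subgroup.center E) (ha : a ≠ 1) (hb : b ≠ 1) : a = b :=
  Subtype.ext (h.es.central_eq a.2 b.2 (fun e => ha (Subtype.ext e)) (fun e => hb (Subtype.ext e)))

theorem center_inv_mul (h : ZData E z) (a b : Subgroup.center E) (hab : a = 1 ↔ b = 1) :
    a⁻¹ * b = 1 := by
  by_cases ha : a = 1
  · rw [ha, hab.mp ha]; simp
  · have hb : b ≠ 1 := fun e => ha (hab.mpr e)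
    rw [center_two h a b ha hb]; simp

theorem decomp (h : ZData E z) {x y : E} (hxy : x * y ≠ y * x) (e : E) :
    ∃ w : E, (w = 1 ∨ w = x ∨ w = y ∨ w = y * x) ∧ w⁻¹ * e ∈ CC x y := by
  have kx := commHom_eq_one_iff h.es.comm_mem x
  have ky := commHom_eq_one_iff h.es.comm_mem y
  have hxx : commHomCenter h.es.comm_mem x x = 1 := (kx x).mpr rfl
  have hyy : commHomCenter h.es.comm_mem y y = 1 := (ky y).mpr rfl
  have hyx : commHomCenter h.es.comm_mem x y ≠ 1 := fun e => hxy ((kx y).mp e)
  have hxy' : commHomCenter h.es.comm_mem y x ≠ 1 := fun e => hxy ((ky x).mp e).symm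
  have fin : ∀ w : E, (commHomCenter h.es.comm_mem x w = 1 ↔ commHomCenter h.es.comm_mem x e = 1) →
      (commHomCenter h.es.comm_mem y w = 1 ↔ commHomCenter h.es.comm_mem y e = 1) →
      w⁻¹ * e ∈ CC x y := by
    intro w hw1 hw2
    rw [mem_CC]
    constructor
    · rw [← kx, map_mul, map_inv]; exact center_inv_mul h _ _ hw1
    · rw [← ky, map_mul, map_inv]; exact center_inv_mul h _ _ hw2
  by_cases h1 : commHomCenter h.es.comm_mem x e = 1 <;>
    by_cases h2 : commHomCenter h.es.comm_mem y e = 1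
  · refine ⟨1, Or.inl rfl, fin 1 ?_ ?_⟩
    · rw [map_one]; exact ⟨fun _ => h1, fun _ => rfl⟩
    · rw [map_one]; exact ⟨fun _ => h2, fun _ => rfl⟩
  · refine ⟨x, Or.inr (Or.inl rfl), fin x ?_ ?_⟩
    · exact ⟨fun _ => h1, fun _ => hxx⟩
    · exact ⟨fun e => absurd e hxy', fun e => absurd e h2⟩
  · refine ⟨y, Or.inr (Or.inr (Or.inl rfl)), fin y ?_ ?_⟩
    · exact ⟨fun e => absurd e hyx, fun e => absurd e h1⟩
    · exact ⟨fun _ => h2, fun _ => hyy⟩
  · refine ⟨y * x, Or.inr (Or.inr (Or.inr rfl)), fin (y * x) ?_ ?_⟩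
    · rw [map_mul, hxx, mul_one]
      exact ⟨fun e => absurd e hyx, fun e => absurd e h1⟩
    · rw [map_mul, hyy, one_mul]
      exact ⟨fun e => absurd e hxy', fun e => absurd e h2⟩

theorem center_CC (h : ZData E z) {x y : E} (hxy : x * y ≠ y * x) (d : ↥(CC x y))
    (hd : d ∈ Subgroup.center ↥(CC x y)) : (d : E) ∈ Subgroup.center E := by
  rw [Subgroup.mem_center_iff]
  intro e
  obtain ⟨w, hw, hc⟩ := decomp h hxy e
  have hdx : x * (d : E) = d * x := (mem_CC.mp d.2).1
  have hdy : y * (d : E) = d * y := (mem_CC.mp d.2).2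
  have hdw : w * (d : E) = d * w := by
    rcases hw with rfl | rfl | rfl | rfl
    · simp
    · exact hdx
    · exact hdy
    · rw [mul_assoc, hdx, ← mul_assoc, hdy, mul_assoc]
  have hdc : (w⁻¹ * e) * (d : E) = d * (w⁻¹ * e) :=
    congrArg Subtype.val (Subgroup.mem_center_iff.mp hd ⟨w⁻¹ * e, hc⟩)
  calc e * d = w * ((w⁻¹ * e) * d) := by group
    _ = w * (d * (w⁻¹ * e)) := by rw [hdc]
    _ = (w * d) * (w⁻¹ * e) := by simp only [mul_assoc]
    _ = (d * w) * (w⁻¹ * e) := by rw [hdw]
    _ = d * e := by group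

theorem es2_CC (h : ZData E z) {x y : E} (hxy : x * y ≠ y * x) : ES2 ↥(CC x y) := by
  refine ⟨?_, ?_, ?_⟩
  · intro c
    rw [Subgroup.mem_center_iff]
    intro g
    apply Subtype.ext
    exact Subgroup.mem_center_iff.mp (h.es.sq_mem (c : E)) (g : E)
  · intro c d
    rw [Subgroup.mem_center_iff]
    intro g
    apply Subtype.ext
    have := Subgroup.mem_center_iff.mp (h.es.comm_mem (c : E) (d : E)) (g : E)
    simpa [commutatorElement_def] using this
  · rw [← h.es.card_center]
    symm
    apply Nat.card_congr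
    exact
      { toFun := fun c => ⟨⟨c.1, mem_CC.mpr ⟨Subgroup.mem_center_iff.mp c.2 x,
            Subgroup.mem_center_iff.mp c.2 y⟩⟩, by
            rw [Subgroup.mem_center_iff]
            intro g
            apply Subtype.ext
            exact Subgroup.mem_center_iff.mp c.2 (g : E)⟩
        invFun := fun d => ⟨d.1.1, center_CC h hxy d.1 d.2⟩
        left_inv := fun c => rfl
        right_inv := fun d => rfl }

theorem card_CC [Finite E] (h : ZData E z) {x y : E} (hxy : x * y ≠ y * x) :
    Nat.card E = 4 * Nat.card ↥(CC x y) := by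
  have kx := commHom_eq_one_iff h.es.comm_mem x
  have ky := commHom_eq_one_iff h.es.comm_mem y
  have hxx : commHomCenter h.es.comm_mem x x = 1 := (kx x).mpr rfl
  have hyy : commHomCenter h.es.comm_mem y y = 1 := (ky y).mpr rfl
  have hyx : commHomCenter h.es.comm_mem x y ≠ 1 := fun e => hxy ((kx y).mp e)
  have hxy' : commHomCenter h.es.comm_mem y x ≠ 1 := fun e => hxy ((ky x).mp e).symm
  let f : E →* Subgroup.center E × Subgroup.center E :=
    (commHomCenter h.es.comm_mem x).prod (commHomCenter h.es.comm_mem y)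
  have hker : f.ker = CC x y := by
    ext g
    rw [MonoidHom.mem_ker, mem_CC, ← kx, ← ky]
    exact Prod.ext_iff
  have hsurj : Function.Surjective f := by
    rintro ⟨a, b⟩
    by_cases ha : a = 1 <;> by_cases hb : b = 1
    · exact ⟨1, by rw [map_one, ha, hb]; rfl⟩
    · refine ⟨x, Prod.ext ?_ ?_⟩
      · show commHomCenter h.es.comm_mem x x = a
        rw [hxx, ha]
      · exact center_two h _ _ hxy' hb
    · refine ⟨y, Prod.ext ?_ ?_⟩
      · exact center_two h _ _ hyx ha
      · show commHomCenter h.es.comm_mem y y = b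
        rw [hyy, hb]
    · refine ⟨y * x, Prod.ext ?_ ?_⟩
      · show commHomCenter h.es.comm_mem x (y * x) = a
        rw [map_mul, hxx, mul_one]
        exact center_two h _ _ hyx ha
      · show commHomCenter h.es.comm_mem y (y * x) = b
        rw [map_mul, hyy, one_mul]
        exact center_two h _ _ hxy' hb
  have hidx : (CC x y).index = 4 := by
    rw [← hker, Subgroup.index_ker, MonoidHom.range_eq_top.mpr hsurj, Subgroup.card_top,
      Nat.card_prod, h.es.card_center]
  rw [← Subgroup.card_mul_index (CC x y), hidx, mul_comm]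

theorem pw_mul_self (h : ZData E z) (a b : ZMod 2) : pw z a * pw z b = pw z (a + b) := by
  rcases z2_cases a with rfl | rfl <;> rcases z2_cases b with rfl | rfl
  · simp [pw_zero]
  · simp [pw_zero, pw_one]
  · simp [pw_zero, pw_one]
  · have e : (1 : ZMod 2) + 1 = 0 := by decide
    rw [e, pw_zero, pw_one, h.sq]

theorem pw_z_comm (h : ZData E z) (a : ZMod 2) (g : E) : pw z a * g = g * pw z a := by
  rcases z2_cases a with rfl | rfl
  · simp [pw_zero]
  · rw [pw_one]; exact h.zc g

theorem pw_sq {x : E} {s : ZMod 2} (hx : x * x = pw z s) (a a' : ZMod 2) :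
    pw x a * pw x a' = pw x (a + a') * pw z (s * a * a') := by
  rcases z2_cases a with rfl | rfl <;> rcases z2_cases a' with rfl | rfl
  · simp [pw_zero]
  · simp [pw_zero, pw_one]
  · simp [pw_zero, pw_one]
  · have e : (1 : ZMod 2) + 1 = 0 := by decide
    rw [e, pw_zero, pw_one, hx]; simp

theorem pw_xy (h : ZData E z) {x y : E} (hxy : x * y ≠ y * x) (a b : ZMod 2) :
    pw x a * pw y b = pw y b * pw x a * pw z (a * b) := by
  rcases z2_cases a with rfl | rfl <;> rcases z2_cases b with rfl | rfl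
  · simp [pw_zero]
  · simp [pw_zero, pw_one]
  · simp [pw_zero, pw_one]
  · simp only [pw_one, mul_one]
    rw [h.ncomm hxy, mul_assoc z, h.zc]

/-- the coset representative attached to a pair of bits -/
def sg (x y : E) (p : ZMod 2 × ZMod 2) : E := pw y p.2 * pw x p.1

theorem sg_zero (x y : E) : sg x y 0 = 1 := by
  show pw y 0 * pw x 0 = 1
  rw [pw_zero, pw_zero, one_mul]

theorem sg_mul (h : ZData E z) {x y : E} {s : ZMod 2} (hxy : x * y ≠ y * x)
    (hx : x * x = pw z s) (hy : y * y = pw z s) (p q : ZMod 2 × ZMod 2) :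
    sg x y p * sg x y q = sg x y (p + q) * pw z (bl s p q) := by
  obtain ⟨a, b⟩ := p
  obtain ⟨a', b'⟩ := q
  show pw y b * pw x a * (pw y b' * pw x a')
    = pw y (b + b') * pw x (a + a') * pw z (bl s (a, b) (a', b'))
  have e1 := pw_xy h hxy a b'
  have e2 := pw_sq hy b b'
  have e3 := pw_sq hx a a'
  have c1 := pw_z_comm h (a * b') (pw x a')
  have c2 := pw_z_comm h (s * b * b') (pw x (a + a'))
  calc pw y b * pw x a * (pw y b' * pw x a')
      = pw y b * (pw x a * pw y b') * pw x a' := by simp only [mul_assoc]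
    _ = pw y b * (pw y b' * pw x a * pw z (a * b')) * pw x a' := by rw [e1]
    _ = pw y b * pw y b' * pw x a * (pw z (a * b') * pw x a') := by simp only [mul_assoc]
    _ = pw y b * pw y b' * pw x a * (pw x a' * pw z (a * b')) := by rw [c1]
    _ = (pw y b * pw y b') * (pw x a * pw x a') * pw z (a * b') := by simp only [mul_assoc]
    _ = (pw y (b + b') * pw z (s * b * b')) * (pw x (a + a') * pw z (s * a * a'))
          * pw z (a * b') := by rw [e2, e3]
    _ = pw y (b + b') * (pw z (s * b * b') * pw x (a + a')) * pw z (s * a * a')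
          * pw z (a * b') := by simp only [mul_assoc]
    _ = pw y (b + b') * (pw x (a + a') * pw z (s * b * b')) * pw z (s * a * a')
          * pw z (a * b') := by rw [c2]
    _ = pw y (b + b') * pw x (a + a')
          * (pw z (s * b * b') * pw z (s * a * a') * pw z (a * b')) := by simp only [mul_assoc]
    _ = pw y (b + b') * pw x (a + a') * pw z (bl s (a, b) (a', b')) := by
        rw [pw_mul_self h, pw_mul_self h]
        congr 2
        simp only [bl]
        ring

theorem sg_central {x y : E} (hxy : x * y ≠ y * x) (p : ZMod 2 × ZMod 2)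
    (h1 : x * sg x y p = sg x y p * x) (h2 : y * sg x y p = sg x y p * y) : p = 0 := by
  obtain ⟨a, b⟩ := p
  rcases z2_cases a with rfl | rfl <;> rcases z2_cases b with rfl | rfl
  · rfl
  · exfalso
    simp only [sg, pw_zero, pw_one, mul_one] at h1
    exact hxy h1
  · exfalso
    simp only [sg, pw_zero, pw_one, one_mul] at h2
    exact hxy h2.symm
  · exfalso
    simp only [sg, pw_one] at h1
    apply hxy
    have e : x * y * x = y * x * x := by rw [mul_assoc]; exact h1
    exact mul_right_cancel e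

theorem sg_comm_CC {x y : E} {c : E} (hc : c ∈ CC x y) (p : ZMod 2 × ZMod 2) :
    c * sg x y p = sg x y p * c := by
  obtain ⟨a, b⟩ := p
  have hx : x * c = c * x := (mem_CC.mp hc).1
  have hy : y * c = c * y := (mem_CC.mp hc).2
  rcases z2_cases a with rfl | rfl <;> rcases z2_cases b with rfl | rfl
  · simp [sg, pw_zero]
  · simp only [sg, pw_zero, pw_one, mul_one]; exact hy.symm
  · simp only [sg, pw_zero, pw_one, one_mul]; exact hx.symm
  · simp only [sg, pw_one]
    rw [← mul_assoc, ← hy, mul_assoc, ← hx, mul_assoc]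

/-- the groups of order `8` -/
theorem base_iso [Finite E] (h : ZData E z) {x y : E} {s : ZMod 2} (hxy : x * y ≠ y * x)
    (hx : x * x = pw z s) (hy : y * y = pw z s) (hcard : Nat.card E = 8) :
    Nonempty (ESG 0 s ≃* E) := by
  let ψ : ESG 0 s → E := fun g => sg x y g.v.2 * pw z g.a
  have hmul : ∀ g k : ESG 0 s, ψ (g * k) = ψ g * ψ k := by
    intro g k
    show sg x y (g * k).v.2 * pw z (g * k).a = sg x y g.v.2 * pw z g.a * (sg x y k.v.2 * pw z k.a)
    have hv : (g * k).v.2 = g.v.2 + k.v.2 := rfl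
    have ha : (g * k).a = g.a + k.a + bl s g.v.2 k.v.2 := by
      rw [mul_a]; unfold S5396.beta; simp
    rw [hv, ha]
    have c1 := pw_z_comm h g.a (sg x y k.v.2)
    calc sg x y (g.v.2 + k.v.2) * pw z (g.a + k.a + bl s g.v.2 k.v.2)
        = sg x y (g.v.2 + k.v.2) * (pw z (bl s g.v.2 k.v.2) * (pw z g.a * pw z k.a)) := by
          rw [pw_mul_self h, pw_mul_self h]; congr 2; ring
      _ = (sg x y (g.v.2 + k.v.2) * pw z (bl s g.v.2 k.v.2)) * (pw z g.a * pw z k.a) := by
          simp only [mul_assoc]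
      _ = (sg x y g.v.2 * sg x y k.v.2) * (pw z g.a * pw z k.a) := by rw [sg_mul h hxy hx hy]
      _ = sg x y g.v.2 * (sg x y k.v.2 * pw z g.a) * pw z k.a := by simp only [mul_assoc]
      _ = sg x y g.v.2 * (pw z g.a * sg x y k.v.2) * pw z k.a := by rw [c1]
      _ = sg x y g.v.2 * pw z g.a * (sg x y k.v.2 * pw z k.a) := by simp only [mul_assoc]
  let f : ESG 0 s →* E := MonoidHom.mk' ψ hmul
  have hinj : Function.Injective f := by
    rw [injective_iff_map_eq_one]
    intro g hg
    have hg' : sg x y g.v.2 * pw z g.a = 1 := hg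
    have hs : sg x y g.v.2 = (pw z g.a)⁻¹ := eq_inv_of_mul_eq_one_left hg'
    have h1 : x * sg x y g.v.2 = sg x y g.v.2 * x := by
      rw [hs]
      exact ((show Commute (pw z g.a) x from pw_z_comm h g.a x).symm.inv_right).eq
    have h2 : y * sg x y g.v.2 = sg x y g.v.2 * y := by
      rw [hs]
      exact ((show Commute (pw z g.a) y from pw_z_comm h g.a y).symm.inv_right).eq
    have hp := sg_central hxy g.v.2 h1 h2
    rw [hp, sg_zero, one_mul] at hg'
    have ha : g.a = 0 := by
      rcases z2_cases g.a with h0 | h1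
      · exact h0
      · rw [h1, pw_one] at hg'; exact absurd hg' h.ne
    apply ESG.ext
    · apply Prod.ext
      · funext i; exact Fin.elim0 i
      · exact hp
    · exact ha
  have hbij : Function.Bijective f :=
    hinj.bijective_of_nat_card_le (by rw [hcard, card_esg]; norm_num)
  exact ⟨MulEquiv.ofBijective f hbij⟩

/-- peeling off a dihedral pair -/
theorem ext_iso [Finite E] (h : ZData E z) {x y : E} (hxy : x * y ≠ y * x)
    (hx : x * x = 1) (hy : y * y = 1) {m : ℕ} {s : ZMod 2} (φ : ESG m s ≃* ↥(CC x y)) :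
    Nonempty (ESG (m + 1) s ≃* E) := by
  let tl : ESG (m + 1) s → ESG m s := fun g => ⟨(fun i => g.v.1 i.succ, g.v.2), g.a⟩
  let zel : ZMod 2 → ESG m s := fun t => ⟨0, t⟩
  have hx' : x * x = pw z 0 := by rw [pw_zero]; exact hx
  have hy' : y * y = pw z 0 := by rw [pw_zero]; exact hy
  have htl : ∀ g k : ESG (m + 1) s,
      tl (g * k) = tl g * tl k * zel (bl 0 (g.v.1 0) (k.v.1 0)) := by
    intro g k
    apply ESG.ext
    · rw [mul_v, mul_v]
      show ((fun i => (g * k).v.1 i.succ, (g * k).v.2) : (Fin m → ZMod 2 × ZMod 2) × (ZMod 2 × ZMod 2))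
        = (fun i => g.v.1 i.succ, g.v.2) + (fun i => k.v.1 i.succ, k.v.2) + 0
      rw [add_zero]
      rfl
    · rw [mul_a, mul_a]
      show (g * k).a = g.a + k.a + S5396.beta m s (tl g).v (tl k).v + bl 0 (g.v.1 0) (k.v.1 0)
        + S5396.beta m s (tl g * tl k).v 0
      rw [beta_zero_right, add_zero, mul_a]
      unfold S5396.beta
      rw [Fin.sum_univ_succ]
      show g.a + k.a + (bl 0 (g.v.1 0) (k.v.1 0) + ∑ i : Fin m, bl 0 (g.v.1 i.succ) (k.v.1 i.succ)
          + bl s g.v.2 k.v.2)
        = g.a + k.a + (∑ i : Fin m, bl 0 (g.v.1 i.succ) (k.v.1 i.succ) + bl s g.v.2 k.v.2)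
          + bl 0 (g.v.1 0) (k.v.1 0)
      abel
  have hφz : ∀ t : ZMod 2, ((φ (zel t) : ↥(CC x y)) : E) = pw z t := by
    intro t
    rcases z2_cases t with rfl | rfl
    · have e : zel 0 = 1 := rfl
      rw [e, map_one, pw_zero]; rfl
    · rw [pw_one]
      have hcen : zel 1 ∈ Subgroup.center (ESG m s) := (mem_center_iff' _).mpr rfl
      have hcen' : φ (zel 1) ∈ Subgroup.center ↥(CC x y) := by
        rw [Subgroup.mem_center_iff]
        intro c
        obtain ⟨c', rfl⟩ := φ.surjective c
        rw [← map_mul, ← map_mul, Subgroup.mem_center_iff.mp hcen c']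
      have hne : ((φ (zel 1) : ↥(CC x y)) : E) ≠ 1 := by
        intro e
        have e' : φ (zel 1) = 1 := Subtype.ext e
        have e'' : zel 1 = 1 := φ.injective (by rw [e', map_one])
        have e3 : (zel 1).a = (1 : ESG m s).a := by rw [e'']
        have e4 : (1 : ZMod 2) = 0 := e3
        exact absurd e4 (by decide)
      rcases h.all _ (center_CC h hxy _ hcen') with h1 | h1
      · exact absurd h1 hne
      · exact h1
  let ψ : ESG (m + 1) s → E := fun g => sg x y (g.v.1 0) * ((φ (tl g) : ↥(CC x y)) : E)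
  have hmul : ∀ g k : ESG (m + 1) s, ψ (g * k) = ψ g * ψ k := by
    intro g k
    show sg x y ((g * k).v.1 0) * ((φ (tl (g * k)) : ↥(CC x y)) : E)
      = sg x y (g.v.1 0) * ((φ (tl g) : ↥(CC x y)) : E)
        * (sg x y (k.v.1 0) * ((φ (tl k) : ↥(CC x y)) : E))
    have hv : (g * k).v.1 0 = g.v.1 0 + k.v.1 0 := rfl
    rw [htl, map_mul, map_mul, hv, Subgroup.coe_mul, Subgroup.coe_mul, hφz]
    have c1 := sg_comm_CC (φ (tl g)).2 (k.v.1 0)
    have c2 := pw_z_comm h (bl 0 (g.v.1 0) (k.v.1 0))
      (((φ (tl g) : ↥(CC x y)) : E) * ((φ (tl k) : ↥(CC x y)) : E))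
    symm
    calc sg x y (g.v.1 0) * ((φ (tl g) : ↥(CC x y)) : E)
          * (sg x y (k.v.1 0) * ((φ (tl k) : ↥(CC x y)) : E))
        = sg x y (g.v.1 0) * (((φ (tl g) : ↥(CC x y)) : E) * sg x y (k.v.1 0))
          * ((φ (tl k) : ↥(CC x y)) : E) := by simp only [mul_assoc]
      _ = sg x y (g.v.1 0) * (sg x y (k.v.1 0) * ((φ (tl g) : ↥(CC x y)) : E))
          * ((φ (tl k) : ↥(CC x y)) : E) := by rw [c1]
      _ = (sg x y (g.v.1 0) * sg x y (k.v.1 0))
          * (((φ (tl g) : ↥(CC x y)) : E) * ((φ (tl k) : ↥(CC x y)) : E)) := by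
          simp only [mul_assoc]
      _ = (sg x y (g.v.1 0 + k.v.1 0) * pw z (bl 0 (g.v.1 0) (k.v.1 0)))
          * (((φ (tl g) : ↥(CC x y)) : E) * ((φ (tl k) : ↥(CC x y)) : E)) := by
          rw [sg_mul h hxy hx' hy']
      _ = sg x y (g.v.1 0 + k.v.1 0) * (pw z (bl 0 (g.v.1 0) (k.v.1 0))
          * (((φ (tl g) : ↥(CC x y)) : E) * ((φ (tl k) : ↥(CC x y)) : E))) := by
          simp only [mul_assoc]
      _ = sg x y (g.v.1 0 + k.v.1 0) * (((φ (tl g) : ↥(CC x y)) : E)
          * ((φ (tl k) : ↥(CC x y)) : E) * pw z (bl 0 (g.v.1 0) (k.v.1 0))) := by rw [c2]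
  let f : ESG (m + 1) s →* E := MonoidHom.mk' ψ hmul
  have hinj : Function.Injective f := by
    rw [injective_iff_map_eq_one]
    intro g hg
    have hg' : sg x y (g.v.1 0) * ((φ (tl g) : ↥(CC x y)) : E) = 1 := hg
    have hs : sg x y (g.v.1 0) = (((φ (tl g) : ↥(CC x y)) : E))⁻¹ := eq_inv_of_mul_eq_one_left hg'
    have hmem : sg x y (g.v.1 0) ∈ CC x y := by
      rw [hs]; exact (CC x y).inv_mem (φ (tl g)).2
    have hp := sg_central hxy (g.v.1 0) (mem_CC.mp hmem).1 (mem_CC.mp hmem).2
    rw [hp, sg_zero, one_mul] at hg'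
    have ht : tl g = 1 := φ.injective (by rw [map_one]; exact Subtype.ext hg')
    have ht1 : ∀ j : Fin m, g.v.1 j.succ = 0 := fun j =>
      congrArg (fun t : ESG m s => t.v.1 j) ht
    have ht2 : g.v.2 = 0 := congrArg (fun t : ESG m s => t.v.2) ht
    have ht3 : g.a = 0 := congrArg (fun t : ESG m s => t.a) ht
    apply ESG.ext
    · apply Prod.ext
      · funext i
        refine Fin.cases ?_ ?_ i
        · exact hp
        · exact ht1
      · exact ht2
    · exact ht3
  have hbij : Function.Bijective f := by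
    apply hinj.bijective_of_nat_card_le
    rw [card_CC h hxy, ← Nat.card_congr φ.toEquiv, card_esg, card_esg]
    apply le_of_eq
    ring
  exact ⟨MulEquiv.ofBijective f hbij⟩

end basic

/-- classification of the nonabelian `ES2` groups -/
theorem classify : ∀ (N : ℕ) (E : Type u) [Group E] [Finite E], ES2 E → Nat.card E = N →
    (∃ x y : E, x * y ≠ y * x) → ∃ (m : ℕ) (s : ZMod 2), Nonempty (ESG m s ≃* E) := by
  intro N
  induction N using Nat.strong_induction_on with
  | _ N ih =>
    intro E _ _ hES hN hna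
    obtain ⟨u, w, huw⟩ := hna
    obtain ⟨z, h⟩ := exists_zdata hES
    have hC0 := es2_CC h huw
    have hcard0 := card_CC h huw
    by_cases h2 : Nat.card ↥(CC u w) = 2
    · -- order 8
      have h8 : Nat.card E = 8 := by rw [hcard0, h2]
      rcases d8_or_q8 h huw with ⟨x, y, hx, hy, hxy⟩ | ⟨hu, hw⟩
      · exact ⟨0, 0, base_iso h hxy (by rw [pw_zero]; exact hx) (by rw [pw_zero]; exact hy) h8⟩
      · exact ⟨0, 1, base_iso h huw (by rw [pw_one]; exact hu) (by rw [pw_one]; exact hw) h8⟩
    · obtain ⟨u', w', hu'w'⟩ := exists_ncomm hC0 h2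
      have hu'w'' : (u' : E) * (w' : E) ≠ (w' : E) * (u' : E) := fun e => hu'w' (Subtype.ext e)
      obtain ⟨x, y, hx, hy, hxy⟩ := exists_d8 h huw hu'w''
        (mem_CC.mp u'.2).1.symm (mem_CC.mp u'.2).2.symm
      have hC := es2_CC h hxy
      have hcard := card_CC h hxy
      have hC2 : Nat.card ↥(CC x y) ≠ 2 := by
        intro e
        apply h2
        omega
      have hna' := exists_ncomm hC hC2
      have hpos : 0 < Nat.card ↥(CC x y) := Nat.card_pos
      obtain ⟨m, s, ⟨φ⟩⟩ := ih (Nat.card ↥(CC x y)) (by omega) ↥(CC x y) hC rfl hna'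
      exact ⟨m + 1, s, ext_iso h hxy hx hy φ⟩

theorem classify' {F : Type u} [Group F] [Finite F] (hF : IsExtraspecial 2 F) (n : ℕ)
    (hn : Nat.card F = 2 ^ (2 * n + 1)) :
    ∃ (m : ℕ) (s : ZMod 2), n = m + 1 ∧ Nonempty (ESG m s ≃* F) := by
  have hES := ES2.of_isExtraspecial hF
  have hna : ∃ x y : F, x * y ≠ y * x := by
    by_contra hcon
    push Not at hcon
    have h1 : commutator F = ⊥ := by
      rw [commutator_def, Subgroup.commutator_eq_bot_iff_le_centralizer]
      intro g _
      rw [Subgroup.mem_centralizer_iff]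
      intro k _
      exact hcon k g
    have h2 := hF.1.2.2
    rw [h1] at h2
    have h3 := hF.2
    rw [← h2, Subgroup.card_bot] at h3
    omega
  obtain ⟨m, s, ⟨e⟩⟩ := classify (Nat.card F) F hES rfl hna
  refine ⟨m, s, ?_, ⟨e⟩⟩
  have hc := Nat.card_congr e.toEquiv
  rw [card_esg, hn] at hc
  have := (Nat.pow_right_injective (le_refl 2)) hc
  omega

theorem prank_of_equiv {E : Type u} {E' : Type v} [Group E] [Group E'] (e : E ≃* E') (k : ℕ)
    (h : PRankLE 2 k E) : PRankLE 2 k E' := by
  intro A hA1 hA2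
  have hB1 : IsMulCommutative ↥(A.map (e.symm : E' →* E)) := by
    refine ⟨⟨?_⟩⟩
    rintro ⟨a, ha⟩ ⟨b, hb⟩
    obtain ⟨a', ha', rfl⟩ := Subgroup.mem_map.mp ha
    obtain ⟨b', hb', rfl⟩ := Subgroup.mem_map.mp hb
    apply Subtype.ext
    show (e.symm : E' →* E) a' * (e.symm : E' →* E) b' = (e.symm : E' →* E) b' * (e.symm : E' →* E) a'
    rw [← map_mul, ← map_mul]
    congr 1
    exact congrArg Subtype.val (hA1.is_comm.comm ⟨a', ha'⟩ ⟨b', hb'⟩)
  have hB2 : ∀ a ∈ A.map (e.symm : E' →* E), a ^ 2 = 1 := by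
    intro a ha
    obtain ⟨a', ha', rfl⟩ := Subgroup.mem_map.mp ha
    rw [← map_pow, hA2 a' ha', map_one]
  have hc := h _ hB1 hB2
  have hcard : Nat.card ↥(A.map (e.symm : E' →* E)) = Nat.card A :=
    (Nat.card_congr (e.symm.subgroupMap A).toEquiv).symm
  rw [hcard] at hc
  exact hc

theorem model_le (m : ℕ) (s : ZMod 2) (A : Subgroup (ESG m s)) (hA1 : IsMulCommutative A)
    (hA2 : ∀ a ∈ A, a ^ 2 = 1) :
    ∃ k, Nat.card A = 2 ^ k ∧ k ≤ m + 2 ∧ (s = 1 → k ≤ m + 1) := by
  have : Fact (Nat.Prime 2) := ⟨Nat.prime_two⟩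
  obtain ⟨k, hk⟩ := IsPGroup.exists_card_eq ((isPGroup_esg m s).to_subgroup A)
  refine ⟨k, hk, ?_, ?_⟩
  · exact rank_le (m + 1) (isExtraspecial_esg m s) (card_esg m s) A ⟨hA1, hA2⟩ k hk
  · intro hs
    subst hs
    have h1 := rank_le (m + 1) (isExtraspecial_esg m 1) (card_esg m 1) A ⟨hA1, hA2⟩ k hk
    by_contra hcon
    have hk' : k = m + 1 + 1 := by omega
    rw [hk'] at hk
    exact minus_no_big m A ⟨hA1, hA2⟩ hk

theorem model_plus (m : ℕ) : PRankLE 2 (m + 2) (ESG m 0) ∧ ¬ PRankLE 2 (m + 1) (ESG m 0) := by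
  constructor
  · intro A h1 h2
    obtain ⟨k, hk, hle, -⟩ := model_le m 0 A h1 h2
    rw [hk]
    exact Nat.pow_le_pow_right (by norm_num) hle
  · intro hP
    obtain ⟨A, hA, hc⟩ := exists_plus m
    have h1 := hP A hA.1 hA.2
    rw [hc] at h1
    have h2 := (Nat.pow_le_pow_iff_right (by norm_num : 1 < 2)).mp h1
    omega

theorem model_minus (m : ℕ) : PRankLE 2 (m + 1) (ESG m 1) ∧ ¬ PRankLE 2 m (ESG m 1) := by
  constructor
  · intro A h1 h2
    obtain ⟨k, hk, -, hle⟩ := model_le m 1 A h1 h2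
    rw [hk]
    exact Nat.pow_le_pow_right (by norm_num) (hle rfl)
  · intro hP
    obtain ⟨A, hA, hc⟩ := exists_minus m
    have h1 := hP A hA.1 hA.2
    rw [hc] at h1
    have h2 := (Nat.pow_le_pow_iff_right (by norm_num : 1 < 2)).mp h1
    omega

theorem model_iff (m : ℕ) (s : ZMod 2) : PRankLE 2 (m + 1) (ESG m s) ↔ s = 1 := by
  rcases z2_cases s with rfl | rfl
  · exact ⟨fun h => absurd h (model_plus m).2, fun h => absurd h (by decide)⟩
  · exact ⟨fun _ => rfl, fun _ => (model_minus m).1⟩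

/-- Let E be an extraspecial 2-group of order 2^(2n+1). Then the largest elementary abelian subgroups of E have order 2^n or 2^(n+1); and two extraspecial 2-groups of the same order whose largest elementary abelian subgroups have the same order are isomorphic. -/
theorem result {E : Type*} [Group E] [Finite E] (hE : Cfsg.IsExtraspecial 2 E) (n : ℕ) (hn : Nat.card E = 2 ^ (2 * n + 1)) : ((Cfsg.PRankLE 2 n E ∧ ¬ Cfsg.PRankLE 2 (n - 1) E) ∨ (Cfsg.PRankLE 2 (n + 1) E ∧ ¬ Cfsg.PRankLE 2 n E)) ∧ ∀ (E' : Type*) [Group E'] [Finite E'], Cfsg.IsExtraspecial 2 E' → Nat.card E' = Nat.card E → (∀ k : ℕ, Cfsg.PRankLE 2 k E ↔ Cfsg.PRankLE 2 k E') → Nonempty (E ≃* E') := by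
  obtain ⟨m, s, rfl, ⟨e⟩⟩ := classify' hE n hn
  constructor
  · rcases z2_cases s with rfl | rfl
    · right
      exact ⟨prank_of_equiv e _ (model_plus m).1,
        fun h => (model_plus m).2 (prank_of_equiv e.symm _ h)⟩
    · left
      refine ⟨prank_of_equiv e _ (model_minus m).1,
        fun h => (model_minus m).2 (prank_of_equiv e.symm _ ?_)⟩
      rw [Nat.add_sub_cancel] at h
      exact h
  · intro E' _ _ hE' hcard hrank
    obtain ⟨m', s', hm', ⟨e'⟩⟩ := classify' hE' (m + 1) (by rw [hcard, hn])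
    have hmm : m' = m := by omega
    subst hmm
    have h1 : PRankLE 2 (m' + 1) E ↔ s = 1 :=
      ⟨fun h => (model_iff m' s).mp (prank_of_equiv e.symm _ h),
        fun h => prank_of_equiv e _ ((model_iff m' s).mpr h)⟩
    have h2 : PRankLE 2 (m' + 1) E' ↔ s' = 1 :=
      ⟨fun h => (model_iff m' s').mp (prank_of_equiv e'.symm _ h),
        fun h => prank_of_equiv e' _ ((model_iff m' s').mpr h)⟩
    have h3 := hrank (m' + 1)
    have hs : s = s' := by
      rcases z2_cases s with rfl | rfl <;> rcases z2_cases s' with rfl | rfl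
      · rfl
      · exact absurd (h1.mp (h3.mpr (h2.mpr rfl))) (by decide)
      · exact absurd (h2.mp (h3.mp (h1.mpr rfl))) (by decide)
      · rfl
    subst hs
    exact ⟨e.symm.trans e'⟩

end Cfsg.Agent.S3763
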