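import Mathlib
import Cfsg.Statements.S3802
import Cfsg.Agent.H67.Subnormal

set_option autoImplicit false
open Cfsg

namespace Cfsg.Agent.S3802

open Cfsg.Agent.H67

universe u

theorem aux (n : ℕ) : ∀ (G : Type u) [Group G] [Finite G], Nat.card G = n →
    ∀ (M N : Subgroup G), IsCoatom M → N.IsSubnormal → N ≤ M → N ≤ Subgroup.normalCore M := by
  induction n using Nat.strong_induction_on with
  | _ n ih =>
    intro G _ _ hn M N hM hN hNM
    have htop : (⊤ : Subgroup G) ≠ ⊥ := by
      intro h
      apply hM.1
      rw [h]
      exact le_bot_iff.1 (h ▸ le_top)
    obtain ⟨A, hA, -, hAbot⟩ := exists_isMinNormal_le (⊤ : Subgroup G) inferInstance htop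
    have hAn : A.Normal := hA.1
    by_cases hAM : A ≤ M
    · -- pass to the quotient
      let π := QuotientGroup.mk' A
      have hπ : Function.Surjective π := QuotientGroup.mk'_surjective A
      have hcomap : (M.map π).comap π = M := by
        rw [Subgroup.comap_map_eq, QuotientGroup.ker_mk', sup_eq_left.2 hAM]
      have hM' : IsCoatom (M.map π) := by
        constructor
        · intro h
          apply hM.1
          rw [← hcomap, h, Subgroup.comap_top]
        · intro K hK
          have h1 : M < K.comap π := by
            rw [← hcomap]
            refine lt_of_le_of_ne (Subgroup.comap_mono hK.le) ?_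
            intro h
            have := congrArg (Subgroup.map π) h
            rw [Subgroup.map_comap_eq_self_of_surjective hπ,
              Subgroup.map_comap_eq_self_of_surjective hπ] at this
            exact hK.ne this
          have h2 := hM.2 _ h1
          have := congrArg (Subgroup.map π) h2
          rw [Subgroup.map_comap_eq_self_of_surjective hπ, Subgroup.map_top_of_surjective π hπ]
            at this
          exact this
      have hN' : (N.map π).IsSubnormal := hN.map hπ
      have hcard : Nat.card (G ⧸ A) < n := by
        rw [← hn, ← Subgroup.index_eq_card]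
        have h1 := Subgroup.card_mul_index A
        have h2 : 1 < Nat.card A := by
          rw [Finite.one_lt_card_iff_nontrivial]
          exact (Subgroup.nontrivial_iff_ne_bot A).2 hAbot
        have h3 : 0 < A.index := Nat.pos_of_ne_zero Subgroup.index_ne_zero_of_finite
        nlinarith
      have key := ih _ hcard (G ⧸ A) rfl (M.map π) (N.map π) hM' hN' (Subgroup.map_mono hNM)
      have hle : N ≤ ((M.map π).normalCore).comap π := by
        rw [← Subgroup.map_le_iff_le_comap]
        exact key
      refine hle.trans ?_
      have : (((M.map π).normalCore).comap π).Normal :=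
        (Subgroup.normalCore_normal _).comap π
      rw [Subgroup.normal_le_normalCore]
      calc ((M.map π).normalCore).comap π ≤ (M.map π).comap π :=
            Subgroup.comap_mono (Subgroup.normalCore_le _)
        _ = M := hcomap
    · -- A ⊔ M = ⊤ and A normalizes N
      have hsup : M ⊔ A = ⊤ := by
        apply hM.2
        refine lt_of_le_of_ne le_sup_left ?_
        intro h
        apply hAM
        rw [h]
        exact le_sup_right
      have hAN : A ≤ Subgroup.normalizer (N : Set G) := hA.le_normalizer_of_isSubnormal hN
      have hcl : Subgroup.normalClosure (N : Set G) ≤ M := by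
        unfold Subgroup.normalClosure
        rw [Subgroup.closure_le]
        intro x hx
        rw [Group.mem_conjugatesOfSet_iff] at hx
        obtain ⟨y, hy, hconj⟩ := hx
        rw [isConj_iff] at hconj
        obtain ⟨g, rfl⟩ := hconj
        have hg : g ∈ M ⊔ A := by rw [hsup]; trivial
        rw [← SetLike.mem_coe, Subgroup.mul_normal] at hg
        obtain ⟨m, hm, a, ha, rfl⟩ := hg
        have h1 : a * y * a⁻¹ ∈ N := (Subgroup.mem_normalizer_iff.1 (hAN ha) y).1 hy
        have h2 : m * (a * y * a⁻¹) * m⁻¹ ∈ M := M.mul_mem (M.mul_mem hm (hNM h1)) (M.inv_mem hm)
        have : m * a * y * (m * a)⁻¹ = m * (a * y * a⁻¹) * m⁻¹ := by group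
        rw [SetLike.mem_coe, this]
        exact h2
      refine Subgroup.le_normalClosure.trans ?_
      have : (Subgroup.normalClosure (N : Set G)).Normal := Subgroup.normalClosure_normal
      rw [Subgroup.normal_le_normalCore]
      exact hcl

/-- Let G be a finite group, M a maximal subgroup of G and N a subnormal subgroup of G contained in M. Then N is contained in every conjugate of M, that is, N lies in the core of M in G. -/
theorem result {G : Type*} [Group G] [Finite G] (M N : Subgroup G) (hM : IsCoatom M) (hN : N.IsSubnormal) (hNM : N ≤ M) :
    N ≤ Subgroup.normalCore M := by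
  exact aux _ G rfl M N hM hN hNM

end Cfsg.Agent.S3802
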