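import Mathlib
import Cfsg.Statements.S3803
import Cfsg.Agent.H67.OmegaTwo
import Cfsg.Agent.H1.Frattini
import Cfsg.Agent.H3.PGroup

set_option autoImplicit false
open Cfsg

namespace Cfsg.Agent.S3803

theorem mem_map_subtype_iff {X : Type*} [Group X] (Q : Subgroup X) (M : Subgroup Q) (y : X)
    (hy : y ∈ Q) : y ∈ M.map Q.subtype ↔ (⟨y, hy⟩ : Q) ∈ M := by
  constructor
  · rintro ⟨z, hz, rfl⟩
    exact hz
  · intro h
    exact ⟨_, h, rfl⟩

/-- Let P be a 2-subgroup and A a subgroup of odd order of a finite group, with A normalizing P. Let D ≤ P with 1 < |D| < |P|. If every subgroup of P of order |D|, and also every subgroup of P of order 4 in case |D| = 2, is normalized by A, then A centralizes P. -/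
theorem result {X : Type*} [Group X] [Finite X] (P A D : Subgroup X) (hP : IsPGroup 2 P) (hA : Odd (Nat.card A))
    (hAP : A ≤ Subgroup.normalizer (P : Set X)) (hDP : D ≤ P) (hD1 : 1 < Nat.card D) (hD2 : Nat.card D < Nat.card P)
    (hinv : ∀ E : Subgroup X, E ≤ P → (Nat.card E = Nat.card D ∨ (Nat.card D = 2 ∧ Nat.card E = 4)) → A ≤ Subgroup.normalizer (E : Set X)) :
    A ≤ Subgroup.centralizer (P : Set X) := by
  classical
  have : Fact (Nat.Prime 2) := ⟨Nat.prime_two⟩
  obtain ⟨n, hn⟩ := IsPGroup.iff_card.mp hP
  obtain ⟨d, hd⟩ := IsPGroup.iff_card.mp (hP.to_le hDP)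
  have hd1 : 1 ≤ d := by
    rcases Nat.eq_zero_or_pos d with h | h
    · rw [h, pow_zero] at hd; omega
    · exact h
  have hdn : d < n := by
    rw [hd, hn] at hD2
    exact (Nat.pow_lt_pow_iff_right (by norm_num)).mp hD2
  intro a ha
  have hodd : Odd (orderOf a) := by
    have h1 : orderOf a ∣ Nat.card A := by
      have := orderOf_dvd_natCard (⟨a, ha⟩ : A)
      rwa [Subgroup.orderOf_mk] at this
    exact Odd.of_dvd_nat hA h1
  have hcop2 : ∀ k : ℕ, Nat.Coprime (orderOf a) (2 ^ k) := fun k =>
    Nat.Coprime.pow_right k (Nat.coprime_two_right.mpr hodd)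
  have hzA : Subgroup.zpowers a ≤ A := by rw [Subgroup.zpowers_le]; exact ha
  -- centralizing cyclic 2-subgroups that are normalized
  have hcyc : ∀ (E : Subgroup X) (k : ℕ), IsCyclic E → Nat.card E = 2 ^ k →
      a ∈ Subgroup.normalizer (E : Set X) → a ∈ Subgroup.centralizer (E : Set X) := by
    intro E k hE hk haE
    apply H67.mem_centralizer_of_coprime_card_mulAut E a haE
    rw [IsCyclic.card_mulAut, hk]
    rcases Nat.eq_zero_or_pos k with h0 | h0
    · rw [h0, pow_zero, Nat.totient_one]; exact Nat.coprime_one_right _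
    · rw [Nat.totient_prime_pow Nat.prime_two h0]
      simpa using hcop2 (k - 1)
  -- key claim
  have hcore : ∀ x ∈ P, x ^ 4 = 1 → a * x = x * a := by
    intro x hxP hx4
    have hzP : Subgroup.zpowers x ≤ P := by rw [Subgroup.zpowers_le]; exact hxP
    have hord : orderOf x ∣ 2 ^ 2 := orderOf_dvd_of_pow_eq_one (by norm_num; exact hx4)
    obtain ⟨j, hj2, hj⟩ := (Nat.dvd_prime_pow Nat.prime_two).mp hord
    have hzc : Nat.card (Subgroup.zpowers x) = 2 ^ j := by rw [Nat.card_zpowers, hj]
    by_cases hd' : d = 1
    · -- |D| = 2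
      have hD2' : Nat.card D = 2 := by rw [hd, hd', pow_one]
      rcases Nat.eq_zero_or_pos j with h0 | h0
      · rw [h0, pow_zero, orderOf_eq_one_iff] at hj
        rw [hj, mul_one, one_mul]
      · have hnorm : A ≤ Subgroup.normalizer ((Subgroup.zpowers x : Subgroup X) : Set X) := by
          apply hinv _ hzP
          have : j = 1 ∨ j = 2 := by omega
          rcases this with h | h
          · left; rw [hzc, h, hD2', pow_one]
          · right; exact ⟨hD2', by rw [hzc, h]; norm_num⟩
        have := hcyc (Subgroup.zpowers x) j inferInstance hzc (hnorm ha)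
        exact (Subgroup.mem_centralizer_iff.mp this x (Subgroup.mem_zpowers x)).symm
    · have hd2 : 2 ≤ d := by omega
      obtain ⟨E, hzE, hEP, hEc⟩ := H67.exists_intermediate_card_pow P (Subgroup.zpowers x) hzP hzc
        (hj2.trans hd2) (by rw [hn]; exact pow_dvd_pow 2 hdn.le)
      obtain ⟨Q, hEQ, hQP, hQc⟩ := H67.exists_intermediate_card_pow P E hEP hEc
        (Nat.le_succ d) (by rw [hn]; exact pow_dvd_pow 2 hdn)
      have hxE : x ∈ E := hzE (Subgroup.mem_zpowers x)
      have haE : a ∈ Subgroup.normalizer (E : Set X) :=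
        hinv E hEP (Or.inl (by rw [hEc, hd])) ha
      by_cases hQcyc : IsCyclic Q
      · have hEcyc : IsCyclic E := by
          have : IsCyclic (E.subgroupOf Q) := inferInstance
          exact isCyclic_of_surjective (Subgroup.subgroupOfEquivOfLe hEQ).toMonoidHom
            (Subgroup.subgroupOfEquivOfLe hEQ).surjective
        have := hcyc E d hEcyc hEc haE
        exact (Subgroup.mem_centralizer_iff.mp this x hxE).symm
      · have hQ2 : IsPGroup 2 Q := hP.to_le hQP
        have hex : ∃ M₁ M₂ : Subgroup Q, IsCoatom M₁ ∧ IsCoatom M₂ ∧ M₁ ≠ M₂ := by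
          by_contra hcon
          simp only [not_exists, not_and, not_not] at hcon
          apply hQcyc
          have hne : (⊥ : Subgroup Q) ≠ ⊤ := by
            intro h
            have h1 : Nat.card Q = 1 := by
              rw [← Subgroup.card_top (G := Q), ← h, Subgroup.card_bot]
            rw [hQc] at h1
            have h2 : 2 ≤ 2 ^ (d + 1) := by
              calc 2 = 2 ^ 1 := by norm_num
                _ ≤ 2 ^ (d + 1) := Nat.pow_le_pow_right (by norm_num) (by omega)
            omega
          obtain ⟨M, hM, -⟩ := (eq_top_or_exists_le_coatom (⊥ : Subgroup Q)).resolve_left hne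
          obtain ⟨g, -, hg⟩ := SetLike.exists_of_lt (lt_top_iff_ne_top.mpr hM.1)
          have hz : Subgroup.zpowers g = ⊤ := by
            rcases eq_top_or_exists_le_coatom (Subgroup.zpowers g) with h | ⟨M', hM', hle⟩
            · exact h
            · exfalso
              have := hcon M' M hM' hM
              rw [this] at hle
              exact hg (hle (Subgroup.mem_zpowers g))
          exact ⟨g, fun y => by
            have : y ∈ Subgroup.zpowers g := by rw [hz]; trivial
            exact this⟩
        obtain ⟨M₁, M₂, hM₁, hM₂, hne⟩ := hex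
        have hcoN : ∀ M : Subgroup Q, IsCoatom M →
            A ≤ Subgroup.normalizer ((M.map Q.subtype : Subgroup X) : Set X) := by
          intro M hM
          apply hinv _ ((Subgroup.map_subtype_le M).trans hQP)
          left
          have h1 : M.index = 2 := H3.coatom_index hQ2 hM
          have h2 := Subgroup.card_mul_index M
          rw [h1, hQc, pow_succ] at h2
          rw [Subgroup.card_map_of_injective Q.subtype_injective, hd]
          omega
        have hAQ : A ≤ Subgroup.normalizer (Q : Set X) := by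
          have h1 : M₁ ⊔ M₂ = ⊤ := hM₁.sup_eq_top_of_ne hM₂ hne
          have h2 : (M₁.map Q.subtype) ⊔ (M₂.map Q.subtype) = Q := by
            rw [← Subgroup.map_sup, h1, ← MonoidHom.range_eq_map, Subgroup.range_subtype]
          rw [← h2]
          exact H1.le_normalizer_sup A _ _ (hcoN M₁ hM₁) (hcoN M₂ hM₂)
        have hcopΦ : (Nat.card (Subgroup.zpowers a)).Coprime (Nat.card (frattini Q)) := by
          obtain ⟨k, hk⟩ := IsPGroup.iff_card.mp (hQ2.to_subgroup (frattini Q))
          rw [Nat.card_zpowers, hk]
          exact hcop2 k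
        have htriv : ∀ b ∈ Subgroup.zpowers a, ∀ k ∈ Q,
            b * k * b⁻¹ * k⁻¹ ∈ (frattini Q).map Q.subtype := by
          intro b hb k hk
          have hbA := hzA hb
          have hbQ : b ∈ Subgroup.normalizer (Q : Set X) := hAQ hbA
          have hc1 : b * k * b⁻¹ ∈ Q := (Subgroup.mem_normalizer_iff.mp hbQ k).mp hk
          have hc : b * k * b⁻¹ * k⁻¹ ∈ Q := mul_mem hc1 (inv_mem hk)
          refine ⟨⟨_, hc⟩, ?_, rfl⟩
          show (⟨_, hc⟩ : Q) ∈ frattini Q
          unfold frattini Order.radical
          simp only [Subgroup.mem_iInf]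
          intro M hM
          have hidx : M.index = 2 := H3.coatom_index hQ2 hM
          have hbM := hcoN M hM hbA
          have hkey : (⟨k, hk⟩ : Q) ∈ M ↔ (⟨b * k * b⁻¹, hc1⟩ : Q) ∈ M := by
            rw [← mem_map_subtype_iff Q M k hk, ← mem_map_subtype_iff Q M _ hc1]
            exact Subgroup.mem_normalizer_iff.mp hbM k
          have h3 : (⟨b * k * b⁻¹ * k⁻¹, hc⟩ : Q) = ⟨b * k * b⁻¹, hc1⟩ * (⟨k, hk⟩ : Q)⁻¹ := rfl
          rw [h3, Subgroup.mul_mem_iff_of_index_two hidx, inv_mem_iff]
          exact hkey.symm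
        have hcent := H1.centralizer_of_trivial_on_frattini_quotient (Subgroup.zpowers a) Q
          (hzA.trans hAQ) hcopΦ htriv
        have haQ : a ∈ Subgroup.centralizer (Q : Set X) := hcent (Subgroup.mem_zpowers a)
        exact (Subgroup.mem_centralizer_iff.mp haQ x (hEQ hxE)).symm
  -- finish with the omega-two theorem
  set α := P.normalizerMonoidHom ⟨a, hAP ha⟩ with hα
  have hα1 : α = 1 := by
    apply H67.coprime_aut_trivial_of_omega_two hP α
    · have h2 := orderOf_map_dvd P.normalizerMonoidHom
        (⟨a, hAP ha⟩ : Subgroup.normalizer (P : Set X))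
      rw [Subgroup.orderOf_mk] at h2
      exact Nat.Coprime.coprime_dvd_left h2 (by simpa using hcop2 1)
    · intro x hx
      apply Subtype.ext
      have h1 : ((α x : P) : X) = a * x * a⁻¹ := rfl
      rw [h1]
      have h2 := hcore x x.2 (by have := congrArg Subtype.val hx; simpa using this)
      rw [h2]; group
  have h5 : (⟨a, hAP ha⟩ : Subgroup.normalizer (P : Set X)) ∈ P.normalizerMonoidHom.ker := hα1
  rw [Subgroup.normalizerMonoidHom_ker, Subgroup.mem_subgroupOf] at h5
  exact h5

end Cfsg.Agent.S3803
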