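import Mathlib
import Cfsg.Statements.S3815

set_option autoImplicit false
open Cfsg

namespace Cfsg.Agent.S3815

/-- Let G be a finite group, p a prime and d ∈ G an element of order prime to p. If dg has order prime to p for every element g ∈ G of order prime to p, then d ∈ O_{p'}(G). -/
theorem result {G : Type*} [Group G] [Finite G] {p : ℕ} [Fact p.Prime]
    (d : G) (hd : (orderOf d).Coprime p)
    (h : ∀ g : G, (orderOf g).Coprime p → (orderOf (d * g)).Coprime p) :
    d ∈ Cfsg.pPrimeCore p G := by
  classical
  -- the set of elements multiplying p'-elements to p'-elements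
  let K : Subgroup G :=
    { carrier := {x : G | ∀ g : G, (orderOf g).Coprime p → (orderOf (x * g)).Coprime p}
      mul_mem' := by
        intro a b ha hb g hg
        rw [mul_assoc]
        exact ha _ (hb g hg)
      one_mem' := by
        intro g hg
        simpa using hg
      inv_mem' := by
        intro a ha
        have hpow : ∀ n : ℕ, ∀ g : G, (orderOf g).Coprime p → (orderOf (a ^ n * g)).Coprime p := by
          intro n
          induction n with
          | zero => intro g hg; simpa using hg
          | succ n ih =>
            intro g hg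
            rw [pow_succ, mul_assoc]
            exact ih _ (ha g hg)
        have hinv : a⁻¹ = a ^ (orderOf a - 1) := by
          have hpos : 0 < orderOf a := orderOf_pos a
          rw [eq_comm, ← mul_eq_one_iff_eq_inv (a := a ^ (orderOf a - 1)) (b := a), ← pow_succ,
            Nat.sub_add_cancel hpos, pow_orderOf_eq_one]
        intro g hg
        rw [hinv]
        exact hpow _ g hg }
  have hKmem : ∀ x : G, x ∈ K ↔ ∀ g : G, (orderOf g).Coprime p → (orderOf (x * g)).Coprime p :=
    fun x => Iff.rfl
  have hKn : K.Normal := by
    constructor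
    intro x hx g
    rw [hKmem] at hx ⊢
    intro y hy
    have h1 : g * x * g⁻¹ * y = (MulAut.conj g) (x * ((MulAut.conj g⁻¹) y)) := by
      simp [MulAut.conj_apply, mul_assoc]
    rw [h1, MulEquiv.orderOf_eq]
    apply hx
    rw [MulEquiv.orderOf_eq]
    exact hy
  have hKcop : (Nat.card K).Coprime p := by
    rw [Nat.coprime_comm, Nat.Prime.coprime_iff_not_dvd (Fact.out : p.Prime)]
    intro hdvd
    obtain ⟨x, hx⟩ := exists_prime_orderOf_dvd_card' p hdvd
    have hxK := (hKmem x).1 x.2 1 (by simp)
    rw [mul_one, Subgroup.orderOf_coe, hx] at hxK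
    exact (Fact.out : p.Prime).one_lt.ne' ((Nat.coprime_self p).1 hxK)
  have hdK : d ∈ K := (hKmem d).2 h
  have : K ≤ Cfsg.pPrimeCore p G := le_sSup ⟨hKn, hKcop⟩
  exact this hdK

end Cfsg.Agent.S3815
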