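import Mathlib
import Cfsg.Statements.S3820
import Cfsg.Agent.H67.Conj

set_option autoImplicit false
open Cfsg

namespace Cfsg.Agent.S3820

open Cfsg.Agent.H67

/-- Call a subgroup H of G pronormal if H and gHg⁻¹ are conjugate inside ⟨H, gHg⁻¹⟩ for every g ∈ G. Let S ≤ H ≤ G be subgroups of a finite group with S pronormal in G (for instance S a Sylow subgroup). Then H is pronormal in G if and only if H and gHg⁻¹ are conjugate inside ⟨H, gHg⁻¹⟩ for every g ∈ N_G(S). In particular H is pronormal whenever N_G(S) ≤ H. -/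
theorem result {G : Type*} [Group G] [Finite G] (S H : Subgroup G) (hSH : S ≤ H)
    (hS : Cfsg.IsPronormal S) :
    Cfsg.IsPronormal H ↔
      ∀ g ∈ Subgroup.normalizer (S : Set G), ∃ w ∈ H ⊔ H.map (MulAut.conj g).toMonoidHom,
        H.map (MulAut.conj g).toMonoidHom = H.map (MulAut.conj w).toMonoidHom := by
  constructor
  · intro hH g _
    exact hH g
  · intro h g
    obtain ⟨x, hx, hxS⟩ := hS g
    -- J = ⟨H, H^g⟩
    set J := H ⊔ H.map (MulAut.conj g).toMonoidHom with hJ
    have hxJ : x ∈ J := by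
      have : S ⊔ S.map (MulAut.conj g).toMonoidHom ≤ J :=
        sup_le_sup hSH (map_conj_mono hSH g)
      exact this hx
    have hn : x⁻¹ * g ∈ Subgroup.normalizer (S : Set G) := by
      rw [mem_normalizer_iff_map_conj, map_conj_mul, hxS, map_conj_inv_map_conj]
    obtain ⟨w, hw, hwH⟩ := h _ hn
    refine ⟨x * w, ?_, ?_⟩
    · refine J.mul_mem hxJ ?_
      have hle : H ⊔ H.map (MulAut.conj (x⁻¹ * g)).toMonoidHom ≤ J := by
        refine sup_le le_sup_left ?_
        rw [map_conj_mul]
        exact map_conj_le_of_mem le_sup_right (J.inv_mem hxJ)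
      exact hle hw
    · rw [map_conj_mul, ← hwH, ← map_conj_mul, mul_inv_cancel_left]

end Cfsg.Agent.S3820
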