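import Mathlib
import Cfsg.Statements.S3821
import Cfsg.Agent.H67.Conj

set_option autoImplicit false
open Cfsg

namespace Cfsg.Agent.S3821

open Cfsg.Agent.H67

/-- Let A be a normal subgroup of the finite group G and H a subgroup of A. Then H is pronormal in G (H and gHg⁻¹ conjugate inside ⟨H, gHg⁻¹⟩ for every g ∈ G) if and only if H is pronormal in A and G = A · N_G(H). -/
theorem result {G : Type*} [Group G] [Finite G] (A H : Subgroup G) [A.Normal] (hHA : H ≤ A) :
    Cfsg.IsPronormal H ↔ (Cfsg.IsPronormal (H.subgroupOf A) ∧ A ⊔ Subgroup.normalizer (H : Set G) = ⊤) := by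
  have hconjA : ∀ g : G, H.map (MulAut.conj g).toMonoidHom ≤ A := by
    intro g
    have := map_conj_mono hHA g
    rwa [map_conj_of_normal A g] at this
  constructor
  · intro hH
    refine ⟨?_, ?_⟩
    · intro a
      obtain ⟨x, hx, hxe⟩ := hH (a : G)
      have hxA : x ∈ A := (sup_le hHA (hconjA _)) hx
      refine ⟨⟨x, hxA⟩, ?_, ?_⟩
      · rw [map_conj_subgroupOf, ← Subgroup.subgroupOf_sup hHA (hconjA _), Subgroup.mem_subgroupOf]
        exact hx
      · rw [map_conj_subgroupOf, map_conj_subgroupOf, hxe]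
    · rw [eq_top_iff]
      intro g _
      obtain ⟨x, hx, hxe⟩ := hH g
      have hxA : x ∈ A := (sup_le hHA (hconjA _)) hx
      have hn : x⁻¹ * g ∈ Subgroup.normalizer (H : Set G) := by
        rw [mem_normalizer_iff_map_conj, map_conj_mul, hxe, map_conj_inv_map_conj]
      have : g = x * (x⁻¹ * g) := by simp
      rw [this]
      exact Subgroup.mul_mem _ (Subgroup.mem_sup_left hxA) (Subgroup.mem_sup_right hn)
  · rintro ⟨hHA', htop⟩ g
    have hg : g ∈ A ⊔ Subgroup.normalizer (H : Set G) := by rw [htop]; trivial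
    rw [← SetLike.mem_coe, Subgroup.normal_mul] at hg
    obtain ⟨a, ha, n, hn, rfl⟩ := hg
    have hn' : H.map (MulAut.conj n).toMonoidHom = H := (mem_normalizer_iff_map_conj H n).1 hn
    have hga : H.map (MulAut.conj (a * n)).toMonoidHom = H.map (MulAut.conj a).toMonoidHom := by
      rw [map_conj_mul, hn']
    obtain ⟨x, hx, hxe⟩ := hHA' ⟨a, ha⟩
    rw [map_conj_subgroupOf, ← Subgroup.subgroupOf_sup hHA (hconjA _), Subgroup.mem_subgroupOf] at hx
    rw [map_conj_subgroupOf, map_conj_subgroupOf, Subgroup.subgroupOf_inj,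
      inf_eq_left.2 (hconjA _), inf_eq_left.2 (hconjA _)] at hxe
    refine ⟨(x : G), ?_, ?_⟩
    · rw [hga]; exact hx
    · rw [hga]; exact hxe

end Cfsg.Agent.S3821
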