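import Mathlib
import Cfsg.Statements.S3825
import Cfsg.Agent.H67.FPF
import Cfsg.Agent.H67.Abelian

set_option autoImplicit false
open Cfsg

namespace Cfsg.Agent.S3825

open Cfsg.Agent.H67
open scoped commutatorElement

theorem card_le_two_of_forall {G : Type*} [Group G] (K : Subgroup G) (a b : G)
    (h : ∀ k ∈ K, k = a ∨ k = b) : Nat.card K ≤ 2 := by
  have h1 : Nat.card K = Set.ncard (K : Set G) := Nat.card_coe_set_eq _
  rw [h1]
  calc (K : Set G).ncard ≤ ({a, b} : Set G).ncard :=
        Set.ncard_le_ncard (fun k hk => by simpa using h k hk) (Set.toFinite _)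
    _ ≤ ({b} : Set G).ncard + 1 := Set.ncard_insert_le a {b}
    _ = 2 := by rw [Set.ncard_singleton]

/-- Let U be a subgroup of a finite group H and w an involution of H normalizing U and commuting with exactly two elements of U, the identity and y. If V is a non-cyclic elementary abelian 2-subgroup of U containing y which is normal in U and invariant under w, then V is a Sylow 2-subgroup of U, V has order 4, and U/V is abelian. -/
theorem result {H : Type*} [Group H] [Finite H] (U : Subgroup H) (w : H) (hw : orderOf w = 2)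
    (hwU : w ∈ Subgroup.normalizer (U : Set H)) (y : H) (hy : y ≠ 1) (hyU : y ∈ U)
    (hfix : ∀ u ∈ U, w * u * w⁻¹ = u ↔ (u = 1 ∨ u = y))
    (V : Subgroup H) (hVU : V ≤ U) (hVn : (V.subgroupOf U).Normal) (hVw : ∀ v ∈ V, w * v * w⁻¹ ∈ V)
    (hVe : Cfsg.IsElementaryAbelian 2 V) (hVc : ¬ IsCyclic ↥V) (hyV : y ∈ V) :
    ¬ 2 ∣ V.relIndex U ∧ Nat.card ↥V = 4 ∧ ⁅U, U⁆ ≤ V := by
  classical
  have hw2 : w * w = 1 := by
    have := pow_orderOf_eq_one w
    rwa [hw, sq] at this
  have hwinv : w⁻¹ = w := inv_eq_of_mul_eq_one_left hw2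
  set σ : H → H := fun h => w * h * w⁻¹ with hσ
  have hσσ : ∀ h, σ (σ h) = h := by
    intro h
    simp only [hσ]
    rw [hwinv]
    calc w * (w * h * w) * w = (w * w) * h * (w * w) := by group
      _ = h := by rw [hw2]; simp
  have hσmul : ∀ a b, σ (a * b) = σ a * σ b := by
    intro a b; simp only [hσ]; group
  have hσone : σ 1 = 1 := by simp [hσ]
  have hσU : ∀ u ∈ U, σ u ∈ U := fun u hu => (Subgroup.mem_normalizer_iff.1 hwU u).1 hu
  have hσV : ∀ v ∈ V, σ v ∈ V := hVw
  have hVcomm : ∀ a ∈ V, ∀ b ∈ V, a * b = b * a :=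
    fun a ha b hb => mul_comm_of_isMulCommutative hVe.1 ha hb
  have hVsq : ∀ a ∈ V, a * a = 1 := fun a ha => by
    have := hVe.2 a ha
    rwa [sq] at this
  have hVinv : ∀ a ∈ V, a⁻¹ = a := fun a ha => inv_eq_of_mul_eq_one_left (hVsq a ha)
  have hfixV : ∀ v ∈ V, σ v = v → v = 1 ∨ v = y := fun v hv h => (hfix v (hVU hv)).1 h
  have hθfix : ∀ v ∈ V, σ (v * σ v) = v * σ v := by
    intro v hv
    rw [hσmul, hσσ]
    exact hVcomm _ (hσV v hv) _ hv
  have hθ : ∀ v ∈ V, v * σ v = 1 ∨ v * σ v = y :=
    fun v hv => hfixV _ (V.mul_mem hv (hσV v hv)) (hθfix v hv)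
  -- the homomorphism θ
  let θ : ↥V →* ↥V :=
    { toFun := fun v => ⟨(v : H) * σ v, V.mul_mem v.2 (hσV v v.2)⟩
      map_one' := by
        apply Subtype.ext
        simp [hσone]
      map_mul' := by
        intro a b
        apply Subtype.ext
        show (a : H) * b * σ ((a : H) * b) = (a * σ a) * (b * σ b)
        rw [hσmul]
        have := hVcomm _ b.2 _ (hσV a a.2)
        calc (a : H) * b * (σ a * σ b) = a * (b * σ a) * σ b := by group
          _ = a * (σ a * b) * σ b := by rw [this]
          _ = _ := by group }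
  have hker : Nat.card θ.ker ≤ 2 := by
    apply card_le_two_of_forall θ.ker 1 ⟨y, hyV⟩
    intro v hv
    rw [MonoidHom.mem_ker] at hv
    have h1 : (v : H) * σ v = 1 := congrArg Subtype.val hv
    have h2 : σ v = v := by
      have := eq_inv_of_mul_eq_one_right h1
      rw [hVinv _ v.2] at this
      exact this
    rcases hfixV _ v.2 h2 with h | h
    · left; exact Subtype.ext h
    · right; exact Subtype.ext h
  have hrange : Nat.card θ.range ≤ 2 := by
    apply card_le_two_of_forall θ.range 1 ⟨y, hyV⟩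
    rintro _ ⟨v, rfl⟩
    rcases hθ _ v.2 with h | h
    · left; exact Subtype.ext h
    · right; exact Subtype.ext h
  have hcardle : Nat.card V ≤ 4 := by
    rw [← Subgroup.card_mul_index θ.ker, Subgroup.index_ker]
    calc Nat.card θ.ker * Nat.card θ.range ≤ 2 * 2 := Nat.mul_le_mul hker hrange
      _ = 4 := by norm_num
  have : Fact (Nat.Prime 2) := ⟨Nat.prime_two⟩
  have hVp : IsPGroup 2 V := by
    intro v
    refine ⟨1, ?_⟩
    apply Subtype.ext
    have := hVe.2 v v.2
    simpa using this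
  have hcard : Nat.card V = 4 := by
    obtain ⟨k, hk⟩ := IsPGroup.iff_card.1 hVp
    have hk2 : k ≤ 2 := by
      by_contra hlt
      have : 2 ^ 3 ≤ 2 ^ k := Nat.pow_le_pow_right (by norm_num) (by omega)
      omega
    interval_cases k
    · exfalso
      apply hVc
      have : Subsingleton V := (Nat.card_eq_one_iff_unique.1 (by simpa using hk)).1
      exact isCyclic_of_subsingleton
    · exfalso
      apply hVc
      exact isCyclic_of_prime_card (p := 2) (by simpa using hk)
    · simpa using hk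
  -- some v ∈ V has v * σ v = y
  have hexy : ∃ v ∈ V, v * σ v = y := by
    by_contra hcon
    simp only [not_exists, not_and] at hcon
    have hall : ∀ v ∈ V, v = 1 ∨ v = y := by
      intro v hv
      have h1 : v * σ v = 1 := (hθ v hv).resolve_right (hcon v hv)
      have h2 : σ v = v := by
        have := eq_inv_of_mul_eq_one_right h1
        rw [hVinv _ hv] at this
        exact this
      exact hfixV v hv h2
    have := card_le_two_of_forall V 1 y hall
    omega
  obtain ⟨v₀, hv₀, hv₀y⟩ := hexy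
  have hyy : y * y = 1 := hVsq y hyV
  -- fixed-point-freeness mod V
  have hfpf : ∀ u ∈ U, u⁻¹ * σ u ∈ V → u ∈ V := by
    intro u hu hmem
    set v := u⁻¹ * σ u with hv
    have hσu : σ u = u * v := by rw [hv]; group
    have h1 : v * σ v = 1 := by
      have h2 : σ (σ u) = u := hσσ u
      rw [hσu, hσmul, hσu] at h2
      have h3 : u * (v * σ v) = u * 1 := by rw [mul_one, ← mul_assoc]; exact h2
      exact mul_left_cancel h3
    have h2 : σ v = v := by
      have := eq_inv_of_mul_eq_one_right h1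
      rw [hVinv _ hmem] at this
      exact this
    rcases hfixV v hmem h2 with h | h
    · -- σ u = u
      have h3 : σ u = u := by rw [hσu, h, mul_one]
      rcases (hfix u hu).1 h3 with h4 | h4
      · rw [h4]; exact V.one_mem
      · rw [h4]; exact hyV
    · -- σ u = u * y; then u * v₀ is fixed
      have hσv₀ : σ v₀ = y * v₀ := by
        have : σ v₀ = v₀⁻¹ * y := by rw [← hv₀y]; group
        rw [this, hVinv _ hv₀]
        exact hVcomm _ hv₀ _ hyV
      have h3 : σ (u * v₀) = u * v₀ := by
        rw [hσmul, hσu, h, hσv₀]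
        calc u * y * (y * v₀) = u * (y * y) * v₀ := by group
          _ = u * v₀ := by rw [hyy, mul_one]
      have huv : u * v₀ ∈ U := U.mul_mem hu (hVU hv₀)
      have h5 : u * v₀ ∈ V := by
        rcases (hfix _ huv).1 h3 with h4 | h4
        · rw [h4]; exact V.one_mem
        · rw [h4]; exact hyV
      have := V.mul_mem h5 (V.inv_mem hv₀)
      simpa using this
  -- the induced endomorphism of U / V
  let σU : ↥U →* ↥U :=
    { toFun := fun u => ⟨σ u, hσU u u.2⟩
      map_one' := Subtype.ext hσone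
      map_mul' := fun a b => Subtype.ext (hσmul a b) }
  have hle : V.subgroupOf U ≤ (V.subgroupOf U).comap σU := by
    intro u hu
    rw [Subgroup.mem_comap, Subgroup.mem_subgroupOf]
    exact hσV _ (Subgroup.mem_subgroupOf.1 hu)
  let τ : (↥U ⧸ V.subgroupOf U) →* (↥U ⧸ V.subgroupOf U) :=
    QuotientGroup.map _ _ σU hle
  have hτ2 : ∀ k, τ (τ k) = k := by
    intro k
    obtain ⟨u, rfl⟩ := QuotientGroup.mk_surjective k
    show τ (τ (QuotientGroup.mk u)) = QuotientGroup.mk u
    rw [QuotientGroup.map_mk, QuotientGroup.map_mk]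
    congr 1
    exact Subtype.ext (hσσ u)
  have hτfpf : ∀ k, τ k = k → k = 1 := by
    intro k hk
    obtain ⟨u, rfl⟩ := QuotientGroup.mk_surjective k
    have hk' : τ (QuotientGroup.mk u) = QuotientGroup.mk u := hk
    rw [QuotientGroup.map_mk, eq_comm, QuotientGroup.eq, Subgroup.mem_subgroupOf] at hk'
    have := hfpf u u.2 hk'
    exact (QuotientGroup.eq_one_iff u).2 (Subgroup.mem_subgroupOf.2 this)
  refine ⟨?_, hcard, ?_⟩
  · have := fpf_involution_odd_card τ hτ2 hτfpf
    rwa [← Subgroup.index_eq_card] at this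
  · rw [Subgroup.commutator_le]
    intro a ha b hb
    have hc := fpf_involution_comm τ hτ2 hτfpf (QuotientGroup.mk (⟨a, ha⟩ : ↥U))
      (QuotientGroup.mk (⟨b, hb⟩ : ↥U))
    have h1 : ((⁅(⟨a, ha⟩ : ↥U), (⟨b, hb⟩ : ↥U)⁆ : ↥U) : ↥U ⧸ V.subgroupOf U) = 1 := by
      have h2 : ((⁅(⟨a, ha⟩ : ↥U), (⟨b, hb⟩ : ↥U)⁆ : ↥U) : ↥U ⧸ V.subgroupOf U) =
          ⁅(QuotientGroup.mk' (V.subgroupOf U)) ⟨a, ha⟩, (QuotientGroup.mk' (V.subgroupOf U)) ⟨b, hb⟩⁆ :=
        map_commutatorElement (QuotientGroup.mk' (V.subgroupOf U)) _ _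
      rw [h2, commutatorElement_eq_one_iff_mul_comm]
      exact hc
    rw [QuotientGroup.eq_one_iff, Subgroup.mem_subgroupOf] at h1
    exact h1

end Cfsg.Agent.S3825
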