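import Mathlib
import Cfsg.Statements.S3835
import Cfsg.Agent.H51.Qd
import Cfsg.Agent.H45.SLGen
import Cfsg.Agent.H42.Qd
import Cfsg.Agent.H88.AltSylow

set_option autoImplicit false
open Cfsg

namespace Cfsg.Agent.S3835

open Matrix Cfsg.Agent.H51

/-- The affine action of the affine subgroup of `SL₃(R)` on `R²`. -/
@[reducible] def affAction (R : Type*) [CommRing R] : MulAction (affSub R) (Fin 2 → R) where
  smul M x := (blockA M : Matrix (Fin 2) (Fin 2) R).mulVec x + transl M
  one_smul x := by
    show (blockA (1 : affSub R) : Matrix (Fin 2) (Fin 2) R).mulVec x + transl (1 : affSub R) = x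
    rw [blockA_one, transl_one]; simp
  mul_smul M N x := by
    show (blockA (M * N) : Matrix (Fin 2) (Fin 2) R).mulVec x + transl (M * N) =
      (blockA M : Matrix (Fin 2) (Fin 2) R).mulVec
        ((blockA N : Matrix (Fin 2) (Fin 2) R).mulVec x + transl N) + transl M
    have h1 : ((blockA (M * N) : SpecialLinearGroup (Fin 2) R) : Matrix (Fin 2) (Fin 2) R) =
        (blockA M : Matrix (Fin 2) (Fin 2) R) * (blockA N : Matrix (Fin 2) (Fin 2) R) := by
      rw [blockA_mul]; rfl
    rw [h1, transl_mul, Matrix.mulVec_add, Matrix.mulVec_mulVec, add_assoc]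

/-- The affine action as a homomorphism to permutations of `R²`. -/
def affPerm (R : Type*) [CommRing R] : affSub R →* Equiv.Perm (Fin 2 → R) :=
  @MulAction.toPermHom (affSub R) (Fin 2 → R) _ (affAction R)

theorem affPerm_apply (R : Type*) [CommRing R] (M : affSub R) (x : Fin 2 → R) :
    affPerm R M x = (blockA M : Matrix (Fin 2) (Fin 2) R).mulVec x + transl M := rfl

theorem affPerm_injective (R : Type*) [CommRing R] : Function.Injective (affPerm R) := by
  rw [injective_iff_map_eq_one]
  intro M hM
  have h : ∀ x : Fin 2 → R, (blockA M : Matrix (Fin 2) (Fin 2) R).mulVec x + transl M = x := by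
    intro x
    rw [← affPerm_apply, hM]; rfl
  have ht : transl M = 0 := by
    have := h 0
    simpa using this
  have hA : blockA M = 1 := by
    apply Subtype.ext
    have h1 := h ![1, 0]
    have h2 := h ![0, 1]
    rw [ht, add_zero] at h1 h2
    have a00 := congrFun h1 0
    have a10 := congrFun h1 1
    have a01 := congrFun h2 0
    have a11 := congrFun h2 1
    simp [Matrix.mulVec, dotProduct] at a00 a10 a01 a11
    ext i j
    fin_cases i <;> fin_cases j <;> simp [a00, a10, a01, a11]
  apply aff_ext
  · rw [hA, blockA_one]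
  · rw [ht, transl_one]

/-- The embedding of `SL₂` as the matrices with zero translation part. -/
def linHom (R : Type*) [CommRing R] : SpecialLinearGroup (Fin 2) R →* affSub R where
  toFun A := mkAff A 0
  map_one' := by
    apply aff_ext
    · rw [blockA_mkAff, blockA_one]
    · rw [transl_mkAff, transl_one]
  map_mul' A B := by
    apply aff_ext
    · rw [blockA_mul, blockA_mkAff, blockA_mkAff, blockA_mkAff]
    · rw [transl_mul, transl_mkAff, transl_mkAff, transl_mkAff]; simp

theorem sign_affPerm (p : ℕ) [Fact p.Prime] (hp : p ≠ 2) (M : affSub (ZMod p)) :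
    Equiv.Perm.sign (affPerm (ZMod p) M) = 1 := by
  classical
  have hpp : p.Prime := Fact.out
  set χ : affSub (ZMod p) →* ℤˣ := Equiv.Perm.sign.comp (affPerm (ZMod p)) with hχ
  show χ M = 1
  have h2 : (2 : ZMod p) ≠ 0 := by
    intro h
    have h3 : ((2 : ℕ) : ZMod p) = 0 := by exact_mod_cast h
    rw [ZMod.natCast_eq_zero_iff] at h3
    exact hp ((Nat.prime_dvd_prime_iff_eq hpp Nat.prime_two).mp h3)
  have htr : ∀ t : Fin 2 → ZMod p, χ (mkAff 1 t) = 1 := by
    intro t
    have h : mkAff (1 : SpecialLinearGroup (Fin 2) (ZMod p)) t =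
        mkAff 1 ((2 : ZMod p)⁻¹ • t) * mkAff 1 ((2 : ZMod p)⁻¹ • t) := by
      apply aff_ext
      · rw [blockA_mul, blockA_mkAff, blockA_mkAff, one_mul]
      · rw [transl_mul, blockA_mkAff, transl_mkAff, transl_mkAff]
        have h1 : ((1 : SpecialLinearGroup (Fin 2) (ZMod p)) : Matrix (Fin 2) (Fin 2) (ZMod p))
            = 1 := rfl
        rw [h1, Matrix.one_mulVec]
        ext i
        simp only [Pi.add_apply, Pi.smul_apply, smul_eq_mul]
        field_simp
        ring
    rw [h, map_mul, Int.units_mul_self]
  have hlin : ∀ A : SpecialLinearGroup (Fin 2) (ZMod p), χ (mkAff A 0) = 1 := by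
    have hL : χ.comp (linHom (ZMod p)) = 1 := by
      apply MonoidHom.eq_of_eqOn_dense
        (show Subgroup.closure _ = ⊤ from H45.elemSubgroup_eq_top (n := Fin 2) (K := ZMod p))
      rintro g ⟨i, j, hij, c, rfl⟩
      show χ (linHom (ZMod p) (SpecialLinearGroup.transvection hij c)) = 1
      have h3 : SpecialLinearGroup.transvection hij c =
          SpecialLinearGroup.transvection hij ((2 : ZMod p)⁻¹ * c) *
            SpecialLinearGroup.transvection hij ((2 : ZMod p)⁻¹ * c) := by
        rw [← SpecialLinearGroup.transvection_add]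
        congr 1
        field_simp
        ring
      rw [h3, map_mul, map_mul, Int.units_mul_self]
    intro A
    have h4 := congrArg (fun f : SpecialLinearGroup (Fin 2) (ZMod p) →* ℤˣ => f A) hL
    exact h4
  rw [aff_decomp M, map_mul, htr, hlin, one_mul]

/-- Let p be an odd prime and n a natural number. The alternating group of degree n has a subgroup isomorphic to Qd(p) (the natural semidirect product of an elementary abelian group of order p² by SL₂(p)) if and only if n ≥ p²; and if n < p² then Qd(p) is not even involved in it. -/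
theorem result {p : ℕ} [Fact p.Prime] (hp : p ≠ 2) (n : ℕ) : ((∃ H : Subgroup (alternatingGroup (Fin n)), Nonempty (↥H ≃* ↥(Cfsg.qd p))) ↔ p ^ 2 ≤ n) ∧ (n < p ^ 2 → ¬ Cfsg.Involves ↥(Cfsg.qd p) ↥(alternatingGroup (Fin n))) := by
  classical
  have hpp : p.Prime := Fact.out
  have haps : n < p ^ 2 → H42.APS p ↥(alternatingGroup (Fin n)) := by
    intro hn
    have h1 : H42.APS p (Equiv.Perm (Fin n)) := fun Q hQ =>
      H88.perm_pgroup_comm p (by simpa using hn) Q hQ
    exact H42.aps_of_injective (alternatingGroup (Fin n)).subtype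
      (Subgroup.subtype_injective _) h1
  refine ⟨⟨?_, ?_⟩, ?_⟩
  · rintro ⟨H, ⟨e⟩⟩
    by_contra hlt
    rw [not_le] at hlt
    have h1 : H42.APS p ↥H :=
      H42.aps_of_injective H.subtype (Subgroup.subtype_injective _) (haps hlt)
    have h2 : H42.APS p ↥(Cfsg.qd p) := H42.aps_of_surjective e.toMonoidHom e.surjective h1
    exact H42.not_aps_qd hp h2
  · intro hn
    have hcard : Fintype.card (Fin 2 → ZMod p) ≤ Fintype.card (Fin n) := by
      simp only [Fintype.card_pi, Finset.prod_const, Finset.card_univ, Fintype.card_fin,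
        ZMod.card]
      exact hn
    obtain ⟨ι⟩ := Function.Embedding.nonempty_of_card_le hcard
    set ψ : H51.affSub (ZMod p) →* Equiv.Perm (Fin n) :=
      (Equiv.Perm.viaEmbeddingHom ι).comp (affPerm (ZMod p)) with hψ
    have hψinj : Function.Injective ψ :=
      (Equiv.Perm.viaEmbeddingHom_injective ι).comp (affPerm_injective _)
    have hψalt : ∀ M, ψ M ∈ alternatingGroup (Fin n) := by
      intro M
      rw [Equiv.Perm.mem_alternatingGroup]
      show Equiv.Perm.sign (Equiv.Perm.viaEmbeddingHom ι (affPerm (ZMod p) M)) = 1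
      rw [H88.sign_viaEmbeddingHom, sign_affPerm p hp M]
    set ψ' : H51.affSub (ZMod p) →* ↥(alternatingGroup (Fin n)) :=
      ψ.codRestrict _ hψalt with hψ'
    have hψ'inj : Function.Injective ψ' := by
      intro a b hab
      exact hψinj (congrArg Subtype.val hab)
    refine ⟨ψ'.range, ⟨?_⟩⟩
    exact ((MulEquiv.subgroupCongr (H51.qd_eq p)).trans (MonoidHom.ofInjective hψ'inj)).symm
  · intro hn hinv
    exact H42.not_aps_qd hp (H42.aps_of_involves (haps hn) hinv)

end Cfsg.Agent.S3835
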