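import Mathlib
import Cfsg.Statements.S3838
import Cfsg.Agent.H67.NormalPComp
import Cfsg.Agent.H67.AbelianIndexP

set_option autoImplicit false
open Cfsg
open scoped commutatorElement

namespace Cfsg.Agent.S3838

universe u

/-- If `N_G(P)` has a normal `p`-complement then `N_G(P)` acts trivially on `P/[P,P]`. -/
theorem comm_mem_of_hasNormalPComplement {G : Type u} [Group G] [Finite G] {p : ℕ} [Fact p.Prime]
    (P : Sylow p G)
    (hN : Cfsg.HasNormalPComplement p ↥(Subgroup.normalizer ((P : Subgroup G) : Set G)))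
    (n : G) (hn : n ∈ Subgroup.normalizer ((P : Subgroup G) : Set G)) (u : G)
    (hu : u ∈ (P : Subgroup G)) : ⁅n, u⁆ ∈ ⁅(P : Subgroup G), (P : Subgroup G)⁆ := by
  classical
  set NP := Subgroup.normalizer ((P : Subgroup G) : Set G) with hNP
  obtain ⟨S, K, hKn, hKS⟩ := hN
  set P₁ : Sylow p NP := P.subtype Subgroup.le_normalizer with hP₁
  have hP₁coe : (P₁ : Subgroup NP) = (P : Subgroup G).subgroupOf NP := Sylow.coe_subtype _ _
  have hP₁n : (P₁ : Subgroup NP).Normal := by
    rw [hP₁coe]; exact Subgroup.normal_in_normalizer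
  have hS : S = P₁ := by
    have := Sylow.unique_of_normal P₁ hP₁n
    exact Subsingleton.elim S P₁
  rw [hS] at hKS
  have hdis : Disjoint K (P₁ : Subgroup NP) := hKS.disjoint
  have hcomm := Subgroup.commute_of_normal_of_disjoint K (P₁ : Subgroup NP) hKn hP₁n hdis
  obtain ⟨⟨⟨k, hk⟩, ⟨v, hv⟩⟩, hkv, -⟩ :=
    (Subgroup.isComplement_iff_existsUnique.mp hKS) ⟨n, hn⟩
  have hkv' : (k : G) * (v : G) = n := by
    have := congrArg Subtype.val hkv
    simpa using this
  have hvP : (v : G) ∈ (P : Subgroup G) := by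
    have : v ∈ (P : Subgroup G).subgroupOf NP := hP₁coe ▸ hv
    exact Subgroup.mem_subgroupOf.mp this
  -- k commutes with elements of P
  have hkc : ∀ w ∈ (P : Subgroup G), (k : G) * w = w * (k : G) := by
    intro w hw
    have hw' : (⟨w, Subgroup.le_normalizer hw⟩ : NP) ∈ (P₁ : Subgroup NP) := by
      rw [hP₁coe]; exact Subgroup.mem_subgroupOf.mpr hw
    have := hcomm k ⟨w, Subgroup.le_normalizer hw⟩ hk hw'
    have h2 := congrArg Subtype.val this.eq
    simpa using h2
  have hw : (v : G) * u * (v : G)⁻¹ ∈ (P : Subgroup G) :=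
    mul_mem (mul_mem hvP hu) (inv_mem hvP)
  have h1 : ⁅n, u⁆ = ⁅(v : G), u⁆ := by
    rw [← hkv', commutatorElement_def, commutatorElement_def]
    have h2 : (k : G) * (v : G) * u * ((k : G) * (v : G))⁻¹ * u⁻¹ =
        ((k : G) * ((v : G) * u * (v : G)⁻¹)) * (k : G)⁻¹ * u⁻¹ := by group
    rw [h2, hkc _ hw]
    group
  rw [h1]
  exact Subgroup.commutator_mem_commutator hvP hu

/-- Let G be a finite group with Sylow p-subgroup P such that N_G(P) has a normal p-complement. Then N_G(Q) has a normal p-complement for every subgroup Q with [P, P] ≤ Q ≤ Φ(P). -/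
theorem result {G : Type*} [Group G] [Finite G] {p : ℕ} [Fact p.Prime] (P : Sylow p G) (hN : Cfsg.HasNormalPComplement p ↥(Subgroup.normalizer ((P : Subgroup G) : Set G))) (Q : Subgroup G) (h1 : (commutator ↥(P : Subgroup G)).map (P : Subgroup G).subtype ≤ Q) (h2 : Q ≤ (frattini ↥(P : Subgroup G)).map (P : Subgroup G).subtype) : Cfsg.HasNormalPComplement p ↥(Subgroup.normalizer (Q : Set G)) := by
  classical
  set NQ := Subgroup.normalizer (Q : Set G) with hNQ
  have hQP : Q ≤ (P : Subgroup G) := h2.trans (Subgroup.map_subtype_le _)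
  have hcomm : ⁅(P : Subgroup G), (P : Subgroup G)⁆ ≤ Q := by
    rw [← Subgroup.map_subtype_commutator]; exact h1
  have hPNQ : (P : Subgroup G) ≤ NQ := by
    intro u hu
    rw [hNQ, Subgroup.mem_normalizer_iff]
    intro q
    constructor
    · intro hq
      have h3 : ⁅u, q⁆ ∈ Q := hcomm (Subgroup.commutator_mem_commutator hu (hQP hq))
      have h4 : u * q * u⁻¹ = ⁅u, q⁆ * q := by rw [commutatorElement_def]; group
      rw [h4]; exact mul_mem h3 hq
    · intro hq
      have h3 : ⁅u⁻¹, u * q * u⁻¹⁆ ∈ Q :=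
        hcomm (Subgroup.commutator_mem_commutator (inv_mem hu) (hQP hq))
      have h4 : q = ⁅u⁻¹, u * q * u⁻¹⁆ * (u * q * u⁻¹) := by
        rw [commutatorElement_def]; group
      rw [h4]; exact mul_mem h3 hq
  set P' : Sylow p NQ := P.subtype hPNQ with hP'
  have hP'coe : (P' : Subgroup NQ) = (P : Subgroup G).subgroupOf NQ := Sylow.coe_subtype _ _
  set Q' : Subgroup NQ := Q.subgroupOf NQ with hQ'
  have hQ'n : Q'.Normal := Subgroup.normal_in_normalizer
  have hQ'P' : Q' ≤ (P' : Subgroup NQ) := by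
    intro x hx
    rw [hP'coe, Subgroup.mem_subgroupOf]
    exact hQP (Subgroup.mem_subgroupOf.mp hx)
  have hfrat : ∀ R : Subgroup NQ, R ≤ (P' : Subgroup NQ) → (P' : Subgroup NQ) ≤ R ⊔ Q' →
      (P' : Subgroup NQ) ≤ R := by
    intro R hR hPR
    set R₁ : Subgroup ↥(P : Subgroup G) := (R.map NQ.subtype).subgroupOf (P : Subgroup G) with hR₁
    have hQ₁ : Q.subgroupOf (P : Subgroup G) ≤ frattini ↥(P : Subgroup G) := by
      intro x hx
      obtain ⟨y, hy, hyx⟩ := h2 (Subgroup.mem_subgroupOf.mp hx)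
      have : y = x := Subtype.ext hyx
      rwa [← this]
    have htop : R₁ ⊔ frattini ↥(P : Subgroup G) = ⊤ := by
      rw [eq_top_iff]
      intro x _
      have hx' : (⟨(x : G), hPNQ x.2⟩ : NQ) ∈ (P' : Subgroup NQ) := by
        rw [hP'coe, Subgroup.mem_subgroupOf]; exact x.2
      obtain ⟨r, hr, q, hq, hrq⟩ := Subgroup.mem_sup_of_normal_right.mp (hPR hx')
      have hrP : (r : G) ∈ (P : Subgroup G) := by
        have := hR hr
        rw [hP'coe, Subgroup.mem_subgroupOf] at this
        exact this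
      have hqQ : (q : G) ∈ Q := Subgroup.mem_subgroupOf.mp hq
      have hx3 : (r : G) * (q : G) = (x : G) := by
        have := congrArg Subtype.val hrq
        rw [Subgroup.coe_mul] at this
        exact this
      have hx2 : x = (⟨(r : G), hrP⟩ : ↥(P : Subgroup G)) * ⟨(q : G), hQP hqQ⟩ := by
        apply Subtype.ext
        rw [Subgroup.coe_mul]
        exact hx3.symm
      rw [hx2]
      refine mul_mem (Subgroup.mem_sup_left ?_) (Subgroup.mem_sup_right (hQ₁ ?_))
      · rw [hR₁, Subgroup.mem_subgroupOf]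
        exact ⟨r, hr, rfl⟩
      · rw [Subgroup.mem_subgroupOf]; exact hqQ
    have hR₁top := frattini_nongenerating htop
    intro u hu
    have huP : (u : G) ∈ (P : Subgroup G) := by
      rw [hP'coe, Subgroup.mem_subgroupOf] at hu; exact hu
    have h3 : (⟨(u : G), huP⟩ : ↥(P : Subgroup G)) ∈ R₁ := by rw [hR₁top]; trivial
    rw [hR₁, Subgroup.mem_subgroupOf] at h3
    obtain ⟨r, hr, hru⟩ := h3
    have : r = u := Subtype.ext hru
    rwa [← this]
  have hcent : ∀ n : NQ, (∀ u ∈ (P' : Subgroup NQ), n * u * n⁻¹ ∈ (P' : Subgroup NQ)) →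
      ∀ u ∈ (P' : Subgroup NQ), ⁅n, u⁆ ∈ Q' := by
    intro n hn u hu
    have hnG : (n : G) ∈ Subgroup.normalizer ((P : Subgroup G) : Set G) := by
      apply H67.mem_normalizer_of_forall_conj_mem
      intro v hv
      have hv' : (⟨v, hPNQ hv⟩ : NQ) ∈ (P' : Subgroup NQ) := by
        rw [hP'coe, Subgroup.mem_subgroupOf]; exact hv
      have := hn _ hv'
      rw [hP'coe, Subgroup.mem_subgroupOf] at this
      simpa using this
    have huP : (u : G) ∈ (P : Subgroup G) := by
      rw [hP'coe, Subgroup.mem_subgroupOf] at hu; exact hu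
    have := hcomm (comm_mem_of_hasNormalPComplement P hN n hnG u huP)
    rw [hQ', Subgroup.mem_subgroupOf]
    simpa [commutatorElement_def] using this
  obtain ⟨M, hMn, hMc⟩ :=
    H67.exists_normal_complement_of_nongenerating P' Q' hQ'P' hfrat hcent
  exact ⟨P', M, hMn, hMc⟩

end Cfsg.Agent.S3838
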