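import Mathlib
import Cfsg.Statements.S3857
import Cfsg.Agent.H67.PrimeGraph

set_option autoImplicit false
open Cfsg

namespace Cfsg.Agent.S3857

/-- A finite solvable group whose prime graph (prime divisors of the order, two distinct primes joined when there is an element of order their product) is disconnected is a Frobenius group or a 2-Frobenius group (it has normal subgroups H < K with K a Frobenius group with kernel H and G/H a Frobenius group with kernel K/H). -/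
theorem result {G : Type*} [Group G] [Finite G] (hsol : Group.IsSolvable G)
    (hdisc : (∃ A : Set ℕ, (∃ a ∈ A, a.Prime ∧ a ∣ Nat.card G) ∧ (∃ b ∉ A, b.Prime ∧ b ∣ Nat.card G) ∧
      ∀ a ∈ A, ∀ b ∉ A, a.Prime → b.Prime → a ∣ Nat.card G → b ∣ Nat.card G → ¬ ∃ g : G, orderOf g = a * b)) :
    (∃ C : Subgroup G, Cfsg.IsFrobeniusComplement C) ∨
    (∃ (H K : Subgroup G) (_ : H.Normal), K.Normal ∧ H < K ∧
      (∃ C : Subgroup ↥K, Cfsg.IsFrobeniusComplement C ∧ Cfsg.frobeniusKernel C = (H.subgroupOf K : Set ↥K)) ∧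
      (∃ C : Subgroup (G ⧸ H), Cfsg.IsFrobeniusComplement C ∧ Cfsg.frobeniusKernel C = (K.map (QuotientGroup.mk' H) : Set (G ⧸ H)))) := by
  classical
  obtain ⟨A, ⟨a, haA, hap, haG⟩, ⟨b, hbA, hbp, hbG⟩, h⟩ := hdisc
  have hNC : Cfsg.Agent.H67.NoComm A G := Cfsg.Agent.H67.noComm_of_disc A h
  haveI := hsol
  haveI : Nontrivial G := by
    apply Finite.one_lt_card_iff_nontrivial.1
    exact lt_of_lt_of_le hap.one_lt (Nat.le_of_dvd Nat.card_pos haG)
  obtain ⟨N₀, hN₀n, hN₀1, hN₀min⟩ := Cfsg.Agent.H1.exists_minimal_normal (G := G)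
  haveI := hN₀n
  obtain ⟨hcomm, -⟩ := Cfsg.Agent.H1.minimal_normal_elementary_abelian N₀ hN₀1 hN₀min
  obtain ⟨p, hp, hN₀p⟩ := Cfsg.Agent.H1.minimal_normal_isPGroup N₀ hN₀1 hN₀min
  haveI : Fact p.Prime := ⟨hp⟩
  have hcomm' : ∀ x ∈ N₀, ∀ y ∈ N₀, x * y = y * x :=
    fun x hx y hy => Cfsg.Agent.H67.mul_comm_of_isMulCommutative hcomm hx hy
  obtain ⟨k, hk⟩ := IsPGroup.iff_card.1 hN₀p
  by_cases hpA : p ∈ A
  · exact Cfsg.Agent.H67.frobenius_or_two_frobenius_aux G A hNC ⟨b, hbp, hbA, hbG⟩ N₀ hN₀1 hcomm'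
      (hk ▸ Cfsg.Agent.H67.PiNum.prime_pow hp hpA)
  · refine Cfsg.Agent.H67.frobenius_or_two_frobenius_aux G Aᶜ ?_ ⟨a, hap, fun h => h haA, haG⟩
      N₀ hN₀1 hcomm' (hk ▸ Cfsg.Agent.H67.PiNum.prime_pow hp (show p ∈ Aᶜ from hpA))
    intro x y hx1 hy1 hx hy hc
    rw [compl_compl] at hy
    exact hNC y x hy1 hx1 hy hx hc.symm

end Cfsg.Agent.S3857
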