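import Mathlib
import Cfsg.Statements.S3858
import Cfsg.Agent.H67.SylowAux

set_option autoImplicit false
open Cfsg

namespace Cfsg.Agent.S3858

open Cfsg.Agent.H67

theorem isCoatom_map_conj {G : Type*} [Group G] (M : Subgroup G) (g : G) (hM : IsCoatom M) :
    IsCoatom (M.map (MulAut.conj g).toMonoidHom) :=
  ((MulAut.conj g).mapSubgroup.isCoatom_iff M).2 hM

/-- a subgroup of `r'`-index contains a conjugate of every `r`-subgroup. -/
theorem exists_conj_le_of_not_dvd_index {G : Type*} [Group G] [Finite G] {r : ℕ} [Fact r.Prime]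
    (R M : Subgroup G) (hR : IsPGroup r R) (hM : ¬ r ∣ M.index) :
    ∃ g : G, R ≤ M.map (MulAut.conj g).toMonoidHom := by
  have hcard : ¬ r ∣ Nat.card (G ⧸ M) := hM
  obtain ⟨x, hx⟩ := hR.nonempty_fixed_point_of_prime_not_dvd_card (G ⧸ M) hcard
  obtain ⟨g, rfl⟩ := QuotientGroup.mk_surjective x
  refine ⟨g, ?_⟩
  intro u hu
  rw [mem_map_conj]
  have h1 := (MulAction.mem_fixedPoints.1 hx) ⟨u, hu⟩
  have h2 : ((u * g : G) : G ⧸ M) = (g : G ⧸ M) := h1
  rw [QuotientGroup.eq] at h2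
  have h3 := M.inv_mem h2
  simpa [mul_assoc] using h3

theorem not_normal_sylow {G : Type*} [Group G] [Finite G] (T : Subgroup G) [T.Normal]
    (hT : IsSimpleGroup T) (hna : ¬ IsMulCommutative T)
    {r : ℕ} [Fact r.Prime] (R : Sylow r G) (hR0 : (R : Subgroup G) ⊓ T ≠ ⊥) :
    ¬ (R : Subgroup G).Normal := by
  intro hRn
  have hn : ((R : Subgroup G) ⊓ T).Normal := Subgroup.normal_inf_normal _ _  
  have hn' : (((R : Subgroup G) ⊓ T).subgroupOf T).Normal := hn.subgroupOf T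
  rcases hn'.eq_bot_or_eq_top with h | h
  · rw [Subgroup.subgroupOf_eq_bot] at h
    apply hR0
    have : (R : Subgroup G) ⊓ T ⊓ T = ⊥ := disjoint_iff.1 h
    rwa [inf_assoc, inf_idem] at this
  · rw [Subgroup.subgroupOf_eq_top] at h
    have hTR : T ≤ (R : Subgroup G) := fun t ht => (h ht).1
    have hTp : IsPGroup r T := R.isPGroup'.to_le hTR
    haveI : Nontrivial T := hT.toNontrivial
    haveI := hTp.center_nontrivial
    have hc : Subgroup.center T = ⊤ := by
      rcases (inferInstance : (Subgroup.center T).Normal).eq_bot_or_eq_top with h | h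
      · exact absurd h (Subgroup.nontrivial_iff_ne_bot _ |>.1 inferInstance)
      · exact h
    apply hna
    refine ⟨⟨fun a b => ?_⟩⟩
    have ha : a ∈ Subgroup.center T := by rw [hc]; trivial
    exact ((Subgroup.mem_center_iff.1 ha) b).symm

/-- Let G be a finite group with a normal non-abelian simple subgroup T whose centralizer is trivial (G almost simple with socle T), r a prime and R a Sylow r-subgroup of G meeting T nontrivially. Then R lies in exactly one maximal subgroup of G if and only if G has exactly one conjugacy class of maximal subgroups whose index is prime to r. -/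
theorem result {G : Type*} [Group G] [Finite G] (T : Subgroup G) [T.Normal] (hT : IsSimpleGroup T) (hna : ¬ IsMulCommutative T)
    (hC : Subgroup.centralizer (T : Set G) = ⊥) {r : ℕ} [Fact r.Prime] (R : Sylow r G) (hR0 : (R : Subgroup G) ⊓ T ≠ ⊥) :
    (∃! M : Subgroup G, IsCoatom M ∧ (R : Subgroup G) ≤ M) ↔
      ((∃ M : Subgroup G, IsCoatom M ∧ ¬ r ∣ M.index) ∧
        ∀ M₁ M₂ : Subgroup G, IsCoatom M₁ → ¬ r ∣ M₁.index → IsCoatom M₂ → ¬ r ∣ M₂.index → ∃ g : G, M₂ = M₁.map (MulAut.conj g).toMonoidHom) := by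
  have hRidx : ¬ r ∣ (R : Subgroup G).index := R.not_dvd_index
  have hidx : ∀ M : Subgroup G, (R : Subgroup G) ≤ M → ¬ r ∣ M.index := by
    intro M hRM h
    exact hRidx (h.trans (Subgroup.index_dvd_of_le hRM))
  constructor
  · rintro ⟨M, ⟨hM, hRM⟩, huniq⟩
    refine ⟨⟨M, hM, hidx M hRM⟩, ?_⟩
    intro M₁ M₂ hM₁ hi₁ hM₂ hi₂
    obtain ⟨g₁, hg₁⟩ := exists_conj_le_of_not_dvd_index (R : Subgroup G) M₁ R.isPGroup' hi₁
    obtain ⟨g₂, hg₂⟩ := exists_conj_le_of_not_dvd_index (R : Subgroup G) M₂ R.isPGroup' hi₂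
    have e₁ := huniq _ ⟨isCoatom_map_conj M₁ g₁ hM₁, hg₁⟩
    have e₂ := huniq _ ⟨isCoatom_map_conj M₂ g₂ hM₂, hg₂⟩
    refine ⟨g₂⁻¹ * g₁, ?_⟩
    rw [map_conj_mul, e₁, ← e₂, map_conj_inv_map_conj]
  · rintro ⟨⟨M₀, hM₀, hi₀⟩, hclass⟩
    have hRn : ¬ (R : Subgroup G).Normal := not_normal_sylow T hT hna R hR0
    have hNtop : Subgroup.normalizer ((R : Subgroup G) : Set G) ≠ ⊤ := by
      intro h
      exact hRn (Subgroup.normalizer_eq_top_iff.1 h)
    obtain ⟨M₃, hM₃, hNM₃⟩ := (eq_top_or_exists_le_coatom _).resolve_left hNtop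
    have hRM₃ : (R : Subgroup G) ≤ M₃ := Subgroup.le_normalizer.trans hNM₃
    refine ⟨M₃, ⟨hM₃, hRM₃⟩, ?_⟩
    rintro M' ⟨hM', hRM'⟩
    obtain ⟨g, hg⟩ := hclass M₃ M' hM₃ (hidx M₃ hRM₃) hM' (hidx M' hRM')
    -- R^{g⁻¹} ≤ M₃
    have hQM₃ : (R : Subgroup G).map (MulAut.conj g⁻¹).toMonoidHom ≤ M₃ := by
      have := map_conj_mono hRM' g⁻¹
      rwa [hg, map_conj_inv_map_conj] at this
    have hQ : IsPGroup r ((R : Subgroup G).map (MulAut.conj g⁻¹).toMonoidHom) := R.isPGroup'.map _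
    have hQidx : ¬ r ∣ ((R : Subgroup G).map (MulAut.conj g⁻¹).toMonoidHom).index := by
      have h1 := Subgroup.card_mul_index ((R : Subgroup G).map (MulAut.conj g⁻¹).toMonoidHom)
      have h2 := Subgroup.card_mul_index (R : Subgroup G)
      rw [card_map_conj, ← h2] at h1
      rw [Nat.eq_of_mul_eq_mul_left Nat.card_pos h1]
      exact hRidx
    obtain ⟨m, hm, hmQ⟩ := exists_conj_eq_of_isPGroup_of_not_dvd_relIndex hRM₃ hQM₃ R.isPGroup'
      (fun h => hRidx (h.trans (Subgroup.relIndex_dvd_index_of_le hRM₃))) hQ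
      (fun h => hQidx (h.trans (Subgroup.relIndex_dvd_index_of_le hQM₃)))
    have hn : m⁻¹ * g⁻¹ ∈ Subgroup.normalizer ((R : Subgroup G) : Set G) := by
      rw [mem_normalizer_iff_map_conj, map_conj_mul, hmQ, map_conj_inv_map_conj]
    have hgM : g ∈ M₃ := by
      have h1 : m⁻¹ * g⁻¹ ∈ M₃ := hNM₃ hn
      have h2 := M₃.mul_mem hm h1
      rw [mul_inv_cancel_left] at h2
      simpa using M₃.inv_mem h2
    rw [hg, map_conj_eq_self_of_mem M₃ hgM]

end Cfsg.Agent.S3858
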