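import Mathlib
import Cfsg.Statements.S3859

set_option autoImplicit false
open Cfsg

namespace Cfsg.Agent.S3859

open scoped Pointwise

/-- A Sylow subgroup meets a normal subgroup in a subgroup of index prime to `p`. -/
theorem sylow_relIndex_normal_not_dvd {G : Type*} [Group G] [Finite G] {p : ℕ} [Fact p.Prime]
    (P : Sylow p G) (N : Subgroup G) [N.Normal] :
    ¬ p ∣ (P : Subgroup G).relIndex N := by
  obtain ⟨Q₀⟩ : Nonempty (Sylow p N) := inferInstance
  obtain ⟨Q, hQ⟩ := Sylow.exists_comap_subtype_eq Q₀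
  obtain ⟨g, hg⟩ := MulAction.exists_smul_eq G Q P
  have h1 : (P : Subgroup G) = MulAut.conj g • (Q : Subgroup G) := by
    rw [← hg]; rfl
  have h2 : (P : Subgroup G).relIndex N = (Q : Subgroup G).relIndex N := by
    rw [h1]
    conv_lhs => rw [← Subgroup.Normal.conj_smul_eq_self g N]
    exact Subgroup.relIndex_pointwise_smul _ _ _
  rw [h2]
  have h3 : (Q : Subgroup G).relIndex N = (Q₀ : Subgroup N).index := by
    rw [← hQ]; rfl
  rw [h3]
  exact Q₀.not_dvd_index

/-- Let G be a finite group with a normal non-abelian simple subgroup T whose centralizer is trivial (G almost simple with socle T), r a prime and R a Sylow r-subgroup of G meeting T nontrivially. If R lies in exactly one maximal subgroup of G, then G/T is an r-group. -/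
theorem result {G : Type*} [Group G] [Finite G] (T : Subgroup G) [T.Normal] (hT : IsSimpleGroup T) (hna : ¬ IsMulCommutative T)
    (hC : Subgroup.centralizer (T : Set G) = ⊥) {r : ℕ} [Fact r.Prime] (R : Sylow r G) (hR0 : (R : Subgroup G) ⊓ T ≠ ⊥)
    (huniq : ∃! M : Subgroup G, IsCoatom M ∧ (R : Subgroup G) ≤ M) : IsPGroup r (G ⧸ T) := by
  classical
  obtain ⟨M, ⟨hMco, hRM⟩, hMuniq⟩ := huniq
  -- the Sylow subgroup `R ⊓ T` of `T`
  let P0 : Sylow r ↥T :=
    IsPGroup.toSylow (P := (R : Subgroup G).subgroupOf T) (R.isPGroup'.comap_subtype)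
      (sylow_relIndex_normal_not_dvd R T)
  have hP0 : ((P0 : Subgroup ↥T)).map T.subtype = (R : Subgroup G) ⊓ T :=
    Subgroup.subgroupOf_map_subtype _ _
  have hfrat := Sylow.normalizer_sup_eq_top P0
  rw [hP0] at hfrat
  set X : Subgroup G := (R : Subgroup G) ⊓ T with hX
  -- `R` normalizes `X`
  have hRN : (R : Subgroup G) ≤ Subgroup.normalizer (X : Set G) := by
    intro g hg
    rw [Subgroup.mem_normalizer_iff]
    intro x
    constructor
    · rintro ⟨hx1, hx2⟩
      exact ⟨(R : Subgroup G).mul_mem ((R : Subgroup G).mul_mem hg hx1) ((R : Subgroup G).inv_mem hg),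
        (inferInstance : T.Normal).conj_mem x hx2 g⟩
    · rintro ⟨hx1, hx2⟩
      have e : x = g⁻¹ * (g * x * g⁻¹) * g := by group
      constructor
      · rw [e]
        exact (R : Subgroup G).mul_mem ((R : Subgroup G).mul_mem ((R : Subgroup G).inv_mem hg) hx1) hg
      · have := (inferInstance : T.Normal).conj_mem _ hx2 g⁻¹
        rw [inv_inv] at this
        rw [e]
        exact this
  -- the normalizer of `X` is proper
  have hNtop : Subgroup.normalizer (X : Set G) ≠ ⊤ := by
    intro h
    have hnorm : X.Normal := Subgroup.normalizer_eq_top_iff.mp h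
    have hnorm' : (X.subgroupOf T).Normal := hnorm.subgroupOf T
    rcases hnorm'.eq_bot_or_eq_top with h1 | h1
    · rw [Subgroup.subgroupOf_eq_bot] at h1
      apply hR0
      have : X ⊓ T = ⊥ := disjoint_iff.mp h1
      rw [hX, inf_assoc, inf_idem] at this
      exact this
    · rw [Subgroup.subgroupOf_eq_top] at h1
      have hTR : T ≤ (R : Subgroup G) := h1.trans inf_le_left
      have hTp : IsPGroup r ↥T := R.isPGroup'.to_le hTR
      have : Nontrivial ↥T := hT.toNontrivial
      have hcen := hTp.center_nontrivial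
      rcases (inferInstance : (Subgroup.center ↥T).Normal).eq_bot_or_eq_top with h2 | h2
      · rw [← Subgroup.nontrivial_iff_ne_bot] at *
        exact (Subgroup.nontrivial_iff_ne_bot _).mp hcen h2
      · exact hna (Subgroup.center_eq_top_iff.mp h2)
  -- a maximal subgroup above the normalizer is `M`
  have hNM : Subgroup.normalizer (X : Set G) ≤ M := by
    rcases eq_top_or_exists_le_coatom (Subgroup.normalizer (X : Set G)) with h | ⟨M', hM', hle⟩
    · exact absurd h hNtop
    · have := hMuniq M' ⟨hM', hRN.trans hle⟩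
      rw [← this]
      exact hle
  -- `R ⊔ T = ⊤`
  have hRT : (R : Subgroup G) ⊔ T = ⊤ := by
    rcases eq_top_or_exists_le_coatom ((R : Subgroup G) ⊔ T) with h | ⟨M', hM', hle⟩
    · exact h
    · exfalso
      have hM'M := hMuniq M' ⟨hM', le_sup_left.trans hle⟩
      have hTM : T ≤ M := hM'M ▸ (le_sup_right.trans hle)
      have : (⊤ : Subgroup G) ≤ M := by
        rw [← hfrat]
        exact sup_le hNM hTM
      exact hMco.1 (top_le_iff.mp this)
  intro q
  obtain ⟨g, rfl⟩ := QuotientGroup.mk_surjective q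
  have hg : g ∈ (R : Subgroup G) ⊔ T := by rw [hRT]; exact Subgroup.mem_top g
  rw [Subgroup.mem_sup_of_normal_right] at hg
  obtain ⟨y, hy, z, hz, rfl⟩ := hg
  obtain ⟨k, hk⟩ := R.isPGroup' ⟨y, hy⟩
  refine ⟨k, ?_⟩
  have hyz : ((y * z : G) : G ⧸ T) = (y : G ⧸ T) := by
    rw [QuotientGroup.mk_mul, (QuotientGroup.eq_one_iff z).mpr hz, mul_one]
  rw [hyz, ← QuotientGroup.mk_pow]
  have : y ^ r ^ k = 1 := by
    have := congrArg Subtype.val hk
    simpa using this
  rw [this]
  rfl

end Cfsg.Agent.S3859
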