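import Mathlib
import Cfsg.Statements.S3861
import Cfsg.Agent.H5.BaerSuzuki
import Cfsg.Agent.H5.Dihedral
import Cfsg.Agent.H68.RealLift

set_option autoImplicit false
open Cfsg

namespace Cfsg.Agent.S3861

open Cfsg.Agent.H68

universe u

/-- No nontrivial element of odd order is conjugate to its inverse. -/
def NoOddReal (G : Type*) [Group G] : Prop :=
  ∀ x : G, x ≠ 1 → Odd (orderOf x) → ¬ IsConj x x⁻¹

/-- Under `NoOddReal`, the product of two involutions has order a power of `2`. -/
theorem pow_two_pow_mul_involutions {G : Type*} [Group G] [Finite G] (hR : NoOddReal G) {s t : G}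
    (hs : s * s = 1) (ht : t * t = 1) : ∃ j : ℕ, (s * t) ^ 2 ^ j = 1 := by
  have hinv : s * (s * t) * s⁻¹ = (s * t)⁻¹ := Cfsg.Agent.H5.inv_conj_mul hs ht
  obtain ⟨j, m, hm, hn⟩ := Nat.exists_eq_two_pow_mul_odd (orderOf_pos (s * t)).ne'
  refine ⟨j, ?_⟩
  by_contra hne
  apply hR ((s * t) ^ 2 ^ j) hne
  · rw [orderOf_pow_of_dvd (pow_ne_zero _ two_ne_zero) ⟨m, hn⟩, hn,
      Nat.mul_div_cancel_left _ (pow_pos two_pos _)]
    exact hm
  · rw [isConj_iff]
    exact ⟨s, by rw [← conj_pow, hinv, inv_pow]⟩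

/-- Under `NoOddReal`, two involutions generate a `2`-group. -/
theorem isPGroup_closure_pair {G : Type*} [Group G] [Finite G] (hR : NoOddReal G) {s t : G}
    (hs : s * s = 1) (ht : t * t = 1) : IsPGroup 2 (Subgroup.closure ({s, t} : Set G)) := by
  obtain ⟨j, hj⟩ := pow_two_pow_mul_involutions hR hs ht
  rintro ⟨d, hd⟩
  obtain ⟨k, rfl | rfl⟩ := Cfsg.Agent.H5.mem_closure_pair hs ht hd
  · refine ⟨j, Subtype.ext ?_⟩
    show ((s * t) ^ k) ^ 2 ^ j = 1
    rw [← zpow_natCast, ← zpow_mul, mul_comm, zpow_mul, zpow_natCast, hj, one_zpow]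
  · refine ⟨1, Subtype.ext ?_⟩
    show ((s * t) ^ k * s) ^ 2 ^ 1 = 1
    rw [pow_one, pow_two, mul_assoc, ← mul_assoc s, Cfsg.Agent.H5.mul_zpow_swap hs ht, mul_assoc,
      hs, mul_one, ← zpow_add, add_neg_cancel, zpow_zero]

theorem isPClosed_of_noOddReal : ∀ n : ℕ, ∀ (G : Type u) [Group G] [Finite G], Nat.card G = n →
    NoOddReal G → ∀ P : Sylow 2 G, (P : Subgroup G).Normal := by
  intro n
  induction n using Nat.strong_induction_on with
  | _ n ih =>
  intro G _ _ hcard hR P
  classical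
  have : Fact (Nat.Prime 2) := ⟨Nat.prime_two⟩
  set O : Subgroup G := (P : Subgroup G).normalCore with hO
  have hOn : O.Normal := Subgroup.normalCore_normal _
  have hOP : O ≤ P := Subgroup.normalCore_le _
  have hO2 : IsPGroup 2 O := P.isPGroup'.to_le hOP
  -- involutions lie in `O`
  have hinvO : ∀ t : G, t * t = 1 → t ∈ O := by
    intro t ht
    have hX : IsPGroup 2 (Subgroup.zpowers t) := by
      rintro ⟨d, hd⟩
      obtain ⟨k, rfl⟩ := Subgroup.mem_zpowers_iff.mp hd
      refine ⟨1, Subtype.ext ?_⟩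
      show (t ^ k) ^ 2 ^ 1 = 1
      rw [pow_one, ← zpow_natCast, ← zpow_mul, mul_comm, zpow_mul, zpow_natCast, pow_two, ht,
        one_zpow]
    obtain ⟨N, hNn, hN2, hXN⟩ := Cfsg.Agent.H5.baer_suzuki (p := 2) (Subgroup.zpowers t) hX
      (fun g => by
        have ht' : (g * t * g⁻¹) * (g * t * g⁻¹) = 1 := by
          have h0 : g * t * g⁻¹ * (g * t * g⁻¹) = g * (t * t) * g⁻¹ := by group
          rw [h0, ht, mul_one, mul_inv_cancel]
        have hle : Subgroup.zpowers t ⊔ (Subgroup.zpowers t).map (MulAut.conj g).toMonoidHom ≤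
            Subgroup.closure ({t, g * t * g⁻¹} : Set G) := by
          refine sup_le ?_ ?_
          · rw [Subgroup.zpowers_le]; exact Subgroup.subset_closure (by simp)
          · rw [MonoidHom.map_zpowers, Subgroup.zpowers_le]
            exact Subgroup.subset_closure (by simp)
        exact (isPGroup_closure_pair hR ht ht').to_le hle)
    have h1 : N ≤ P := hN2.le_sylow_of_normal P
    have h2 : N ≤ O := Subgroup.normal_le_normalCore.mpr h1
    exact h2 (hXN (Subgroup.mem_zpowers t))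
  by_cases hObot : O = ⊥
  · -- no involutions: `|G|` is odd
    have h2 : ¬ 2 ∣ Nat.card G := by
      intro h
      obtain ⟨t, ht⟩ := exists_prime_orderOf_dvd_card' 2 h
      have htt : t * t = 1 := by rw [← pow_two, ← ht, pow_orderOf_eq_one]
      have hmem := hinvO t htt
      rw [hObot, Subgroup.mem_bot] at hmem
      rw [hmem, orderOf_one] at ht
      omega
    have hPbot : (P : Subgroup G) = ⊥ := by
      apply Subgroup.eq_bot_of_card_eq
      rw [Sylow.card_eq_multiplicity, Nat.factorization_eq_zero_of_not_dvd h2, pow_zero]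
    rw [hPbot]; infer_instance
  · -- pass to the quotient
    have hlt : Nat.card (G ⧸ O) < n := by
      rw [← hcard, ← Subgroup.index_eq_card, ← Subgroup.card_mul_index O]
      have h1 : 1 < Nat.card O := (Subgroup.one_lt_card_iff_ne_bot O).mpr hObot
      have h2 : 0 < O.index := Nat.pos_of_ne_zero Subgroup.index_ne_zero_of_finite
      nlinarith
    have hRq : NoOddReal (G ⧸ O) := by
      intro y hy1 hyodd hyreal
      obtain ⟨q, hqp, hqdvd⟩ := Nat.exists_prime_and_dvd (n := orderOf y)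
        (by intro h; exact hy1 (orderOf_eq_one_iff.mp h))
      have : Fact q.Prime := ⟨hqp⟩
      have hqodd : Odd q := hyodd.of_dvd_nat hqdvd
      have hqO : ¬ q ∣ Nat.card O := by
        intro h
        obtain ⟨k, hk⟩ := IsPGroup.iff_card.mp hO2
        rw [hk] at h
        have h2 := (Nat.prime_dvd_prime_iff_eq hqp Nat.prime_two).mp (hqp.dvd_of_dvd_pow h)
        rw [h2] at hqodd
        exact absurd hqodd (by decide)
      have hy' : orderOf (y ^ (orderOf y / q)) = q :=
        orderOf_pow_orderOf_div (orderOf_pos y).ne' hqdvd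
      have hreal' : IsConj (y ^ (orderOf y / q)) (y ^ (orderOf y / q))⁻¹ := by
        obtain ⟨c, hc⟩ := isConj_iff.mp hyreal
        exact isConj_iff.mpr ⟨c, by rw [← conj_pow, hc, inv_pow]⟩
      obtain ⟨c, hcq, hcreal⟩ := exists_real_of_quotient O hqO hy' hreal'
      refine hR c ?_ ?_ hcreal
      · intro h
        rw [h, orderOf_one] at hcq
        exact hqp.one_lt.ne hcq
      · rw [hcq]; exact hqodd
    have hcl : Cfsg.IsPClosed 2 (G ⧸ O) := ih _ hlt (G ⧸ O) rfl hRq
    have hn := sup_normal_of_pclosed_quotient O hcl P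
    rwa [sup_eq_left.mpr hOP] at hn

theorem noOddReal_of_normal {G : Type*} [Group G] [Finite G] (P : Sylow 2 G)
    (hP : (P : Subgroup G).Normal) : NoOddReal G := by
  intro x hx1 hxodd hreal
  have : Fact (Nat.Prime 2) := ⟨Nat.prime_two⟩
  obtain ⟨g, hg⟩ := isConj_iff.mp hreal
  obtain ⟨a, m, hm, hn⟩ := Nat.exists_eq_two_pow_mul_odd (orderOf_pos g).ne'
  set t := g ^ m with ht
  have ht2 : t ^ 2 ^ a = 1 := by rw [ht, ← pow_mul, mul_comm, ← hn, pow_orderOf_eq_one]
  have htx : t * x * t⁻¹ = x⁻¹ := by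
    have key : ∀ k : ℕ, g ^ k * x * (g ^ k)⁻¹ = if Even k then x else x⁻¹ := by
      intro k
      induction k with
      | zero => simp
      | succ k ih =>
        have h1 : g ^ (k + 1) * x * (g ^ (k + 1))⁻¹ = g * (g ^ k * x * (g ^ k)⁻¹) * g⁻¹ := by
          rw [pow_succ']; group
        rw [h1, ih]
        by_cases hk : Even k
        · simp [hk, Nat.even_add_one, hg]
        · simp only [hk, Nat.even_add_one, if_false, not_false_eq_true, if_true]
          rw [← conj_inv, hg, inv_inv]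
    have h2 := key m
    rw [if_neg (Nat.not_even_iff_odd.mpr hm)] at h2
    exact h2
  -- `t ∈ P`
  have htP : t ∈ (P : Subgroup G) := by
    have hz : IsPGroup 2 (Subgroup.zpowers t) := by
      rintro ⟨d, hd⟩
      obtain ⟨k, rfl⟩ := Subgroup.mem_zpowers_iff.mp hd
      refine ⟨a, Subtype.ext ?_⟩
      show (t ^ k) ^ 2 ^ a = 1
      rw [← zpow_natCast, ← zpow_mul, mul_comm, zpow_mul, zpow_natCast, ht2, one_zpow]
    obtain ⟨Q, hQ⟩ := hz.exists_le_sylow
    obtain ⟨c, rfl⟩ := MulAction.exists_smul_eq G P Q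
    rw [Sylow.smul_eq_of_normal] at hQ
    exact hQ (Subgroup.mem_zpowers t)
  have hx2 : x⁻¹ * x⁻¹ ∈ (P : Subgroup G) := by
    have h1 : x * t⁻¹ * x⁻¹ ∈ (P : Subgroup G) := hP.conj_mem _ (inv_mem htP) x
    have h2 := mul_mem htP h1
    have h3 : t * (x * t⁻¹ * x⁻¹) = x⁻¹ * x⁻¹ := by rw [← htx]; group
    rwa [h3] at h2
  obtain ⟨j, hj⟩ := P.isPGroup' ⟨_, hx2⟩
  have hj' : (x⁻¹ * x⁻¹) ^ 2 ^ j = 1 := by simpa using congrArg Subtype.val hj
  have hj'' : x ^ (2 ^ (j + 1)) = 1 := by
    rw [← pow_two, inv_pow, inv_pow, inv_eq_one, ← pow_mul] at hj'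
    rw [pow_succ']; exact hj'
  have hdvd : orderOf x ∣ 2 ^ (j + 1) := orderOf_dvd_of_pow_eq_one hj''
  have h1 : orderOf x = 1 := by
    have hcop : Nat.Coprime (orderOf x) (2 ^ (j + 1)) :=
      Nat.Coprime.pow_right _ (Nat.coprime_two_right.mpr hxodd)
    exact Nat.Coprime.eq_one_of_dvd hcop hdvd
  exact hx1 (orderOf_eq_one_iff.mp h1)

/-- A finite group G has no non-identity element of odd order that is conjugate to its inverse if and only if the Sylow 2-subgroups of G are normal. -/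
theorem result {G : Type*} [Group G] [Finite G] (P : Sylow 2 G) : (∀ x : G, x ≠ 1 → Odd (orderOf x) → ¬ IsConj x x⁻¹) ↔ (P : Subgroup G).Normal := by
  constructor
  · intro h
    exact isPClosed_of_noOddReal _ G rfl h P
  · intro h
    exact noOddReal_of_normal P h

end Cfsg.Agent.S3861
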