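import Mathlib
import Cfsg.Statements.S3863

set_option autoImplicit false
open Cfsg

namespace Cfsg.Agent.S3863

/-- An element inverting `x` has its even powers commuting with `x` and its odd powers
inverting `x`. -/
theorem conj_pow_odd {G : Type*} [Group G] (x g : G) (hg : g * x * g⁻¹ = x⁻¹) (n : ℕ) :
    g ^ (2 * n + 1) * x * (g ^ (2 * n + 1))⁻¹ = x⁻¹ := by
  have h2 : g ^ 2 * x = x * g ^ 2 := by
    have h3 : g * x = x⁻¹ * g := by
      rw [← hg]; group
    have h4 : g * x⁻¹ = x * g := by
      have : g * x⁻¹ * g⁻¹ = x := by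
        have := congrArg (fun y => y⁻¹) hg
        simp only [mul_inv_rev, inv_inv] at this
        rw [← mul_assoc] at this
        exact this
      calc g * x⁻¹ = (g * x⁻¹ * g⁻¹) * g := by group
        _ = x * g := by rw [this]
    rw [pow_two, mul_assoc, h3, ← mul_assoc, h4, mul_assoc]
  have hc : Commute (g ^ 2) x := h2
  have hc2 : Commute ((g ^ 2) ^ n) x := hc.pow_left n
  rw [pow_succ, pow_mul, mul_inv_rev, ← mul_assoc, mul_assoc ((g ^ 2) ^ n) g x,
    mul_assoc ((g ^ 2) ^ n) (g * x) g⁻¹, hg]
  have hc3 : Commute ((g ^ 2) ^ n) x⁻¹ := hc2.inv_right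
  rw [hc3.eq, mul_assoc, mul_inv_cancel, mul_one]

/-- Let x be an element of the finite group G that is conjugate to its inverse. Then some 2-element conjugates x to its inverse; if the conjugacy class of x has odd size then x ^ 2 = 1; and x lies in, and is conjugate to its inverse inside, every normal subgroup of odd index. -/
theorem result {G : Type*} [Group G] [Finite G] (x : G) (hx : IsConj x x⁻¹) : (∃ t : G, (∃ j : ℕ, orderOf t = 2 ^ j) ∧ t * x * t⁻¹ = x⁻¹) ∧ (Odd (Subgroup.centralizer ({x} : Set G)).index → x ^ 2 = 1) ∧ ∀ (N : Subgroup G) [N.Normal], Odd N.index → ∃ hxN : x ∈ N, IsConj (⟨x, hxN⟩ : N) (⟨x, hxN⟩ : N)⁻¹ := by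
  -- the 2-element
  have h1 : ∃ t : G, (∃ j : ℕ, orderOf t = 2 ^ j) ∧ t * x * t⁻¹ = x⁻¹ := by
    obtain ⟨g, hg⟩ := isConj_iff.mp hx
    obtain ⟨k, m, hm, hkm⟩ := Nat.exists_eq_two_pow_mul_odd (orderOf_pos g).ne'
    obtain ⟨n, rfl⟩ := hm
    refine ⟨g ^ (2 * n + 1), ⟨k, ?_⟩, conj_pow_odd x g hg n⟩
    rw [orderOf_pow, hkm, Nat.gcd_mul_left_left]
    exact Nat.mul_div_cancel _ (by omega)
  obtain ⟨t, ⟨j, hj⟩, ht⟩ := h1
  refine ⟨⟨t, ⟨j, hj⟩, ht⟩, ?_, ?_⟩
  · intro hodd
    by_contra hx2
    have hne : x ≠ x⁻¹ := by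
      intro h
      apply hx2
      rw [pow_two]
      nth_rewrite 2 [h]
      exact mul_inv_cancel x
    -- the subgroup of elements centralizing or inverting x
    let E : Subgroup G :=
      { carrier := {g | g * x * g⁻¹ = x ∨ g * x * g⁻¹ = x⁻¹}
        one_mem' := by simp
        mul_mem' := by
          intro a b ha hb
          simp only [Set.mem_ofPred_eq] at ha hb ⊢
          have e : a * b * x * (a * b)⁻¹ = a * (b * x * b⁻¹) * a⁻¹ := by group
          rw [e]
          rcases hb with hb | hb <;> rcases ha with ha | ha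
          · left; rw [hb, ha]
          · right; rw [hb, ha]
          · right
            rw [hb]
            have : a * x⁻¹ * a⁻¹ = (a * x * a⁻¹)⁻¹ := by group
            rw [this, ha]
          · left
            rw [hb]
            have : a * x⁻¹ * a⁻¹ = (a * x * a⁻¹)⁻¹ := by group
            rw [this, ha, inv_inv]
        inv_mem' := by
          intro a ha
          simp only [Set.mem_ofPred_eq] at ha ⊢
          rcases ha with ha | ha
          · left
            rw [inv_inv]
            nth_rewrite 1 [← ha]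
            group
          · right
            rw [inv_inv]
            have h5 : x = a⁻¹ * x⁻¹ * a := by rw [← ha]; group
            have h6 : x⁻¹ = a⁻¹ * x * a := by
              conv_lhs => rw [h5]
              group
            exact h6.symm }
    have hCE : Subgroup.centralizer ({x} : Set G) ≤ E := by
      intro g hg
      rw [Subgroup.mem_centralizer_singleton_iff] at hg
      left
      show g * x * g⁻¹ = x
      rw [hg, mul_inv_cancel_right]
    have hmemC : ∀ g : G, g ∈ Subgroup.centralizer ({x} : Set G) ↔ g * x * g⁻¹ = x := by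
      intro g
      rw [Subgroup.mem_centralizer_singleton_iff]
      constructor
      · intro h; rw [h, mul_inv_cancel_right]
      · intro h
        calc g * x = (g * x * g⁻¹) * g := by group
          _ = x * g := by rw [h]
    have hrel : (Subgroup.centralizer ({x} : Set G)).relIndex E = 2 := by
      rw [Subgroup.relIndex, Subgroup.index_eq_two_iff]
      refine ⟨⟨t, Or.inr ht⟩, ?_⟩
      rintro ⟨b, hb⟩
      simp only [Subgroup.mem_subgroupOf, Subgroup.coe_mul, hmemC]
      have e : b * t * x * (b * t)⁻¹ = b * (t * x * t⁻¹) * b⁻¹ := by group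
      rw [e, ht]
      have e2 : b * x⁻¹ * b⁻¹ = (b * x * b⁻¹)⁻¹ := by group
      rw [e2]
      rcases hb with hb | hb
      · rw [hb]
        exact Or.inr ⟨rfl, fun h => hne h.symm⟩
      · rw [hb, inv_inv]
        exact Or.inl ⟨rfl, fun h => hne h.symm⟩
    have := Subgroup.relIndex_mul_index hCE
    rw [hrel] at this
    rw [← this] at hodd
    exact (Nat.not_even_iff_odd.mpr hodd) (even_two_mul _)
  · intro N _ hN
    have hQ : ∀ a : G ⧸ N, ∀ n : ℕ, orderOf a ∣ 2 ^ n → a = 1 := by
      intro a n ha
      have h2 : orderOf a ∣ N.index := by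
        rw [Subgroup.index_eq_card]
        exact orderOf_dvd_natCard a
      have h3 : Nat.Coprime (2 ^ n) N.index := Nat.Coprime.pow_left n hN.coprime_two_left
      exact orderOf_eq_one_iff.mp (Nat.eq_one_of_dvd_coprimes h3 ha h2)
    have htN : t ∈ N := by
      rw [← QuotientGroup.eq_one_iff]
      apply hQ _ j
      rw [← hj]
      exact orderOf_map_dvd (QuotientGroup.mk' N) t
    have hxN : x ∈ N := by
      rw [← QuotientGroup.eq_one_iff]
      apply hQ _ 1
      apply orderOf_dvd_of_pow_eq_one
      have h4 : ((t * x * t⁻¹ : G) : G ⧸ N) = ((x⁻¹ : G) : G ⧸ N) := by rw [ht]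
      rw [QuotientGroup.mk_mul, QuotientGroup.mk_mul, QuotientGroup.mk_inv,
        (QuotientGroup.eq_one_iff t).mpr htN, one_mul, inv_one, mul_one, QuotientGroup.mk_inv] at h4
      rw [pow_one, pow_two]
      nth_rewrite 2 [h4]
      exact mul_inv_cancel _
    refine ⟨hxN, isConj_iff.mpr ⟨⟨t, htN⟩, ?_⟩⟩
    apply Subtype.ext
    simpa using ht

end Cfsg.Agent.S3863
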