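import Mathlib
import Cfsg.Statements.S3866

set_option autoImplicit false
open Cfsg

namespace Cfsg.Agent.S3866

open scoped commutatorElement

/-- Let A be a commutative normal subgroup of the finite group G with G generated by A and an element x. Then a ↦ x a x⁻¹ a⁻¹ is a surjective homomorphism from A onto the commutator subgroup of G whose kernel is the centralizer of x in A; in particular the commutator subgroup has order equal to the index in A of that centralizer. -/
theorem result {G : Type*} [Group G] [Finite G] (A : Subgroup G) [A.Normal] (hA : IsMulCommutative A) (x : G) (hgen : A ⊔ Subgroup.zpowers x = ⊤) : (∀ a ∈ A, x * a * x⁻¹ * a⁻¹ ∈ commutator G) ∧ (∀ c ∈ commutator G, ∃ a ∈ A, x * a * x⁻¹ * a⁻¹ = c) ∧ (∀ a ∈ A, ∀ b ∈ A, x * (a * b) * x⁻¹ * (a * b)⁻¹ = (x * a * x⁻¹ * a⁻¹) * (x * b * x⁻¹ * b⁻¹)) ∧ Nat.card (commutator G) * Nat.card ↥(A ⊓ Subgroup.centralizer ({x} : Set G)) = Nat.card A := by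
  have hcomm : ∀ a ∈ A, ∀ b ∈ A, a * b = b * a := fun a ha b hb => setLike_mul_comm ha hb
  have hxA : ∀ a ∈ A, x * a * x⁻¹ ∈ A := fun a ha => ‹A.Normal›.conj_mem a ha x
  have hxA' : ∀ a ∈ A, x⁻¹ * a * x ∈ A := fun a ha => by
    simpa using ‹A.Normal›.conj_mem a ha x⁻¹
  have hcA : ∀ a ∈ A, x * a * x⁻¹ * a⁻¹ ∈ A := fun a ha => A.mul_mem (hxA a ha) (A.inv_mem ha)
  have h1 : ∀ a ∈ A, x * a * x⁻¹ * a⁻¹ ∈ commutator G := by
    intro a _
    rw [commutator_def, ← commutatorElement_def]
    exact Subgroup.commutator_mem_commutator (Subgroup.mem_top x) (Subgroup.mem_top a)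
  have h3 : ∀ a ∈ A, ∀ b ∈ A, x * (a * b) * x⁻¹ * (a * b)⁻¹ =
      (x * a * x⁻¹ * a⁻¹) * (x * b * x⁻¹ * b⁻¹) := by
    intro a ha b hb
    have h := hcomm a⁻¹ (A.inv_mem ha) (x * b * x⁻¹ * b⁻¹) (hcA b hb)
    calc x * (a * b) * x⁻¹ * (a * b)⁻¹ = x * a * x⁻¹ * ((x * b * x⁻¹ * b⁻¹) * a⁻¹) := by group
      _ = x * a * x⁻¹ * (a⁻¹ * (x * b * x⁻¹ * b⁻¹)) := by rw [h]
      _ = _ := by group
  -- the homomorphism
  let φ : A →* G :=
    { toFun := fun a => x * (a : G) * x⁻¹ * (a : G)⁻¹
      map_one' := by simp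
      map_mul' := fun a b => by simpa using h3 a a.2 b b.2 }
  have hφ : ∀ a : A, φ a = x * (a : G) * x⁻¹ * (a : G)⁻¹ := fun a => rfl
  have hKA : φ.range ≤ A := by
    rintro _ ⟨a, rfl⟩
    exact hcA a a.2
  -- the image is normal
  have hxK : ∀ h : G, h ∈ φ.range → x * h * x⁻¹ ∈ φ.range := by
    rintro _ ⟨a, rfl⟩
    refine ⟨⟨x * a * x⁻¹, hxA a a.2⟩, ?_⟩
    rw [hφ, hφ]
    simp only
    group
  have hxK' : ∀ h : G, h ∈ φ.range → x⁻¹ * h * x ∈ φ.range := by
    rintro _ ⟨a, rfl⟩
    refine ⟨⟨x⁻¹ * a * x, hxA' a a.2⟩, ?_⟩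
    rw [hφ, hφ]
    simp only
    group
  have hnorm : φ.range.Normal := by
    rw [← Subgroup.normalizer_eq_top_iff, eq_top_iff, ← hgen]
    refine sup_le ?_ ?_
    · intro a ha
      rw [Subgroup.mem_normalizer_iff]
      intro h
      constructor
      · intro hh
        have : a * h * a⁻¹ = h := by
          rw [hcomm a ha h (hKA hh)]; group
        rwa [this]
      · intro hh
        have hhA : h ∈ A := by
          have := A.mul_mem (A.mul_mem (A.inv_mem ha) (hKA hh)) ha
          simpa [mul_assoc] using this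
        have : a * h * a⁻¹ = h := by
          rw [hcomm a ha h hhA]; group
        rwa [this] at hh
    · rw [Subgroup.zpowers_le, Subgroup.mem_normalizer_iff]
      intro h
      refine ⟨hxK h, fun hh => ?_⟩
      have := hxK' _ hh
      simpa [mul_assoc] using this
  -- the quotient by the image is commutative
  have hle : commutator G ≤ φ.range := by
    rw [commutator_def, Subgroup.commutator_le]
    intro g _ h _
    let π := QuotientGroup.mk' φ.range
    have hπ : Function.Surjective π := QuotientGroup.mk'_surjective _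
    let k : Set (G ⧸ φ.range) := π '' ((A : Set G) ∪ {x})
    have hk : ∀ u ∈ k, ∀ v ∈ k, u * v = v * u := by
      rintro _ ⟨s, hs, rfl⟩ _ ⟨t, ht, rfl⟩
      rcases hs with hs | hs <;> rcases ht with ht | ht
      · rw [← map_mul, ← map_mul, hcomm s hs t ht]
      · rw [Set.mem_singleton_iff] at ht
        subst ht
        -- t * s = s * t mod range, since t s t⁻¹ s⁻¹ ∈ range
        have hmem : t * s * t⁻¹ * s⁻¹ ∈ φ.range := ⟨⟨s, hs⟩, rfl⟩
        have h1' : π (t * s * t⁻¹ * s⁻¹) = 1 := (QuotientGroup.eq_one_iff _).mpr hmem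
        have h2' : π (t * s) = π (t * s * t⁻¹ * s⁻¹) * π (s * t) := by
          rw [← map_mul]; congr 1; group
        rw [← map_mul, ← map_mul, h2', h1', one_mul]
      · rw [Set.mem_singleton_iff] at hs
        subst hs
        have hmem : s * t * s⁻¹ * t⁻¹ ∈ φ.range := ⟨⟨t, ht⟩, rfl⟩
        have h1' : π (s * t * s⁻¹ * t⁻¹) = 1 := (QuotientGroup.eq_one_iff _).mpr hmem
        have h2' : π (s * t) = π (s * t * s⁻¹ * t⁻¹) * π (t * s) := by
          rw [← map_mul]; congr 1; group
        rw [← map_mul, ← map_mul, h2', h1', one_mul]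
      · rw [Set.mem_singleton_iff] at hs ht
        subst hs; subst ht; rfl
    have hcl : Subgroup.closure k = ⊤ := by
      have h1' : Subgroup.closure ((A : Set G) ∪ {x}) = ⊤ := by
        rw [Subgroup.closure_union, Subgroup.closure_eq, ← Subgroup.zpowers_eq_closure, hgen]
      have h2' : Subgroup.closure k = (Subgroup.closure ((A : Set G) ∪ {x})).map π := by
        rw [MonoidHom.map_closure]
      rw [h2', h1', Subgroup.map_top_of_surjective π hπ]
    have hc : IsMulCommutative (Subgroup.closure k) := Subgroup.isMulCommutative_closure hk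
    have hall : ∀ u v : G ⧸ φ.range, u * v = v * u := by
      intro u v
      have hu : u ∈ Subgroup.closure k := by rw [hcl]; trivial
      have hv : v ∈ Subgroup.closure k := by rw [hcl]; trivial
      exact setLike_mul_comm hu hv
    rw [← QuotientGroup.eq_one_iff]
    have : ((⁅g, h⁆ : G) : G ⧸ φ.range) = π g * π h * (π g)⁻¹ * (π h)⁻¹ := by
      rw [commutatorElement_def]; rfl
    rw [this, hall (π g) (π h)]
    group
  have heq : commutator G = φ.range := by
    refine le_antisymm hle ?_
    rintro _ ⟨a, rfl⟩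
    exact h1 a a.2
  refine ⟨h1, ?_, h3, ?_⟩
  · intro c hc
    obtain ⟨a, rfl⟩ := hle hc
    exact ⟨a, a.2, rfl⟩
  · -- cardinalities
    have hker : Nat.card φ.ker = Nat.card ↥(A ⊓ Subgroup.centralizer ({x} : Set G)) := by
      have hmap : φ.ker.map A.subtype = A ⊓ Subgroup.centralizer ({x} : Set G) := by
        ext g
        simp only [Subgroup.mem_map, MonoidHom.mem_ker, Subgroup.mem_inf,
          Subgroup.mem_centralizer_singleton_iff]
        constructor
        · rintro ⟨a, ha, rfl⟩
          refine ⟨a.2, ?_⟩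
          rw [hφ] at ha
          have : x * (a : G) = (a : G) * x := by
            calc x * (a : G) = (x * (a : G) * x⁻¹ * (a : G)⁻¹) * ((a : G) * x) := by group
              _ = (a : G) * x := by rw [ha, one_mul]
          simpa using this.symm
        · rintro ⟨hgA, hgx⟩
          refine ⟨⟨g, hgA⟩, ?_, rfl⟩
          rw [hφ]
          simp only
          rw [← hgx]; group
      rw [← hmap]
      exact Nat.card_congr (φ.ker.equivMapOfInjective A.subtype A.subtype_injective).toEquiv
    rw [heq, ← hker, ← Subgroup.index_ker, mul_comm]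
    exact Subgroup.card_mul_index φ.ker

end Cfsg.Agent.S3866
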