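import Cfsg.Statements.S3867
import Cfsg.Agent.H75.SylowQuot

set_option autoImplicit false
open Cfsg

namespace Cfsg.Agent.S3867

/-- Let M and N be nontrivial normal subgroups of the finite group G with M ⊓ N trivial, and let p be a prime. Writing n(X) for the number of Sylow p-subgroups of a group X, one has n(G) · n(G/MN) = n(G/M) · n(G/N). -/
theorem result {G : Type*} [Group G] [Finite G] (p : ℕ) [Fact p.Prime] (M N : Subgroup G) [M.Normal] [N.Normal] (hM : M ≠ ⊥) (hN : N ≠ ⊥) (hMN : M ⊓ N = ⊥) : Nat.card (Sylow p G) * Nat.card (Sylow p (G ⧸ (M ⊔ N))) = Nat.card (Sylow p (G ⧸ M)) * Nat.card (Sylow p (G ⧸ N)) := by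
  obtain ⟨P⟩ : Nonempty (Sylow p G) := inferInstance
  have hn : Nat.card (Sylow p G) = (Subgroup.normalizer ((P : Subgroup G) : Set G)).index :=
    Sylow.card_eq_index_normalizer P
  rw [hn, Cfsg.Agent.H75.card_sylow_quotient P (M ⊔ N), Cfsg.Agent.H75.card_sylow_quotient P M,
    Cfsg.Agent.H75.card_sylow_quotient P N]
  generalize hA : Subgroup.normalizer ((P : Subgroup G) : Set G) = A
  have hle : (A ⊔ M) ⊓ N ≤ A := by
    rw [← hA]; exact Cfsg.Agent.H75.sup_inf_le_normalizer P M N hMN
  have e1 := Cfsg.Agent.H75.card_sup_mul_card_inf (A ⊔ M) N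
  have e2 := Cfsg.Agent.H75.card_sup_mul_card_inf A N
  have e3 : (A ⊔ M) ⊓ N = A ⊓ N :=
    le_antisymm (le_inf hle inf_le_right) (inf_le_inf_right N le_sup_left)
  rw [e3, sup_assoc] at e1
  have i1 := Subgroup.card_mul_index A
  have i2 := Subgroup.card_mul_index (A ⊔ M)
  have i3 := Subgroup.card_mul_index (A ⊔ N)
  have i4 := Subgroup.card_mul_index (A ⊔ (M ⊔ N))
  have hc : 0 < Nat.card (A ⊓ N : Subgroup G) := Nat.card_pos
  have ha : 0 < Nat.card A := Nat.card_pos
  have hl : 0 < Nat.card (A ⊔ (M ⊔ N) : Subgroup G) := Nat.card_pos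
  generalize Nat.card A = a at *
  generalize Nat.card (A ⊔ M : Subgroup G) = h at *
  generalize Nat.card (A ⊔ N : Subgroup G) = k at *
  generalize Nat.card (A ⊔ (M ⊔ N) : Subgroup G) = l at *
  generalize Nat.card (A ⊓ N : Subgroup G) = c at *
  generalize Nat.card N = n at *
  generalize Nat.card G = g at *
  generalize A.index = ia at *
  generalize (A ⊔ M).index = ih at *
  generalize (A ⊔ N).index = ik at *
  generalize (A ⊔ (M ⊔ N)).index = il at *
  have hal : a * l = h * k := by
    have h1 : a * l * c = h * k * c := by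
      calc a * l * c = a * (l * c) := by ring
        _ = a * (h * n) := by rw [e1]
        _ = h * (a * n) := by ring
        _ = h * (k * c) := by rw [e2]
        _ = h * k * c := by ring
    exact Nat.eq_of_mul_eq_mul_right hc h1
  have h2 : a * l * (ia * il) = a * l * (ih * ik) := by
    calc a * l * (ia * il) = (a * ia) * (l * il) := by ring
      _ = (h * ih) * (k * ik) := by rw [i1, i4, i2, i3]
      _ = h * k * (ih * ik) := by ring
      _ = a * l * (ih * ik) := by rw [hal]
  exact Nat.eq_of_mul_eq_mul_left (Nat.mul_pos ha hl) h2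

end Cfsg.Agent.S3867
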