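import Mathlib
import Cfsg.Statements.S3878
import Cfsg.Agent.H68.HallSym

set_option autoImplicit false
open Cfsg

namespace Cfsg.Agent.S3878

open Cfsg.Agent.H68 Equiv

/-- `D_π` implies `E_π` for finite groups. -/
theorem isEPiGroup_of_isDPiGroup (π : Set ℕ) {G : Type*} [Group G] [Finite G]
    (h : IsDPiGroup π G) : IsEPiGroup π G := by
  have hbot : IsPiSubgroup π (⊥ : Subgroup G) := by
    intro p hp hd
    rw [Subgroup.card_bot] at hd
    exact absurd (Nat.dvd_one.mp hd) hp.ne_one
  obtain ⟨H, -, hH⟩ := Finite.exists_le_maximal hbot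
  refine ⟨H, hH.1, ?_⟩
  intro p hp hpπ hd
  have : Fact p.Prime := ⟨hp⟩
  obtain ⟨P⟩ : Nonempty (Sylow p G) := inferInstance
  have hP : IsPiSubgroup π (P : Subgroup G) := by
    intro s hs hsd
    obtain ⟨n, hn⟩ := IsPGroup.iff_card.mp P.isPGroup'
    rw [hn] at hsd
    have := (Nat.prime_dvd_prime_iff_eq hs hp).mp (hs.dvd_of_dvd_pow hsd)
    rw [this]
    exact hpπ
  obtain ⟨K, hPK, hK⟩ := Finite.exists_le_maximal hP
  obtain ⟨g, hg⟩ := h H K hH hK
  have hidx : K.index = H.index := by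
    rw [hg]
    exact Subgroup.index_map_of_bijective (MulAut.conj g).bijective H
  have h1 : ¬ p ∣ K.index := fun hd' =>
    P.not_dvd_index (hd'.trans (Subgroup.index_dvd_of_le hPK))
  rw [hidx] at h1
  exact h1 hd

/-- If `π` has at most one prime or all primes then every finite group has a Hall
`π`-subgroup. -/
theorem isEPiGroup_of_trivial (π : Set ℕ)
    (hπ : (∀ p q : ℕ, p.Prime → q.Prime → p ∈ π → q ∈ π → p = q) ∨ ∀ p : ℕ, p.Prime → p ∈ π)
    {G : Type*} [Group G] [Finite G] : IsEPiGroup π G := by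
  rcases hπ with h | h
  · by_cases hex : ∃ p, p.Prime ∧ p ∈ π
    · obtain ⟨p, hp, hpπ⟩ := hex
      have : Fact p.Prime := ⟨hp⟩
      obtain ⟨P⟩ : Nonempty (Sylow p G) := inferInstance
      refine ⟨P, ?_, ?_⟩
      · intro s hs hsd
        obtain ⟨n, hn⟩ := IsPGroup.iff_card.mp P.isPGroup'
        rw [hn] at hsd
        have := (Nat.prime_dvd_prime_iff_eq hs hp).mp (hs.dvd_of_dvd_pow hsd)
        rw [this]
        exact hpπ
      · intro s hs hsπ
        rw [h s p hs hp hsπ hpπ]
        exact P.not_dvd_index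
    · push Not at hex
      refine ⟨⊥, ?_, ?_⟩
      · intro p hp hd
        rw [Subgroup.card_bot] at hd
        exact absurd (Nat.dvd_one.mp hd) hp.ne_one
      · intro p hp hpπ
        exact absurd hpπ (hex p hp)
  · refine ⟨⊤, fun p hp _ => h p hp, ?_⟩
    intro p hp _ hd
    rw [Subgroup.index_top] at hd
    exact hp.ne_one (Nat.dvd_one.mp hd)

/-- If `π` has at most one prime or all primes then every finite group satisfies `D_π`. -/
theorem isDPiGroup_of_trivial (π : Set ℕ)
    (hπ : (∀ p q : ℕ, p.Prime → q.Prime → p ∈ π → q ∈ π → p = q) ∨ ∀ p : ℕ, p.Prime → p ∈ π)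
    {G : Type*} [Group G] [Finite G] : IsDPiGroup π G := by
  intro H K hH hK
  rcases hπ with h | h
  · by_cases hex : ∃ p, p.Prime ∧ p ∈ π
    · obtain ⟨p, hp, hpπ⟩ := hex
      have : Fact p.Prime := ⟨hp⟩
      have key : ∀ L : Subgroup G, IsPiSubgroup π L ↔ IsPGroup p L := by
        intro L
        constructor
        · intro hL
          rw [IsPGroup.iff_card]
          refine ⟨(Nat.card L).primeFactorsList.length,
            Nat.eq_prime_pow_of_unique_prime_dvd Nat.card_pos.ne' ?_⟩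
          intro d hd hdd
          exact h d p hd hp (hL d hd hdd) hpπ
        · intro hL s hs hsd
          obtain ⟨n, hn⟩ := IsPGroup.iff_card.mp hL
          rw [hn] at hsd
          have := (Nat.prime_dvd_prime_iff_eq hs hp).mp (hs.dvd_of_dvd_pow hsd)
          rw [this]
          exact hpπ
      let P : Sylow p G := ⟨H, (key H).mp hH.1, fun {Q} hQ hHQ =>
        le_antisymm (hH.2 ((key Q).mpr hQ) hHQ) hHQ⟩
      let P' : Sylow p G := ⟨K, (key K).mp hK.1, fun {Q} hQ hKQ =>
        le_antisymm (hK.2 ((key Q).mpr hQ) hKQ) hKQ⟩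
      obtain ⟨g, hg⟩ := MulAction.exists_smul_eq G P P'
      refine ⟨g, ?_⟩
      have hK' : K = ((g • P : Sylow p G) : Subgroup G) := by rw [hg]
      rw [hK']
      ext x
      rw [Sylow.coe_subgroup_smul, Subgroup.mem_smul_pointwise_iff_exists, Subgroup.mem_map]
      rfl
    · push Not at hex
      have key : ∀ L : Subgroup G, IsPiSubgroup π L → L = ⊥ := by
        intro L hL
        rw [← Subgroup.card_eq_one]
        by_contra hne
        obtain ⟨p, hp, hpd⟩ := Nat.exists_prime_and_dvd hne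
        exact hex p hp (hL p hp hpd)
      refine ⟨1, ?_⟩
      rw [key H hH.1, key K hK.1, Subgroup.map_bot]
  · have key : ∀ L : Subgroup G, Maximal (IsPiSubgroup π) L → L = ⊤ := by
      intro L hL
      exact top_le_iff.mp (hL.2 (fun p hp _ => h p hp) le_top)
    refine ⟨1, ?_⟩
    rw [key H hH, key K hK, ← MonoidHom.range_eq_map]
    symm
    rw [MonoidHom.range_eq_top]
    exact (MulAut.conj (1 : G)).surjective

/-- If every finite group has a Hall `π`-subgroup then `π` has at most one prime or all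
primes. -/
theorem trivial_of_forall_isEPiGroup (π : Set ℕ)
    (hE : ∀ (G : Type) [Group G] [Finite G], IsEPiGroup π G) :
    (∀ p q : ℕ, p.Prime → q.Prime → p ∈ π → q ∈ π → p = q) ∨ ∀ p : ℕ, p.Prime → p ∈ π := by
  by_contra hcon
  push Not at hcon
  obtain ⟨⟨p, q, hp, hq, hpπ, hqπ, hpq⟩, ⟨r₀, hr₀, hr₀π⟩⟩ := hcon
  -- Step 1: `2 ∈ π`
  have h2 : 2 ∈ π := by
    by_contra h2
    have main : ∀ p q : ℕ, p.Prime → q.Prime → p ∈ π → q ∈ π → p < q → False := by
      intro p q hp hq hpπ hqπ hlt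
      have : Fact p.Prime := ⟨hp⟩
      have : Fact q.Prime := ⟨hq⟩
      obtain ⟨H, hH1, hH2⟩ := hE (Perm (Fin q))
      exact h2 (hH1 2 Nat.prime_two
        (two_dvd_card_of_cycles hlt H (hH2 q hq hqπ) (hH2 p hp hpπ)))
    rcases lt_or_gt_of_ne hpq with h | h
    · exact main p q hp hq hpπ hqπ h
    · exact main q p hq hp hqπ hpπ h
  -- Step 2: for a prime `q ∈ π`, all primes up to `q` are in `π`
  have step2 : ∀ q : ℕ, q.Prime → q ∈ π → ∀ s : ℕ, s.Prime → s ≤ q → s ∈ π := by
    intro q hq hqπ s hs hsq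
    have : Fact q.Prime := ⟨hq⟩
    obtain ⟨H, hH1, hH2⟩ := hE (Perm (Fin q))
    have htop : H = ⊤ := eq_top_of_cycle_swap H (hH2 q hq hqπ) (hH2 2 Nat.prime_two h2)
    apply hH1 s hs
    rw [htop, Subgroup.card_top, Nat.card_perm, Nat.card_fin]
    exact (hs.dvd_factorial).mpr hsq
  -- Step 3: the smallest missing prime
  have hex : ∃ r, r.Prime ∧ r ∉ π := ⟨r₀, hr₀, hr₀π⟩
  classical
  obtain ⟨r, ⟨hr, hrπ⟩, hmin'⟩ : ∃ r, (r.Prime ∧ r ∉ π) ∧ ∀ s, s < r → ¬ (s.Prime ∧ s ∉ π) :=
    ⟨Nat.find hex, Nat.find_spec hex, fun s hs => Nat.find_min hex hs⟩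
  have hmin : ∀ s : ℕ, s.Prime → s < r → s ∈ π := by
    intro s hs hsr
    by_contra hsπ
    exact hmin' s hsr ⟨hs, hsπ⟩
  have h3 : 3 ∈ π := by
    have : ∃ q, q.Prime ∧ q ∈ π ∧ 3 ≤ q := by
      by_cases hp2 : p = 2
      · refine ⟨q, hq, hqπ, ?_⟩
        have := hq.two_le
        have : q ≠ 2 := fun h => hpq (by rw [hp2, h])
        omega
      · exact ⟨p, hp, hpπ, by have := hp.two_le; omega⟩
    obtain ⟨q', hq', hq'π, hq'3⟩ := this
    exact step2 q' hq' hq'π 3 Nat.prime_three hq'3
  have hr5 : 5 ≤ r := by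
    have h2' : r ≠ 2 := fun h => hrπ (h ▸ h2)
    have h3' : r ≠ 3 := fun h => hrπ (h ▸ h3)
    have h4' : r ≠ 4 := fun h => by
      rw [h] at hr
      norm_num at hr
    have := hr.two_le
    omega
  obtain ⟨H, hH1, hH2⟩ := hE (Perm (Fin (r + 1)))
  have hcard : Nat.card H * H.index = (r + 1).factorial := by
    rw [Subgroup.card_mul_index, Nat.card_perm, Nat.card_fin]
  have hidx0 : H.index ≠ 0 := Subgroup.index_ne_zero_of_finite
  have hr_dvd : r ∣ H.index := by
    have h1 : r ∣ Nat.card H * H.index := by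
      rw [hcard]
      exact hr.dvd_factorial.mpr (by omega)
    rcases hr.dvd_mul.mp h1 with h | h
    · exact absurd (hH1 r hr h) hrπ
    · exact h
  have hr1_not_prime : ¬ (r + 1).Prime := by
    intro h
    have hodd : ¬ 2 ∣ r := fun h2r => by
      have := (Nat.prime_dvd_prime_iff_eq Nat.prime_two hr).mp h2r
      omega
    have heven : 2 ∣ r + 1 := by omega
    have := (Nat.prime_dvd_prime_iff_eq Nat.prime_two h).mp heven
    omega
  have hprime_idx : ∀ {d : ℕ}, d.Prime → d ∣ H.index → d = r := by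
    intro d hd hdd
    have hdπ : d ∉ π := fun hdπ => hH2 d hd hdπ hdd
    have hdle : d ≤ r + 1 := by
      apply hd.dvd_factorial.mp
      rw [← hcard]
      exact hdd.mul_left _
    have hne : d ≠ r + 1 := fun h => hr1_not_prime (h ▸ hd)
    have hge : ¬ d < r := fun h => hdπ (hmin d hd h)
    omega
  have hpow := Nat.eq_prime_pow_of_unique_prime_dvd hidx0 hprime_idx
  rcases index_le_two_or_le_index (by omega : 5 ≤ r + 1) H with hle | hge
  · have := Nat.le_of_dvd (Nat.pos_of_ne_zero hidx0) hr_dvd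
    omega
  · have hk2 : 2 ≤ H.index.primeFactorsList.length := by
      by_contra hlt
      push Not at hlt
      have hk : H.index.primeFactorsList.length = 0 ∨ H.index.primeFactorsList.length = 1 := by
        omega
      rcases hk with hk | hk
      · rw [hk, pow_zero] at hpow
        omega
      · rw [hk, pow_one] at hpow
        omega
    have hr2 : r ^ 2 ∣ (r + 1).factorial := by
      rw [← hcard, hpow]
      exact (pow_dvd_pow r hk2).trans (dvd_mul_left _ _)
    have e : (r + 1).factorial = r * ((r + 1) * (r - 1).factorial) := by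
      obtain ⟨m, rfl⟩ : ∃ m, r = m + 1 := ⟨r - 1, by omega⟩
      simp [Nat.factorial_succ]
      ring
    rw [e, pow_two] at hr2
    have h4 : r ∣ (r + 1) * (r - 1).factorial := Nat.dvd_of_mul_dvd_mul_left hr.pos hr2
    rcases hr.dvd_mul.mp h4 with h | h
    · have : r ∣ 1 := (Nat.dvd_add_right (dvd_refl r)).mp h
      exact hr.ne_one (Nat.dvd_one.mp this)
    · have := hr.dvd_factorial.mp h
      omega

/-- For a set of primes π the following are equivalent: every finite group has a Hall π-subgroup; in every finite group the maximal π-subgroups are pairwise conjugate; π contains at most one prime or contains every prime. -/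
theorem result (π : Set ℕ) :
    ((∀ (G : Type) [Group G] [Finite G], Cfsg.IsEPiGroup π G) ↔
      ((∀ p q : ℕ, p.Prime → q.Prime → p ∈ π → q ∈ π → p = q) ∨ ∀ p : ℕ, p.Prime → p ∈ π)) ∧
    ((∀ (G : Type) [Group G] [Finite G], Cfsg.IsDPiGroup π G) ↔
      ((∀ p q : ℕ, p.Prime → q.Prime → p ∈ π → q ∈ π → p = q) ∨ ∀ p : ℕ, p.Prime → p ∈ π)) := by
  refine ⟨⟨trivial_of_forall_isEPiGroup π, fun h G _ _ => isEPiGroup_of_trivial π h⟩,
    ⟨fun hD => trivial_of_forall_isEPiGroup π
      (fun G _ _ => isEPiGroup_of_isDPiGroup π (hD G)),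
      fun h G _ _ => isDPiGroup_of_trivial π h⟩⟩

end Cfsg.Agent.S3878
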