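import Mathlib
import Cfsg.Statements.S3879

set_option autoImplicit false
open Cfsg

namespace Cfsg.Agent.S3879

open scoped commutatorElement

theorem lte_aux {p : ℕ} [Fact p.Prime] (hp1 : Odd p) {ρ : ℕ} (hρ : 1 < ρ) (hdvd : p ∣ ρ - 1)
    (j : ℕ) : padicValNat p (ρ ^ p ^ j - 1) = padicValNat p (ρ - 1) + j := by
  have hp : p.Prime := Fact.out
  have hx : ¬ p ∣ ρ := by
    intro h
    have h2 : p ∣ ρ - (ρ - 1) := Nat.dvd_sub h hdvd
    have h3 : ρ - (ρ - 1) = 1 := by omega
    rw [h3] at h2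
    exact hp.one_lt.ne' (Nat.dvd_one.mp h2)
  have h := padicValNat.pow_sub_pow hp1 hρ hdvd hx (n := p ^ j) (pow_ne_zero _ hp.ne_zero)
  rw [one_pow, padicValNat.prime_pow] at h
  exact h

/-- Let p be an odd prime and G a finite metacyclic p-group (G has a cyclic normal subgroup with cyclic quotient). Then the index of the center of G is the square of the order of the derived subgroup: |G : Z(G)| = |G'|². -/
theorem result {G : Type*} [Group G] [Finite G] {p : ℕ} [Fact p.Prime] (hp : p ≠ 2) (hG : IsPGroup p G) (hmc : Cfsg.IsMetacyclic G) : (Subgroup.center G).index = Nat.card ↥(commutator G) ^ 2 := by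
  classical
  have hpp : p.Prime := Fact.out
  have hodd : Odd p := hpp.odd_of_ne_two hp
  obtain ⟨N, hNn, hNc, hQc⟩ := hmc
  -- a generator `a` of `N`
  obtain ⟨a', ha'⟩ := hNc.exists_generator
  set a : G := (a' : G) with ha
  have haN : a ∈ N := a'.2
  have hNa : ∀ x ∈ N, ∃ i : ℕ, x = a ^ i := by
    intro x hx
    have h1 := ha' ⟨x, hx⟩
    rw [← mem_powers_iff_mem_zpowers] at h1
    obtain ⟨i, hi⟩ := h1
    have hi' : a' ^ i = ⟨x, hx⟩ := hi
    exact ⟨i, by have := congrArg Subtype.val hi'; simpa using this.symm⟩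
  -- a generator `b N` of `G / N`
  obtain ⟨c, hc⟩ := hQc.exists_generator
  obtain ⟨b, rfl⟩ := QuotientGroup.mk_surjective c
  have hGb : ∀ g : G, ∃ j : ℕ, ∃ x ∈ N, g = b ^ j * x := by
    intro g
    have h1 := hc (g : G ⧸ N)
    rw [← mem_powers_iff_mem_zpowers] at h1
    obtain ⟨j, hj⟩ := h1
    have hj' : (b : G ⧸ N) ^ j = (g : G ⧸ N) := hj
    have h2 : ((b ^ j : G) : G ⧸ N) = (g : G ⧸ N) := by rw [← hj']; rfl
    exact ⟨j, (b ^ j)⁻¹ * g, QuotientGroup.eq.mp h2, by group⟩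
  -- the exponent `ρ`
  obtain ⟨ρ, hρ1, hρ⟩ : ∃ ρ : ℕ, 1 < ρ ∧ b * a * b⁻¹ = a ^ ρ := by
    obtain ⟨k, hk⟩ := hNa (b * a * b⁻¹) (hNn.conj_mem a haN b)
    refine ⟨k + orderOf a * 2, ?_, ?_⟩
    · have := orderOf_pos a; omega
    · rw [pow_add, pow_mul, pow_orderOf_eq_one, one_pow, mul_one]; exact hk
  set d := ρ - 1 with hd
  have hd0 : d ≠ 0 := by omega
  have hρd : ρ = d + 1 := by omega
  have hbx : ∀ x ∈ N, b * x * b⁻¹ = x ^ ρ := by
    intro x hx
    obtain ⟨i, rfl⟩ := hNa x hx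
    rw [← conj_pow, hρ, ← pow_mul, ← pow_mul, mul_comm]
  have hNcomm : ∀ x ∈ N, ∀ y ∈ N, x * y = y * x := by
    intro x hx y hy
    obtain ⟨i, rfl⟩ := hNa x hx
    obtain ⟨k, rfl⟩ := hNa y hy
    rw [← pow_add, ← pow_add, add_comm]
  have hbj : ∀ j : ℕ, b ^ j * a * (b ^ j)⁻¹ = a ^ ρ ^ j := by
    intro j
    induction j with
    | zero => simp
    | succ j ih =>
      have e : b ^ (j + 1) * a * (b ^ (j + 1))⁻¹ = b * (b ^ j * a * (b ^ j)⁻¹) * b⁻¹ := by
        rw [pow_succ']; group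
      rw [e, ih, ← conj_pow, hρ, ← pow_mul, pow_succ, mul_comm]
  -- the subgroup `D`
  set D : Subgroup G := Subgroup.zpowers (a ^ d) with hD
  have hDN : D ≤ N := by rw [hD, Subgroup.zpowers_le]; exact N.pow_mem haN d
  have hxd : ∀ x ∈ N, x ^ d ∈ D := by
    intro x hx
    obtain ⟨i, rfl⟩ := hNa x hx
    rw [← pow_mul, mul_comm, pow_mul]
    exact Subgroup.pow_mem _ (Subgroup.mem_zpowers _) i
  have hDnormal : D.Normal := by
    refine ⟨fun h hh g => ?_⟩
    obtain ⟨k, rfl⟩ := Subgroup.mem_zpowers_iff.mp hh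
    rw [← conj_zpow, ← conj_pow]
    exact Subgroup.zpow_mem _ (hxd _ (hNn.conj_mem a haN g)) k
  -- `G' = D`
  have hcomm_le : commutator G ≤ D := by
    show ⁅(⊤ : Subgroup G), ⊤⁆ ≤ D
    rw [Subgroup.commutator_le]
    intro g _ h _
    let π := QuotientGroup.mk' D
    have hπb : ∀ x ∈ N, Commute (π b) (π x) := by
      intro x hx
      have h1 : b * x * b⁻¹ * x⁻¹ ∈ D := by
        rw [hbx x hx, hρd, pow_succ]
        have : x ^ d * x * x⁻¹ = x ^ d := by group
        rw [this]; exact hxd x hx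
      have h2 : π (b * x * b⁻¹ * x⁻¹) = 1 := (QuotientGroup.eq_one_iff _).mpr h1
      have h3 : π b * π x * (π b)⁻¹ * (π x)⁻¹ = 1 := by simpa [map_mul, map_inv] using h2
      show π b * π x = π x * π b
      calc π b * π x = (π b * π x * (π b)⁻¹ * (π x)⁻¹) * (π x * π b) := by group
        _ = π x * π b := by rw [h3, one_mul]
    have hπN : ∀ x ∈ N, ∀ y ∈ N, Commute (π x) (π y) := fun x hx y hy => by
      show π x * π y = π y * π x
      rw [← map_mul, ← map_mul, hNcomm x hx y hy]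
    obtain ⟨j, x, hx, rfl⟩ := hGb g
    obtain ⟨k, y, hy, rfl⟩ := hGb h
    have hc : Commute (π (b ^ j * x)) (π (b ^ k * y)) := by
      rw [map_mul, map_mul, map_pow, map_pow]
      exact ((Commute.pow_pow_self (π b) j k).mul_right ((hπb y hy).pow_left j)).mul_left
        (((hπb x hx).pow_left k).symm.mul_right (hπN x hx y hy))
    rw [← QuotientGroup.eq_one_iff (N := D)]
    have key : ∀ u v : G, Commute (π u) (π v) → π ⁅u, v⁆ = 1 := by
      intro u v huv
      rw [commutatorElement_def, map_mul, map_mul, map_mul, map_inv, map_inv, huv.eq]; group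
    exact key _ _ hc
  have hD_le : D ≤ commutator G := by
    rw [hD, Subgroup.zpowers_le]
    have h1 : a ^ d = ⁅b, a⁆ := by
      rw [commutatorElement_def, hρ, hρd, pow_succ]; group
    rw [h1]
    exact Subgroup.commutator_mem_commutator (Subgroup.mem_top b) (Subgroup.mem_top a)
  have hGD : commutator G = D := le_antisymm hcomm_le hD_le
  -- the action on `N`
  let φ : G →* MulAut ↥N := MulAut.conjNormal
  have hφ1 : ∀ g : G, φ g = 1 ↔ g * a * g⁻¹ = a := by
    intro g
    constructor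
    · intro h
      have h1 := congrArg (fun f : MulAut ↥N => ((f a' : ↥N) : G)) h
      simpa [φ, MulAut.conjNormal_apply] using h1
    · intro h
      ext x
      obtain ⟨i, hi⟩ := hNa x x.2
      rw [MulAut.conjNormal_apply, MulAut.one_apply, hi, ← conj_pow, h]
  have hrange : φ.range = Subgroup.zpowers (φ b) := by
    apply le_antisymm
    · rintro _ ⟨g, rfl⟩
      obtain ⟨j, x, hx, rfl⟩ := hGb g
      have hφx : φ x = 1 := (hφ1 x).mpr (by rw [hNcomm x hx a haN]; group)
      rw [map_mul, map_pow, hφx, mul_one]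
      exact Subgroup.pow_mem _ (Subgroup.mem_zpowers _) j
    · rw [Subgroup.zpowers_le]; exact ⟨b, rfl⟩
  have hGA : Nat.card G = Nat.card φ.ker * orderOf (φ b) := by
    rw [← Nat.card_zpowers, ← hrange, ← Subgroup.index_ker, Subgroup.card_mul_index]
  have hφpow : ∀ j : ℕ, (φ b) ^ j = 1 ↔ orderOf a ∣ ρ ^ j - 1 := by
    intro j
    rw [← map_pow, hφ1, hbj]
    have hρj : 1 ≤ ρ ^ j := Nat.one_le_pow _ _ (by omega)
    constructor
    · intro h
      apply orderOf_dvd_of_pow_eq_one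
      have h1 : a ^ (ρ ^ j - 1) * a = 1 * a := by
        rw [← pow_succ, Nat.sub_add_cancel hρj, one_mul]; exact h
      exact mul_right_cancel h1
    · intro h
      have h1 : a ^ (ρ ^ j - 1) = 1 := orderOf_dvd_iff_pow_eq_one.mp h
      calc a ^ ρ ^ j = a ^ (ρ ^ j - 1 + 1) := by rw [Nat.sub_add_cancel hρj]
        _ = a := by rw [pow_succ, h1, one_mul]
  obtain ⟨n, hn⟩ : ∃ n, orderOf a = p ^ n := (IsPGroup.iff_orderOf.mp hG) a
  have hpd : n ≠ 0 → p ∣ d := by
    intro hn0
    obtain ⟨k, hk⟩ := IsPGroup.iff_card.mp hG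
    have h1 : (φ b) ^ p ^ k = 1 := by rw [← map_pow, ← hk, pow_card_eq_one', map_one]
    have h2 := (hφpow (p ^ k)).mp h1
    rw [hn] at h2
    have h3 : p ∣ ρ ^ p ^ k - 1 := (dvd_pow_self p hn0).trans h2
    have h4 : ((ρ ^ p ^ k - 1 : ℕ) : ZMod p) = 0 := (ZMod.natCast_eq_zero_iff _ _).mpr h3
    rw [Nat.cast_sub (Nat.one_le_pow _ _ (by omega)), Nat.cast_pow, ZMod.pow_card_pow,
      Nat.cast_one] at h4
    have h5 : ((ρ - 1 : ℕ) : ZMod p) = 0 := by
      rw [Nat.cast_sub (by omega), Nat.cast_one]; exact h4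
    exact (ZMod.natCast_eq_zero_iff _ _).mp h5
  have hord : orderOf (φ b) = orderOf (a ^ d) := by
    set v := padicValNat p d with hv
    rcases Nat.lt_or_ge v n with hvn | hvn
    · have hn0 : n ≠ 0 := by omega
      have hpd' := hpd hn0
      obtain ⟨e, he⟩ : ∃ e, n = v + (e + 1) := ⟨n - v - 1, by omega⟩
      have hlte : ∀ j, padicValNat p (ρ ^ p ^ j - 1) = v + j :=
        fun j => lte_aux hodd hρ1 hpd' j
      have hne : ∀ j, ρ ^ p ^ j - 1 ≠ 0 := by
        intro j
        have : 1 < ρ ^ p ^ j := Nat.one_lt_pow (pow_ne_zero _ hpp.ne_zero) hρ1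
        omega
      have h1 : orderOf (φ b) = p ^ (e + 1) := by
        apply orderOf_eq_prime_pow
        · rw [hφpow, hn, padicValNat_dvd_iff_le (hne e), hlte]; omega
        · rw [hφpow, hn, padicValNat_dvd_iff_le (hne (e + 1)), hlte]; omega
      have hpe : ∀ j, d * p ^ j ≠ 0 := fun j => Nat.mul_ne_zero hd0 (pow_ne_zero _ hpp.ne_zero)
      have hval : ∀ j, padicValNat p (d * p ^ j) = v + j := by
        intro j
        rw [padicValNat.mul hd0 (pow_ne_zero _ hpp.ne_zero), padicValNat.prime_pow]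
      have h2 : orderOf (a ^ d) = p ^ (e + 1) := by
        apply orderOf_eq_prime_pow
        · rw [← pow_mul, ← orderOf_dvd_iff_pow_eq_one, hn, padicValNat_dvd_iff_le (hpe e), hval]
          omega
        · rw [← pow_mul, ← orderOf_dvd_iff_pow_eq_one, hn,
            padicValNat_dvd_iff_le (hpe (e + 1)), hval]
          omega
      rw [h1, h2]
    · have hdvd : orderOf a ∣ d := by rw [hn]; exact (padicValNat_dvd_iff_le hd0).mpr hvn
      have h1 : φ b = 1 := by
        have h2 := (hφpow 1).mpr (by rw [pow_one]; exact hdvd)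
        rwa [pow_one] at h2
      have h2 : a ^ d = 1 := orderOf_dvd_iff_pow_eq_one.mp hdvd
      rw [h1, h2, orderOf_one, orderOf_one]
  -- the centralizer `A` of `N`
  set A : Subgroup G := φ.ker with hA
  have hAmem : ∀ g : G, g ∈ A ↔ g * a * g⁻¹ = a := fun g => by
    rw [hA, MonoidHom.mem_ker]; exact hφ1 g
  have hNA : N ≤ A := fun x hx => (hAmem x).mpr (by rw [hNcomm x hx a haN]; group)
  have hAcent : ∀ g ∈ A, ∀ x ∈ N, g * x * g⁻¹ = x := by
    intro g hg x hx
    obtain ⟨i, rfl⟩ := hNa x hx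
    rw [← conj_pow, (hAmem g).mp hg]
  have hψval : ∀ g ∈ A, g * b * g⁻¹ * b⁻¹ ∈ D := by
    intro g hg
    obtain ⟨j, x, hx, rfl⟩ := hGb g
    have hbjA : b ^ j ∈ A := by
      have e : b ^ j = (b ^ j * x) * x⁻¹ := by group
      rw [e]; exact A.mul_mem hg (A.inv_mem (hNA hx))
    have h1 : x * b * x⁻¹ * b⁻¹ = (x ^ d)⁻¹ := by
      have h2 : b * x⁻¹ * b⁻¹ = (x⁻¹) ^ ρ := hbx x⁻¹ (N.inv_mem hx)
      calc x * b * x⁻¹ * b⁻¹ = x * (b * x⁻¹ * b⁻¹) := by group
        _ = x * (x⁻¹) ^ ρ := by rw [h2]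
        _ = (x ^ d)⁻¹ := by rw [hρd, pow_succ, inv_pow]; group
    have h3 : (x ^ d)⁻¹ ∈ D := D.inv_mem (hxd x hx)
    have e : b ^ j * x * b * (b ^ j * x)⁻¹ * b⁻¹ =
        b ^ j * (x * b * x⁻¹ * b⁻¹) * (b ^ j)⁻¹ := by
      have hcomm : b * (b ^ j)⁻¹ * b⁻¹ = (b ^ j)⁻¹ := by group
      calc b ^ j * x * b * (b ^ j * x)⁻¹ * b⁻¹
          = b ^ j * (x * b * x⁻¹ * b⁻¹) * (b * (b ^ j)⁻¹ * b⁻¹) := by group
        _ = _ := by rw [hcomm]
    rw [e, h1, hAcent _ hbjA _ (hDN h3)]
    exact h3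
  let ψ : ↥A →* G :=
    { toFun := fun g => (g : G) * b * (g : G)⁻¹ * b⁻¹
      map_one' := by simp
      map_mul' := by
        intro g h
        have hh := hψval h h.2
        have hg := hψval g g.2
        have h1 : (g : G) * ((h : G) * b * (h : G)⁻¹ * b⁻¹) * (g : G)⁻¹ =
            (h : G) * b * (h : G)⁻¹ * b⁻¹ := hAcent g g.2 _ (hDN hh)
        have h2 := hNcomm _ (hDN hh) _ (hDN hg)
        show ((g : G) * (h : G)) * b * ((g : G) * (h : G))⁻¹ * b⁻¹ = _
        calc ((g : G) * (h : G)) * b * ((g : G) * (h : G))⁻¹ * b⁻¹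
            = ((g : G) * ((h : G) * b * (h : G)⁻¹ * b⁻¹) * (g : G)⁻¹) *
                ((g : G) * b * (g : G)⁻¹ * b⁻¹) := by group
          _ = ((h : G) * b * (h : G)⁻¹ * b⁻¹) * ((g : G) * b * (g : G)⁻¹ * b⁻¹) := by rw [h1]
          _ = _ := h2 }
  have hψrange : ψ.range = D := by
    apply le_antisymm
    · rintro _ ⟨g, rfl⟩; exact hψval g g.2
    · rw [hD, Subgroup.zpowers_le]
      refine ⟨⟨a⁻¹, hNA (N.inv_mem haN)⟩, ?_⟩
      show a⁻¹ * b * a⁻¹⁻¹ * b⁻¹ = a ^ d
      calc a⁻¹ * b * a⁻¹⁻¹ * b⁻¹ = a⁻¹ * (b * a * b⁻¹) := by group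
        _ = a ^ d := by rw [hρ, hρd, pow_succ']; group
  have hcenter : ∀ g : G, g ∈ Subgroup.center G ↔ g ∈ A ∧ g * b = b * g := by
    intro g
    rw [Subgroup.mem_center_iff]
    constructor
    · intro h
      refine ⟨(hAmem g).mpr ?_, (h b).symm⟩
      rw [← h a]; group
    · rintro ⟨hgA, hgb⟩ h
      obtain ⟨j, x, hx, rfl⟩ := hGb h
      have h1 : g * x = x * g := by
        have := hAcent g hgA x hx
        calc g * x = (g * x * g⁻¹) * g := by group
          _ = x * g := by rw [this]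
      have h2 : Commute g (b ^ j) := (show Commute g b from hgb).pow_right j
      calc b ^ j * x * g = b ^ j * (x * g) := by group
        _ = b ^ j * (g * x) := by rw [h1]
        _ = (b ^ j * g) * x := by group
        _ = (g * b ^ j) * x := by rw [h2.eq]
        _ = g * (b ^ j * x) := by group
  have hker : Nat.card ψ.ker = Nat.card (Subgroup.center G) := by
    have hZA : Subgroup.center G ≤ A := fun g hg => ((hcenter g).mp hg).1
    have e1 : ψ.ker = (Subgroup.center G).subgroupOf A := by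
      ext g
      rw [MonoidHom.mem_ker, Subgroup.mem_subgroupOf, hcenter]
      constructor
      · intro h
        refine ⟨g.2, ?_⟩
        have h' : (g : G) * b * (g : G)⁻¹ * b⁻¹ = 1 := h
        calc (g : G) * b = ((g : G) * b * (g : G)⁻¹ * b⁻¹) * (b * g) := by group
          _ = b * g := by rw [h', one_mul]
      · rintro ⟨_, h⟩
        show (g : G) * b * (g : G)⁻¹ * b⁻¹ = 1
        rw [h]; group
    rw [e1]
    exact Nat.card_congr (Subgroup.subgroupOfEquivOfLe hZA).toEquiv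
  have hAcard : Nat.card A = Nat.card (Subgroup.center G) * Nat.card D := by
    rw [← hker, ← hψrange, ← Subgroup.index_ker, Subgroup.card_mul_index]
  have hDcard : Nat.card D = orderOf (a ^ d) := Nat.card_zpowers _
  have h1 := Subgroup.card_mul_index (Subgroup.center G)
  rw [hGA, hAcard, hord, ← hDcard] at h1
  have hZpos : 0 < Nat.card (Subgroup.center G) := Nat.card_pos
  rw [hGD]
  have h2 : Nat.card (Subgroup.center G) * (Subgroup.center G).index =
      Nat.card (Subgroup.center G) * (Nat.card D ^ 2) := by rw [h1]; ring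
  exact Nat.eq_of_mul_eq_mul_left hZpos h2

end Cfsg.Agent.S3879
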