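import Cfsg.Statements.S3881
import Cfsg.Agent.H15.Metacyclic2

set_option autoImplicit false
open Cfsg

namespace Cfsg.Agent.S3881

/-- Let p be an odd prime and G a finite metacyclic p-group (G has a cyclic normal subgroup with cyclic quotient). Suppose G is non-abelian with |G'| = p^n. Then for 1 ≤ i ≤ n the number of elements of G whose conjugacy class has exactly p^i elements is |Z(G)| · (p^(2i) − p^(2i−2)). -/
theorem result {G : Type*} [Group G] [Finite G] {p : ℕ} [Fact p.Prime] (hp : p ≠ 2) (hG : IsPGroup p G) (hmc : Cfsg.IsMetacyclic G) (n : ℕ) (hn : n ≠ 0) (hGn : Nat.card ↥(commutator G) = p ^ n) (i : ℕ) (hi : 1 ≤ i) (hin : i ≤ n) :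
    Nat.card {g : G // (Subgroup.centralizer ({g} : Set G)).index = p ^ i} =
      Nat.card ↥(Subgroup.center G) * (p ^ (2 * i) - p ^ (2 * i - 2)) := by
  obtain ⟨D⟩ := Cfsg.Agent.H15.MC.exists_of_metacyclic hp hG hmc
  have hnD : n = D.n := by
    rw [D.card_commutator] at hGn
    exact (Nat.pow_right_injective D.hp.two_le hGn).symm
  subst hnD
  have e : ∀ H : Subgroup G, (H : Set G).ncard = Nat.card H :=
    fun H => (Nat.card_coe_set_eq (H : Set G)).symm
  have h1 : Nat.card {g : G // (Subgroup.centralizer ({g} : Set G)).index = p ^ i} =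
      (((D.V (D.n - i) (D.n - i) : Subgroup G) : Set G) \
        ((D.V (D.n - i + 1) (D.n - i + 1) : Subgroup G) : Set G)).ncard := by
    rw [← Nat.card_coe_set_eq]
    apply Nat.card_congr
    apply Equiv.subtypeEquivRight
    intro g
    rw [D.index_centralizer_eq_iff i hi hin g]
    rfl
  have hsub : ((D.V (D.n - i + 1) (D.n - i + 1) : Subgroup G) : Set G) ⊆
      ((D.V (D.n - i) (D.n - i) : Subgroup G) : Set G) :=
    D.V_anti (Nat.le_succ _) (Nat.le_succ _)
  have hnk := D.n_le_k
  have hnm := D.n_le_m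
  rw [h1, Set.ncard_sdiff hsub (Set.toFinite _), e, e, D.card_center,
    D.card_V (Nat.sub_le _ _) (le_trans (Nat.sub_le _ _) hnk),
    D.card_V (by omega) (by omega)]
  obtain ⟨M, hM⟩ := Nat.exists_eq_add_of_le hnm
  obtain ⟨K, hK⟩ := Nat.exists_eq_add_of_le hnk
  obtain ⟨i', rfl⟩ := Nat.exists_eq_add_of_le hi
  obtain ⟨n', hn'⟩ := Nat.exists_eq_add_of_le hin
  rw [show D.m - (D.n - (1 + i')) = M + i' + 1 by omega,
    show D.k - (D.n - (1 + i')) = K + i' + 1 by omega,
    show D.m - (D.n - (1 + i') + 1) = M + i' by omega,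
    show D.k - (D.n - (1 + i') + 1) = K + i' by omega,
    show D.m - D.n = M by omega, show D.k - D.n = K by omega,
    show 2 * (1 + i') - 2 = 2 * i' by omega, Nat.mul_sub]
  congr 1 <;> ring

end Cfsg.Agent.S3881
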