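import Cfsg.Statements.S3885
import Cfsg.Agent.H15.Metacyclic4

set_option autoImplicit false
open Cfsg

namespace Cfsg.Agent.S3885

/-- Let p be an odd prime and G a finite metacyclic p-group (G has a cyclic normal subgroup with cyclic quotient). Then every abelian subgroup K of G containing the center of G is the center of its own centralizer: K = Z(C_G(K)). -/
theorem result {G : Type*} [Group G] [Finite G] {p : ℕ} [Fact p.Prime] (hp : p ≠ 2) (hG : IsPGroup p G) (hmc : Cfsg.IsMetacyclic G) (K : Subgroup G) (hK : IsMulCommutative ↥K) (hZ : Subgroup.center G ≤ K) :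
    K = Subgroup.centralizer (K : Set G) ⊓ Subgroup.centralizer (Subgroup.centralizer (K : Set G) : Set G) := by
  obtain ⟨D⟩ := Cfsg.Agent.H15.MC.exists_of_metacyclic hp hG hmc
  have h1 := D.card_mul_card_centralizer K hZ
  have h2 := D.card_mul_card_centralizer (Subgroup.centralizer (K : Set G))
    (Subgroup.center_le_centralizer _)
  have h3 : K ≤ Subgroup.centralizer (Subgroup.centralizer (K : Set G) : Set G) :=
    Subgroup.le_centralizer_iff.mp le_rfl
  have h4 : Nat.card K = Nat.card (Subgroup.centralizer (Subgroup.centralizer (K : Set G) : Set G)) := by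
    rw [← h2, mul_comm] at h1
    exact Nat.eq_of_mul_eq_mul_left Nat.card_pos h1
  have h5 : K = Subgroup.centralizer (Subgroup.centralizer (K : Set G) : Set G) :=
    Subgroup.eq_of_le_of_card_ge h3 h4.ge
  have h6 : K ≤ Subgroup.centralizer (K : Set G) :=
    Subgroup.le_centralizer_iff_isMulCommutative.mpr hK
  rw [← h5]
  exact (inf_eq_right.mpr h6).symm

end Cfsg.Agent.S3885
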