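import Cfsg.Statements.S3886
import Cfsg.Agent.H15.Metacyclic4

set_option autoImplicit false
open Cfsg

namespace Cfsg.Agent.S3886

/-- Let p be an odd prime and G a finite metacyclic p-group (G has a cyclic normal subgroup with cyclic quotient). Then the largest value of |R| · |Z(R)| over subgroups R of G is |G : G'|², and the subgroups attaining it (the centrally large subgroups) are exactly the non-abelian subgroups together with the maximal abelian subgroups of G. -/
theorem result {G : Type*} [Group G] [Finite G] {p : ℕ} [Fact p.Prime] (hp : p ≠ 2) (hG : IsPGroup p G) (hmc : Cfsg.IsMetacyclic G) : Cfsg.maxCentralProduct G = (commutator G).index ^ 2 ∧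
    ∀ R : Subgroup G, Cfsg.IsCentrallyLarge R ↔ (¬ IsMulCommutative ↥R ∨ Maximal (fun K : Subgroup G => IsMulCommutative ↥K) R) := by
  obtain ⟨D⟩ := Cfsg.Agent.H15.MC.exists_of_metacyclic hp hG hmc
  have key := D.card_mul_card_center_le
  have hmax : Cfsg.maxCentralProduct G = (commutator G).index ^ 2 := by
    unfold Cfsg.maxCentralProduct
    apply IsGreatest.csSup_eq
    constructor
    · exact D.exists_card_mul_card_center_eq
    · rintro x ⟨R, rfl⟩
      exact (key R).1
  refine ⟨hmax, ?_⟩
  intro R
  unfold Cfsg.IsCentrallyLarge
  rw [hmax]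
  exact (key R).2

end Cfsg.Agent.S3886
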