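import Mathlib
import Cfsg.Statements.S3897
import Cfsg.Agent.H68.PClasses

set_option autoImplicit false
open Cfsg

namespace Cfsg.Agent.S3897

open Cfsg.Agent.H68

/-- Let p be an odd prime and G a finite group with Sylow p-subgroup P, and write k_p(G) for the number of conjugacy classes of G consisting of p-elements (elements of p-power order, the identity included). Then k_p(G) > (p + 1)|P|/(2p) if and only if G has a normal p-complement and P is abelian. -/
theorem result {G : Type*} [Group G] [Finite G] {p : ℕ} [Fact p.Prime] (hp : p ≠ 2) (P : Sylow p G) :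
    (p + 1) * Nat.card ↥(P : Subgroup G) < 2 * p * Nat.card {c : ConjClasses G // ∀ x ∈ c.carrier, ∃ k : ℕ, orderOf x = p ^ k} ↔
      Cfsg.HasNormalPComplement p G ∧ IsMulCommutative ↥(P : Subgroup G) := by
  have hpp : p.Prime := Fact.out
  constructor
  · intro h
    have hNC : Subgroup.normalizer ((P : Subgroup G) : Set G) ≤
        Subgroup.centralizer ((P : Subgroup G) : Set G) := by
      by_contra hcon
      have := two_mul_mul_card_pclass_le P hcon
      exact absurd h (not_lt.mpr this)
    refine ⟨⟨P, (MonoidHom.transferSylow P hNC).ker, inferInstance,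
      MonoidHom.ker_transferSylow_isComplement' P hNC⟩, ?_⟩
    exact ⟨⟨fun a b => Subtype.ext (hNC (Subgroup.le_normalizer b.2) a a.2)⟩⟩
  · rintro ⟨hc, hab⟩
    have h1 := card_le_card_pclass P hc hab
    have h2 : 0 < Nat.card ↥(P : Subgroup G) := Nat.card_pos
    have h3 : 2 ≤ p := hpp.two_le
    calc (p + 1) * Nat.card ↥(P : Subgroup G) < 2 * p * Nat.card ↥(P : Subgroup G) := by
          apply Nat.mul_lt_mul_of_pos_right _ h2
          omega
      _ ≤ 2 * p * Nat.card (PClass p G) := Nat.mul_le_mul_left _ h1

end Cfsg.Agent.S3897
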