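import Mathlib
import Cfsg.Statements.S3899
import Cfsg.Agent.S3897
import Cfsg.Agent.H68.PiClasses

set_option autoImplicit false
open Cfsg

namespace Cfsg.Agent.S3899

open Cfsg.Agent.H68

/-- Let π be a finite non-empty set of odd primes with smallest member p and G a finite group. Write k_π(G) for the number of conjugacy classes of G consisting of π-elements (elements all of whose order's prime divisors lie in π) and |G|_π for the π-part of the order of G. If k_π(G) > (p + 1)|G|_π/(2p), then G has a normal π-complement (a normal subgroup of order prime to π whose index is a π-number) and an abelian Hall π-subgroup. -/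
theorem result {G : Type*} [Group G] [Finite G] (π : Finset ℕ) (hπ : ∀ r ∈ π, r.Prime) (h2 : 2 ∉ π) (p : ℕ) (hp : p ∈ π)
    (hmin : ∀ r ∈ π, p ≤ r) (hk : (p + 1) * π.prod (fun r => r ^ (Nat.card G).factorization r) < 2 * p * Nat.card {c : ConjClasses G // ∀ x ∈ c.carrier, ∀ r : ℕ, r.Prime → r ∣ orderOf x → r ∈ π}) :
    (∃ N : Subgroup G, N.Normal ∧ (∀ r : ℕ, r.Prime → r ∣ Nat.card ↥N → r ∉ π) ∧ ∀ r : ℕ, r.Prime → r ∣ N.index → r ∈ π) ∧ ∃ H : Subgroup G, Cfsg.IsPiHall (↑π : Set ℕ) H ∧ IsMulCommutative ↥H := by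
  classical
  have hppos : 0 < p := (hπ p hp).pos
  have hk' : (p + 1) * π.prod (fun r => r ^ (Nat.card G).factorization r) <
      2 * p * Nat.card (OClass (PiPred π) G) := hk
  -- Step 1: a normal `r`-complement with abelian quotient for each `r ∈ π`
  have key : ∀ r ∈ π, ∃ K : Subgroup G, K.Normal ∧ ¬ r ∣ Nat.card K ∧ (∃ j : ℕ, K.index = r ^ j) ∧
      ∀ a b : G, a * b * a⁻¹ * b⁻¹ ∈ K := by
    intro r hr
    have hrp : r.Prime := hπ r hr
    have : Fact r.Prime := ⟨hrp⟩
    have hr2 : r ≠ 2 := fun h => h2 (h ▸ hr)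
    have h1 := card_piclass_le_mul (G := G) π hπ r hr
    have hineq : ∀ P : Sylow r G, (r + 1) * Nat.card ↥(P : Subgroup G) <
        2 * r * Nat.card (PClass r G) := by
      intro P
      rw [Sylow.card_eq_multiplicity]
      have hEpos : 0 < (π.erase r).prod (fun q => q ^ (Nat.card G).factorization q) :=
        Finset.prod_pos (fun q hq => pow_pos (hπ q (Finset.mem_of_mem_erase hq)).pos _)
      have hprod : π.prod (fun q => q ^ (Nat.card G).factorization q) =
          r ^ (Nat.card G).factorization r *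
            (π.erase r).prod (fun q => q ^ (Nat.card G).factorization q) :=
        (Finset.mul_prod_erase π _ hr).symm
      rw [hprod] at hk'
      generalize (π.erase r).prod (fun q => q ^ (Nat.card G).factorization q) = E at *
      generalize r ^ (Nat.card G).factorization r = c at *
      generalize Nat.card (OClass (PiPred π) G) = kπ at *
      generalize Nat.card (PClass r G) = kr at *
      have hpr := hmin r hr
      have h3 : (p + 1) * c * E < 2 * p * kr * E := by
        have := Nat.mul_le_mul_left (2 * p) h1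
        nlinarith
      have h4 : (p + 1) * c < 2 * p * kr := Nat.lt_of_mul_lt_mul_right h3
      have h5 : p * ((r + 1) * c) < p * (2 * r * kr) := by
        have h6 := Nat.mul_le_mul_left c hpr
        have h7 := Nat.mul_lt_mul_of_pos_right h4 hrp.pos
        nlinarith
      exact Nat.lt_of_mul_lt_mul_left h5
    obtain ⟨P₀⟩ : Nonempty (Sylow r G) := inferInstance
    obtain ⟨⟨P', K, hKn, hc⟩, -⟩ := (Cfsg.Agent.S3897.result hr2 P₀).mp (hineq P₀)
    have hab : IsMulCommutative ↥(P' : Subgroup G) :=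
      ((Cfsg.Agent.S3897.result hr2 P').mp (hineq P')).2
    refine ⟨K, hKn, ?_, ?_, ?_⟩
    · exact hc.index_eq_card ▸ P'.not_dvd_index
    · exact ⟨_, by rw [hc.symm.index_eq_card, Sylow.card_eq_multiplicity]⟩
    · intro a b
      have e : G ⧸ K ≃* ↥(P' : Subgroup G) := hc.symm.QuotientMulEquiv
      rw [← QuotientGroup.eq_one_iff]
      apply e.injective
      rw [map_one]
      simp only [QuotientGroup.mk_mul, QuotientGroup.mk_inv, map_mul, map_inv]
      have hcomm := hab.is_comm.comm (e a) (e b)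
      rw [hcomm]; group
  choose! K hKn hKr hKidx hKcomm using key
  set N : Subgroup G := ⨅ r : π, K r with hN
  have hNn : N.Normal := Subgroup.normal_iInf_normal (fun r : π => hKn r r.2)
  have hNle : ∀ r ∈ π, N ≤ K r := fun r hr => iInf_le (fun r : π => K r) ⟨r, hr⟩
  have hN1 : ∀ r : ℕ, r.Prime → r ∣ Nat.card ↥N → r ∉ π := by
    intro r _ hdvd hr
    exact hKr r hr (hdvd.trans (Subgroup.card_dvd_of_le (hNle r hr)))
  have hN2 : ∀ q : ℕ, q.Prime → q ∣ N.index → q ∈ π := by
    intro q hq hdvd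
    by_contra hqπ
    have : Fact q.Prime := ⟨hq⟩
    obtain ⟨Q⟩ : Nonempty (Sylow q G) := inferInstance
    have hQN : (Q : Subgroup G) ≤ N := by
      intro x hx
      rw [hN, Subgroup.mem_iInf]
      rintro ⟨r, hr⟩
      show x ∈ K r
      have hrp : r.Prime := hπ r hr
      obtain ⟨j, hj⟩ := hKidx r hr
      have h1 : x ^ r ^ j ∈ K r := by
        have := hKn r hr
        rw [← hj]; exact Subgroup.pow_index_mem (K r) x
      obtain ⟨i, hi⟩ := (IsPGroup.iff_orderOf.mp Q.isPGroup') ⟨x, hx⟩
      rw [Subgroup.orderOf_mk] at hi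
      have hqr : q ≠ r := fun h => hqπ (h ▸ hr)
      have hcop : (r ^ j).Coprime (orderOf x) := by
        rw [hi]
        exact Nat.Coprime.pow _ _ ((Nat.coprime_primes hrp hq).mpr (Ne.symm hqr))
      obtain ⟨m, hm⟩ := exists_pow_eq_self_of_coprime hcop
      rw [← hm]
      exact (K r).pow_mem h1 m
    exact Q.not_dvd_index (hdvd.trans (Subgroup.index_dvd_of_le hQN))
  refine ⟨⟨N, hNn, hN1, hN2⟩, ?_⟩
  have hcop : Nat.Coprime (Nat.card N) N.index :=
    Nat.coprime_of_dvd (fun q hq h1 h2 => hN1 q hq h1 (hN2 q hq h2))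
  obtain ⟨H, hH⟩ := Subgroup.exists_right_complement'_of_coprime hcop
  refine ⟨H, ⟨?_, ?_⟩, ?_⟩
  · intro q hq hdvd
    rw [← hH.symm.index_eq_card] at hdvd
    exact Finset.mem_coe.mpr (hN2 q hq hdvd)
  · intro q hq hqπ hdvd
    rw [hH.index_eq_card] at hdvd
    exact hN1 q hq hdvd (Finset.mem_coe.mp hqπ)
  · refine ⟨⟨fun a b => Subtype.ext ?_⟩⟩
    have h1 : (a : G) * b * (a : G)⁻¹ * (b : G)⁻¹ ∈ N := by
      rw [hN, Subgroup.mem_iInf]
      rintro ⟨r, hr⟩
      exact hKcomm r hr a b
    have h2 : (a : G) * b * (a : G)⁻¹ * (b : G)⁻¹ ∈ H :=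
      H.mul_mem (H.mul_mem (H.mul_mem a.2 b.2) (H.inv_mem a.2)) (H.inv_mem b.2)
    have h3 : (a : G) * b * (a : G)⁻¹ * (b : G)⁻¹ = 1 := by
      have := hH.disjoint
      rw [disjoint_iff, Subgroup.eq_bot_iff_forall] at this
      exact this _ ⟨h1, h2⟩
    show (a : G) * b = b * a
    calc (a : G) * b = ((a : G) * b * (a : G)⁻¹ * (b : G)⁻¹) * (b * a) := by group
      _ = b * a := by rw [h3, one_mul]

end Cfsg.Agent.S3899
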