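import Cfsg.Statements.S3905
import Cfsg.Agent.H43.MCMain
import Cfsg.Agent.H43.MCXferEA
import Cfsg.Agent.H25.MCSplit
import Cfsg.Agent.H25.MCNCond
import Cfsg.Agent.H87.MCBetaCL
import Cfsg.Agent.H87.MCBetaN
import Cfsg.Agent.H91.MCFrobInt
import Cfsg.Agent.H61.MCBetaF
import Cfsg.Agent.H61.MCD1
import Cfsg.Agent.H15.MCIntP
import Cfsg.Agent.H15.MCXferFr
import Cfsg.Agent.H65.MCCF
import Cfsg.Agent.Helper55.MCPGrp
import Cfsg.Agent.Helper55.MCCyc
import Cfsg.Agent.H19.MCMainB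
import Cfsg.Agent.H19.MCF5
import Cfsg.Agent.H27.MCMainA
import Cfsg.Agent.H27.MCMainD2

set_option autoImplicit false
open Cfsg

namespace Cfsg.Agent.S3905

/-- Let N be a normal subgroup of the finite group G such that for every element x of N outside the center of N the centralizer C_G(x) is a maximal subgroup of G. Then N/Z(N) is either an elementary abelian p-group for some prime p, or a Frobenius group whose kernel is an elementary abelian normal subgroup and whose complement has prime order. -/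
theorem result {G : Type*} [Group G] [Finite G] (N : Subgroup G) [N.Normal]
    (h : ∀ x : G, x ∈ N → x ∉ Subgroup.centralizer (N : Set G) → IsCoatom (Subgroup.centralizer ({x} : Set G))) :
    (∃ p : ℕ, p.Prime ∧ Cfsg.IsElementaryAbelian p (⊤ : Subgroup (↥N ⧸ Subgroup.center ↥N))) ∨
    (∃ (Q K : Subgroup (↥N ⧸ Subgroup.center ↥N)) (p : ℕ), p.Prime ∧ Cfsg.IsFrobeniusComplement Q ∧ (Nat.card ↥Q).Prime ∧
      K.Normal ∧ (K : Set (↥N ⧸ Subgroup.center ↥N)) = Cfsg.frobeniusKernel Q ∧ Cfsg.IsElementaryAbelian p K) := by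
  have hSplit := Cfsg.Agent.H25.MC.split
  have hPrim := Cfsg.Agent.H25.MC.prim
  have hNCond := Cfsg.Agent.H25.MC.ncond
  have hCF := Cfsg.Agent.H65.MC.cf
  have hF5 := Cfsg.Agent.H19.MC.f5
  have hMainB := Cfsg.Agent.H19.MC.mainB
  have hCL := Cfsg.Agent.H87.MC.betaCL hSplit
  have hBeta : Cfsg.Agent.H43.MC.StBeta :=
    Cfsg.Agent.H43.MC.beta_of (Cfsg.Agent.H87.MC.betaN hCL)
      (Cfsg.Agent.H61.MC.betaF hCL Cfsg.Agent.H91.MC.frobInt)
  have hD1 := Cfsg.Agent.H61.MC.mainD1 hSplit hBeta hMainB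
  rcases Cfsg.Agent.H43.MC.main_int hPrim hSplit hF5 hBeta
      (Cfsg.Agent.H15.MC.intP hPrim hSplit hNCond)
      (Cfsg.Agent.Helper55.MC.pgrp hF5 hNCond hCF)
      (Cfsg.Agent.H27.MC.mainA hSplit hBeta hCF) hMainB hD1
      (Cfsg.Agent.H27.MC.mainD2 hSplit hBeta hMainB hD1 hCF)
      Cfsg.Agent.Helper55.MC.cyc N h with
    ⟨p, hp, hEA⟩ | ⟨p, r, L, R, hFr⟩
  · exact Or.inl ⟨p, hp, Cfsg.Agent.H43.MC.xferEA G N p hEA⟩
  · exact Or.inr (Cfsg.Agent.H15.MC.xferFr G N p r L R hFr)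

end Cfsg.Agent.S3905
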