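import Mathlib
import Cfsg.Statements.S3908
import Cfsg.Agent.S0016

set_option autoImplicit false
open Cfsg

namespace Cfsg.Agent.S3908

/-- Two subgroups of prime order sharing a nontrivial element are equal. -/
theorem eq_of_card_prime_of_mem {G : Type*} [Group G] [Finite G] {p : ℕ} (hp : p.Prime)
    {L M : Subgroup G} (hL : Nat.card L = p) (hM : Nat.card M = p) {w : G} (hwL : w ∈ L)
    (hwM : w ∈ M) (hw : w ≠ 1) : L = M := by
  have ho : orderOf w = p := by
    have h1 : orderOf w ∣ p := by
      have := Subgroup.orderOf_dvd_natCard L hwL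
      rwa [hL] at this
    rcases (Nat.dvd_prime hp).mp h1 with h | h
    · exact absurd (orderOf_eq_one_iff.mp h) hw
    · exact h
  have h1 : Subgroup.zpowers w = L :=
    Subgroup.eq_of_le_of_card_ge ((Subgroup.zpowers_le).mpr hwL) (by rw [hL, Nat.card_zpowers, ho])
  have h2 : Subgroup.zpowers w = M :=
    Subgroup.eq_of_le_of_card_ge ((Subgroup.zpowers_le).mpr hwM) (by rw [hM, Nat.card_zpowers, ho])
  rw [← h1, h2]

open scoped IsMulCommutative in
/-- A Sylow `p`-subgroup of a group in which abelian subgroups of the same order are conjugate is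
cyclic, generalized quaternion, or of exponent `p`. -/
theorem key {G : Type*} [Group G] [Finite G]
    (hB : ∀ A B : Subgroup G, IsMulCommutative ↥A → IsMulCommutative ↥B → Nat.card ↥A = Nat.card ↥B →
      ∃ g : G, B = A.map (MulAut.conj g).toMonoidHom)
    (p : ℕ) [Fact p.Prime] (P : Sylow p G) :
    IsCyclic ↥(P : Subgroup G) ∨
      (p = 2 ∧ ∃ n : ℕ, Nonempty (↥(P : Subgroup G) ≃* QuaternionGroup (2 ^ n))) ∨
      ∀ x ∈ (P : Subgroup G), x ^ p = 1 := by
  classical
  have hp : p.Prime := Fact.out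
  by_cases huniq : ∀ H K : Subgroup ↥(P : Subgroup G), Nat.card H = p → Nat.card K = p → H = K
  · rcases Cfsg.Agent.S0016.result p P.isPGroup' huniq with h | h
    · exact Or.inl h
    · exact Or.inr (Or.inl h)
  · right; right
    push Not at huniq
    obtain ⟨H, K, hH, hK, hHK⟩ := huniq
    by_contra hexp
    push Not at hexp
    obtain ⟨x, hxP, hxp⟩ := hexp
    -- an element `c` of order `p ^ 2`
    obtain ⟨c, hc⟩ : ∃ c : G, orderOf c = p ^ 2 := by
      obtain ⟨k, hk⟩ := (IsPGroup.iff_orderOf.mp P.isPGroup') ⟨x, hxP⟩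
      rw [Subgroup.orderOf_mk] at hk
      have hk2 : 2 ≤ k := by
        by_contra hlt
        push Not at hlt
        apply hxp
        have h1 : orderOf x ∣ p := by
          rw [hk]
          exact (pow_dvd_pow p (by omega : k ≤ 1)).trans (by simp)
        exact orderOf_dvd_iff_pow_eq_one.mp h1
      refine ⟨x ^ p ^ (k - 2), ?_⟩
      rw [orderOf_pow_of_dvd (pow_ne_zero _ hp.ne_zero) (by rw [hk]; exact pow_dvd_pow p (by omega)),
        hk, Nat.pow_div (by omega) hp.pos]
      congr 1; omega
    -- a central element of order `p`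
    have hPnt : Nontrivial ↥(P : Subgroup G) := by
      rw [← Finite.one_lt_card_iff_nontrivial]
      have h1 : Nat.card H ≤ Nat.card ↥(P : Subgroup G) := Subgroup.card_le_card_group H
      have := hp.one_lt
      omega
    obtain ⟨z, hzc, hzo⟩ : ∃ z : ↥(P : Subgroup G), z ∈ Subgroup.center ↥(P : Subgroup G) ∧
        orderOf z = p := by
      have hZnt : Nontrivial (Subgroup.center ↥(P : Subgroup G)) := P.isPGroup'.center_nontrivial
      have hZp : IsPGroup p (Subgroup.center ↥(P : Subgroup G)) := P.isPGroup'.to_subgroup _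
      have hdvd : p ∣ Nat.card (Subgroup.center ↥(P : Subgroup G)) := by
        rcases hZp.card_eq_or_dvd with h | h
        · have := Finite.one_lt_card_iff_nontrivial.mpr hZnt
          omega
        · exact h
      obtain ⟨z, hz⟩ := exists_prime_orderOf_dvd_card' p hdvd
      exact ⟨z.1, z.2, (Subgroup.orderOf_coe z).trans hz⟩
    have hzcard : Nat.card (Subgroup.zpowers z) = p := by rw [Nat.card_zpowers, hzo]
    -- a subgroup of order `p` different from `⟨z⟩`
    obtain ⟨L, hL, hLz⟩ : ∃ L : Subgroup ↥(P : Subgroup G), Nat.card L = p ∧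
        L ≠ Subgroup.zpowers z := by
      by_cases h1 : H = Subgroup.zpowers z
      · exact ⟨K, hK, fun h2 => hHK (h1.trans h2.symm)⟩
      · exact ⟨H, hH, h1⟩
    obtain ⟨l, hlL, hl1⟩ : ∃ l ∈ L, l ≠ 1 := by
      by_contra hcon
      push Not at hcon
      have : L = ⊥ := (Subgroup.eq_bot_iff_forall L).mpr hcon
      rw [this, Subgroup.card_bot] at hL
      exact hp.one_lt.ne hL
    have hlcard : Nat.card (Subgroup.zpowers l) = p := by
      have := eq_of_card_prime_of_mem hp (L := Subgroup.zpowers l) (M := L) ?_ hL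
        (Subgroup.mem_zpowers l) hlL hl1
      · rw [this, hL]
      · rw [Nat.card_zpowers]
        have h1 : orderOf l ∣ p := by
          have := Subgroup.orderOf_dvd_natCard L hlL
          rwa [hL] at this
        rcases (Nat.dvd_prime hp).mp h1 with h | h
        · exact absurd (orderOf_eq_one_iff.mp h) hl1
        · exact h
    have hLeq : Subgroup.zpowers l = L :=
      eq_of_card_prime_of_mem hp hlcard hL (Subgroup.mem_zpowers l) hlL hl1
    have hdisj : ∀ w : ↥(P : Subgroup G), w ∈ Subgroup.zpowers l → w ∈ Subgroup.zpowers z → w = 1 := by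
      intro w hw1 hw2
      by_contra hw
      exact hLz (hLeq ▸ eq_of_card_prime_of_mem hp hlcard hzcard hw1 hw2 hw)
    -- the homomorphism `⟨l⟩ × ⟨z⟩ → G`
    let f : ↥(Subgroup.zpowers l) →* G := (P : Subgroup G).subtype.comp (Subgroup.zpowers l).subtype
    let g : ↥(Subgroup.zpowers z) →* G := (P : Subgroup G).subtype.comp (Subgroup.zpowers z).subtype
    have hcomm : ∀ (a : ↥(Subgroup.zpowers l)) (b : ↥(Subgroup.zpowers z)), Commute (f a) (g b) := by
      intro a b
      have hb : (b : ↥(P : Subgroup G)) ∈ Subgroup.center ↥(P : Subgroup G) := by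
        obtain ⟨i, hi⟩ := Subgroup.mem_zpowers_iff.mp b.2
        rw [← hi]
        exact Subgroup.zpow_mem _ hzc i
      have h1 : (b : ↥(P : Subgroup G)) * (a : ↥(P : Subgroup G)) = (a : ↥(P : Subgroup G)) * b :=
        (Subgroup.mem_center_iff.mp hb a).symm
      show ((a : ↥(P : Subgroup G)) : G) * ((b : ↥(P : Subgroup G)) : G) =
        ((b : ↥(P : Subgroup G)) : G) * ((a : ↥(P : Subgroup G)) : G)
      exact (congrArg Subtype.val h1).symm
    let φ : ↥(Subgroup.zpowers l) × ↥(Subgroup.zpowers z) →* G := MonoidHom.noncommCoprod f g hcomm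
    have hφ : ∀ a b, φ (a, b) = ((a : ↥(P : Subgroup G)) : G) * ((b : ↥(P : Subgroup G)) : G) :=
      fun a b => rfl
    have hinj : Function.Injective φ := by
      rw [injective_iff_map_eq_one]
      rintro ⟨a, b⟩ hab
      rw [hφ] at hab
      have h1 : (a : ↥(P : Subgroup G)) * (b : ↥(P : Subgroup G)) = 1 := Subtype.ext hab
      have h2 : (a : ↥(P : Subgroup G)) = (b : ↥(P : Subgroup G))⁻¹ := eq_inv_of_mul_eq_one_left h1
      have h3 : (a : ↥(P : Subgroup G)) = 1 :=
        hdisj _ a.2 (h2 ▸ (Subgroup.zpowers z).inv_mem b.2)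
      have h4 : (b : ↥(P : Subgroup G)) = 1 := by
        rw [h3, one_mul] at h1; exact h1
      exact Prod.ext (Subtype.ext h3) (Subtype.ext h4)
    have hEcard : Nat.card φ.range = p ^ 2 := by
      rw [← Nat.card_congr (MonoidHom.ofInjective hinj).toEquiv, Nat.card_prod, hlcard, hzcard, sq]
    have hEcomm : IsMulCommutative ↥φ.range := by
      refine ⟨⟨fun a b => Subtype.ext ?_⟩⟩
      obtain ⟨x, hx⟩ := a.2
      obtain ⟨y, hy⟩ := b.2
      show (a : G) * (b : G) = (b : G) * (a : G)
      rw [← hx, ← hy, ← map_mul, ← map_mul, mul_comm]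
    have hEexp : ∀ e ∈ φ.range, e ^ p = 1 := by
      rintro _ ⟨⟨a, b⟩, rfl⟩
      rw [← map_pow]
      have ha : a ^ p = 1 := by
        have := pow_card_eq_one' (G := ↥(Subgroup.zpowers l)) (x := a)
        rwa [hlcard] at this
      have hb : b ^ p = 1 := by
        have := pow_card_eq_one' (G := ↥(Subgroup.zpowers z)) (x := b)
        rwa [hzcard] at this
      have h1 : (a, b) ^ p = (1 : ↥(Subgroup.zpowers l) × ↥(Subgroup.zpowers z)) :=
        Prod.ext ha hb
      rw [h1, map_one]
    -- conjugate the cyclic group of order `p ^ 2` into it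
    obtain ⟨g₀, hg₀⟩ := hB (Subgroup.zpowers c) φ.range inferInstance hEcomm
      (by rw [Nat.card_zpowers, hc, hEcard])
    have h1 : g₀ * c * g₀⁻¹ ∈ φ.range := by
      rw [hg₀]
      exact ⟨c, Subgroup.mem_zpowers c, rfl⟩
    have h2 := hEexp _ h1
    rw [conj_pow] at h2
    have h3 : c ^ p = 1 := by
      have : c ^ p = g₀⁻¹ * (g₀ * c ^ p * g₀⁻¹) * g₀ := by group
      rw [this, h2]; group
    have h4 : p ^ 2 ∣ p := hc ▸ orderOf_dvd_of_pow_eq_one h3
    have h5 : p ^ 2 ≤ p := Nat.le_of_dvd hp.pos h4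
    have h6 : p < p ^ 2 := by
      have := hp.one_lt
      nlinarith
    omega

/-- Let G be a finite group in which any two abelian subgroups of the same order are conjugate. Then a Sylow 2-subgroup of G is cyclic, elementary abelian or generalized quaternion, and for an odd prime p a Sylow p-subgroup of G is cyclic or has exponent dividing p. -/
theorem result {G : Type*} [Group G] [Finite G] (hB : ∀ A B : Subgroup G, IsMulCommutative ↥A → IsMulCommutative ↥B → Nat.card ↥A = Nat.card ↥B → ∃ g : G, B = A.map (MulAut.conj g).toMonoidHom) :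
    (∀ P : Sylow 2 G, IsCyclic ↥(P : Subgroup G) ∨ Cfsg.IsElementaryAbelian 2 (P : Subgroup G) ∨ ∃ k : ℕ, Nonempty (↥(P : Subgroup G) ≃* QuaternionGroup (2 ^ k))) ∧
    ∀ (p : ℕ) [Fact p.Prime], p ≠ 2 → ∀ P : Sylow p G, IsCyclic ↥(P : Subgroup G) ∨ ∀ x ∈ (P : Subgroup G), x ^ p = 1 := by
  constructor
  · intro P
    have : Fact (Nat.Prime 2) := ⟨Nat.prime_two⟩
    rcases key hB 2 P with h | ⟨-, h⟩ | h
    · exact Or.inl h
    · exact Or.inr (Or.inr h)
    · refine Or.inr (Or.inl ⟨⟨⟨fun a b => Subtype.ext ?_⟩⟩, h⟩)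
      have ha : (a : G) ^ 2 = 1 := h a a.2
      have hb : (b : G) ^ 2 = 1 := h b b.2
      have hab : ((a : G) * b) ^ 2 = 1 := h _ ((P : Subgroup G).mul_mem a.2 b.2)
      show (a : G) * b = b * a
      have h1 : (a : G)⁻¹ = a := by rw [inv_eq_iff_mul_eq_one, ← sq, ha]
      have h2 : (b : G)⁻¹ = b := by rw [inv_eq_iff_mul_eq_one, ← sq, hb]
      have h3 : ((a : G) * b)⁻¹ = (a : G) * b := by rw [inv_eq_iff_mul_eq_one, ← sq, hab]
      rw [← h3, mul_inv_rev, h1, h2]
  · intro p _ hp2 P
    rcases key hB p P with h | ⟨h, -⟩ | h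
    · exact Or.inl h
    · exact absurd h hp2
    · exact Or.inr h

end Cfsg.Agent.S3908
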