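import Cfsg.Statements.S3909

set_option autoImplicit false
open Cfsg

namespace Cfsg.Agent.S3909

/-- Let G be a finite group in which any two abelian subgroups of the same order are conjugate. Let M be a normal subgroup of G. If M contains an element of the same order as a ∈ G, then a ∈ M; and if M is elementary abelian of order p^t with p prime and t ≥ 2, then M is the unique Sylow p-subgroup of G. -/
theorem result {G : Type*} [Group G] [Finite G] (hB : ∀ A B : Subgroup G, IsMulCommutative ↥A → IsMulCommutative ↥B → Nat.card ↥A = Nat.card ↥B → ∃ g : G, B = A.map (MulAut.conj g).toMonoidHom) (M : Subgroup G) [M.Normal] :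
    (∀ a : G, (∃ m ∈ M, orderOf m = orderOf a) → a ∈ M) ∧
    ∀ (p t : ℕ) [Fact p.Prime], 2 ≤ t → Nat.card ↥M = p ^ t → Cfsg.IsElementaryAbelian p M → ∀ P : Sylow p G, (P : Subgroup G) = M := by
  have part1 : ∀ a : G, (∃ m ∈ M, orderOf m = orderOf a) → a ∈ M := by
    rintro a ⟨m, hm, hord⟩
    obtain ⟨g, hg⟩ := hB (Subgroup.zpowers m) (Subgroup.zpowers a) inferInstance inferInstance
      (by rw [Nat.card_zpowers, Nat.card_zpowers, hord])
    have ha : a ∈ (Subgroup.zpowers m).map (MulAut.conj g).toMonoidHom := by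
      rw [← hg]; exact Subgroup.mem_zpowers a
    obtain ⟨y, hy, rfl⟩ := Subgroup.mem_map.mp ha
    have hyM : y ∈ M := (Subgroup.zpowers_le.mpr hm) hy
    simpa using ‹M.Normal›.conj_mem y hyM g
  refine ⟨part1, ?_⟩
  intro p t hp ht hcard hEA P
  have hpp : p.Prime := hp.out
  have hMp : IsPGroup p M := IsPGroup.of_card hcard
  have hMP : M ≤ (P : Subgroup G) := hMp.le_sylow_of_normal P
  refine le_antisymm ?_ hMP
  intro a haP
  -- the order of `a` is a power of `p`
  obtain ⟨k, hk⟩ : ∃ k, orderOf a = p ^ k := by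
    have := (IsPGroup.iff_orderOf.mp P.isPGroup') ⟨a, haP⟩
    simpa [Subgroup.orderOf_mk] using this
  -- `M` has an element of order `p`
  have hdvd : p ∣ Nat.card M := by
    rw [hcard]; exact dvd_pow_self p (by omega)
  obtain ⟨m, hm⟩ := exists_prime_orderOf_dvd_card' (G := M) p hdvd
  have hmo : orderOf (m : G) = p := by rw [Subgroup.orderOf_coe]; exact hm
  -- a subgroup of `M` of order `p ^ 2`
  obtain ⟨K, hK⟩ := Sylow.exists_subgroup_card_pow_prime (G := M) p (n := 2)
    (by rw [hcard]; exact pow_dvd_pow p ht)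
  have hKcard : Nat.card (K.map M.subtype) = p ^ 2 := by
    rw [← hK]
    exact Nat.card_congr (K.equivMapOfInjective M.subtype M.subtype_injective).symm.toEquiv
  have hKle : K.map M.subtype ≤ M := Subgroup.map_subtype_le K
  have hKcomm : IsMulCommutative (K.map M.subtype) := by
    have := hEA.1
    infer_instance
  rcases Nat.lt_or_ge k 2 with hk2 | hk2
  · interval_cases k
    · rw [pow_zero, orderOf_eq_one_iff] at hk
      rw [hk]; exact M.one_mem
    · rw [pow_one] at hk
      exact part1 a ⟨m, m.2, by rw [hmo, hk]⟩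
  · exfalso
    -- `b = a ^ (p ^ (k - 2))` has order `p ^ 2`
    set b := a ^ (p ^ (k - 2)) with hb
    have hbo : orderOf b = p ^ 2 := by
      have h0 : orderOf a ≠ 0 := (orderOf_pos a).ne'
      have : orderOf a / p ^ 2 = p ^ (k - 2) := by
        rw [hk]
        exact Nat.pow_div hk2 hpp.pos
      rw [hb, ← this]
      exact orderOf_pow_orderOf_div h0 (by rw [hk]; exact pow_dvd_pow p hk2)
    obtain ⟨g, hg⟩ := hB (K.map M.subtype) (Subgroup.zpowers b) hKcomm inferInstance
      (by rw [Nat.card_zpowers, hbo, hKcard])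
    have hbm : b ∈ (K.map M.subtype).map (MulAut.conj g).toMonoidHom := by
      rw [← hg]; exact Subgroup.mem_zpowers b
    obtain ⟨y, hy, hyb⟩ := Subgroup.mem_map.mp hbm
    have hyp : y ^ p = 1 := hEA.2 y (hKle hy)
    have hbp : b ^ p = 1 := by
      rw [← hyb]
      simp only [MulEquiv.coe_toMonoidHom, MulAut.conj_apply]
      rw [conj_pow, hyp, mul_one, mul_inv_cancel]
    have : p ^ 2 ∣ p := by
      rw [← hbo]; exact orderOf_dvd_of_pow_eq_one hbp
    have h2 : p ^ 2 ≤ p := Nat.le_of_dvd hpp.pos this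
    have h3 : p < p ^ 2 := by
      have := hpp.one_lt
      nlinarith
    omega

end Cfsg.Agent.S3909
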