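import Cfsg.Statements.S3910
import Cfsg.Agent.S0015
import Cfsg.Agent.H13.Coprime

set_option autoImplicit false
open Cfsg

namespace Cfsg.Agent.S3910

/-- A finite group in which subgroups of equal order coincide and all elements commute is
cyclic. -/
theorem isCyclic_of_unique {G : Type*} [Group G] [Finite G] (hcomm : ∀ a b : G, a * b = b * a)
    (hU : ∀ A B : Subgroup G, Nat.card ↥A = Nat.card ↥B → A = B) : IsCyclic G := by
  obtain ⟨g, hg⟩ := Finite.exists_max (fun x : G => orderOf x)
  refine ⟨⟨g, fun x => ?_⟩⟩
  have hdvd : orderOf x ∣ orderOf g := by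
    obtain ⟨z, -, hz⟩ := Commute.exists_orderOf_eq_lcm (G := G) (show Commute x g from hcomm x g)
    have h1 : Nat.lcm (orderOf x) (orderOf g) ≤ orderOf g := hz ▸ hg z
    have h2 : orderOf g ∣ Nat.lcm (orderOf x) (orderOf g) := Nat.dvd_lcm_right _ _
    have hgpos : 0 < orderOf g := orderOf_pos g
    have h3 : Nat.lcm (orderOf x) (orderOf g) = orderOf g :=
      le_antisymm h1 (Nat.le_of_dvd (Nat.lcm_pos (orderOf_pos x) hgpos) h2)
    rw [← h3]; exact Nat.dvd_lcm_left _ _
  have hxpos : 0 < orderOf x := orderOf_pos x
  have hgpos : 0 < orderOf g := orderOf_pos g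
  have hne : orderOf g / orderOf x ≠ 0 := by
    have := Nat.div_pos (Nat.le_of_dvd hgpos hdvd) hxpos
    omega
  have hord : orderOf (g ^ (orderOf g / orderOf x)) = orderOf x := by
    rw [orderOf_pow_of_dvd hne (Nat.div_dvd_of_dvd hdvd), Nat.div_div_self hdvd hgpos.ne']
  have heq : Subgroup.zpowers (g ^ (orderOf g / orderOf x)) = Subgroup.zpowers x :=
    hU _ _ (by rw [Nat.card_zpowers, Nat.card_zpowers, hord])
  have hx : x ∈ Subgroup.zpowers (g ^ (orderOf g / orderOf x)) := by
    rw [heq]; exact Subgroup.mem_zpowers x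
  have hle : Subgroup.zpowers (g ^ (orderOf g / orderOf x)) ≤ Subgroup.zpowers g := by
    rw [Subgroup.zpowers_le]
    exact Subgroup.pow_mem _ (Subgroup.mem_zpowers g) _
  exact hle hx

/-- A finite nilpotent group in which any two abelian subgroups of the same order are conjugate is cyclic. -/
theorem result {G : Type*} [Group G] [Finite G] (hB : ∀ A B : Subgroup G, IsMulCommutative ↥A → IsMulCommutative ↥B → Nat.card ↥A = Nat.card ↥B → ∃ g : G, B = A.map (MulAut.conj g).toMonoidHom) (hnil : Group.IsNilpotent G) : IsCyclic G := by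
  classical
  have := hnil
  -- a maximal abelian normal subgroup
  have hne : Nonempty {M : Subgroup G // M.Normal ∧ IsMulCommutative ↥M} :=
    ⟨⟨⊥, inferInstance, ⟨⟨fun a b => Subsingleton.elim _ _⟩⟩⟩⟩
  obtain ⟨⟨A, hAn, hAc⟩, hAmax⟩ := Finite.exists_max
    (fun M : {M : Subgroup G // M.Normal ∧ IsMulCommutative ↥M} => Nat.card ↥M.1)
  have hmax : ∀ M : Subgroup G, M.Normal → IsMulCommutative ↥M → A ≤ M → M = A := by
    intro M hMn hMc hle
    exact (Subgroup.eq_of_le_of_card_ge hle (hAmax ⟨M, hMn, hMc⟩)).symm
  have hC : Subgroup.centralizer (A : Set G) = A := Cfsg.Agent.S0015.result A hmax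
  have hAcomm : ∀ a ∈ A, ∀ b ∈ A, a * b = b * a := by
    intro a ha b hb
    have := (isMulCommutative_iff.mp hAc) ⟨a, ha⟩ ⟨b, hb⟩
    exact congrArg Subtype.val this
  -- elements of prime power order dividing |A| lie in A
  have step2 : ∀ (p k : ℕ) (x : G), p.Prime → orderOf x = p ^ k → p ^ k ∣ Nat.card ↥A → x ∈ A := by
    intro p k x hp hx hdvd
    have : Fact p.Prime := ⟨hp⟩
    obtain ⟨K, hK⟩ := Sylow.exists_subgroup_card_pow_prime p hdvd
    have hle : K.map A.subtype ≤ A := by
      rintro _ ⟨a, _, rfl⟩; exact a.2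
    have hc1 : IsMulCommutative ↥(K.map A.subtype) :=
      ⟨⟨fun a b => Subtype.ext (hAcomm a.1 (hle a.2) b.1 (hle b.2))⟩⟩
    have hc2 : IsMulCommutative ↥(Subgroup.zpowers x) := inferInstance
    obtain ⟨g, hg⟩ := hB (K.map A.subtype) (Subgroup.zpowers x) hc1 hc2 (by
      rw [Subgroup.card_map_of_injective A.subtype_injective, hK, Nat.card_zpowers, hx])
    have hxm : x ∈ (K.map A.subtype).map (MulAut.conj g).toMonoidHom := by
      rw [← hg]; exact Subgroup.mem_zpowers x
    obtain ⟨a, ha, rfl⟩ := hxm
    exact hAn.conj_mem a (hle ha) g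
  -- all elements of prime power order lie in A
  have claimP : ∀ (n : ℕ) (p k : ℕ) (y : G), p.Prime → orderOf y = p ^ k → p ^ k = n → y ∈ A := by
    intro n
    induction n using Nat.strong_induction_on with
    | _ n ih =>
      intro p e y hp hy hn
      by_cases hd : p ^ e ∣ Nat.card ↥A
      · exact step2 p e y hp hy hd
      · have he : e ≠ 0 := by
          rintro rfl
          exact hd (by simp)
        have hz : orderOf (y ^ p) = p ^ (e - 1) := by
          rw [orderOf_pow_of_dvd hp.ne_zero (by rw [hy]; exact dvd_pow_self p he), hy]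
          have : p ^ e = p ^ (e - 1) * p := by
            rw [← pow_succ]; congr 1; omega
          rw [this, Nat.mul_div_cancel _ hp.pos]
        have hzA : y ^ p ∈ A := by
          refine ih (p ^ (e - 1)) ?_ p (e - 1) (y ^ p) hp hz rfl
          rw [← hn]
          exact Nat.pow_lt_pow_right hp.one_lt (by omega)
        -- y centralizes A
        have hD : Nat.card ↥A ∣ Nat.card ↥(A ⊓ Subgroup.centralizer {y}) := by
          rw [Nat.dvd_iff_prime_pow_dvd_dvd]
          intro q k hq hqk
          by_cases hqp : q = p
          · subst hqp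
            have hk : k ≤ e - 1 := by
              by_contra hk
              exact hd ((pow_dvd_pow q (by omega)).trans hqk)
            have h1 : Subgroup.zpowers (y ^ q) ≤ A ⊓ Subgroup.centralizer {y} := by
              rw [Subgroup.zpowers_le]
              refine Subgroup.mem_inf.mpr ⟨hzA, ?_⟩
              rw [Subgroup.mem_centralizer_iff]
              intro h hh
              rw [Set.mem_singleton_iff] at hh
              subst hh
              rw [← pow_succ, ← pow_succ']
            have h2 := Subgroup.card_dvd_of_le h1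
            rw [Nat.card_zpowers, hz] at h2
            exact (pow_dvd_pow q hk).trans h2
          · have : Fact q.Prime := ⟨hq⟩
            obtain ⟨K, hK⟩ := Sylow.exists_subgroup_card_pow_prime q hqk
            have hle : K.map A.subtype ≤ A ⊓ Subgroup.centralizer {y} := by
              rintro _ ⟨a, ha, rfl⟩
              refine Subgroup.mem_inf.mpr ⟨a.2, ?_⟩
              rw [Subgroup.mem_centralizer_iff]
              intro h hh
              rw [Set.mem_singleton_iff] at hh
              subst hh
              have ho : orderOf (a : G) ∣ q ^ k := by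
                rw [Subgroup.orderOf_coe, ← hK]
                exact Subgroup.orderOf_dvd_natCard K ha
              have hcop : (orderOf h).Coprime (orderOf (a : G)) := by
                rw [hy]
                exact Nat.Coprime.coprime_dvd_right ho
                  (Nat.Coprime.pow _ _ ((Nat.coprime_primes hp hq).mpr (Ne.symm hqp)))
              exact Cfsg.Agent.H13.coprime_commute G h (a : G) hcop
            have h2 := Subgroup.card_dvd_of_le hle
            rwa [Subgroup.card_map_of_injective A.subtype_injective, hK] at h2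
        have hDA : A ⊓ Subgroup.centralizer {y} = A :=
          Subgroup.eq_of_le_of_card_ge inf_le_left (Nat.le_of_dvd Nat.card_pos hD)
        have hyC : y ∈ Subgroup.centralizer (A : Set G) := by
          rw [Subgroup.mem_centralizer_iff]
          intro a ha
          have ha' : a ∈ A ⊓ Subgroup.centralizer {y} := by rw [hDA]; exact ha
          have := (Subgroup.mem_inf.mp ha').2
          rw [Subgroup.mem_centralizer_iff] at this
          exact (this y rfl).symm
        rw [hC] at hyC
        exact hyC
  -- hence A = G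
  have hAtop : A = ⊤ := by
    apply Subgroup.eq_top_of_card_eq
    apply Nat.dvd_antisymm (Subgroup.card_subgroup_dvd_card A)
    rw [Nat.dvd_iff_prime_pow_dvd_dvd]
    intro q k hq hqk
    have : Fact q.Prime := ⟨hq⟩
    obtain ⟨K, hK⟩ := Sylow.exists_subgroup_card_pow_prime q hqk
    have hle : K ≤ A := by
      intro a ha
      have ho : orderOf a ∣ q ^ k := by
        rw [← hK]
        exact Subgroup.orderOf_dvd_natCard K ha
      obtain ⟨j, _, hj⟩ := (Nat.dvd_prime_pow hq).mp ho
      exact claimP (q ^ j) q j a hq hj rfl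
    have h2 := Subgroup.card_dvd_of_le hle
    rwa [hK] at h2
  have hcomm : ∀ a b : G, a * b = b * a := fun a b =>
    hAcomm a (by rw [hAtop]; exact Subgroup.mem_top a) b (by rw [hAtop]; exact Subgroup.mem_top b)
  apply isCyclic_of_unique hcomm
  intro B1 B2 hcard
  have hc1 : IsMulCommutative ↥B1 := ⟨⟨fun a b => Subtype.ext (hcomm a.1 b.1)⟩⟩
  have hc2 : IsMulCommutative ↥B2 := ⟨⟨fun a b => Subtype.ext (hcomm a.1 b.1)⟩⟩
  obtain ⟨g, hg⟩ := hB B1 B2 hc1 hc2 hcard
  rw [hg]
  ext x
  constructor
  · intro hx
    refine ⟨x, hx, ?_⟩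
    show g * x * g⁻¹ = x
    rw [hcomm g x, mul_inv_cancel_right]
  · rintro ⟨a, ha, rfl⟩
    have : (MulAut.conj g).toMonoidHom a = a := by
      show g * a * g⁻¹ = a
      rw [hcomm g a, mul_inv_cancel_right]
    rw [this]; exact ha

end Cfsg.Agent.S3910
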