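import Cfsg.Statements.S3917
-- import your own Cfsg.Agent.* helpers here

set_option autoImplicit false
open Cfsg

namespace Cfsg.Agent.S3917

/-- Say that a group has self-centralizing non-cyclic subgroups when every non-cyclic subgroup H satisfies C_G(H) ≤ H. A finite abelian group with self-centralizing non-cyclic subgroups is cyclic or elementary abelian of order p² for a prime p. -/
theorem result {G : Type*} [CommGroup G] [Finite G] (hX : (∀ H : Subgroup G, ¬ IsCyclic ↥H → Subgroup.centralizer (H : Set G) ≤ H)) :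
    IsCyclic G ∨ ∃ p : ℕ, p.Prime ∧ Nat.card G = p ^ 2 ∧ Monoid.exponent G = p := by
  classical
  haveI : Fintype G := Fintype.ofFinite G
  -- every non-cyclic subgroup is the whole group
  have hX' : ∀ H : Subgroup G, ¬ IsCyclic ↥H → H = ⊤ := by
    intro H hH
    have h1 := hX H hH
    have h2 : Subgroup.centralizer (H : Set G) = ⊤ := by
      rw [Subgroup.centralizer_eq_top_iff_subset, CommGroup.center_eq_top]
      exact Set.subset_univ _
    rw [h2] at h1
    exact top_le_iff.mp h1
  by_cases hc : IsCyclic G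
  · exact Or.inl hc
  right
  -- kernel of the n-th power map
  set K : ℕ → Subgroup G := fun n => (powMonoidHom n : G →* G).ker with hK
  have hKmem : ∀ n (a : G), a ∈ K n ↔ a ^ n = 1 := by
    intro n a
    simp [hK, MonoidHom.mem_ker]
  -- a cyclic K n has at most n elements
  have hKcyc : ∀ n, 0 < n → IsCyclic ↥(K n) → Nat.card ↥(K n) ≤ n := by
    intro n hn hcyc
    have h1 : Monoid.exponent ↥(K n) = Nat.card ↥(K n) := IsCyclic.exponent_eq_card
    have h2 : Monoid.exponent ↥(K n) ∣ n := by
      apply Monoid.exponent_dvd_of_forall_pow_eq_one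
      intro a
      apply Subtype.ext
      have := (hKmem n a.1).mp a.2
      simpa using this
    rw [h1] at h2
    exact Nat.le_of_dvd hn h2
  -- there is n with more than n solutions
  have hex : ∃ n, 0 < n ∧ n < Nat.card ↥(K n) := by
    by_contra hcon
    push Not at hcon
    apply hc
    apply isCyclic_of_card_pow_eq_one_le
    intro n hn
    have h1 := hcon n hn
    have h2 : Nat.card ↥(K n) = (Finset.univ.filter (fun a : G => a ^ n = 1)).card := by
      rw [Nat.card_eq_fintype_card, Fintype.card_subtype]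
      congr 1
      ext a
      simp [hKmem]
    rw [← h2]
    exact h1
  -- take the minimal one
  let n := Nat.find hex
  have hn : 0 < n ∧ n < Nat.card ↥(K n) := Nat.find_spec hex
  have hmin : ∀ m, m < n → ¬ (0 < m ∧ m < Nat.card ↥(K m)) := fun m hm => Nat.find_min hex hm
  have hKn : K n = ⊤ := hX' _ (fun hcyc => absurd (hKcyc n hn.1 hcyc) (not_le.mpr hn.2))
  have hpow : ∀ a : G, a ^ n = 1 := fun a => (hKmem n a).mp (hKn ▸ Subgroup.mem_top a)
  have hcardG : n < Nat.card G := by
    have := hn.2
    rwa [hKn, Subgroup.card_top] at this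
  have hn1 : n ≠ 1 := by
    intro h1
    have : ∀ a : G, a = 1 := fun a => by simpa [h1] using hpow a
    have : Nat.card G = 1 := Nat.card_eq_one_iff_unique.mpr ⟨⟨fun a b => by rw [this a, this b]⟩, ⟨1⟩⟩
    omega
  obtain ⟨p, hp, hpn⟩ := Nat.exists_prime_and_dvd hn1
  obtain ⟨m, hm⟩ := hpn
  have hm0 : 0 < m := by
    rcases Nat.eq_zero_or_pos m with h | h
    · rw [h, mul_zero] at hm; omega
    · exact h
  have hmn : m < n := by
    rw [hm]
    have := hp.two_le
    nlinarith
  have hKm : Nat.card ↥(K m) ≤ m := by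
    have := hmin m hmn
    push Not at this
    exact this hm0
  -- range of the m-th power map lies in K p
  have hrange : (powMonoidHom m : G →* G).range ≤ K p := by
    rintro _ ⟨a, rfl⟩
    rw [hKmem, powMonoidHom_apply, ← pow_mul, mul_comm, ← hm]
    exact hpow a
  have hcard : Nat.card G = Nat.card ↥(K m) * Nat.card ↥(powMonoidHom m : G →* G).range := by
    rw [← Subgroup.index_ker, Subgroup.card_mul_index]
  have hKp : p < Nat.card ↥(K p) := by
    have h1 : Nat.card ↥(powMonoidHom m : G →* G).range ≤ Nat.card ↥(K p) :=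
      Subgroup.card_le_of_le hrange
    have h2 : Nat.card G ≤ m * Nat.card ↥(K p) := by
      rw [hcard]
      exact Nat.mul_le_mul hKm h1
    have h3 : p * m < m * Nat.card ↥(K p) := by
      rw [← hm]; omega
    by_contra hcon
    push Not at hcon
    have : m * Nat.card ↥(K p) ≤ m * p := Nat.mul_le_mul_left m hcon
    rw [mul_comm m p] at this
    omega
  have hKp' : K p = ⊤ := hX' _ (fun hcyc => absurd (hKcyc p hp.pos hcyc) (not_le.mpr hKp))
  have hpowp : ∀ a : G, a ^ p = 1 := fun a => (hKmem p a).mp (hKp' ▸ Subgroup.mem_top a)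
  have hcardGp : p < Nat.card G := by
    have := hKp
    rwa [hKp', Subgroup.card_top] at this
  haveI : Fact p.Prime := ⟨hp⟩
  refine ⟨p, hp, ?_, ?_⟩
  · -- order p^2
    have hPG : IsPGroup p G := fun a => ⟨1, by simpa using hpowp a⟩
    obtain ⟨k, hk⟩ := IsPGroup.iff_card.mp hPG
    -- pick a ≠ 1
    have hnt : Nontrivial G := by
      rw [← Finite.one_lt_card_iff_nontrivial]
      have := hp.two_le
      omega
    obtain ⟨a, ha⟩ := exists_ne (1 : G)
    have hoa : orderOf a = p := by
      have h1 : orderOf a ∣ p := orderOf_dvd_of_pow_eq_one (hpowp a)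
      rcases (Nat.dvd_prime hp).mp h1 with h | h
      · exact absurd (orderOf_eq_one_iff.mp h) ha
      · exact h
    have hza : Nat.card ↥(Subgroup.zpowers a) = p := by
      rw [Nat.card_zpowers, hoa]
    have hzne : Subgroup.zpowers a ≠ ⊤ := by
      intro h
      rw [h, Subgroup.card_top] at hza
      omega
    obtain ⟨b, hb⟩ : ∃ b : G, b ∉ Subgroup.zpowers a := by
      by_contra hcon
      push Not at hcon
      exact hzne (eq_top_iff.mpr (fun x _ => hcon x))
    have hzb : Nat.card ↥(Subgroup.zpowers b) ≤ p := by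
      rw [Nat.card_zpowers]
      exact Nat.le_of_dvd hp.pos (orderOf_dvd_of_pow_eq_one (hpowp b))
    -- H = ⟨a⟩ ⊔ ⟨b⟩ is not cyclic
    have hH : Subgroup.zpowers a ⊔ Subgroup.zpowers b = ⊤ := by
      apply hX'
      intro hcyc
      have h1 : Monoid.exponent ↥(Subgroup.zpowers a ⊔ Subgroup.zpowers b) =
          Nat.card ↥(Subgroup.zpowers a ⊔ Subgroup.zpowers b) := IsCyclic.exponent_eq_card
      have h2 : Monoid.exponent ↥(Subgroup.zpowers a ⊔ Subgroup.zpowers b) ∣ p := by
        apply Monoid.exponent_dvd_of_forall_pow_eq_one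
        intro x
        apply Subtype.ext
        simpa using hpowp x.1
      rw [h1] at h2
      have h3 : Nat.card ↥(Subgroup.zpowers a ⊔ Subgroup.zpowers b) ≤ Nat.card ↥(Subgroup.zpowers a) := by
        rw [hza]; exact Nat.le_of_dvd hp.pos h2
      have h4 : Subgroup.zpowers a = Subgroup.zpowers a ⊔ Subgroup.zpowers b :=
        Subgroup.eq_of_le_of_card_ge le_sup_left h3
      apply hb
      rw [h4]
      exact (le_sup_right : Subgroup.zpowers b ≤ _) (Subgroup.mem_zpowers b)
    -- |G| ≤ p * p
    have hle : Nat.card G ≤ p * p := by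
      have hsurj : Function.Surjective (fun x : ↥(Subgroup.zpowers a) × ↥(Subgroup.zpowers b) => (x.1 : G) * (x.2 : G)) := by
        intro g
        have hg : g ∈ Subgroup.zpowers a ⊔ Subgroup.zpowers b := hH ▸ Subgroup.mem_top g
        obtain ⟨y, hy, z, hz, rfl⟩ := Subgroup.mem_sup.mp hg
        exact ⟨(⟨y, hy⟩, ⟨z, hz⟩), rfl⟩
      have h1 := Nat.card_le_card_of_surjective _ hsurj
      rw [Nat.card_prod, hza] at h1
      exact h1.trans (Nat.mul_le_mul_left p hzb)
    rw [hk] at hle hcardGp
    have hk2 : k ≤ 2 := by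
      have : p ^ k ≤ p ^ 2 := by rw [sq]; exact hle
      exact (Nat.pow_le_pow_iff_right hp.one_lt).mp this
    have hk1 : 1 < k := by
      have : p ^ 1 < p ^ k := by rw [pow_one]; exact hcardGp
      exact (Nat.pow_lt_pow_iff_right hp.one_lt).mp this
    have : k = 2 := by omega
    rw [hk, this]
  · -- exponent p
    have h1 : Monoid.exponent G ∣ p := Monoid.exponent_dvd_of_forall_pow_eq_one hpowp
    rcases (Nat.dvd_prime hp).mp h1 with h | h
    · exfalso
      have hsub : Subsingleton G := Monoid.exp_eq_one_iff.mp h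
      have : Nat.card G = 1 := Nat.card_eq_one_iff_unique.mpr ⟨hsub, ⟨1⟩⟩
      have := hp.two_le
      omega
    · exact h

end Cfsg.Agent.S3917
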