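import Cfsg.Statements.S3918
import Cfsg.Agent.S0126
import Cfsg.Agent.H69.Hypercenter

set_option autoImplicit false
open Cfsg

namespace Cfsg.Agent.S3918

/-- Say that a group has self-centralizing non-cyclic subgroups when every non-cyclic subgroup H satisfies C_G(H) ≤ H. For an odd prime p, a finite non-abelian p-group has self-centralizing non-cyclic subgroups if and only if it has order p³. -/
theorem result {G : Type*} [Group G] [Finite G] {p : ℕ} [Fact p.Prime] (hp : p ≠ 2) (hG : IsPGroup p G) (hna : ¬ IsMulCommutative G) :
    (∀ H : Subgroup G, ¬ IsCyclic ↥H → Subgroup.centralizer (H : Set G) ≤ H) ↔ Nat.card G = p ^ 3 := by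
  classical
  have hp' : p.Prime := Fact.out
  obtain ⟨k, hk⟩ := IsPGroup.iff_card.mp hG
  -- groups of order `p ^ j`, `j ≤ 2`, are abelian
  have hk3 : 3 ≤ k := by
    by_contra hlt
    apply hna
    have hk2 : k = 0 ∨ k = 1 ∨ k = 2 := by omega
    rcases hk2 with rfl | rfl | rfl
    · rw [pow_zero] at hk
      have : Subsingleton G := (Nat.card_eq_one_iff_unique.mp hk).1
      exact ⟨⟨fun a b => Subsingleton.elim _ _⟩⟩
    · rw [pow_one] at hk
      have : IsCyclic G := isCyclic_of_prime_card hk
      infer_instance
    · exact IsPGroup.isMulCommutative_of_card_eq_prime_sq hk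
  constructor
  · intro h
    -- `G` is not cyclic
    have hnc : ¬ IsCyclic G := by
      intro hc
      exact hna inferInstance
    obtain ⟨A, hAn, hAe, hAcard⟩ := Cfsg.Agent.S0126.result hp hG hnc
    -- `A` is not cyclic
    have hAnc : ¬ IsCyclic ↥A := by
      intro hc
      obtain ⟨g, hg⟩ := hc.exists_generator
      have h1 : orderOf g = Nat.card ↥A := orderOf_eq_card_of_forall_mem_zpowers hg
      have h2 : g ^ p = 1 := Subtype.ext (hAe.2 g.1 g.2)
      have h3 : orderOf g ∣ p := orderOf_dvd_of_pow_eq_one h2
      rw [h1, hAcard] at h3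
      have h4 := Nat.le_of_dvd hp'.pos h3
      have h5 := hp'.one_lt
      nlinarith
    have hCA : Subgroup.centralizer (A : Set G) ≤ A := h A hAnc
    -- a central element of `A`
    have : Group.IsNilpotent G := hG.isNilpotent
    have := hAn
    have hAbot : A ≠ ⊥ := by
      intro h0
      rw [h0, Subgroup.card_bot] at hAcard
      have h5 := hp'.one_lt
      nlinarith
    obtain ⟨z, hzA, hz1, hzZ⟩ := Cfsg.Agent.H69.exists_central_of_normal_of_nilpotent A hAbot
    have hzp : z ^ p = 1 := hAe.2 z hzA
    have hzo : orderOf z = p := orderOf_eq_prime hzp hz1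
    have hzcard : Nat.card (Subgroup.zpowers z) = p := by rw [Nat.card_zpowers, hzo]
    -- an element of `A` outside `⟨z⟩`
    obtain ⟨w, hwA, hwz⟩ : ∃ w ∈ A, w ∉ Subgroup.zpowers z := by
      by_contra hcon
      push Not at hcon
      have h1 : A ≤ Subgroup.zpowers z := hcon
      have h2 := Subgroup.card_le_of_le h1
      rw [hAcard, hzcard] at h2
      have h5 := hp'.one_lt
      nlinarith
    have hw1 : w ≠ 1 := by
      intro h0
      exact hwz (h0 ▸ Subgroup.one_mem _)
    -- `A = ⟨z, w⟩`
    have hKA : Subgroup.closure ({z, w} : Set G) = A := by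
      apply Subgroup.eq_of_le_of_card_ge
      · rw [Subgroup.closure_le]
        intro x hx
        rcases hx with rfl | hx
        · exact hzA
        · rw [Set.mem_singleton_iff.mp hx]; exact hwA
      · have hle : Subgroup.closure ({z, w} : Set G) ≤ A := by
          rw [Subgroup.closure_le]
          intro x hx
          rcases hx with rfl | hx
          · exact hzA
          · rw [Set.mem_singleton_iff.mp hx]; exact hwA
        have hzK : Subgroup.zpowers z ≤ Subgroup.closure ({z, w} : Set G) := by
          rw [Subgroup.zpowers_le]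
          exact Subgroup.subset_closure (by simp)
        have hwK : w ∈ Subgroup.closure ({z, w} : Set G) := Subgroup.subset_closure (by simp)
        have hd1 : Nat.card (Subgroup.closure ({z, w} : Set G)) ∣ p ^ 2 := by
          rw [← hAcard]; exact Subgroup.card_dvd_of_le hle
        obtain ⟨j, hj2, hj⟩ := (Nat.dvd_prime_pow hp').mp hd1
        have hd2 : p ∣ Nat.card (Subgroup.closure ({z, w} : Set G)) := by
          rw [← hzcard]; exact Subgroup.card_dvd_of_le hzK
        have hjne : j ≠ 1 := by
          intro hj1
          rw [hj1, pow_one] at hj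
          have h6 : Subgroup.zpowers z = Subgroup.closure ({z, w} : Set G) :=
            Subgroup.eq_of_le_of_card_ge hzK (by rw [hj, hzcard])
          exact hwz (h6 ▸ hwK)
        have hj0 : j ≠ 0 := by
          intro hj0
          rw [hj0, pow_zero] at hj
          rw [hj] at hd2
          exact hp'.one_lt.ne' (Nat.dvd_one.mp hd2)
        have hj2' : j = 2 := by omega
        rw [hAcard, hj, hj2']
    -- the centralizer of `w` is contained in `A`
    have hCw : Subgroup.centralizer ({w} : Set G) ≤ A := by
      intro g hg
      apply hCA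
      rw [Subgroup.mem_centralizer_iff]
      intro a ha
      have h1 : Subgroup.closure ({z, w} : Set G) ≤ Subgroup.centralizer ({g} : Set G) := by
        rw [Subgroup.closure_le]
        intro x hx
        rw [SetLike.mem_coe, Subgroup.mem_centralizer_iff]
        intro y hy
        rw [Set.mem_singleton_iff.mp hy]
        rcases hx with rfl | hx
        · exact Subgroup.mem_center_iff.mp hzZ g
        · rw [Set.mem_singleton_iff.mp hx]
          rw [Subgroup.mem_centralizer_iff] at hg
          exact (hg w (Set.mem_singleton w)).symm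
      have h2 : a ∈ Subgroup.centralizer ({g} : Set G) := h1 (hKA ▸ ha)
      rw [Subgroup.mem_centralizer_iff] at h2
      exact (h2 g (Set.mem_singleton g)).symm
    -- the index of the centralizer of `w` is at most `p`
    obtain ⟨C, hC⟩ : ∃ C : Subgroup G, C = Subgroup.centralizer ({w} : Set G) := ⟨_, rfl⟩
    have hCmem : ∀ g : G, g ∈ C ↔ w * g = g * w := by
      intro g
      rw [hC, Subgroup.mem_centralizer_iff]
      constructor
      · intro h1
        exact h1 w (Set.mem_singleton w)
      · intro h1 y hy
        rw [Set.mem_singleton_iff.mp hy]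
        exact h1
    have hwell : ∀ a b : G, QuotientGroup.leftRel C a b → (⟨a * w * a⁻¹, hAn.conj_mem w hwA a⟩ : ↥A) =
        ⟨b * w * b⁻¹, hAn.conj_mem w hwA b⟩ := by
      intro a b hab
      rw [QuotientGroup.leftRel_apply, hCmem] at hab
      apply Subtype.ext
      show a * w * a⁻¹ = b * w * b⁻¹
      have h1 : b * w * b⁻¹ = a * ((a⁻¹ * b) * w) * b⁻¹ := by group
      rw [h1, ← hab]
      group
    obtain ⟨F, hF⟩ : ∃ F : G ⧸ C → ↥A, ∀ g : G, F (QuotientGroup.mk g) = ⟨g * w * g⁻¹, hAn.conj_mem w hwA g⟩ :=
      ⟨fun q => Quotient.liftOn' q (fun g => (⟨g * w * g⁻¹, hAn.conj_mem w hwA g⟩ : ↥A)) hwell, fun g => rfl⟩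
    have hFinj : Function.Injective F := by
      intro q₁ q₂
      induction q₁ using QuotientGroup.induction_on with
      | H a =>
        induction q₂ using QuotientGroup.induction_on with
        | H b =>
          intro hab
          rw [hF, hF] at hab
          have h1 : a * w * a⁻¹ = b * w * b⁻¹ := congrArg Subtype.val hab
          rw [QuotientGroup.eq, hCmem]
          have h2 : w * (a⁻¹ * b) = a⁻¹ * (a * w * a⁻¹) * b := by group
          rw [h2, h1]
          group
    have hidx : C.index ≤ p := by
      have h1 : C.index ∣ p ^ k := by rw [← hk]; exact C.index_dvd_card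
      obtain ⟨j, _, hj⟩ := (Nat.dvd_prime_pow hp').mp h1
      have h2 : C.index ≤ p ^ 2 := by
        rw [Subgroup.index_eq_card, ← hAcard]
        exact Nat.card_le_card_of_injective F hFinj
      have hj2 : j ≤ 2 := by
        rw [hj] at h2
        exact (Nat.pow_le_pow_iff_right hp'.one_lt).mp h2
      have hjne : j ≠ 2 := by
        intro hj2'
        have h3 : Nat.card (G ⧸ C) = Nat.card ↥A := by
          rw [← Subgroup.index_eq_card, hj, hj2', hAcard]
        have hbij : Function.Bijective F :=
          (Nat.bijective_iff_injective_and_card F).mpr ⟨hFinj, h3⟩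
        obtain ⟨q, hq⟩ := hbij.2 1
        induction q using QuotientGroup.induction_on with
        | H g =>
          rw [hF] at hq
          have h4 : g * w * g⁻¹ = 1 := congrArg Subtype.val hq
          apply hw1
          have h5 : w = g⁻¹ * (g * w * g⁻¹) * g := by group
          rw [h5, h4]
          group
      have hj1 : j ≤ 1 := by omega
      rw [hj]
      calc p ^ j ≤ p ^ 1 := Nat.pow_le_pow_right hp'.pos hj1
        _ = p := pow_one p
    have hCcard : Nat.card C ≤ p ^ 2 := by
      rw [← hAcard]
      exact Subgroup.card_le_of_le (hC ▸ hCw)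
    have hGle : p ^ k ≤ p ^ 3 := by
      rw [← hk, ← C.index_mul_card]
      calc C.index * Nat.card C ≤ p * p ^ 2 := Nat.mul_le_mul hidx hCcard
        _ = p ^ 3 := by ring
    have hk3' : k ≤ 3 := (Nat.pow_le_pow_iff_right hp'.one_lt).mp hGle
    have : k = 3 := by omega
    rw [hk, this]
  · intro hcard H hH
    have hk3e : k = 3 := by
      rw [hk] at hcard
      exact Nat.pow_right_injective hp'.two_le hcard
    have hHd : Nat.card H ∣ p ^ 3 := by rw [← hcard]; exact Subgroup.card_subgroup_dvd_card H
    obtain ⟨j, hj3, hj⟩ := (Nat.dvd_prime_pow hp').mp hHd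
    have hj' : j = 0 ∨ j = 1 ∨ j = 2 ∨ j = 3 := by omega
    rcases hj' with rfl | rfl | rfl | rfl
    · exfalso
      apply hH
      rw [pow_zero] at hj
      have : Subsingleton ↥H := (Nat.card_eq_one_iff_unique.mp hj).1
      infer_instance
    · exfalso
      apply hH
      rw [pow_one] at hj
      exact isCyclic_of_prime_card hj
    · -- `|H| = p ^ 2`
      have hHG : IsPGroup p ↥H := hG.to_subgroup H
      have hHcomm : ∀ a b : ↥H, a * b = b * a :=
        (IsPGroup.isMulCommutative_of_card_eq_prime_sq hj).is_comm.comm
      have hHC : H ≤ Subgroup.centralizer (H : Set G) := by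
        intro x hx
        rw [Subgroup.mem_centralizer_iff]
        intro y hy
        exact congrArg Subtype.val (hHcomm ⟨y, hy⟩ ⟨x, hx⟩)
      have hCd : Nat.card (Subgroup.centralizer (H : Set G)) ∣ p ^ 3 := by
        rw [← hcard]; exact Subgroup.card_subgroup_dvd_card _
      obtain ⟨i, hi3, hi⟩ := (Nat.dvd_prime_pow hp').mp hCd
      have hile : p ^ 2 ≤ p ^ i := by
        rw [← hj, ← hi]
        exact Subgroup.card_le_of_le hHC
      have hi2 : 2 ≤ i := (Nat.pow_le_pow_iff_right hp'.one_lt).mp hile
      have hi' : i = 2 ∨ i = 3 := by omega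
      rcases hi' with rfl | rfl
      · have h1 : H = Subgroup.centralizer (H : Set G) :=
          Subgroup.eq_of_le_of_card_ge hHC (by rw [hi, hj])
        exact le_of_eq h1.symm
      · -- the centralizer is everything: `H` is central, so `G / Z(G)` is cyclic
        exfalso
        apply hna
        have htop : Subgroup.centralizer (H : Set G) = ⊤ :=
          Subgroup.eq_top_of_card_eq _ (by rw [hi, hcard])
        have hHZ : H ≤ Subgroup.center G := by
          intro x hx
          rw [Subgroup.mem_center_iff]
          intro g
          have h1 : g ∈ Subgroup.centralizer (H : Set G) := htop ▸ Subgroup.mem_top g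
          rw [Subgroup.mem_centralizer_iff] at h1
          exact (h1 x hx).symm
        have hZd : Nat.card (Subgroup.center G) ∣ p ^ 3 := by
          rw [← hcard]; exact Subgroup.card_subgroup_dvd_card _
        obtain ⟨l, hl3, hl⟩ := (Nat.dvd_prime_pow hp').mp hZd
        have hlle : p ^ 2 ≤ p ^ l := by
          rw [← hj, ← hl]
          exact Subgroup.card_le_of_le hHZ
        have hl2 : 2 ≤ l := (Nat.pow_le_pow_iff_right hp'.one_lt).mp hlle
        have hq : Nat.card (G ⧸ Subgroup.center G) * p ^ l = p ^ 3 := by
          rw [← hl, ← hcard]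
          exact (Subgroup.card_eq_card_quotient_mul_card_subgroup (Subgroup.center G)).symm
        have hcyc : IsCyclic (G ⧸ Subgroup.center G) := by
          have hl' : l = 2 ∨ l = 3 := by omega
          rcases hl' with rfl | rfl
          · have h2 : Nat.card (G ⧸ Subgroup.center G) = p := by
              have h3 : Nat.card (G ⧸ Subgroup.center G) * p ^ 2 = p * p ^ 2 := by rw [hq]; ring
              exact Nat.eq_of_mul_eq_mul_right (pow_pos hp'.pos 2) h3
            exact isCyclic_of_prime_card h2
          · have h2 : Nat.card (G ⧸ Subgroup.center G) = 1 := by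
              have h3 : Nat.card (G ⧸ Subgroup.center G) * p ^ 3 = 1 * p ^ 3 := by rw [hq]; ring
              exact Nat.eq_of_mul_eq_mul_right (pow_pos hp'.pos 3) h3
            have : Subsingleton (G ⧸ Subgroup.center G) := (Nat.card_eq_one_iff_unique.mp h2).1
            infer_instance
        exact isMulCommutative_of_isCyclic_quotient_center_self G
    · -- `H = ⊤`
      have h1 : H = ⊤ := Subgroup.eq_top_of_card_eq _ (by rw [hj, hcard])
      rw [h1]
      exact le_top

end Cfsg.Agent.S3918
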