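import Mathlib
import Cfsg.Statements.S3919
import Cfsg.Agent.H3.MaxClass2
import Cfsg.Agent.H59.UniqueInvolution

set_option autoImplicit false
open Cfsg

namespace Cfsg.Agent.S3919

section Aux

variable {G : Type*} [Group G]

theorem comm_of_sq {x y : G} (hx : x * x = 1) (hy : y * y = 1) (hxy : (x * y) * (x * y) = 1) :
    x * y = y * x := by
  have h1 : x = x⁻¹ := mul_eq_one_iff_eq_inv.mp hx
  have h2 : y = y⁻¹ := mul_eq_one_iff_eq_inv.mp hy
  have h3 : x * y = (x * y)⁻¹ := mul_eq_one_iff_eq_inv.mp hxy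
  calc x * y = (x * y)⁻¹ := h3
    _ = y⁻¹ * x⁻¹ := mul_inv_rev _ _
    _ = y * x := by rw [← h1, ← h2]

/-- The four-group `{1, s, z, s * z}` generated by two commuting involutions. -/
def kleinSub (s z : G) (hs : s * s = 1) (hz : z * z = 1) (hc : s * z = z * s) : Subgroup G where
  carrier := {1, s, z, s * z}
  mul_mem' := by
    have hs' : ∀ x, s * (s * x) = x := fun x => by rw [← mul_assoc, hs, one_mul]

    have hc' : ∀ x, z * (s * x) = s * (z * x) := fun x => by rw [← mul_assoc, ← hc, mul_assoc]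
    intro a b ha hb
    simp only [Set.mem_insert_iff, Set.mem_singleton_iff] at ha hb ⊢
    rcases ha with ha | ha | ha | ha <;> rcases hb with hb | hb | hb | hb <;>
      rw [ha, hb] <;> simp [mul_assoc, hs, hz, hs', hc', ← hc]
  one_mem' := by simp
  inv_mem' := by
    intro a ha
    simp only [Set.mem_insert_iff, Set.mem_singleton_iff] at ha ⊢
    have hsi : s⁻¹ = s := (mul_eq_one_iff_eq_inv.mp hs).symm
    have hzi : z⁻¹ = z := (mul_eq_one_iff_eq_inv.mp hz).symm
    rcases ha with ha | ha | ha | ha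
    · rw [ha]; simp
    · rw [ha, hsi]; simp
    · rw [ha, hzi]; simp
    · rw [ha, mul_inv_rev, hsi, hzi, ← hc]; simp

theorem exists_klein (s z : G) (hs : s * s = 1) (hz : z * z = 1) (hc : s * z = z * s)
    (hs1 : s ≠ 1) (hz1 : z ≠ 1) (hsz : s ≠ z) :
    ∃ V : Subgroup G, Nat.card V = 4 ∧ ∀ x ∈ V, x * x = 1 := by
  refine ⟨kleinSub s z hs hz hc, ?_, ?_⟩
  · have h0 : Nat.card (kleinSub s z hs hz hc) = Set.ncard ({1, s, z, s * z} : Set G) :=
      Nat.card_coe_set_eq _
    rw [h0, Set.ncard_insert_of_notMem, Set.ncard_insert_of_notMem, Set.ncard_pair]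
    · intro h
      apply hs1
      have : 1 * z = s * z := by rw [one_mul]; exact h
      exact (mul_right_cancel this).symm
    · simp only [Set.mem_insert_iff, Set.mem_singleton_iff]
      rintro (h | h)
      · exact hsz h
      · apply hz1
        have : s * 1 = s * z := by rw [mul_one]; exact h
        exact (mul_left_cancel this).symm
    · simp only [Set.mem_insert_iff, Set.mem_singleton_iff]
      rintro (h | h | h)
      · exact hs1 h.symm
      · exact hz1 h.symm
      · apply hsz
        have h2 : s * z = z * z := by rw [hz]; exact h.symm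
        exact mul_right_cancel h2
  · intro x hx
    have hx' : x ∈ ({1, s, z, s * z} : Set G) := hx
    simp only [Set.mem_insert_iff, Set.mem_singleton_iff] at hx'
    rcases hx' with h | h | h | h
    · rw [h, one_mul]
    · rw [h, hs]
    · rw [h, hz]
    · rw [h]
      calc s * z * (s * z) = s * z * (z * s) := by rw [hc]
        _ = s * (z * z) * s := by group
        _ = 1 := by rw [hz, mul_one, hs]

theorem not_cyclic_of_sq (V : Subgroup G) (hV : Nat.card V = 4) (hsq : ∀ x ∈ V, x * x = 1) :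
    ¬ IsCyclic V := by
  intro hcyc
  obtain ⟨g, hg⟩ := hcyc.exists_generator
  have h1 : orderOf g = Nat.card V := orderOf_eq_card_of_forall_mem_zpowers hg
  have h2 : g ^ 2 = 1 := by
    rw [pow_two]; exact Subtype.ext (hsq g.1 g.2)
  have h3 := orderOf_dvd_of_pow_eq_one h2
  rw [h1, hV] at h3
  omega

theorem centralizer_eq_of_sq
    (hyp : ∀ H : Subgroup G, ¬ IsCyclic ↥H → Subgroup.centralizer (H : Set G) ≤ H)
    (V : Subgroup G) (hV : Nat.card V = 4) (hsq : ∀ x ∈ V, x * x = 1) :
    Subgroup.centralizer (V : Set G) = V := by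
  apply le_antisymm (hyp V (not_cyclic_of_sq V hV hsq))
  intro x hx
  rw [Subgroup.mem_centralizer_iff]
  intro y hy
  exact comm_of_sq (hsq y hy) (hsq x hx) (hsq _ (V.mul_mem hy hx))

end Aux

theorem three_le {G : Type*} [Group G] [Finite G] (hna : ¬ IsMulCommutative G) (n : ℕ)
    (hG : Nat.card G = 2 ^ n) : 3 ≤ n := by
  by_contra hlt
  apply hna
  have hfact : Fact (Nat.Prime 2) := ⟨Nat.prime_two⟩
  have hn : n = 0 ∨ n = 1 ∨ n = 2 := by omega
  rcases hn with rfl | rfl | rfl
  · have : Subsingleton G := (Nat.card_eq_one_iff_unique.mp (by simpa using hG)).1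
    exact ⟨⟨fun a b => Subsingleton.elim _ _⟩⟩
  · have : IsCyclic G := isCyclic_of_prime_card (p := 2) (by simpa using hG)
    infer_instance
  · exact IsPGroup.isMulCommutative_of_card_eq_prime_sq hG

theorem forward {G : Type*} [Group G] [Finite G] (hna : ¬ IsMulCommutative G) (n : ℕ)
    (hG : Nat.card G = 2 ^ n)
    (hyp : ∀ H : Subgroup G, ¬ IsCyclic ↥H → Subgroup.centralizer (H : Set G) ≤ H) :
    Group.nilpotencyClass G = n - 1 := by
  have hfact : Fact (Nat.Prime 2) := ⟨Nat.prime_two⟩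
  have hP : IsPGroup 2 G := IsPGroup.of_card hG
  by_cases hu : ∃ s z : G, s * s = 1 ∧ z * z = 1 ∧ s * z = z * s ∧ s ≠ 1 ∧ z ≠ 1 ∧ s ≠ z
  · obtain ⟨s, z, hs, hz, hc, hs1, hz1, hsz⟩ := hu
    obtain ⟨V, hV, hsq⟩ := exists_klein s z hs hz hc hs1 hz1 hsz
    exact H3.suzuki_aux 2 n G hG V (by rw [hV]; norm_num) (centralizer_eq_of_sq hyp V hV hsq)
  · have hn3 := three_le hna n hG
    have hnt : Nontrivial G := by
      apply Finite.one_lt_card_iff_nontrivial.mp
      rw [hG]
      exact Nat.one_lt_two_pow (by omega)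
    have hcn : Nontrivial (Subgroup.center G) := hP.center_nontrivial
    have hcdvd : 2 ∣ Nat.card (Subgroup.center G) := by
      have h1 : Nat.card (Subgroup.center G) ∣ 2 ^ n := hG ▸ Subgroup.card_subgroup_dvd_card _
      obtain ⟨j, hj, hj2⟩ := (Nat.dvd_prime_pow Nat.prime_two).mp h1
      have hj0 : j ≠ 0 := by
        rintro rfl
        have h2 : Nat.card (Subgroup.center G) = 1 := by simpa using hj2
        have h3 := Finite.one_lt_card_iff_nontrivial.mpr hcn
        omega
      rw [hj2]; exact dvd_pow_self 2 hj0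
    obtain ⟨⟨z, hzc⟩, hz⟩ := exists_prime_orderOf_dvd_card' 2 hcdvd
    rw [Subgroup.orderOf_mk] at hz
    have hzz : z * z = 1 := by rw [← pow_two, ← hz]; exact pow_orderOf_eq_one z
    have hz1 : z ≠ 1 := by rintro rfl; simp at hz
    have huniq : ∃! x : G, orderOf x = 2 := by
      refine ⟨z, hz, fun x hx => ?_⟩
      by_contra hxz
      apply hu
      refine ⟨x, z, ?_, hzz, ?_, ?_, hz1, hxz⟩
      · rw [← pow_two, ← hx]; exact pow_orderOf_eq_one x
      · exact Subgroup.mem_center_iff.mp hzc x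
      · rintro rfl; simp at hx
    obtain ⟨a, g, k, hk2, hoa, hga, hconj, hgg, hcos, hout, hinv, hw1, haa⟩ :=
      H59.quaternion_structure_of_noncomm hP hna huniq
    have hww : a ^ (2 ^ (k - 1)) * a ^ (2 ^ (k - 1)) = 1 := by
      rw [← pow_add, ← two_mul, ← pow_succ', (by omega : k - 1 + 1 = k), ← hoa]
      exact pow_orderOf_eq_one a
    have hog : orderOf g = 2 ^ 2 := by
      apply orderOf_eq_prime_pow
      · rw [pow_one, pow_two, hgg]; exact hw1
      · have h4 : g ^ 2 ^ (1 + 1) = (g * g) * (g * g) := by norm_num [pow_succ, mul_assoc]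
        rw [h4, hgg]; exact hww
    have hcent : Subgroup.centralizer ((Subgroup.zpowers g : Subgroup G) : Set G)
        = Subgroup.zpowers g := by
      apply le_antisymm
      · intro c hc
        have hcg : g * c = c * g := Subgroup.mem_centralizer_iff.mp hc g (Subgroup.mem_zpowers g)
        have key : ∀ c ∈ Subgroup.zpowers a, g * c = c * g → c ∈ Subgroup.zpowers g := by
          intro c hca hcg
          obtain ⟨i, rfl⟩ := Subgroup.mem_zpowers_iff.mp hca
          have h1 : g * a ^ i * g⁻¹ = (a ^ i)⁻¹ := by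
            rw [← conj_zpow, hconj, inv_zpow]
          have h2 : g * a ^ i * g⁻¹ = a ^ i := by rw [hcg, mul_inv_cancel_right]
          have h3 : a ^ i * a ^ i = 1 := by
            have h4 : a ^ i = (a ^ i)⁻¹ := h2.symm.trans h1
            exact mul_eq_one_iff_eq_inv.mpr h4
          rcases hinv _ h3 with h | h
          · rw [h]; exact one_mem _
          · rw [h, ← hgg]; exact mul_mem (Subgroup.mem_zpowers g) (Subgroup.mem_zpowers g)
        rcases hcos c with h | h
        · exact key c h hcg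
        · have h5 : g⁻¹ * c ∈ Subgroup.zpowers g :=
            key _ h (by rw [mul_inv_cancel_left, mul_assoc, ← hcg, inv_mul_cancel_left])
          have h6 := mul_mem (Subgroup.mem_zpowers g) h5
          rwa [mul_inv_cancel_left] at h6
      · intro c hc
        rw [Subgroup.mem_centralizer_iff]
        intro y hy
        obtain ⟨i, rfl⟩ := Subgroup.mem_zpowers_iff.mp hc
        obtain ⟨j, rfl⟩ := Subgroup.mem_zpowers_iff.mp hy
        rw [← zpow_add, ← zpow_add, add_comm]
    exact H3.suzuki_aux 2 n G hG (Subgroup.zpowers g) (by rw [Nat.card_zpowers, hog]) hcent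

theorem unique_involution_of_cyclic {C : Type*} [Group C] [Finite C] [IsCyclic C] {x y : C}
    (hx : orderOf x = 2) (hy : orderOf y = 2) : x = y := by
  classical
  have : Fintype C := Fintype.ofFinite C
  have hd : 2 ∣ Fintype.card C := by rw [← hx]; exact orderOf_dvd_card
  have h := IsCyclic.card_orderOf_eq_totient hd
  rw [Nat.totient_two] at h
  have hx' : x ∈ Finset.univ.filter (fun a : C => orderOf a = 2) := by simp [hx]
  have hy' : y ∈ Finset.univ.filter (fun a : C => orderOf a = 2) := by simp [hy]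
  exact Finset.card_le_one.mp h.le x hx' y hy'

theorem backward {G : Type*} [Group G] [Finite G] (hna : ¬ IsMulCommutative G) (n : ℕ)
    (hG : Nat.card G = 2 ^ n) (hc : Group.nilpotencyClass G = n - 1) (H : Subgroup G)
    (hH : ¬ IsCyclic H) : Subgroup.centralizer (H : Set G) ≤ H := by
  have hfact : Fact (Nat.Prime 2) := ⟨Nat.prime_two⟩
  have hn3 := three_le hna n hG
  obtain ⟨A, hAc, hA2⟩ := H3.exists_cyclic_index_two n G hn3 hG hc
  have hZ : Nat.card (Subgroup.center G) = 2 := H3.card_center_of_maxclass 2 n G hG hn3 hc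
  have hAcomm : ∀ x ∈ A, ∀ y ∈ A, x * y = y * x := by
    intro x hx y hy
    have : IsMulCommutative A := inferInstance
    exact setLike_mul_comm hx hy
  have hout : ∀ x y : G, x ∉ A → y ∉ A → x * y⁻¹ ∈ A := by
    intro x y hx hy
    rw [Subgroup.mul_mem_iff_of_index_two hA2]
    simp [hx, hy]
  have L1 : ∀ a ∈ A, ∀ g : G, g ∉ A → a * g = g * a → a ∈ Subgroup.center G := by
    intro a ha g hg hag
    rw [Subgroup.mem_center_iff]
    intro y
    by_cases hy : y ∈ A
    · exact hAcomm y hy a ha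
    · obtain ⟨b, hb, rfl⟩ : ∃ b ∈ A, y = b * g := ⟨y * g⁻¹, hout y g hy hg, by group⟩
      calc b * g * a = b * (g * a) := by rw [mul_assoc]
        _ = b * (a * g) := by rw [hag]
        _ = (b * a) * g := by rw [mul_assoc]
        _ = (a * b) * g := by rw [hAcomm b hb a ha]
        _ = a * (b * g) := by rw [mul_assoc]
  have hZA : Subgroup.center G ≤ A := by
    intro x hx
    by_contra hxA
    apply hna
    refine ⟨⟨fun y1 y2 => ?_⟩⟩
    have dec : ∀ y : G, ∃ b ∈ A, ∃ c ∈ Subgroup.center G, y = b * c := by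
      intro y
      by_cases hy : y ∈ A
      · exact ⟨y, hy, 1, one_mem _, (mul_one y).symm⟩
      · exact ⟨y * x⁻¹, hout y x hy hxA, x, hx, by group⟩
    obtain ⟨b1, hb1, c1, hc1, rfl⟩ := dec y1
    obtain ⟨b2, hb2, c2, hc2, rfl⟩ := dec y2
    have e1 : ∀ t : G, t * c1 = c1 * t := Subgroup.mem_center_iff.mp hc1
    have e2 : ∀ t : G, t * c2 = c2 * t := Subgroup.mem_center_iff.mp hc2
    have s1 : b1 * c1 * (b2 * c2) = (b1 * b2) * (c1 * c2) := by
      rw [mul_assoc b1 c1, ← mul_assoc c1 b2, ← e1 b2, mul_assoc b2, ← mul_assoc b1]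
    have s2 : b2 * c2 * (b1 * c1) = (b2 * b1) * (c2 * c1) := by
      rw [mul_assoc b2 c2, ← mul_assoc c2 b1, ← e2 b1, mul_assoc b1, ← mul_assoc b2]
    rw [s1, s2, hAcomm b1 hb1 b2 hb2, e2 c1]
  have hex : ∃ g ∈ H, g ∉ A := by
    by_contra hno
    push Not at hno
    apply hH
    have hle : H ≤ A := hno
    have hcy : IsCyclic (H.subgroupOf A) := inferInstance
    exact (Subgroup.subgroupOfEquivOfLe hle).isCyclic.mp hcy
  obtain ⟨g, hgH, hgA⟩ := hex
  have hHA : H ⊓ A ≠ ⊥ := by
    intro hbot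
    apply hH
    rw [isCyclic_iff_exists_zpowers_eq_top]
    refine ⟨⟨g, hgH⟩, eq_top_iff.mpr ?_⟩
    rintro ⟨h, hh⟩ -
    by_cases hhA : h ∈ A
    · have h2 : h ∈ H ⊓ A := Subgroup.mem_inf.mpr ⟨hh, hhA⟩
      rw [hbot] at h2
      have h3 : h = 1 := Subgroup.mem_bot.mp h2
      have h4 : (⟨h, hh⟩ : H) = 1 := Subtype.ext h3
      rw [h4]; exact one_mem _
    · have h1 : h * g⁻¹ ∈ A := hout h g hhA hgA
      have h2 : h * g⁻¹ ∈ H ⊓ A := Subgroup.mem_inf.mpr ⟨H.mul_mem hh (H.inv_mem hgH), h1⟩
      rw [hbot] at h2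
      have h3 : h = g := mul_inv_eq_one.mp (Subgroup.mem_bot.mp h2)
      have h4 : (⟨h, hh⟩ : H) = ⟨g, hgH⟩ := Subtype.ext h3
      rw [h4]; exact Subgroup.mem_zpowers _
  have hdvd : 2 ∣ Nat.card (H ⊓ A : Subgroup G) := by
    have h1 : Nat.card (H ⊓ A : Subgroup G) ∣ 2 ^ n := hG ▸ Subgroup.card_subgroup_dvd_card _
    obtain ⟨j, hj, hj2⟩ := (Nat.dvd_prime_pow Nat.prime_two).mp h1
    have hj0 : j ≠ 0 := by
      rintro rfl
      apply hHA
      exact Subgroup.card_eq_one.mp (by simpa using hj2)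
    rw [hj2]; exact dvd_pow_self 2 hj0
  obtain ⟨⟨w, hwHA⟩, hw⟩ := exists_prime_orderOf_dvd_card' 2 hdvd
  rw [Subgroup.orderOf_mk] at hw
  obtain ⟨⟨z, hzc⟩, hz⟩ :=
    exists_prime_orderOf_dvd_card' 2 (by rw [hZ] : 2 ∣ Nat.card (Subgroup.center G))
  rw [Subgroup.orderOf_mk] at hz
  have hwz : w = z := by
    have hwA : w ∈ A := hwHA.2
    have hzA : z ∈ A := hZA hzc
    have h1 := unique_involution_of_cyclic (C := A) (x := ⟨w, hwA⟩) (y := ⟨z, hzA⟩)
      (by rw [Subgroup.orderOf_mk]; exact hw) (by rw [Subgroup.orderOf_mk]; exact hz)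
    exact congrArg Subtype.val h1
  have hZH : Subgroup.center G ≤ H := by
    have h1 : Subgroup.zpowers z ≤ Subgroup.center G := by rw [Subgroup.zpowers_le]; exact hzc
    have h2 : Subgroup.zpowers z = Subgroup.center G :=
      Subgroup.eq_of_le_of_card_ge h1 (by rw [Nat.card_zpowers, hz, hZ])
    rw [← h2, Subgroup.zpowers_le, ← hwz]; exact hwHA.1
  intro c hc
  have hcg : g * c = c * g := Subgroup.mem_centralizer_iff.mp hc g hgH
  by_cases hcA : c ∈ A
  · exact hZH (L1 c hcA g hgA hcg.symm)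
  · have h1 : c * g⁻¹ ∈ A := hout c g hcA hgA
    have h2 : c * g⁻¹ * g = g * (c * g⁻¹) := by
      rw [inv_mul_cancel_right, ← mul_assoc, hcg, mul_inv_cancel_right]
    have h3 := hZH (L1 _ h1 g hgA h2)
    have h4 := mul_mem h3 hgH
    rwa [inv_mul_cancel_right] at h4

/-- Say that a group has self-centralizing non-cyclic subgroups when every non-cyclic subgroup H satisfies C_G(H) ≤ H. A finite non-abelian 2-group G of order 2^n has self-centralizing non-cyclic subgroups if and only if G has nilpotency class n − 1 (that is, G is dihedral, semidihedral or generalized quaternion). -/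
theorem result {G : Type*} [Group G] [Finite G] (hna : ¬ IsMulCommutative G) (n : ℕ) (hG : Nat.card G = 2 ^ n) :
    (∀ H : Subgroup G, ¬ IsCyclic ↥H → Subgroup.centralizer (H : Set G) ≤ H) ↔ (⊤ : Subgroup G).lowerCentralSeries (n - 2) ≠ ⊥ := by
  have hfact : Fact (Nat.Prime 2) := ⟨Nat.prime_two⟩
  have hn3 := three_le hna n hG
  have hP : IsPGroup 2 G := IsPGroup.of_card hG
  have hnil : Group.IsNilpotent G := hP.isNilpotent
  have hle := H3.class_le_of_card 2 n G hG (by omega)
  constructor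
  · intro hyp hbot
    have h1 := forward hna n hG hyp
    have h2 := Subgroup.lowerCentralSeries_eq_bot_iff_nilpotencyClass_le.mp hbot
    omega
  · intro hne
    have hc : Group.nilpotencyClass G = n - 1 := by
      by_contra hcon
      apply hne
      rw [Subgroup.lowerCentralSeries_eq_bot_iff_nilpotencyClass_le]
      omega
    exact backward hna n hG hc

end Cfsg.Agent.S3919
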