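import Cfsg.Statements.S3920
-- import your own Cfsg.Agent.* helpers here

set_option autoImplicit false
open Cfsg

namespace Cfsg.Agent.S3920

/-- A subgroup of a dihedral group without reflections is cyclic. -/
theorem cyclic_of_no_refl {n : ℕ} (H : Subgroup (DihedralGroup n))
    (h : ∀ i : ZMod n, DihedralGroup.sr i ∉ H) : IsCyclic ↥H := by
  let ρ : Multiplicative (ZMod n) →* DihedralGroup n :=
    { toFun := fun i => DihedralGroup.r (Multiplicative.toAdd i)
      map_one' := rfl
      map_mul' := fun i j => (DihedralGroup.r_mul_r _ _).symm }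
  let g : ↥(H.comap ρ) →* ↥H := (ρ.comp (H.comap ρ).subtype).codRestrict H (fun x => x.2)
  have hsurj : Function.Surjective g := by
    rintro ⟨x, hx⟩
    rcases x with i | i
    · exact ⟨⟨Multiplicative.ofAdd i, hx⟩, rfl⟩
    · exact absurd hx (h i)
  exact isCyclic_of_surjective g hsurj

/-- A non-cyclic subgroup of a dihedral group contains a reflection and a non-trivial rotation. -/
theorem exists_refl_rot {n : ℕ} (H : Subgroup (DihedralGroup n)) (hH : ¬ IsCyclic ↥H) :
    ∃ i j : ZMod n, DihedralGroup.sr i ∈ H ∧ DihedralGroup.r j ∈ H ∧ j ≠ 0 := by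
  have h1 : ∃ i : ZMod n, DihedralGroup.sr i ∈ H := by
    by_contra hcon
    push Not at hcon
    exact hH (cyclic_of_no_refl H hcon)
  obtain ⟨i, hi⟩ := h1
  by_contra hcon
  push Not at hcon
  -- then H = {1, sr i}
  apply hH
  have hH' : ∀ x ∈ H, x = 1 ∨ x = DihedralGroup.sr i := by
    intro x hx
    rcases x with j | j
    · left
      have := hcon i j hi hx
      rw [this]; rfl
    · right
      have h2 : DihedralGroup.sr i * DihedralGroup.sr j ∈ H := H.mul_mem hi hx
      rw [DihedralGroup.sr_mul_sr] at h2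
      have := hcon i (j - i) hi h2
      have : j = i := sub_eq_zero.mp this
      rw [this]
  have hle : H ≤ Subgroup.zpowers (DihedralGroup.sr i) := by
    intro x hx
    rcases hH' x hx with rfl | rfl
    · exact Subgroup.one_mem _
    · exact Subgroup.mem_zpowers _
  have heq : H = Subgroup.zpowers (DihedralGroup.sr i) :=
    le_antisymm hle (by rw [Subgroup.zpowers_le]; exact hi)
  rw [heq]
  infer_instance

theorem add_self_zero_odd {n : ℕ} [NeZero n] (hn : Odd n) (x : ZMod n) (hx : x + x = 0) : x = 0 := by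
  have h1 : ((x.val : ℕ) : ZMod n) = x := ZMod.natCast_zmod_val x
  have h2 : ((x.val + x.val : ℕ) : ZMod n) = 0 := by
    push_cast; rw [h1]; exact hx
  rw [ZMod.natCast_eq_zero_iff] at h2
  have h3 : n ∣ x.val := by
    have hc : Nat.Coprime n 2 := Nat.coprime_two_right.mpr hn
    have : n ∣ 2 * x.val := by rw [two_mul]; exact h2
    exact hc.dvd_of_dvd_mul_left this
  have h4 : x.val < n := ZMod.val_lt x
  have h5 : x.val = 0 := Nat.eq_zero_of_dvd_of_lt h3 h4
  rw [← h1, h5]; simp

theorem add_self_zero_two_pow {k : ℕ} (x : ZMod (2 ^ (k + 1))) (hx : x + x = 0) :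
    x = 0 ∨ x = ((2 ^ k : ℕ) : ZMod (2 ^ (k + 1))) := by
  have h1 : ((x.val : ℕ) : ZMod (2 ^ (k + 1))) = x := ZMod.natCast_zmod_val x
  have h2 : ((x.val + x.val : ℕ) : ZMod (2 ^ (k + 1))) = 0 := by
    push_cast; rw [h1]; exact hx
  rw [ZMod.natCast_eq_zero_iff] at h2
  have h4 : x.val < 2 ^ (k + 1) := ZMod.val_lt x
  obtain ⟨c, hc⟩ := h2
  have hc' : c = 0 ∨ c = 1 := by
    rcases c with _ | _ | c
    · left; rfl
    · right; rfl
    · exfalso
      have : 2 ^ (k + 1) * 2 ≤ 2 ^ (k + 1) * (c + 1 + 1) := Nat.mul_le_mul_left _ (by omega)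
      omega
  rcases hc' with rfl | rfl
  · left
    have : x.val = 0 := by omega
    rw [← h1, this]; simp
  · right
    have : x.val = 2 ^ k := by
      have h5 : 2 ^ (k + 1) = 2 ^ k + 2 ^ k := by rw [pow_succ]; ring
      omega
    rw [← h1, this]

theorem exists_mul_eq_half {k : ℕ} (j : ZMod (2 ^ (k + 1))) (hj : j ≠ 0) :
    ∃ t : ℕ, j * (t : ZMod (2 ^ (k + 1))) = ((2 ^ k : ℕ) : ZMod (2 ^ (k + 1))) := by
  have h1 : ((j.val : ℕ) : ZMod (2 ^ (k + 1))) = j := ZMod.natCast_zmod_val j
  have h4 : j.val < 2 ^ (k + 1) := ZMod.val_lt j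
  have h0 : j.val ≠ 0 := by
    intro h
    apply hj
    rw [← h1, h]; simp
  obtain ⟨b, u, hu, hbu⟩ := Nat.exists_eq_two_pow_mul_odd h0
  have hb : b < k + 1 := by
    by_contra hcon
    push Not at hcon
    have h5 : 2 ^ (k + 1) ≤ 2 ^ b := Nat.pow_le_pow_right (by norm_num) hcon
    have h6 : 2 ^ b ≤ 2 ^ b * u := Nat.le_mul_of_pos_right _ hu.pos
    omega
  obtain ⟨v, hv⟩ := hu
  refine ⟨2 ^ (k - b), ?_⟩
  rw [← h1, hbu, ← Nat.cast_mul]
  have h7 : 2 ^ b * u * 2 ^ (k - b) = 2 ^ (k + 1) * v + 2 ^ k := by
    have h8 : 2 ^ b * 2 ^ (k - b) = 2 ^ k := by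
      rw [← pow_add]; congr 1; omega
    rw [hv]
    calc 2 ^ b * (2 * v + 1) * 2 ^ (k - b) = (2 ^ b * 2 ^ (k - b)) * (2 * v + 1) := by ring
      _ = 2 ^ k * (2 * v + 1) := by rw [h8]
      _ = 2 ^ (k + 1) * v + 2 ^ k := by rw [pow_succ]; ring
  rw [h7, Nat.cast_add, Nat.cast_mul, ZMod.natCast_self, zero_mul, zero_add]

/-- Say that a group has self-centralizing non-cyclic subgroups when every non-cyclic subgroup H satisfies C_G(H) ≤ H. For n ≥ 3, the dihedral group of order 2n has self-centralizing non-cyclic subgroups if and only if n is odd or a power of 2. -/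
theorem result (n : ℕ) (hn : 3 ≤ n) : (∀ H : Subgroup (DihedralGroup n), ¬ IsCyclic ↥H → Subgroup.centralizer (H : Set (DihedralGroup n)) ≤ H) ↔ (Odd n ∨ ∃ k : ℕ, n = 2 ^ k) := by
  haveI : NeZero n := ⟨by omega⟩
  constructor
  · intro hX
    by_contra hcon
    push Not at hcon
    obtain ⟨hnodd, hnpow⟩ := hcon
    obtain ⟨a, m, hm, hnam⟩ := Nat.exists_eq_two_pow_mul_odd (NeZero.ne n)
    have ha : a ≠ 0 := by
      rintro rfl
      apply hnodd
      rw [hnam]; simpa using hm
    have hm1 : m ≠ 1 := by
      rintro rfl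
      exact hnpow a (by rw [hnam, mul_one])
    have hm3 : 3 ≤ m := by
      obtain ⟨v, hv⟩ := hm
      omega
    obtain ⟨a', rfl⟩ := Nat.exists_eq_succ_of_ne_zero ha
    let φ : ZMod n →+* ZMod (2 ^ (a' + 1)) := ZMod.castHom (Dvd.intro m hnam.symm) (ZMod (2 ^ (a' + 1)))
    let ind : DihedralGroup n → ZMod n := fun g =>
      match g with
      | DihedralGroup.r i => i
      | DihedralGroup.sr i => i
    let K : Subgroup (DihedralGroup n) :=
      { carrier := {g | φ (ind g) = 0}
        mul_mem' := by
          rintro (i | i) (j | j) hi hj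
          · show φ (i + j) = 0
            rw [map_add]
            have hi' : φ i = 0 := hi
            have hj' : φ j = 0 := hj
            rw [hi', hj', add_zero]
          · show φ (j - i) = 0
            rw [map_sub]
            have hi' : φ i = 0 := hi
            have hj' : φ j = 0 := hj
            rw [hi', hj', sub_zero]
          · show φ (i + j) = 0
            rw [map_add]
            have hi' : φ i = 0 := hi
            have hj' : φ j = 0 := hj
            rw [hi', hj', add_zero]
          · show φ (j - i) = 0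
            rw [map_sub]
            have hi' : φ i = 0 := hi
            have hj' : φ j = 0 := hj
            rw [hi', hj', sub_zero]
        one_mem' := by
          show φ 0 = 0
          exact map_zero φ
        inv_mem' := by
          rintro (i | i) hi
          · show φ (-i) = 0
            have hi' : φ i = 0 := hi
            rw [map_neg, hi', neg_zero]
          · exact hi }
    have hKr : ∀ i, DihedralGroup.r i ∈ K ↔ φ i = 0 := fun i => Iff.rfl
    have hKsr : ∀ i, DihedralGroup.sr i ∈ K ↔ φ i = 0 := fun i => Iff.rfl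
    -- K is not cyclic
    have hKnc : ¬ IsCyclic ↥K := by
      intro hcyc
      have hcomm : IsMulCommutative ↥K := IsCyclic.isMulCommutative
      have h1 : DihedralGroup.sr (0 : ZMod n) ∈ K := (hKsr 0).mpr (map_zero φ)
      have h2 : DihedralGroup.r (((2 ^ (a' + 1) : ℕ) : ZMod n)) ∈ K := by
        rw [hKr, map_natCast]; exact ZMod.natCast_self _
      have h3 := hcomm.is_comm.comm (⟨_, h1⟩ : ↥K) ⟨_, h2⟩
      have h4 : DihedralGroup.sr (0 : ZMod n) * DihedralGroup.r (((2 ^ (a' + 1) : ℕ) : ZMod n)) =
          DihedralGroup.r (((2 ^ (a' + 1) : ℕ) : ZMod n)) * DihedralGroup.sr (0 : ZMod n) :=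
        congrArg Subtype.val h3
      rw [DihedralGroup.sr_mul_r, DihedralGroup.r_mul_sr] at h4
      have h5 : (0 : ZMod n) + ((2 ^ (a' + 1) : ℕ) : ZMod n) = 0 - ((2 ^ (a' + 1) : ℕ) : ZMod n) := by
        injection h4
      have h6 : ((2 ^ (a' + 1) + 2 ^ (a' + 1) : ℕ) : ZMod n) = 0 := by
        push_cast
        push_cast at h5
        linear_combination h5
      rw [ZMod.natCast_eq_zero_iff, hnam] at h6
      have h7 : 2 ^ (a' + 1) * m ∣ 2 ^ (a' + 1) * 2 := by
        rw [mul_two]; exact h6
      have h8 : m ∣ 2 := Nat.dvd_of_mul_dvd_mul_left (by positivity) h7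
      have := Nat.le_of_dvd (by norm_num) h8
      omega
    -- the central involution
    have hz : DihedralGroup.r (((2 ^ a' * m : ℕ) : ZMod n)) ∈ Subgroup.centralizer (K : Set (DihedralGroup n)) := by
      rw [Subgroup.mem_centralizer_iff]
      have hzz : ((2 ^ a' * m : ℕ) : ZMod n) + ((2 ^ a' * m : ℕ) : ZMod n) = 0 := by
        rw [← Nat.cast_add]
        have : 2 ^ a' * m + 2 ^ a' * m = n := by rw [hnam, pow_succ]; ring
        rw [this]; exact ZMod.natCast_self n
      rintro (j | j) _
      · rw [DihedralGroup.r_mul_r, DihedralGroup.r_mul_r, add_comm]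
      · rw [DihedralGroup.sr_mul_r, DihedralGroup.r_mul_sr]
        congr 1
        linear_combination hzz
    have hzK := hX K hKnc hz
    rw [hKr, map_natCast, ZMod.natCast_eq_zero_iff] at hzK
    have h9 : 2 ^ a' * 2 ∣ 2 ^ a' * m := by rw [← pow_succ]; exact hzK
    have h10 : 2 ∣ m := Nat.dvd_of_mul_dvd_mul_left (by positivity) h9
    exact (Nat.not_even_iff_odd.mpr hm) (even_iff_two_dvd.mpr h10)
  · rintro (hodd | ⟨k, rfl⟩) H hH
    · obtain ⟨i, j, hi, hj, hj0⟩ := exists_refl_rot H hH
      intro g hg
      rw [Subgroup.mem_centralizer_iff] at hg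
      have h1 := hg _ hi
      have h2 := hg _ hj
      rcases g with c | c
      · rw [DihedralGroup.sr_mul_r, DihedralGroup.r_mul_sr] at h1
        have h3 : i + c = i - c := by injection h1
        have h4 : c = 0 := add_self_zero_odd hodd c (by linear_combination h3)
        rw [h4]; exact H.one_mem
      · exfalso
        rw [DihedralGroup.r_mul_sr, DihedralGroup.sr_mul_r] at h2
        have h3 : c - j = c + j := by injection h2
        exact hj0 (add_self_zero_odd hodd j (by linear_combination -h3))
    · have hk : k ≠ 0 := by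
        rintro rfl
        norm_num at hn
      obtain ⟨k, rfl⟩ := Nat.exists_eq_succ_of_ne_zero hk
      obtain ⟨i, j, hi, hj, hj0⟩ := exists_refl_rot H hH
      -- the central involution lies in H
      have hzH : DihedralGroup.r (((2 ^ k : ℕ) : ZMod (2 ^ (k + 1)))) ∈ H := by
        obtain ⟨t, ht⟩ := exists_mul_eq_half j hj0
        have := H.pow_mem hj t
        rwa [DihedralGroup.r_pow, ht] at this
      intro g hg
      rw [Subgroup.mem_centralizer_iff] at hg
      have h1 := hg _ hi
      have h2 := hg _ hj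
      rcases g with c | c
      · rw [DihedralGroup.sr_mul_r, DihedralGroup.r_mul_sr] at h1
        have h3 : i + c = i - c := by injection h1
        rcases add_self_zero_two_pow c (by linear_combination h3) with h4 | h4
        · rw [h4]; exact H.one_mem
        · rw [h4]; exact hzH
      · rw [DihedralGroup.r_mul_sr, DihedralGroup.sr_mul_r] at h2
        have h3 : c - j = c + j := by injection h2
        rw [DihedralGroup.sr_mul_sr, DihedralGroup.sr_mul_sr] at h1
        have h5 : c - i = i - c := by injection h1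
        rcases add_self_zero_two_pow (c - i) (by linear_combination h5) with h6 | h6
        · have : c = i := sub_eq_zero.mp h6
          rw [this]; exact hi
        · have h7 : DihedralGroup.sr c = DihedralGroup.sr i * DihedralGroup.r (((2 ^ k : ℕ) : ZMod (2 ^ (k + 1)))) := by
            rw [DihedralGroup.sr_mul_r, ← h6]; congr 1; ring
          rw [h7]
          exact H.mul_mem hi hzH

end Cfsg.Agent.S3920
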