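import Cfsg.Statements.S3937
import Cfsg.Agent.H2.Zipper
import Cfsg.Agent.H27.Rad

set_option autoImplicit false
open Cfsg

namespace Cfsg.Agent.S3937

open Cfsg.Agent.H12 Cfsg.Agent.H2 Cfsg.Agent.H27

universe u

/-- the `n`-fold commutator `[x, g, …, g]` -/
def eng {G : Type*} [Group G] (g : G) (n : ℕ) (x : G) : G :=
  (fun a => a * g * a⁻¹ * g⁻¹)^[n] x

theorem foldl_eq_eng {G : Type*} [Group G] (g : G) (n : ℕ) (x : G) :
    (List.replicate n g).foldl (fun a b => a * b * a⁻¹ * b⁻¹) x = eng g n x := by
  induction n generalizing x with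
  | zero => rfl
  | succ n ih =>
    rw [List.replicate_succ, List.foldl_cons, ih]
    rfl

theorem eng_succ {G : Type*} [Group G] (g : G) (n : ℕ) (x : G) :
    eng g (n + 1) x = eng g n (x * g * x⁻¹ * g⁻¹) := rfl

theorem eng_succ' {G : Type*} [Group G] (g : G) (n : ℕ) (x : G) :
    eng g (n + 1) x = eng g n x * g * (eng g n x)⁻¹ * g⁻¹ := by
  unfold eng
  rw [Function.iterate_succ_apply']

theorem eng_coe {G : Type*} [Group G] (H : Subgroup G) (g x : H) (n : ℕ) :
    ((eng g n x : H) : G) = eng (g : G) n (x : G) := by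
  induction n generalizing x with
  | zero => rfl
  | succ n ih =>
    rw [eng_succ, eng_succ, ih]
    rfl

/-- `⇒`: elements of the Fitting subgroup are left Engel elements. -/
theorem eng_of_mem_fitting {G : Type u} [Group G] [Finite G] (g : G)
    (hg : g ∈ Cfsg.fittingSubgroup G) (x : G) : ∃ n : ℕ, eng g n x = 1 := by
  have hnil : Group.IsNilpotent (Cfsg.fittingSubgroup G) := fitting_nilpotent
  have hnorm : (Cfsg.fittingSubgroup G).Normal := by
    rw [fitting_eq_rad]
    haveI := rad_characteristic isoInv_nilpotent G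
    infer_instance
  obtain ⟨c, hc⟩ := (Subgroup.isNilpotent_iff_lowerCentralSeries (Cfsg.fittingSubgroup G)).mp hnil
  have key : ∀ k : ℕ, eng g (k + 1) x ∈ (Cfsg.fittingSubgroup G).lowerCentralSeries k := by
    intro k
    induction k with
    | zero =>
      show x * g * x⁻¹ * g⁻¹ ∈ Cfsg.fittingSubgroup G
      exact mul_mem (hnorm.conj_mem g hg x) (inv_mem hg)
    | succ k ih =>
      rw [eng_succ', Subgroup.lowerCentralSeries_succ]
      exact Subgroup.commutator_mem_commutator ih hg
  have h1 := key c
  rw [hc, Subgroup.mem_bot] at h1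
  exact ⟨c + 1, h1⟩

/-- `⇐`: a left Engel element generates a subnormal subgroup. -/
theorem subnormal_of_eng : ∀ (n : ℕ) (G : Type u) [Group G] [Finite G], Nat.card G = n →
    ∀ g : G, (∀ x : G, ∃ k : ℕ, eng g k x = 1) → (Subgroup.zpowers g).IsSubnormal := by
  intro n
  induction n using Nat.strong_induction_on with
  | _ n ih =>
  intro G _ _ hn g hg
  by_contra hns
  have hns' : ¬ SubnIn (Subgroup.zpowers g) (⊤ : Subgroup G) := fun h => hns h.isSubnormal
  -- `⟨g⟩` is subnormal in every proper subgroup containing it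
  have hprop : ∀ H : Subgroup G, Subgroup.zpowers g ≤ H → H < ⊤ →
      SubnIn (Subgroup.zpowers g) H := by
    intro H hle hlt
    have hgH : g ∈ H := hle (Subgroup.mem_zpowers g)
    have hcard : Nat.card H < n := by
      rw [← hn]
      exact card_lt_card_of_lt' hlt |>.trans_le (by rw [Subgroup.card_top])
    have hE : ∀ x : H, ∃ k : ℕ, eng (⟨g, hgH⟩ : H) k x = 1 := by
      intro x
      obtain ⟨k, hk⟩ := hg (x : G)
      refine ⟨k, ?_⟩
      apply Subtype.ext
      rw [eng_coe]
      exact hk
    have h1 := ih (Nat.card H) hcard H rfl ⟨g, hgH⟩ hE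
    rw [subnIn_iff]
    refine ⟨hle, ?_⟩
    have e : (Subgroup.zpowers g).subgroupOf H = Subgroup.zpowers (⟨g, hgH⟩ : H) := by
      ext y
      rw [Subgroup.mem_subgroupOf, Subgroup.mem_zpowers_iff, Subgroup.mem_zpowers_iff]
      constructor
      · rintro ⟨k, hk⟩
        exact ⟨k, Subtype.ext (by simpa using hk)⟩
      · rintro ⟨k, hk⟩
        exact ⟨k, by simpa using congrArg Subtype.val hk⟩
    rw [e]
    exact h1
  obtain ⟨M, hMlt, hM⟩ := zipper_aux (⊤ : Subgroup G) _ (Subgroup.zpowers g) rfl le_top hprop hns'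
  have hSne : Subgroup.zpowers g < ⊤ := by
    rw [lt_top_iff_ne_top]
    intro h
    apply hns
    rw [h]
    exact Subgroup.IsSubnormal.top
  have hgM : g ∈ M := hM _ le_rfl hSne (Subgroup.mem_zpowers g)
  have hSM : Subgroup.zpowers g ≤ M := by
    rw [Subgroup.zpowers_le]
    exact hgM
  -- `M` is not normal
  have hMnn : Subgroup.normalizer (M : Set G) ≠ ⊤ := by
    intro h
    apply hns'
    exact (hprop M hSM hMlt).trans (SubnIn.of_normal le_top (by rw [h]))
  have hNM : Subgroup.normalizer (M : Set G) ≤ M :=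
    hM _ (hSM.trans Subgroup.le_normalizer) (lt_top_iff_ne_top.mpr hMnn)
  -- key step
  have key : ∀ y : G, y * g * y⁻¹ * g⁻¹ ∈ M → y ∈ M := by
    intro y hy
    have h1 : y * g * y⁻¹ ∈ M := by
      have := mul_mem hy hgM
      simpa using this
    -- the conjugate `y⁻¹ M y`
    have hle : M.map (MulAut.conj y⁻¹).toMonoidHom ≤ M := by
      apply hM
      · rw [Subgroup.zpowers_le]
        refine ⟨y * g * y⁻¹, h1, ?_⟩
        simp [mul_assoc]
      · rw [lt_top_iff_ne_top]
        intro h
        have h2 : Nat.card (M.map (MulAut.conj y⁻¹).toMonoidHom) = Nat.card M :=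
          Subgroup.card_map_of_injective (MulAut.conj y⁻¹).injective
        rw [h, Subgroup.card_top] at h2
        have h3 := card_lt_card_of_lt' hMlt
        rw [Subgroup.card_top] at h3
        omega
    have heq : M.map (MulAut.conj y⁻¹).toMonoidHom = M := by
      apply Subgroup.eq_of_le_of_card_ge hle
      rw [Subgroup.card_map_of_injective (MulAut.conj y⁻¹).injective]
    have hyN : y⁻¹ ∈ Subgroup.normalizer (M : Set G) := by
      rw [Subgroup.mem_normalizer_iff]
      intro m
      constructor
      · intro hm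
        have : y⁻¹ * m * y⁻¹⁻¹ ∈ M.map (MulAut.conj y⁻¹).toMonoidHom := ⟨m, hm, rfl⟩
        rw [heq] at this
        exact this
      · intro hm
        rw [← heq] at hm
        obtain ⟨m', hm', hmm⟩ := hm
        have : m' = m := by
          have h4 : y⁻¹ * m' * y⁻¹⁻¹ = y⁻¹ * m * y⁻¹⁻¹ := hmm
          simpa using h4
        rw [← this]
        exact hm'
    have := hNM hyN
    simpa using this
  -- every element lies in `M`
  have hall : ∀ (k : ℕ) (x : G), eng g k x ∈ M → x ∈ M := by
    intro k
    induction k with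
    | zero => intro x hx; exact hx
    | succ k ihk =>
      intro x hx
      rw [eng_succ] at hx
      exact key x (ihk _ hx)
  have hMtop : M = ⊤ := by
    rw [eq_top_iff]
    intro x _
    obtain ⟨k, hk⟩ := hg x
    exact hall k x (hk ▸ one_mem M)
  exact (ne_of_lt hMlt) hMtop

/-- Baer's characterization of the Fitting subgroup: in a finite group G, an element g lies in the Fitting subgroup if and only if g is a left Engel element, that is, for every x there is n with [x, g, g, …, g] = 1 (n entries g, [a, b] = aba⁻¹b⁻¹). -/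
theorem result {G : Type*} [Group G] [Finite G] (g : G) :
    g ∈ Cfsg.fittingSubgroup G ↔ ∀ x : G, ∃ n : ℕ, (List.replicate n g).foldl (fun a b => a * b * a⁻¹ * b⁻¹) x = 1 := by
  constructor
  · intro hg x
    obtain ⟨n, hn⟩ := eng_of_mem_fitting g hg x
    exact ⟨n, by rw [foldl_eq_eng]; exact hn⟩
  · intro h
    have hE : ∀ x : G, ∃ k : ℕ, eng g k x = 1 := by
      intro x
      obtain ⟨n, hn⟩ := h x
      exact ⟨n, by rw [← foldl_eq_eng]; exact hn⟩
    have hsub := subnormal_of_eng _ G rfl g hE
    have hnil : Group.IsNilpotent (Subgroup.zpowers g) := by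
      letI : CommGroup (Subgroup.zpowers g) := IsCyclic.commGroup
      infer_instance
    have hle : Subgroup.zpowers g ≤ Cfsg.fittingSubgroup G := by
      rw [fitting_eq_rad]
      exact le_rad_of_subnormal isoInv_nilpotent radClosed_nilpotent hsub hnil
    exact hle (Subgroup.mem_zpowers g)

end Cfsg.Agent.S3937
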