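import Cfsg.Statements.S3941
-- import your own Cfsg.Agent.* helpers here

set_option autoImplicit false
open Cfsg

namespace Cfsg.Agent.S3941

/-- Two elements of order 3 in `A₄` whose product is an involution. -/
theorem a4_elts : ∃ a b : alternatingGroup (Fin 4), a ^ 3 = 1 ∧ b ^ 3 = 1 ∧ (a * b) ^ 2 = 1 ∧ a * b ≠ 1 :=
  ⟨⟨Equiv.swap 0 1 * Equiv.swap 1 2, Equiv.Perm.mem_alternatingGroup.mpr (by decide)⟩,
    ⟨Equiv.swap 0 1 * Equiv.swap 1 3, Equiv.Perm.mem_alternatingGroup.mpr (by decide)⟩,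
    by decide, by decide, by decide, by decide⟩

/-- Let n ≥ 5 and p an odd prime with p ≤ n, and suppose that every proper subgroup of the alternating group of degree n whose order is divisible by p has a normal Sylow p-subgroup. Then n = p. -/
theorem result (n p : ℕ) (hn : 5 ≤ n) [Fact p.Prime] (hp : p ≠ 2) (hpn : p ≤ n)
    (h : ∀ H : Subgroup ↥(alternatingGroup (Fin n)), H ≠ ⊤ → p ∣ Nat.card ↥H → Cfsg.IsPClosed p ↥H) : n = p := by
  classical
  have hpp : p.Prime := Fact.out
  by_contra hne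
  have hlt : p < n := lt_of_le_of_ne hpn (Ne.symm hne)
  obtain ⟨m, rfl⟩ : ∃ m, n = m + 1 := ⟨n - 1, by omega⟩
  have hm4 : 4 ≤ m := by omega
  have hpm : p ≤ m := by omega
  -- the embedding of `A_m` as a point stabilizer
  obtain ⟨f⟩ : Nonempty (Fin m ≃ {x : Fin (m + 1) // x ≠ Fin.last m}) := ⟨finSuccAboveEquiv (Fin.last m)⟩
  obtain ⟨ι₀, hι₀def⟩ : ∃ ι₀ : Equiv.Perm (Fin m) →* Equiv.Perm (Fin (m + 1)),
      ι₀ = Equiv.Perm.extendDomainHom f := ⟨_, rfl⟩
  have hι₀ : Function.Injective ι₀ := by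
    rw [hι₀def]
    exact Equiv.Perm.extendDomainHom_injective f
  have hsign : ∀ x : Equiv.Perm (Fin m), Equiv.Perm.sign (ι₀ x) = Equiv.Perm.sign x := by
    intro x
    rw [hι₀def]
    exact Equiv.Perm.sign_extendDomain x f
  obtain ⟨ι, hιdef⟩ : ∃ ι : alternatingGroup (Fin m) →* alternatingGroup (Fin (m + 1)),
      ∀ x, (ι x : Equiv.Perm (Fin (m + 1))) = ι₀ x.1 :=
    ⟨(ι₀.comp (alternatingGroup (Fin m)).subtype).codRestrict _ (by
      intro x
      rw [Equiv.Perm.mem_alternatingGroup]
      show Equiv.Perm.sign (ι₀ x.1) = 1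
      rw [hsign]
      exact Equiv.Perm.mem_alternatingGroup.mp x.2), fun x => rfl⟩
  have hι : Function.Injective ι := by
    intro x y hxy
    apply Subtype.ext
    apply hι₀
    rw [← hιdef, ← hιdef, hxy]
  -- cardinalities
  have hcardm : 2 * Nat.card (alternatingGroup (Fin m)) = m.factorial := by
    have : Nontrivial (Fin m) := Fin.nontrivial_iff_two_le.mpr (by omega)
    rw [two_mul_nat_card_alternatingGroup, Nat.card_perm, Nat.card_eq_fintype_card, Fintype.card_fin]
  have hcardm1 : 2 * Nat.card (alternatingGroup (Fin (m + 1))) = (m + 1).factorial := by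
    have : Nontrivial (Fin (m + 1)) := Fin.nontrivial_iff_two_le.mpr (by omega)
    rw [two_mul_nat_card_alternatingGroup, Nat.card_perm, Nat.card_eq_fintype_card, Fintype.card_fin]
  have hcardH : Nat.card ι.range = Nat.card (alternatingGroup (Fin m)) :=
    Nat.card_congr (MonoidHom.ofInjective hι).toEquiv.symm
  have hHne : ι.range ≠ ⊤ := by
    intro htop
    have h1 : Nat.card ι.range = Nat.card (alternatingGroup (Fin (m + 1))) := by
      rw [htop, Subgroup.card_top]
    have h2 : (m + 1).factorial = m.factorial := by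
      rw [← hcardm1, ← hcardm, ← h1, hcardH]
    rw [Nat.factorial_succ] at h2
    have h3 : 0 < m.factorial := Nat.factorial_pos m
    nlinarith
  have hp2 : ¬ p ∣ 2 := by
    intro h2
    exact hp ((Nat.prime_dvd_prime_iff_eq hpp Nat.prime_two).mp h2)
  have hdiv : p ∣ Nat.card ι.range := by
    have h1 : p ∣ m.factorial := hpp.dvd_factorial.mpr hpm
    rw [← hcardm] at h1
    rw [hcardH]
    exact (hpp.dvd_mul.mp h1).resolve_left hp2
  have hH := h ι.range hHne hdiv
  obtain ⟨P⟩ : Nonempty (Sylow p ι.range) := inferInstance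
  have hPn : (P : Subgroup ι.range).Normal := hH P
  have hPcard : p ∣ Nat.card (P : Subgroup ι.range) := by
    rw [Sylow.card_eq_multiplicity]
    have h1 : 1 ≤ (Nat.card ι.range).factorization p := by
      have h2 : Nat.card ι.range ≠ 0 := Nat.card_pos.ne'
      exact (hpp.dvd_iff_one_le_factorization h2).mp hdiv
    exact dvd_pow_self p (by omega)
  rcases Nat.lt_or_ge m 5 with hm5 | hm5
  · -- `m = 4`, `p = 3`
    have hm : m = 4 := by omega
    subst hm
    have hp3 : p = 3 := by
      have h4 : p ≠ 4 := by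
        rintro rfl
        exact (by decide : ¬ Nat.Prime 4) hpp
      have h1 : 2 ≤ p := hpp.two_le
      omega
    subst hp3
    obtain ⟨a, b, ha, hb, hab, hab1⟩ := a4_elts
    have hmemP : ∀ x : ι.range, x ^ 3 = 1 → x ∈ (P : Subgroup ι.range) := by
      intro x hx
      have hz : IsPGroup 3 (Subgroup.zpowers x) := by
        rintro ⟨g, hg⟩
        obtain ⟨i, rfl⟩ := Subgroup.mem_zpowers_iff.mp hg
        refine ⟨1, Subtype.ext ?_⟩
        show (x ^ i) ^ 3 ^ 1 = 1
        rw [pow_one, ← zpow_natCast, ← zpow_mul, mul_comm, zpow_mul, zpow_natCast, hx, one_zpow]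
      obtain ⟨Q, hQ⟩ := hz.exists_le_sylow
      have hu := Sylow.unique_of_normal P hPn
      have hQP : Q = P := Subsingleton.elim _ _
      rw [← hQP]
      exact hQ (Subgroup.mem_zpowers x)
    have hxa : (⟨ι a, ⟨a, rfl⟩⟩ : ι.range) ∈ (P : Subgroup ι.range) := by
      apply hmemP
      apply Subtype.ext
      show (ι a) ^ 3 = 1
      rw [← map_pow, ha, map_one]
    have hxb : (⟨ι b, ⟨b, rfl⟩⟩ : ι.range) ∈ (P : Subgroup ι.range) := by
      apply hmemP
      apply Subtype.ext
      show (ι b) ^ 3 = 1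
      rw [← map_pow, hb, map_one]
    have hxab := Subgroup.mul_mem _ hxa hxb
    obtain ⟨k, hk⟩ := P.2 ⟨_, hxab⟩
    have hk1 : (ι (a * b)) ^ 3 ^ k = 1 := by
      have h1 := congrArg (fun z : (P : Subgroup ι.range) => ((z : ι.range) : alternatingGroup (Fin (4 + 1)))) hk
      rw [map_mul]
      exact h1
    have hk2 : (ι (a * b)) ^ 2 = 1 := by
      rw [← map_pow, hab, map_one]
    have h3 : orderOf (ι (a * b)) ∣ Nat.gcd (3 ^ k) 2 :=
      Nat.dvd_gcd (orderOf_dvd_of_pow_eq_one hk1) (orderOf_dvd_of_pow_eq_one hk2)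
    have h4 : Nat.gcd (3 ^ k) 2 = 1 := Nat.Coprime.pow_left k (by decide)
    rw [h4, Nat.dvd_one, orderOf_eq_one_iff] at h3
    apply hab1
    apply hι
    rw [h3, map_one]
  · -- `m ≥ 5`: the image is simple
    have : IsSimpleGroup (alternatingGroup (Fin m)) :=
      alternatingGroup.isSimpleGroup (by rw [Nat.card_eq_fintype_card, Fintype.card_fin]; exact hm5)
    have hnt : Nontrivial ι.range := by
      rw [← Finite.one_lt_card_iff_nontrivial]
      have h1 := Nat.le_of_dvd Nat.card_pos hdiv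
      have h2 := hpp.two_le
      omega
    have : IsSimpleGroup ι.range := (MonoidHom.ofInjective hι).symm.isSimpleGroup
    rcases hPn.eq_bot_or_eq_top with hbot | htop
    · rw [hbot, Subgroup.card_bot] at hPcard
      exact hpp.one_lt.ne' (Nat.dvd_one.mp hPcard)
    · have hPG : IsPGroup p (P : Subgroup ι.range) := P.2
      obtain ⟨k, hk⟩ := IsPGroup.iff_card.mp hPG
      rw [htop, Subgroup.card_top, hcardH] at hk
      have h24 : Nat.factorial 4 ∣ m.factorial := Nat.factorial_dvd_factorial hm4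
      rw [← hcardm, hk] at h24
      have h2 : 2 ∣ p ^ k := by
        have h5 : 2 * 12 ∣ 2 * p ^ k := h24
        have h6 : 12 ∣ p ^ k := (Nat.mul_dvd_mul_iff_left (by norm_num)).mp h5
        exact Dvd.dvd.trans (by norm_num) h6
      have h7 : 2 ∣ p := Nat.Prime.dvd_of_dvd_pow Nat.prime_two h2
      exact hp ((Nat.prime_dvd_prime_iff_eq Nat.prime_two hpp).mp h7).symm

end Cfsg.Agent.S3941
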