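import Cfsg.Statements.S3949
-- import your own Cfsg.Agent.* helpers here

set_option autoImplicit false
open Cfsg

namespace Cfsg.Agent.S3949

/-- Let G be a finite group and α an automorphism of G of order 2 such that the elements g·α(g)⁻¹ generate G. Let j be a positive integer such that 2^j divides the order of no element inverted by α. Then the set of values of the j-th iterate of the map c ↦ c·α(c)⁻¹ is exactly the set of elements of odd order inverted by α. -/
theorem result {G : Type*} [Group G] [Finite G] (α : MulAut G) (hα : orderOf α = 2) (hG : Subgroup.closure (Set.range (fun c : G => c * (α c)⁻¹)) = ⊤)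
    (j : ℕ) (hj : ∀ g : G, α g = g⁻¹ → ¬ 2 ^ j ∣ orderOf g) :
    Set.range ((fun c : G => c * (α c)⁻¹)^[j]) = {g : G | Odd (orderOf g) ∧ α g = g⁻¹} := by
  -- α is an involution
  have hαα : ∀ x : G, α (α x) = x := by
    intro x
    have h2 : α ^ 2 = 1 := by rw [← hα]; exact pow_orderOf_eq_one α
    have : (α ^ 2) x = x := by rw [h2]; rfl
    rwa [sq, MulAut.mul_apply] at this
  -- γ c is inverted
  have hinv : ∀ c : G, α (c * (α c)⁻¹) = (c * (α c)⁻¹)⁻¹ := by
    intro c
    rw [map_mul, map_inv, hαα, mul_inv_rev, inv_inv]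
  -- on inverted elements γ is squaring
  have hsq : ∀ x : G, α x = x⁻¹ → x * (α x)⁻¹ = x ^ 2 := by
    intro x hx
    rw [hx, inv_inv, sq]
  have hpowinv : ∀ (x : G) (k : ℕ), α x = x⁻¹ → α (x ^ k) = (x ^ k)⁻¹ := by
    intro x k hx
    rw [map_pow, hx, inv_pow]
  -- iterate formula
  have hiter : ∀ (k : ℕ) (c : G), (fun c : G => c * (α c)⁻¹)^[k + 1] c = (c * (α c)⁻¹) ^ (2 ^ k) := by
    intro k c
    induction k with
    | zero => simp
    | succ k ih =>
      rw [Function.iterate_succ_apply', ih]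
      show (c * (α c)⁻¹) ^ 2 ^ k * (α ((c * (α c)⁻¹) ^ 2 ^ k))⁻¹ = _
      rw [hsq _ (hpowinv _ _ (hinv c)), ← pow_mul, pow_succ]
  -- j is positive
  have hj0 : j ≠ 0 := by
    rintro rfl
    exact hj 1 (by simp) (by simp)
  obtain ⟨k, rfl⟩ := Nat.exists_eq_succ_of_ne_zero hj0
  ext y
  simp only [Set.mem_range, Set.mem_ofPred_eq]
  constructor
  · rintro ⟨c, rfl⟩
    rw [hiter]
    set x := c * (α c)⁻¹ with hx
    refine ⟨?_, hpowinv _ _ (hinv c)⟩
    obtain ⟨a, m, hm, hn⟩ := Nat.exists_eq_two_pow_mul_odd (orderOf_pos x).ne'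
    have ha : a ≤ k := by
      by_contra hcon
      push Not at hcon
      apply hj x (hinv c)
      rw [hn]
      exact Dvd.dvd.mul_right (pow_dvd_pow 2 hcon) m
    have h1 : (x ^ 2 ^ k) ^ m = 1 := by
      rw [← pow_mul]
      have : 2 ^ k * m = orderOf x * 2 ^ (k - a) := by
        rw [hn]
        have : 2 ^ k = 2 ^ a * 2 ^ (k - a) := by rw [← pow_add]; congr 1; omega
        rw [this]; ring
      rw [this, pow_mul, pow_orderOf_eq_one, one_pow]
    exact Odd.of_dvd_nat hm (orderOf_dvd_of_pow_eq_one h1)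
  · rintro ⟨hodd, hy⟩
    have hcop : (2 ^ (k + 1)).Coprime (orderOf y) := by
      apply Nat.Coprime.pow_left
      exact (Nat.coprime_two_left.mpr hodd)
    obtain ⟨m, hm⟩ := exists_pow_eq_self_of_coprime hcop
    refine ⟨y ^ m, ?_⟩
    rw [hiter, hsq _ (hpowinv y m hy), ← pow_mul, ← pow_mul, ← hm]
    conv_rhs => rw [← pow_mul]
    congr 1
    rw [pow_succ]; ring

end Cfsg.Agent.S3949
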