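import Mathlib
import Cfsg.Statements.S3982
import Cfsg.Agent.H70.TI

set_option autoImplicit false
open scoped Pointwise
open Cfsg

namespace Cfsg.Agent.S3982

open Cfsg.Agent.H70

/-- conjugation by an element of the normalizer, as an automorphism of the subgroup -/
def conjAut {G : Type*} [Group G] (H : Subgroup G) (t : G)
    (ht : t ∈ Subgroup.normalizer (H : Set G)) : MulAut ↥H where
  toFun h := ⟨t * h * t⁻¹, (Subgroup.mem_normalizer_iff.1 ht h).1 h.2⟩
  invFun h := ⟨t⁻¹ * h * t, (Subgroup.mem_normalizer_iff''.1 ht h).1 h.2⟩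
  left_inv h := by apply Subtype.ext; simp only; group
  right_inv h := by apply Subtype.ext; simp only; group
  map_mul' a b := by apply Subtype.ext; simp only [Subgroup.coe_mul]; group

theorem conjAut_apply {G : Type*} [Group G] (H : Subgroup G) (t : G)
    (ht : t ∈ Subgroup.normalizer (H : Set G)) (h : ↥H) :
    ((conjAut H t ht h : ↥H) : G) = t * h * t⁻¹ := rfl

/-- An involution normalizing a subgroup of odd order normalizes one of its Sylow subgroups. -/
theorem invariant_sylow {G : Type*} [Group G] [Finite G] (p : ℕ) [Fact p.Prime] (H : Subgroup G)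
    (hodd : Odd (Nat.card ↥H)) (t : G) (ht2 : t * t = 1)
    (ht : t ∈ Subgroup.normalizer (H : Set G)) :
    ∃ S : Sylow p ↥H, ∀ s : ↥H, s ∈ S → conjAut H t ht s ∈ S := by
  set φ : MulAut ↥H := conjAut H t ht with hφ
  have hφ2 : φ * φ = 1 := by
    ext h
    rw [MulAut.mul_apply, MulAut.one_apply, conjAut_apply, conjAut_apply]
    calc t * (t * (h : G) * t⁻¹) * t⁻¹ = (t * t) * (h : G) * (t * t)⁻¹ := by group
      _ = (h : G) := by rw [ht2]; group
  have hZ : IsPGroup 2 (Subgroup.zpowers φ) := by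
    rintro ⟨g, hg⟩
    obtain ⟨n, rfl⟩ := Subgroup.mem_zpowers_iff.1 hg
    refine ⟨1, Subtype.ext ?_⟩
    simp only [Subgroup.coe_pow, Subgroup.coe_one, pow_one]
    rw [← zpow_natCast, ← zpow_mul, mul_comm, zpow_mul, zpow_natCast, pow_two, hφ2, one_zpow]
  have : Fact (Nat.Prime 2) := ⟨Nat.prime_two⟩
  have hnd : ¬ 2 ∣ Nat.card (Sylow p ↥H) := by
    intro h2
    obtain ⟨S0⟩ : Nonempty (Sylow p ↥H) := inferInstance
    have h3 : 2 ∣ Nat.card ↥H :=
      h2.trans ((S0.card_dvd_index).trans (Subgroup.index_dvd_card _))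
    exact (Nat.not_even_iff_odd.2 hodd) (even_iff_two_dvd.2 h3)
  obtain ⟨S, hS⟩ := IsPGroup.nonempty_fixed_point_of_prime_not_dvd_card hZ (Sylow p ↥H) hnd
  refine ⟨S, ?_⟩
  intro s hs
  have h1 : (⟨φ, Subgroup.mem_zpowers φ⟩ : Subgroup.zpowers φ) • S = S := hS _
  have h2 : φ • S = S := h1
  have h3 : φ • s ∈ ((φ • S : Sylow p ↥H) : Subgroup ↥H) := by
    rw [Sylow.pointwise_smul_def]
    exact Subgroup.smul_mem_pointwise_smul s φ _ hs
  rw [h2] at h3
  exact h3

/-- An involution acting on a finite subgroup without nontrivial fixed points inverts it. -/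
theorem inv_of_fpf {G : Type*} [Group G] [Finite G] (S : Subgroup G) (t : G) (ht2 : t * t = 1)
    (hS : ∀ s ∈ S, t * s * t⁻¹ ∈ S) (hfpf : ∀ s ∈ S, t * s = s * t → s = 1) :
    ∀ s ∈ S, t * s * t⁻¹ = s⁻¹ := by
  have htinv : t⁻¹ = t := inv_eq_of_mul_eq_one_left ht2
  let ψ : ↥S → ↥S := fun s => ⟨(s : G)⁻¹ * (t * s * t⁻¹), S.mul_mem (S.inv_mem s.2) (hS s s.2)⟩
  have hinj : Function.Injective ψ := by
    intro s r hsr
    have h1 : (s : G)⁻¹ * (t * s * t⁻¹) = (r : G)⁻¹ * (t * r * t⁻¹) := congrArg Subtype.val hsr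
    have h2 : t * ((r : G) * (s : G)⁻¹) = ((r : G) * (s : G)⁻¹) * t := by
      calc t * ((r : G) * (s : G)⁻¹) = (r : G) * ((r : G)⁻¹ * (t * r * t⁻¹)) * t * (s : G)⁻¹ := by group
        _ = (r : G) * ((s : G)⁻¹ * (t * s * t⁻¹)) * t * (s : G)⁻¹ := by rw [h1]
        _ = ((r : G) * (s : G)⁻¹) * t := by group
    have h3 := hfpf _ (S.mul_mem r.2 (S.inv_mem s.2)) h2
    apply Subtype.ext
    have : (r : G) = (s : G) := by
      calc (r : G) = ((r : G) * (s : G)⁻¹) * s := by group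
        _ = s := by rw [h3, one_mul]
    exact this.symm
  have hsurj : Function.Surjective ψ := Finite.injective_iff_surjective.1 hinj
  intro w hw
  obtain ⟨s, hs⟩ := hsurj ⟨w, hw⟩
  have hw' : w = (s : G)⁻¹ * (t * s * t⁻¹) := (congrArg Subtype.val hs).symm
  rw [hw', htinv]
  have e1 : ((s : G)⁻¹ * (t * ↑s * t))⁻¹ = t⁻¹ * (s : G)⁻¹ * t⁻¹ * s := by group
  rw [e1, htinv]
  calc t * ((s : G)⁻¹ * (t * ↑s * t)) * t = t * (s : G)⁻¹ * t * s * (t * t) := by group
    _ = t * (s : G)⁻¹ * t * s := by rw [ht2, mul_one]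

theorem mem_normalizer_of_invol {G : Type*} [Group G] {H : Subgroup G} {t : G} (htinv : t⁻¹ = t)
    (h1 : ∀ h ∈ H, t * h * t⁻¹ ∈ H) : t ∈ Subgroup.normalizer (H : Set G) := by
  rw [Subgroup.mem_normalizer_iff]
  intro h
  refine ⟨h1 h, fun hh => ?_⟩
  have h2 := h1 _ hh
  have h3 : t * (t * h * t⁻¹) * t⁻¹ = h := by
    have e : t * t = 1 := by
      calc t * t = t⁻¹ * t := by rw [htinv]
        _ = 1 := inv_mul_cancel t
    rw [htinv]
    calc t * (t * h * t) * t = (t * t) * h * (t * t) := by group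
      _ = h := by rw [e]; group
  rwa [h3] at h2

theorem result {G : Type*} [Group G] [Finite G] (p : ℕ) [Fact p.Prime] (hp2 : p ≠ 2) (hpG : p ∣ Nat.card G) (h2G : 2 ∣ Nat.card G) (hC : ∀ g : G, g ≠ 1 → (∃ k : ℕ, orderOf g = p ^ k) → Odd (Nat.card ↥(Subgroup.centralizer ({g} : Set G)))) (Q : Subgroup G) (hQ : IsPGroup p ↥Q) (hQ1 : Q ≠ ⊥) (hev : Even (Nat.card ↥(Subgroup.normalizer (Q : Set G)))) (P : Sylow p G) : Even (Nat.card ↥(Subgroup.normalizer ((P : Subgroup G) : Set G))) := by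
  have hp : p.Prime := Fact.out
  have : Fact (Nat.Prime 2) := ⟨Nat.prime_two⟩
  -- an involution in N(Q)
  obtain ⟨t', ht'⟩ := exists_prime_orderOf_dvd_card' 2 (even_iff_two_dvd.1 hev)
  set t : G := (t' : G) with htdef
  have htN : t ∈ Subgroup.normalizer (Q : Set G) := t'.2
  have hto : orderOf t = 2 := by rw [← ht']; exact (Subgroup.orderOf_coe t')
  have ht2 : t * t = 1 := by rw [← pow_two, ← hto, pow_orderOf_eq_one]
  have htinv : t⁻¹ = t := inv_eq_of_mul_eq_one_left ht2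
  -- t commutes with no nontrivial p-element
  have hfix : ∀ s : G, (∃ k : ℕ, orderOf s = p ^ k) → t * s = s * t → s = 1 := by
    intro s hs hts
    by_contra hs1
    have hodd := hC s hs1 hs
    have htC : t ∈ Subgroup.centralizer ({s} : Set G) := by
      rw [Subgroup.mem_centralizer_iff]
      intro h hh
      rw [Set.mem_singleton_iff] at hh
      subst hh
      exact hts.symm
    have h2 : 2 ∣ Nat.card ↥(Subgroup.centralizer ({s} : Set G)) := by
      have := orderOf_dvd_natCard (⟨t, htC⟩ : ↥(Subgroup.centralizer ({s} : Set G)))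
      rwa [Subgroup.orderOf_mk, hto] at this
    exact (Nat.not_even_iff_odd.2 hodd) (even_iff_two_dvd.2 h2)
  have hpelt : ∀ (S : Subgroup G), IsPGroup p ↥S → ∀ s ∈ S, ∃ k : ℕ, orderOf s = p ^ k := by
    intro S hS s hs
    obtain ⟨k, hk⟩ := (IsPGroup.iff_orderOf.1 hS) ⟨s, hs⟩
    exact ⟨k, by rw [← hk]; exact (Subgroup.orderOf_mk s hs).symm⟩
  -- a nontrivial element of Q
  obtain ⟨q0, hq01⟩ := Subgroup.ne_bot_iff_exists_ne_one.1 hQ1
  have hq0ne : (q0 : G) ≠ 1 := fun h => hq01 (Subtype.ext h)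
  -- C = C_G(Q)
  set C : Subgroup G := Subgroup.centralizer (Q : Set G) with hCdef
  have hCodd : Odd (Nat.card ↥C) := by
    have hle : C ≤ Subgroup.centralizer ({(q0 : G)} : Set G) :=
      Subgroup.centralizer_le (Set.singleton_subset_iff.2 q0.2)
    have hodd := hC (q0 : G) hq0ne (hpelt Q hQ _ q0.2)
    exact Odd.of_dvd_nat hodd (Subgroup.card_dvd_of_le hle)
  have htC : t ∈ Subgroup.normalizer (C : Set G) := by
    apply mem_normalizer_of_invol htinv
    intro c hc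
    rw [hCdef, Subgroup.mem_centralizer_iff] at hc ⊢
    intro h hh
    have h1 : t⁻¹ * h * t ∈ Q := (Subgroup.mem_normalizer_iff''.1 htN h).1 hh
    have h2 := hc _ h1
    calc h * (t * c * t⁻¹) = t * ((t⁻¹ * h * t) * c) * t⁻¹ := by group
      _ = t * (c * (t⁻¹ * h * t)) * t⁻¹ := by rw [h2]
      _ = t * c * t⁻¹ * h := by group
  obtain ⟨SC, hSC⟩ := invariant_sylow p C hCodd t ht2 htC
  -- a Sylow subgroup containing Q and a nontrivial element of its centre
  obtain ⟨P0, hQP0⟩ := hQ.exists_le_sylow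
  have hnt : Nontrivial ↥(P0 : Subgroup G) :=
    ⟨⟨⟨q0, hQP0 q0.2⟩, 1, fun h => hq0ne (congrArg Subtype.val h)⟩⟩
  have hnt2 := P0.2.center_nontrivial
  obtain ⟨z0', hz0'⟩ := exists_ne (1 : Subgroup.center ↥(P0 : Subgroup G))
  set z0 : G := ((z0' : ↥(P0 : Subgroup G)) : G) with hz0def
  have hz0P : z0 ∈ (P0 : Subgroup G) := (z0' : ↥(P0 : Subgroup G)).2
  have hz0ne : z0 ≠ 1 := by
    intro h
    apply hz0'
    apply Subtype.ext
    apply Subtype.ext
    exact h
  have hz0c : ∀ x ∈ (P0 : Subgroup G), x * z0 = z0 * x := by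
    intro x hx
    have := Subgroup.mem_center_iff.1 z0'.2 ⟨x, hx⟩
    exact congrArg Subtype.val this
  have hz0C : z0 ∈ C := by
    rw [hCdef, Subgroup.mem_centralizer_iff]
    intro h hh
    exact hz0c h (hQP0 hh)
  have hzp : IsPGroup p (Subgroup.zpowers (⟨z0, hz0C⟩ : ↥C)) := by
    obtain ⟨k, hk⟩ := hpelt (P0 : Subgroup G) P0.2 z0 hz0P
    exact IsPGroup.of_card (n := k) (by rw [Nat.card_zpowers, Subgroup.orderOf_mk, hk])
  obtain ⟨S', hS'⟩ := hzp.exists_le_sylow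
  obtain ⟨c, hc⟩ := MulAction.exists_smul_eq ↥C S' SC
  have hzSC : c * ⟨z0, hz0C⟩ * c⁻¹ ∈ (SC : Subgroup ↥C) := by
    rw [← hc, Sylow.coe_subgroup_smul, mem_conj_smul_iff]
    have : c⁻¹ * (c * ⟨z0, hz0C⟩ * c⁻¹) * c = ⟨z0, hz0C⟩ := by group
    rw [this]; exact hS' (Subgroup.mem_zpowers _)
  set z : G := (c : G) * z0 * (c : G)⁻¹ with hzdef
  set P1 : Sylow p G := (c : G) • P0 with hP1def
  have hzP1c : ∀ x ∈ (P1 : Subgroup G), x * z = z * x := by
    intro x hx
    rw [hP1def, Sylow.coe_subgroup_smul, mem_conj_smul_iff] at hx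
    have h1 := hz0c _ hx
    calc x * z = (c : G) * (((c : G)⁻¹ * x * (c : G)) * z0) * (c : G)⁻¹ := by rw [hzdef]; group
      _ = (c : G) * (z0 * ((c : G)⁻¹ * x * (c : G))) * (c : G)⁻¹ := by rw [h1]
      _ = z * x := by rw [hzdef]; group
  have hzne : z ≠ 1 := by
    intro h
    apply hz0ne
    calc z0 = (c : G)⁻¹ * z * (c : G) := by rw [hzdef]; group
      _ = 1 := by rw [h]; group
  -- the image S of SC in G
  set S : Subgroup G := (SC : Subgroup ↥C).map C.subtype with hSdef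
  have hSp : IsPGroup p ↥S := SC.2.map _
  have hzS : z ∈ S := ⟨c * ⟨z0, hz0C⟩ * c⁻¹, hzSC, by simp [hzdef]⟩
  have hSt : ∀ s ∈ S, t * s * t⁻¹ ∈ S := by
    rintro s ⟨s', hs', rfl⟩
    exact ⟨conjAut C t htC s', hSC s' hs', rfl⟩
  have hinv := inv_of_fpf S t ht2 hSt (fun s hs hts => hfix s (hpelt S hSp s hs) hts)
  have hzinv : t * z * t⁻¹ = z⁻¹ := hinv z hzS
  -- D = C_G(z)
  set D : Subgroup G := Subgroup.centralizer ({z} : Set G) with hDdef
  have hDodd : Odd (Nat.card ↥D) := hC z hzne (hpelt S hSp z hzS)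
  have htD : t ∈ Subgroup.normalizer (D : Set G) := by
    apply mem_normalizer_of_invol htinv
    intro d hd
    rw [hDdef, Subgroup.mem_centralizer_iff] at hd ⊢
    intro h hh
    rw [Set.mem_singleton_iff] at hh
    subst hh
    have h1 : z * d = d * z := hd z (Set.mem_singleton z)
    have h2 : z⁻¹ * d = d * z⁻¹ := by
      calc z⁻¹ * d = z⁻¹ * (d * z) * z⁻¹ := by group
        _ = z⁻¹ * (z * d) * z⁻¹ := by rw [h1]
        _ = d * z⁻¹ := by group
    have h3 : z = t * z⁻¹ * t⁻¹ := by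
      calc z = t⁻¹ * (t * z * t⁻¹)⁻¹⁻¹ * t := by group
        _ = t⁻¹ * z⁻¹⁻¹⁻¹ * t := by rw [hzinv]
        _ = t * z⁻¹ * t⁻¹ := by rw [inv_inv, htinv]
    calc z * (t * d * t⁻¹) = (t * z⁻¹ * t⁻¹) * (t * d * t⁻¹) := by rw [← h3]
      _ = t * (z⁻¹ * d) * t⁻¹ := by group
      _ = t * (d * z⁻¹) * t⁻¹ := by rw [h2]
      _ = t * d * t⁻¹ * (t * z⁻¹ * t⁻¹) := by group
      _ = t * d * t⁻¹ * z := by rw [← h3]
  have hP1D : (P1 : Subgroup G) ≤ D := by
    intro x hx
    rw [hDdef, Subgroup.mem_centralizer_iff]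
    intro h hh
    rw [Set.mem_singleton_iff] at hh
    subst hh
    exact (hzP1c x hx).symm
  obtain ⟨SD, hSD⟩ := invariant_sylow p D hDodd t ht2 htD
  set S2 : Subgroup G := (SD : Subgroup ↥D).map D.subtype with hS2def
  have hfact : (Nat.card ↥D).factorization p = (Nat.card G).factorization p := by
    have hD0 : Nat.card ↥D ≠ 0 := Nat.card_pos.ne'
    have hG0 : Nat.card G ≠ 0 := Nat.card_pos.ne'
    apply le_antisymm
    · rw [← Nat.Prime.pow_dvd_iff_le_factorization hp hG0]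
      exact (Nat.ordProj_dvd _ p).trans (Subgroup.card_subgroup_dvd_card D)
    · rw [← Nat.Prime.pow_dvd_iff_le_factorization hp hD0, ← Sylow.card_eq_multiplicity P1]
      exact Subgroup.card_dvd_of_le hP1D
  have hS2card : Nat.card ↥S2 = p ^ (Nat.card G).factorization p := by
    rw [← hfact, ← Sylow.card_eq_multiplicity SD]
    exact Nat.card_congr ((SD : Subgroup ↥D).equivMapOfInjective D.subtype D.subtype_injective).symm.toEquiv
  have hS2t : ∀ s ∈ S2, t * s * t⁻¹ ∈ S2 := by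
    rintro s ⟨s', hs', rfl⟩
    exact ⟨conjAut D t htD s', hSD s' hs', rfl⟩
  have htS2 : t ∈ Subgroup.normalizer (S2 : Set G) := mem_normalizer_of_invol htinv hS2t
  set P2 : Sylow p G := Sylow.ofCard S2 hS2card with hP2def
  obtain ⟨g, hg⟩ := MulAction.exists_smul_eq G P2 P
  have hconj : g * t * g⁻¹ ∈ Subgroup.normalizer ((P : Subgroup G) : Set G) := by
    rw [← hg, Subgroup.mem_normalizer_iff]
    intro h
    rw [Sylow.coe_subgroup_smul, mem_conj_smul_iff, mem_conj_smul_iff, hP2def, Sylow.coe_ofCard]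
    have : g⁻¹ * (g * t * g⁻¹ * h * (g * t * g⁻¹)⁻¹) * g = t * (g⁻¹ * h * g) * t⁻¹ := by group
    rw [this]
    exact Subgroup.mem_normalizer_iff.1 htS2 _
  rw [even_iff_two_dvd]
  have hfin := orderOf_dvd_natCard
    (⟨g * t * g⁻¹, hconj⟩ : ↥(Subgroup.normalizer ((P : Subgroup G) : Set G)))
  rw [Subgroup.orderOf_mk] at hfin
  have ho : orderOf (g * t * g⁻¹) = 2 := by
    rw [← hto]
    exact MulEquiv.orderOf_eq (MulAut.conj g) t
  rwa [ho] at hfin

end Cfsg.Agent.S3982
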