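import Mathlib
import Cfsg.Statements.S3983
import Cfsg.Agent.H70.TI

set_option autoImplicit false
open scoped Pointwise
open Cfsg

namespace Cfsg.Agent.S3983

open Cfsg.Agent.H70 in
theorem result {G : Type*} [Group G] [Finite G] (p : ℕ) [Fact p.Prime] (P : Sylow p G) (hTI : ∀ g : G, g ∉ Subgroup.normalizer ((P : Subgroup G) : Set G) → (P : Subgroup G) ⊓ (MulAut.conj g • (P : Subgroup G)) = ⊥) (U : Subgroup G) (hU : p ∣ Nat.card ↥U) (Q : Sylow p ↥U) : ∀ u : ↥U, u ∉ Subgroup.normalizer ((Q : Subgroup ↥U) : Set ↥U) → (Q : Subgroup ↥U) ⊓ (MulAut.conj u • (Q : Subgroup ↥U)) = ⊥ := by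
  intro u hu
  have hQp : IsPGroup p ((Q : Subgroup U).map U.subtype) := Q.2.map _
  obtain ⟨P1, hP1⟩ := hQp.exists_le_sylow
  have hP1' : ∀ x : U, x ∈ (Q : Subgroup U) → (x : G) ∈ (P1 : Subgroup G) :=
    fun x hx => hP1 ⟨x, hx, rfl⟩
  by_cases hcase : P1 = (u : G) • P1
  · exfalso; apply hu
    have hQeq : (P1 : Subgroup G).subgroupOf U = Q := by
      apply Q.3
      · exact P1.2.comap_subtype
      · intro x hx; exact hP1' x hx
    rw [Subgroup.mem_normalizer_iff]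
    intro h
    rw [← hQeq, Subgroup.mem_subgroupOf, Subgroup.mem_subgroupOf]
    have key : ∀ x : G, x ∈ (P1 : Subgroup G) ↔ (u : G)⁻¹ * x * (u : G) ∈ (P1 : Subgroup G) := by
      intro x
      conv_lhs => rw [hcase, Sylow.coe_subgroup_smul, mem_conj_smul_iff]
    rw [key ((u * h * u⁻¹ : U) : G)]
    have : (u : G)⁻¹ * ((u * h * u⁻¹ : U) : G) * (u : G) = (h : G) := by
      push_cast; group
    rw [this]
  · have hbot := ti_pairs p P hTI P1 ((u : G) • P1) hcase
    rw [eq_bot_iff]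
    intro x hx
    rw [Subgroup.mem_inf, mem_conj_smul_iff] at hx
    have h1 : (x : G) ∈ (P1 : Subgroup G) := hP1' x hx.1
    have h2 : (x : G) ∈ (((u : G) • P1 : Sylow p G) : Subgroup G) := by
      rw [Sylow.coe_subgroup_smul, mem_conj_smul_iff]
      exact hP1' _ hx.2
    have h3 : (x : G) ∈ (⊥ : Subgroup G) := by
      rw [← hbot]; exact Subgroup.mem_inf.2 ⟨h1, h2⟩
    rw [Subgroup.mem_bot] at h3 ⊢
    exact Subtype.ext h3

end Cfsg.Agent.S3983
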