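import Mathlib
import Cfsg.Statements.S3984
import Cfsg.Agent.H70.TI

set_option autoImplicit false
open scoped Pointwise
open Cfsg

namespace Cfsg.Agent.S3984

open Cfsg.Agent.H70

/-- Lifting: a `p`-element `a` of `G` whose image lies in the image `Q2` of the Sylow subgroup `P2`
lies in a Sylow subgroup of `G` with the same image `Q2`. -/
theorem lift_aux {G G' : Type*} [Group G] [Finite G] [Group G'] (p : ℕ) [Fact p.Prime]
    (f : G →* G') (P2 : Sylow p G) (Q2 : Sylow p G')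
    (hQ2 : (P2 : Subgroup G).map f = (Q2 : Subgroup G'))
    (a : G) (ha : IsPGroup p (Subgroup.zpowers a)) (hfa : f a ∈ (Q2 : Subgroup G')) :
    ∃ P3 : Sylow p G, a ∈ (P3 : Subgroup G) ∧ (P3 : Subgroup G).map f = (Q2 : Subgroup G') := by
  set H2 : Subgroup G := (Q2 : Subgroup G').comap f with hH2
  have hP2H : (P2 : Subgroup G) ≤ H2 := by
    rw [hH2, ← hQ2]; exact Subgroup.le_comap_map _ _
  have haH : a ∈ H2 := hfa
  have hS : IsPGroup p ((Subgroup.zpowers a).subgroupOf H2) := ha.comap_subtype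
  obtain ⟨T, hT⟩ := hS.exists_le_sylow
  obtain ⟨c, hc⟩ := MulAction.exists_smul_eq H2 (P2.subtype hP2H) T
  refine ⟨(c : G) • P2, ?_, ?_⟩
  · have h1 : (⟨a, haH⟩ : H2) ∈ (T : Subgroup H2) := by
      apply hT
      rw [Subgroup.mem_subgroupOf]
      exact Subgroup.mem_zpowers a
    rw [← hc, Sylow.coe_subgroup_smul, mem_conj_smul_iff, Sylow.coe_subtype,
      Subgroup.mem_subgroupOf] at h1
    rw [Sylow.coe_subgroup_smul, mem_conj_smul_iff]
    simpa using h1
  · have hp3 : IsPGroup p ((((c : G) • P2 : Sylow p G) : Subgroup G).map f) :=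
      ((c : G) • P2 : Sylow p G).2.map f
    apply Q2.3 hp3
    intro z hz
    have hcQ : f c ∈ (Q2 : Subgroup G') := c.2
    have hz' : (f c)⁻¹ * z * f c ∈ (Q2 : Subgroup G') :=
      Subgroup.mul_mem _ (Subgroup.mul_mem _ (Subgroup.inv_mem _ hcQ) hz) hcQ
    rw [← hQ2] at hz'
    obtain ⟨v, hv, hv'⟩ := hz'
    refine ⟨(c : G) * v * (c : G)⁻¹, ?_, ?_⟩
    · rw [SetLike.mem_coe, Sylow.coe_subgroup_smul, mem_conj_smul_iff]
      have : (c : G)⁻¹ * ((c : G) * v * (c : G)⁻¹) * (c : G) = v := by group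
      rw [this]; exact hv
    · rw [map_mul, map_mul, hv', map_inv]; group

/-- The TI property passes to quotients (images under surjective homomorphisms). -/
theorem ti_pairs_quot {G G' : Type*} [Group G] [Finite G] [Group G'] (p : ℕ) [Fact p.Prime]
    (f : G →* G') (hf : Function.Surjective f)
    (hTI : ∀ P1 P2 : Sylow p G, P1 ≠ P2 → (P1 : Subgroup G) ⊓ (P2 : Subgroup G) = ⊥)
    (Q1 Q2 : Sylow p G') (hne : Q1 ≠ Q2) : (Q1 : Subgroup G') ⊓ (Q2 : Subgroup G') = ⊥ := by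
  obtain ⟨P1, hP1⟩ := Sylow.mapSurjective_surjective hf p Q1
  obtain ⟨P2, hP2⟩ := Sylow.mapSurjective_surjective hf p Q2
  have hQ1 : (P1 : Subgroup G).map f = (Q1 : Subgroup G') := by
    rw [← hP1]; rfl
  have hQ2 : (P2 : Subgroup G).map f = (Q2 : Subgroup G') := by
    rw [← hP2]; rfl
  rw [eq_bot_iff]
  intro y hy
  rw [Subgroup.mem_inf] at hy
  have hy1 := hy.1
  rw [← hQ1] at hy1
  obtain ⟨a, haP, rfl⟩ := hy1
  have hap : IsPGroup p (Subgroup.zpowers a) :=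
    P1.2.to_le ((Subgroup.zpowers_le).2 haP)
  obtain ⟨P3, haP3, hP3⟩ := lift_aux p f P2 Q2 hQ2 a hap hy.2
  have hne' : P1 ≠ P3 := by
    rintro rfl
    apply hne
    exact Sylow.ext (hQ1.symm.trans hP3)
  have h := hTI P1 P3 hne'
  have ha1 : a ∈ (⊥ : Subgroup G) := by
    rw [← h]; exact Subgroup.mem_inf.2 ⟨haP, haP3⟩
  rw [Subgroup.mem_bot] at ha1 ⊢
  rw [ha1, map_one]

theorem result {G : Type*} [Group G] [Finite G] (p : ℕ) [Fact p.Prime] (P : Sylow p G) (hTI : ∀ g : G, g ∉ Subgroup.normalizer ((P : Subgroup G) : Set G) → (P : Subgroup G) ⊓ (MulAut.conj g • (P : Subgroup G)) = ⊥) (N : Subgroup G) [N.Normal] (hN : (Nat.card ↥N).Coprime p) (Q : Sylow p (G ⧸ N)) : ∀ x : G ⧸ N, x ∉ Subgroup.normalizer ((Q : Subgroup (G ⧸ N)) : Set (G ⧸ N)) → (Q : Subgroup (G ⧸ N)) ⊓ (MulAut.conj x • (Q : Subgroup (G ⧸ N))) = ⊥ := by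
  intro x hx
  have hne : Q ≠ x • Q := by
    intro h
    exact hx (Sylow.smul_eq_iff_mem_normalizer.1 h.symm)
  have := ti_pairs_quot p (QuotientGroup.mk' N) (QuotientGroup.mk'_surjective N)
    (ti_pairs p P hTI) Q (x • Q) hne
  rwa [Sylow.coe_subgroup_smul] at this

end Cfsg.Agent.S3984
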