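import Mathlib
import Cfsg.Statements.S3985
import Cfsg.Agent.H70.TI

set_option autoImplicit false
open scoped Pointwise
open Cfsg

namespace Cfsg.Agent.S3985

open Cfsg.Agent.H70

/-- A `p`-subgroup of the normalizer of a Sylow `p`-subgroup lies in it. -/
theorem le_sylow_of_le_normalizer {G : Type*} [Group G] (p : ℕ) [Fact p.Prime] (P : Sylow p G)
    (H : Subgroup G) (hH : IsPGroup p H)
    (hHN : H ≤ Subgroup.normalizer ((P : Subgroup G) : Set G)) : H ≤ (P : Subgroup G) := by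
  have h1 : IsPGroup p (H ⊔ (P : Subgroup G) : Subgroup G) := hH.to_sup_of_normal_right' P.2 hHN
  have h2 := P.3 h1 le_sup_right
  rw [← h2]; exact le_sup_left

theorem conj_pow_gen {G : Type*} [Group G] (c γ : G) (j : ℤ) (h : c * γ * c⁻¹ = γ ^ j) (t : ℕ) :
    c ^ t * γ * (c ^ t)⁻¹ = γ ^ (j ^ t) := by
  induction t with
  | zero => simp
  | succ t ih =>
    have : c ^ (t + 1) * γ * (c ^ (t + 1))⁻¹ = c * (c ^ t * γ * (c ^ t)⁻¹) * c⁻¹ := by
      rw [pow_succ']; group
    rw [this, ih, ← conj_zpow, h, ← zpow_mul, pow_succ']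

theorem centralizes_of_fix {G : Type*} [Group G] [Finite G] (p : ℕ) [Fact p.Prime] (P : Sylow p G)
    (hcyc : IsCyclic ↥(P : Subgroup G)) (x : G) (hxP : x ∈ (P : Subgroup G)) (hx1 : x ≠ 1)
    (c : G) (hcN : c ∈ Subgroup.normalizer ((P : Subgroup G) : Set G)) (hcx : x * c = c * x) :
    c ∈ Subgroup.centralizer ((P : Subgroup G) : Set G) := by
  have hp : p.Prime := Fact.out
  obtain ⟨g0, hg0⟩ := hcyc.exists_generator
  set γ : G := (g0 : G) with hγ
  have hγP : γ ∈ (P : Subgroup G) := g0.2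
  have hgen : ∀ y ∈ (P : Subgroup G), ∃ n : ℤ, γ ^ n = y := by
    intro y hy
    obtain ⟨n, hn⟩ := Subgroup.mem_zpowers_iff.1 (hg0 ⟨y, hy⟩)
    refine ⟨n, ?_⟩
    have := congrArg (Subtype.val) hn
    simpa using this
  -- order of γ
  obtain ⟨k, hk⟩ := (IsPGroup.iff_orderOf.1 P.2) g0
  have hk' : orderOf γ = p ^ k := by rw [← hk]; exact (Subgroup.orderOf_coe g0)
  -- conjugate of γ
  have hcγ : c * γ * c⁻¹ ∈ (P : Subgroup G) := (Subgroup.mem_normalizer_iff.1 hcN γ).1 hγP
  obtain ⟨j, hj⟩ := hgen _ hcγ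
  obtain ⟨i, hi⟩ := hgen x hxP
  have hcx' : c * x * c⁻¹ = x := by rw [← hcx]; group
  have h1 : γ ^ (j * i - i) = 1 := by
    rw [zpow_sub, zpow_mul, hj, conj_zpow, hi, hcx', mul_inv_cancel]
  have h2 : (orderOf γ : ℤ) ∣ j * i - i := orderOf_dvd_iff_zpow_eq_one.2 h1
  have hpj : (p : ℤ) ∣ j - 1 := by
    by_contra hnd
    have hcop : IsCoprime (p : ℤ) (j - 1) :=
      (Nat.prime_iff_prime_int.1 hp).coprime_iff_not_dvd.2 hnd
    have hcop' : IsCoprime ((p : ℤ) ^ k) (j - 1) := hcop.pow_left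
    have h3 : ((p : ℤ) ^ k) ∣ i * (j - 1) := by
      have : j * i - i = i * (j - 1) := by ring
      rw [← this]
      rw [hk'] at h2
      exact_mod_cast h2
    have h4 : ((p : ℤ) ^ k) ∣ i := hcop'.dvd_of_dvd_mul_right h3
    apply hx1
    rw [← hi]
    apply orderOf_dvd_iff_zpow_eq_one.1
    rw [hk']; exact_mod_cast h4
  have h5 : ((p : ℤ) ^ (k + 1)) ∣ j ^ p ^ k - 1 ^ p ^ k := by
    have := dvd_sub_pow_of_dvd_sub (R := ℤ) (p := p) (a := j) (b := 1) hpj k
    exact_mod_cast this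
  have h6 : ((p : ℤ) ^ k) ∣ j ^ p ^ k - 1 := by
    rw [one_pow] at h5
    exact (pow_dvd_pow (p : ℤ) (Nat.le_succ k)).trans h5
  -- c ^ (p^k) commutes with γ
  have h7 : c ^ (p ^ k) * γ * (c ^ (p ^ k))⁻¹ = γ := by
    rw [conj_pow_gen c γ j hj.symm (p ^ k)]
    have : γ ^ (j ^ p ^ k - 1) = 1 := by
      apply orderOf_dvd_iff_zpow_eq_one.1
      rw [hk']; exact_mod_cast h6
    have h8 : γ ^ (j ^ p ^ k) = γ ^ (j ^ p ^ k - 1) * γ := by
      rw [← zpow_add_one]; congr 1; ring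
    rw [h8, this, one_mul]
  -- decomposition of the order of c
  have ho : orderOf c ≠ 0 := (orderOf_pos c).ne'
  obtain ⟨a, m, hm, hom⟩ := Nat.exists_eq_pow_mul_and_not_dvd ho p hp.ne_one
  have hcm : c ^ m ∈ (P : Subgroup G) := by
    have hpg : IsPGroup p (Subgroup.zpowers (c ^ m)) := by
      rintro ⟨g, hg⟩
      obtain ⟨z, rfl⟩ := Subgroup.mem_zpowers_iff.1 hg
      refine ⟨a, Subtype.ext ?_⟩
      simp only [Subgroup.coe_pow, Subgroup.coe_one]
      rw [← zpow_natCast, ← zpow_mul, mul_comm, zpow_mul, zpow_natCast, ← pow_mul, mul_comm, ← hom,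
        pow_orderOf_eq_one, one_zpow]
    apply le_sylow_of_le_normalizer p P _ hpg
    · rw [Subgroup.zpowers_le]
      exact Subgroup.pow_mem _ hcN m
    · exact Subgroup.mem_zpowers _
  have : IsMulCommutative ↥(P : Subgroup G) := inferInstance
  have hcomm : ∀ y z : G, y ∈ (P : Subgroup G) → z ∈ (P : Subgroup G) → y * z = z * y := by
    intro y z hy hz
    have := mul_comm' (⟨y, hy⟩ : ↥(P : Subgroup G)) ⟨z, hz⟩
    exact congrArg Subtype.val this
  -- c commutes with γ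
  have hS1 : c ^ (p ^ k) ∈ Subgroup.centralizer ({γ} : Set G) := by
    rw [Subgroup.mem_centralizer_iff]
    intro h hh
    rw [Set.mem_singleton_iff] at hh
    subst hh
    calc γ * c ^ (p ^ k) = (c ^ (p ^ k) * γ * (c ^ (p ^ k))⁻¹) * c ^ (p ^ k) := by rw [h7]
      _ = c ^ (p ^ k) * γ := by group
  have hS2 : c ^ m ∈ Subgroup.centralizer ({γ} : Set G) := by
    rw [Subgroup.mem_centralizer_iff]
    intro h hh
    rw [Set.mem_singleton_iff] at hh
    subst hh
    exact hcomm _ _ hγP hcm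
  have hcop : Nat.Coprime (p ^ k) m := Nat.Coprime.pow_left k ((Nat.Prime.coprime_iff_not_dvd hp).2 hm)
  have hbez := Int.gcd_eq_gcd_ab ((p ^ k : ℕ) : ℤ) (m : ℤ)
  rw [Int.gcd_natCast_natCast, hcop] at hbez
  have hc : c = (c ^ (p ^ k)) ^ (Int.gcdA ((p ^ k : ℕ) : ℤ) (m : ℤ)) * (c ^ m) ^ (Int.gcdB ((p ^ k : ℕ) : ℤ) (m : ℤ)) := by
    rw [← zpow_natCast c (p ^ k), ← zpow_natCast c m, ← zpow_mul, ← zpow_mul, ← zpow_add, ← hbez]
    simp
  have hcS : c ∈ Subgroup.centralizer ({γ} : Set G) := by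
    rw [hc]
    exact Subgroup.mul_mem _ (Subgroup.zpow_mem _ hS1 _) (Subgroup.zpow_mem _ hS2 _)
  have hcγ' : γ * c = c * γ := (Subgroup.mem_centralizer_iff.1 hcS) γ (Set.mem_singleton γ)
  rw [Subgroup.mem_centralizer_iff]
  intro y hy
  obtain ⟨n, rfl⟩ := hgen y hy
  exact ((Commute.zpow_left (show Commute γ c from hcγ') n)).eq

theorem result {G : Type*} [Group G] [Finite G] (p : ℕ) [Fact p.Prime] (P : Sylow p G) (hcyc : IsCyclic ↥(P : Subgroup G)) : (∀ g : G, g ∉ Subgroup.normalizer ((P : Subgroup G) : Set G) → (P : Subgroup G) ⊓ (MulAut.conj g • (P : Subgroup G)) = ⊥) ↔ ∀ x : G, x ∈ (P : Subgroup G) → x ≠ 1 → Subgroup.centralizer ({x} : Set G) = Subgroup.centralizer ((P : Subgroup G) : Set G) := by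
  have : IsMulCommutative ↥(P : Subgroup G) := inferInstance
  have hcomm : ∀ y z : G, y ∈ (P : Subgroup G) → z ∈ (P : Subgroup G) → y * z = z * y := by
    intro y z hy hz
    have := mul_comm' (⟨y, hy⟩ : ↥(P : Subgroup G)) ⟨z, hz⟩
    exact congrArg Subtype.val this
  constructor
  · intro hTI x hxP hx1
    apply le_antisymm
    · intro c hc
      have hcx : x * c = c * x := (Subgroup.mem_centralizer_iff.1 hc) x (Set.mem_singleton x)
      have hcN : c ∈ Subgroup.normalizer ((P : Subgroup G) : Set G) := by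
        by_contra hcN
        have h := hTI c hcN
        have hmem : x ∈ (P : Subgroup G) ⊓ MulAut.conj c • (P : Subgroup G) := by
          refine Subgroup.mem_inf.2 ⟨hxP, ?_⟩
          rw [mem_conj_smul_iff]
          have : c⁻¹ * x * c = x := by rw [mul_assoc, hcx, inv_mul_cancel_left]
          rw [this]; exact hxP
        rw [h, Subgroup.mem_bot] at hmem
        exact hx1 hmem
      exact centralizes_of_fix p P hcyc x hxP hx1 c hcN hcx
    · exact Subgroup.centralizer_le (Set.singleton_subset_iff.2 hxP)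
  · intro hC g hg
    rw [eq_bot_iff]
    intro x hx
    rw [Subgroup.mem_inf, mem_conj_smul_iff] at hx
    rw [Subgroup.mem_bot]
    by_contra hx1
    apply hg
    have hCx := hC x hx.1 hx1
    -- g • P ≤ N(P)
    have hle : (((g • P : Sylow p G)) : Subgroup G) ≤ Subgroup.normalizer ((P : Subgroup G) : Set G) := by
      intro w hw
      rw [Sylow.coe_subgroup_smul, mem_conj_smul_iff] at hw
      have hwC : w ∈ Subgroup.centralizer ({x} : Set G) := by
        rw [Subgroup.mem_centralizer_iff]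
        intro h hh
        rw [Set.mem_singleton_iff] at hh
        subst hh
        have h1 := hcomm _ _ hx.2 hw
        have e1 : h * w = g * ((g⁻¹ * h * g) * (g⁻¹ * w * g)) * g⁻¹ := by group
        have e2 : w * h = g * ((g⁻¹ * w * g) * (g⁻¹ * h * g)) * g⁻¹ := by group
        rw [e1, e2, h1]
      rw [hCx] at hwC
      exact Subgroup.centralizer_le_normalizer _ hwC
    have h1 := le_sylow_of_le_normalizer p P _ (g • P : Sylow p G).2 hle
    have h2 := (g • P : Sylow p G).3 P.2 h1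
    exact Sylow.smul_eq_iff_mem_normalizer.1 (Sylow.ext h2.symm)

end Cfsg.Agent.S3985
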