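import Mathlib
import Cfsg.Statements.S3997

set_option autoImplicit false
open Cfsg

namespace Cfsg.Agent.S3997

/-- Two finite groups with the same order type admit an order-preserving bijection. -/
theorem exists_orderOf_equiv {G H : Type*} [Group G] [Finite G] [Group H] [Finite H]
    (hT : ∀ m : ℕ, Nat.card {g : G // orderOf g = m} = Nat.card {h : H // orderOf h = m}) :
    ∃ e : G ≃ H, ∀ g : G, orderOf (e g) = orderOf g := by
  have h1 : ∀ m : ℕ, Nonempty ({g : G // orderOf g = m} ≃ {h : H // orderOf h = m}) :=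
    fun m => Finite.card_eq.1 (hT m)
  choose em _ using fun m => (⟨(h1 m).some, trivial⟩ : ∃ _e : {g : G // orderOf g = m} ≃ {h : H // orderOf h = m}, True)
  let e : G ≃ H := (Equiv.sigmaFiberEquiv (orderOf : G → ℕ)).symm.trans
    ((Equiv.sigmaCongrRight em).trans (Equiv.sigmaFiberEquiv (orderOf : H → ℕ)))
  refine ⟨e, fun g => ?_⟩
  have : e g = ((em (orderOf g)) ⟨g, rfl⟩ : H) := rfl
  rw [this]
  exact ((em (orderOf g)) ⟨g, rfl⟩).2

/-- the set of `p`-elements -/
def pset (X : Type*) [Group X] (p : ℕ) : Set X := {g : X | ∃ k : ℕ, orderOf g = p ^ k}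

theorem sylow_subset_pset {X : Type*} [Group X] (p : ℕ) [Fact p.Prime] (P : Sylow p X) :
    ((P : Subgroup X) : Set X) ⊆ pset X p := by
  intro g hg
  obtain ⟨k, hk⟩ := (IsPGroup.iff_orderOf.1 P.2) ⟨g, hg⟩
  refine ⟨k, ?_⟩
  rw [← hk]
  exact (Subgroup.orderOf_mk g hg).symm

theorem pset_subset_of_normal {X : Type*} [Group X] [Finite X] (p : ℕ) [Fact p.Prime] (P : Sylow p X)
    (hP : (P : Subgroup X).Normal) : pset X p ⊆ ((P : Subgroup X) : Set X) := by
  intro g hg
  obtain ⟨k, hk⟩ := hg
  have h1 : IsPGroup p (Subgroup.zpowers g) := IsPGroup.of_card (n := k) (by rw [Nat.card_zpowers, hk])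
  obtain ⟨Q, hQ⟩ := h1.exists_le_sylow
  haveI := Sylow.unique_of_normal P hP
  have : Q = P := Subsingleton.elim _ _
  rw [this] at hQ
  exact hQ (Subgroup.mem_zpowers g)

theorem result {G H : Type*} [Group G] [Finite G] [Group H] [Finite H] (hT : (∀ m : ℕ, Nat.card {g : G // orderOf g = m} = Nat.card {h : H // orderOf h = m})) (hG : Group.IsNilpotent G) :
    Group.IsNilpotent H := by
  obtain ⟨e, he⟩ := exists_orderOf_equiv hT
  have hcard : Nat.card G = Nat.card H := Nat.card_congr e
  have hGn : ∀ (p : ℕ), Fact (Nat.Prime p) → ∀ (P : Sylow p G), (P : Subgroup G).Normal :=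
    (Group.isNilpotent_of_finite_tfae.out 0 3).1 hG
  refine (Group.isNilpotent_of_finite_tfae.out 0 3).2 ?_
  intro p hp Q
  -- the image of pset G under e is pset H
  have himg : e '' (pset G p) = pset H p := by
    ext h
    constructor
    · rintro ⟨g, ⟨k, hk⟩, rfl⟩
      exact ⟨k, by rw [he, hk]⟩
    · rintro ⟨k, hk⟩
      refine ⟨e.symm h, ⟨k, ?_⟩, by simp⟩
      rw [← he, Equiv.apply_symm_apply, hk]
  have hncard : (pset H p).ncard = (pset G p).ncard := by
    rw [← himg]; exact Set.ncard_image_of_injective _ e.injective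
  -- a Sylow subgroup of G
  obtain ⟨P⟩ : Nonempty (Sylow p G) := inferInstance
  have hPset : ((P : Subgroup G) : Set G) = pset G p :=
    Set.Subset.antisymm (sylow_subset_pset p P) (pset_subset_of_normal p P (hGn p hp P))
  have hPcard : (pset G p).ncard = p ^ (Nat.card G).factorization p := by
    rw [← hPset, ← Sylow.card_eq_multiplicity P]; exact (Nat.card_coe_set_eq _).symm
  have key : ∀ Q' : Sylow p H, ((Q' : Subgroup H) : Set H) = pset H p := by
    intro Q'
    refine Set.eq_of_subset_of_ncard_le (sylow_subset_pset p Q') ?_ (Set.toFinite _)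
    rw [hncard, hPcard, hcard, ← Sylow.card_eq_multiplicity Q']
    exact (Nat.card_coe_set_eq _).le
  haveI : Subsingleton (Sylow p H) := ⟨fun Q1 Q2 => Sylow.ext (SetLike.coe_injective ((key Q1).trans (key Q2).symm))⟩
  exact Sylow.normal_of_subsingleton Q

end Cfsg.Agent.S3997
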