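import Mathlib
import Cfsg.Statements.S3986
import Cfsg.Agent.S3997

set_option autoImplicit false
open Cfsg

namespace Cfsg.Agent.S3986

/-- If a subgroup contains every element of prime power order for primes other than `p`, then it
contains every element of order prime to `p`. -/
theorem mem_of_coprime_order {G : Type*} [Group G] [Finite G] (p : ℕ) (C : Subgroup G)
    (hC : ∀ (y : G) (q b : ℕ), q.Prime → q ≠ p → orderOf y = q ^ b → y ∈ C) :
    ∀ (n : ℕ) (y : G), orderOf y = n → n.Coprime p → y ∈ C := by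
  intro n
  induction n using Nat.recOnPosPrimePosCoprime with
  | prime_pow q b hq hb =>
    intro y hy hcop
    refine hC y q b hq ?_ hy
    rintro rfl
    have : q ∣ Nat.gcd (q ^ b) q := Nat.dvd_gcd (dvd_pow_self q hb.ne') dvd_rfl
    rw [Nat.Coprime] at hcop
    rw [hcop] at this
    exact hq.one_lt.ne' (Nat.dvd_one.1 this)
  | zero =>
    intro y hy _
    exact absurd hy (orderOf_pos y).ne'
  | one =>
    intro y hy _
    rw [orderOf_eq_one_iff] at hy
    rw [hy]; exact C.one_mem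
  | coprime a b ha hb hab iha ihb =>
    intro y hy hcop
    have ha0 : a ≠ 0 := by omega
    have hb0 : b ≠ 0 := by omega
    have h1 : orderOf (y ^ a) = b := by
      rw [orderOf_pow_of_dvd ha0 (by rw [hy]; exact dvd_mul_right a b), hy]
      exact Nat.mul_div_cancel_left b (Nat.pos_of_ne_zero ha0)
    have h2 : orderOf (y ^ b) = a := by
      rw [orderOf_pow_of_dvd hb0 (by rw [hy]; exact dvd_mul_left b a), hy]
      exact Nat.mul_div_cancel a (Nat.pos_of_ne_zero hb0)
    have hya : y ^ a ∈ C := ihb _ h1 (Nat.Coprime.coprime_dvd_left (dvd_mul_left b a) hcop)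
    have hyb : y ^ b ∈ C := iha _ h2 (Nat.Coprime.coprime_dvd_left (dvd_mul_right a b) hcop)
    have hbez := Int.gcd_eq_gcd_ab (a : ℤ) (b : ℤ)
    rw [Int.gcd_natCast_natCast, hab] at hbez
    have hy' : y = (y ^ a) ^ (Int.gcdA (a : ℤ) (b : ℤ)) * (y ^ b) ^ (Int.gcdB (a : ℤ) (b : ℤ)) := by
      rw [← zpow_natCast y a, ← zpow_natCast y b, ← zpow_mul, ← zpow_mul, ← zpow_add, ← hbez]
      simp
    rw [hy']
    exact C.mul_mem (C.zpow_mem hya _) (C.zpow_mem hyb _)

/-- An element of `p`-power order lies in a normal Sylow `p`-subgroup. -/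
theorem mem_sylow_of_order {G : Type*} [Group G] [Finite G] (p : ℕ) [Fact p.Prime] (P : Sylow p G)
    (hP : (P : Subgroup G).Normal) (x : G) (hx : ∃ a : ℕ, orderOf x = p ^ a) :
    x ∈ (P : Subgroup G) :=
  Cfsg.Agent.S3997.pset_subset_of_normal p P hP hx

/-- An element of `q`-power order, `q ≠ p`, lies in a normal complement of a Sylow `p`-subgroup. -/
theorem mem_compl_of_order {G : Type*} [Group G] [Finite G] (p : ℕ) [Fact p.Prime] (P : Sylow p G)
    (K : Subgroup G) (hK : K.Normal) (hsup : (P : Subgroup G) ⊔ K = ⊤)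
    (y : G) (hy : ∃ q b : ℕ, q.Prime ∧ q ≠ p ∧ orderOf y = q ^ b) : y ∈ K := by
  have hp : p.Prime := Fact.out
  obtain ⟨q, b, hq, hqp, hyo⟩ := hy
  have := hK
  -- index of K is a power of p
  have h1 : K.index ∣ Nat.card (P : Subgroup G) := by
    rw [← Subgroup.relIndex_top_right, ← hsup, Subgroup.relIndex_sup_right]
    exact Subgroup.relIndex_dvd_card _ _
  obtain ⟨n, hn⟩ := (IsPGroup.iff_card (p := p)).1 P.2
  rw [hn] at h1
  obtain ⟨m, -, hm⟩ := (Nat.dvd_prime_pow hp).1 h1
  have hcard : Nat.card (G ⧸ K) = p ^ m := by rw [← hm]; rfl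
  have e1 : (QuotientGroup.mk' K y) ^ (p ^ m) = 1 := by
    rw [← hcard]; exact pow_card_eq_one'
  have e2 : (QuotientGroup.mk' K y) ^ (q ^ b) = 1 := by
    rw [← map_pow, ← hyo, pow_orderOf_eq_one, map_one]
  have hcop : Nat.Coprime (p ^ m) (q ^ b) :=
    Nat.Coprime.pow _ _ ((Nat.coprime_primes hp hq).2 (Ne.symm hqp))
  have e3 : (QuotientGroup.mk' K y) ^ (Nat.gcd (p ^ m) (q ^ b)) = 1 :=
    pow_gcd_eq_one.2 ⟨e1, e2⟩
  rw [hcop, pow_one] at e3
  exact (QuotientGroup.eq_one_iff y).1 e3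

theorem forward {G : Type*} [Group G] [Finite G] (p : ℕ) [Fact p.Prime] (P : Sylow p G)
    (K : Subgroup G) (hP : (P : Subgroup G).Normal) (hK : K.Normal)
    (hinf : (P : Subgroup G) ⊓ K = ⊥) (hsup : (P : Subgroup G) ⊔ K = ⊤)
    (x y : G) (hx : ∃ a : ℕ, orderOf x = p ^ a)
    (hy : ∃ q b : ℕ, q.Prime ∧ q ≠ p ∧ orderOf y = q ^ b) : x * y = y * x :=
  (Subgroup.commute_of_normal_of_disjoint _ _ hP hK (disjoint_iff.2 hinf) x y
    (mem_sylow_of_order p P hP x hx) (mem_compl_of_order p P K hK hsup y hy)).eq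

theorem backward {G : Type*} [Group G] [Finite G] (p : ℕ) [Fact p.Prime]
    (h : ∀ x y : G, (∃ a : ℕ, orderOf x = p ^ a) →
      (∃ q b : ℕ, q.Prime ∧ q ≠ p ∧ orderOf y = q ^ b) → x * y = y * x) :
    ∃ (P : Sylow p G) (K : Subgroup G), (P : Subgroup G).Normal ∧ K.Normal ∧
      (P : Subgroup G) ⊓ K = ⊥ ∧ (P : Subgroup G) ⊔ K = ⊤ := by
  have hp : p.Prime := Fact.out
  obtain ⟨P⟩ : Nonempty (Sylow p G) := inferInstance
  -- elements of order prime to p centralize P
  have hcent : ∀ y : G, (orderOf y).Coprime p → y ∈ Subgroup.centralizer ((P : Subgroup G) : Set G) := by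
    intro y hy
    refine mem_of_coprime_order p _ ?_ _ y rfl hy
    intro y q b hq hqp hyo
    rw [Subgroup.mem_centralizer_iff]
    intro x hx
    have hxo : ∃ a : ℕ, orderOf x = p ^ a := by
      obtain ⟨k, hk⟩ := (IsPGroup.iff_orderOf.1 P.2) ⟨x, hx⟩
      exact ⟨k, by rw [← hk]; exact (Subgroup.orderOf_mk x hx).symm⟩
    exact h x y hxo ⟨q, b, hq, hqp, hyo⟩
  -- P is normal
  have hPn : (P : Subgroup G).Normal := by
    rw [← Subgroup.normalizer_eq_top_iff, ← Subgroup.index_eq_one, Nat.eq_one_iff_not_exists_prime_dvd]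
    intro r hr hdvd
    by_cases hrp : r = p
    · subst hrp
      exact P.not_dvd_index (hdvd.trans (Subgroup.index_dvd_of_le Subgroup.le_normalizer))
    · have : Fact r.Prime := ⟨hr⟩
      obtain ⟨R⟩ : Nonempty (Sylow r G) := inferInstance
      have hR : (R : Subgroup G) ≤ Subgroup.normalizer ((P : Subgroup G) : Set G) := by
        intro y hy
        apply Subgroup.centralizer_le_normalizer
        apply hcent
        obtain ⟨k, hk⟩ := (IsPGroup.iff_orderOf.1 R.2) ⟨y, hy⟩
        have hyo : orderOf y = r ^ k := by rw [← hk]; exact (Subgroup.orderOf_mk y hy).symm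
        rw [hyo]
        exact Nat.Coprime.pow_left _ ((Nat.coprime_primes hr hp).2 hrp)
      exact R.not_dvd_index (hdvd.trans (Subgroup.index_dvd_of_le hR))
  have := hPn
  obtain ⟨K, hK⟩ := Subgroup.exists_right_complement'_of_coprime P.card_coprime_index
  have hKcard : (Nat.card K).Coprime p := by
    have h1 : Nat.card K = (P : Subgroup G).index := by
      have h2 := hK.card_mul_card
      have h3 := (P : Subgroup G).card_mul_index
      have hpos : 0 < Nat.card (P : Subgroup G) := Nat.card_pos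
      exact Nat.eq_of_mul_eq_mul_left hpos (h2.trans h3.symm)
    rw [h1]
    exact (Nat.Coprime.symm ((Nat.Prime.coprime_iff_not_dvd hp).2 P.not_dvd_index))
  have hKcent : K ≤ Subgroup.centralizer ((P : Subgroup G) : Set G) := by
    intro y hy
    apply hcent
    have h1 : orderOf y ∣ Nat.card K := by
      have := orderOf_dvd_natCard (⟨y, hy⟩ : K)
      rwa [Subgroup.orderOf_mk] at this
    exact Nat.Coprime.coprime_dvd_left h1 hKcard
  refine ⟨P, K, hPn, ?_, disjoint_iff.1 hK.disjoint, hK.sup_eq_top⟩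
  rw [← Subgroup.normalizer_eq_top_iff, eq_top_iff, ← hK.sup_eq_top]
  refine sup_le ?_ Subgroup.le_normalizer
  intro x hx
  apply Subgroup.centralizer_le_normalizer
  rw [Subgroup.mem_centralizer_iff]
  intro y hy
  exact ((Subgroup.mem_centralizer_iff.1 (hKcent hy)) x hx).symm

theorem result {G : Type*} [Group G] [Finite G] (p : ℕ) [Fact p.Prime] : (∃ (P : Sylow p G) (K : Subgroup G), (P : Subgroup G).Normal ∧ K.Normal ∧ (P : Subgroup G) ⊓ K = ⊥ ∧ (P : Subgroup G) ⊔ K = ⊤) ↔ ∀ x y : G, (∃ a : ℕ, orderOf x = p ^ a) → (∃ q b : ℕ, q.Prime ∧ q ≠ p ∧ orderOf y = q ^ b) → x * y = y * x := by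
  constructor
  · rintro ⟨P, K, hP, hK, hinf, hsup⟩ x y hx hy
    exact forward p P K hP hK hinf hsup x y hx hy
  · exact backward p

end Cfsg.Agent.S3986
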