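import Mathlib
import Cfsg.Statements.S3987
import Cfsg.Agent.S3986

set_option autoImplicit false
open Cfsg

namespace Cfsg.Agent.S3987

theorem class_card {G : Type*} [Group G] (g : G) :
    (Subgroup.centralizer ({g} : Set G)).index = (conjugatesOf g).ncard := by
  have h1 := Subgroup.index_comap_of_surjective (MulAction.stabilizer (ConjAct G) g)
    (f := (ConjAct.toConjAct (G := G)).toMonoidHom) (ConjAct.toConjAct (G := G)).surjective
  have h2 : (Subgroup.centralizer ({g} : Set G)).index = (MulAction.stabilizer (ConjAct G) g).index :=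
    (congrArg Subgroup.index (Subgroup.centralizer_eq_comap_stabilizer g)).trans h1
  rw [h2, MulAction.index_stabilizer]
  congr 1
  ext h
  rw [ConjAct.mem_orbit_conjAct]
  exact ⟨fun h' => h'.symm, fun h' => h'.symm⟩

theorem mem_conj_iff {G : Type*} [Group G] (g h : G) :
    h ∈ conjugatesOf g ↔ ∃ c : G, c * g * c⁻¹ = h := by
  change IsConj g h ↔ _
  exact isConj_iff

theorem conj_subset_mul {G : Type*} [Group G] (x y : G) :
    conjugatesOf (x * y) ⊆ (fun ab : G × G => ab.1 * ab.2) '' (conjugatesOf x ×ˢ conjugatesOf y) := by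
  intro z hz
  obtain ⟨c, rfl⟩ := (mem_conj_iff _ _).1 hz
  refine ⟨(c * x * c⁻¹, c * y * c⁻¹), ⟨(mem_conj_iff _ _).2 ⟨c, rfl⟩, (mem_conj_iff _ _).2 ⟨c, rfl⟩⟩, ?_⟩
  simp only; group

theorem backward {G : Type*} [Group G] [Finite G] (x y : G)
    (h : (Subgroup.centralizer ({x * y} : Set G)).index =
      (Subgroup.centralizer ({x} : Set G)).index * (Subgroup.centralizer ({y} : Set G)).index) :
    x * y = y * x := by
  rw [class_card, class_card, class_card, ← Set.ncard_prod] at h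
  have h1 : ((fun ab : G × G => ab.1 * ab.2) '' (conjugatesOf x ×ˢ conjugatesOf y)).ncard =
      (conjugatesOf x ×ˢ conjugatesOf y).ncard := by
    apply le_antisymm (Set.ncard_image_le (Set.toFinite _))
    rw [← h]
    exact Set.ncard_le_ncard (conj_subset_mul x y) (Set.toFinite _)
  have hinj := Set.injOn_of_ncard_image_eq h1 (Set.toFinite _)
  have m1 : ((y * x * y⁻¹, y) : G × G) ∈ conjugatesOf x ×ˢ conjugatesOf y :=
    ⟨(mem_conj_iff _ _).2 ⟨y, rfl⟩, (mem_conj_iff _ _).2 ⟨1, by simp⟩⟩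
  have m2 : ((x, x⁻¹ * y * x) : G × G) ∈ conjugatesOf x ×ˢ conjugatesOf y :=
    ⟨(mem_conj_iff _ _).2 ⟨1, by simp⟩, (mem_conj_iff _ _).2 ⟨x⁻¹, by simp⟩⟩
  have heq : (fun ab : G × G => ab.1 * ab.2) (y * x * y⁻¹, y) =
      (fun ab : G × G => ab.1 * ab.2) (x, x⁻¹ * y * x) := by
    simp only; group
  have := hinj m1 m2 heq
  have h2 : y * x * y⁻¹ = x := (Prod.ext_iff.1 this).1
  calc x * y = (y * x * y⁻¹) * y := by rw [h2]
    _ = y * x := by group

theorem forward {G : Type*} [Group G] [Finite G] (p : ℕ) [Fact p.Prime] (P : Sylow p G)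
    (K : Subgroup G) (hP : (P : Subgroup G).Normal) (hK : K.Normal)
    (hinf : (P : Subgroup G) ⊓ K = ⊥) (hsup : (P : Subgroup G) ⊔ K = ⊤)
    (x y : G) (hx : ∃ a : ℕ, orderOf x = p ^ a)
    (hy : ∃ q b : ℕ, q.Prime ∧ q ≠ p ∧ orderOf y = q ^ b) :
    (Subgroup.centralizer ({x * y} : Set G)).index =
      (Subgroup.centralizer ({x} : Set G)).index * (Subgroup.centralizer ({y} : Set G)).index := by
  have hxP : x ∈ (P : Subgroup G) := Cfsg.Agent.S3986.mem_sylow_of_order p P hP x hx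
  have hyK : y ∈ K := Cfsg.Agent.S3986.mem_compl_of_order p P K hK hsup y hy
  have hcomm : ∀ a b : G, a ∈ (P : Subgroup G) → b ∈ K → a * b = b * a := fun a b ha hb =>
    (Subgroup.commute_of_normal_of_disjoint _ _ hP hK (disjoint_iff.2 hinf) a b ha hb).eq
  have hdecomp : ∀ g : G, ∃ a ∈ (P : Subgroup G), ∃ b ∈ K, a * b = g := by
    intro g
    have hg : g ∈ (P : Subgroup G) ⊔ K := by rw [hsup]; trivial
    have := hK
    exact Subgroup.mem_sup_of_normal_right.1 hg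
  rw [class_card, class_card, class_card, ← Set.ncard_prod]
  have hset : conjugatesOf (x * y) =
      (fun ab : G × G => ab.1 * ab.2) '' (conjugatesOf x ×ˢ conjugatesOf y) := by
    apply Set.Subset.antisymm (conj_subset_mul x y)
    rintro _ ⟨⟨a, b⟩, ⟨ha, hb⟩, rfl⟩
    obtain ⟨g, rfl⟩ := (mem_conj_iff _ _).1 ha
    obtain ⟨h, rfl⟩ := (mem_conj_iff _ _).1 hb
    obtain ⟨gP, hgP, gK, hgK, rfl⟩ := hdecomp g
    obtain ⟨hP', hhP, hK', hhK, rfl⟩ := hdecomp h
    rw [mem_conj_iff]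
    refine ⟨gP * hK', ?_⟩
    have c1 : gK * x = x * gK := (hcomm x gK hxP hgK).symm
    have c2 : hK' * x = x * hK' := (hcomm x hK' hxP hhK).symm
    have hyK' : hK' * y * hK'⁻¹ ∈ K := hK.conj_mem y hyK hK'
    have c3 : hP' * (hK' * y * hK'⁻¹) = (hK' * y * hK'⁻¹) * hP' := hcomm _ _ hhP hyK'
    have c4 : gP * (hK' * y * hK'⁻¹) = (hK' * y * hK'⁻¹) * gP := hcomm _ _ hgP hyK'
    simp only
    have e1 : gP * gK * x * (gP * gK)⁻¹ = gP * x * gP⁻¹ := by
      calc gP * gK * x * (gP * gK)⁻¹ = gP * (gK * x) * gK⁻¹ * gP⁻¹ := by group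
        _ = gP * x * gP⁻¹ := by rw [c1]; group
    have e2 : hP' * hK' * y * (hP' * hK')⁻¹ = hK' * y * hK'⁻¹ := by
      calc hP' * hK' * y * (hP' * hK')⁻¹ = (hP' * (hK' * y * hK'⁻¹)) * hP'⁻¹ := by group
        _ = hK' * y * hK'⁻¹ := by rw [c3]; group
    rw [e1, e2]
    calc gP * hK' * (x * y) * (gP * hK')⁻¹ = gP * (hK' * x) * (y * hK'⁻¹) * gP⁻¹ := by group
      _ = gP * x * (gP⁻¹ * (gP * (hK' * y * hK'⁻¹))) * gP⁻¹ := by rw [c2]; group
      _ = gP * x * gP⁻¹ * (hK' * y * hK'⁻¹) := by rw [c4]; group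
  rw [hset]
  apply Set.InjOn.ncard_image
  rintro ⟨a, b⟩ ⟨ha, hb⟩ ⟨a', b'⟩ ⟨ha', hb'⟩ heq
  simp only at heq
  have haP : ∀ a ∈ conjugatesOf x, a ∈ (P : Subgroup G) := by
    intro a ha
    obtain ⟨g, rfl⟩ := (mem_conj_iff _ _).1 ha
    exact hP.conj_mem x hxP g
  have hbK : ∀ b ∈ conjugatesOf y, b ∈ K := by
    intro b hb
    obtain ⟨g, rfl⟩ := (mem_conj_iff _ _).1 hb
    exact hK.conj_mem y hyK g
  have h1 : a'⁻¹ * a = b' * b⁻¹ := by
    calc a'⁻¹ * a = a'⁻¹ * (a * b) * b⁻¹ := by group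
      _ = a'⁻¹ * (a' * b') * b⁻¹ := by rw [heq]
      _ = b' * b⁻¹ := by group
  have h2 : a'⁻¹ * a ∈ (P : Subgroup G) ⊓ K := by
    refine Subgroup.mem_inf.2 ⟨Subgroup.mul_mem _ (Subgroup.inv_mem _ (haP a' ha')) (haP a ha), ?_⟩
    rw [h1]
    exact Subgroup.mul_mem _ (hbK b' hb') (Subgroup.inv_mem _ (hbK b hb))
  rw [hinf, Subgroup.mem_bot] at h2
  have h3 : a = a' := by
    calc a = a' * (a'⁻¹ * a) := by group
      _ = a' := by rw [h2, mul_one]
  have h4 : b = b' := by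
    have : b' * b⁻¹ = 1 := by rw [← h1, h2]
    calc b = (b' * b⁻¹)⁻¹ * b' := by group
      _ = b' := by rw [this]; group
  rw [h3, h4]

theorem result {G : Type*} [Group G] [Finite G] (p : ℕ) [Fact p.Prime] : (∃ (P : Sylow p G) (K : Subgroup G), (P : Subgroup G).Normal ∧ K.Normal ∧ (P : Subgroup G) ⊓ K = ⊥ ∧ (P : Subgroup G) ⊔ K = ⊤) ↔ ∀ x y : G, (∃ a : ℕ, orderOf x = p ^ a) → (∃ q b : ℕ, q.Prime ∧ q ≠ p ∧ orderOf y = q ^ b) → (Subgroup.centralizer ({x * y} : Set G)).index = (Subgroup.centralizer ({x} : Set G)).index * (Subgroup.centralizer ({y} : Set G)).index := by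
  constructor
  · rintro ⟨P, K, hP, hK, hinf, hsup⟩ x y hx hy
    exact forward p P K hP hK hinf hsup x y hx hy
  · intro h
    apply Cfsg.Agent.S3986.backward p
    intro x y hx hy
    exact backward x y (h x y hx hy)

end Cfsg.Agent.S3987
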