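import Cfsg.Statements.S4155
import Cfsg.Agent.H31.CN2
import Cfsg.Agent.S0016
import Cfsg.Agent.H73.Prim

set_option autoImplicit false
set_option linter.style.haveILetI false
open Cfsg

namespace Cfsg.Agent.S4155

open Cfsg.Agent.H31

theorem pow_mod_of {A : Type*} [Monoid A] {a : A} {q : ℕ} (h : a ^ q = 1) (m : ℕ) :
    a ^ (m % q) = a ^ m := by
  conv_rhs => rw [← Nat.mod_add_div m q, pow_add, pow_mul, h, one_pow, mul_one]

theorem norm_fixed {A V : Type*} [Group A] [CommGroup V] (ψ : A →* MulAut V) (q : ℕ)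
    [hq : Fact q.Prime] (a : A) (ha : a ^ q = 1) (v : V) :
    ψ a (∏ i : ZMod q, ψ (a ^ i.val) v) = ∏ i : ZMod q, ψ (a ^ i.val) v := by
  haveI : Fact (1 < q) := ⟨hq.out.one_lt⟩
  rw [map_prod]
  have key : ∀ i : ZMod q, ψ a (ψ (a ^ i.val) v) = ψ (a ^ (i + 1).val) v := by
    intro i
    rw [ZMod.val_add, pow_mod_of ha, ZMod.val_one, pow_succ', map_mul, MulAut.mul_apply]
  exact Fintype.prod_equiv (Equiv.addRight 1) _ _ (fun i => key i)

theorem norm_arg {A V : Type*} [Group A] [Group V] (hV : ∀ a b : V, a * b = b * a)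
    (ψ : A →* MulAut V) (q : ℕ) [hq : Fact q.Prime]
    (x z : A) (hx : x ^ q = 1) (hz : z ^ q = 1) (hxz : x * z = z * x)
    (hfz : ∀ v, ψ z v = v → v = 1) (hf : ∀ k : ℕ, ∀ v, ψ (x * z ^ k) v = v → v = 1) (v : V) :
    v ^ q = 1 := by
  letI : CommGroup V := { ‹Group V› with mul_comm := hV }
  haveI : NeZero q := ⟨hq.out.ne_zero⟩
  have hNz : ∀ w : V, ∏ j : ZMod q, ψ (z ^ j.val) w = 1 := fun w =>
    hfz _ (norm_fixed ψ q z hz w)
  have hcomm : ∀ k : ℕ, Commute x (z ^ k) := fun k => Commute.pow_right hxz k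
  have hNk : ∀ k : ZMod q, ∏ i : ZMod q, ψ ((x * z ^ k.val) ^ i.val) v = 1 := by
    intro k
    apply hf k.val
    apply norm_fixed ψ q (x * z ^ k.val) _ v
    rw [(hcomm k.val).mul_pow, hx, ← pow_mul, mul_comm, pow_mul, hz, one_pow, one_mul]
  have h1 : ∏ k : ZMod q, ∏ i : ZMod q, ψ ((x * z ^ k.val) ^ i.val) v = 1 :=
    Finset.prod_eq_one (fun k _ => hNk k)
  rw [Finset.prod_comm] at h1
  rw [Fintype.prod_eq_single (0 : ZMod q)] at h1
  · simpa [ZMod.val_zero, Finset.prod_const, Finset.card_univ, ZMod.card] using h1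
  · intro i hi
    have key : ∀ k : ZMod q, ψ ((x * z ^ k.val) ^ i.val) v
        = ψ (x ^ i.val) (ψ (z ^ (k * i).val) v) := by
      intro k
      rw [(hcomm k.val).mul_pow, ← pow_mul, ZMod.val_mul, pow_mod_of hz, map_mul,
        MulAut.mul_apply]
    rw [Finset.prod_congr rfl (fun k _ => key k), ← map_prod]
    have h2 : ∏ k : ZMod q, ψ (z ^ (k * i).val) v = ∏ j : ZMod q, ψ (z ^ j.val) v :=
      Fintype.prod_equiv (Equiv.mulRight₀ i hi) _ _ (fun k => rfl)
    rw [h2, hNz, map_one]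


theorem isEl_mul_of_nilpotent {G : Type*} [Group G] [Finite G] (M : Subgroup G)
    (hM : Group.IsNilpotent M) {q : ℕ} (hq : q.Prime) {a b : G} (ha : a ∈ M) (hb : b ∈ M)
    (hae : IsEl q a) (hbe : IsEl q b) : IsEl q (a * b) := by
  haveI := hM
  haveI : Fact q.Prime := ⟨hq⟩
  let Q : Sylow q M := default
  have h1 := mem_sylow_of_isEl Q ⟨a, ha⟩ (hae.subtype_mk ha)
  have h2 := mem_sylow_of_isEl Q ⟨b, hb⟩ (hbe.subtype_mk hb)
  have h3 : IsEl q ((⟨a, ha⟩ : M) * ⟨b, hb⟩) := isEl_of_isPGroup Q.2 (mul_mem h1 h2)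
  exact h3.coe

theorem eq_one_of_isEl_isEl {G : Type*} [Group G] {q r : ℕ} (hq : q.Prime) (hr : r.Prime)
    (hqr : q ≠ r) {c : G} (h1 : IsEl q c) (h2 : IsEl r c) : c = 1 := by
  obtain ⟨a, ha⟩ := h1
  obtain ⟨b, hb⟩ := h2
  have h3 : orderOf c ∣ Nat.gcd (q ^ a) (r ^ b) :=
    Nat.dvd_gcd (orderOf_dvd_of_pow_eq_one ha) (orderOf_dvd_of_pow_eq_one hb)
  rw [Nat.Coprime.gcd_eq_one (Nat.coprime_pow_primes a b hq hr hqr)] at h3
  exact orderOf_eq_one_iff.mp (Nat.dvd_one.mp h3)

/-- central `r`-elements of `N`. -/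
def cz {G : Type*} [Group G] (N : Subgroup G) (r : ℕ) : Subgroup G where
  carrier := {v | v ∈ N ∧ (∀ n ∈ N, n * v = v * n) ∧ IsEl r v}
  one_mem' := ⟨N.one_mem, fun n _ => by simp, ⟨0, by simp⟩⟩
  mul_mem' := by
    rintro a b ⟨ha, hac, ⟨k, hk⟩⟩ ⟨hb, hbc, ⟨l, hl⟩⟩
    refine ⟨N.mul_mem ha hb, fun n hn => ?_, ⟨k + l, ?_⟩⟩
    · rw [← mul_assoc, hac n hn, mul_assoc, hbc n hn, mul_assoc]
    · have hab : Commute a b := hbc a ha
      rw [hab.mul_pow, pow_add, pow_mul, hk, one_pow, pow_mul', hl, one_pow, one_mul]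
  inv_mem' := by
    rintro a ⟨ha, hac, ⟨k, hk⟩⟩
    refine ⟨N.inv_mem ha, fun n hn => ?_, ⟨k, by rw [inv_pow, hk, inv_one]⟩⟩
    have := hac n hn
    calc n * a⁻¹ = a⁻¹ * (a * n) * a⁻¹ := by group
      _ = a⁻¹ * (n * a) * a⁻¹ := by rw [this]
      _ = a⁻¹ * n := by group

theorem cz_normal {G : Type*} [Group G] (N : Subgroup G) [hN : N.Normal] (r : ℕ) :
    (cz N r).Normal := by
  constructor
  rintro v ⟨hv, hvc, hve⟩ g
  refine ⟨hN.conj_mem v hv g, fun n hn => ?_, hve.conj g⟩
  have h1 : g⁻¹ * n * g ∈ N := by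
    have := hN.conj_mem n hn g⁻¹
    simpa using this
  have h2 := hvc _ h1
  calc n * (g * v * g⁻¹) = g * ((g⁻¹ * n * g) * v) * g⁻¹ := by group
    _ = g * (v * (g⁻¹ * n * g)) * g⁻¹ := by rw [h2]
    _ = g * v * g⁻¹ * n := by group

/-- Let G be a finite group and N a proper non-trivial normal nilpotent subgroup whose order is not a prime power, such that for every x outside N all elements of the coset xN have the same order as x. Then N is the Fitting subgroup of G, and for every prime q every Sylow q-subgroup of G/N is cyclic or generalized quaternion. -/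
theorem result {G : Type*} [Group G] [Finite G] (N : Subgroup G) [N.Normal] (hN1 : N ≠ ⊥) (hN2 : N ≠ ⊤)
    (heq : ∀ x : G, x ∉ N → ∀ n ∈ N, orderOf (x * n) = orderOf x)
    (hnil : Group.IsNilpotent N) (hnpp : ¬ IsPrimePow (Nat.card N)) :
    N = Cfsg.fittingSubgroup G ∧
    ∀ (q : ℕ) [Fact q.Prime] (Q : Sylow q (G ⧸ N)), IsCyclic (Q : Subgroup (G ⧸ N)) ∨ ∃ n : ℕ, Nonempty ((Q : Subgroup (G ⧸ N)) ≃* QuaternionGroup (2 ^ n)) := by
  classical
  -- Lemma A
  have hA : ∀ (q : ℕ), q.Prime → ∀ g : G, g ∉ N → IsEl q (QuotientGroup.mk' N g) → IsEl q g := by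
    intro q hq g hgN ⟨j, hj⟩
    haveI : Fact q.Prime := ⟨hq⟩
    obtain ⟨a, b, ha, hb, hgab, ⟨e, he⟩, hbq⟩ := Cfsg.Agent.H73.exists_p_decomp q g
    have hbN : b ∈ N := by
      rw [← QuotientGroup.eq_one_iff (N := N) b]
      obtain ⟨i, rfl⟩ := Subgroup.mem_zpowers_iff.mp hb
      have h1 : ((g ^ i : G) : G ⧸ N) ^ (q ^ j) = 1 := by
        have h2 : ((g ^ i : G) : G ⧸ N) = (QuotientGroup.mk' N g) ^ i := by simp
        rw [h2, ← zpow_natCast, ← zpow_mul, mul_comm, zpow_mul, zpow_natCast, hj, one_zpow]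
      have h3 : orderOf ((g ^ i : G) : G ⧸ N) ∣ orderOf (g ^ i) :=
        orderOf_map_dvd (QuotientGroup.mk' N) (g ^ i)
      have h4 : orderOf ((g ^ i : G) : G ⧸ N) ∣ Nat.gcd (orderOf (g ^ i)) (q ^ j) :=
        Nat.dvd_gcd h3 (orderOf_dvd_of_pow_eq_one h1)
      rw [Nat.Coprime.gcd_eq_one (Nat.Coprime.pow_right j hbq)] at h4
      exact orderOf_eq_one_iff.mp (Nat.dvd_one.mp h4)
    have haN : a ∉ N := fun h => hgN (hgab ▸ N.mul_mem h hbN)
    have h5 := heq a haN b hbN
    rw [← hgab, he] at h5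
    exact ⟨e, by rw [← h5]; exact pow_orderOf_eq_one g⟩
  -- Lemma B
  have hB : ∀ (q r : ℕ), q.Prime → r.Prime → q ≠ r → ∀ g : G, g ∉ N → IsEl q g →
      ∀ v ∈ N, IsEl r v → g * v = v * g → v = 1 := by
    intro q r hq hr hqr g hgN ⟨a, ha⟩ v hvN ⟨b, hb⟩ hcomm
    have hco : (orderOf g).Coprime (orderOf v) :=
      Nat.Coprime.coprime_dvd_left (orderOf_dvd_of_pow_eq_one ha)
        (Nat.Coprime.coprime_dvd_right (orderOf_dvd_of_pow_eq_one hb)
          (Nat.coprime_pow_primes a b hq hr hqr))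
    have h1 := Commute.orderOf_mul_eq_mul_orderOf_of_coprime (show Commute g v from hcomm) hco
    rw [heq g hgN v hvN] at h1
    have h2 : orderOf v = 1 := by
      have hpos := orderOf_pos g
      nlinarith [orderOf_pos v]
    exact orderOf_eq_one_iff.mp h2
  -- another prime
  have hother : ∀ q : ℕ, q.Prime → ∃ r : ℕ, r.Prime ∧ r ≠ q ∧ r ∣ Nat.card N := by
    intro q hq
    by_contra hcon
    push Not at hcon
    apply hnpp
    have h0 : Nat.card N ≠ 0 := Nat.card_pos.ne'
    have h1 : Nat.card N = q ^ (Nat.card N).primeFactorsList.length := by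
      apply Nat.eq_prime_pow_of_unique_prime_dvd h0
      intro d hd hdn
      by_contra hne
      exact hcon d hd hne hdn
    rw [isPrimePow_nat_iff]
    refine ⟨q, _, hq, ?_, h1.symm⟩
    rcases Nat.eq_zero_or_pos (Nat.card N).primeFactorsList.length with h2 | h2
    · rw [h2, pow_zero] at h1
      exact absurd ((Subgroup.card_eq_one).mp h1) hN1
    · exact h2
  refine ⟨?_, ?_⟩
  · apply le_antisymm
    · exact le_sSup ⟨inferInstance, hnil⟩
    · apply sSup_le
      rintro M ⟨hMn, hMnil⟩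
      by_contra hMN
      have hex : ∃ q, q.Prime ∧ ∃ y ∈ M, IsEl q y ∧ y ∉ N := by
        by_contra hcon
        push Not at hcon
        apply hMN
        have h1 := eq_top_of_forall_isEl (N.subgroupOf M) (fun q hq x hx =>
          Subgroup.mem_subgroupOf.mpr (hcon q hq x x.2 hx.coe))
        intro y hy
        have h2 : (⟨y, hy⟩ : M) ∈ N.subgroupOf M := h1 ▸ Subgroup.mem_top _
        exact Subgroup.mem_subgroupOf.mp h2
      obtain ⟨q, hq, y, hyM, hyq, hyN⟩ := hex
      obtain ⟨r, hr, hrq, hrN⟩ := hother q hq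
      haveI : Fact r.Prime := ⟨hr⟩
      obtain ⟨v, hv⟩ := exists_prime_orderOf_dvd_card' (G := N) r hrN
      have hvr : IsEl r (v : G) := ⟨1, by
        rw [pow_one, ← hv, ← Subgroup.orderOf_coe]; exact pow_orderOf_eq_one _⟩
      have hc_r : IsEl r (y * v * y⁻¹ * (v : G)⁻¹) := by
        apply isEl_mul_of_nilpotent N hnil hr
        · exact ‹N.Normal›.conj_mem _ v.2 y
        · exact N.inv_mem v.2
        · exact hvr.conj y
        · obtain ⟨k, hk⟩ := hvr
          exact ⟨k, by rw [inv_pow, hk, inv_one]⟩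
      have hc_q : IsEl q (y * v * y⁻¹ * (v : G)⁻¹) := by
        have h1 : y * v * y⁻¹ * (v : G)⁻¹ = y * (v * y⁻¹ * (v : G)⁻¹) := by group
        rw [h1]
        have hyinv : IsEl q y⁻¹ := by
          obtain ⟨k, hk⟩ := hyq
          exact ⟨k, by rw [inv_pow, hk, inv_one]⟩
        apply isEl_mul_of_nilpotent M hMnil hq hyM
        · exact hMn.conj_mem _ (M.inv_mem hyM) v
        · exact hyq
        · exact hyinv.conj v
      have hc1 := eq_one_of_isEl_isEl hq hr hrq.symm hc_q hc_r
      have hcomm : y * (v : G) = v * y := by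
        have h2 : y * v = (y * v * y⁻¹ * (v : G)⁻¹) * (v * y) := by group
        rw [h2, hc1, one_mul]
      have hv1 := hB q r hq hr hrq.symm y hyN hyq v v.2 hvr hcomm
      have hv2 : orderOf (v : G) = r := by rw [Subgroup.orderOf_coe]; exact hv
      rw [hv1, orderOf_one] at hv2
      exact hr.one_lt.ne hv2
  · intro q hqF Q
    have hq : q.Prime := hqF.out
    obtain ⟨r, hr, hrq, hrN⟩ := hother q hq
    haveI : Fact r.Prime := ⟨hr⟩
    haveI := hnil
    have hVn : (cz N r).Normal := cz_normal N r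
    have hVN : ∀ v ∈ cz N r, v ∈ N := fun v hv => hv.1
    have hVc : ∀ v ∈ cz N r, ∀ n ∈ N, n * v = v * n := fun v hv => hv.2.1
    have hVr : ∀ v ∈ cz N r, IsEl r v := fun v hv => hv.2.2
    obtain ⟨v0, hv0V, hv01⟩ : ∃ v0 ∈ cz N r, v0 ≠ 1 := by
      obtain ⟨k, hkQ, hk1, hkc⟩ := exists_central_in_sylow (N := N) hrN (default : Sylow r N)
      refine ⟨(k : G), ⟨k.2, fun n hn => ?_, ?_⟩, fun h => hk1 (Subtype.ext h)⟩
      · exact congrArg Subtype.val (hkc ⟨n, hn⟩)
      · exact (isEl_of_isPGroup (default : Sylow r N).2 hkQ).coe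
    have hVcomm : ∀ a b : cz N r, a * b = b * a :=
      fun a b => Subtype.ext (hVc b b.2 a (hVN a a.2))
    let φ : G →* MulAut (cz N r) := MulAut.conjNormal
    have hφN : N ≤ φ.ker := by
      intro n hn
      rw [MonoidHom.mem_ker]
      ext v
      show ((MulAut.conjNormal n) v : G) = v
      rw [MulAut.conjNormal_apply, hVc v v.2 n hn, mul_inv_cancel_right]
    let ψ : G ⧸ N →* MulAut (cz N r) := QuotientGroup.lift N φ hφN
    have hψ : ∀ a : G ⧸ N, a ≠ 1 → a ^ q = 1 → ∀ v : cz N r, ψ a v = v → v = 1 := by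
      intro a ha1 haq v hv
      obtain ⟨g, rfl⟩ := QuotientGroup.mk_surjective a
      have hgN : g ∉ N := fun h => ha1 ((QuotientGroup.eq_one_iff g).mpr h)
      have hgq : IsEl q g := hA q hq g hgN ⟨1, by rw [pow_one]; exact haq⟩
      have h1 : g * (v : G) * g⁻¹ = v := by
        have h0 := congrArg Subtype.val hv
        have h00 : ψ (QuotientGroup.mk g) = MulAut.conjNormal g := rfl
        rw [h00, MulAut.conjNormal_apply] at h0
        exact h0
      have h2 : g * (v : G) = v * g := by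
        calc g * (v : G) = (g * (v : G) * g⁻¹) * g := by group
          _ = v * g := by rw [h1]
      have := hB q r hq hr hrq.symm g hgN hgq v (hVN v v.2) (hVr v v.2) h2
      exact Subtype.ext this
    have hQp : IsPGroup q (Q : Subgroup (G ⧸ N)) := Q.2
    have huniq : ∀ X Y : Subgroup (Q : Subgroup (G ⧸ N)), Nat.card X = q → Nat.card Y = q →
        X = Y := by
      intro X Y hX hY
      have : Nontrivial (Q : Subgroup (G ⧸ N)) := by
        have h1 : 1 < Nat.card X := by rw [hX]; exact hq.one_lt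
        have h2 : Nat.card X ≤ Nat.card (Q : Subgroup (G ⧸ N)) := Subgroup.card_le_card_group X
        exact Finite.one_lt_card_iff_nontrivial.mp (lt_of_lt_of_le h1 h2)
      have := hQp.center_nontrivial
      have hcp : IsPGroup q (Subgroup.center (Q : Subgroup (G ⧸ N))) := hQp.to_subgroup _
      obtain ⟨k, hk0, hk⟩ := (IsPGroup.nontrivial_iff_card hcp).mp inferInstance
      obtain ⟨z, hz⟩ := exists_prime_orderOf_dvd_card'
        (G := Subgroup.center (Q : Subgroup (G ⧸ N))) q (by rw [hk]; exact dvd_pow_self q hk0.ne')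
      have hz' : orderOf (z : (Q : Subgroup (G ⧸ N))) = q := by
        rw [Subgroup.orderOf_coe]; exact hz
      have key : ∀ X : Subgroup (Q : Subgroup (G ⧸ N)), Nat.card X = q →
          X = Subgroup.zpowers (z : (Q : Subgroup (G ⧸ N))) := by
        intro X hX
        have h1 : 1 < Nat.card X := by rw [hX]; exact hq.one_lt
        have : Nontrivial X := Finite.one_lt_card_iff_nontrivial.mp h1
        obtain ⟨x, hx⟩ := exists_ne (1 : X)
        have hxo : orderOf (x : (Q : Subgroup (G ⧸ N))) = q := by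
          rw [Subgroup.orderOf_coe]
          have h2 : orderOf x ∣ q := by
            have h0 := orderOf_dvd_natCard x
            rw [hX] at h0; exact h0
          rcases (Nat.dvd_prime hq).mp h2 with h3 | h3
          · exact absurd (orderOf_eq_one_iff.mp h3) hx
          · exact h3
        have hxz : (x : (Q : Subgroup (G ⧸ N))) ∈
            Subgroup.zpowers (z : (Q : Subgroup (G ⧸ N))) := by
          by_contra hnot
          have hx'q : (((x : (Q : Subgroup (G ⧸ N))) : G ⧸ N)) ^ q = 1 := by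
            have h5 := pow_orderOf_eq_one (x : (Q : Subgroup (G ⧸ N)))
            rw [hxo] at h5
            exact congrArg Subtype.val h5
          have hz'q : (((z : (Q : Subgroup (G ⧸ N))) : G ⧸ N)) ^ q = 1 := by
            have h5 := pow_orderOf_eq_one (z : (Q : Subgroup (G ⧸ N)))
            rw [hz'] at h5
            exact congrArg Subtype.val h5
          have hcomm : (((x : (Q : Subgroup (G ⧸ N))) : G ⧸ N)) *
              ((z : (Q : Subgroup (G ⧸ N))) : G ⧸ N) =
              ((z : (Q : Subgroup (G ⧸ N))) : G ⧸ N) * ((x : (Q : Subgroup (G ⧸ N))) : G ⧸ N) := by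
            have := Subgroup.mem_center_iff.mp z.2 (x : (Q : Subgroup (G ⧸ N)))
            exact (congrArg Subtype.val this)
          have hz1 : ((z : (Q : Subgroup (G ⧸ N))) : G ⧸ N) ≠ 1 := by
            intro h
            have h3 : (z : (Q : Subgroup (G ⧸ N))) = 1 := Subtype.ext h
            rw [h3, orderOf_one] at hz'
            exact hq.one_lt.ne hz'
          have hv0q := norm_arg hVcomm ψ q _ _ hx'q hz'q hcomm (hψ _ hz1 hz'q) (fun k => by
            apply hψ
            · intro h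
              apply hnot
              have h3 : (x : (Q : Subgroup (G ⧸ N))) * (z : (Q : Subgroup (G ⧸ N))) ^ k = 1 :=
                Subtype.ext h
              rw [mul_eq_one_iff_eq_inv.mp h3]
              exact Subgroup.inv_mem _ (Subgroup.pow_mem _ (Subgroup.mem_zpowers _) k)
            · rw [(Commute.pow_right (show Commute _ _ from hcomm) k).mul_pow, hx'q, ← pow_mul,
                mul_comm, pow_mul, hz'q, one_pow, one_mul]) ⟨v0, hv0V⟩
          have hv0q' : IsEl q v0 := ⟨1, by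
            rw [pow_one]; exact congrArg Subtype.val hv0q⟩
          exact hv01 (eq_one_of_isEl_isEl hq hr hrq.symm hv0q' (hVr v0 hv0V))
        have h3 : Subgroup.zpowers (x : (Q : Subgroup (G ⧸ N))) = X := by
          apply Subgroup.eq_of_le_of_card_ge
          · rw [Subgroup.zpowers_le]; exact x.2
          · rw [hX, Nat.card_zpowers, hxo]
        have h4 : Subgroup.zpowers (x : (Q : Subgroup (G ⧸ N))) =
            Subgroup.zpowers (z : (Q : Subgroup (G ⧸ N))) := by
          apply Subgroup.eq_of_le_of_card_ge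
          · rw [Subgroup.zpowers_le]; exact hxz
          · rw [Nat.card_zpowers, Nat.card_zpowers, hxo, hz']
        rw [← h3, h4]
      rw [key X hX, key Y hY]
    rcases Cfsg.Agent.S0016.result q hQp huniq with h | ⟨_, h⟩
    · left; exact h
    · right; exact h

end Cfsg.Agent.S4155
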