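import Cfsg.Statements.S4001
import Cfsg.Agent.Lib.Helper96.Frob6
import Cfsg.Agent.S0042
import Cfsg.Agent.S4155

set_option autoImplicit false
set_option linter.style.haveILetI false
open Cfsg

namespace Cfsg.Agent.S4001

open Cfsg.Agent.H31 Cfsg.Agent.Lib.Helper96
open Pointwise

/-- Basic data of a Frobenius group whose kernel is the carrier of a given normal subgroup. -/
theorem frob_data {X : Type*} [Group X] [Finite X] (C N : Subgroup X) [hNn : N.Normal]
    (hC : Cfsg.IsFrobeniusComplement C) (hN : Cfsg.frobeniusKernel C = (N : Set X)) :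
    Subgroup.IsComplement' N C ∧ N ≠ ⊥ ∧ Group.IsNilpotent N ∧
    (∀ g : X, g ∉ N → N ⊓ Subgroup.centralizer {g} = ⊥) ∧
    (Nat.card N).Coprime (Nat.card C) ∧ Nat.card C = N.index := by
  obtain ⟨N', hN'set, hN'n, hN'c⟩ := Cfsg.Agent.S0035.result C hC
  have e1 : N' = N := SetLike.coe_injective (hN'set.trans hN)
  subst e1
  obtain ⟨N'', h1, h2, h3⟩ := Cfsg.Agent.S0042.result C hC
  have e2 : N'' = N' := SetLike.coe_injective (h1.trans hN)
  subst e2
  have hcard : Nat.card N'' = C.index := by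
    have h4 := frob_card_kernel hC
    rw [hN] at h4
    exact h4
  have hbot : N'' ≠ ⊥ := by
    intro h
    rw [h, Subgroup.card_bot] at hcard
    exact hC.2.1 (Subgroup.index_eq_one.mp hcard.symm)
  have hfpf := (Cfsg.Agent.S0039.result N'' C hN'c hbot hC.1).mp hC
  refine ⟨hN'c, hbot, h3, ?_, ?_, ?_⟩
  · intro g hg
    have hgk : g ∉ Cfsg.frobeniusKernel C := by rw [hN]; exact hg
    have hgk' : ¬ (g = 1 ∨ ∀ a : X, g ∉ MulAut.conj a • C) := hgk
    push Not at hgk'
    obtain ⟨hg1, a, ha⟩ := hgk'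
    rw [mem_conj_smul_iff] at ha
    have hh1 : a⁻¹ * g * a ≠ 1 := by
      intro h
      apply hg1
      have : g = a * (a⁻¹ * g * a) * a⁻¹ := by group
      rw [this, h]; group
    have h5 := hfpf _ ha hh1
    rw [eq_bot_iff]
    intro n hn
    rw [Subgroup.mem_inf, Subgroup.mem_centralizer_iff] at hn
    have h6 : a⁻¹ * n * a ∈ N'' ⊓ Subgroup.centralizer {a⁻¹ * g * a} := by
      rw [Subgroup.mem_inf, Subgroup.mem_centralizer_iff]
      refine ⟨?_, ?_⟩
      · have := hNn.conj_mem n hn.1 a⁻¹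
        simpa using this
      · intro y hy
        rw [Set.mem_singleton_iff] at hy
        subst hy
        have h7 := hn.2 g rfl
        calc a⁻¹ * g * a * (a⁻¹ * n * a) = a⁻¹ * (g * n) * a := by group
          _ = a⁻¹ * (n * g) * a := by rw [h7]
          _ = a⁻¹ * n * a * (a⁻¹ * g * a) := by group
    rw [h5, Subgroup.mem_bot] at h6
    rw [Subgroup.mem_bot]
    have : n = a * (a⁻¹ * n * a) * a⁻¹ := by group
    rw [this, h6]; group
  · have h4 := frob_index_mod hC
    rw [← hcard] at h4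
    have h5 : Nat.card N'' ≡ 1 [MOD Nat.card C] := h4
    have h6 := h5.gcd_eq
    rw [Nat.gcd_one_left] at h6
    exact h6
  · exact (hN'c.symm.index_eq_card).symm

/-- A finite nilpotent group with cyclic Sylow subgroups is cyclic. -/
theorem isCyclic_of_nilpotent {X : Type*} [Group X] [Finite X] [hn : Group.IsNilpotent X]
    (hsyl : ∀ (p : ℕ) [Fact p.Prime] (P : Sylow p X), IsCyclic (P : Subgroup X)) : IsCyclic X := by
  classical
  -- commutativity
  have hcomm : ∀ a b : X, a * b = b * a := by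
    have key : ∀ (q : ℕ), q.Prime → ∀ x : X, IsEl q x → ∀ g : X, g * x = x * g := by
      intro q hq x hx
      have htop : Subgroup.centralizer ({x} : Set X) = ⊤ := by
        apply eq_top_of_forall_isEl
        intro r hr y hy
        rw [Subgroup.mem_centralizer_iff]
        intro g hg; rw [Set.mem_singleton_iff] at hg; subst hg
        by_cases hrq : r = q
        · subst hrq
          haveI : Fact r.Prime := ⟨hr⟩
          let Q : Sylow r X := default
          have hx' := mem_sylow_of_isEl Q g hx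
          have hy' := mem_sylow_of_isEl Q y hy
          obtain ⟨⟨u, hu⟩, hgen⟩ := (hsyl r Q).exists_generator
          obtain ⟨i, hi⟩ := Subgroup.mem_zpowers_iff.mp (hgen ⟨g, hx'⟩)
          obtain ⟨j, hj⟩ := Subgroup.mem_zpowers_iff.mp (hgen ⟨y, hy'⟩)
          have hi' : u ^ i = g := by simpa using congrArg Subtype.val hi
          have hj' : u ^ j = y := by simpa using congrArg Subtype.val hj
          rw [← hi', ← hj']
          exact (Commute.zpow_zpow_self u i j).eq
        · exact (comm_of_nilpotent hr hq hrq y g hy hx).symm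
      intro g
      have hg : g ∈ Subgroup.centralizer ({x} : Set X) := by rw [htop]; exact Subgroup.mem_top g
      exact (Subgroup.mem_centralizer_iff.mp hg x rfl).symm
    intro a b
    have htop : Subgroup.centralizer ({a} : Set X) = ⊤ := by
      apply eq_top_of_forall_isEl
      intro r hr y hy
      rw [Subgroup.mem_centralizer_iff]
      intro g hg; rw [Set.mem_singleton_iff] at hg; subst hg
      exact key r hr y hy g
    have hb : b ∈ Subgroup.centralizer ({a} : Set X) := by rw [htop]; exact Subgroup.mem_top b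
    exact Subgroup.mem_centralizer_iff.mp hb a rfl
  obtain ⟨g, hg⟩ := Finite.exists_max (fun x : X => orderOf x)
  have hdvd : ∀ x : X, orderOf x ∣ orderOf g := by
    intro x
    obtain ⟨z, -, hz⟩ := Commute.exists_orderOf_eq_lcm (G := X) (show Commute x g from hcomm x g)
    have h1 : Nat.lcm (orderOf x) (orderOf g) ≤ orderOf g := hz ▸ hg z
    have h2 : orderOf g ∣ Nat.lcm (orderOf x) (orderOf g) := Nat.dvd_lcm_right _ _
    have hgpos : 0 < orderOf g := orderOf_pos g
    have h3 : Nat.lcm (orderOf x) (orderOf g) = orderOf g :=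
      le_antisymm h1 (Nat.le_of_dvd (Nat.lcm_pos (orderOf_pos x) hgpos) h2)
    rw [← h3]; exact Nat.dvd_lcm_left _ _
  have hcard : Nat.card X ∣ orderOf g := by
    rw [← Nat.factorization_le_iff_dvd Nat.card_pos.ne' (orderOf_pos g).ne']
    intro p
    by_cases hp : p.Prime
    · haveI : Fact p.Prime := ⟨hp⟩
      let P : Sylow p X := default
      obtain ⟨u, hu⟩ := (hsyl p P).exists_generator
      have h1 : orderOf u = Nat.card (P : Subgroup X) := orderOf_eq_card_of_forall_mem_zpowers hu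
      have h2 : orderOf (u : X) = p ^ (Nat.card X).factorization p := by
        rw [Subgroup.orderOf_coe, h1, Sylow.card_eq_multiplicity]
      have h3 : p ^ (Nat.card X).factorization p ∣ orderOf g := h2 ▸ hdvd u
      exact (hp.pow_dvd_iff_le_factorization (orderOf_pos g).ne').mp h3
    · rw [Nat.factorization_eq_zero_of_not_prime _ hp]
      exact Nat.zero_le _
  exact isCyclic_of_orderOf_eq_card g (Nat.dvd_antisymm (orderOf_dvd_natCard g) hcard)


theorem norm_sub_fixed {A V : Type*} [Group A] [CommGroup V] (ψ : A →* MulAut V)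
    (B : Subgroup A) [Fintype B] (b0 : B) (w : V) :
    ψ (b0 : A) (∏ b : B, ψ (b : A) w) = ∏ b : B, ψ (b : A) w := by
  rw [map_prod]
  exact Fintype.prod_equiv (Equiv.mulLeft b0) _ _ (fun b => by
    simp [map_mul, MulAut.mul_apply])

/-- Frobenius-sum argument: if `c` (of prime order `q`) normalizes `B`, nontrivial powers of `c`
centralize no nontrivial element of `B`, `B` has no common nontrivial fixed point on the abelian
group `V`, and `c` fixes no nontrivial element of `V`, then `V` has exponent dividing `|B|`. -/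
theorem frob_sum {A V : Type*} [Group A] [Group V] (hV : ∀ a b : V, a * b = b * a)
    (ψ : A →* MulAut V) (B : Subgroup A) [hBn : B.Normal] [Finite B] (q : ℕ) [hq : Fact q.Prime]
    (c : A) (hcq : c ^ q = 1)
    (hB : ∀ w : V, (∀ b ∈ B, ψ b w = w) → w = 1)
    (hcent : ∀ i : ZMod q, i ≠ 0 → ∀ b ∈ B, b * c ^ i.val = c ^ i.val * b → b = 1)
    (hc : ∀ v : V, ψ c v = v → v = 1) (v : V) : v ^ Nat.card B = 1 := by
  classical
  letI : CommGroup V := { ‹Group V› with mul_comm := hV }
  haveI : Fintype B := Fintype.ofFinite B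
  haveI : NeZero q := ⟨hq.out.ne_zero⟩
  have hNB : ∀ w : V, ∏ b : B, ψ (b : A) w = 1 := fun w =>
    hB _ (fun b hb => norm_sub_fixed ψ B ⟨b, hb⟩ w)
  have hconj : ∀ b : B, ∀ w : V, ψ ((b : A) * c * (b : A)⁻¹) w = w → w = 1 := by
    intro b w hw
    have h2 : ψ c (ψ (b : A)⁻¹ w) = ψ (b : A)⁻¹ w := by
      have h := congrArg (ψ (b : A)⁻¹) hw
      rw [← MulAut.mul_apply, ← map_mul] at h
      rw [← MulAut.mul_apply, ← map_mul]
      have e : (b : A)⁻¹ * ((b : A) * c * (b : A)⁻¹) = c * (b : A)⁻¹ := by group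
      rw [e] at h
      exact h
    have h3 := hc _ h2
    exact (map_eq_one_iff (ψ (b : A)⁻¹) (EquivLike.injective _)).mp h3
  have hNc : ∀ b : B, ∏ i : ZMod q, ψ (((b : A) * c * (b : A)⁻¹) ^ i.val) v = 1 := fun b =>
    hconj b _ (Cfsg.Agent.S4155.norm_fixed ψ q _ (by rw [conj_pow, hcq]; group) v)
  have h1 : ∏ b : B, ∏ i : ZMod q, ψ (((b : A) * c * (b : A)⁻¹) ^ i.val) v = 1 :=
    Finset.prod_eq_one (fun b _ => hNc b)
  rw [Finset.prod_comm] at h1
  rw [Fintype.prod_eq_single (0 : ZMod q)] at h1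
  · simpa [ZMod.val_zero, Finset.prod_const, Finset.card_univ, Nat.card_eq_fintype_card] using h1
  · intro i hi
    let σ : B → B := fun b => ⟨(b : A) * (c ^ i.val * (b : A)⁻¹ * (c ^ i.val)⁻¹),
      B.mul_mem b.2 (hBn.conj_mem _ (B.inv_mem b.2) _)⟩
    have hσ : Function.Injective σ := by
      intro b b' h
      have h' : (b : A) * (c ^ i.val * (b : A)⁻¹ * (c ^ i.val)⁻¹) =
          (b' : A) * (c ^ i.val * (b' : A)⁻¹ * (c ^ i.val)⁻¹) := congrArg Subtype.val h
      have h2 : ((b' : A)⁻¹ * (b : A)) * c ^ i.val = c ^ i.val * ((b' : A)⁻¹ * (b : A)) := by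
        calc ((b' : A)⁻¹ * (b : A)) * c ^ i.val
            = (b' : A)⁻¹ * ((b : A) * (c ^ i.val * (b : A)⁻¹ * (c ^ i.val)⁻¹)) * c ^ i.val * (b : A) := by
              group
          _ = (b' : A)⁻¹ * ((b' : A) * (c ^ i.val * (b' : A)⁻¹ * (c ^ i.val)⁻¹)) * c ^ i.val * (b : A) := by
              rw [h']
          _ = c ^ i.val * ((b' : A)⁻¹ * (b : A)) := by group
      have h3 := hcent i hi _ (B.mul_mem (B.inv_mem b'.2) b.2) h2
      apply Subtype.ext
      calc (b : A) = (b' : A) * ((b' : A)⁻¹ * (b : A)) := by group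
        _ = (b' : A) := by rw [h3, mul_one]
    have hσb : Function.Bijective σ := Finite.injective_iff_bijective.mp hσ
    have key : ∀ b : B, ψ (((b : A) * c * (b : A)⁻¹) ^ i.val) v =
        ψ ((σ b : B) : A) (ψ (c ^ i.val) v) := by
      intro b
      rw [← MulAut.mul_apply, ← map_mul, conj_pow]
      congr 2
      show (b : A) * c ^ i.val * (b : A)⁻¹ =
        (b : A) * (c ^ i.val * (b : A)⁻¹ * (c ^ i.val)⁻¹) * c ^ i.val
      group
    rw [Finset.prod_congr rfl (fun b _ => key b)]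
    rw [Fintype.prod_bijective σ hσb (fun b => ψ ((σ b : B) : A) (ψ (c ^ i.val) v))
      (fun b' => ψ (b' : A) (ψ (c ^ i.val) v)) (fun b => rfl)]
    exact hNB _


theorem comm_of_isCyclic {X : Type*} [Group X] [IsCyclic X] (a b : X) : a * b = b * a := by
  obtain ⟨g, hg⟩ := IsCyclic.exists_generator (α := X)
  obtain ⟨i, rfl⟩ := Subgroup.mem_zpowers_iff.mp (hg a)
  obtain ⟨j, rfl⟩ := Subgroup.mem_zpowers_iff.mp (hg b)
  exact (Commute.zpow_zpow_self g i j).eq

theorem exists_mul_of_compl {X : Type*} [Group X] {N C : Subgroup X}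
    (h : Subgroup.IsComplement' N C) (x : X) : ∃ n ∈ N, ∃ c ∈ C, n * c = x := by
  obtain ⟨⟨n, c⟩, hnc, -⟩ := h.existsUnique x
  exact ⟨n, n.2, c, c.2, hnc⟩

theorem exists_orderOf_eq {X : Type*} [Group X] [Finite X] (z : X) {n : ℕ} (hn : n ∣ orderOf z) :
    ∃ g : X, orderOf g = n := by
  have hz : 0 < orderOf z := orderOf_pos z
  have hn0 : n ≠ 0 := fun h => by rw [h, zero_dvd_iff] at hn; omega
  refine ⟨z ^ (orderOf z / n), ?_⟩
  have hne : orderOf z / n ≠ 0 := by
    have := Nat.div_pos (Nat.le_of_dvd hz hn) (Nat.pos_of_ne_zero hn0)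
    omega
  rw [orderOf_pow_of_dvd hne (Nat.div_dvd_of_dvd hn), Nat.div_div_self hn hz.ne']

theorem exists_order_pq {X : Type*} [Group X] [Finite X] {p q : ℕ} (hp : p.Prime) (hq : q.Prime)
    (hpq : p ≠ q) (x y : X) (hxy : x * y = y * x) (hx : p ∣ orderOf x) (hy : q ∣ orderOf y) :
    ∃ g : X, orderOf g = p * q := by
  obtain ⟨z, -, hz⟩ := Commute.exists_orderOf_eq_lcm (G := X) (show Commute x y from hxy)
  apply exists_orderOf_eq z
  rw [hz]
  exact Nat.Coprime.mul_dvd_of_dvd_of_dvd ((Nat.coprime_primes hp hq).mpr hpq)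
    (hx.trans (Nat.dvd_lcm_left _ _)) (hy.trans (Nat.dvd_lcm_right _ _))

theorem dvd_orderOf_of_isEl {X : Type*} [Group X] {p : ℕ} (hp : p.Prime) {v : X} (hv : IsEl p v)
    (hv1 : v ≠ 1) : p ∣ orderOf v := by
  obtain ⟨k, hk⟩ := hv
  have h1 : orderOf v ∣ p ^ k := orderOf_dvd_of_pow_eq_one hk
  obtain ⟨j, -, hj⟩ := (Nat.dvd_prime_pow hp).mp h1
  rcases Nat.eq_zero_or_pos j with h0 | h0
  · rw [h0, pow_zero] at hj
    exact absurd (orderOf_eq_one_iff.mp hj) hv1
  · rw [hj]; exact dvd_pow_self p h0.ne'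


/-- Let G be a 2-Frobenius group: it has normal subgroups H < K with K a Frobenius group with kernel H and G/H a Frobenius group with kernel K/H. Then G is solvable; K/H has odd order coprime to the order of H and to the order of G/K (it is the image of an odd-order Hall subgroup); G/K is cyclic; and the prime graph of G has exactly two connected components, both complete: for distinct primes p, q dividing the order of G, G has an element of order pq exactly when p and q either both divide the order of K/H or both do not. -/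
theorem result {G : Type*} [Group G] [Finite G] (H K : Subgroup G) [H.Normal] [K.Normal] (hlt : H < K)
    (hK : ∃ C : Subgroup ↥K, Cfsg.IsFrobeniusComplement C ∧ Cfsg.frobeniusKernel C = (H.subgroupOf K : Set ↥K))
    (hGH : ∃ C : Subgroup (G ⧸ H), Cfsg.IsFrobeniusComplement C ∧ Cfsg.frobeniusKernel C = (K.map (QuotientGroup.mk' H) : Set (G ⧸ H))) :
    Group.IsSolvable G ∧ Odd (Nat.card (↥K ⧸ H.subgroupOf K)) ∧
      Nat.Coprime (Nat.card (↥K ⧸ H.subgroupOf K)) (Nat.card ↥H * Nat.card (G ⧸ K)) ∧ IsCyclic (G ⧸ K) ∧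
      ∀ p q : ℕ, p.Prime → q.Prime → p ≠ q → p ∣ Nat.card G → q ∣ Nat.card G →
        ((∃ g : G, orderOf g = p * q) ↔ (p ∣ Nat.card (↥K ⧸ H.subgroupOf K) ↔ q ∣ Nat.card (↥K ⧸ H.subgroupOf K))) := by
  classical
  obtain ⟨C1, hC1, hker1⟩ := hK
  obtain ⟨C2, hC2, hker2⟩ := hGH
  have hHK : H ≤ K := hlt.le
  haveI hN2n : (K.map (QuotientGroup.mk' H)).Normal :=
    Subgroup.Normal.map inferInstance _ (QuotientGroup.mk'_surjective H)
  obtain ⟨hcomp1, hN1bot, hN1nil, hfpf1, hcop1, hcard1⟩ := frob_data C1 (H.subgroupOf K) hC1 hker1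
  obtain ⟨hcomp2, hN2bot, hN2nil, hfpf2, hcop2, hcard2⟩ :=
    frob_data C2 (K.map (QuotientGroup.mk' H)) hC2 hker2
  -- fpf for complement elements
  have hfpfC1 : ∀ h ∈ C1, h ≠ 1 → H.subgroupOf K ⊓ Subgroup.centralizer {h} = ⊥ := by
    intro h hh h1
    apply hfpf1
    intro hN
    have h3 : h ∈ H.subgroupOf K ⊓ C1 := ⟨hN, hh⟩
    rw [hcomp1.disjoint.eq_bot] at h3
    exact h1 (Subgroup.mem_bot.mp h3)
  have hfpfC2 : ∀ h ∈ C2, h ≠ 1 →
      K.map (QuotientGroup.mk' H) ⊓ Subgroup.centralizer {h} = ⊥ := by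
    intro h hh h1
    apply hfpf2
    intro hN
    have h3 : h ∈ K.map (QuotientGroup.mk' H) ⊓ C2 := ⟨hN, hh⟩
    rw [hcomp2.disjoint.eq_bot] at h3
    exact h1 (Subgroup.mem_bot.mp h3)
  -- the isomorphism C1 ≃ N2
  let φ : C1 →* G ⧸ H := (QuotientGroup.mk' H).comp (K.subtype.comp C1.subtype)
  have hφinj : Function.Injective φ := by
    rw [injective_iff_map_eq_one]
    intro c hc
    have h1 : ((c : K) : G) ∈ H := (QuotientGroup.eq_one_iff _).mp hc
    have h2 : (c : K) ∈ H.subgroupOf K := Subgroup.mem_subgroupOf.mpr h1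
    have h3 : (c : K) ∈ H.subgroupOf K ⊓ C1 := ⟨h2, c.2⟩
    rw [hcomp1.disjoint.eq_bot] at h3
    exact Subtype.ext (Subgroup.mem_bot.mp h3)
  have hφrange : φ.range = K.map (QuotientGroup.mk' H) := by
    ext x
    constructor
    · rintro ⟨c, rfl⟩
      exact ⟨((c : K) : G), (c : K).2, rfl⟩
    · rintro ⟨k, hk, rfl⟩
      obtain ⟨n, hn, c, hc, hnc⟩ := exists_mul_of_compl hcomp1 (⟨k, hk⟩ : K)
      refine ⟨⟨c, hc⟩, ?_⟩
      have h1 : (n : G) * (c : G) = k := congrArg Subtype.val hnc
      have h2 : (n : G) ∈ H := Subgroup.mem_subgroupOf.mp hn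
      show ((c : G) : G ⧸ H) = ((k : G) : G ⧸ H)
      rw [← h1, QuotientGroup.mk_mul, (QuotientGroup.eq_one_iff _).mpr h2, one_mul]
  let e : C1 ≃* (K.map (QuotientGroup.mk' H) : Subgroup (G ⧸ H)) :=
    (MonoidHom.ofInjective hφinj).trans (MulEquiv.subgroupCongr hφrange)
  have he : ∀ c : C1, ((e c : (K.map (QuotientGroup.mk' H) : Subgroup (G ⧸ H))) : G ⧸ H) = φ c :=
    fun c => rfl
  -- cardinalities
  have hb1 : Nat.card (↥K ⧸ H.subgroupOf K) = Nat.card C1 := by rw [hcard1]; rfl
  have hb2 : Nat.card (K.map (QuotientGroup.mk' H) : Subgroup (G ⧸ H)) = Nat.card C1 :=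
    (Nat.card_congr e.toEquiv).symm
  have hHcard : Nat.card (H.subgroupOf K) = Nat.card H :=
    Nat.card_congr (Subgroup.subgroupOfEquivOfLe hHK).toEquiv
  have hGKcard : Nat.card (G ⧸ K) = Nat.card C2 := by
    rw [hcard2]
    show K.index = (K.map (QuotientGroup.mk' H)).index
    exact (Subgroup.index_map_eq K (QuotientGroup.mk'_surjective H)
      (by rw [QuotientGroup.ker_mk']; exact hHK)).symm
  have hGcard : Nat.card G = Nat.card H * Nat.card C1 * Nat.card C2 := by
    rw [← Subgroup.card_mul_index K, ← Subgroup.card_mul_index (H.subgroupOf K), hHcard,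
      ← hcard1, ← hGKcard]
    rfl
  have hC2ne : ∃ c ∈ C2, c ≠ 1 := by
    by_contra hcon
    push Not at hcon
    exact hC2.1 ((Subgroup.eq_bot_iff_forall C2).mpr hcon)
  -- oddness
  have hodd : Odd (Nat.card C1) := by
    by_contra hne
    rw [Nat.not_odd_iff_even] at hne
    have h2 : 2 ∣ Nat.card C1 := hne.two_dvd
    haveI : Fact (Nat.Prime 2) := ⟨Nat.prime_two⟩
    obtain ⟨t, ht⟩ := exists_prime_orderOf_dvd_card' (G := C1) 2 h2
    have ht1' : t ≠ 1 := by
      intro h; rw [h, orderOf_one] at ht; omega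
    have ht1 : (t : K) ≠ 1 := fun h => ht1' (Subtype.ext h)
    have ht2' : t * t = 1 := by rw [← pow_two, ← ht]; exact pow_orderOf_eq_one t
    have ht2 : (t : K) * (t : K) = 1 := congrArg Subtype.val ht2'
    obtain ⟨c, hcC, hc1⟩ := hC2ne
    have htbN : φ t ∈ K.map (QuotientGroup.mk' H) := by rw [← hφrange]; exact ⟨t, rfl⟩
    have hconjN : c * φ t * c⁻¹ ∈ K.map (QuotientGroup.mk' H) := hN2n.conj_mem _ htbN c
    obtain ⟨t', ht'⟩ : ∃ t' : C1, φ t' = c * φ t * c⁻¹ := by
      rw [← hφrange] at hconjN; exact hconjN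
    have ht'1' : t' ≠ 1 := by
      intro h
      rw [h, map_one] at ht'
      have h3 : φ t = 1 := by
        have : φ t = c⁻¹ * (c * φ t * c⁻¹) * c := by group
        rw [this, ← ht']; group
      exact ht1' (hφinj (h3.trans (map_one φ).symm))
    have ht'1 : (t' : K) ≠ 1 := fun h => ht'1' (Subtype.ext h)
    have ht'2' : t' * t' = 1 := by
      apply hφinj
      rw [map_mul, ht', map_one]
      have : c * φ t * c⁻¹ * (c * φ t * c⁻¹) = c * (φ t * φ t) * c⁻¹ := by group
      rw [this, ← map_mul, ht2', map_one]; group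
    have ht'2 : (t' : K) * (t' : K) = 1 := congrArg Subtype.val ht'2'
    have h5 := fpf_involution_unique (H.subgroupOf K) C1 hN1bot hfpfC1 t.2 t'.2 ht1 ht'1 ht2 ht'2
    have h6 : t = t' := Subtype.ext h5
    rw [← h6] at ht'
    have h7c : φ t ∈ Subgroup.centralizer {c} := by
      rw [Subgroup.mem_centralizer_iff]
      intro y hy
      rw [Set.mem_singleton_iff] at hy
      subst hy
      calc y * φ t = (y * φ t * y⁻¹) * y := by group
        _ = φ t * y := by rw [← ht']
    have h7 : φ t ∈ K.map (QuotientGroup.mk' H) ⊓ Subgroup.centralizer {c} :=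
      Subgroup.mem_inf.mpr ⟨htbN, h7c⟩
    rw [hfpfC2 c hcC hc1, Subgroup.mem_bot] at h7
    exact ht1' (hφinj (h7.trans (map_one φ).symm))
  -- C1 is cyclic
  haveI hC1nil : Group.IsNilpotent C1 := by
    haveI := hN2nil
    exact Group.nilpotent_of_mulEquiv e.symm
  haveI hC1cyc : IsCyclic C1 := by
    apply isCyclic_of_nilpotent
    intro p _ P
    rcases fpf_sylow_cyclic_or_quaternion (s41 K) (H.subgroupOf K) C1 hN1bot hfpfC1 p P with
      h | ⟨n, ⟨eq⟩⟩
    · exact h
    · exfalso
      haveI : NeZero (2 ^ n) := ⟨by positivity⟩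
      have h1 : Nat.card (P : Subgroup C1) = 4 * 2 ^ n := by
        rw [Nat.card_congr eq.toEquiv, Nat.card_eq_fintype_card, QuaternionGroup.card]
      have h2 : Nat.card (P : Subgroup C1) ∣ Nat.card C1 := Subgroup.card_subgroup_dvd_card _
      rw [h1] at h2
      have h3 : 2 ∣ Nat.card C1 := (Dvd.intro (2 * 2 ^ n) (by ring)).trans h2
      exact (Nat.not_even_iff_odd.mpr hodd) (even_iff_two_dvd.mpr h3)
  haveI hN2cyc : IsCyclic (K.map (QuotientGroup.mk' H) : Subgroup (G ⧸ H)) :=
    isCyclic_of_surjective e e.surjective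
  -- C2 is abelian, hence cyclic
  have hC2comm : ∀ c1 ∈ C2, ∀ c2 ∈ C2, c1 * c2 = c2 * c1 := by
    intro c1 h1 c2 h2
    by_contra hne
    have hd1 : (c2 * c1)⁻¹ * (c1 * c2) ≠ 1 := by
      intro h
      apply hne
      calc c1 * c2 = (c2 * c1) * ((c2 * c1)⁻¹ * (c1 * c2)) := by group
        _ = c2 * c1 := by rw [h, mul_one]
    have hdC : (c2 * c1)⁻¹ * (c1 * c2) ∈ C2 :=
      C2.mul_mem (C2.inv_mem (C2.mul_mem h2 h1)) (C2.mul_mem h1 h2)
    have hbot := hfpfC2 _ hdC hd1
    obtain ⟨n0, hn0⟩ : ∃ n0 : (K.map (QuotientGroup.mk' H) : Subgroup (G ⧸ H)), n0 ≠ 1 := by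
      by_contra hcon
      push Not at hcon
      apply hN2bot
      rw [Subgroup.eq_bot_iff_forall]
      intro x hx
      exact congrArg Subtype.val (hcon ⟨x, hx⟩)
    obtain ⟨m1, hm1⟩ := MonoidHom.map_cyclic
      ((MulAut.conjNormal c1 : MulAut (K.map (QuotientGroup.mk' H) : Subgroup (G ⧸ H))).toMonoidHom)
    obtain ⟨m2, hm2⟩ := MonoidHom.map_cyclic
      ((MulAut.conjNormal c2 : MulAut (K.map (QuotientGroup.mk' H) : Subgroup (G ⧸ H))).toMonoidHom)
    have h12 : MulAut.conjNormal c1 (MulAut.conjNormal c2 n0) =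
        MulAut.conjNormal c2 (MulAut.conjNormal c1 n0) := by
      have a1 := hm1 (MulAut.conjNormal c2 n0)
      have a2 := hm2 n0
      have a3 := hm2 (MulAut.conjNormal c1 n0)
      have a4 := hm1 n0
      simp only [MulEquiv.toMonoidHom_eq_coe, MonoidHom.coe_coe] at a1 a2 a3 a4
      rw [a1, a2, a3, a4, ← zpow_mul, ← zpow_mul, mul_comm]
    have h12' : c1 * (c2 * (n0 : G ⧸ H) * c2⁻¹) * c1⁻¹ = c2 * (c1 * (n0 : G ⧸ H) * c1⁻¹) * c2⁻¹ := by
      have := congrArg Subtype.val h12
      simpa [MulAut.conjNormal_apply] using this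
    have hmem : (n0 : G ⧸ H) ∈ K.map (QuotientGroup.mk' H) ⊓
        Subgroup.centralizer {(c2 * c1)⁻¹ * (c1 * c2)} := by
      refine Subgroup.mem_inf.mpr ⟨n0.2, ?_⟩
      rw [Subgroup.mem_centralizer_iff]
      intro y hy
      rw [Set.mem_singleton_iff] at hy
      subst hy
      calc (c2 * c1)⁻¹ * (c1 * c2) * (n0 : G ⧸ H)
          = (c2 * c1)⁻¹ * (c1 * (c2 * (n0 : G ⧸ H) * c2⁻¹) * c1⁻¹) * (c1 * c2) := by group
        _ = (c2 * c1)⁻¹ * (c2 * (c1 * (n0 : G ⧸ H) * c1⁻¹) * c2⁻¹) * (c1 * c2) := by rw [h12']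
        _ = (n0 : G ⧸ H) * ((c2 * c1)⁻¹ * (c1 * c2)) := by group
    rw [hbot, Subgroup.mem_bot] at hmem
    exact hn0 (Subtype.ext hmem)
  haveI hC2cyc : IsCyclic C2 := by
    haveI : IsMulCommutative (K.map (QuotientGroup.mk' H) : Subgroup (G ⧸ H)) :=
      ⟨⟨fun a b => comm_of_isCyclic a b⟩⟩
    haveI : IsMulCommutative C2 := ⟨⟨fun a b => Subtype.ext (hC2comm a a.2 b b.2)⟩⟩
    refine Cfsg.Agent.S0041.result C2 (K.map (QuotientGroup.mk' H)) hN2bot ?_ hfpfC2
      (Or.inl inferInstance)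
    rw [Subgroup.normalizer_eq_top]
    exact le_top
  -- the map to G ⧸ K
  let ψK : G ⧸ H →* G ⧸ K := QuotientGroup.map H K (MonoidHom.id G) hHK
  have hψK : ∀ g : G, ψK (g : G ⧸ H) = (g : G ⧸ K) := fun g => rfl
  have hψN : ∀ x ∈ K.map (QuotientGroup.mk' H), ψK x = 1 := by
    rintro _ ⟨k, hk, rfl⟩
    exact (QuotientGroup.eq_one_iff k).mpr hk
  have hψker : ∀ x : G ⧸ H, ψK x = 1 → x ∈ K.map (QuotientGroup.mk' H) := by
    intro x hx
    obtain ⟨g, rfl⟩ := QuotientGroup.mk_surjective x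
    exact ⟨g, (QuotientGroup.eq_one_iff g).mp hx, rfl⟩
  have hGKcyc : IsCyclic (G ⧸ K) := by
    refine isCyclic_of_surjective (ψK.comp C2.subtype) ?_
    intro x
    obtain ⟨g, rfl⟩ := QuotientGroup.mk_surjective x
    obtain ⟨n, hn, c, hc, hnc⟩ := exists_mul_of_compl hcomp2 (g : G ⧸ H)
    refine ⟨⟨c, hc⟩, ?_⟩
    show ψK c = (g : G ⧸ K)
    rw [← hψK g, ← hnc, map_mul, hψN n hn, one_mul]
  -- solvability
  have hsolv : Group.IsSolvable G := by
    haveI : Group.IsNilpotent H := by
      haveI := hN1nil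
      exact Group.nilpotent_of_mulEquiv (Subgroup.subgroupOfEquivOfLe hHK)
    haveI : Group.IsSolvable (G ⧸ K) := Group.isSolvable_of_comm (fun a b => comm_of_isCyclic a b)
    haveI := hN2nil
    haveI : Group.IsSolvable (G ⧸ H) := by
      refine Group.isSolvable_of_ker_le_range (K.map (QuotientGroup.mk' H)).subtype ψK ?_
      intro x hx
      rw [Subgroup.range_subtype]
      exact hψker x hx
    refine Group.isSolvable_of_ker_le_range H.subtype (QuotientGroup.mk' H) ?_
    rw [QuotientGroup.ker_mk', Subgroup.range_subtype]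
  refine ⟨hsolv, hb1 ▸ hodd, ?_, hGKcyc, ?_⟩
  · rw [hb1, hGKcard]
    apply Nat.Coprime.mul_right
    · rw [← hHcard]; exact hcop1.symm
    · rw [← hb2]; exact hcop2
  · rw [hb1]
    haveI hHnil : Group.IsNilpotent H := by
      haveI := hN1nil
      exact Group.nilpotent_of_mulEquiv (Subgroup.subgroupOfEquivOfLe hHK)
    have hndvd : ∀ {a b p : ℕ}, a.Coprime b → p.Prime → p ∣ b → ¬ p ∣ a := by
      intro a b p hab hp hb ha
      have h1 := Nat.dvd_gcd ha hb
      rw [hab.gcd_eq_one] at h1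
      exact hp.one_lt.ne' (Nat.dvd_one.mp h1)
    -- forward direction
    have key : ∀ p q : ℕ, p.Prime → q.Prime → p ≠ q → ∀ g : G, orderOf g = p * q →
        p ∣ Nat.card C1 → q ∣ Nat.card C1 := by
      intro p q hp hq hpq g hg hpb
      by_contra hqb
      have hgp : orderOf (g ^ q) = p := by
        rw [orderOf_pow_of_dvd hq.ne_zero (hg ▸ Dvd.intro_left p rfl), hg,
          Nat.mul_div_cancel _ hq.pos]
      have hgq : orderOf (g ^ p) = q := by
        rw [orderOf_pow_of_dvd hp.ne_zero (hg ▸ Dvd.intro q rfl), hg,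
          Nat.mul_div_cancel_left _ hp.pos]
      have hcomm : g ^ q * g ^ p = g ^ p * g ^ q := by rw [← pow_add, ← pow_add, add_comm]
      have hpH : ¬ p ∣ Nat.card H := by
        rw [← hHcard]; exact hndvd hcop1 hp hpb
      have hpC2 : ¬ p ∣ Nat.card C2 := by
        have h1 : p ∣ Nat.card (K.map (QuotientGroup.mk' H) : Subgroup (G ⧸ H)) := hb2 ▸ hpb
        exact hndvd hcop2.symm hp h1
      have hgpK : g ^ q ∈ K := by
        have h1 : orderOf ((g ^ q : G) : G ⧸ K) ∣ p :=
          hgp ▸ orderOf_map_dvd (QuotientGroup.mk' K) (g ^ q)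
        have h2 : orderOf ((g ^ q : G) : G ⧸ K) ∣ Nat.card (G ⧸ K) := orderOf_dvd_natCard _
        rcases (Nat.dvd_prime hp).mp h1 with h3 | h3
        · exact (QuotientGroup.eq_one_iff _).mp (orderOf_eq_one_iff.mp h3)
        · exfalso
          rw [h3, hGKcard] at h2
          exact hpC2 h2
      have hgpH : g ^ q ∉ H := by
        intro h
        have h1 := Subgroup.orderOf_dvd_natCard H h
        rw [hgp] at h1
        exact hpH h1
      have hxN : ((g ^ q : G) : G ⧸ H) ∈ K.map (QuotientGroup.mk' H) := ⟨g ^ q, hgpK, rfl⟩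
      have hx1 : ((g ^ q : G) : G ⧸ H) ≠ 1 := fun h => hgpH ((QuotientGroup.eq_one_iff _).mp h)
      have hxy : ((g ^ q : G) : G ⧸ H) * ((g ^ p : G) : G ⧸ H) =
          ((g ^ p : G) : G ⧸ H) * ((g ^ q : G) : G ⧸ H) := by
        rw [← QuotientGroup.mk_mul, ← QuotientGroup.mk_mul, hcomm]
      have hyN : ((g ^ p : G) : G ⧸ H) ∈ K.map (QuotientGroup.mk' H) := by
        by_contra hy
        have h1 := hfpf2 _ hy
        have h2 : ((g ^ q : G) : G ⧸ H) ∈ K.map (QuotientGroup.mk' H) ⊓
            Subgroup.centralizer {((g ^ p : G) : G ⧸ H)} := by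
          refine Subgroup.mem_inf.mpr ⟨hxN, ?_⟩
          rw [Subgroup.mem_centralizer_iff]
          intro y hy'
          rw [Set.mem_singleton_iff] at hy'
          subst hy'
          exact hxy.symm
        rw [h1, Subgroup.mem_bot] at h2
        exact hx1 h2
      have hy1 : ((g ^ p : G) : G ⧸ H) = 1 := by
        have h1 : orderOf ((g ^ p : G) : G ⧸ H) ∣ q :=
          hgq ▸ orderOf_map_dvd (QuotientGroup.mk' H) (g ^ p)
        have h2 : orderOf ((g ^ p : G) : G ⧸ H) ∣ Nat.card C1 :=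
          hb2 ▸ Subgroup.orderOf_dvd_natCard _ hyN
        rcases (Nat.dvd_prime hq).mp h1 with h3 | h3
        · exact orderOf_eq_one_iff.mp h3
        · exfalso
          rw [h3] at h2
          exact hqb h2
      have hgqH : g ^ p ∈ H := (QuotientGroup.eq_one_iff _).mp hy1
      have h3 : (⟨g ^ p, hHK hgqH⟩ : K) ∈ H.subgroupOf K ⊓
          Subgroup.centralizer {(⟨g ^ q, hgpK⟩ : K)} := by
        refine Subgroup.mem_inf.mpr ⟨Subgroup.mem_subgroupOf.mpr hgqH, ?_⟩
        rw [Subgroup.mem_centralizer_iff]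
        intro y hy
        rw [Set.mem_singleton_iff] at hy
        subst hy
        exact Subtype.ext hcomm
      rw [hfpf1 ⟨g ^ q, hgpK⟩ (fun h => hgpH (Subgroup.mem_subgroupOf.mp h)), Subgroup.mem_bot] at h3
      have h4 : g ^ p = 1 := congrArg Subtype.val h3
      rw [h4, orderOf_one] at hgq
      exact hq.one_lt.ne hgq
    -- mixed case
    have mixed : ∀ p q : ℕ, p.Prime → q.Prime → p ≠ q → p ∣ Nat.card H → q ∣ Nat.card C2 →
        ¬ p ∣ Nat.card C1 → ∃ g : G, orderOf g = p * q := by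
      intro p q hp hq hpq hpH hqC hpb
      haveI : Fact p.Prime := ⟨hp⟩
      haveI : Fact q.Prime := ⟨hq⟩
      haveI hVn : (Cfsg.Agent.S4155.cz H p).Normal := Cfsg.Agent.S4155.cz_normal H p
      have hVN : ∀ v ∈ Cfsg.Agent.S4155.cz H p, v ∈ H := fun v hv => hv.1
      have hVc : ∀ v ∈ Cfsg.Agent.S4155.cz H p, ∀ n ∈ H, n * v = v * n := fun v hv => hv.2.1
      have hVr : ∀ v ∈ Cfsg.Agent.S4155.cz H p, IsEl p v := fun v hv => hv.2.2
      obtain ⟨v0, hv0V, hv01⟩ : ∃ v0 ∈ Cfsg.Agent.S4155.cz H p, v0 ≠ 1 := by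
        obtain ⟨k, hkQ, hk1, hkc⟩ := exists_central_in_sylow (N := H) hpH (default : Sylow p H)
        refine ⟨(k : G), ⟨k.2, fun n hn => ?_, ?_⟩, fun h => hk1 (Subtype.ext h)⟩
        · exact congrArg Subtype.val (hkc ⟨n, hn⟩)
        · exact (isEl_of_isPGroup (default : Sylow p H).2 hkQ).coe
      have hVcomm : ∀ a b : Cfsg.Agent.S4155.cz H p, a * b = b * a :=
        fun a b => Subtype.ext (hVc b b.2 a (hVN a a.2))
      let φV : G →* MulAut (Cfsg.Agent.S4155.cz H p) := MulAut.conjNormal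
      have hφN : H ≤ φV.ker := by
        intro n hn
        rw [MonoidHom.mem_ker]
        ext v
        show ((MulAut.conjNormal n) v : G) = v
        rw [MulAut.conjNormal_apply, hVc v v.2 n hn, mul_inv_cancel_right]
      let ψ : G ⧸ H →* MulAut (Cfsg.Agent.S4155.cz H p) := QuotientGroup.lift H φV hφN
      have hψ : ∀ (g : G) (v : Cfsg.Agent.S4155.cz H p),
          ((ψ (g : G ⧸ H) v : Cfsg.Agent.S4155.cz H p) : G) = g * v * g⁻¹ := by
        intro g v
        have h00 : ψ (QuotientGroup.mk g) = MulAut.conjNormal g := rfl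
        rw [h00, MulAut.conjNormal_apply]
      obtain ⟨cb, hcb⟩ := exists_prime_orderOf_dvd_card' (G := C2) q hqC
      have hcbo : orderOf (cb : G ⧸ H) = q := by rw [Subgroup.orderOf_coe]; exact hcb
      have hex : ∃ v : Cfsg.Agent.S4155.cz H p, ψ (cb : G ⧸ H) v = v ∧ v ≠ 1 := by
        by_contra hcon
        push Not at hcon
        have hall := frob_sum hVcomm ψ (K.map (QuotientGroup.mk' H)) q (cb : G ⧸ H)
          (by rw [← hcbo]; exact pow_orderOf_eq_one _) ?_ ?_ hcon ⟨v0, hv0V⟩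
        · have h1 : v0 ^ Nat.card C1 = 1 := by
            rw [← hb2]; exact congrArg Subtype.val hall
          obtain ⟨k, hk⟩ := hVr v0 hv0V
          have h2 : orderOf v0 ∣ Nat.gcd (p ^ k) (Nat.card C1) :=
            Nat.dvd_gcd (orderOf_dvd_of_pow_eq_one hk) (orderOf_dvd_of_pow_eq_one h1)
          rw [Nat.Coprime.gcd_eq_one (Nat.Coprime.pow_left k
            ((Nat.Prime.coprime_iff_not_dvd hp).mpr hpb))] at h2
          exact hv01 (orderOf_eq_one_iff.mp (Nat.dvd_one.mp h2))
        · intro w hw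
          obtain ⟨k, hkK, hkH⟩ := SetLike.exists_of_lt hlt
          have h1 := hw (k : G ⧸ H) ⟨k, hkK, rfl⟩
          have h2 : k * (w : G) * k⁻¹ = w := by rw [← hψ k w, h1]
          have h3 : (⟨(w : G), hHK (hVN w w.2)⟩ : K) ∈ H.subgroupOf K ⊓
              Subgroup.centralizer {(⟨k, hkK⟩ : K)} := by
            refine Subgroup.mem_inf.mpr ⟨Subgroup.mem_subgroupOf.mpr (hVN w w.2), ?_⟩
            rw [Subgroup.mem_centralizer_iff]
            intro y hy
            rw [Set.mem_singleton_iff] at hy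
            subst hy
            apply Subtype.ext
            show k * (w : G) = (w : G) * k
            calc k * (w : G) = (k * (w : G) * k⁻¹) * k := by group
              _ = w * k := by rw [h2]
          rw [hfpf1 ⟨k, hkK⟩ (fun h => hkH (Subgroup.mem_subgroupOf.mp h)), Subgroup.mem_bot] at h3
          have h4 : (w : G) = 1 := congrArg Subtype.val h3
          exact Subtype.ext h4
        · intro i hi b hb hcomm
          have hne : (cb : G ⧸ H) ^ i.val ≠ 1 :=
            pow_ne_one_of_lt_orderOf (by rwa [Ne, ZMod.val_eq_zero])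
              (by rw [hcbo]; exact ZMod.val_lt i)
          have hmem : (cb : G ⧸ H) ^ i.val ∈ C2 := C2.pow_mem cb.2 _
          have h3 : b ∈ K.map (QuotientGroup.mk' H) ⊓
              Subgroup.centralizer {(cb : G ⧸ H) ^ i.val} := by
            refine Subgroup.mem_inf.mpr ⟨hb, ?_⟩
            rw [Subgroup.mem_centralizer_iff]
            intro y hy
            rw [Set.mem_singleton_iff] at hy
            subst hy
            exact hcomm.symm
          rw [hfpfC2 _ hmem hne, Subgroup.mem_bot] at h3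
          exact h3
      obtain ⟨v, hv, hv1⟩ := hex
      obtain ⟨c, hc⟩ := QuotientGroup.mk_surjective (cb : G ⧸ H)
      rw [← hc] at hv
      have h2 : c * (v : G) * c⁻¹ = v := by rw [← hψ c v, hv]
      have hvc : (v : G) * c = c * v := by
        calc (v : G) * c = (c * (v : G) * c⁻¹) * c := by rw [h2]
          _ = c * v := by group
      have hqc : q ∣ orderOf c := by
        have h1 := orderOf_map_dvd (QuotientGroup.mk' H) c
        rw [show (QuotientGroup.mk' H) c = (cb : G ⧸ H) from hc, hcbo] at h1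
        exact h1
      have hpv : p ∣ orderOf (v : G) :=
        dvd_orderOf_of_isEl hp (hVr v v.2) (fun h => hv1 (Subtype.ext h))
      exact exists_order_pq hp hq hpq (v : G) c hvc hpv hqc
    intro p q hp hq hpq hpG hqG
    haveI : Fact p.Prime := ⟨hp⟩
    haveI : Fact q.Prime := ⟨hq⟩
    constructor
    · rintro ⟨g, hg⟩
      exact ⟨key p q hp hq hpq g hg, key q p hq hp hpq.symm g (by rw [hg, mul_comm])⟩
    · intro hiff
      by_cases hpb : p ∣ Nat.card C1
      · have hqb := hiff.mp hpb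
        obtain ⟨a, ha⟩ := exists_prime_orderOf_dvd_card' (G := C1) p hpb
        obtain ⟨c, hc⟩ := exists_prime_orderOf_dvd_card' (G := C1) q hqb
        obtain ⟨z, hz⟩ := exists_order_pq hp hq hpq a c (comm_of_isCyclic a c)
          (ha ▸ dvd_rfl) (hc ▸ dvd_rfl)
        exact ⟨((z : K) : G), by rw [Subgroup.orderOf_coe, Subgroup.orderOf_coe, hz]⟩
      · have hqb : ¬ q ∣ Nat.card C1 := fun h => hpb (hiff.mpr h)
        have hp' : p ∣ Nat.card H ∨ p ∣ Nat.card C2 := by
          rw [hGcard] at hpG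
          rcases (Nat.Prime.dvd_mul hp).mp hpG with h | h
          · rcases (Nat.Prime.dvd_mul hp).mp h with h | h
            · exact Or.inl h
            · exact absurd h hpb
          · exact Or.inr h
        have hq' : q ∣ Nat.card H ∨ q ∣ Nat.card C2 := by
          rw [hGcard] at hqG
          rcases (Nat.Prime.dvd_mul hq).mp hqG with h | h
          · rcases (Nat.Prime.dvd_mul hq).mp h with h | h
            · exact Or.inl h
            · exact absurd h hqb
          · exact Or.inr h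
        rcases hp' with hpH | hpC <;> rcases hq' with hqH | hqC
        · obtain ⟨a, ha⟩ := exists_prime_orderOf_dvd_card' (G := H) p hpH
          obtain ⟨c, hc⟩ := exists_prime_orderOf_dvd_card' (G := H) q hqH
          have hac : a * c = c * a := comm_of_nilpotent hp hq hpq a c
            ⟨1, by rw [pow_one, ← ha]; exact pow_orderOf_eq_one a⟩
            ⟨1, by rw [pow_one, ← hc]; exact pow_orderOf_eq_one c⟩
          obtain ⟨z, hz⟩ := exists_order_pq hp hq hpq a c hac (ha ▸ dvd_rfl) (hc ▸ dvd_rfl)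
          exact ⟨(z : G), by rw [Subgroup.orderOf_coe, hz]⟩
        · exact mixed p q hp hq hpq hpH hqC hpb
        · obtain ⟨g, hg⟩ := mixed q p hq hp hpq.symm hqH hpC hqb
          exact ⟨g, by rw [hg, mul_comm]⟩
        · obtain ⟨a, ha⟩ := exists_prime_orderOf_dvd_card' (G := C2) p hpC
          obtain ⟨c, hc⟩ := exists_prime_orderOf_dvd_card' (G := C2) q hqC
          obtain ⟨z, hz⟩ := exists_order_pq hp hq hpq a c (comm_of_isCyclic a c)
            (ha ▸ dvd_rfl) (hc ▸ dvd_rfl)
          obtain ⟨g, hg⟩ := QuotientGroup.mk_surjective (z : G ⧸ H)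
          have h1 := orderOf_map_dvd (QuotientGroup.mk' H) g
          rw [show (QuotientGroup.mk' H) g = (z : G ⧸ H) from hg, Subgroup.orderOf_coe, hz] at h1
          exact exists_orderOf_eq g h1

end Cfsg.Agent.S4001
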