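import Mathlib
import Cfsg.Statements.S4002
import Cfsg.Agent.S3633

set_option autoImplicit false
open Cfsg

namespace Cfsg.Agent.S4002

/-- Three primes `p < q < r ≤ n` with `n < p * q`, for `n ≥ 7`. -/
theorem three_primes (n : ℕ) (hn : 7 ≤ n) :
    ∃ p q r : ℕ, p.Prime ∧ q.Prime ∧ r.Prime ∧ p < q ∧ q < r ∧ r ≤ n ∧ n < p * q := by
  by_cases h15 : n < 15
  · exact ⟨3, 5, 7, by norm_num, by norm_num, by norm_num, by norm_num, by norm_num, hn, by omega⟩
  by_cases h35 : n < 35
  · exact ⟨5, 7, 11, by norm_num, by norm_num, by norm_num, by norm_num, by norm_num,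
      by omega, by omega⟩
  -- now `35 ≤ n`
  obtain ⟨r, hr, hr1, hr2⟩ := Nat.exists_prime_lt_and_le_two_mul (n / 2) (by omega)
  obtain ⟨q, hq, hq1, hq2⟩ := Nat.exists_prime_lt_and_le_two_mul ((r - 1) / 2) (by omega)
  obtain ⟨p, hp, hp1, hp2⟩ := Nat.exists_prime_lt_and_le_two_mul ((q - 1) / 2) (by omega)
  have e1 : n + 1 ≤ 2 * r := by omega
  have e2 : r ≤ 2 * q := by omega
  have e3 : q ≤ 2 * p := by omega
  have e4 : n + 1 ≤ 8 * p := by omega
  have e5 : n + 1 ≤ 4 * q := by omega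
  refine ⟨p, q, r, hp, hq, hr, by omega, by omega, by omega, ?_⟩
  have e6 : (n + 1) * (n + 1) ≤ (8 * p) * (4 * q) := Nat.mul_le_mul e4 e5
  nlinarith

/-- If the set of element orders of a finite group G is {1, 2, …, n} with n ≥ 7, then G is not solvable. -/
theorem result {G : Type*} [Group G] [Finite G] (n : ℕ) (hn : 7 ≤ n) (h : Set.range (orderOf : G → ℕ) = {k : ℕ | 1 ≤ k ∧ k ≤ n}) : ¬ Group.IsSolvable G := by
  obtain ⟨p, q, r, hp, hq, hr, hpq, hqr, hrn, hn'⟩ := three_primes n hn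
  have hmem : ∀ k : ℕ, (∃ x : G, orderOf x = k) → k ≤ n := by
    intro k ⟨x, hx⟩
    have : k ∈ Set.range (orderOf : G → ℕ) := ⟨x, hx⟩
    rw [h] at this
    exact this.2
  have hex : ∀ k : ℕ, 1 ≤ k → k ≤ n → ∃ x : G, orderOf x = k := by
    intro k h1 h2
    have : k ∈ Set.range (orderOf : G → ℕ) := by
      rw [h]; exact ⟨h1, h2⟩
    exact this
  have hdiv : ∀ k : ℕ, 1 ≤ k → k ≤ n → k ∣ Nat.card G := by
    intro k h1 h2
    obtain ⟨x, hx⟩ := hex k h1 h2
    rw [← hx]
    exact orderOf_dvd_natCard x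
  have hpr : p * q < p * r := Nat.mul_lt_mul_of_pos_left hqr hp.pos
  have hqr' : p * q < q * r := by
    have := Nat.mul_lt_mul_of_pos_left (lt_trans hpq hqr) hq.pos
    rw [Nat.mul_comm p q]; exact this
  have hcard : ({p, q, r} : Finset ℕ).card = 3 := by
    rw [Finset.card_insert_of_notMem, Finset.card_insert_of_notMem, Finset.card_singleton]
    · simp; omega
    · simp; omega
  have key := Cfsg.Agent.S3633.result (G := G) ({p, q, r} : Finset ℕ) (by omega)
    ⟨?_, ?_⟩ (⊥ : Subgroup G) inferInstance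
  · exact key.2
  · intro t ht
    simp only [Finset.mem_insert, Finset.mem_singleton] at ht
    rcases ht with rfl | rfl | rfl
    · exact ⟨hp, hdiv _ hp.pos (by omega)⟩
    · exact ⟨hq, hdiv _ hq.pos (by omega)⟩
    · exact ⟨hr, hdiv _ hr.pos hrn⟩
  · intro a ha b hb hab hx
    have hle := hmem _ hx
    simp only [Finset.mem_insert, Finset.mem_singleton] at ha hb
    rcases ha with rfl | rfl | rfl <;> rcases hb with rfl | rfl | rfl
    · exact hab rfl
    · omega
    · omega
    · rw [Nat.mul_comm] at hle; omega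
    · exact hab rfl
    · omega
    · rw [Nat.mul_comm] at hle; omega
    · rw [Nat.mul_comm] at hle; omega
    · exact hab rfl

end Cfsg.Agent.S4002
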