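import Cfsg.Statements.S4010
import Cfsg.Agent.H76.LinUni

set_option autoImplicit false
open Cfsg

namespace Cfsg.Agent.S4010

/-- Let F be a field, n ≥ 1, and P a finite p-group (p a prime) admitting an injective homomorphism into the general linear group of degree n over F. Then the derived length of P is at most ⌊log₂ n⌋ + 1: that term of the derived series of P is trivial. -/
theorem result {P : Type*} [Group P] [Finite P] (p : ℕ) [Fact p.Prime] (hP : IsPGroup p P) (F : Type*) [Field F] (n : ℕ) (hn : 1 ≤ n) (ρ : P →* Matrix.GeneralLinearGroup (Fin n) F) (hρ : Function.Injective ρ) : derivedSeries P (Nat.log 2 n + 1) = ⊥ := by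
  let ρ' : P →* Module.End F (Fin n → F) :=
    ((Matrix.toLinAlgEquiv' : Matrix (Fin n) (Fin n) F ≃ₐ[F] _) :
      Matrix (Fin n) (Fin n) F →* _).comp ((Units.coeHom _).comp ρ)
  have hinj : Function.Injective ρ' := by
    intro a b hab
    apply hρ
    apply Units.ext
    exact (Matrix.toLinAlgEquiv' : Matrix (Fin n) (Fin n) F ≃ₐ[F] _).injective hab
  have hfr : Module.finrank F (Fin n → F) = n := Module.finrank_fin_fun F
  have key : derivedSeries P (Nat.log 2 n + 1) ≤ ρ'.ker := by
    by_cases hpF : (p : F) = 0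
    · apply Cfsg.Agent.H76.LinDer.unip_derived p hpF hP ρ'
      rw [hfr]
      exact (Nat.lt_pow_succ_log_self (by norm_num) n).le
    · have He : Cfsg.Agent.H76.LinDer.FpfDvd F p 1 := fun U _ _ _ x _ _ => one_dvd _
      have := Cfsg.Agent.H76.LinDer.main p 2 1 le_rfl (Fact.out : p.Prime).two_le (Or.inl rfl)
        one_pos hpF He n (Fin n → F) hfr P hP ρ'
      rwa [Nat.div_one] at this
  rw [eq_bot_iff]
  intro x hx
  rw [Subgroup.mem_bot]
  apply hinj
  rw [map_one]
  exact MonoidHom.mem_ker.mp (key hx)

end Cfsg.Agent.S4010
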