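import Mathlib
import Cfsg.Statements.S4013

set_option autoImplicit false
open Cfsg

namespace Cfsg.Agent.S4013

theorem arith_aux (p a b c : ℕ) (hp : p.Prime) (hab : a < b) (h : p ^ b - p ^ a = p ^ c) :
    p = 2 ∧ b = a + 1 := by
  obtain ⟨k, rfl⟩ : ∃ k, b = a + (k + 1) := ⟨b - a - 1, by omega⟩
  have hp1 : 1 ≤ p ^ (k + 1) := Nat.one_le_pow _ _ hp.pos
  have h1 : p ^ a * (p ^ (k + 1) - 1) = p ^ c := by
    rw [← h, Nat.mul_sub, mul_one, ← pow_add]
  have h2 : (p ^ (k + 1) - 1) ∣ p ^ c := Dvd.intro_left _ h1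
  obtain ⟨j, -, hj⟩ := (Nat.dvd_prime_pow hp).1 h2
  have hj0 : j = 0 := by
    by_contra hne
    have hd : p ∣ p ^ (k + 1) - 1 := by
      rw [hj]; exact dvd_pow_self p hne
    have hd2 : p ∣ p ^ (k + 1) := dvd_pow_self p (Nat.succ_ne_zero k)
    have hd3 : p ∣ 1 := by
      have := (Nat.dvd_sub hd2 hd)
      rwa [Nat.sub_sub_self hp1] at this
    exact hp.one_lt.ne' (Nat.dvd_one.1 hd3)
  subst hj0
  have h3 : p ^ (k + 1) = 2 := by
    have h' : p ^ (k + 1) - 1 = 1 := by rw [hj, pow_zero]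
    omega
  have hk : k = 0 := by
    by_contra hne
    have h4 : p ^ 2 ≤ p ^ (k + 1) := Nat.pow_le_pow_right hp.pos (by omega)
    have h5 : 2 ^ 2 ≤ p ^ 2 := Nat.pow_le_pow_left hp.two_le 2
    omega
  subst hk
  exact ⟨by simpa using h3, rfl⟩

theorem result {G : Type*} [Group G] [Finite G] (p : ℕ) [Fact p.Prime] (hG : IsPGroup p G) (N M : Subgroup G) [N.Normal] [M.Normal] (hNM : N < M) (g : G) (hgM : g ∈ M) (hgN : g ∉ N) (hcl : {h : G | IsConj g h} = (M : Set G) \ (N : Set G)) : p = 2 ∧ N.relIndex M = 2 := by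
  have hp : p.Prime := Fact.out
  obtain ⟨a, ha⟩ := (IsPGroup.iff_card (p := p)).1 (hG.to_subgroup N)
  obtain ⟨b, hb⟩ := (IsPGroup.iff_card (p := p)).1 (hG.to_subgroup M)
  obtain ⟨n, hn⟩ := (IsPGroup.iff_card (p := p)).1 hG
  -- class size is a power of p
  have horb : MulAction.orbit (ConjAct G) g = {h : G | IsConj g h} := by
    ext h
    rw [ConjAct.mem_orbit_conjAct]
    exact ⟨fun h' => h'.symm, fun h' => h'.symm⟩
  have hdvd : (MulAction.orbit (ConjAct G) g).ncard ∣ p ^ n := by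
    rw [← MulAction.index_stabilizer, ← hn]
    exact Subgroup.index_dvd_card _
  obtain ⟨c, -, hc⟩ := (Nat.dvd_prime_pow hp).1 hdvd
  rw [horb, hcl] at hc
  have hsub : (N : Set G) ⊆ (M : Set G) := fun x hx => hNM.le hx
  rw [Set.ncard_sdiff hsub (Set.toFinite _)] at hc
  have hcN : (N : Set G).ncard = p ^ a := by rw [← ha]; exact (Nat.card_coe_set_eq _).symm
  have hcM : (M : Set G).ncard = p ^ b := by rw [← hb]; exact (Nat.card_coe_set_eq _).symm
  rw [hcN, hcM] at hc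
  have hle : p ^ a ∣ p ^ b := by
    rw [← ha, ← hb]; exact Subgroup.card_dvd_of_le hNM.le
  have hab : a ≤ b := (Nat.pow_dvd_pow_iff_le_right hp.one_lt).1 hle
  have hne : a ≠ b := by
    rintro rfl
    have : N = M := Subgroup.eq_of_le_of_card_ge hNM.le (by rw [ha, hb])
    exact hNM.ne this
  obtain ⟨hp2, hb1⟩ := arith_aux p a b c hp (lt_of_le_of_ne hab hne) hc
  refine ⟨hp2, ?_⟩
  have h1 : Nat.card (N.subgroupOf M) * (N.subgroupOf M).index = Nat.card M :=
    (N.subgroupOf M).card_mul_index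
  have h2 : Nat.card (N.subgroupOf M) = Nat.card N :=
    Nat.card_congr (Subgroup.subgroupOfEquivOfLe hNM.le).toEquiv
  rw [h2, ha, hb, hb1, pow_succ] at h1
  have h3 : (N.subgroupOf M).index = p :=
    Nat.eq_of_mul_eq_mul_left (pow_pos hp.pos a) h1
  rw [Subgroup.relIndex, h3, hp2]

end Cfsg.Agent.S4013
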