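import Cfsg.Statements.S4014
import Cfsg.Agent.H76.DerPerm

set_option autoImplicit false
open Cfsg

namespace Cfsg.Agent.S4014

open Cfsg.Agent.H76

/-- Let p be a prime, n ≥ 1, and P a Sylow p-subgroup of the symmetric group on n letters. Then the derived length of P is exactly k = ⌊log_p n⌋ (the largest k with p^k ≤ n): the k-th derived subgroup of P is trivial and, when k ≥ 1, the (k−1)-st is not. -/
theorem result (p : ℕ) [Fact p.Prime] (n : ℕ) (hn : 1 ≤ n) (P : Sylow p (Equiv.Perm (Fin n))) : derivedSeries ↥(P : Subgroup (Equiv.Perm (Fin n))) (Nat.log p n) = ⊥ ∧ (1 ≤ Nat.log p n → derivedSeries ↥(P : Subgroup (Equiv.Perm (Fin n))) (Nat.log p n - 1) ≠ ⊥) := by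
  have hp : p.Prime := Fact.out
  constructor
  · rw [Subgroup.eq_bot_iff_forall]
    intro g hg
    have hPp : IsPGroup p (P : Subgroup (Equiv.Perm (Fin n))) := P.isPGroup'
    have key : ∀ ω : Fin n, g • ω = ω := by
      intro ω
      refine derivedSeries_fixes (Nat.log p n) hPp ω ?_ g hg
      obtain ⟨j, hj⟩ := hPp.index (MulAction.stabilizer (P : Subgroup (Equiv.Perm (Fin n))) ω)
      have hle : (MulAction.stabilizer (P : Subgroup (Equiv.Perm (Fin n))) ω).index ≤ n := by
        rw [MulAction.index_stabilizer]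
        calc (MulAction.orbit _ ω).ncard ≤ Nat.card (Fin n) := Set.ncard_le_card _
          _ = n := by simp
      rw [hj] at hle ⊢
      have hlt : p ^ j < p ^ (Nat.log p n + 1) :=
        lt_of_le_of_lt hle (Nat.lt_pow_succ_log_self hp.one_lt n)
      have hjl : j < Nat.log p n + 1 := (Nat.pow_lt_pow_iff_right hp.one_lt).mp hlt
      exact Nat.pow_le_pow_right hp.pos (by omega)
    apply Subtype.ext
    ext ω
    exact congrArg _ (key ω)
  · intro hk
    rw [Ne, derivedSeries_eq_bot_iff_dser]
    have hpk : p ^ Nat.log p n ≤ n := Nat.pow_log_le_self p (by omega)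
    have hcard : Fintype.card (Fin (Nat.log p n) → ZMod p) ≤ Fintype.card (Fin n) := by
      simpa [ZMod.card] using hpk
    obtain ⟨ι⟩ := Function.Embedding.nonempty_of_card_le hcard
    have hf : Function.Injective (Equiv.Perm.viaEmbeddingHom ι) :=
      Equiv.Perm.viaEmbeddingHom_injective ι
    have hQ : IsPGroup p ((triGroup p (Nat.log p n)).map (Equiv.Perm.viaEmbeddingHom ι)) :=
      triGroup_isPGroup.map _
    obtain ⟨P', hP'⟩ := hQ.exists_le_sylow
    obtain ⟨x, hx⟩ := MulAction.exists_smul_eq (Equiv.Perm (Fin n)) P P'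
    intro hbot
    have h1 : dser ((triGroup p (Nat.log p n)).map (Equiv.Perm.viaEmbeddingHom ι))
        (Nat.log p n - 1) ≤ dser (P' : Subgroup (Equiv.Perm (Fin n))) (Nat.log p n - 1) :=
      dser_mono hP' _
    have h2 : (P' : Subgroup (Equiv.Perm (Fin n))) =
        (P : Subgroup (Equiv.Perm (Fin n))).map (MulAut.conj x).toMonoidHom := by
      rw [← hx]; rfl
    rw [h2, dser_map, dser_map, hbot, Subgroup.map_bot, le_bot_iff] at h1
    have h3 := (Subgroup.map_eq_bot_iff_of_injective _ hf).mp h1
    exact dser_triGroup_ne_bot (Nat.log p n - 1) (by omega) h3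

end Cfsg.Agent.S4014
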