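import Cfsg.Statements.S4015
import Cfsg.Agent.H76.LinFin
import Cfsg.Agent.H76.GLTower

set_option autoImplicit false
open Cfsg

namespace Cfsg.Agent.S4015

open Cfsg.Agent.H76

/-- Let p be an odd prime, F a finite field with q elements where p does not divide q, and e the multiplicative order of q modulo p. Let n ≥ e and write w = ⌊n/e⌋ and k = ⌊log_p w⌋. Then a Sylow p-subgroup of GL(n, F) has derived length exactly k + 1: its (k+1)-st derived subgroup is trivial and its k-th is not. -/
theorem result (p : ℕ) [Fact p.Prime] (hp : p ≠ 2) (F : Type*) [Field F] [Fintype F] (q : ℕ) (hq : Fintype.card F = q) (hpq : ¬ p ∣ q) (n : ℕ) (hn : orderOf (q : ZMod p) ≤ n) (P : Sylow p (Matrix.GeneralLinearGroup (Fin n) F)) : derivedSeries ↥(P : Subgroup (Matrix.GeneralLinearGroup (Fin n) F)) (Nat.log p (n / orderOf (q : ZMod p)) + 1) = ⊥ ∧ derivedSeries ↥(P : Subgroup (Matrix.GeneralLinearGroup (Fin n) F)) (Nat.log p (n / orderOf (q : ZMod p))) ≠ ⊥ := by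
  subst hq
  have hpp : p.Prime := Fact.out
  have hpF : (p : F) ≠ 0 := by
    intro h0
    apply hpq
    have : CharP F p := (CharP.charP_iff_prime_eq_zero hpp).mpr h0
    obtain ⟨k, -, hk⟩ := FiniteField.card F p
    rw [hk]
    exact dvd_pow_self p k.ne_zero
  have he0 : 0 < orderOf ((Fintype.card F : ℕ) : ZMod p) := by
    apply orderOf_pos_iff.mpr
    rw [isOfFinOrder_iff_pow_eq_one]
    refine ⟨p - 1, by have := hpp.two_le; omega, ?_⟩
    apply ZMod.pow_card_sub_one_eq_one
    rw [Ne, ZMod.natCast_eq_zero_iff]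
    exact hpq
  constructor
  · let ρ' : ↥(P : Subgroup (Matrix.GeneralLinearGroup (Fin n) F)) →*
        Module.End F (Fin n → F) :=
      ((Matrix.toLinAlgEquiv' : Matrix (Fin n) (Fin n) F ≃ₐ[F] _) :
        Matrix (Fin n) (Fin n) F →* _).comp ((Units.coeHom _).comp
          (P : Subgroup (Matrix.GeneralLinearGroup (Fin n) F)).subtype)
    have hinj : Function.Injective ρ' := by
      intro a b hab
      apply Subtype.ext
      apply Units.ext
      exact (Matrix.toLinAlgEquiv' : Matrix (Fin n) (Fin n) F ≃ₐ[F] _).injective hab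
    have hfr : Module.finrank F (Fin n → F) = n := Module.finrank_fin_fun F
    have key := LinDer.main p p _ hpp.two_le le_rfl (Or.inr hp) he0 hpF
      (LinDer.fpfDvd_finite p) n (Fin n → F) hfr
      ↥(P : Subgroup (Matrix.GeneralLinearGroup (Fin n) F)) P.isPGroup' ρ'
    rw [eq_bot_iff]
    intro x hx
    rw [Subgroup.mem_bot]
    apply hinj
    rw [map_one]
    exact MonoidHom.mem_ker.mp (key hx)
  · set e := orderOf ((Fintype.card F : ℕ) : ZMod p) with he
    set k := Nat.log p (n / e) with hk
    have hne : n / e ≠ 0 := by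
      have : 0 < n / e := Nat.div_pos hn he0
      omega
    have hk1 : p ^ k ≤ n / e := Nat.pow_log_le_self p hne
    have hk2 : e * p ^ k ≤ n := by
      calc e * p ^ k ≤ e * (n / e) := Nat.mul_le_mul_left e hk1
        _ ≤ n := Nat.mul_div_le n e
    obtain ⟨H, hH, hHk⟩ := GLTower.exists_p_subgroup (F := F) p hpq n k hk2
    rw [Ne, derivedSeries_eq_bot_iff_dser]
    obtain ⟨P', hP'⟩ := hH.exists_le_sylow
    obtain ⟨x, hx⟩ := MulAction.exists_smul_eq (Matrix.GeneralLinearGroup (Fin n) F) P P'
    intro hbot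
    have h1 : dser H k ≤ dser (P' : Subgroup (Matrix.GeneralLinearGroup (Fin n) F)) k :=
      dser_mono hP' _
    have h2' : (P' : Subgroup (Matrix.GeneralLinearGroup (Fin n) F)) =
        (P : Subgroup (Matrix.GeneralLinearGroup (Fin n) F)).map (MulAut.conj x).toMonoidHom := by
      rw [← hx]
      rfl
    rw [h2', dser_map, hbot, Subgroup.map_bot, le_bot_iff] at h1
    exact hHk h1

end Cfsg.Agent.S4015
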