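import Cfsg.Statements.S4025
import Cfsg.Agent.H13.SaDefs
import Cfsg.Agent.H13.SaMain
import Cfsg.Agent.H13.SaFinal
import Cfsg.Agent.H13.SaHupProj
import Cfsg.Agent.H89.SaFus
import Cfsg.Agent.H89.SaCompl
import Cfsg.Agent.H89.SaIdx
import Cfsg.Agent.H16.SaField
import Cfsg.Agent.H16.SaNo65
import Cfsg.Agent.H82.SaCount1
import Cfsg.Agent.H82.SaCount2
import Cfsg.Agent.H82.SaNum
import Cfsg.Agent.H65.SaOrb
import Cfsg.Agent.H65.SaAut
import Cfsg.Agent.H65.SaP2
import Cfsg.Agent.H25.SaBound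
import Cfsg.Agent.H25.SaEmb
import Cfsg.Agent.H12.SaTrans
import Cfsg.Agent.H12.SaP5

set_option autoImplicit false
open Cfsg

namespace Cfsg.Agent.S4025

/-- Let p be a prime and G a finite group in which any two p-subgroups of the same order are conjugate, and suppose a Sylow p-subgroup P of G is elementary abelian of order pⁿ with n ≥ 3. Let N be the normalizer of P and K the largest normal subgroup of N of order prime to p, and assume N/K is solvable. Then either n = 3 and N/K embeds in the one-dimensional semi-affine group over the field with p³ elements (and for p = 2 it is isomorphic to the affine or the semi-affine group over the field with 8 elements), or n = 5, p = 2 and N/K is isomorphic to the one-dimensional semi-affine group over the field with 32 elements. -/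
theorem result {G : Type*} [Group G] [Finite G]
    {p : ℕ} [Fact p.Prime] (hC : ∀ H K : Subgroup G, IsPGroup p H → IsPGroup p K → Nat.card H = Nat.card K →
      ∃ g : G, K = H.map (MulAut.conj g).toMonoidHom) (P : Sylow p G) (n : ℕ) (hn : 3 ≤ n)
    (hel : Cfsg.IsElementaryAbelian p (P : Subgroup G)) (hcard : Nat.card P = p ^ n)
    (N : Subgroup G) (hN : N = Subgroup.normalizer ((P : Subgroup G) : Set G))
    (hsolv : Group.IsSolvable (↥N ⧸ Cfsg.pPrimeCore p ↥N)) :
    (n = 3 ∧ (∃ f : ↥N ⧸ Cfsg.pPrimeCore p ↥N →* ↥(Cfsg.semiaffineGroup (GaloisField p 3)), Function.Injective f) ∧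
      (p = 2 → Nonempty (↥N ⧸ Cfsg.pPrimeCore p ↥N ≃* Cfsg.semiaffineGroup (GaloisField 2 3)) ∨
               Nonempty (↥N ⧸ Cfsg.pPrimeCore p ↥N ≃* Cfsg.affineGroup (GaloisField 2 3)))) ∨
    (n = 5 ∧ p = 2 ∧ Nonempty (↥N ⧸ Cfsg.pPrimeCore p ↥N ≃* Cfsg.semiaffineGroup (GaloisField 2 5))) := by
  exact Cfsg.Agent.H13.Sa.final Cfsg.Agent.H89.Sa.fus
    (Cfsg.Agent.H13.Sa.main Cfsg.Agent.H89.Sa.compl Cfsg.Agent.H89.Sa.idx
      (Cfsg.Agent.H16.Sa.field Cfsg.Agent.H13.Sa.hupProj) Cfsg.Agent.H16.Sa.no65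
      Cfsg.Agent.H82.Sa.count1 Cfsg.Agent.H82.Sa.count2 Cfsg.Agent.H65.Sa.orb
      Cfsg.Agent.H82.Sa.num (Cfsg.Agent.H25.Sa.bound Cfsg.Agent.H65.Sa.aut)
      Cfsg.Agent.H25.Sa.emb Cfsg.Agent.H12.Sa.trans (Cfsg.Agent.H65.Sa.p2 Cfsg.Agent.H65.Sa.aut)
      (Cfsg.Agent.H12.Sa.p5 Cfsg.Agent.H65.Sa.aut))
    hC P n hn hel hcard N hN hsolv

end Cfsg.Agent.S4025
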