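import Mathlib
import Cfsg.Statements.S4027
import Cfsg.Agent.H71.Inv
import Cfsg.Agent.H71.Lift
import Cfsg.Agent.H71.TwoClosed

set_option autoImplicit false
open Cfsg

namespace Cfsg.Agent.S4027

open Cfsg.Agent.H71

/-- Let G be a finite group in which every element x of odd order satisfies N_G(⟨x⟩) = C_G(x). Then the Sylow 2-subgroups of G are normal. -/
theorem result {G : Type*} [Group G] [Finite G]
    (hirr : ∀ x : G, (∀ r : ℕ, r.Prime → r ∣ orderOf x → r ≠ 2) →
      Subgroup.normalizer ((Subgroup.zpowers x : Subgroup G) : Set G) ≤ Subgroup.centralizer {x}) (P : Sylow 2 G) :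
    (P : Subgroup G).Normal := by
  apply two_closed_of_noInv
  intro t x hodd htx
  have hx : ∀ r : ℕ, r.Prime → r ∣ orderOf x → r ≠ 2 := by
    intro r _ hrx h2
    subst h2
    exact (Nat.not_even_iff_odd.2 hodd) (even_iff_two_dvd.2 hrx)
  have htN : t ∈ Subgroup.normalizer ((Subgroup.zpowers x : Subgroup G) : Set G) := by
    apply mem_normalizer_zpowers
    · rw [htx]; exact Subgroup.inv_mem _ (Subgroup.mem_zpowers x)
    · rw [inv3 htx]; exact Subgroup.inv_mem _ (Subgroup.mem_zpowers x)
  have hc := hirr x hx htN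
  rw [Subgroup.mem_centralizer_singleton_iff] at hc
  apply eq_one_of_eq_inv_of_odd hodd
  rw [← htx, hc, mul_inv_cancel_right]

end Cfsg.Agent.S4027
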