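import Mathlib
import Cfsg.Statements.S4028
import Cfsg.Agent.H71.Parts
import Cfsg.Agent.H71.SylowConj
import Cfsg.Agent.H71.Lift

set_option autoImplicit false
open Cfsg

namespace Cfsg.Agent.S4028

open Cfsg.Agent.H71

/-- An element of odd order normalizing a cyclic 2-group centralizes it. -/
theorem odd_normalizer_centralizes {G : Type*} [Group G] [Finite G] {x b : G}
    (hx : ∃ k : ℕ, orderOf x = 2 ^ k)
    (hb : b ∈ Subgroup.normalizer ((Subgroup.zpowers x : Subgroup G) : Set G))
    (hodd : Odd (orderOf b)) : b * x = x * b := by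
  obtain ⟨k, hk⟩ := hx
  let φ := (Subgroup.zpowers x).normalizerMonoidHom
  let b' : Subgroup.normalizer ((Subgroup.zpowers x : Subgroup G) : Set G) := ⟨b, hb⟩
  have h1 : orderOf (φ b') ∣ orderOf b := by
    have := orderOf_map_dvd φ b'
    rwa [Subgroup.orderOf_mk] at this
  have h2 : orderOf (φ b') ∣ Nat.card (MulAut (Subgroup.zpowers x)) := orderOf_dvd_natCard _
  have h3 : Nat.card (MulAut (Subgroup.zpowers x)) ∣ 2 ^ k := by
    rw [IsCyclic.card_mulAut, Nat.card_zpowers, hk]
    rcases Nat.eq_zero_or_pos k with rfl | hpos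
    · simp
    · rw [Nat.totient_prime_pow Nat.prime_two hpos]
      simp only [Nat.add_one_sub_one, mul_one]
      exact pow_dvd_pow 2 (Nat.sub_le k 1)
  have h4 : orderOf (φ b') = 1 := by
    have hcop : Nat.Coprime (orderOf (φ b')) (2 ^ k) :=
      Nat.Coprime.pow_right k (Nat.Coprime.coprime_dvd_left h1 (Nat.coprime_two_right.2 hodd))
    exact Nat.Coprime.eq_one_of_dvd hcop (h2.trans h3)
  have h5 : b' ∈ φ.ker := by
    rw [MonoidHom.mem_ker]; exact orderOf_eq_one_iff.1 h4
  rw [Subgroup.normalizerMonoidHom_ker, Subgroup.mem_subgroupOf] at h5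
  have := Subgroup.mem_centralizer_iff.1 h5 x (Subgroup.mem_zpowers x)
  exact this.symm

/-- Let G be a finite group with Sylow 2-subgroup P. Then N_G(⟨x⟩) = C_G(x) holds for every 2-element x of G if and only if N_P(⟨y⟩) = C_P(y) holds for every y ∈ P (computed inside P). -/
theorem result {G : Type*} [Group G] [Finite G] (P : Sylow 2 G) :
    (∀ x : G, (∀ r : ℕ, r.Prime → r ∣ orderOf x → r = 2) →
      Subgroup.normalizer ((Subgroup.zpowers x : Subgroup G) : Set G) ≤ Subgroup.centralizer {x}) ↔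
    (∀ y : ↥(P : Subgroup G), Subgroup.normalizer ((Subgroup.zpowers y : Subgroup ↥(P : Subgroup G)) : Set ↥(P : Subgroup G)) ≤
        Subgroup.centralizer {y}) := by
  have : Fact (Nat.Prime 2) := ⟨Nat.prime_two⟩
  constructor
  · intro hirr y g hg
    have hy2 : ∀ r : ℕ, r.Prime → r ∣ orderOf (y : G) → r = 2 := by
      intro r hr hry
      obtain ⟨k, hk⟩ := P.isPGroup' y
      have h1 : orderOf (y : G) ∣ 2 ^ k := by
        rw [Subgroup.orderOf_coe]; exact orderOf_dvd_of_pow_eq_one hk
      exact (Nat.prime_dvd_prime_iff_eq hr Nat.prime_two).1 (hr.dvd_of_dvd_pow (hry.trans h1))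
    have hgN : (g : G) ∈ Subgroup.normalizer ((Subgroup.zpowers (y : G) : Subgroup G) : Set G) := by
      apply mem_normalizer_zpowers
      · have h1 := (Subgroup.mem_set_normalizer_iff.1 hg y).1 (Subgroup.mem_zpowers y)
        obtain ⟨j, hj⟩ := Subgroup.mem_zpowers_iff.1 h1
        rw [Subgroup.mem_zpowers_iff]
        refine ⟨j, ?_⟩
        have := congrArg Subtype.val hj
        simpa using this
      · have h1 := (Subgroup.mem_set_normalizer_iff''.1 hg y).1 (Subgroup.mem_zpowers y)
        obtain ⟨j, hj⟩ := Subgroup.mem_zpowers_iff.1 h1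
        rw [Subgroup.mem_zpowers_iff]
        refine ⟨j, ?_⟩
        have := congrArg Subtype.val hj
        simpa using this
    have := hirr (y : G) hy2 hgN
    rw [Subgroup.mem_centralizer_singleton_iff] at this ⊢
    exact Subtype.ext this
  · intro hP x hx g hg
    rw [Subgroup.mem_centralizer_singleton_iff]
    have hxk : ∃ k : ℕ, orderOf x = 2 ^ k :=
      ⟨_, Nat.eq_prime_pow_of_unique_prime_dvd (orderOf_pos x).ne' (fun {d} hd hdx => hx d hd hdx)⟩
    obtain ⟨a, b, ha, hb, hab, hak, hbodd⟩ := exists_p_part 2 Nat.prime_two g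
    have hzg : Subgroup.zpowers g ≤ Subgroup.normalizer ((Subgroup.zpowers x : Subgroup G) : Set G) := by
      rw [Subgroup.zpowers_le]; exact hg
    have haN := hzg ha
    have hbN := hzg hb
    have hbx : b * x = x * b :=
      odd_normalizer_centralizes hxk hbN (Nat.odd_iff.2 (Nat.two_dvd_ne_zero.1 hbodd))
    -- the 2-group ⟨x⟩⟨a⟩ lies in a conjugate of P
    have hK : IsPGroup 2 (Subgroup.zpowers a ⊔ Subgroup.zpowers x : Subgroup G) := by
      apply IsPGroup.to_sup_of_normal_right' (isPGroup_zpowers hak) (isPGroup_zpowers hxk)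
      rw [Subgroup.zpowers_le]; exact haN
    obtain ⟨Q, hQ⟩ := hK.exists_le_sylow
    obtain ⟨c, hc⟩ := MulAction.exists_smul_eq G P Q
    have hxQ : c⁻¹ * x * c ∈ P := by
      rw [← mem_smul_sylow_iff, hc]
      exact hQ (Subgroup.mem_sup_right (Subgroup.mem_zpowers x))
    have haQ : c⁻¹ * a * c ∈ P := by
      rw [← mem_smul_sylow_iff, hc]
      exact hQ (Subgroup.mem_sup_left (Subgroup.mem_zpowers a))
    have haN' : (⟨c⁻¹ * a * c, haQ⟩ : (P : Subgroup G)) ∈ Subgroup.normalizer
        ((Subgroup.zpowers (⟨c⁻¹ * x * c, hxQ⟩ : (P : Subgroup G)) : Subgroup (P : Subgroup G)) :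
          Set (P : Subgroup G)) := by
      apply mem_normalizer_zpowers
      · have h1 := (Subgroup.mem_set_normalizer_iff.1 haN x).1 (Subgroup.mem_zpowers x)
        obtain ⟨j, hj⟩ := Subgroup.mem_zpowers_iff.1 h1
        rw [Subgroup.mem_zpowers_iff]
        refine ⟨j, Subtype.ext ?_⟩
        simp only [Subgroup.coe_zpow, Subgroup.coe_mul, Subgroup.coe_inv]
        have e1 : (c⁻¹ * x * c) ^ j = c⁻¹ * x ^ j * c⁻¹⁻¹ := by rw [← conj_zpow, inv_inv]
        rw [e1, hj]; group
      · have h1 := (Subgroup.mem_set_normalizer_iff''.1 haN x).1 (Subgroup.mem_zpowers x)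
        obtain ⟨j, hj⟩ := Subgroup.mem_zpowers_iff.1 h1
        rw [Subgroup.mem_zpowers_iff]
        refine ⟨j, Subtype.ext ?_⟩
        simp only [Subgroup.coe_zpow, Subgroup.coe_mul, Subgroup.coe_inv]
        have e1 : (c⁻¹ * x * c) ^ j = c⁻¹ * x ^ j * c⁻¹⁻¹ := by rw [← conj_zpow, inv_inv]
        rw [e1, hj]; group
    have h3 := hP _ haN'
    rw [Subgroup.mem_centralizer_singleton_iff] at h3
    have h4 : c⁻¹ * a * c * (c⁻¹ * x * c) = c⁻¹ * x * c * (c⁻¹ * a * c) := congrArg Subtype.val h3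
    have hax : a * x = x * a := by
      have := congrArg (fun t => c * t * c⁻¹) h4
      have e1 : c * (c⁻¹ * a * c * (c⁻¹ * x * c)) * c⁻¹ = a * x := by group
      have e2 : c * (c⁻¹ * x * c * (c⁻¹ * a * c)) * c⁻¹ = x * a := by group
      rw [e1, e2] at this
      exact this
    rw [hab, mul_assoc, hbx, ← mul_assoc, hax, mul_assoc]

end Cfsg.Agent.S4028
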