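import Mathlib
import Cfsg.Statements.S4029
import Cfsg.Agent.H71.FrattiniPow
import Cfsg.Agent.H71.Lift
import Cfsg.Agent.H71.Inv

set_option autoImplicit false
open Cfsg

namespace Cfsg.Agent.S4029

open Cfsg.Agent.H71

/-- The elements of square one, as a sub-action of the conjugation action. -/
def invSub (P : Type*) [Group P] : SubMulAction (ConjAct P) P where
  carrier := {x | x ^ 2 = 1}
  smul_mem' := by
    intro g x hx
    change x ^ 2 = 1 at hx
    change (g • x) ^ 2 = 1
    rw [ConjAct.smul_def, conj_pow, hx]; simp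

theorem mem_invSub {P : Type*} [Group P] (x : P) : x ∈ invSub P ↔ x ^ 2 = 1 := Iff.rfl

/-- `g` inverts `x` iff `(g x)² = g²`. -/
theorem inv_iff_sq {P : Type*} [Group P] (g x : P) :
    g * x * g⁻¹ = x⁻¹ ↔ (g * x) ^ 2 = g ^ 2 := by
  constructor
  · intro h
    have h1 : g * x = x⁻¹ * g := inv1 h
    calc (g * x) ^ 2 = g * x * (g * x) := pow_two _
      _ = g * x * (x⁻¹ * g) := by rw [h1]
      _ = g ^ 2 := by rw [pow_two]; group
  · intro h
    rw [pow_two, pow_two] at h
    have h1 : x * g * x = g := by
      have := congrArg (fun t => g⁻¹ * t) h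
      simpa [mul_assoc] using this
    calc g * x * g⁻¹ = x⁻¹ * (x * g * x) * g⁻¹ := by group
      _ = x⁻¹ := by rw [h1]; group

/-- Lower bound from Cauchy–Schwarz. -/
theorem lower {P : Type*} [Group P] [Fintype P] [DecidableEq P] (Φ : Subgroup P)
    (hΦ : ∀ g : P, g ^ 2 ∈ Φ) :
    Fintype.card P ^ 2 ≤ Nat.card Φ *
      ∑ g : P, (Finset.univ.filter (fun x : P => g * x * g⁻¹ = x⁻¹)).card := by
  classical
  set r : P → ℕ := fun c => (Finset.univ.filter (fun g : P => g ^ 2 = c)).card with hr
  set Sq : Finset P := Finset.univ.image (fun g : P => g ^ 2) with hSq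
  have hA : ∀ g : P, (Finset.univ.filter (fun x : P => g * x * g⁻¹ = x⁻¹)).card = r (g ^ 2) := by
    intro g
    rw [hr]
    apply Finset.card_equiv (Equiv.mulLeft g)
    intro x
    simp only [Finset.mem_filter, Finset.mem_univ, true_and, Equiv.coe_mulLeft]
    exact inv_iff_sq g x
  have h1 : ∑ g : P, (Finset.univ.filter (fun x : P => g * x * g⁻¹ = x⁻¹)).card
      = ∑ c ∈ Sq, r c ^ 2 := by
    rw [Finset.sum_congr rfl (fun g _ => hA g), Finset.sum_comp r (fun g : P => g ^ 2)]
    apply Finset.sum_congr rfl
    intro c _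
    rw [smul_eq_mul, pow_two]
  have h2 : Fintype.card P = ∑ c ∈ Sq, r c := by
    rw [← Finset.card_univ, Finset.card_eq_sum_card_image (fun g : P => g ^ 2) Finset.univ]
  have h3 : (∑ c ∈ Sq, r c) ^ 2 ≤ Sq.card * ∑ c ∈ Sq, r c ^ 2 := sq_sum_le_card_mul_sum_sq
  have h4 : Sq.card ≤ Nat.card Φ := by
    have : Nat.card Φ = (Finset.univ.filter (fun x : P => x ∈ Φ)).card := by
      rw [Nat.card_eq_fintype_card, Fintype.card_subtype]
    rw [this]
    apply Finset.card_le_card
    intro c hc
    rw [hSq, Finset.mem_image] at hc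
    obtain ⟨g, -, rfl⟩ := hc
    simp only [Finset.mem_filter, Finset.mem_univ, true_and]
    exact hΦ g
  rw [h1, h2]
  exact h3.trans (Nat.mul_le_mul_right _ h4)

/-- Upper bound from Burnside's lemma. -/
theorem upper {P : Type*} [Group P] [Fintype P] [DecidableEq P]
    (hinv : ∀ g x : P, g * x * g⁻¹ = x⁻¹ ↔ (x ^ 2 = 1 ∧ g * x * g⁻¹ = x)) :
    ∑ g : P, (Finset.univ.filter (fun x : P => g * x * g⁻¹ = x⁻¹)).card ≤
      (Nat.card {c : ConjClasses P // ∃ y : P, ConjClasses.mk y = c ∧ orderOf y = 2} + 1)
        * Fintype.card P := by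
  classical
  have hB := MulAction.sum_card_fixedBy_eq_card_orbits_mul_card_group (ConjAct P) (invSub P)
  have hterm : ∀ a : ConjAct P, Fintype.card (MulAction.fixedBy (invSub P) a) =
      (Finset.univ.filter (fun x : P => ConjAct.ofConjAct a * x * (ConjAct.ofConjAct a)⁻¹ = x⁻¹)).card := by
    intro a
    rw [← Fintype.card_subtype]
    apply Fintype.card_congr
    refine ⟨fun y => ⟨y.1.1, ?_⟩, fun x => ⟨⟨x.1, ?_⟩, ?_⟩, ?_, ?_⟩
    · rw [hinv]
      refine ⟨y.1.2, ?_⟩
      have := congrArg Subtype.val y.2
      rwa [SubMulAction.val_smul, ConjAct.smul_def] at this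
    · exact ((hinv _ _).1 x.2).1
    · rw [MulAction.mem_fixedBy]
      apply Subtype.ext
      rw [SubMulAction.val_smul, ConjAct.smul_def]
      exact ((hinv _ _).1 x.2).2
    · intro y; rfl
    · intro x; rfl
  have hsum : ∑ g : P, (Finset.univ.filter (fun x : P => g * x * g⁻¹ = x⁻¹)).card
      = ∑ a : ConjAct P, Fintype.card (MulAction.fixedBy (invSub P) a) := by
    rw [Finset.sum_congr rfl (fun a _ => hterm a)]
    exact (Fintype.sum_equiv ConjAct.ofConjAct.toEquiv _ _ (fun a => rfl)).symm
  rw [hsum, hB]
  have hcard : Fintype.card (ConjAct P) = Fintype.card P := rfl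
  rw [hcard]
  apply Nat.mul_le_mul_right
  -- surjection from `Option S` onto the orbits
  set S := {c : ConjClasses P // ∃ y : P, ConjClasses.mk y = c ∧ orderOf y = 2} with hS
  have hy2 : ∀ c : S, (Classical.choose c.2) ^ 2 = 1 := by
    intro c
    have h1 := (Classical.choose_spec c.2).2
    have h2 := pow_orderOf_eq_one (Classical.choose c.2)
    rwa [h1] at h2
  let f : Option S → Quotient (MulAction.orbitRel (ConjAct P) (invSub P)) := fun o =>
    match o with
    | none => Quotient.mk _ ⟨1, one_pow 2⟩
    | some c => Quotient.mk _ ⟨Classical.choose c.2, hy2 c⟩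
  have hf : Function.Surjective f := by
    intro q
    induction q using Quotient.inductionOn with
    | _ x =>
      obtain ⟨x, hx⟩ := x
      by_cases hx1 : x = 1
      · refine ⟨none, ?_⟩
        subst hx1
        rfl
      · have hord : orderOf x = 2 := orderOf_eq_prime hx hx1
        refine ⟨some ⟨ConjClasses.mk x, x, rfl, hord⟩, ?_⟩
        apply Quotient.sound
        have hc := (Classical.choose_spec (show ∃ y : P, ConjClasses.mk y = ConjClasses.mk x ∧
          orderOf y = 2 from ⟨x, rfl, hord⟩)).1
        rw [ConjClasses.mk_eq_mk_iff_isConj, isConj_iff] at hc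
        obtain ⟨g, hg⟩ := hc
        change MulAction.orbitRel (ConjAct P) (invSub P) _ _
        rw [MulAction.orbitRel_apply, MulAction.mem_orbit_iff]
        refine ⟨ConjAct.toConjAct g⁻¹, ?_⟩
        apply Subtype.ext
        rw [SubMulAction.val_smul, ConjAct.smul_def]
        simp only [ConjAct.ofConjAct_toConjAct, inv_inv]
        have := congrArg (fun t => g⁻¹ * t * g) hg
        simpa [mul_assoc] using this.symm
  have := Fintype.card_le_of_surjective f hf
  rw [Fintype.card_option] at this
  rw [Nat.card_eq_fintype_card]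
  exact this

/-- Let P be a finite 2-group in which N_P(⟨y⟩) = C_P(y) for every y ∈ P. If s is the number of conjugacy classes of involutions of P, then #(P/Φ(P)) ≤ s + 1; in particular the subgroup generated by the involutions of P has order at least #(P/Φ(P)). -/
theorem result {P : Type*} [Group P] [Finite P] (hP : IsPGroup 2 P)
    (hirr : ∀ y : P, Subgroup.normalizer ((Subgroup.zpowers y : Subgroup P) : Set P) ≤ Subgroup.centralizer {y}) :
    Nat.card (P ⧸ frattini P) ≤ Nat.card {c : ConjClasses P // ∃ y : P, ConjClasses.mk y = c ∧ orderOf y = 2} + 1 ∧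
    Nat.card (P ⧸ frattini P) ≤ Nat.card (Subgroup.closure {y : P | orderOf y = 2}) := by
  classical
  have : Fintype P := Fintype.ofFinite P
  have : Fact (Nat.Prime 2) := ⟨Nat.prime_two⟩
  have hinv : ∀ g x : P, g * x * g⁻¹ = x⁻¹ ↔ (x ^ 2 = 1 ∧ g * x * g⁻¹ = x) := by
    intro g x
    constructor
    · intro h
      have h1 : g ∈ Subgroup.normalizer ((Subgroup.zpowers x : Subgroup P) : Set P) := by
        apply mem_normalizer_zpowers
        · rw [h]; exact Subgroup.inv_mem _ (Subgroup.mem_zpowers x)
        · rw [inv3 h]; exact Subgroup.inv_mem _ (Subgroup.mem_zpowers x)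
      have h2 := hirr x h1
      rw [Subgroup.mem_centralizer_singleton_iff] at h2
      have h3 : g * x * g⁻¹ = x := by rw [h2]; group
      refine ⟨?_, h3⟩
      rw [h3] at h
      rw [pow_two]
      nth_rewrite 1 [h]
      exact inv_mul_cancel x
    · rintro ⟨h1, h2⟩
      rw [h2]
      exact eq_inv_of_mul_eq_one_left (by rw [← pow_two]; exact h1)
  have h1 := lower (frattini P) (fun g => pow_p_mem_frattini hP g)
  have h2 := upper hinv
  set s := Nat.card {c : ConjClasses P // ∃ y : P, ConjClasses.mk y = c ∧ orderOf y = 2} with hs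
  set T := ∑ g : P, (Finset.univ.filter (fun x : P => g * x * g⁻¹ = x⁻¹)).card with hT
  have hn : Nat.card P = Fintype.card P := Nat.card_eq_fintype_card
  have hnpos : 0 < Fintype.card P := Fintype.card_pos
  have hq : Nat.card (P ⧸ frattini P) * Nat.card (frattini P) = Fintype.card P := by
    rw [← hn]; exact (Subgroup.card_eq_card_quotient_mul_card_subgroup (frattini P)).symm
  have hΦpos : 0 < Nat.card (frattini P) := Nat.card_pos
  have hfirst : Nat.card (P ⧸ frattini P) ≤ s + 1 := by
    have h3 : Fintype.card P ^ 2 ≤ Nat.card (frattini P) * ((s + 1) * Fintype.card P) :=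
      h1.trans (Nat.mul_le_mul_left _ h2)
    have h4 : Fintype.card P ≤ Nat.card (frattini P) * (s + 1) := by
      have : Fintype.card P * Fintype.card P ≤ (Nat.card (frattini P) * (s + 1)) * Fintype.card P := by
        calc Fintype.card P * Fintype.card P = Fintype.card P ^ 2 := (pow_two _).symm
          _ ≤ Nat.card (frattini P) * ((s + 1) * Fintype.card P) := h3
          _ = (Nat.card (frattini P) * (s + 1)) * Fintype.card P := by ring
      exact Nat.le_of_mul_le_mul_right this hnpos
    rw [← hq] at h4
    have h5 : Nat.card (P ⧸ frattini P) * Nat.card (frattini P) ≤ (s + 1) * Nat.card (frattini P) := by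
      rw [mul_comm (s + 1)]; exact h4
    exact Nat.le_of_mul_le_mul_right h5 hΦpos
  refine ⟨hfirst, hfirst.trans ?_⟩
  -- injection from `Option S` into the closure
  rw [hs, ← Finite.card_option]
  let S := {c : ConjClasses P // ∃ y : P, ConjClasses.mk y = c ∧ orderOf y = 2}
  let f : Option S → Subgroup.closure {y : P | orderOf y = 2} := fun o =>
    match o with
    | none => 1
    | some c => ⟨Classical.choose c.2, Subgroup.subset_closure (Classical.choose_spec c.2).2⟩
  apply Nat.card_le_card_of_injective f
  intro o1 o2 h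
  match o1, o2, h with
  | none, none, _ => rfl
  | none, some c, h =>
    exfalso
    have h' := congrArg Subtype.val h
    have h2 := (Classical.choose_spec c.2).2
    change (1 : P) = Classical.choose c.2 at h'
    rw [← h', orderOf_one] at h2
    omega
  | some c, none, h =>
    exfalso
    have h' := congrArg Subtype.val h
    have h2 := (Classical.choose_spec c.2).2
    change Classical.choose c.2 = (1 : P) at h'
    rw [h', orderOf_one] at h2
    omega
  | some c, some c', h =>
    have h' := congrArg Subtype.val h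
    change Classical.choose c.2 = Classical.choose c'.2 at h'
    congr 1
    apply Subtype.ext
    rw [← (Classical.choose_spec c.2).1, ← (Classical.choose_spec c'.2).1, h']

end Cfsg.Agent.S4029
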