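import Mathlib
import Cfsg.Statements.S4032
import Cfsg.Agent.H71.Parts
import Cfsg.Agent.H71.Lift

set_option autoImplicit false
open Cfsg

namespace Cfsg.Agent.S4032

open Cfsg.Agent.H71

/-- A `p`-element of `G ⧸ N` lifts to a `p`-element of `G`. -/
theorem exists_p_lift {G : Type*} [Group G] [Finite G] {p : ℕ} (hp : p.Prime)
    (N : Subgroup G) [N.Normal] (y : G ⧸ N) (hy : ∃ k : ℕ, orderOf y = p ^ k) :
    ∃ x : G, (x : G ⧸ N) = y ∧ ∃ k : ℕ, orderOf x = p ^ k := by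
  obtain ⟨x₀, rfl⟩ := QuotientGroup.mk_surjective y
  obtain ⟨a, b, ha, hb, hab, hak, hbp⟩ := exists_p_part p hp x₀
  refine ⟨a, ?_, hak⟩
  have hb1 : (b : G ⧸ N) = 1 := by
    apply eq_one_of_pow_order_of_not_dvd (p := p)
    · obtain ⟨j, rfl⟩ := Subgroup.mem_zpowers_iff.1 hb
      obtain ⟨k, hk⟩ := hy
      have h1 : orderOf ((x₀ ^ j : G) : G ⧸ N) ∣ p ^ k := by
        rw [← hk, QuotientGroup.mk_zpow]
        exact orderOf_dvd_of_mem_zpowers (Subgroup.zpow_mem _ (Subgroup.mem_zpowers _) j)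
      obtain ⟨i, -, hi⟩ := (Nat.dvd_prime_pow hp).1 h1
      exact ⟨i, hi⟩
    · intro h
      exact hbp (h.trans (orderOf_map_dvd (QuotientGroup.mk' N) b))
  rw [hab, QuotientGroup.mk_mul, hb1, mul_one]

theorem p_case {G : Type*} [Group G] [Finite G] (π : Set ℕ)
    (hirr : ∀ x : G, (∀ r : ℕ, r.Prime → r ∣ orderOf x → r ∈ π) →
      Subgroup.normalizer ((Subgroup.zpowers x : Subgroup G) : Set G) ≤ Subgroup.centralizer {x})
    (N : Subgroup G) [N.Normal] (hN : ∀ r : ℕ, r.Prime → r ∣ Nat.card N → r ∉ π)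
    {p : ℕ} (hp : p.Prime) (hpπ : p ∈ π) (y g : G ⧸ N) (hy : ∃ k : ℕ, orderOf y = p ^ k)
    (hg : g ∈ Subgroup.normalizer ((Subgroup.zpowers y : Subgroup (G ⧸ N)) : Set (G ⧸ N))) :
    g * y = y * g := by
  have : Fact p.Prime := ⟨hp⟩
  obtain ⟨x, rfl, hx⟩ := exists_p_lift hp N y hy
  obtain ⟨g, rfl⟩ := QuotientGroup.mk_surjective g
  have hpN : ¬ p ∣ Nat.card N := fun h => hN p hp h hpπ
  obtain ⟨n, hn, hng⟩ := lift_normalizer N hpN x g hx hg
  have hxπ : ∀ r : ℕ, r.Prime → r ∣ orderOf x → r ∈ π := by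
    intro r hr hrx
    obtain ⟨k, hk⟩ := hx
    rw [hk] at hrx
    have := (Nat.prime_dvd_prime_iff_eq hr hp).1 (hr.dvd_of_dvd_pow hrx)
    rw [this]; exact hpπ
  have hc := hirr x hxπ hng
  rw [Subgroup.mem_centralizer_singleton_iff] at hc
  have hn1 : (n : G ⧸ N) = 1 := (QuotientGroup.eq_one_iff n).2 hn
  have h2 := congrArg (fun t : G => (t : G ⧸ N)) hc
  simp only [QuotientGroup.mk_mul, QuotientGroup.mk_inv, hn1, inv_one, one_mul] at h2
  exact h2

theorem core {G : Type*} [Group G] [Finite G] (π : Set ℕ)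
    (hirr : ∀ x : G, (∀ r : ℕ, r.Prime → r ∣ orderOf x → r ∈ π) →
      Subgroup.normalizer ((Subgroup.zpowers x : Subgroup G) : Set G) ≤ Subgroup.centralizer {x})
    (N : Subgroup G) [N.Normal] (hN : ∀ r : ℕ, r.Prime → r ∣ Nat.card N → r ∉ π) (m : ℕ) :
    ∀ y g : G ⧸ N, orderOf y = m → (∀ r : ℕ, r.Prime → r ∣ orderOf y → r ∈ π) →
      g ∈ Subgroup.normalizer ((Subgroup.zpowers y : Subgroup (G ⧸ N)) : Set (G ⧸ N)) →
      g * y = y * g := by
  induction m using Nat.strong_induction_on with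
  | _ m ih =>
  intro y g hm hyπ hg
  by_cases hy1 : y = 1
  · rw [hy1, mul_one, one_mul]
  have hne : orderOf y ≠ 1 := fun h => hy1 (orderOf_eq_one_iff.1 h)
  have hp : (orderOf y).minFac.Prime := Nat.minFac_prime hne
  have hpd : (orderOf y).minFac ∣ orderOf y := Nat.minFac_dvd _
  obtain ⟨a, b, ha, hb, hab, hak, hbp⟩ := exists_p_part _ hp y
  have hga := normalizer_zpowers_of_mem hg ha
  have hgb := normalizer_zpowers_of_mem hg hb
  have hbdvd : orderOf b ∣ orderOf y := orderOf_dvd_of_mem_zpowers hb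
  have hblt : orderOf b < m := by
    rw [← hm]
    refine lt_of_le_of_ne (Nat.le_of_dvd (orderOf_pos y) hbdvd) fun h => hbp (h ▸ hpd)
  have hcb := ih _ hblt b g rfl (fun r hr hrb => hyπ r hr (hrb.trans hbdvd)) hgb
  have hca := p_case π hirr N hN hp (hyπ _ hp hpd) a g hak hga
  rw [hab, ← mul_assoc, hca, mul_assoc, hcb, mul_assoc]

/-- Let π be a set of primes and G a finite group in which N_G(⟨x⟩) = C_G(x) for every π-element x. If N is a normal subgroup of G whose order is divisible by no prime of π, then G/N has the same property: N_{G/N}(⟨y⟩) = C_{G/N}(y) for every π-element y of G/N. -/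
theorem result {G : Type*} [Group G] [Finite G] (π : Set ℕ)
    (hirr : ∀ x : G, (∀ r : ℕ, r.Prime → r ∣ orderOf x → r ∈ π) →
      Subgroup.normalizer ((Subgroup.zpowers x : Subgroup G) : Set G) ≤ Subgroup.centralizer {x})
    (N : Subgroup G) [N.Normal] (hN : ∀ r : ℕ, r.Prime → r ∣ Nat.card N → r ∉ π) :
    ∀ y : G ⧸ N, (∀ r : ℕ, r.Prime → r ∣ orderOf y → r ∈ π) →
      Subgroup.normalizer ((Subgroup.zpowers y : Subgroup (G ⧸ N)) : Set (G ⧸ N)) ≤ Subgroup.centralizer {y} := by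
  intro y hy g hg
  rw [Subgroup.mem_centralizer_singleton_iff]
  exact core π hirr N hN _ y g rfl hy hg

end Cfsg.Agent.S4032
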