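import Cfsg.Statements.S4034
import Cfsg.Agent.H92.PReg

set_option autoImplicit false
open Cfsg Cfsg.Agent.H92

namespace Cfsg.Agent.S4034

/-- Let G be a finite group and p a prime. Every conjugacy class of p-regular elements of G (elements of order prime to p) has p-power size if and only if G has an abelian p-complement, i.e. an abelian subgroup of order prime to p and p-power index. -/
theorem result {G : Type*} [Group G] [Finite G] {p : ℕ} (hp : p.Prime) :
    (∀ x : G, (orderOf x).Coprime p → ∃ k : ℕ, (ConjClasses.mk x).carrier.ncard = p ^ k) ↔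
    (∃ H : Subgroup G, IsMulCommutative H ∧ ¬ p ∣ Nat.card H ∧ ∃ k : ℕ, H.index = p ^ k) := by
  constructor
  · intro h
    have hS : PStar p G := fun x hx => by
      obtain ⟨k, hk⟩ := h x hx
      exact ⟨k, by rw [← ncard_carrier_eq_index]; exact hk⟩
    obtain ⟨H, hc, hH⟩ := pstar_partII hp (Nat.card G) G rfl hS
    exact ⟨H, ⟨⟨fun a b => Subtype.ext (hc a a.2 b b.2)⟩⟩, hH⟩
  · rintro ⟨H, hc, hpH, hk⟩ x hx
    have hc' : ∀ a ∈ H, ∀ b ∈ H, a * b = b * a := fun a ha b hb =>
      congrArg Subtype.val (hc.is_comm.comm (⟨a, ha⟩ : H) ⟨b, hb⟩)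
    obtain ⟨j, hj⟩ := pstar_converse hp (orderOf x) G H hc' hpH hk x rfl hx
    exact ⟨j, by rw [ncard_carrier_eq_index]; exact hj⟩


end Cfsg.Agent.S4034
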