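import Mathlib
import Cfsg.Statements.S4035
import Cfsg.Agent.H71.ClassIndex
import Cfsg.Agent.H71.Parts
import Cfsg.Agent.H71.SylowConj

set_option autoImplicit false
open Cfsg

namespace Cfsg.Agent.S4035

open Cfsg.Agent.H71

/-- Every `p`-regular element centralizes a conjugate of `P`. -/
theorem step1 {G : Type*} [Group G] [Finite G] {p : ℕ} [Fact p.Prime]
    (h : ∀ x : G, (orderOf x).Coprime p → ¬ p ∣ (ConjClasses.mk x).carrier.ncard) (P : Sylow p G)
    (x : G) (hx : (orderOf x).Coprime p) : ∃ g : G, ∀ u ∈ P, Commute (g⁻¹ * u * g) x := by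
  have h1 : ¬ p ∣ Nat.card (G ⧸ Subgroup.centralizer ({x} : Set G)) := by
    rw [← Subgroup.index_eq_card, ← ncard_carrier_eq_index]; exact h x hx
  obtain ⟨q, hq⟩ := P.isPGroup'.nonempty_fixed_point_of_prime_not_dvd_card
    (G ⧸ Subgroup.centralizer ({x} : Set G)) h1
  induction q using QuotientGroup.induction_on with
  | _ g =>
    refine ⟨g, fun u hu => ?_⟩
    have h2 := hq ⟨u, hu⟩
    have h3 : ((u * g : G) : G ⧸ Subgroup.centralizer ({x} : Set G)) = (g : G ⧸ _) := h2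
    rw [QuotientGroup.eq] at h3
    have h4 := Subgroup.inv_mem _ h3
    rw [Subgroup.mem_centralizer_singleton_iff] at h4
    have e : ((u * g)⁻¹ * g)⁻¹ = g⁻¹ * u * g := by group
    rw [e] at h4
    exact h4

/-- Every element normalizes a conjugate of `P`. -/
theorem step2 {G : Type*} [Group G] [Finite G] {p : ℕ} [Fact p.Prime]
    (h : ∀ x : G, (orderOf x).Coprime p → ¬ p ∣ (ConjClasses.mk x).carrier.ncard) (P : Sylow p G)
    (z : G) : ∃ w : G, w⁻¹ * z * w ∈ Subgroup.normalizer ((P : Subgroup G) : Set G) := by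
  have hp : p.Prime := Fact.out
  obtain ⟨a, b, ha, hb, hab, hak, hbp⟩ := exists_p_part p hp z
  have hbcop : (orderOf b).Coprime p := (Nat.Coprime.symm ((Nat.Prime.coprime_iff_not_dvd hp).2 hbp))
  obtain ⟨g, hg⟩ := step1 h P b hbcop
  set K : Subgroup G := Subgroup.centralizer ({b} : Set G) with hK
  have hQK : ((g⁻¹ • P : Sylow p G) : Subgroup G) ≤ K := by
    intro y hy
    have hy' : g * y * g⁻¹ ∈ P := by
      have := (mem_smul_sylow_iff g⁻¹ P y).1 hy
      simpa using this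
    have := hg _ hy'
    have e : g⁻¹ * (g * y * g⁻¹) * g = y := by group
    rw [e] at this
    rw [hK, Subgroup.mem_centralizer_singleton_iff]
    exact this.eq
  have hcomm : Commute a b := by
    obtain ⟨i, hi⟩ := ha
    obtain ⟨j, hj⟩ := hb
    rw [← hi, ← hj]
    exact (Commute.refl z).zpow_zpow i j
  have haK : a ∈ K := by
    rw [hK, Subgroup.mem_centralizer_singleton_iff]
    exact hcomm.eq
  -- a Sylow `p`-subgroup of `K` containing `a`
  have hpg : IsPGroup p (Subgroup.zpowers (⟨a, haK⟩ : K)) := by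
    apply isPGroup_zpowers
    obtain ⟨k, hk⟩ := hak
    refine ⟨k, ?_⟩
    rw [← hk]
    exact (Subgroup.orderOf_mk a haK)
  obtain ⟨Q₂, hQ₂⟩ := hpg.exists_le_sylow
  obtain ⟨k, hk⟩ := MulAction.exists_smul_eq K Q₂ ((g⁻¹ • P : Sylow p G).subtype hQK)
  have hmem : k * ⟨a, haK⟩ * k⁻¹ ∈ k • Q₂ := by
    rw [mem_smul_sylow_iff]
    have e : k⁻¹ * (k * ⟨a, haK⟩ * k⁻¹) * k = ⟨a, haK⟩ := by group
    rw [e]
    exact hQ₂ (Subgroup.mem_zpowers _)
  rw [hk] at hmem
  have hmem' : (k : G) * a * (k : G)⁻¹ ∈ (g⁻¹ • P : Sylow p G) := by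
    have h1 : k * ⟨a, haK⟩ * k⁻¹ ∈ ((g⁻¹ • P : Sylow p G).subtype hQK : Subgroup K) := hmem
    rw [Sylow.coe_subtype, Subgroup.mem_subgroupOf] at h1
    have h2 : (k : G) * a * (k : G)⁻¹ ∈ ((g⁻¹ • P : Sylow p G) : Subgroup G) := by
      simpa using h1
    exact h2
  have hmem2 : g * ((k : G) * a * (k : G)⁻¹) * g⁻¹ ∈ P := by
    have := (mem_smul_sylow_iff g⁻¹ P _).1 hmem'
    simpa using this
  have hkb : Commute (k : G) b := by
    have hk2 : (k : G) ∈ Subgroup.centralizer ({b} : Set G) := k.2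
    rw [Subgroup.mem_centralizer_singleton_iff] at hk2
    exact hk2
  refine ⟨(k : G)⁻¹ * g⁻¹, ?_⟩
  have e : ((k : G)⁻¹ * g⁻¹)⁻¹ * z * ((k : G)⁻¹ * g⁻¹)
      = (g * ((k : G) * a * (k : G)⁻¹) * g⁻¹) * (g * b * g⁻¹) := by
    have : (k : G) * b * (k : G)⁻¹ = b := by
      rw [hkb.eq, mul_inv_cancel_right]
    rw [hab]
    calc ((k : G)⁻¹ * g⁻¹)⁻¹ * (a * b) * ((k : G)⁻¹ * g⁻¹)
        = (g * ((k : G) * a * (k : G)⁻¹) * g⁻¹) * (g * ((k : G) * b * (k : G)⁻¹) * g⁻¹) := by group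
      _ = _ := by rw [this]
  rw [e]
  apply Subgroup.mul_mem
  · exact Subgroup.le_normalizer hmem2
  · apply Subgroup.centralizer_le_normalizer
    rw [Subgroup.mem_centralizer_iff]
    intro u hu
    have h1 := hg u hu
    have h2 : g⁻¹ * u * g * b = b * (g⁻¹ * u * g) := h1.eq
    calc u * (g * b * g⁻¹) = g * (g⁻¹ * u * g * b) * g⁻¹ := by group
      _ = g * (b * (g⁻¹ * u * g)) * g⁻¹ := by rw [h2]
      _ = g * b * g⁻¹ * u := by group

/-- Let G be a finite group and p a prime such that p divides the size of no conjugacy class of p-regular elements (elements of order prime to p). Then G is the internal direct product of a Sylow p-subgroup P and a normal subgroup H of order prime to p: P is normal, P ⊓ H = 1 and PH = G. -/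
theorem result {G : Type*} [Group G] [Finite G] {p : ℕ} [Fact p.Prime]
    (h : ∀ x : G, (orderOf x).Coprime p → ¬ p ∣ (ConjClasses.mk x).carrier.ncard) (P : Sylow p G) :
    (P : Subgroup G).Normal ∧ ∃ H : Subgroup G, H.Normal ∧ ¬ p ∣ Nat.card H ∧
      (P : Subgroup G) ⊓ H = ⊥ ∧ (P : Subgroup G) ⊔ H = ⊤ := by
  have hp : p.Prime := Fact.out
  have hN : Subgroup.normalizer ((P : Subgroup G) : Set G) = ⊤ :=
    eq_top_of_forall_conj_mem _ (step2 h P)
  have hPn : (P : Subgroup G).Normal := Subgroup.normalizer_eq_top_iff.1 hN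
  refine ⟨hPn, ?_⟩
  have hidx : ¬ p ∣ (P : Subgroup G).index := P.not_dvd_index
  have hcop : Nat.Coprime (Nat.card (P : Subgroup G)) (P : Subgroup G).index := by
    obtain ⟨k, hk⟩ := IsPGroup.iff_card.1 P.isPGroup'
    rw [hk]
    exact Nat.Coprime.pow_left k ((Nat.Prime.coprime_iff_not_dvd hp).2 hidx)
  obtain ⟨H, hH⟩ := Subgroup.exists_right_complement'_of_coprime hcop
  have hHcard : Nat.card H = (P : Subgroup G).index := hH.symm.index_eq_card.symm
  have hsup : (P : Subgroup G) ⊔ H = ⊤ := hH.sup_eq_top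
  -- `H` centralizes `P`
  have hcent : ∀ x ∈ H, ∀ u ∈ P, Commute u x := by
    intro x hx u hu
    have hxo : (orderOf x).Coprime p := by
      have h1 : orderOf x ∣ Nat.card H := by
        have := orderOf_dvd_natCard (⟨x, hx⟩ : H)
        rwa [Subgroup.orderOf_mk] at this
      rw [hHcard] at h1
      exact Nat.Coprime.symm ((Nat.Prime.coprime_iff_not_dvd hp).2 (fun h2 => hidx (h2.trans h1)))
    obtain ⟨g, hg⟩ := step1 h P x hxo
    have hu' : g * u * g⁻¹ ∈ (P : Subgroup G) := hPn.conj_mem u hu g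
    have := hg _ hu'
    have e : g⁻¹ * (g * u * g⁻¹) * g = u := by group
    rwa [e] at this
  refine ⟨H, ⟨fun x hx n => ?_⟩, ?_, hH.disjoint.eq_bot, hsup⟩
  · have hn : n ∈ (P : Subgroup G) ⊔ H := by rw [hsup]; trivial
    rw [← SetLike.mem_coe, Subgroup.normal_mul, Set.mem_mul] at hn
    obtain ⟨u, hu, y, hy, rfl⟩ := hn
    have h1 : y * x * y⁻¹ ∈ H := H.mul_mem (H.mul_mem hy hx) (H.inv_mem hy)
    have h2 : Commute u (y * x * y⁻¹) := hcent _ h1 u hu
    have e : u * y * x * (u * y)⁻¹ = u * (y * x * y⁻¹) * u⁻¹ := by group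
    rw [e, h2.eq, mul_inv_cancel_right]
    exact h1
  · rw [hHcard]; exact hidx

end Cfsg.Agent.S4035
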