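import Mathlib
import Cfsg.Statements.S4036

set_option autoImplicit false
open Cfsg

namespace Cfsg.Agent.S4036

/-- The "norm" map of a finite subgroup `N` of automorphisms of a commutative group. -/
noncomputable def theta {P : Type*} [CommGroup P] {K : Subgroup (MulAut P)}
    (N : Subgroup ↥K) [Fintype N] : P →* P :=
  ∏ n : N, (((n : K) : MulAut P)).toMonoidHom

theorem theta_apply {P : Type*} [CommGroup P] {K : Subgroup (MulAut P)}
    (N : Subgroup ↥K) [Fintype N] (v : P) : theta N v = ∏ n : N, ((n : K) : MulAut P) v := by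
  unfold theta
  rw [MonoidHom.finset_prod_apply]
  rfl

theorem theta_conj {P : Type*} [CommGroup P] {K : Subgroup (MulAut P)}
    (N : Subgroup ↥K) [Fintype N] [N.Normal] (k : K) (v : P) :
    theta N ((k : MulAut P) v) = (k : MulAut P) (theta N v) := by
  rw [theta_apply, theta_apply, map_prod]
  refine Fintype.prod_equiv (MulAut.conjNormal k⁻¹ : MulAut N).toEquiv _ _ ?_
  intro n
  show ((n : K) : MulAut P) ((k : MulAut P) v) = (k : MulAut P) ((((MulAut.conjNormal k⁻¹ : MulAut N) n : K) : MulAut P) v)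
  rw [MulAut.conjNormal_apply]
  simp [MulAut.mul_apply]

theorem theta_mul_right {P : Type*} [CommGroup P] {K : Subgroup (MulAut P)}
    (N : Subgroup ↥K) [Fintype N] (n₀ : N) (v : P) :
    theta N (((n₀ : K) : MulAut P) v) = theta N v := by
  rw [theta_apply, theta_apply]
  refine Fintype.prod_equiv (Equiv.mulRight n₀) _ _ ?_
  intro n
  simp [MulAut.mul_apply]

/-- Let P be a finite abelian p-group and K a group of automorphisms of P (a subgroup of Aut P) whose order is divisible by p. If all non-identity elements of K have the same fixed-point subgroup on P, then K has no non-trivial normal subgroup of order prime to p. -/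
theorem result {P : Type*} [CommGroup P] [Finite P] {p : ℕ}
    [Fact p.Prime] (hP : IsPGroup p P) (K : Subgroup (MulAut P)) (hK : p ∣ Nat.card K)
    (hfix : ∀ x y : MulAut P, x ∈ K → y ∈ K → x ≠ 1 → y ≠ 1 → ∀ v : P, x v = v ↔ y v = v) :
    ∀ N : Subgroup ↥K, N.Normal → ¬ p ∣ Nat.card N → N = ⊥ := by
  intro N hN hpN
  by_contra hne
  letI := Fintype.ofFinite N
  -- a non-identity element of N
  obtain ⟨n₀, hn₀⟩ := (Subgroup.ne_bot_iff_exists_ne_one).1 hne
  have hn₀' : ((n₀ : K) : MulAut P) ≠ 1 := fun h => hn₀ (Subtype.ext (Subtype.ext h))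
  obtain ⟨w, hw⟩ : ∃ w : P, ((n₀ : K) : MulAut P) w ≠ w := by
    by_contra hcon
    push Not at hcon
    exact hn₀' (MulEquiv.ext hcon)
  -- an element of order p of K
  obtain ⟨a, ha⟩ := exists_prime_orderOf_dvd_card' (G := K) p hK
  have ha1 : (a : MulAut P) ≠ 1 := by
    intro h
    have : a = 1 := Subtype.ext h
    rw [this, orderOf_one] at ha
    exact (Fact.out : p.Prime).one_lt.ne ha
  -- the kernel W of theta
  let W : Subgroup P := (theta N).ker
  have hWinv : ∀ (k : K) (v : P), v ∈ W → (k : MulAut P) v ∈ W := by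
    intro k v hv
    rw [MonoidHom.mem_ker] at hv ⊢
    rw [theta_conj, hv, map_one]
  have hWne : ((n₀ : K) : MulAut P) w * w⁻¹ ∈ W := by
    rw [MonoidHom.mem_ker, map_mul, map_inv, theta_mul_right, mul_inv_cancel]
  have hWne1 : ((n₀ : K) : MulAut P) w * w⁻¹ ≠ 1 := fun h => hw (mul_inv_eq_one.1 h)
  -- the action of ⟨a⟩ on W
  let A : Subgroup K := Subgroup.zpowers a
  have hA : IsPGroup p A := IsPGroup.of_card (n := 1) (by rw [Nat.card_zpowers, ha, pow_one])
  letI : MulAction A W :=
    { smul := fun g v => ⟨((g : K) : MulAut P) v, hWinv g v v.2⟩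
      one_smul := fun v => Subtype.ext (by show ((1 : K) : MulAut P) (v : P) = v; simp)
      mul_smul := fun g h v => Subtype.ext (by
        show (((g * h : A) : K) : MulAut P) (v : P) = ((g : K) : MulAut P) (((h : K) : MulAut P) (v : P))
        simp [MulAut.mul_apply]) }
  have hWcard : p ∣ Nat.card W := by
    have hWp : IsPGroup p W := hP.to_subgroup W
    obtain ⟨k, hk⟩ := hWp.exists_card_eq
    rcases Nat.eq_zero_or_pos k with rfl | hkpos
    · exfalso
      rw [pow_zero] at hk
      have : Subsingleton W := (Nat.card_eq_one_iff_unique.1 hk).1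
      have := Subsingleton.elim (⟨_, hWne⟩ : W) 1
      exact hWne1 (congrArg Subtype.val this)
    · rw [hk]; exact dvd_pow_self p hkpos.ne'
  have hfix1 : (1 : W) ∈ MulAction.fixedPoints A W := by
    intro g
    apply Subtype.ext
    show ((g : K) : MulAut P) ((1 : W) : P) = ((1 : W) : P)
    simp
  obtain ⟨b, hb, hb1⟩ := hA.exists_fixed_point_of_prime_dvd_card_of_fixed_point W hWcard hfix1
  have hab : (a : MulAut P) (b : P) = b := by
    have := hb ⟨a, Subgroup.mem_zpowers a⟩
    exact congrArg Subtype.val this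
  -- b is fixed by all of N
  have hNb : ∀ n : N, ((n : K) : MulAut P) (b : P) = b := by
    intro n
    by_cases hn : ((n : K) : MulAut P) = 1
    · rw [hn]; rfl
    · exact (hfix _ _ a.2 (n : K).2 ha1 hn (b : P)).1 hab
  have hb2 : theta N (b : P) = 1 := b.2
  rw [theta_apply] at hb2
  simp only [hNb, Finset.prod_const, Finset.card_univ] at hb2
  rw [← Nat.card_eq_fintype_card] at hb2
  -- b is a p-element with b ^ |N| = 1
  obtain ⟨k, hk⟩ := hP (b : P)
  have hcop : Nat.Coprime (p ^ k) (Nat.card N) :=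
    Nat.Coprime.pow_left k ((Nat.Prime.coprime_iff_not_dvd Fact.out).2 hpN)
  have : orderOf (b : P) ∣ Nat.gcd (p ^ k) (Nat.card N) :=
    Nat.dvd_gcd (orderOf_dvd_of_pow_eq_one hk) (orderOf_dvd_of_pow_eq_one hb2)
  rw [hcop] at this
  have hb1' : (b : P) = 1 := orderOf_eq_one_iff.1 (Nat.eq_one_of_dvd_one this)
  exact hb1 (Subtype.ext hb1'.symm)

end Cfsg.Agent.S4036
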