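import Mathlib
import Cfsg.Statements.S4043
import Cfsg.Agent.H1.Coprime

set_option autoImplicit false
open Cfsg
open Pointwise

namespace Cfsg.Agent.S4043

/-- Data of a normal `p`-complement of a subgroup `A`, expressed inside the ambient group. -/
theorem npc_data {G : Type*} [Group G] [Finite G] {p : ℕ} [Fact p.Prime] (A : Subgroup G)
    (h : Cfsg.HasNormalPComplement p A) :
    ∃ K P : Subgroup G, K ≤ A ∧ P ≤ A ∧ (∀ a ∈ A, ∀ k ∈ K, a * k * a⁻¹ ∈ K) ∧
      (Nat.card K).Coprime p ∧ (∃ i : ℕ, Nat.card K * p ^ i = Nat.card A) ∧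
      (∀ a ∈ A, (orderOf a).Coprime p → a ∈ K) ∧ IsPGroup p P ∧
      (∀ a ∈ A, ∃ k ∈ K, ∃ u ∈ P, a = k * u) := by
  have hp : p.Prime := Fact.out
  obtain ⟨P, K, hKn, hKP⟩ := h
  have hcardK : Nat.card (K.map A.subtype) = Nat.card K :=
    Subgroup.card_map_of_injective A.subtype_injective
  have hidx : (P : Subgroup A).index = Nat.card K := hKP.index_eq_card
  have hKidx : K.index = Nat.card (P : Subgroup A) := hKP.symm.index_eq_card
  obtain ⟨i, hi⟩ := IsPGroup.iff_card.1 P.isPGroup'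
  have hcopK : (Nat.card K).Coprime p := by
    rw [← hidx]
    exact Nat.Coprime.symm ((Nat.Prime.coprime_iff_not_dvd hp).2 P.not_dvd_index)
  refine ⟨K.map A.subtype, (P : Subgroup A).map A.subtype, Subgroup.map_subtype_le K,
    Subgroup.map_subtype_le _, ?_, ?_, ⟨i, ?_⟩, ?_, ?_, ?_⟩
  · rintro a ha k ⟨k', hk', rfl⟩
    exact ⟨⟨a, ha⟩ * k' * ⟨a, ha⟩⁻¹, hKn.conj_mem k' hk' ⟨a, ha⟩, rfl⟩
  · rw [hcardK]; exact hcopK
  · rw [hcardK, ← hi]; exact hKP.card_mul_card
  · intro a ha hcop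
    refine ⟨⟨a, ha⟩, ?_, rfl⟩
    have h1 : orderOf ((⟨a, ha⟩ : A) : A ⧸ K) ∣ orderOf a := by
      have := orderOf_map_dvd (QuotientGroup.mk' K) (⟨a, ha⟩ : A)
      rwa [Subgroup.orderOf_mk] at this
    have h2 : orderOf ((⟨a, ha⟩ : A) : A ⧸ K) ∣ p ^ i := by
      have := orderOf_dvd_natCard ((⟨a, ha⟩ : A) : A ⧸ K)
      rwa [← Subgroup.index_eq_card, hKidx, hi] at this
    have h3 : orderOf ((⟨a, ha⟩ : A) : A ⧸ K) = 1 := by
      have hc : (orderOf a).Coprime (p ^ i) := Nat.Coprime.pow_right i hcop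
      exact Nat.eq_one_of_dvd_coprimes hc h1 h2
    rw [orderOf_eq_one_iff, QuotientGroup.eq_one_iff] at h3
    exact h3
  · exact P.isPGroup'.map A.subtype
  · intro a ha
    obtain ⟨⟨k, u⟩, hku⟩ := hKP.2 ⟨a, ha⟩
    refine ⟨k, ⟨k, k.2, rfl⟩, u, ⟨u, u.2, rfl⟩, ?_⟩
    have := congrArg Subtype.val hku
    simpa using this.symm

theorem mul_pow_normal {G : Type*} [Group G] (N : Subgroup G) [N.Normal] (a n : G) (hn : n ∈ N)
    (m : ℕ) : ∃ n' ∈ N, (a * n) ^ m = a ^ m * n' := by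
  induction m with
  | zero => exact ⟨1, N.one_mem, by simp⟩
  | succ m ih =>
    obtain ⟨n', hn', h⟩ := ih
    refine ⟨a⁻¹ * n' * a * n, N.mul_mem ?_ hn, ?_⟩
    · have := (inferInstance : N.Normal).conj_mem n' hn' a⁻¹
      simpa using this
    · rw [pow_succ, h, pow_succ]; group

/-- Let G be a finite group that is the semidirect product of a normal p-subgroup N by a subgroup A, and also of N by a subgroup A₁, where p is a prime and A and A₁ both have normal p-complements. If C_N(A) = C_N(A₁) = 1, then A₁ is conjugate to A by an element of N. -/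
theorem result {G : Type*} [Group G] [Finite G] {p : ℕ}
    [Fact p.Prime] (N : Subgroup G) [N.Normal] (hN : IsPGroup p N) (A A₁ : Subgroup G)
    (hA : A.IsComplement' N) (hA₁ : A₁.IsComplement' N)
    (hAp : Cfsg.HasNormalPComplement p A) (hA₁p : Cfsg.HasNormalPComplement p A₁)
    (hC : ∀ n : G, n ∈ N → (∀ a : G, a ∈ A → a * n * a⁻¹ = n) → n = 1)
    (hC₁ : ∀ n : G, n ∈ N → (∀ a : G, a ∈ A₁ → a * n * a⁻¹ = n) → n = 1) :
    ∃ n : G, n ∈ N ∧ A₁ = A.map (MulAut.conj n).toMonoidHom := by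
  have hp : p.Prime := Fact.out
  have hNn : N.Normal := inferInstance
  obtain ⟨K, P, hKA, hPA, hKn, hKcop, ⟨i, hKi⟩, hKreg, hPp, hKP⟩ := npc_data A hAp
  obtain ⟨K₁, P₁, hK₁A, hP₁A, hK₁n, hK₁cop, ⟨i₁, hK₁i⟩, hK₁reg, hP₁p, hK₁P⟩ := npc_data A₁ hA₁p
  have hAN : A ⊓ N = ⊥ := hA.disjoint.eq_bot
  have hdec : ∀ g : G, ∃ a ∈ A, ∃ n ∈ N, g = a * n := by
    intro g
    obtain ⟨⟨a, n⟩, han⟩ := hA.2 g
    exact ⟨a, a.2, n, n.2, han.symm⟩
  have hcardA : Nat.card A₁ = Nat.card A :=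
    hA₁.index_eq_card.symm.trans hA.index_eq_card
  -- Step 1: `K₁ ≤ K ⊔ N`
  have hK₁le : K₁ ≤ K ⊔ N := by
    intro k₁ hk₁
    obtain ⟨a, ha, n, hn, rfl⟩ := hdec k₁
    have hord : (orderOf (a * n)).Coprime p := by
      have h1 : orderOf (a * n) ∣ Nat.card K₁ := by
        have := orderOf_dvd_natCard (⟨a * n, hk₁⟩ : K₁)
        rwa [Subgroup.orderOf_mk] at this
      exact Nat.Coprime.coprime_dvd_left h1 hK₁cop
    obtain ⟨n', hn', hpow⟩ := mul_pow_normal N a n hn (orderOf (a * n))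
    rw [pow_orderOf_eq_one] at hpow
    have ham : a ^ orderOf (a * n) = n'⁻¹ := eq_inv_of_mul_eq_one_left hpow.symm
    have ham1 : a ^ orderOf (a * n) = 1 := by
      have hmem : a ^ orderOf (a * n) ∈ A ⊓ N :=
        ⟨A.pow_mem ha _, by rw [ham]; exact N.inv_mem hn'⟩
      rw [hAN] at hmem
      exact hmem
    have haK : a ∈ K :=
      hKreg a ha (Nat.Coprime.coprime_dvd_left (orderOf_dvd_of_pow_eq_one ham1) hord)
    exact Subgroup.mul_mem _ (Subgroup.mem_sup_left haK) (Subgroup.mem_sup_right hn)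
  -- cardinalities
  have hcardK : Nat.card K₁ = Nat.card K := by
    have h1 : Nat.card K₁ * p ^ i₁ = Nat.card K * p ^ i := by rw [hK₁i, hKi, hcardA]
    have h2 : Nat.card K₁ ∣ Nat.card K :=
      (Nat.Coprime.pow_right i hK₁cop).dvd_of_dvd_mul_right (Dvd.intro _ h1)
    have h3 : Nat.card K ∣ Nat.card K₁ :=
      (Nat.Coprime.pow_right i₁ hKcop).dvd_of_dvd_mul_right (Dvd.intro _ h1.symm)
    exact Nat.dvd_antisymm h2 h3
  obtain ⟨j, hj⟩ := IsPGroup.iff_card.1 hN
  have hcop : (Nat.card K).Coprime (Nat.card N) := by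
    rw [hj]; exact Nat.Coprime.pow_right j hKcop
  have hsolvN : Group.IsSolvable N := by
    have : Group.IsNilpotent N := hN.isNilpotent
    infer_instance
  have hKN : K ≤ Subgroup.normalizer (N : Set G) := by
    rw [Subgroup.normalizer_eq_top_iff.2 hNn]; exact le_top
  obtain ⟨d, hd, hdK⟩ := Cfsg.Agent.H1.sz_conj_internal K N K₁ hKN hcop (Or.inr hsolvN) hK₁le hcardK
  refine ⟨d, hd, ?_⟩
  -- membership in `K₁`
  have hK₁mem : ∀ y : G, y ∈ K₁ ↔ d⁻¹ * y * d ∈ K := by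
    intro y
    rw [← hdK, Subgroup.mem_pointwise_smul_iff_inv_smul_mem]
    simp [MulAut.smul_def]
  -- `D = C_N(K)` is trivial
  have hD : ∀ n ∈ N, (∀ k ∈ K, n * k = k * n) → n = 1 := by
    set D : Subgroup G := N ⊓ Subgroup.centralizer (K : Set G) with hDdef
    have hconj : ∀ (u : P) (n : D), (u : G) * n * (u : G)⁻¹ ∈ D := by
      intro u n
      have hn1 := (Subgroup.mem_inf.1 n.2).1
      have hn2 := (Subgroup.mem_inf.1 n.2).2
      refine Subgroup.mem_inf.2 ⟨hNn.conj_mem _ hn1 _, ?_⟩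
      rw [Subgroup.mem_centralizer_iff]
      intro k hk
      have h1 : (u : G)⁻¹ * k * ((u : G)⁻¹)⁻¹ ∈ K := hKn _ (A.inv_mem (hPA u.2)) k hk
      have h2 := (Subgroup.mem_centralizer_iff.1 hn2) _ h1
      have h3 : (u : G)⁻¹ * k * (u : G) * (n : G) = (n : G) * ((u : G)⁻¹ * k * (u : G)) := by
        simpa using h2
      calc k * ((u : G) * n * (u : G)⁻¹)
          = (u : G) * ((u : G)⁻¹ * k * (u : G) * (n : G)) * (u : G)⁻¹ := by group
        _ = (u : G) * ((n : G) * ((u : G)⁻¹ * k * (u : G))) * (u : G)⁻¹ := by rw [h3]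
        _ = (u : G) * n * (u : G)⁻¹ * k := by group
    let act : MulAction P D :=
      { smul := fun u n => ⟨(u : G) * n * (u : G)⁻¹, hconj u n⟩
        one_smul := fun n => Subtype.ext (by
          show ((1 : P) : G) * n * ((1 : P) : G)⁻¹ = n
          simp)
        mul_smul := fun u v n => Subtype.ext (by
          show ((u * v : P) : G) * n * ((u * v : P) : G)⁻¹
            = (u : G) * ((v : G) * n * (v : G)⁻¹) * (u : G)⁻¹
          simp [mul_assoc]) }
    have hsmul : ∀ (u : P) (n : D), ((u • n : D) : G) = (u : G) * n * (u : G)⁻¹ := fun _ _ => rfl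
    have hmod := hPp.card_modEq_card_fixedPoints D
    have hfix : Nat.card (MulAction.fixedPoints P D) = 1 := by
      rw [Nat.card_eq_one_iff_unique]
      refine ⟨⟨?_⟩, ⟨⟨1, fun u => Subtype.ext (by rw [hsmul]; simp)⟩⟩⟩
      intro x y
      have key : ∀ z : MulAction.fixedPoints P D, ((z : D) : G) = 1 := by
        intro z
        apply hC _ (Subgroup.mem_inf.1 z.1.2).1
        intro a ha
        obtain ⟨k, hk, u, hu, rfl⟩ := hKP a ha
        have h1 : (u : G) * (z : D) * (u : G)⁻¹ = ((z : D) : G) := by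
          have := congrArg Subtype.val (z.2 ⟨u, hu⟩)
          rwa [hsmul] at this
        have h2 : k * ((z : D) : G) = ((z : D) : G) * k :=
          (Subgroup.mem_centralizer_iff.1 (Subgroup.mem_inf.1 z.1.2).2 k hk)
        calc k * u * ((z : D) : G) * (k * u)⁻¹ = k * (u * ((z : D) : G) * u⁻¹) * k⁻¹ := by group
          _ = k * ((z : D) : G) * k⁻¹ := by rw [h1]
          _ = ((z : D) : G) := by rw [h2, mul_inv_cancel_right]
      apply Subtype.ext
      apply Subtype.ext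
      rw [key x, key y]
    rw [hfix] at hmod
    have hDp : IsPGroup p D := hN.to_le inf_le_left
    obtain ⟨jD, hjD⟩ := IsPGroup.iff_card.1 hDp
    have hDcard : Nat.card D = 1 := by
      rcases Nat.eq_zero_or_pos jD with h0 | hpos
      · rw [hjD, h0, pow_zero]
      · exfalso
        have h1 : p ∣ Nat.card D := by rw [hjD]; exact dvd_pow_self p hpos.ne'
        have h2 : Nat.card D % p = 0 := Nat.mod_eq_zero_of_dvd h1
        have h3 : Nat.card D % p = 1 % p := hmod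
        rw [h2, Nat.mod_eq_of_lt hp.one_lt] at h3
        omega
    have hDbot : D = ⊥ := Subgroup.card_eq_one.1 hDcard
    intro n hn hnK
    have hnD : n ∈ D := Subgroup.mem_inf.2 ⟨hn, by
      rw [Subgroup.mem_centralizer_iff]
      intro k hk
      exact (hnK k hk).symm⟩
    rw [hDbot] at hnD
    exact hnD
  -- `A₁ ≤ d A d⁻¹`
  have hle : A₁ ≤ A.map (MulAut.conj d).toMonoidHom := by
    intro a₁ ha₁
    obtain ⟨a, ha, n, hn, hg⟩ := hdec (d⁻¹ * a₁ * d)
    have hgK : ∀ k ∈ K, (d⁻¹ * a₁ * d) * k * (d⁻¹ * a₁ * d)⁻¹ ∈ K := by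
      intro k hk
      have h1 : d * k * d⁻¹ ∈ K₁ := by
        rw [hK₁mem]
        have : d⁻¹ * (d * k * d⁻¹) * d = k := by group
        rw [this]; exact hk
      have h2 := hK₁n a₁ ha₁ _ h1
      rw [hK₁mem] at h2
      have : (d⁻¹ * a₁ * d) * k * (d⁻¹ * a₁ * d)⁻¹ = d⁻¹ * (a₁ * (d * k * d⁻¹) * a₁⁻¹) * d := by
        group
      rw [this]; exact h2
    have hn1 : n = 1 := by
      apply hD n hn
      intro k hk
      -- `n k n⁻¹ k⁻¹ ∈ K ⊓ N`
      have hnk : n * k * n⁻¹ ∈ K := by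
        have hn' : n = a⁻¹ * (d⁻¹ * a₁ * d) := by rw [hg]; group
        have h1 := hgK k hk
        have h2 := hKn a⁻¹ (A.inv_mem ha) _ h1
        have : n * k * n⁻¹ = a⁻¹ * ((d⁻¹ * a₁ * d) * k * (d⁻¹ * a₁ * d)⁻¹) * a⁻¹⁻¹ := by
          rw [hn']; group
        rw [this]; exact h2
      have h3 : n * k * n⁻¹ * k⁻¹ ∈ A ⊓ N := by
        refine ⟨A.mul_mem (hKA hnk) (A.inv_mem (hKA hk)), ?_⟩
        have : n * k * n⁻¹ * k⁻¹ = n * (k * n⁻¹ * k⁻¹) := by group
        rw [this]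
        exact N.mul_mem hn (hNn.conj_mem _ (N.inv_mem hn) k)
      rw [hAN, Subgroup.mem_bot] at h3
      have := congrArg (fun t => t * k * n) h3
      simpa [mul_assoc] using this
    rw [hn1, mul_one] at hg
    refine ⟨a, ha, ?_⟩
    show d * a * d⁻¹ = a₁
    rw [← hg]; group
  have hcard : Nat.card (A.map (MulAut.conj d).toMonoidHom) = Nat.card A :=
    Subgroup.card_map_of_injective (MulAut.conj d).injective
  exact Subgroup.eq_of_le_of_card_ge hle (by rw [hcard, hcardA])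

end Cfsg.Agent.S4043
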