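import Mathlib
import Cfsg.Statements.S4049
import Cfsg.Agent.H71.Inv
import Cfsg.Agent.H71.Lift
import Cfsg.Agent.H71.TwoClosed

set_option autoImplicit false
open Cfsg

namespace Cfsg.Agent.S4049

open Cfsg.Agent.H71

/-- Let G be a finite group such that N_G(H)/C_G(H) has odd order for every nontrivial subgroup H of odd order. Then the Sylow 2-subgroups of G are normal. -/
theorem result {G : Type*} [Group G] [Finite G]
    (hhom : ∀ H : Subgroup G, H ≠ ⊥ → ¬ 2 ∣ Nat.card ↥H →
        ¬ 2 ∣ (Subgroup.centralizer (H : Set G)).relIndex (Subgroup.normalizer (H : Set G))) (P : Sylow 2 G) :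
    (P : Subgroup G).Normal := by
  apply two_closed_of_noInv
  intro t x hodd htx
  by_contra hx1
  have hH : Subgroup.zpowers x ≠ ⊥ := Subgroup.zpowers_ne_bot.2 hx1
  have hcard : ¬ 2 ∣ Nat.card (Subgroup.zpowers x) := by
    rw [Nat.card_zpowers]
    exact fun h => (Nat.not_even_iff_odd.2 hodd) (even_iff_two_dvd.2 h)
  have hidx := hhom _ hH hcard
  obtain ⟨a, -, hak, hax⟩ := inv_two_part htx
  have haN : a ∈ Subgroup.normalizer ((Subgroup.zpowers x : Subgroup G) : Set G) := by
    apply mem_normalizer_zpowers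
    · rw [hax]; exact Subgroup.inv_mem _ (Subgroup.mem_zpowers x)
    · rw [inv3 hax]; exact Subgroup.inv_mem _ (Subgroup.mem_zpowers x)
  -- the centralizer is normal in the normalizer, of odd index
  have hnormal : ((Subgroup.centralizer ((Subgroup.zpowers x : Subgroup G) : Set G)).subgroupOf
      (Subgroup.normalizer ((Subgroup.zpowers x : Subgroup G) : Set G))).Normal := by
    rw [← Subgroup.normalizerMonoidHom_ker]
    exact MonoidHom.normal_ker _
  have hmem := Subgroup.pow_index_mem
    ((Subgroup.centralizer ((Subgroup.zpowers x : Subgroup G) : Set G)).subgroupOf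
      (Subgroup.normalizer ((Subgroup.zpowers x : Subgroup G) : Set G)))
    (⟨a, haN⟩ : Subgroup.normalizer ((Subgroup.zpowers x : Subgroup G) : Set G))
  rw [Subgroup.mem_subgroupOf] at hmem
  set m := ((Subgroup.centralizer ((Subgroup.zpowers x : Subgroup G) : Set G)).subgroupOf
      (Subgroup.normalizer ((Subgroup.zpowers x : Subgroup G) : Set G))).index with hm
  have hmodd : Odd m := Nat.odd_iff.2 (Nat.two_dvd_ne_zero.1 hidx)
  have ham : a ^ m ∈ Subgroup.centralizer ((Subgroup.zpowers x : Subgroup G) : Set G) := by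
    simpa using hmem
  obtain ⟨k, hk⟩ := hak
  have hcop : Nat.Coprime m (orderOf a) := by
    rw [hk]
    exact Nat.Coprime.pow_right k (Nat.coprime_two_right.2 hmodd)
  obtain ⟨j, hj⟩ := exists_pow_eq_self_of_coprime hcop
  have haC : a ∈ Subgroup.centralizer ((Subgroup.zpowers x : Subgroup G) : Set G) := by
    rw [← hj]; exact Subgroup.pow_mem _ ham j
  have hc := Subgroup.mem_centralizer_iff.1 haC x (Subgroup.mem_zpowers x)
  apply hx1
  apply eq_one_of_eq_inv_of_odd hodd
  rw [← hax, ← hc, mul_inv_cancel_right]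

end Cfsg.Agent.S4049
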