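import Mathlib
import Cfsg.Statements.S4050
import Cfsg.Agent.H71.PiSeries

set_option autoImplicit false
open Cfsg

namespace Cfsg.Agent.S4050

open Cfsg.Agent.H71 in
/-- Let π be a set of primes and G a finite group. The π-elements of G (elements whose order is divisible only by primes of π) form a subgroup if and only if G is π-separable (it has a chain of normal subgroups from 1 to G with each successive index divisible only by primes in π or only by primes outside π) and N_G(H)/C_G(H) is a π'-group for every nontrivial π'-subgroup H of G. -/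
theorem result {G : Type*} [Group G] [Finite G] (π : Set ℕ)
    (hπ : ∀ p ∈ π, p.Prime) :
    (∃ K : Subgroup G, ∀ x : G, x ∈ K ↔ ∀ p : ℕ, p.Prime → p ∣ orderOf x → p ∈ π) ↔
    ((∃ (n : ℕ) (H : Fin (n + 1) → Subgroup G), H 0 = ⊥ ∧ H (Fin.last n) = ⊤ ∧ Monotone H ∧ (∀ i, (H i).Normal) ∧
      ∀ i : Fin n, (∀ q : ℕ, q.Prime → q ∣ (H i.castSucc).relIndex (H i.succ) → q ∈ π) ∨
        (∀ q : ℕ, q.Prime → q ∣ (H i.castSucc).relIndex (H i.succ) → q ∉ π)) ∧
     (∀ H : Subgroup G, H ≠ ⊥ → (∀ p : ℕ, p.Prime → p ∣ Nat.card ↥H → p ∉ π) →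
        ∀ p : ℕ, p.Prime → p ∣ (Subgroup.centralizer (H : Set G)).relIndex (Subgroup.normalizer (H : Set G)) → p ∉ π)) := by
  constructor
  · rintro ⟨K, hK⟩
    have hK' : ∀ x : G, x ∈ K ↔ PiElt π x := hK
    have hKn : K.Normal := by
      refine ⟨fun x hx g => ?_⟩
      exact (hK' _).2 (((hK' x).1 hx).conj g)
    refine ⟨⟨2, ![⊥, K, ⊤], rfl, rfl, ?_, ?_, ?_⟩, ?_⟩
    · rw [Fin.monotone_iff_le_succ]
      intro i
      fin_cases i
      · exact bot_le
      · exact le_top
    · intro i
      fin_cases i
      · exact Subgroup.normal_bot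
      · exact hKn
      · exact Subgroup.normal_top
    · intro i
      fin_cases i
      · left
        show PiNum π ((⊥ : Subgroup G).relIndex K)
        rw [Subgroup.relIndex_bot_left]
        apply piNum_card_of_forall
        intro x
        exact (piElt_coe x).1 ((hK' x).1 x.2)
      · right
        show PiNum' π (K.relIndex ⊤)
        rw [Subgroup.relIndex_top_right, Subgroup.index_eq_card]
        apply piNum'_card_of_forall
        intro xb hxb
        obtain ⟨a, ha, rfl⟩ := exists_piElt_lift K xb hxb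
        exact (QuotientGroup.eq_one_iff a).2 ((hK' a).2 ha)
    · intro H hH hcard p hp hd hpπ
      have : Fact p.Prime := ⟨hp⟩
      set N := Subgroup.normalizer (H : Set G) with hN
      set C := Subgroup.centralizer (H : Set G) with hC
      obtain ⟨P⟩ : Nonempty (Sylow p N) := inferInstance
      have hPC : (P : Subgroup N) ≤ C.subgroupOf N := by
        intro x hx
        rw [Subgroup.mem_subgroupOf, hC, Subgroup.mem_centralizer_iff]
        intro h hh
        have hxpi : PiElt π (x : G) := by
          rw [piElt_coe]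
          obtain ⟨k, hk⟩ := (IsPGroup.iff_orderOf.1 P.2) ⟨x, hx⟩
          have hk' : orderOf x = p ^ k := by
            rw [← hk]; exact (Subgroup.orderOf_coe (⟨x, hx⟩ : (P : Subgroup N)))
          unfold PiElt
          rw [hk']
          exact piNum_prime_pow hp hpπ k
        have hxK : (x : G) ∈ K := (hK' _).2 hxpi
        have hxN : (x : G) ∈ Subgroup.normalizer (H : Set G) := x.2
        have h1 : (x : G) * h * (x : G)⁻¹ ∈ H := (Subgroup.mem_set_normalizer_iff.1 hxN h).1 hh
        have h2 : (x : G) * h * (x : G)⁻¹ * h⁻¹ ∈ H := H.mul_mem h1 (H.inv_mem hh)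
        have h3 : (x : G) * h * (x : G)⁻¹ * h⁻¹ ∈ K := by
          have e : (x : G) * h * (x : G)⁻¹ * h⁻¹ = (x : G) * (h * (x : G)⁻¹ * h⁻¹) := by group
          rw [e]
          exact K.mul_mem hxK (hKn.conj_mem _ (K.inv_mem hxK) h)
        have h4 : PiElt' π ((x : G) * h * (x : G)⁻¹ * h⁻¹) := by
          have h5 : PiElt' π (⟨_, h2⟩ : H) := piElt'_of_piNum'_card hcard _
          exact (piElt'_coe (⟨_, h2⟩ : H)).2 h5
        have h6 := eq_one_of_piElt_piElt' ((hK' _).1 h3) h4
        have e2 : h * (x : G) = ((x : G) * h * (x : G)⁻¹ * h⁻¹)⁻¹ * ((x : G) * h) := by group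
        rw [e2, h6, inv_one, one_mul]
      have h7 : (C.subgroupOf N).index ∣ (P : Subgroup N).index := Subgroup.index_dvd_of_le hPC
      exact P.not_dvd_index (hd.trans h7)
  · rintro ⟨⟨n, H, h0, hlast, hmono, hnorm, hfac⟩, hhom⟩
    exact pi_closed_of_series n G (ef_of_hhom hhom) H h0 hlast hmono hnorm hfac

end Cfsg.Agent.S4050
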