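import Mathlib
import Cfsg.Statements.S4056
import Cfsg.Agent.H71.Frattini
import Cfsg.Agent.H71.Class2

set_option autoImplicit false
open Cfsg

namespace Cfsg.Agent.S4056

open Cfsg.Agent.H71
open scoped commutatorElement

/-- In a finite 2-group of nilpotency class at most 2 and exponent dividing 4, the Frattini subgroup lies in the centre and is elementary abelian. -/
theorem result {P : Type*} [Group P] [Finite P] (hP : IsPGroup 2 P)
    (hcl : Group.nilpotencyClass P ≤ 2) (hexp : Monoid.exponent P ∣ 4) :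
    frattini P ≤ Subgroup.center P ∧ Cfsg.IsElementaryAbelian 2 (frattini P) := by
  have : Fact (Nat.Prime 2) := ⟨Nat.prime_two⟩
  have : Group.IsNilpotent P := hP.isNilpotent
  have hlcs : Subgroup.lowerCentralSeries (⊤ : Subgroup P) 2 = ⊥ :=
    Subgroup.lowerCentralSeries_eq_bot_iff_nilpotencyClass_le.2 hcl
  -- commutators are central
  have hcc : ∀ x y z : P, Commute (x * y * x⁻¹ * y⁻¹) z := by
    intro x y z
    have h1 : ⁅x, y⁆ ∈ Subgroup.lowerCentralSeries (⊤ : Subgroup P) 1 :=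
      Subgroup.commutator_mem_commutator (Subgroup.mem_top x) (Subgroup.mem_top y)
    have h2 : ⁅⁅x, y⁆, z⁆ ∈ Subgroup.lowerCentralSeries (⊤ : Subgroup P) 2 :=
      Subgroup.commutator_mem_commutator h1 (Subgroup.mem_top z)
    rw [hlcs, Subgroup.mem_bot] at h2
    exact commutatorElement_eq_one_iff_commute.1 h2
  have h4 : ∀ x : P, x ^ 4 = 1 := fun x =>
    orderOf_dvd_iff_pow_eq_one.1 ((Monoid.order_dvd_exponent x).trans hexp)
  have hc2 : ∀ x y : P, (x * y * x⁻¹ * y⁻¹) ^ 2 = 1 := by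
    intro x y
    have h : x * y = (x * y * x⁻¹ * y⁻¹) * (y * x) := by group
    have h6 := mul_pow_central (hcc x y) h 4
    rw [h4, h4, h4] at h6
    have h6' : (x * y * x⁻¹ * y⁻¹) ^ 6 = 1 := by
      have : Nat.choose 4 2 = 6 := by decide
      rw [this] at h6
      simpa using h6.symm
    have : (x * y * x⁻¹ * y⁻¹) ^ 6 = (x * y * x⁻¹ * y⁻¹) ^ 4 * (x * y * x⁻¹ * y⁻¹) ^ 2 := by
      rw [← pow_add]
    rw [this, h4, one_mul] at h6'
    exact h6'
  have hsqc : ∀ x y : P, x ^ 2 * y = y * x ^ 2 := by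
    intro x y
    have h : x * y = (x * y * x⁻¹ * y⁻¹) * (y * x) := by group
    have := pow_mul_comm_central (hcc x y) h 2
    rw [hc2, one_mul] at this
    exact this
  let T : Subgroup P :=
    { carrier := {g | g ∈ Subgroup.center P ∧ g ^ 2 = 1}
      mul_mem' := by
        rintro a b ⟨ha, ha2⟩ ⟨hb, hb2⟩
        refine ⟨Subgroup.mul_mem _ ha hb, ?_⟩
        have hab : Commute a b := (Subgroup.mem_center_iff.1 ha b).symm
        rw [hab.mul_pow, ha2, hb2, one_mul]
      one_mem' := ⟨Subgroup.one_mem _, one_pow 2⟩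
      inv_mem' := by
        rintro a ⟨ha, ha2⟩
        exact ⟨Subgroup.inv_mem _ ha, by rw [inv_pow, ha2, inv_one]⟩ }
  have hle : frattini P ≤ T := by
    apply frattini_le_of_pow_comm 2 Nat.prime_two T
    · intro x
      refine ⟨Subgroup.mem_center_iff.2 fun g => (hsqc x g).symm, ?_⟩
      rw [← pow_mul]; exact h4 x
    · intro x y
      exact ⟨Subgroup.mem_center_iff.2 fun g => ((hcc x y g).eq).symm, hc2 x y⟩
  refine ⟨fun g hg => (hle hg).1, ?_, fun a ha => (hle ha).2⟩
  rw [isMulCommutative_iff]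
  rintro ⟨a, ha⟩ ⟨b, hb⟩
  apply Subtype.ext
  exact (Subgroup.mem_center_iff.1 (hle hb).1 a)

end Cfsg.Agent.S4056
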