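import Cfsg.Statements.S4058
import Cfsg.Agent.H92.FratChar

set_option autoImplicit false
open Cfsg Cfsg.Agent.H92
open scoped ComplexConjugate

namespace Cfsg.Agent.S4058

/-- Let G be a finite 2-group with #(G/Φ(G)) ≥ 2^(2k+1). Then the number of elements x of G with x² = 1 is divisible by 2^(k+1). -/
theorem result {G : Type*} [Group G] [Finite G] (hG : IsPGroup 2 G) (k : ℕ)
    (hgen : 2 ^ (2 * k + 1) ≤ Nat.card (G ⧸ frattini G)) :
    2 ^ (k + 1) ∣ Nat.card {x : G // x ^ 2 = 1} := by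
  classical
  haveI : Fact (Nat.Prime 2) := ⟨Nat.prime_two⟩
  letI : Fintype G := Fintype.ofFinite G
  letI := irrAction hG
  haveI : Finite (Cfsg.IrrCharacter G) := Cfsg.Agent.H4.finite_irr G
  letI : Fintype (Cfsg.IrrCharacter G) := Fintype.ofFinite _
  obtain ⟨N, hN⟩ := hG.exists_card_eq
  have hLcard : Nat.card ((G ⧸ frattini G) →* ℂˣ) = Nat.card (G ⧸ frattini G) :=
    card_hom_frattiniQuot hG
  obtain ⟨d, hd, hLd⟩ : ∃ d ≤ N, Nat.card ((G ⧸ frattini G) →* ℂˣ) = 2 ^ d := by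
    rw [hLcard]
    exact (Nat.dvd_prime_pow Nat.prime_two).mp (hN ▸ Subgroup.card_quotient_dvd_card (frattini G))
  have hkd : 2 * k + 1 ≤ d := by
    rw [← hLcard, hLd] at hgen
    exact (Nat.pow_le_pow_iff_right (by norm_num)).mp hgen
  have hdeg : ∀ χ : Cfsg.IrrCharacter G, ∃ e : ℕ, χ.1 1 = ((2 ^ e : ℕ) : ℂ) := by
    intro χ
    obtain ⟨n, -, hn⟩ := Cfsg.Agent.H4.irr_one_eq_natCast χ
    have h1 := irr_degree_dvd χ n hn
    rw [hN] at h1
    obtain ⟨e, -, he⟩ := (Nat.dvd_prime_pow Nat.prime_two).mp h1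
    exact ⟨e, by rw [hn, he]⟩
  choose deg hdeg' using hdeg
  have hind : ∀ χ : Cfsg.IrrCharacter G, ∃ m : ℤ, Cfsg.Agent.H78.indicator χ.1 = (m : ℂ) := by
    intro χ
    rcases (Cfsg.Agent.H78.irr_indicator χ).1 with h | h | h
    · exact ⟨0, by rw [h]; simp⟩
    · exact ⟨1, by rw [h]; simp⟩
    · exact ⟨-1, by rw [h]; simp⟩
  choose ν hν using hind
  have hcount : ((Nat.card {s : G // s * s = 1} : ℕ) : ℤ) =
      ∑ χ : Cfsg.IrrCharacter G, ν χ * ((2 ^ deg χ : ℕ) : ℤ) := by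
    have h1 := Cfsg.Agent.H78.card_sq_eq_one (G := G)
    rw [finsum_eq_sum_of_fintype] at h1
    have h2 : (((Nat.card {s : G // s * s = 1} : ℕ) : ℤ) : ℂ) =
        ((∑ χ : Cfsg.IrrCharacter G, ν χ * ((2 ^ deg χ : ℕ) : ℤ) : ℤ) : ℂ) := by
      rw [Int.cast_natCast, h1, Int.cast_sum]
      apply Finset.sum_congr rfl
      intro χ _
      rw [hν χ, hdeg' χ, Int.cast_mul, Int.cast_natCast]
    exact Int.cast_injective h2
  have hinv : ∀ (l : (G ⧸ frattini G) →* ℂˣ) (χ : Cfsg.IrrCharacter G),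
      ν (l • χ) * ((2 ^ deg (l • χ) : ℕ) : ℤ) = ν χ * ((2 ^ deg χ : ℕ) : ℤ) := by
    intro l χ
    have e1 : ν (l • χ) = ν χ := by
      have h0 := indicator_smul hG l χ
      have h' : ((ν (l • χ) : ℤ) : ℂ) = (ν χ : ℂ) := by
        rw [← hν, ← hν]; exact h0
      exact Int.cast_injective h'
    have e2 : deg (l • χ) = deg χ := by
      have h' : (((2 ^ deg (l • χ) : ℕ)) : ℂ) = ((2 ^ deg χ : ℕ) : ℂ) := by
        rw [← hdeg', ← hdeg']
        show lin (frattini G) l 1 * χ.1 1 = χ.1 1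
        rw [lin_one, one_mul]
      have h'' : 2 ^ deg (l • χ) = 2 ^ deg χ := Nat.cast_injective h'
      exact Nat.pow_right_injective (le_refl 2) h''
    rw [e1, e2]
  have hdvd : ∀ χ : Cfsg.IrrCharacter G, ((2 ^ (k + 1) : ℕ) : ℤ) ∣
      (Nat.card (MulAction.orbit ((G ⧸ frattini G) →* ℂˣ) χ) : ℤ) *
        (ν χ * ((2 ^ deg χ : ℕ) : ℤ)) := by
    intro χ
    have hos := card_orbit_mul_card_stabilizer (L := (G ⧸ frattini G) →* ℂˣ) χ
    obtain ⟨j, hj, hSj⟩ : ∃ j ≤ d,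
        Nat.card (MulAction.stabilizer ((G ⧸ frattini G) →* ℂˣ) χ) = 2 ^ j :=
      (Nat.dvd_prime_pow Nat.prime_two).mp (hLd ▸ Subgroup.card_subgroup_dvd_card _)
    have hje : j ≤ 2 * deg χ := by
      have h1 := card_stabilizer_le hG χ (2 ^ deg χ) (hdeg' χ)
      rw [hSj, ← pow_mul] at h1
      have h2 := (Nat.pow_le_pow_iff_right (by norm_num : 1 < 2)).mp h1
      omega
    have horb : Nat.card (MulAction.orbit ((G ⧸ frattini G) →* ℂˣ) χ) = 2 ^ (d - j) := by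
      rw [hSj, hLd] at hos
      have h1 : 2 ^ d = 2 ^ (d - j) * 2 ^ j := by rw [← pow_add, Nat.sub_add_cancel hj]
      rw [h1] at hos
      exact Nat.eq_of_mul_eq_mul_right (by positivity) hos
    rw [horb]
    have hexp : k + 1 ≤ d - j + deg χ := by omega
    have h3 : ((2 ^ (d - j) : ℕ) : ℤ) * (ν χ * ((2 ^ deg χ : ℕ) : ℤ)) =
        ν χ * ((2 ^ (d - j + deg χ) : ℕ) : ℤ) := by
      push_cast; ring
    rw [h3]
    apply Dvd.dvd.mul_left
    exact_mod_cast pow_dvd_pow 2 hexp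
  have hfinal : ((2 ^ (k + 1) : ℕ) : ℤ) ∣ ((Nat.card {s : G // s * s = 1} : ℕ) : ℤ) := by
    rw [hcount]
    exact dvd_sum_of_orbit _ _ hinv hdvd
  have hcongr : Nat.card {x : G // x ^ 2 = 1} = Nat.card {s : G // s * s = 1} :=
    Nat.card_congr (Equiv.subtypeEquivRight (fun x => by rw [pow_two]))
  rw [hcongr]
  exact Int.natCast_dvd_natCast.mp hfinal


end Cfsg.Agent.S4058
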