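import Mathlib
import Cfsg.Statements.S4065

set_option autoImplicit false
open Cfsg

namespace Cfsg.Agent.S4065

/-- Two matrices commuting with a non-scalar `2 × 2` matrix commute. -/
theorem comm_of_comm_nonscalar {F : Type*} [Field F] (A B C : Matrix (Fin 2) (Fin 2) F)
    (hAB : A * B = B * A) (hCB : C * B = B * C)
    (hB : ¬ (B 0 1 = 0 ∧ B 1 0 = 0 ∧ B 0 0 = B 1 1)) : A * C = C * A := by
  have e00 := congrFun (congrFun hAB 0) 0
  have e01 := congrFun (congrFun hAB 0) 1
  have e10 := congrFun (congrFun hAB 1) 0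
  have e11 := congrFun (congrFun hAB 1) 1
  have f00 := congrFun (congrFun hCB 0) 0
  have f01 := congrFun (congrFun hCB 0) 1
  have f10 := congrFun (congrFun hCB 1) 0
  have f11 := congrFun (congrFun hCB 1) 1
  simp only [Matrix.mul_apply, Fin.sum_univ_two] at e00 e01 e10 e11 f00 f01 f10 f11
  ext i j
  fin_cases i <;> fin_cases j <;> simp only [Matrix.mul_apply, Fin.sum_univ_two] <;>
    grind

/-- In `SL₂` over a field of characteristic 2, a non-identity element is non-scalar. -/
theorem nonscalar_of_ne_one {F : Type*} [Field F] [CharP F 2]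
    (B : Matrix.SpecialLinearGroup (Fin 2) F) (hB : B ≠ 1) :
    ¬ ((B : Matrix (Fin 2) (Fin 2) F) 0 1 = 0 ∧ (B : Matrix (Fin 2) (Fin 2) F) 1 0 = 0 ∧
      (B : Matrix (Fin 2) (Fin 2) F) 0 0 = (B : Matrix (Fin 2) (Fin 2) F) 1 1) := by
  rintro ⟨h01, h10, h00⟩
  apply hB
  have hdet := B.det_coe
  rw [Matrix.det_fin_two, h01, h10, ← h00] at hdet
  have h2 : (2 : F) = 0 := CharP.cast_eq_zero F 2
  have h1 : ((B : Matrix (Fin 2) (Fin 2) F) 0 0 - 1) ^ 2 = 0 := by
    linear_combination hdet + (1 - (B : Matrix (Fin 2) (Fin 2) F) 0 0) * h2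
  have h3 : (B : Matrix (Fin 2) (Fin 2) F) 0 0 = 1 := by
    have := pow_eq_zero_iff (two_ne_zero) |>.1 h1
    exact sub_eq_zero.1 this
  ext i j
  fin_cases i <;> fin_cases j <;> simp [h01, h10, h3, ← h00]

/-- The centre of `SL₂` over a field of characteristic 2 is trivial. -/
theorem center_eq_bot {F : Type*} [Field F] [CharP F 2] :
    Subgroup.center (Matrix.SpecialLinearGroup (Fin 2) F) = ⊥ := by
  rw [eq_bot_iff]
  intro A hA
  rw [Subgroup.mem_bot]
  by_contra hne
  apply nonscalar_of_ne_one A hne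
  rw [Matrix.SpecialLinearGroup.mem_center_iff] at hA
  obtain ⟨r, -, hr⟩ := hA
  have hr' : (A : Matrix (Fin 2) (Fin 2) F) = Matrix.scalar (Fin 2) r := hr.symm
  rw [hr']
  simp

/-- Commutation is transitive on non-identity elements of `PSL₂` in characteristic 2. -/
theorem psl_comm {F : Type*} [Field F] [CharP F 2]
    (x y z : Matrix.ProjectiveSpecialLinearGroup (Fin 2) F) (hy : y ≠ 1)
    (hxy : x * y = y * x) (hzy : z * y = y * z) : x * z = z * x := by
  induction x using QuotientGroup.induction_on with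
  | _ X =>
  induction y using QuotientGroup.induction_on with
  | _ Y =>
  induction z using QuotientGroup.induction_on with
  | _ Z =>
  have key : ∀ U V : Matrix.SpecialLinearGroup (Fin 2) F,
      ((U : Matrix.ProjectiveSpecialLinearGroup (Fin 2) F)) * V = V * U → U * V = V * U := by
    intro U V h
    rw [← QuotientGroup.mk_mul, ← QuotientGroup.mk_mul, QuotientGroup.eq, center_eq_bot,
      Subgroup.mem_bot] at h
    have := congrArg (fun t => U * V * t) h
    simpa [mul_assoc] using this.symm
  have hY : Y ≠ 1 := by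
    rintro rfl
    exact hy rfl
  have h1 := key X Y hxy
  have h2 := key Z Y hzy
  have h3 : (X : Matrix (Fin 2) (Fin 2) F) * Z = Z * X := by
    apply comm_of_comm_nonscalar _ (Y : Matrix (Fin 2) (Fin 2) F) _ _ _ (nonscalar_of_ne_one Y hY)
    · have := congrArg (fun t : Matrix.SpecialLinearGroup (Fin 2) F => (t : Matrix (Fin 2) (Fin 2) F)) h1
      simpa using this
    · have := congrArg (fun t : Matrix.SpecialLinearGroup (Fin 2) F => (t : Matrix (Fin 2) (Fin 2) F)) h2
      simpa using this
  have h4 : X * Z = Z * X := by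
    apply Subtype.ext
    simpa using h3
  rw [← QuotientGroup.mk_mul, ← QuotientGroup.mk_mul, h4]

/-- In a group where commutation is transitive on non-identity elements, centralizers of
elements are TI-subsets. -/
theorem ti_of_comm_trans {G : Type*} [Group G]
    (h : ∀ x y z : G, y ≠ 1 → x * y = y * x → z * y = y * z → x * z = z * x) (x₀ : G) :
    Cfsg.IsTISubset (Subgroup.centralizer ({x₀} : Set G) : Set G) := by
  intro g hg x hx hgx
  by_contra hx1
  apply hg
  have hx' : x * x₀ = x₀ * x := by
    have := Subgroup.mem_centralizer_singleton_iff.1 hx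
    exact this
  have hgx' : g * x * g⁻¹ * x₀ = x₀ * (g * x * g⁻¹) := by
    have := Subgroup.mem_centralizer_singleton_iff.1 hgx
    exact this
  have hgx1 : g * x * g⁻¹ ≠ 1 := by
    intro h1
    apply hx1
    have := congrArg (fun t => g⁻¹ * t * g) h1
    simpa [mul_assoc] using this
  by_cases hx0 : x₀ = 1
  · subst hx0
    have : Subgroup.centralizer ({(1 : G)} : Set G) = ⊤ := by
      rw [eq_top_iff]
      intro y _
      rw [Subgroup.mem_centralizer_singleton_iff]
      simp
    rw [this]
    simp [Subgroup.mem_set_normalizer_iff]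
  rw [Subgroup.mem_set_normalizer_iff]
  intro n
  constructor
  · intro hn
    have hn' : n * x₀ = x₀ * n := Subgroup.mem_centralizer_singleton_iff.1 hn
    -- n commutes with x
    have h1 : n * x = x * n := h n x₀ x hx0 hn' hx'
    -- g n g⁻¹ commutes with g x g⁻¹
    have h2 : g * n * g⁻¹ * (g * x * g⁻¹) = g * x * g⁻¹ * (g * n * g⁻¹) := by
      calc g * n * g⁻¹ * (g * x * g⁻¹) = g * (n * x) * g⁻¹ := by group
        _ = g * (x * n) * g⁻¹ := by rw [h1]
        _ = _ := by group
    have h3 : g * n * g⁻¹ * x₀ = x₀ * (g * n * g⁻¹) :=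
      h (g * n * g⁻¹) (g * x * g⁻¹) x₀ hgx1 h2 hgx'.symm
    exact Subgroup.mem_centralizer_singleton_iff.2 h3
  · intro hn
    have hn' : g * n * g⁻¹ * x₀ = x₀ * (g * n * g⁻¹) := Subgroup.mem_centralizer_singleton_iff.1 hn
    have h1 : g * n * g⁻¹ * (g * x * g⁻¹) = g * x * g⁻¹ * (g * n * g⁻¹) :=
      h (g * n * g⁻¹) x₀ (g * x * g⁻¹) hx0 hn' hgx'
    have h2 : n * x = x * n := by
      have := congrArg (fun t => g⁻¹ * t * g) h1
      simpa [mul_assoc] using this
    have h3 : n * x₀ = x₀ * n := h n x x₀ hx1 h2 hx'.symm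
    exact Subgroup.mem_centralizer_singleton_iff.2 h3

/-- Let F be a finite field with 2ⁿ elements, n ≥ 2. In PSL₂(F) the centralizer of every element meets each of its conjugates by elements outside its normalizer trivially. -/
theorem result (n : ℕ) (hn : 2 ≤ n)
    (x : Matrix.ProjectiveSpecialLinearGroup (Fin 2) (GaloisField 2 n)) :
    Cfsg.IsTISubset (Subgroup.centralizer ({x} : Set (Matrix.ProjectiveSpecialLinearGroup (Fin 2) (GaloisField 2 n))) :
      Set (Matrix.ProjectiveSpecialLinearGroup (Fin 2) (GaloisField 2 n))) := by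
  exact ti_of_comm_trans (fun a b c hb hab hcb => psl_comm a b c hb hab hcb) x

end Cfsg.Agent.S4065
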