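import Mathlib
import Cfsg.Statements.S4066
import Cfsg.Agent.H71.SylowConj
import Cfsg.Agent.H71.PClosure

set_option autoImplicit false
open Cfsg

namespace Cfsg.Agent.S4066

open Cfsg.Agent.H71

theorem key (n : ℕ) : ∀ (G : Type*) [Group G] [Finite G], Nat.card G = n →
    (∀ x : G, Cfsg.IsTISubset (Subgroup.centralizer ({x} : Set G) : Set G)) →
    ∀ {p : ℕ} [Fact p.Prime] (P Q : Sylow p G) (u : G), u ∈ P → u ∈ Q → u ≠ 1 → P = Q := by
  induction n using Nat.strong_induction_on with
  | _ n ih =>
  intro G _ _ hn hTI p _ P Q u huP huQ hu1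
  -- a nontrivial central element of P
  have hnt : Nontrivial (P : Subgroup G) := ⟨⟨⟨u, huP⟩, 1, fun h => hu1 (congrArg Subtype.val h)⟩⟩
  have hcn := P.isPGroup'.center_nontrivial
  obtain ⟨z, hz1⟩ := exists_ne (1 : Subgroup.center (P : Subgroup G))
  set z₀ : G := ((z : (P : Subgroup G)) : G) with hz₀
  have hz₀1 : z₀ ≠ 1 := fun h => hz1 (Subtype.ext (Subtype.ext h))
  have hzc : ∀ y ∈ P, y * z₀ = z₀ * y := by
    intro y hy
    have := Subgroup.mem_center_iff.1 z.2 ⟨y, hy⟩
    exact congrArg Subtype.val this
  have hPC : (P : Subgroup G) ≤ Subgroup.centralizer {z₀} := by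
    intro y hy
    rw [Subgroup.mem_centralizer_singleton_iff]
    exact (hzc y hy)
  obtain ⟨g, hg⟩ := MulAction.exists_smul_eq G P Q
  have hQmem : ∀ y, y ∈ Q ↔ g⁻¹ * y * g ∈ P := by
    intro y; rw [← hg]; exact mem_smul_sylow_iff g P y
  have hgN : g ∈ Subgroup.normalizer ((Subgroup.centralizer ({z₀} : Set G) : Subgroup G) : Set G) := by
    by_contra hgn
    have h1 : g⁻¹ * u * g ∈ P := (hQmem u).1 huQ
    have h2 := hTI z₀ g hgn (g⁻¹ * u * g) (hPC h1) (by
      have : g * (g⁻¹ * u * g) * g⁻¹ = u := by group
      rw [this]; exact hPC huP)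
    apply hu1
    have : u = g * (g⁻¹ * u * g) * g⁻¹ := by group
    rw [this, h2]; group
  have hQC : (Q : Subgroup G) ≤ Subgroup.centralizer {z₀} := by
    intro y hy
    have h1 : g⁻¹ * y * g ∈ Subgroup.centralizer {z₀} := hPC ((hQmem y).1 hy)
    have h2 := (Subgroup.mem_set_normalizer_iff.1 hgN (g⁻¹ * y * g)).1 h1
    have : g * (g⁻¹ * y * g) * g⁻¹ = y := by group
    rw [this] at h2
    exact h2
  by_cases hC : Subgroup.centralizer ({z₀} : Set G) = ⊤
  · -- z₀ is central: all centralizers are normal
    have hzcen : ∀ y : G, y * z₀ = z₀ * y := by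
      intro y
      have : y ∈ Subgroup.centralizer ({z₀} : Set G) := by rw [hC]; trivial
      rw [Subgroup.mem_centralizer_singleton_iff] at this
      exact this
    have hnorm : ∀ x h : G, h ∈ Subgroup.normalizer ((Subgroup.centralizer ({x} : Set G) : Subgroup G) : Set G) := by
      intro x h
      by_contra hh
      have hzx : z₀ ∈ Subgroup.centralizer ({x} : Set G) := by
        rw [Subgroup.mem_centralizer_singleton_iff]; exact (hzcen x).symm
      have := hTI x h hh z₀ hzx (by
        have : h * z₀ * h⁻¹ = z₀ := by rw [hzcen h, mul_inv_cancel_right]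
        rw [this]; exact hzx)
      exact hz₀1 this
    -- every element of P lies in Q
    have hle : (P : Subgroup G) ≤ Q := by
      intro x hx
      have hA : IsPGroup p (Subgroup.normalClosure ({x} : Set G)) := by
        unfold Subgroup.normalClosure
        apply isPGroup_closure_of_commute
        · intro a ha b hb
          obtain ⟨a', ha', hca⟩ := Group.mem_conjugatesOfSet_iff.1 ha
          obtain ⟨b', hb', hcb⟩ := Group.mem_conjugatesOfSet_iff.1 hb
          rw [Set.mem_singleton_iff] at ha' hb'
          rw [ha'] at hca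
          rw [hb'] at hcb
          obtain ⟨c, rfl⟩ := isConj_iff.1 hca
          obtain ⟨d, rfl⟩ := isConj_iff.1 hcb
          -- c x c⁻¹ commutes with d x d⁻¹
          have hx0 : x ∈ Subgroup.centralizer ({x} : Set G) := by
            rw [Subgroup.mem_centralizer_singleton_iff]
          have h1 := (Subgroup.mem_set_normalizer_iff.1 (hnorm x (d⁻¹ * c)) x).1 hx0
          rw [SetLike.mem_coe, Subgroup.mem_centralizer_singleton_iff] at h1
          have h2 := congrArg (fun t => d * t * d⁻¹) h1
          have e1 : d * (x * (d⁻¹ * c * x * (d⁻¹ * c)⁻¹)) * d⁻¹ = d * x * d⁻¹ * (c * x * c⁻¹) := by group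
          have e2 : d * (d⁻¹ * c * x * (d⁻¹ * c)⁻¹ * x) * d⁻¹ = c * x * c⁻¹ * (d * x * d⁻¹) := by group
          rw [e1, e2] at h2
          exact h2
        · intro a ha
          obtain ⟨a', ha', hca⟩ := Group.mem_conjugatesOfSet_iff.1 ha
          rw [Set.mem_singleton_iff] at ha'
          rw [ha'] at hca
          obtain ⟨c, rfl⟩ := isConj_iff.1 hca
          obtain ⟨k, hk⟩ := P.isPGroup' ⟨x, hx⟩
          refine ⟨k, ?_⟩
          have hk' : x ^ p ^ k = 1 := by simpa using congrArg Subtype.val hk
          rw [conj_pow, hk']; group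
      exact hA.le_sylow_of_normal Q (Subgroup.subset_normalClosure (Set.mem_singleton x))
    have := P.is_maximal' Q.isPGroup' hle
    exact Sylow.ext this.symm
  · -- induction on the centralizer of z₀
    have hlt : Nat.card (Subgroup.centralizer ({z₀} : Set G)) < n := by
      rw [← hn]
      refine lt_of_le_of_ne (Subgroup.card_le_card_group _) fun h => hC (Subgroup.eq_top_of_card_eq _ h)
    have hTI' : ∀ x : Subgroup.centralizer ({z₀} : Set G),
        Cfsg.IsTISubset (Subgroup.centralizer ({x} : Set (Subgroup.centralizer ({z₀} : Set G))) :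
          Set (Subgroup.centralizer ({z₀} : Set G))) := by
      intro x c hc y hy hcy
      have hmem : ∀ w : Subgroup.centralizer ({z₀} : Set G),
          w ∈ Subgroup.centralizer ({x} : Set (Subgroup.centralizer ({z₀} : Set G))) ↔
          (w : G) ∈ Subgroup.centralizer ({(x : G)} : Set G) := by
        intro w
        rw [Subgroup.mem_centralizer_singleton_iff, Subgroup.mem_centralizer_singleton_iff]
        constructor
        · intro h; exact congrArg Subtype.val h
        · intro h; exact Subtype.ext h
      have hcn : (c : G) ∉ Subgroup.normalizer ((Subgroup.centralizer ({(x : G)} : Set G) : Subgroup G) : Set G) := by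
        intro hcG
        apply hc
        rw [Subgroup.mem_set_normalizer_iff]
        intro w
        rw [SetLike.mem_coe, SetLike.mem_coe, hmem, hmem]
        exact Subgroup.mem_set_normalizer_iff.1 hcG (w : G)
      have := hTI (x : G) (c : G) hcn (y : G) ((hmem y).1 hy) ((hmem _).1 hcy)
      exact Subtype.ext this
    have := ih _ hlt (Subgroup.centralizer ({z₀} : Set G)) rfl hTI' (P.subtype hPC) (Q.subtype hQC)
      ⟨u, hPC huP⟩ (by
        show (⟨u, hPC huP⟩ : Subgroup.centralizer ({z₀} : Set G)) ∈ ((P.subtype hPC : Sylow p _) : Subgroup _)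
        rw [Sylow.coe_subtype, Subgroup.mem_subgroupOf]; exact huP) (by
        show (⟨u, hPC huP⟩ : Subgroup.centralizer ({z₀} : Set G)) ∈ ((Q.subtype hQC : Sylow p _) : Subgroup _)
        rw [Sylow.coe_subtype, Subgroup.mem_subgroupOf]; exact huQ)
      (fun h => hu1 (congrArg Subtype.val h))
    exact Sylow.subtype_injective this

/-- Let G be a finite group in which the centralizer of every element meets each of its conjugates by elements outside its normalizer trivially. Then any two distinct Sylow p-subgroups of G, for any prime p, intersect trivially. -/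
theorem result {G : Type*} [Group G] [Finite G] (hTI : ∀ x : G, Cfsg.IsTISubset (Subgroup.centralizer ({x} : Set G) : Set G))
    {p : ℕ} [Fact p.Prime] (P Q : Sylow p G) (hPQ : P ≠ Q) : (P : Subgroup G) ⊓ (Q : Subgroup G) = ⊥ := by
  rw [eq_bot_iff]
  intro u hu
  rw [Subgroup.mem_bot]
  by_contra hu1
  exact hPQ (key _ G rfl hTI P Q u hu.1 hu.2 hu1)

end Cfsg.Agent.S4066
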