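import Cfsg.Statements.S4067
import Mathlib
import Cfsg.Agent.H77.AutOrbD

set_option autoImplicit false
open Cfsg

namespace Cfsg.Agent.S4067

/-- Let G be a finite non-abelian group and p the least prime dividing its order. Then the automorphism group of G has at most #G/p orbits on G. -/
theorem result {G : Type*} [Group G] [Finite G] (hna : ¬ IsMulCommutative G) :
    Nat.card (MulAction.orbitRel.Quotient (MulAut G) G) ≤ Nat.card G / (Nat.card G).minFac := by
  have hx₀ : ∃ x₀ : G, x₀ ∉ Subgroup.center G := by
    by_contra h
    push Not at h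
    exact hna ⟨⟨fun a b => (Subgroup.mem_center_iff.mp (h b) a)⟩⟩
  obtain ⟨x₀, hx₀⟩ := hx₀
  have hG1 : Nat.card G ≠ 1 := by
    intro h1
    have : Subsingleton G := (Nat.card_eq_one_iff_unique.mp h1).1
    exact hx₀ (by rw [Subsingleton.elim x₀ 1]; exact one_mem _)
  have hpp : (Nat.card G).minFac.Prime := Nat.minFac_prime hG1
  by_cases hcard : Nat.card (commutator G) = (Nat.card G).minFac
  · have : Fact (Nat.card G).minFac.Prime := ⟨hpp⟩
    have hle := H77.AutOrb.commutator_le_center_of_card hcard
    obtain ⟨u, c, s, lam, hc, hcp, hκ, hup, hlu, hlZ, ⟨t, ht⟩, hu⟩ :=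
      H77.AutOrb.exists_twist_data rfl hcard hle hx₀
    exact H77.AutOrb.card_orbits_le_of_twist rfl hcard hle u c s lam hc hcp hκ hup hlu hlZ hu t ht
  · rw [Nat.le_div_iff_mul_le hpp.pos]
    have h1 := H77.AutOrb.card_orbits_le_card_conjClasses (G := G)
    have hG' : ((Nat.card G).minFac + 1) * (commutator G).index ≤ Nat.card G := by
      have hne1 : Nat.card (commutator G) ≠ 1 := by
        intro h
        rw [Subgroup.card_eq_one] at h
        apply hx₀
        rw [Subgroup.mem_center_iff]
        intro g
        have hmem := H77.AutOrb.comm_mem_commutator g x₀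
        rw [h, Subgroup.mem_bot] at hmem
        exact commutatorElement_eq_one_iff_mul_comm.mp hmem
      have hdvd : Nat.card (commutator G) ∣ Nat.card G := Subgroup.card_subgroup_dvd_card _
      have hpos : 0 < Nat.card (commutator G) := Nat.card_pos
      have hge : (Nat.card G).minFac ≤ Nat.card (commutator G) :=
        Nat.minFac_le_of_dvd (by omega) hdvd
      have hge' : (Nat.card G).minFac + 1 ≤ Nat.card (commutator G) := by omega
      calc ((Nat.card G).minFac + 1) * (commutator G).index
          ≤ Nat.card (commutator G) * (commutator G).index := Nat.mul_le_mul_right _ hge'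
        _ = Nat.card G := Subgroup.card_mul_index _
    have h2 := H77.AutOrb.card_conjClasses_mul_le hG'
    calc Nat.card (MulAction.orbitRel.Quotient (MulAut G) G) * (Nat.card G).minFac
        ≤ Nat.card (ConjClasses G) * (Nat.card G).minFac := Nat.mul_le_mul_right _ h1
      _ = (Nat.card G).minFac * Nat.card (ConjClasses G) := mul_comm _ _
      _ ≤ Nat.card G := h2

end Cfsg.Agent.S4067
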