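import Mathlib
import Cfsg.Statements.S4072
import Cfsg.Agent.H71.MinNonab
import Cfsg.Agent.H71.SylowMisc

set_option autoImplicit false
open Cfsg

namespace Cfsg.Agent.S4072

open Cfsg.Agent.H71
open scoped commutatorElement

theorem not_comm_of {G : Type*} [Group G] {H : Subgroup G} {x y : G} (hx : x ∈ H) (hy : y ∈ H)
    (hxy : x * y ≠ y * x) : ¬ IsMulCommutative H := by
  intro hc
  have := mul_comm' (⟨x, hx⟩ : H) ⟨y, hy⟩
  exact hxy (congrArg Subtype.val this)

/-- Burnside's transfer theorem rules out an abelian self-normalizing Sylow subgroup in a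
non-abelian group without proper nontrivial normal subgroups. -/
theorem burnside_contra {Q : Type*} [Group Q] [Finite Q]
    (hsimple : ∀ N : Subgroup Q, N.Normal → N = ⊥ ∨ N = ⊤)
    (hna : ¬ ∀ x y : Q, x * y = y * x)
    {q : ℕ} [Fact q.Prime] (S : Sylow q Q) (hne : (S : Subgroup Q) ≠ ⊥)
    (hNC : Subgroup.normalizer ((S : Subgroup Q) : Set Q) ≤
      Subgroup.centralizer ((S : Subgroup Q) : Set Q)) : False := by
  have hcompl := MonoidHom.ker_transferSylow_isComplement' S hNC
  rcases hsimple (MonoidHom.transferSylow S hNC).ker (MonoidHom.normal_ker _) with h | h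
  · rw [h, Subgroup.isComplement'_bot_left] at hcompl
    apply hna
    intro x y
    have hx : x ∈ Subgroup.centralizer ((S : Subgroup Q) : Set Q) :=
      hNC (Subgroup.le_normalizer (by rw [hcompl]; trivial))
    have hy : y ∈ (S : Subgroup Q) := by rw [hcompl]; trivial
    exact (Subgroup.mem_centralizer_iff.1 hx y hy).symm
  · rw [h, Subgroup.isComplement'_top_left] at hcompl
    exact hne hcompl

theorem quot_normalizer_zpowers {G : Type*} [Group G] (R : Subgroup G) [R.Normal] (x y : G)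
    (hself : Subgroup.normalizer ((R ⊔ Subgroup.zpowers x : Subgroup G) : Set G)
      = R ⊔ Subgroup.zpowers x)
    (hy : (y : G ⧸ R) ∈ Subgroup.normalizer
      ((Subgroup.zpowers (x : G ⧸ R) : Subgroup (G ⧸ R)) : Set (G ⧸ R))) :
    (y : G ⧸ R) ∈ Subgroup.zpowers (x : G ⧸ R) := by
  have hiff : ∀ n : G, n ∈ R ⊔ Subgroup.zpowers x ↔
      (n : G ⧸ R) ∈ Subgroup.zpowers (x : G ⧸ R) := by
    intro n
    constructor
    · intro hn
      rw [← SetLike.mem_coe, Subgroup.normal_mul, Set.mem_mul] at hn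
      obtain ⟨r, hr, z, hz, rfl⟩ := hn
      obtain ⟨k, rfl⟩ := hz
      refine ⟨k, ?_⟩
      show (x : G ⧸ R) ^ k = ((r * x ^ k : G) : G ⧸ R)
      rw [QuotientGroup.mk_mul, (QuotientGroup.eq_one_iff r).2 hr, one_mul, QuotientGroup.mk_zpow]
    · rintro ⟨k, hk⟩
      have hk' : ((x ^ k : G) : G ⧸ R) = (n : G ⧸ R) := by
        rw [QuotientGroup.mk_zpow]; exact hk
      rw [QuotientGroup.eq] at hk'
      have : n = x ^ k * ((x ^ k)⁻¹ * n) := by group
      rw [this]
      exact Subgroup.mul_mem _ (Subgroup.mem_sup_right ⟨k, rfl⟩) (Subgroup.mem_sup_left hk')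
  have hyN : y ∈ Subgroup.normalizer ((R ⊔ Subgroup.zpowers x : Subgroup G) : Set G) := by
    rw [Subgroup.mem_set_normalizer_iff]
    intro n
    have h1 := (Subgroup.mem_set_normalizer_iff.1 hy) (n : G ⧸ R)
    simp only [SetLike.mem_coe] at h1 ⊢
    rw [hiff, hiff]
    simpa using h1
  rw [hself] at hyN
  exact (hiff y).1 hyN

theorem case1 {G : Type*} [Group G] [Finite G]
    (hS : ∀ H : Subgroup G, ¬ IsMulCommutative H → Subgroup.normalizer (H : Set G) = H)
    (R : Subgroup G) [R.Normal]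
    (hQna : ¬ ∀ x y : G ⧸ R, x * y = y * x)
    (hQsimple : ∀ N : Subgroup (G ⧸ R), N.Normal → N = ⊥ ∨ N = ⊤)
    (hCR : Subgroup.centralizer (R : Set G) ≤ R) : False := by
  classical
  have hself : ∀ x : G, x ∉ R →
      Subgroup.normalizer ((R ⊔ Subgroup.zpowers x : Subgroup G) : Set G)
        = R ⊔ Subgroup.zpowers x := by
    intro x hx
    apply hS
    have hxC : x ∉ Subgroup.centralizer (R : Set G) := fun h => hx (hCR h)
    rw [Subgroup.mem_centralizer_iff] at hxC
    push Not at hxC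
    obtain ⟨r, hr, hrx⟩ := hxC
    exact not_comm_of (Subgroup.mem_sup_left hr)
      (Subgroup.mem_sup_right (Subgroup.mem_zpowers x)) hrx
  have hQnt : Nontrivial (G ⧸ R) := by
    by_contra h
    rw [not_nontrivial_iff_subsingleton] at h
    exact hQna (fun a b => Subsingleton.elim _ _)
  have hcard : Nat.card (G ⧸ R) ≠ 1 := by
    intro h
    rw [Nat.card_eq_one_iff_unique] at h
    exact (not_subsingleton (G ⧸ R)) h.1
  obtain ⟨q, hq, hqdvd⟩ := Nat.exists_prime_and_dvd hcard
  have : Fact q.Prime := ⟨hq⟩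
  obtain ⟨Q⟩ : Nonempty (Sylow q (G ⧸ R)) := inferInstance
  have hQne : (Q : Subgroup (G ⧸ R)) ≠ ⊥ := Q.ne_bot_of_dvd_card hqdvd
  have hQnt' : Nontrivial (Q : Subgroup (G ⧸ R)) := (Subgroup.nontrivial_iff_ne_bot _).2 hQne
  have hcen : Nontrivial (Subgroup.center (Q : Subgroup (G ⧸ R))) :=
    Q.isPGroup'.center_nontrivial
  obtain ⟨z, hz⟩ := exists_ne (1 : Subgroup.center (Q : Subgroup (G ⧸ R)))
  set xb : G ⧸ R := ((z : (Q : Subgroup (G ⧸ R))) : G ⧸ R) with hxb
  have hxbQ : xb ∈ (Q : Subgroup (G ⧸ R)) := (z : (Q : Subgroup (G ⧸ R))).2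
  have hxb1 : xb ≠ 1 := by
    intro h
    apply hz
    apply Subtype.ext
    apply Subtype.ext
    exact h
  have hxbc : ∀ y ∈ (Q : Subgroup (G ⧸ R)), y * xb = xb * y := by
    intro y hy
    have := Subgroup.mem_center_iff.1 z.2 ⟨y, hy⟩
    exact congrArg Subtype.val this
  obtain ⟨x, hx⟩ := QuotientGroup.mk_surjective xb
  have hxR : x ∉ R := by
    intro h
    apply hxb1
    rw [← hx]; exact (QuotientGroup.eq_one_iff x).2 h
  have hA : ∀ yb : G ⧸ R, yb ∈ Subgroup.normalizer
      ((Subgroup.zpowers xb : Subgroup (G ⧸ R)) : Set (G ⧸ R)) → yb ∈ Subgroup.zpowers xb := by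
    intro yb hyb
    obtain ⟨y, rfl⟩ := QuotientGroup.mk_surjective yb
    rw [← hx] at hyb ⊢
    exact quot_normalizer_zpowers R x y (hself x hxR) hyb
  have hQle : (Q : Subgroup (G ⧸ R)) ≤ Subgroup.zpowers xb := by
    intro y hy
    apply hA
    apply Subgroup.centralizer_le_normalizer
    rw [Subgroup.mem_centralizer_iff]
    rintro h ⟨k, rfl⟩
    have hc : Commute xb y := (hxbc y hy).symm
    exact (hc.zpow_left k).eq
  have hQeq : (Q : Subgroup (G ⧸ R)) = Subgroup.zpowers xb :=
    le_antisymm hQle ((Subgroup.zpowers_le).2 hxbQ)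
  apply burnside_contra hQsimple hQna Q hQne
  intro y hy
  rw [hQeq] at hy ⊢
  have hyz := hA y hy
  obtain ⟨k, rfl⟩ := hyz
  rw [Subgroup.mem_centralizer_iff]
  rintro h ⟨j, rfl⟩
  exact ((Commute.refl xb).zpow_zpow j k).eq

theorem case2 {G : Type*} [Group G] [Finite G]
    (hS : ∀ H : Subgroup G, ¬ IsMulCommutative H → Subgroup.normalizer (H : Set G) = H)
    (R : Subgroup G) [R.Normal]
    (hQna : ¬ ∀ x y : G ⧸ R, x * y = y * x)
    (hQsimple : ∀ N : Subgroup (G ⧸ R), N.Normal → N = ⊥ ∨ N = ⊤)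
    (hRc : ∀ r ∈ R, ∀ g : G, g * r = r * g) (hRbot : R ≠ ⊥)
    (hperf : commutator G = ⊤) : False := by
  classical
  have hRnt : Nontrivial R := (Subgroup.nontrivial_iff_ne_bot R).2 hRbot
  have hcard : Nat.card R ≠ 1 := by
    intro h
    rw [Nat.card_eq_one_iff_unique] at h
    exact (not_subsingleton R) h.1
  obtain ⟨p, hp, hpdvd⟩ := Nat.exists_prime_and_dvd hcard
  have : Fact p.Prime := ⟨hp⟩
  obtain ⟨z', hz'⟩ := exists_prime_orderOf_dvd_card' p hpdvd
  set z : G := (z' : G) with hz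
  have hzR : z ∈ R := z'.2
  have hzo : orderOf z = p := by rw [hz, Subgroup.orderOf_coe]; exact hz'
  have hzc : ∀ g : G, g * z = z * g := hRc z hzR
  obtain ⟨P⟩ : Nonempty (Sylow p G) := inferInstance
  set n := (P : Subgroup G).index with hn
  have hpn : ¬ p ∣ n := P.not_dvd_index
  have key : ∀ (k : ℕ) (g₀ : G), g₀⁻¹ * z ^ k * g₀ ∈ (P : Subgroup G) →
      g₀⁻¹ * z ^ k * g₀ = z ^ k := by
    intro k g₀ _
    have : Commute g₀ (z ^ k) := (show Commute g₀ z from hzc g₀).pow_right k
    rw [mul_assoc, ← this.eq, inv_mul_cancel_left]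
  have hT := MonoidHom.transfer_eq_pow
    (Abelianization.of : (P : Subgroup G) →* Abelianization (P : Subgroup G)) z key
  have hT1 : MonoidHom.transfer
      (Abelianization.of : (P : Subgroup G) →* Abelianization (P : Subgroup G)) z = 1 := by
    have h1 := Abelianization.commutator_subset_ker (MonoidHom.transfer
      (Abelianization.of : (P : Subgroup G) →* Abelianization (P : Subgroup G)))
    rw [hperf] at h1
    exact h1 (Subgroup.mem_top z)
  rw [hT1] at hT
  have hznP : z ^ n ∈ (P : Subgroup G) := MonoidHom.transfer_eq_pow_aux z key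
  set w' : (P : Subgroup G) := ⟨z ^ n, hznP⟩ with hw'
  have hw'comm : w' ∈ commutator (P : Subgroup G) := by
    rw [← Abelianization.ker_of, MonoidHom.mem_ker]; exact hT.symm
  have hw'1 : w' ≠ 1 := by
    intro h
    have h1 : z ^ n = 1 := congrArg Subtype.val h
    exact hpn (hzo ▸ orderOf_dvd_of_pow_eq_one h1)
  obtain ⟨a, b, hab⟩ := exists_noncomm_of_mem_commutator w' hw'comm hw'1
  have hPna : ¬ IsMulCommutative (P : Subgroup G) :=
    not_comm_of a.2 b.2 (fun h => hab (Subtype.ext h))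
  have hPself : Subgroup.normalizer ((P : Subgroup G) : Set G) = P := hS _ hPna
  have hmin : ∀ H : Subgroup (P : Subgroup G), H ≠ ⊤ → ∀ x ∈ H, ∀ y ∈ H, x * y = y * x := by
    intro H hH x hx y hy
    by_contra hxy
    have hna' : ¬ IsMulCommutative (H.map (P : Subgroup G).subtype) :=
      not_comm_of (Subgroup.mem_map_of_mem _ hx) (Subgroup.mem_map_of_mem _ hy)
        (fun h => hxy (Subtype.ext h))
    have hself := hS _ hna'
    have hnil : Group.IsNilpotent (P : Subgroup G) := P.isPGroup'.isNilpotent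
    have hlt : H < Subgroup.normalizer (H : Set (P : Subgroup G)) :=
      Group.normalizerCondition_of_isNilpotent H (lt_top_iff_ne_top.2 hH)
    obtain ⟨u, huN, huH⟩ := SetLike.exists_of_lt hlt
    apply huH
    have hu' : (u : G) ∈ Subgroup.normalizer
        ((H.map (P : Subgroup G).subtype : Subgroup G) : Set G) := by
      apply mem_normalizer_of_conj_le
      rintro _ ⟨v, hv, rfl⟩
      refine ⟨u * v * u⁻¹, ?_, rfl⟩
      exact (Subgroup.mem_set_normalizer_iff.1 huN v).1 hv
    rw [hself] at hu'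
    obtain ⟨v, hv, hvu⟩ := hu'
    have : v = u := Subtype.ext hvu
    rw [← this]; exact hv
  have hcomm := commutator_le_zpowers_of_min_nonabelian P.isPGroup' hmin w' hw'comm hw'1
  have hcR : ∀ u ∈ (P : Subgroup G), ∀ v ∈ (P : Subgroup G), u * v * u⁻¹ * v⁻¹ ∈ R := by
    intro u hu v hv
    have h1 : ⁅(⟨u, hu⟩ : (P : Subgroup G)), ⟨v, hv⟩⁆ ∈ commutator (P : Subgroup G) := by
      rw [commutator_eq_closure]
      exact Subgroup.subset_closure ⟨_, _, rfl⟩
    obtain ⟨k, hk⟩ := hcomm h1
    have h2 : (z ^ n) ^ k = u * v * u⁻¹ * v⁻¹ := by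
      have := congrArg Subtype.val hk
      simpa [commutatorElement_def] using this
    rw [← h2]
    exact R.zpow_mem (R.pow_mem hzR n) k
  let Pb : Sylow p (G ⧸ R) := P.mapSurjective (QuotientGroup.mk'_surjective R)
  have hPb : (Pb : Subgroup (G ⧸ R)) = (P : Subgroup G).map (QuotientGroup.mk' R) :=
    Sylow.coe_mapSurjective _ _
  have hPbcomm : ∀ x ∈ (Pb : Subgroup (G ⧸ R)), ∀ y ∈ (Pb : Subgroup (G ⧸ R)),
      x * y = y * x := by
    intro x hx y hy
    rw [hPb] at hx hy
    obtain ⟨u, hu, rfl⟩ := hx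
    obtain ⟨v, hv, rfl⟩ := hy
    show ((u : G) : G ⧸ R) * (v : G ⧸ R) = v * u
    rw [← QuotientGroup.mk_mul, ← QuotientGroup.mk_mul, QuotientGroup.eq]
    have := hcR v⁻¹ (inv_mem hv) u⁻¹ (inv_mem hu)
    have e : (u * v)⁻¹ * (v * u) = v⁻¹ * u⁻¹ * v⁻¹⁻¹ * u⁻¹⁻¹ := by group
    rw [e]; exact this
  have hPbne : (Pb : Subgroup (G ⧸ R)) ≠ ⊥ := by
    intro h
    apply hab
    have ha : (a : G) ∈ R := by
      have : ((a : G) : G ⧸ R) ∈ (Pb : Subgroup (G ⧸ R)) := by
        rw [hPb]; exact Subgroup.mem_map_of_mem _ a.2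
      rw [h, Subgroup.mem_bot] at this
      exact (QuotientGroup.eq_one_iff _).1 this
    apply Subtype.ext
    exact (hRc a ha b).symm
  apply burnside_contra hQsimple hQna Pb hPbne
  intro yb hyb
  have hyP : yb ∈ (Pb : Subgroup (G ⧸ R)) := by
    obtain ⟨y, rfl⟩ := QuotientGroup.mk_surjective yb
    have hyN : y ∈ Subgroup.normalizer ((P : Subgroup G) : Set G) := by
      apply mem_normalizer_of_conj_le
      intro u hu
      have h1 : ((y * u * y⁻¹ : G) : G ⧸ R) ∈ (Pb : Subgroup (G ⧸ R)) := by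
        have h2 := (Subgroup.mem_set_normalizer_iff.1 hyb (u : G ⧸ R)).1
          (by rw [SetLike.mem_coe, hPb]; exact Subgroup.mem_map_of_mem _ hu)
        have h3 : (y : G ⧸ R) * (u : G ⧸ R) * (y : G ⧸ R)⁻¹ ∈ (Pb : Subgroup (G ⧸ R)) := h2
        rw [QuotientGroup.mk_mul, QuotientGroup.mk_mul, QuotientGroup.mk_inv]
        exact h3
      rw [hPb] at h1
      obtain ⟨u', hu', hu'eq⟩ := h1
      have hr : u'⁻¹ * (y * u * y⁻¹) ∈ R := QuotientGroup.eq.1 hu'eq
      set r := u'⁻¹ * (y * u * y⁻¹) with hrdef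
      have hrc : ∀ g : G, g * r = r * g := hRc r hr
      obtain ⟨m, hm⟩ := IsPGroup.iff_card.1 P.isPGroup'
      have hpowP : ∀ v ∈ (P : Subgroup G), v ^ (p ^ m) = 1 := by
        intro v hv
        have h3 := pow_card_eq_one' (x := (⟨v, hv⟩ : (P : Subgroup G)))
        rw [hm] at h3
        have h4 := congrArg Subtype.val h3
        simpa using h4
      have e : y * u * y⁻¹ = u' * r := by rw [hrdef]; group
      have hupow : (y * u * y⁻¹) ^ (p ^ m) = 1 := by
        rw [conj_pow, hpowP u hu]; group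
      have hrpow : r ^ (p ^ m) = 1 := by
        have hc : Commute u' r := hrc u'
        rw [e, hc.mul_pow, hpowP u' hu', one_mul] at hupow
        exact hupow
      have hrP : r ∈ P := central_mem_sylow P r hrc m hrpow
      rw [e]; exact mul_mem hu' hrP
    rw [hPself] at hyN
    rw [hPb]; exact Subgroup.mem_map_of_mem _ hyN
  rw [Subgroup.mem_centralizer_iff]
  intro h hh
  exact hPbcomm h hh yb hyP

/-- A finite group in which every non-abelian subgroup is self-normalizing is solvable or simple. -/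
theorem result {G : Type*} [Group G] [Finite G] (hS : ∀ H : Subgroup G, ¬ IsMulCommutative H → Subgroup.normalizer (H : Set G) = H) :
    Group.IsSolvable G ∨ IsSimpleGroup G := by
  classical
  by_contra hcon
  push Not at hcon
  obtain ⟨hns, hnsimp⟩ := hcon
  -- Step 0: proper normal subgroups are abelian
  have hnorm_ab : ∀ N : Subgroup G, N.Normal → N ≠ ⊤ → ∀ x ∈ N, ∀ y ∈ N, x * y = y * x := by
    intro N hN hNtop x hx y hy
    by_contra hxy
    have h1 := hS N (not_comm_of hx hy hxy)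
    rw [Subgroup.normalizer_eq_top_iff.2 hN] at h1
    exact hNtop h1.symm
  -- Step 1: two proper normal subgroups cannot generate
  have hsup : ∀ N₁ N₂ : Subgroup G, N₁.Normal → N₂.Normal → N₁ ≠ ⊤ → N₂ ≠ ⊤ → N₁ ⊔ N₂ ≠ ⊤ := by
    intro N₁ N₂ h1 h2 h1t h2t htop
    apply hns
    apply solvable_of_abelian_normal N₁ (hnorm_ab N₁ h1 h1t)
    have hrep : ∀ x : G ⧸ N₁, ∃ n ∈ N₂, (n : G ⧸ N₁) = x := by
      intro x
      induction x using QuotientGroup.induction_on with
      | _ g =>
        have hg : g ∈ N₁ ⊔ N₂ := by rw [htop]; trivial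
        rw [← SetLike.mem_coe, Subgroup.normal_mul, Set.mem_mul] at hg
        obtain ⟨a, ha, b, hb, rfl⟩ := hg
        refine ⟨b, hb, ?_⟩
        rw [QuotientGroup.mk_mul, (QuotientGroup.eq_one_iff a).2 ha, one_mul]
    intro x y
    obtain ⟨a, ha, rfl⟩ := hrep x
    obtain ⟨b, hb, rfl⟩ := hrep y
    rw [← QuotientGroup.mk_mul, ← QuotientGroup.mk_mul, hnorm_ab N₂ h2 h2t a ha b hb]
  have hnt : Nontrivial G := by
    by_contra hnt
    rw [not_nontrivial_iff_subsingleton] at hnt
    exact hns (Group.isSolvable_of_comm (fun a b => Subsingleton.elim _ _))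
  -- Step 2: the largest proper normal subgroup
  let S : Set (Subgroup G) := {N | N.Normal ∧ N ≠ ⊤}
  have hbotS : (⊥ : Subgroup G) ∈ S := ⟨inferInstance, bot_ne_top⟩
  obtain ⟨R, -, hRmax⟩ := (Set.toFinite S).exists_le_maximal hbotS
  have hRn : R.Normal := hRmax.prop.1
  have hRtop : R ≠ ⊤ := hRmax.prop.2
  have hRall : ∀ N : Subgroup G, N.Normal → N ≠ ⊤ → N ≤ R := by
    intro N hN hNt
    have h1 : R ⊔ N ≠ ⊤ := hsup R N hRn hN hRtop hNt
    have h2 : R ⊔ N ∈ S := ⟨inferInstance, h1⟩
    exact le_sup_right.trans (hRmax.le_of_ge h2 le_sup_left)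
  have hRab := hnorm_ab R hRn hRtop
  have hRbot : R ≠ ⊥ := by
    intro hRb
    apply hnsimp
    refine { toNontrivial := hnt, eq_bot_or_eq_top_of_normal := fun H hH => ?_ }
    by_cases hHt : H = ⊤
    · exact Or.inr hHt
    · left
      have := hRall H hH hHt
      rw [hRb] at this
      exact le_bot_iff.1 this
  -- Step 4: the quotient
  have hQna : ¬ ∀ x y : G ⧸ R, x * y = y * x := fun h =>
    hns (solvable_of_abelian_normal R hRab h)
  have hQsimple : ∀ N : Subgroup (G ⧸ R), N.Normal → N = ⊥ ∨ N = ⊤ := by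
    intro N hN
    by_cases hc : N.comap (QuotientGroup.mk' R) = ⊤
    · right
      rw [eq_top_iff]
      intro x _
      induction x using QuotientGroup.induction_on with
      | _ g =>
        have : g ∈ N.comap (QuotientGroup.mk' R) := by rw [hc]; trivial
        exact this
    · left
      have hle := hRall _ (hN.comap _) hc
      rw [eq_bot_iff]
      intro x hx
      induction x using QuotientGroup.induction_on with
      | _ g =>
        have : g ∈ R := hle hx
        rw [Subgroup.mem_bot]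
        exact (QuotientGroup.eq_one_iff g).2 this
  by_cases hC : Subgroup.centralizer (R : Set G) = ⊤
  · have hRc : ∀ r ∈ R, ∀ g : G, g * r = r * g := by
      intro r hr g
      have : g ∈ Subgroup.centralizer (R : Set G) := by rw [hC]; trivial
      exact (Subgroup.mem_centralizer_iff.1 this r hr).symm
    have hperf : commutator G = ⊤ := by
      by_contra hne
      apply hns
      apply solvable_of_abelian_normal (commutator G) (hnorm_ab _ inferInstance hne)
      intro x y
      exact mul_comm (G := Abelianization G) x y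
    exact case2 hS R hQna hQsimple hRc hRbot hperf
  · have hCn : (Subgroup.centralizer (R : Set G)).Normal := inferInstance
    exact case1 hS R hQna hQsimple (hRall _ hCn hC)

end Cfsg.Agent.S4072
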