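import Mathlib
import Cfsg.Statements.S4074

set_option autoImplicit false
open Cfsg

namespace Cfsg.Agent.S4074

open DihedralGroup

/-- The parity homomorphism on `DihedralGroup n` for even `n`. -/
noncomputable def par (n : ℕ) (h2 : 2 ∣ n) : DihedralGroup n →* Multiplicative (ZMod 2) where
  toFun
    | r i => Multiplicative.ofAdd (ZMod.castHom h2 (ZMod 2) i)
    | sr i => Multiplicative.ofAdd (ZMod.castHom h2 (ZMod 2) i)
  map_one' := by
    rw [one_def]
    simp
  map_mul' := by
    have hneg : ∀ a : ZMod 2, -a = a := by decide
    rintro (i | i) (j | j)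
    · simp only [r_mul_r, map_add]; rfl
    · rw [r_mul_sr]
      show Multiplicative.ofAdd (ZMod.castHom h2 (ZMod 2) (j - i)) = Multiplicative.ofAdd _ * Multiplicative.ofAdd _
      rw [map_sub, ← ofAdd_add, sub_eq_add_neg, hneg, add_comm]
    · simp only [sr_mul_r, map_add]; rfl
    · rw [sr_mul_sr]
      show Multiplicative.ofAdd (ZMod.castHom h2 (ZMod 2) (j - i)) = Multiplicative.ofAdd _ * Multiplicative.ofAdd _
      rw [map_sub, ← ofAdd_add, sub_eq_add_neg, hneg, add_comm]

theorem rot_mem {n : ℕ} (hodd : Odd n) (H : Subgroup (DihedralGroup n)) (i k : ZMod n)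
    (hi : sr i ∈ H) (hk : r k ∈ Subgroup.normalizer (H : Set (DihedralGroup n))) : r k ∈ H := by
  have h1 : r k * sr i * (r k)⁻¹ ∈ H := (Subgroup.mem_set_normalizer_iff.1 hk (sr i)).1 hi
  rw [inv_r, r_mul_sr, sr_mul_r] at h1
  have h2 : sr i * sr (i - k + -k) ∈ H := H.mul_mem hi h1
  rw [sr_mul_sr] at h2
  have h3 : r (2 * k) ∈ H := by
    have := H.inv_mem h2
    rw [inv_r] at this
    convert this using 2
    ring
  obtain ⟨m, hm⟩ := hodd
  have h4 : r (2 * k) ^ (m + 1) ∈ H := H.pow_mem h3 _
  rw [r_pow] at h4
  convert h4 using 2
  have : ((2 * m + 1 : ℕ) : ZMod n) = 0 := by rw [← hm]; exact ZMod.natCast_self n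
  push_cast at this ⊢
  linear_combination (-k) * this

/-- For n > 2, every non-abelian subgroup of the dihedral group of order 2n is self-normalizing if and only if n = 4 or n is odd. -/
theorem result (n : ℕ) (hn : 2 < n) :
    (∀ H : Subgroup (DihedralGroup n), ¬ IsMulCommutative H → Subgroup.normalizer (H : Set (DihedralGroup n)) = H) ↔
    (n = 4 ∨ Odd n) := by
  have : NeZero n := ⟨by omega⟩
  constructor
  · intro hS
    by_contra hcon
    push Not at hcon
    obtain ⟨h4, hodd⟩ := hcon
    have h2 : 2 ∣ n := by
      rcases Nat.even_or_odd n with he | ho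
      · exact even_iff_two_dvd.1 he
      · exact absurd ho hodd
    let H := (par n h2).ker
    have hnc : ¬ IsMulCommutative H := by
      intro hc
      have m1 : sr (0 : ZMod n) ∈ H := by
        rw [MonoidHom.mem_ker]; simp [par]
      have m2 : r (2 : ZMod n) ∈ H := by
        rw [MonoidHom.mem_ker]
        simp only [par, MonoidHom.coe_mk, OneHom.coe_mk]
        have : (ZMod.castHom h2 (ZMod 2)) (2 : ZMod n) = 0 := by
          rw [map_ofNat]; decide
        rw [this]; rfl
      have := mul_comm' (⟨sr 0, m1⟩ : H) ⟨r 2, m2⟩
      have h5 : sr (0 : ZMod n) * r 2 = r 2 * sr 0 := congrArg Subtype.val this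
      rw [sr_mul_r, r_mul_sr] at h5
      have h6 : (0 : ZMod n) + 2 = 0 - 2 := by injection h5
      have h7 : ((4 : ℕ) : ZMod n) = 0 := by
        push_cast
        linear_combination h6
      rw [ZMod.natCast_eq_zero_iff] at h7
      have := Nat.le_of_dvd (by norm_num) h7
      interval_cases n <;> simp_all
    have h1 := hS H hnc
    rw [Subgroup.normalizer_eq_top] at h1
    have : r (1 : ZMod n) ∈ H := by rw [← h1]; trivial
    rw [MonoidHom.mem_ker] at this
    simp only [par, MonoidHom.coe_mk, OneHom.coe_mk, map_one] at this
    exact absurd this (by decide)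
  · rintro (rfl | hodd) H hH
    · -- n = 4
      have hcard : Nat.card (DihedralGroup 4) = 8 := by rw [DihedralGroup.nat_card]
      have hdvd : Nat.card H ∣ 8 := hcard ▸ Subgroup.card_subgroup_dvd_card H
      have htop : H = ⊤ := by
        have hle : Nat.card H ≤ 8 := Nat.le_of_dvd (by norm_num) hdvd
        have hpos : 0 < Nat.card H := Nat.card_pos
        have : Fact (Nat.Prime 2) := ⟨Nat.prime_two⟩
        interval_cases h : Nat.card H <;> try omega
        · exfalso; apply hH
          have : Subsingleton H := (Nat.card_eq_one_iff_unique.1 h).1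
          rw [isMulCommutative_iff]
          intro a b; exact Subsingleton.elim _ _
        · exfalso; apply hH
          have : IsCyclic H := isCyclic_of_prime_card (p := 2) h
          rw [isMulCommutative_iff]
          intro a b
          exact (IsCyclic.commGroup (α := H)).mul_comm a b
        · exfalso; apply hH
          exact IsPGroup.isMulCommutative_of_card_eq_prime_sq (p := 2) (by rw [h]; norm_num)
        · exact Subgroup.eq_top_of_card_eq H (by rw [h, hcard])
      subst htop
      ext g
      simp [Subgroup.mem_set_normalizer_iff]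
    · -- n odd
      apply le_antisymm _ Subgroup.le_normalizer
      have hsr : ∃ i : ZMod n, sr i ∈ H := by
        by_contra hcon
        push Not at hcon
        apply hH
        rw [isMulCommutative_iff]
        rintro ⟨a, ha⟩ ⟨b, hb⟩
        apply Subtype.ext
        show a * b = b * a
        rcases a with i | i
        · rcases b with j | j
          · rw [r_mul_r, r_mul_r, add_comm]
          · exact absurd hb (hcon j)
        · exact absurd ha (hcon i)
      obtain ⟨i, hi⟩ := hsr
      intro g hg
      rcases g with k | k
      · exact rot_mem hodd H i k hi hg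
      · have h1 : r (k - i) ∈ Subgroup.normalizer (H : Set (DihedralGroup n)) := by
          have : r (k - i) = (sr i)⁻¹ * sr k := by
            rw [inv_sr, sr_mul_sr]
          rw [this]
          exact Subgroup.mul_mem _ (Subgroup.inv_mem _ (Subgroup.le_normalizer hi)) hg
        have h2 := rot_mem hodd H i (k - i) hi h1
        have : sr k = sr i * r (k - i) := by
          rw [sr_mul_r]; congr 1; ring
        rw [this]
        exact H.mul_mem hi h2

end Cfsg.Agent.S4074
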