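import Mathlib
import Cfsg.Statements.S4075

set_option autoImplicit false
open Cfsg

namespace Cfsg.Agent.S4075

/-- Let G be a finite nilpotent group. Every non-abelian subgroup of G is self-normalizing if and only if G is abelian or G is a minimal non-abelian p-group for some prime p (non-abelian of prime-power order with every proper subgroup abelian). -/
theorem result {G : Type*} [Group G] [Finite G]
    [Group.IsNilpotent G] :
    (∀ H : Subgroup G, ¬ IsMulCommutative H → Subgroup.normalizer (H : Set G) = H) ↔
    (IsMulCommutative G ∨ (IsPrimePow (Nat.card G) ∧ ¬ IsMulCommutative G ∧ ∀ H : Subgroup G, H ≠ ⊤ → IsMulCommutative H)) := by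
  constructor
  · intro hS
    by_cases hG : IsMulCommutative G
    · exact Or.inl hG
    · right
      have hproper : ∀ H : Subgroup G, H ≠ ⊤ → IsMulCommutative H := by
        intro H hH
        by_contra hc
        have h1 := hS H hc
        have h2 := Group.normalizerCondition_of_isNilpotent (G := G) H (lt_top_iff_ne_top.2 hH)
        rw [h1] at h2
        exact lt_irrefl _ h2
      refine ⟨?_, hG, hproper⟩
      -- some Sylow subgroup is non-abelian
      have hn : ∀ {p : ℕ} [Fact p.Prime] (P : Sylow p G), (P : Subgroup G).Normal := fun P =>
        Sylow.normal_of_normalizerCondition Group.normalizerCondition_of_isNilpotent P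
      have hex : ∃ p : (Nat.card G).primeFactors, ∃ P : Sylow p G, ¬ IsMulCommutative P := by
        by_contra hcon
        push Not at hcon
        apply hG
        rw [isMulCommutative_iff]
        intro a b
        have e := Sylow.directProductOfNormal hn
        apply e.symm.injective
        rw [map_mul, map_mul]
        funext p P
        have := hcon p P
        exact mul_comm' _ _
      obtain ⟨p, P, hP⟩ := hex
      have hp : (p : ℕ).Prime := Nat.prime_of_mem_primeFactors p.2
      have := Fact.mk hp
      have htop : (P : Subgroup G) = ⊤ := by
        by_contra h
        exact hP (hproper _ h)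
      have hpg : IsPGroup p G := by
        have := P.isPGroup'
        rw [htop] at this
        exact IsPGroup.of_equiv this Subgroup.topEquiv
      obtain ⟨n, hn'⟩ := hpg.exists_card_eq
      rw [isPrimePow_nat_iff]
      refine ⟨p, n, hp, ?_, hn'.symm⟩
      rcases Nat.eq_zero_or_pos n with rfl | hpos
      · exfalso
        apply hG
        rw [pow_zero] at hn'
        have : Subsingleton G := (Nat.card_eq_one_iff_unique.1 hn').1
        rw [isMulCommutative_iff]
        intro a b
        exact Subsingleton.elim _ _
      · exact hpos
  · rintro (hG | ⟨-, -, hproper⟩) H hH
    · exfalso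
      apply hH
      rw [isMulCommutative_iff]
      intro a b
      exact Subtype.ext (mul_comm' (a : G) (b : G))
    · have : H = ⊤ := by
        by_contra h
        exact hH (hproper H h)
      subst this
      ext g
      simp [Subgroup.mem_set_normalizer_iff]

end Cfsg.Agent.S4075
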