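import Cfsg.Statements.S4079
import Cfsg.Agent.H15.MetaAut3

set_option autoImplicit false
open Cfsg

namespace Cfsg.Agent.S4079

/-- Let p be an odd prime and L a finite metacyclic p-group with no cyclic subgroup of index p, and let a be an automorphism of L of order p. Then a moves some element of order p of L if and only if p = 3 and the semidirect product L ⋊ ⟨a⟩ (of order 3·#L) has maximal class, i.e. nilpotency class m where #L = 3^m. -/
theorem result {L : Type*} [Group L] [Finite L] {p : ℕ} [Fact p.Prime]
    (hp : p ≠ 2) (hL : IsPGroup p L) (hmc : Cfsg.IsMetacyclic L) (hnc : ∀ C : Subgroup L, IsCyclic C → C.index ≠ p)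
    (a : MulAut L) (ha : orderOf a = p) (m : ℕ) (hm : Nat.card L = p ^ m) :
    (∃ x : L, orderOf x = p ∧ a x ≠ x) ↔
    (p = 3 ∧ Group.nilpotencyClass (SemidirectProduct L ↥(Subgroup.zpowers a) (Subgroup.zpowers a).subtype) = m) := by
  have hnc' := Cfsg.Agent.H15.ma_hnc hL hnc a ha
  constructor
  · rintro ⟨x, hx, hax⟩
    exact Cfsg.Agent.H15.ma_forward hp hL hmc hnc' a ha m hm x
      (by rw [← hx]; exact pow_orderOf_eq_one x) hax
  · rintro ⟨-, hclass⟩
    exact Cfsg.Agent.H15.ma_backward hp hL hmc hnc' a ha m hm hclass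

end Cfsg.Agent.S4079
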