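import Mathlib
import Cfsg.Statements.S4080

set_option autoImplicit false
open Cfsg

namespace Cfsg.Agent.S4080

theorem nilp_sq {p : ℕ} [Fact p.Prime] (N : Matrix (Fin 2) (Fin 2) (ZMod p)) (h : IsNilpotent N) :
    N ^ 2 = 0 := by
  have h1 := Matrix.isNilpotent_charpoly_sub_pow_of_isNilpotent h
  have h2 : N.charpoly = Polynomial.X ^ 2 := by
    have := h1.eq_zero
    simpa [sub_eq_zero] using this
  have h3 := Matrix.aeval_self_charpoly N
  rw [h2] at h3
  simpa using h3

theorem dvd_val {p : ℕ} [Fact p.Prime] (r : ZMod (p ^ 2)) (h : p ∣ r.val) :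
    ∃ s : ZMod (p ^ 2), r = (p : ZMod (p ^ 2)) * s := by
  have : NeZero (p ^ 2) := ⟨pow_ne_zero 2 (Fact.out : p.Prime).ne_zero⟩
  obtain ⟨k, hk⟩ := h
  refine ⟨(k : ZMod (p ^ 2)), ?_⟩
  rw [← Nat.cast_mul, ← hk, ZMod.natCast_zmod_val]

theorem exists_of_mul_eq_zero {p : ℕ} [Fact p.Prime] (r : ZMod (p ^ 2))
    (h : (p : ZMod (p ^ 2)) * r = 0) : ∃ s : ZMod (p ^ 2), r = (p : ZMod (p ^ 2)) * s := by
  have : NeZero (p ^ 2) := ⟨pow_ne_zero 2 (Fact.out : p.Prime).ne_zero⟩
  apply dvd_val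
  have h1 : ((p * r.val : ℕ) : ZMod (p ^ 2)) = 0 := by
    rw [Nat.cast_mul, ZMod.natCast_zmod_val]; exact h
  have h2 : p ^ 2 ∣ p * r.val := (ZMod.natCast_eq_zero_iff _ _).1 h1
  have h3 : p * p ∣ p * r.val := (dvd_of_eq (pow_two p).symm).trans h2
  exact (Nat.mul_dvd_mul_iff_left (Fact.out : p.Prime).pos).1 h3

theorem exists_of_cast_eq_zero {p : ℕ} [Fact p.Prime] (r : ZMod (p ^ 2))
    (h : ZMod.castHom (dvd_pow_self p two_ne_zero) (ZMod p) r = 0) :
    ∃ s : ZMod (p ^ 2), r = (p : ZMod (p ^ 2)) * s := by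
  have : NeZero (p ^ 2) := ⟨pow_ne_zero 2 (Fact.out : p.Prime).ne_zero⟩
  apply dvd_val
  have h1 : ((r.val : ℕ) : ZMod p) = 0 := by
    rw [← h, ← map_natCast (ZMod.castHom (dvd_pow_self p two_ne_zero) (ZMod p)),
      ZMod.natCast_zmod_val]
  exact (ZMod.natCast_eq_zero_iff _ _).1 h1

theorem key {p : ℕ} [Fact p.Prime] (hp : 3 < p) (M : Matrix (Fin 2) (Fin 2) (ZMod (p ^ 2)))
    (hM : M ^ p = 1) : (M - 1) * (p : Matrix (Fin 2) (Fin 2) (ZMod (p ^ 2))) = 0 := by
  have hpp : (Fact.out : p.Prime) = (Fact.out : p.Prime) := rfl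
  have hprime : p.Prime := Fact.out
  set ρ : ZMod (p ^ 2) →+* ZMod p := ZMod.castHom (dvd_pow_self p two_ne_zero) (ZMod p) with hρ
  set N := M - 1 with hN
  set P : Matrix (Fin 2) (Fin 2) (ZMod (p ^ 2)) := (p : Matrix (Fin 2) (Fin 2) (ZMod (p ^ 2)))
    with hP
  have hPP : P * P = 0 := by
    rw [hP, ← Nat.cast_mul, ← pow_two]
    exact CharP.cast_eq_zero _ _
  have hPc : ∀ X : Matrix (Fin 2) (Fin 2) (ZMod (p ^ 2)), P * X = X * P := fun X =>
    (Nat.cast_commute p X).eq
  -- reduction mod p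
  have hNbar : (ρ.mapMatrix N) ^ 2 = 0 := by
    apply nilp_sq
    refine ⟨p, ?_⟩
    have h1 : ρ.mapMatrix N = ρ.mapMatrix M - 1 := by rw [hN, map_sub, map_one]
    rw [h1, sub_pow_char_of_commute p (Commute.one_right _), one_pow, ← map_pow, hM, map_one, sub_self]
  have hN2 : ∃ B : Matrix (Fin 2) (Fin 2) (ZMod (p ^ 2)), N ^ 2 = P * B := by
    have h1 : ∀ i j, ρ ((N ^ 2) i j) = 0 := by
      intro i j
      have := congrFun (congrFun hNbar i) j
      rw [← map_pow] at this
      simpa using this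
    choose B hB using fun i j => exists_of_cast_eq_zero ((N ^ 2) i j) (h1 i j)
    refine ⟨Matrix.of B, ?_⟩
    ext i j
    rw [hB i j, hP]
    simp [Matrix.mul_apply, Matrix.natCast_apply]
  obtain ⟨B, hB⟩ := hN2
  have hterm : ∀ m, 2 ≤ m → m ≤ p → N ^ m * 1 ^ (p - m) *
      ((p.choose m : ℕ) : Matrix (Fin 2) (Fin 2) (ZMod (p ^ 2))) = 0 := by
    intro m hm2 hmp
    rcases Nat.lt_or_ge m p with hlt | hge
    · have hdvd : p ∣ p.choose m := hprime.dvd_choose_self (by omega) hlt
      obtain ⟨c, hc⟩ := hdvd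
      have e : N ^ m = N ^ 2 * N ^ (m - 2) := by rw [← pow_add]; congr 1; omega
      rw [hc, Nat.cast_mul, e, hB, one_pow, mul_one]
      calc P * B * N ^ (m - 2) * (P * (c : Matrix (Fin 2) (Fin 2) (ZMod (p ^ 2))))
          = P * (B * N ^ (m - 2)) * P * c := by simp only [mul_assoc]
        _ = P * P * (B * N ^ (m - 2)) * c := by
            rw [mul_assoc P (B * N ^ (m - 2)) P, ← hPc (B * N ^ (m - 2)), ← mul_assoc]
        _ = 0 := by rw [hPP, zero_mul, zero_mul]
    · have e : N ^ m = N ^ 2 * N ^ 2 * N ^ (m - 4) := by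
        rw [← pow_add, ← pow_add]; congr 1; omega
      have e2 : P * B * (P * B) = 0 := by
        calc P * B * (P * B) = P * (B * P) * B := by simp only [mul_assoc]
          _ = P * (P * B) * B := by rw [hPc B]
          _ = P * P * B * B := by simp only [mul_assoc]
          _ = 0 := by rw [hPP, zero_mul, zero_mul]
      rw [e, hB, e2, zero_mul, zero_mul, zero_mul]
  have hsum : (N + 1) ^ p = 1 + N * P := by
    rw [(Commute.one_right N).add_pow, Finset.sum_range_succ', Finset.sum_eq_single 0]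
    · simp [Nat.choose_one_right, hP, add_comm]
    · intro m hm hm0
      rw [Finset.mem_range] at hm
      exact hterm (m + 1) (by omega) (by omega)
    · intro h0
      exact absurd (Finset.mem_range.2 hprime.pos) h0
  have hMN : M = N + 1 := by rw [hN]; abel
  rw [hMN, hsum] at hM
  have := congrArg (fun t => t - 1) hM
  simpa using this

/-- Let p > 3 be a prime and L the direct product of two cyclic groups of order p². Every automorphism of L of order p fixes every element of order p of L. -/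
theorem result {p : ℕ} [Fact p.Prime] (hp : 3 < p)
    (a : MulAut (Multiplicative (ZMod (p ^ 2) × ZMod (p ^ 2)))) (ha : orderOf a = p)
    (x : Multiplicative (ZMod (p ^ 2) × ZMod (p ^ 2))) (hx : orderOf x = p) : a x = x := by
  have hprime : p.Prime := Fact.out
  have hap : a ^ p = 1 := by
    have := pow_orderOf_eq_one a
    rwa [ha] at this
  have hxp : x ^ p = 1 := by
    have := pow_orderOf_eq_one x
    rwa [hx] at this
  let φ : (ZMod (p ^ 2) × ZMod (p ^ 2)) →+ (ZMod (p ^ 2) × ZMod (p ^ 2)) :=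
    { toFun := fun v => Multiplicative.toAdd (a (Multiplicative.ofAdd v))
      map_zero' := by simp
      map_add' := by intro v w; simp }
  let ψ : (ZMod (p ^ 2) × ZMod (p ^ 2)) →ₗ[ZMod (p ^ 2)] (ZMod (p ^ 2) × ZMod (p ^ 2)) :=
    AddMonoidHom.toZModLinearMap (p ^ 2) φ
  have hψ : ∀ v, ψ v = Multiplicative.toAdd (a (Multiplicative.ofAdd v)) := fun v => rfl
  have hpow : ∀ n : ℕ, ∀ v, (ψ ^ n) v =
      Multiplicative.toAdd ((a ^ n) (Multiplicative.ofAdd v)) := by
    intro n
    induction n with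
    | zero => intro v; simp
    | succ n ih =>
      intro v
      rw [pow_succ ψ n, Module.End.mul_apply, ih, pow_succ a n, MulAut.mul_apply, hψ]
      rfl
  have hψp : ψ ^ p = 1 := by
    apply LinearMap.ext
    intro v
    rw [hpow, hap]
    rfl
  set b := Module.Basis.finTwoProd (ZMod (p ^ 2)) with hb
  set M := LinearMap.toMatrixAlgEquiv b ψ with hM
  have hMp : M ^ p = 1 := by rw [hM, ← map_pow, hψp, map_one]
  have hk := key hp M hMp
  have hk2 : (ψ - 1) * ((p : ℕ) : Module.End (ZMod (p ^ 2)) (ZMod (p ^ 2) × ZMod (p ^ 2))) = 0 := by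
    apply (LinearMap.toMatrixAlgEquiv b).injective
    rw [map_mul, map_sub, map_one, map_natCast, map_zero]
    exact hk
  -- write `x` as `p • w`
  have hv : p • Multiplicative.toAdd x = 0 := by
    have := congrArg Multiplicative.toAdd hxp
    simpa using this
  have h1 : (p : ZMod (p ^ 2)) * (Multiplicative.toAdd x).1 = 0 := by
    have := congrArg Prod.fst hv
    simpa using this
  have h2 : (p : ZMod (p ^ 2)) * (Multiplicative.toAdd x).2 = 0 := by
    have := congrArg Prod.snd hv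
    simpa using this
  obtain ⟨s1, hs1⟩ := exists_of_mul_eq_zero _ h1
  obtain ⟨s2, hs2⟩ := exists_of_mul_eq_zero _ h2
  have hw : Multiplicative.toAdd x = p • ((s1, s2) : ZMod (p ^ 2) × ZMod (p ^ 2)) := by
    ext
    · simp [hs1]
    · simp [hs2]
  have h3 := congrArg (fun T : Module.End (ZMod (p ^ 2)) (ZMod (p ^ 2) × ZMod (p ^ 2)) =>
    T (s1, s2)) hk2
  simp only [Module.End.mul_apply, LinearMap.sub_apply, Module.End.one_apply,
    LinearMap.zero_apply] at h3
  have h4 : ((p : ℕ) : Module.End (ZMod (p ^ 2)) (ZMod (p ^ 2) × ZMod (p ^ 2))) (s1, s2)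
      = Multiplicative.toAdd x := by
    rw [hw]; simp
  rw [h4, sub_eq_zero, hψ] at h3
  have := congrArg Multiplicative.ofAdd h3
  simpa using this

end Cfsg.Agent.S4080
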