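import Mathlib
import Cfsg.Statements.S4082
import Cfsg.Agent.H71.PByCycC

set_option autoImplicit false
open Cfsg

namespace Cfsg.Agent.S4082

/-- Let p be an odd prime and G a finite group with Sylow p-subgroup P. Say that G has restricted p-by-cyclic subgroups when every subgroup H of G whose Sylow p-subgroup is normal in H with cyclic quotient is itself cyclic or dihedral of order 2pⁿ for some n. Then G has restricted p-by-cyclic subgroups if and only if P is cyclic and one of the following holds: (1) N_G(P) = C_G(P); or (2) N_G(P)/C_G(P) has order 2 and, for the subgroup Q of order p of P, the centralizer C_G(Q) is abelian and every element of N_G(Q) outside C_G(Q) is an involution inverting every element of C_G(Q). -/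
theorem result {G : Type*} [Group G] [Finite G] {p : ℕ}
    [Fact p.Prime] (hp : p ≠ 2) (P : Sylow p G) :
    (∀ H : Subgroup G, (∀ S : Sylow p ↥H, (S : Subgroup ↥H).Normal) →
        (∀ (S : Sylow p ↥H) [(S : Subgroup ↥H).Normal], IsCyclic (↥H ⧸ (S : Subgroup ↥H))) →
        IsCyclic H ∨ (∃ n : ℕ, Nonempty (H ≃* DihedralGroup (p ^ n)))) ↔
    (IsCyclic P ∧
      (Subgroup.normalizer ((P : Subgroup G) : Set G) = Subgroup.centralizer ((P : Subgroup G) : Set G) ∨
       ((Subgroup.centralizer ((P : Subgroup G) : Set G)).relIndex (Subgroup.normalizer ((P : Subgroup G) : Set G)) = 2 ∧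
        ∀ Q : Subgroup G, Q ≤ P → Nat.card Q = p →
          IsMulCommutative ↥(Subgroup.centralizer (Q : Set G)) ∧
          ∀ x : G, x ∈ Subgroup.normalizer (Q : Set G) → x ∉ Subgroup.centralizer (Q : Set G) →
            orderOf x = 2 ∧ ∀ c : G, c ∈ Subgroup.centralizer (Q : Set G) → x * c * x⁻¹ = c⁻¹))) := by
  constructor
  · intro hL
    have hL' : ∀ H : Subgroup G, Cfsg.Agent.H71.PBC p H →
        IsCyclic H ∨ ∃ n : ℕ, Nonempty (H ≃* DihedralGroup (p ^ n)) := by
      intro H hpbc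
      obtain ⟨h1, h2⟩ := Cfsg.Agent.H71.hyps_of_pbc hpbc
      exact hL H h1 h2
    refine ⟨Cfsg.Agent.H71.sylow_cyclic_of_restricted hp P hL', ?_⟩
    rcases Cfsg.Agent.H71.normalizer_structure_of_restricted hp P hL' with h1 | ⟨h1, x₀, -, hx₀⟩
    · left; exact h1
    · right
      exact ⟨h1, fun Q hQP hQc =>
        Cfsg.Agent.H71.omega_structure_of_restricted hp P hL' x₀ hx₀ Q hQP hQc⟩
  · rintro ⟨hPc, hR⟩ H h1 h2
    obtain ⟨S, hSp, hSH, hinv, y, hyH, hy, hgen⟩ := Cfsg.Agent.H71.pbc_of_hyps h1 h2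
    obtain ⟨P', hP'⟩ := hSp.exists_le_sylow
    obtain ⟨g, hg⟩ := MulAction.exists_smul_eq G P P'
    obtain ⟨h1', h2', h3', h4', h5', h6'⟩ :=
      Cfsg.Agent.H71.pbc_map_conj g⁻¹ hSp hSH hinv hyH hy hgen
    apply Cfsg.Agent.H71.concl_of_map_conj g⁻¹
    refine Cfsg.Agent.H71.pbc_concl_core P hPc hR _ _ h1' h2' ?_ h3' _ h4' h5' h6'
    rintro _ ⟨s, hs, rfl⟩
    have h7 : s ∈ g • P := by rw [hg]; exact hP' hs
    have h8 := (Cfsg.Agent.H71.mem_smul_sylow_iff g P s).1 h7
    show g⁻¹ * s * g⁻¹⁻¹ ∈ P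
    rw [inv_inv]; exact h8

end Cfsg.Agent.S4082
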