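import Cfsg.Statements.S4083
import Cfsg.Agent.H25.TwoByCyc

set_option autoImplicit false
open Cfsg

namespace Cfsg.Agent.S4083

/-- the subgroup `K ⟨x⟩` for `x` centralizing `K` -/
def mulZ {G : Type*} [Group G] (K : Subgroup G) (x : G) (hx : ∀ k ∈ K, x * k = k * x) :
    Subgroup G where
  carrier := {g | ∃ k ∈ K, ∃ i : ℤ, g = k * x ^ i}
  one_mem' := ⟨1, K.one_mem, 0, by simp⟩
  mul_mem' := by
    rintro _ _ ⟨k, hk, i, rfl⟩ ⟨l, hl, j, rfl⟩
    refine ⟨k * l, K.mul_mem hk hl, i + j, ?_⟩
    have hc : Commute (x ^ i) l := (show Commute x l from hx l hl).zpow_left i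
    calc k * x ^ i * (l * x ^ j) = k * (x ^ i * l) * x ^ j := by group
      _ = k * (l * x ^ i) * x ^ j := by rw [hc.eq]
      _ = k * l * x ^ (i + j) := by rw [zpow_add]; group
  inv_mem' := by
    rintro _ ⟨k, hk, i, rfl⟩
    refine ⟨k⁻¹, K.inv_mem hk, -i, ?_⟩
    have hc : Commute (x ^ (-i)) k⁻¹ :=
      ((show Commute x k from hx k hk).zpow_left (-i)).inv_right
    calc (k * x ^ i)⁻¹ = x ^ (-i) * k⁻¹ := by group
      _ = k⁻¹ * x ^ (-i) := hc.eq

theorem a4_not_comm : ∃ a b : alternatingGroup (Fin 4), a * b ≠ b * a := by decide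

/-- Let G be a finite group with Sylow 2-subgroup P. Every subgroup H of G whose Sylow 2-subgroup is normal in H with cyclic quotient is cyclic, dihedral of 2-power order, or isomorphic to the alternating group of degree 4, if and only if either P is cyclic, or P is dihedral (of order at least 4) and every elementary abelian subgroup K of order 4 of P satisfies C_G(K) = K. -/
theorem result {G : Type*} [Group G] [Finite G] (P : Sylow 2 G) :
    (∀ H : Subgroup G, (∀ S : Sylow 2 ↥H, (S : Subgroup ↥H).Normal) →
        (∀ (S : Sylow 2 ↥H) [(S : Subgroup ↥H).Normal], IsCyclic (↥H ⧸ (S : Subgroup ↥H))) →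
        IsCyclic H ∨ (∃ n : ℕ, Nonempty (H ≃* DihedralGroup (2 ^ n))) ∨ Nonempty (H ≃* alternatingGroup (Fin 4))) ↔
    (IsCyclic P ∨
      ((∃ n : ℕ, 1 ≤ n ∧ Nonempty ((P : Subgroup G) ≃* DihedralGroup (2 ^ n))) ∧
        ∀ K : Subgroup G, K ≤ P → Nat.card K = 4 → (∀ k ∈ K, k ^ 2 = 1) → Subgroup.centralizer (K : Set G) = K)) := by
  have : Fact (Nat.Prime 2) := ⟨Nat.prime_two⟩
  constructor
  · intro hL
    have hPtop : ∀ S : Sylow 2 ↥(P : Subgroup G), (S : Subgroup ↥(P : Subgroup G)) = ⊤ := by
      intro S
      exact (S.is_maximal' (IsPGroup.to_subgroup P.isPGroup' ⊤) le_top).symm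
    have h1P : ∀ S : Sylow 2 ↥(P : Subgroup G), (S : Subgroup ↥(P : Subgroup G)).Normal := by
      intro S
      rw [hPtop S]; infer_instance
    have h2P : ∀ (S : Sylow 2 ↥(P : Subgroup G)) [(S : Subgroup ↥(P : Subgroup G)).Normal],
        IsCyclic (↥(P : Subgroup G) ⧸ (S : Subgroup ↥(P : Subgroup G))) := by
      intro S hS
      have : Subsingleton (↥(P : Subgroup G) ⧸ (S : Subgroup ↥(P : Subgroup G))) := by
        constructor
        intro a b
        obtain ⟨a, rfl⟩ := QuotientGroup.mk_surjective a
        obtain ⟨b, rfl⟩ := QuotientGroup.mk_surjective b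
        rw [QuotientGroup.eq, hPtop S]; exact Subgroup.mem_top _
      exact isCyclic_of_subsingleton
    rcases hL (P : Subgroup G) h1P h2P with hc | ⟨n, ⟨e⟩⟩ | ⟨e⟩
    · exact Or.inl hc
    · rcases Nat.eq_zero_or_pos n with h0 | h0
      · left
        subst h0
        have hc2 : Nat.card (P : Subgroup G) = 2 := by
          rw [Nat.card_congr e.toEquiv, DihedralGroup.nat_card]; norm_num
        exact isCyclic_of_prime_card (p := 2) hc2
      · right
        refine ⟨⟨n, h0, ⟨e⟩⟩, ?_⟩
        intro K hKP hK4 hK2
        have hKinv : ∀ a ∈ K, a⁻¹ = a := by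
          intro a ha
          apply inv_eq_of_mul_eq_one_right
          rw [← pow_two]; exact hK2 a ha
        have hKcomm : ∀ a ∈ K, ∀ b ∈ K, a * b = b * a := by
          intro a ha b hb
          have h1 := hKinv (a * b) (K.mul_mem ha hb)
          rw [mul_inv_rev, hKinv a ha, hKinv b hb] at h1
          exact h1.symm
        apply le_antisymm
        · intro x hx
          rw [Subgroup.mem_centralizer_iff] at hx
          have hxc : ∀ k ∈ K, x * k = k * x := fun k hk => (hx k hk).symm
          by_contra hxK
          obtain ⟨Hs, hHs⟩ : ∃ Hs : Subgroup G, Hs = mulZ K x hxc := ⟨_, rfl⟩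
          have hKH : K ≤ Hs := by
            intro k hk
            rw [hHs]; exact ⟨k, hk, 0, by simp⟩
          have hxH : x ∈ Hs := by
            rw [hHs]; exact ⟨1, K.one_mem, 1, by simp⟩
          have hHmem : ∀ y ∈ Hs, ∃ k ∈ K, ∃ i : ℤ, y = k * x ^ i := by
            intro y hy
            rw [hHs] at hy; exact hy
          have hHcomm : ∀ a b : Hs, a * b = b * a := by
            rintro ⟨a, ha⟩ ⟨b, hb⟩
            obtain ⟨k, hk, i, rfl⟩ := hHmem a ha
            obtain ⟨l, hl, j, rfl⟩ := hHmem b hb
            apply Subtype.ext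
            show k * x ^ i * (l * x ^ j) = l * x ^ j * (k * x ^ i)
            have c1 : Commute (x ^ i) l := (show Commute x l from hxc l hl).zpow_left i
            have c2 : Commute (x ^ j) k := (show Commute x k from hxc k hk).zpow_left j
            have c3 : k * l = l * k := hKcomm k hk l hl
            have c4 : Commute (x ^ i) (x ^ j) := Commute.zpow_zpow_self x i j
            calc k * x ^ i * (l * x ^ j) = k * (x ^ i * l) * x ^ j := by group
              _ = k * (l * x ^ i) * x ^ j := by rw [c1.eq]
              _ = (k * l) * (x ^ i * x ^ j) := by group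
              _ = (l * k) * (x ^ j * x ^ i) := by rw [c3, c4.eq]
              _ = l * (k * x ^ j) * x ^ i := by group
              _ = l * (x ^ j * k) * x ^ i := by rw [c2.eq]
              _ = l * x ^ j * (k * x ^ i) := by group
          have h1H : ∀ S : Sylow 2 ↥Hs, (S : Subgroup ↥Hs).Normal := by
            intro S
            constructor
            intro n hn g
            rw [hHcomm g n, mul_inv_cancel_right]; exact hn
          have h2H : ∀ (S : Sylow 2 ↥Hs) [(S : Subgroup ↥Hs).Normal],
              IsCyclic (↥Hs ⧸ (S : Subgroup ↥Hs)) := by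
            intro S hS
            have hKS : ∀ k (hk : k ∈ K), (⟨k, hKH hk⟩ : Hs) ∈ (S : Subgroup ↥Hs) := by
              intro k hk
              have hp : IsPGroup 2 (Subgroup.zpowers (⟨k, hKH hk⟩ : Hs)) := by
                intro y
                refine ⟨1, ?_⟩
                obtain ⟨y, hy⟩ := y
                obtain ⟨i, rfl⟩ := Subgroup.mem_zpowers_iff.mp hy
                apply Subtype.ext
                apply Subtype.ext
                have := hK2 k hk
                simp only [pow_one, Subgroup.coe_pow, Subgroup.coe_zpow, Subgroup.coe_one]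
                rw [← zpow_natCast, ← zpow_mul, mul_comm, zpow_mul, zpow_natCast, this, one_zpow]
              obtain ⟨Q, hQ⟩ := hp.exists_le_sylow
              obtain ⟨g, hg⟩ := MulAction.exists_smul_eq ↥Hs Q S
              have hQS : Q = S := by
                have h1 : g⁻¹ • S = S := Sylow.smul_eq_of_normal
                rw [← hg, inv_smul_smul] at h1
                exact h1.trans hg
              rw [← hQS]; exact hQ (Subgroup.mem_zpowers _)
            refine ⟨⟨QuotientGroup.mk ⟨x, hxH⟩, fun y => ?_⟩⟩
            obtain ⟨⟨y, hy⟩, rfl⟩ := QuotientGroup.mk_surjective y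
            obtain ⟨k, hk, i, rfl⟩ := hHmem y hy
            refine ⟨i, ?_⟩
            show (QuotientGroup.mk ⟨x, hxH⟩ : ↥Hs ⧸ (S : Subgroup ↥Hs)) ^ i = _
            rw [← QuotientGroup.mk_zpow, QuotientGroup.eq]
            have h3 : ((⟨x, hxH⟩ : Hs) ^ i)⁻¹ * ⟨k * x ^ i, hy⟩ = ⟨k, hKH hk⟩ := by
              apply Subtype.ext
              have c2 : Commute (x ^ i) k := (show Commute x k from hxc k hk).zpow_left i
              simp only [Subgroup.coe_mul, Subgroup.coe_inv, Subgroup.coe_zpow]
              rw [← c2.eq, inv_mul_cancel_left]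
            rw [h3]; exact hKS k hk
          rcases hL Hs h1H h2H with hc | ⟨n', ⟨e'⟩⟩ | ⟨e'⟩
          · have hKc : IsCyclic K :=
              isCyclic_of_injective (Subgroup.inclusion hKH) (Subgroup.inclusion_injective hKH)
            have := @H25.card_le_two_of_cyclic_sq K _ _ hKc (fun c => by
              have h5 := hK2 c c.2
              apply Subtype.ext
              rw [pow_two] at h5
              exact h5)
            omega
          · have : NeZero (2 ^ n') := ⟨by positivity⟩
            have hcomm : DihedralGroup.r (1 : ZMod (2 ^ n')) * DihedralGroup.sr 0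
                = DihedralGroup.sr 0 * DihedralGroup.r 1 := by
              have h5 := hHcomm (e'.symm (DihedralGroup.r 1)) (e'.symm (DihedralGroup.sr 0))
              have h6 := congrArg e' h5
              simpa using h6
            rw [DihedralGroup.r_mul_sr, DihedralGroup.sr_mul_r] at hcomm
            have h3 : (0 : ZMod (2 ^ n')) - 1 = 0 + 1 := DihedralGroup.sr.inj hcomm
            have h4 : ((2 : ℕ) : ZMod (2 ^ n')) = 0 := by
              have h7 : (1 : ZMod (2 ^ n')) + 1 = 0 := by linear_combination -h3
              rw [Nat.cast_ofNat]; exact one_add_one_eq_two.symm.trans h7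
            have h5 : 2 ^ n' ∣ 2 := (ZMod.natCast_eq_zero_iff 2 (2 ^ n')).mp h4
            have h6 : 2 ^ n' ≤ 2 := Nat.le_of_dvd (by norm_num) h5
            have hcH : Nat.card Hs = 2 * 2 ^ n' := by
              rw [Nat.card_congr e'.toEquiv, DihedralGroup.nat_card]
            have hKeq : K = Hs := Subgroup.eq_of_le_of_card_ge hKH (by rw [hK4, hcH]; omega)
            exact hxK (hKeq ▸ hxH)
          · obtain ⟨e'⟩ := e'
            obtain ⟨a, b, hab⟩ := a4_not_comm
            apply hab
            have h5 := hHcomm (e'.symm a) (e'.symm b)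
            have h6 := congrArg e' h5
            simpa using h6
        · intro k hk
          rw [Subgroup.mem_centralizer_iff]
          intro h hh
          exact hKcomm h hh k hk
    · exfalso
      obtain ⟨e⟩ := e
      obtain ⟨k, hk⟩ := IsPGroup.iff_card.mp P.isPGroup'
      have h12 : Nat.card (P : Subgroup G) = 12 := by
        rw [Nat.card_congr e.toEquiv, nat_card_alternatingGroup, Nat.card_eq_fintype_card,
          Fintype.card_fin]
        rfl
      rw [h12] at hk
      have h3 : 3 ∣ 2 ^ k := ⟨4, by rw [← hk]⟩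
      have := Nat.Prime.dvd_of_dvd_pow Nat.prime_three h3
      omega
  · intro hR H h1 h2
    obtain ⟨S₀⟩ : Nonempty (Sylow 2 ↥H) := inferInstance
    have hSn := h1 S₀
    have hcyc := h2 S₀
    apply H25.two_by_cyclic S₀ hcyc
    obtain ⟨T, hT⟩ : ∃ T : Subgroup G, T = (S₀ : Subgroup ↥H).map H.subtype := ⟨_, rfl⟩
    have hTp : IsPGroup 2 T := by rw [hT]; exact S₀.isPGroup'.map H.subtype
    obtain ⟨g, hg⟩ := H25.exists_conj_into_sylow P T hTp
    obtain ⟨T', hT'⟩ : ∃ T' : Subgroup G, T' = T.map (MulAut.conj g).toMonoidHom := ⟨_, rfl⟩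
    have hT'P : T' ≤ P := by
      rw [hT']; rintro _ ⟨t, ht, rfl⟩; exact hg t ht
    obtain ⟨ψ⟩ : Nonempty ((S₀ : Subgroup ↥H) ≃* T') := by
      rw [hT', hT]
      exact ⟨((S₀ : Subgroup ↥H).equivMapOfInjective H.subtype H.subtype_injective).trans
        (((S₀ : Subgroup ↥H).map H.subtype).equivMapOfInjective (MulAut.conj g).toMonoidHom
          (MulAut.conj g).injective)⟩
    rcases hR with hPc | ⟨⟨n, hn, ⟨e⟩⟩, hfour⟩
    · left
      have hT'c : IsCyclic T' :=
        isCyclic_of_injective (Subgroup.inclusion hT'P) (Subgroup.inclusion_injective hT'P)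
      exact isCyclic_of_injective ψ.toMonoidHom ψ.injective
    · rcases H25.dihedral_subgroup (P : Subgroup G) T' P.isPGroup' e hT'P with hc | ⟨k, hk, ⟨e'⟩⟩
      · left; exact isCyclic_of_injective ψ.toMonoidHom ψ.injective
      · right
        refine ⟨⟨k, hk, ⟨ψ.trans e'⟩⟩, ?_⟩
        intro K hKS hK4 hK2 h hh
        obtain ⟨K', hK'⟩ : ∃ K' : Subgroup G,
            K' = (K.map H.subtype).map (MulAut.conj g).toMonoidHom := ⟨_, rfl⟩
        have hK'mem : ∀ y, y ∈ K' ↔ ∃ k ∈ K, g * (k : G) * g⁻¹ = y := by
          intro y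
          rw [hK']
          constructor
          · rintro ⟨_, ⟨k, hk, rfl⟩, rfl⟩
            exact ⟨k, hk, rfl⟩
          · rintro ⟨k, hk, rfl⟩
            exact ⟨_, ⟨k, hk, rfl⟩, rfl⟩
        have hK'P : K' ≤ P := by
          intro y hy
          obtain ⟨k, hk, rfl⟩ := (hK'mem y).mp hy
          apply hg
          rw [hT]; exact ⟨k, hKS hk, rfl⟩
        have hK'4 : Nat.card K' = 4 := by
          rw [hK', ← hK4]
          exact Nat.card_congr ((K.equivMapOfInjective H.subtype H.subtype_injective).trans
            ((K.map H.subtype).equivMapOfInjective _ (MulAut.conj g).injective)).symm.toEquiv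
        have hK'2 : ∀ a ∈ K', a ^ 2 = 1 := by
          intro y hy
          obtain ⟨k, hk, rfl⟩ := (hK'mem y).mp hy
          have h5 := congrArg Subtype.val (hK2 k hk)
          simp only [Subgroup.coe_pow, Subgroup.coe_one] at h5
          rw [conj_pow, h5]; group
        have hcen := hfour K' hK'P hK'4 hK'2
        have hmem : g * (h : G) * g⁻¹ ∈ Subgroup.centralizer (K' : Set G) := by
          rw [Subgroup.mem_centralizer_iff]
          intro y hy
          obtain ⟨k, hk, rfl⟩ := (hK'mem y).mp hy
          have h5 := congrArg Subtype.val (hh k hk)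
          simp only [Subgroup.coe_mul] at h5
          calc g * ↑k * g⁻¹ * (g * ↑h * g⁻¹) = g * (↑k * ↑h) * g⁻¹ := by group
            _ = g * (↑h * ↑k) * g⁻¹ := by rw [h5]
            _ = g * ↑h * g⁻¹ * (g * ↑k * g⁻¹) := by group
        rw [hcen] at hmem
        obtain ⟨k, hk, hk'⟩ := (hK'mem _).mp hmem
        have h6 : (k : G) = (h : G) := mul_left_cancel (mul_right_cancel hk')
        rw [← Subtype.ext h6]; exact hk

end Cfsg.Agent.S4083
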