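import Mathlib
import Cfsg.Statements.S4084

set_option autoImplicit false
open Cfsg

namespace Cfsg.Agent.S4084

/-- The "double centralizer" subgroup of `g`: elements commuting with `g` and with everything
commuting with `g`. -/
def dc {G : Type*} [Group G] (g : G) : Subgroup G where
  carrier := {y | Commute y g ∧ ∀ w, Commute w g → Commute y w}
  mul_mem' := by
    rintro a b ⟨ha, ha'⟩ ⟨hb, hb'⟩
    exact ⟨ha.mul_left hb, fun w hw => (ha' w hw).mul_left (hb' w hw)⟩
  one_mem' := ⟨Commute.one_left g, fun w _ => Commute.one_left w⟩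
  inv_mem' := by
    rintro a ⟨ha, ha'⟩
    exact ⟨ha.inv_left, fun w hw => (ha' w hw).inv_left⟩

theorem key {G H : Type*} [Group G] [Finite G] [Group H] [Finite H] (e : G ≃ H)
    (he : ∀ x y : G, Commute x y ↔ Commute (e x) (e y))
    {p q : ℕ} (hp : p.Prime) (hq : q.Prime) (hpq : p ≠ q) :
    (∃ g : G, orderOf g = p * q) → (∃ h : H, orderOf h = p * q) := by
  rintro ⟨g, hg⟩
  have hmem : g ∈ dc g := ⟨Commute.refl g, fun w hw => hw.symm⟩
  have hdvd : p * q ∣ Nat.card (dc g) := by
    have := orderOf_dvd_natCard (⟨g, hmem⟩ : dc g)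
    rwa [Subgroup.orderOf_mk, hg] at this
  have hcard : Nat.card (dc g) = Nat.card (dc (e g)) := by
    apply Nat.card_congr
    refine Equiv.subtypeEquiv e ?_
    intro y
    constructor
    · rintro ⟨h1, h2⟩
      refine ⟨(he _ _).1 h1, fun w hw => ?_⟩
      obtain ⟨w, rfl⟩ := e.surjective w
      exact (he _ _).1 (h2 w ((he _ _).2 hw))
    · rintro ⟨h1, h2⟩
      exact ⟨(he _ _).2 h1, fun w hw => (he _ _).2 (h2 (e w) ((he _ _).1 hw))⟩
  rw [hcard] at hdvd
  have := Fact.mk hp
  have := Fact.mk hq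
  obtain ⟨u, hu⟩ := exists_prime_orderOf_dvd_card' (G := dc (e g)) p (dvd_of_mul_right_dvd hdvd)
  obtain ⟨v, hv⟩ := exists_prime_orderOf_dvd_card' (G := dc (e g)) q (dvd_of_mul_left_dvd hdvd)
  have hcomm : Commute (u : H) (v : H) := u.2.2 v v.2.1
  refine ⟨(u : H) * (v : H), ?_⟩
  rw [hcomm.orderOf_mul_eq_mul_orderOf_of_coprime, Subgroup.orderOf_coe, Subgroup.orderOf_coe, hu, hv]
  rw [Subgroup.orderOf_coe, Subgroup.orderOf_coe, hu, hv]
  exact (Nat.coprime_primes hp hq).2 hpq

/-- Let G and H be finite groups whose commuting graphs are isomorphic: there is a bijection e : G → H with x, y commuting exactly when e(x), e(y) commute. Then G and H have the same prime graph: for distinct primes p, q, G has an element of order pq if and only if H does (and #G = #H, so the prime divisors agree). -/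
theorem result {G H : Type*} [Group G] [Finite G] [Group H] [Finite H] (e : G ≃ H)
    (he : ∀ x y : G, Commute x y ↔ Commute (e x) (e y))
    {p q : ℕ} (hp : p.Prime) (hq : q.Prime) (hpq : p ≠ q) :
    (∃ g : G, orderOf g = p * q) ↔ (∃ h : H, orderOf h = p * q) := by
  refine ⟨key e he hp hq hpq, key e.symm ?_ hp hq hpq⟩
  intro x y
  rw [he]
  simp

end Cfsg.Agent.S4084
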