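import Mathlib
import Cfsg.Statements.S4086

set_option autoImplicit false
open Cfsg

namespace Cfsg.Agent.S4086

theorem mem_zpowers_of_orderOf_dvd {G : Type*} [Group G] [Finite G] (z x y : G)
    (hx : x ∈ Subgroup.zpowers z) (hy : y ∈ Subgroup.zpowers z)
    (h : orderOf x ∣ orderOf y) : x ∈ Subgroup.zpowers y := by
  classical
  have hz : 0 < orderOf z := orderOf_pos z
  obtain ⟨a, rfl⟩ : ∃ a : ℕ, z ^ a = x := (Submonoid.mem_powers_iff _ _).mp (mem_powers_iff_mem_zpowers.mpr hx)
  obtain ⟨b, rfl⟩ : ∃ b : ℕ, z ^ b = y := (Submonoid.mem_powers_iff _ _).mp (mem_powers_iff_mem_zpowers.mpr hy)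
  rw [orderOf_pow, orderOf_pow] at h
  -- n / gcd n a ∣ n / gcd n b → gcd n b ∣ gcd n a
  have h1 : Nat.gcd (orderOf z) b ∣ Nat.gcd (orderOf z) a := by
    obtain ⟨u, hu⟩ := Nat.gcd_dvd_left (orderOf z) a
    obtain ⟨v, hv⟩ := Nat.gcd_dvd_left (orderOf z) b
    have hga : 0 < Nat.gcd (orderOf z) a := Nat.gcd_pos_of_pos_left a hz
    have hgb : 0 < Nat.gcd (orderOf z) b := Nat.gcd_pos_of_pos_left b hz
    have e1 : orderOf z / Nat.gcd (orderOf z) a = u := Nat.div_eq_of_eq_mul_right hga hu
    have e2 : orderOf z / Nat.gcd (orderOf z) b = v := Nat.div_eq_of_eq_mul_right hgb hv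
    rw [e1, e2] at h
    obtain ⟨w, hw⟩ := h
    refine ⟨w, ?_⟩
    have hu0 : 0 < u := by
      rcases Nat.eq_zero_or_pos u with h0 | h0
      · rw [h0, Nat.mul_zero] at hu; omega
      · exact h0
    have : Nat.gcd (orderOf z) a * u = Nat.gcd (orderOf z) b * w * u := by
      rw [← hu]
      conv_lhs => rw [hv, hw]
      ring
    exact Nat.eq_of_mul_eq_mul_right hu0 this
  have h2 : Nat.gcd (orderOf z) b ∣ a := h1.trans (Nat.gcd_dvd_right (orderOf z) a)
  obtain ⟨c, hc⟩ := h2
  -- z ^ gcd n b ∈ zpowers (z ^ b)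
  have h3 : z ^ (Nat.gcd (orderOf z) b) ∈ Subgroup.zpowers (z ^ b) := by
    have hb := Nat.gcd_eq_gcd_ab (orderOf z) b
    have h4 : z ^ ((Nat.gcd (orderOf z) b : ℕ) : ℤ) = (z ^ b) ^ (Nat.gcdB (orderOf z) b) := by
      rw [hb, zpow_add, zpow_mul, zpow_mul]
      rw [zpow_natCast, pow_orderOf_eq_one, one_zpow, one_mul, zpow_natCast]
    rw [zpow_natCast] at h4
    rw [h4]
    exact Subgroup.zpow_mem_zpowers _ _
  rw [hc, pow_mul]
  exact Subgroup.pow_mem _ h3 c

theorem exists_coprime_factors (n : ℕ) (hn : 1 < n) (h : ¬ IsPrimePow n) :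
    ∃ a b : ℕ, 1 < a ∧ 1 < b ∧ a.Coprime b ∧ a * b = n := by
  have hn0 : n ≠ 0 := by omega
  have hn1 : n ≠ 1 := by omega
  set p := n.minFac with hp
  have hpp : p.Prime := Nat.minFac_prime hn1
  have hpn : p ∣ n := Nat.minFac_dvd n
  refine ⟨p ^ n.factorization p, n / p ^ n.factorization p, ?_, ?_, ?_, ?_⟩
  · have : 0 < n.factorization p := hpp.factorization_pos_of_dvd hn0 hpn
    exact Nat.one_lt_pow this.ne' hpp.one_lt
  · by_contra hb
    have hpos : 0 < n / p ^ n.factorization p := Nat.ordCompl_pos p hn0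
    have h1 : n / p ^ n.factorization p = 1 := by omega
    have h2 : p ^ n.factorization p * (n / p ^ n.factorization p) = n := Nat.ordProj_mul_ordCompl_eq_self n p
    rw [h1, mul_one] at h2
    apply h
    rw [isPrimePow_nat_iff]
    exact ⟨p, n.factorization p, hpp, hpp.factorization_pos_of_dvd hn0 hpn, h2⟩
  · exact Nat.Coprime.pow_left _ (Nat.coprime_ordCompl hpp hn0)
  · exact Nat.ordProj_mul_ordCompl_eq_self n p

theorem result {G : Type*} [Group G] [Finite G] :
    (∀ g : G, g ≠ 1 → IsPrimePow (orderOf g)) ↔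
    (∀ x y : G, IsCyclic ↥(Subgroup.closure ({x, y} : Set G)) → (x ∈ Subgroup.zpowers y ∨ y ∈ Subgroup.zpowers x)) := by
  constructor
  · intro h x y hcyc
    obtain ⟨⟨z, hzmem⟩, hz⟩ := hcyc.exists_generator
    have hxc : x ∈ Subgroup.closure ({x, y} : Set G) := Subgroup.subset_closure (by simp)
    have hyc : y ∈ Subgroup.closure ({x, y} : Set G) := Subgroup.subset_closure (by simp)
    have hxz : x ∈ Subgroup.zpowers z := by
      obtain ⟨k, hk⟩ := Subgroup.mem_zpowers_iff.mp (hz ⟨x, hxc⟩)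
      refine Subgroup.mem_zpowers_iff.mpr ⟨k, ?_⟩
      have := congrArg Subtype.val hk
      simpa using this
    have hyz : y ∈ Subgroup.zpowers z := by
      obtain ⟨k, hk⟩ := Subgroup.mem_zpowers_iff.mp (hz ⟨y, hyc⟩)
      refine Subgroup.mem_zpowers_iff.mpr ⟨k, ?_⟩
      have := congrArg Subtype.val hk
      simpa using this
    by_cases hz1 : z = 1
    · subst hz1
      left
      have : x = 1 := by simpa using hxz
      rw [this]; exact one_mem _
    · obtain ⟨p, k, hp, hk, hpk⟩ := (isPrimePow_nat_iff _).mp (h z hz1)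
      have hxo : orderOf x ∣ p ^ k := by
        rw [hpk]; exact orderOf_dvd_of_mem_zpowers hxz
      have hyo : orderOf y ∣ p ^ k := by
        rw [hpk]; exact orderOf_dvd_of_mem_zpowers hyz
      obtain ⟨i, hi, hxi⟩ := (Nat.dvd_prime_pow hp).mp hxo
      obtain ⟨j, hj, hyj⟩ := (Nat.dvd_prime_pow hp).mp hyo
      rcases le_total i j with hij | hij
      · left
        apply mem_zpowers_of_orderOf_dvd z x y hxz hyz
        rw [hxi, hyj]; exact pow_dvd_pow p hij
      · right
        apply mem_zpowers_of_orderOf_dvd z y x hyz hxz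
        rw [hxi, hyj]; exact pow_dvd_pow p hij
  · intro h g hg
    by_contra hnp
    have hn : 1 < orderOf g := by
      have h0 : 0 < orderOf g := orderOf_pos g
      have h1 : orderOf g ≠ 1 := by
        intro h1; exact hg (orderOf_eq_one_iff.mp h1)
      omega
    obtain ⟨a, b, ha, hb, hab, habn⟩ := exists_coprime_factors _ hn hnp
    have hxo : orderOf (g ^ a) = b := by
      rw [orderOf_pow, ← habn, Nat.gcd_mul_right_left]
      exact Nat.mul_div_cancel_left b (by omega)
    have hyo : orderOf (g ^ b) = a := by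
      rw [orderOf_pow, ← habn, Nat.gcd_mul_left_left]
      exact Nat.mul_div_cancel a (by omega)
    have hcyc : IsCyclic ↥(Subgroup.closure ({g ^ a, g ^ b} : Set G)) := by
      have hle : Subgroup.closure ({g ^ a, g ^ b} : Set G) ≤ Subgroup.zpowers g := by
        rw [Subgroup.closure_le]
        intro t ht
        rcases ht with rfl | rfl
        · exact Subgroup.pow_mem _ (Subgroup.mem_zpowers g) _
        · exact Subgroup.pow_mem _ (Subgroup.mem_zpowers g) _
      exact isCyclic_of_injective (Subgroup.inclusion hle) (Subgroup.inclusion_injective hle)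
    rcases h (g ^ a) (g ^ b) hcyc with h1 | h1
    · have := orderOf_dvd_of_mem_zpowers h1
      rw [hxo, hyo] at this
      have : b ∣ Nat.gcd a b := Nat.dvd_gcd this dvd_rfl
      rw [hab] at this
      have := Nat.le_of_dvd one_pos this
      omega
    · have := orderOf_dvd_of_mem_zpowers h1
      rw [hxo, hyo] at this
      have : a ∣ Nat.gcd a b := Nat.dvd_gcd dvd_rfl this
      rw [hab] at this
      have := Nat.le_of_dvd one_pos this
      omega

end Cfsg.Agent.S4086
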