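import Mathlib
import Cfsg.Statements.S4088
import Cfsg.Agent.H72.Casolo

set_option autoImplicit false
open Cfsg
open scoped Pointwise

namespace Cfsg.Agent.S4088

open Cfsg.Agent.H72

theorem map_conj_eq_iff {G : Type*} [Group G] (H : Subgroup G) (a b : G) :
    H.map (MulAut.conj a).toMonoidHom = H.map (MulAut.conj b).toMonoidHom ↔
      b⁻¹ * a ∈ Subgroup.normalizer (H : Set G) := by
  rw [Subgroup.mem_normalizer_iff]
  constructor
  · intro h x
    have h1 : a * x * a⁻¹ ∈ H.map (MulAut.conj a).toMonoidHom ↔
        a * x * a⁻¹ ∈ H.map (MulAut.conj b).toMonoidHom := by rw [h]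
    rw [Subgroup.mem_map_equiv, Subgroup.mem_map_equiv, MulAut.conj_symm_apply,
      MulAut.conj_symm_apply] at h1
    have e1 : a⁻¹ * (a * x * a⁻¹) * a = x := by group
    have e2 : b⁻¹ * (a * x * a⁻¹) * b = b⁻¹ * a * x * (b⁻¹ * a)⁻¹ := by group
    rw [e1, e2] at h1
    exact h1
  · intro h
    ext x
    rw [Subgroup.mem_map_equiv, Subgroup.mem_map_equiv, MulAut.conj_symm_apply,
      MulAut.conj_symm_apply]
    have h1 := h (a⁻¹ * x * a)
    have e2 : b⁻¹ * a * (a⁻¹ * x * a) * (b⁻¹ * a)⁻¹ = b⁻¹ * x * b := by group
    rw [e2] at h1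
    exact h1

/-- Let G be a finite group, p a prime dividing the order of G, H a p-subgroup of G and P a Sylow p-subgroup of G. Call the subnormalizer of H the set of elements g of G such that H is subnormal in the subgroup generated by H and g. Then the number of elements of the subnormalizer of H equals the number of Sylow p-subgroups of G containing H times the order of N_G(P), and also equals the number of conjugates of H contained in P times the order of N_G(H). -/
theorem result {G : Type*} [Group G] [Finite G] (p : ℕ) [Fact p.Prime]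
    (hp : p ∣ Nat.card G) (H : Subgroup G) (hH : IsPGroup p H) (P : Sylow p G) :
    Nat.card {g : G // ((H).subgroupOf (H ⊔ Subgroup.zpowers g)).IsSubnormal} =
        Nat.card {Q : Sylow p G // H ≤ (Q : Subgroup G)} * Nat.card (Subgroup.normalizer ((P : Subgroup G) : Set G)) ∧
    Nat.card {g : G // ((H).subgroupOf (H ⊔ Subgroup.zpowers g)).IsSubnormal} =
        Nat.card {K : Subgroup G // K ≤ (P : Subgroup G) ∧ ∃ g : G, K = H.map (MulAut.conj g).toMonoidHom} *
          Nat.card (Subgroup.normalizer (H : Set G)) := by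
  -- Step 1-2: the subnormalizer has as many elements as there are pairs
  have h1 : Nat.card {g : G // ((H).subgroupOf (H ⊔ Subgroup.zpowers g)).IsSubnormal} =
      Nat.card (SP p H) := by
    rw [← casolo_aux p (Nat.card G) G rfl H]
    exact Nat.card_congr (Equiv.subtypeEquivRight (fun g => subnormalizer_iff p H hH g))
  -- Step 3
  have h2 : Nat.card (SP p H) =
      Nat.card {Q : Sylow p G // H ≤ (Q : Subgroup G)} *
        Nat.card (Subgroup.normalizer ((P : Subgroup G) : Set G)) := by
    have h3 := card_SP (p := p) H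
    have h4 := card_normalizer_mul_card_sylow P
    have h5 : Nat.card {Q : Sylow p G | H ≤ (Q : Subgroup G)} =
        Nat.card {Q : Sylow p G // H ≤ (Q : Subgroup G)} := rfl
    rw [h5, ← h4, ← mul_assoc] at h3
    exact Nat.eq_of_mul_eq_mul_right Nat.card_pos h3
  refine ⟨h1.trans h2, ?_⟩
  rw [h1, h2]
  -- Step 4: double counting of `{y | H ≤ y • P}`
  have hb : Nat.card {y : G // H ≤ ((y • P : Sylow p G) : Subgroup G)} =
      Nat.card {Q : Sylow p G // H ≤ (Q : Subgroup G)} *
        Nat.card (Subgroup.normalizer ((P : Subgroup G) : Set G)) := by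
    apply card_eq_mul_of_fibers
      (fun y : {y : G // H ≤ ((y • P : Sylow p G) : Subgroup G)} =>
        (⟨y.1 • P, y.2⟩ : {Q : Sylow p G // H ≤ (Q : Subgroup G)}))
    intro Q
    obtain ⟨y₀, hy₀⟩ := MulAction.exists_smul_eq G P Q.1
    rw [← card_of_left_coset (Subgroup.normalizer ((P : Subgroup G) : Set G))
      {y : G | y • P = Q.1} y₀ ?_]
    · refine Nat.card_congr
        { toFun := fun a => ⟨a.1.1, congrArg Subtype.val a.2⟩
          invFun := fun x => ⟨⟨x.1, by
            have := x.2
            simp only [Set.mem_ofPred_eq] at this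
            rw [this]; exact Q.2⟩, Subtype.ext x.2⟩
          left_inv := fun a => rfl
          right_inv := fun x => rfl }
    · intro x
      simp only [Set.mem_ofPred_eq]
      have h6 : y₀⁻¹ * x ∈ Subgroup.normalizer ((P : Subgroup G) : Set G) ↔
          (y₀⁻¹ * x) • P = P := Sylow.smul_eq_iff_mem_normalizer.symm
      rw [h6, mul_smul, inv_smul_eq_iff, hy₀]
  have ha : Nat.card {y : G // H ≤ ((y • P : Sylow p G) : Subgroup G)} =
      Nat.card {K : Subgroup G // K ≤ (P : Subgroup G) ∧
        ∃ g : G, K = H.map (MulAut.conj g).toMonoidHom} *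
        Nat.card (Subgroup.normalizer (H : Set G)) := by
    have hle : ∀ y : G, H ≤ ((y • P : Sylow p G) : Subgroup G) ↔
        H.map (MulAut.conj y⁻¹).toMonoidHom ≤ (P : Subgroup G) := by
      intro y
      constructor
      · intro h x hx
        rw [Subgroup.mem_map_equiv, MulAut.conj_symm_apply] at hx
        have h3 : y⁻¹⁻¹ * x * y⁻¹ ∈ (y • P : Sylow p G) := h hx
        rw [mem_sylow_smul] at h3
        have e : y⁻¹ * (y⁻¹⁻¹ * x * y⁻¹) * y = x := by group
        rw [e] at h3
        exact h3
      · intro h x hx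
        show x ∈ (y • P : Sylow p G)
        rw [mem_sylow_smul]
        apply h
        rw [Subgroup.mem_map_equiv, MulAut.conj_symm_apply]
        have e : y⁻¹⁻¹ * (y⁻¹ * x * y) * y⁻¹ = x := by group
        rw [e]
        exact hx
    apply card_eq_mul_of_fibers
      (fun y : {y : G // H ≤ ((y • P : Sylow p G) : Subgroup G)} =>
        (⟨H.map (MulAut.conj y.1⁻¹).toMonoidHom, (hle y.1).mp y.2, ⟨y.1⁻¹, rfl⟩⟩ :
          {K : Subgroup G // K ≤ (P : Subgroup G) ∧
            ∃ g : G, K = H.map (MulAut.conj g).toMonoidHom}))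
    rintro ⟨K, hKP, g₀, rfl⟩
    rw [← card_of_right_coset (Subgroup.normalizer (H : Set G))
      {y : G | H.map (MulAut.conj y⁻¹).toMonoidHom = H.map (MulAut.conj g₀).toMonoidHom} g₀⁻¹ ?_]
    · refine Nat.card_congr
        { toFun := fun a => ⟨a.1.1, congrArg Subtype.val a.2⟩
          invFun := fun x => ⟨⟨x.1, by
            have := x.2
            simp only [Set.mem_ofPred_eq] at this
            rw [hle, this]; exact hKP⟩, Subtype.ext x.2⟩
          left_inv := fun a => rfl
          right_inv := fun x => rfl }
    · intro x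
      simp only [Set.mem_ofPred_eq]
      rw [map_conj_eq_iff, inv_inv]
      constructor
      · intro h
        have := Subgroup.inv_mem _ h
        simpa using this
      · intro h
        have := Subgroup.inv_mem _ h
        simpa using this
  rw [← hb, ha]

end Cfsg.Agent.S4088
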