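import Mathlib
import Cfsg.Statements.S4089
import Cfsg.Agent.H72.Subn

set_option autoImplicit false
open Cfsg
open scoped Pointwise

namespace Cfsg.Agent.S4089

open Cfsg.Agent.H72

/-- Let G be a finite group, p a prime and H a p-subgroup of G. Then the set of elements g of G such that H is subnormal in the subgroup generated by H and g is the union of the normalizers N_G(R) over the subgroups R of G containing H with R = O_p(N_G(R)); and this set does not change when H is replaced by the intersection of all Sylow p-subgroups of G containing H. -/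
theorem result {G : Type*} [Group G] [Finite G] (p : ℕ) [Fact p.Prime]
    (H : Subgroup G) (hH : IsPGroup p H) :
    {g : G | ((H).subgroupOf (H ⊔ Subgroup.zpowers g)).IsSubnormal} =
      {g : G | ∃ R : Subgroup G, H ≤ R ∧ (Cfsg.pCore p (Subgroup.normalizer (R : Set G))).map (Subgroup.normalizer (R : Set G)).subtype = R ∧ g ∈ Subgroup.normalizer (R : Set G)} ∧
    ∀ g : G, (((H).subgroupOf (H ⊔ Subgroup.zpowers g)).IsSubnormal ↔
      (((sInf {K : Subgroup G | ∃ Q : Sylow p G, H ≤ (Q : Subgroup G) ∧ K = (Q : Subgroup G)})).subgroupOf ((sInf {K : Subgroup G | ∃ Q : Sylow p G, H ≤ (Q : Subgroup G) ∧ K = (Q : Subgroup G)}) ⊔ Subgroup.zpowers g)).IsSubnormal) := by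
  constructor
  · ext g
    simp only [Set.mem_ofPred_eq]
    rw [subnormalizer_iff p H hH g]
    constructor
    · rintro ⟨R₀, hR₀, hHR₀, hg₀⟩
      -- choose a maximal p-subgroup containing H and normalized by g
      have hfin : {R : Subgroup G | IsPGroup p R ∧ H ≤ R ∧
          g ∈ Subgroup.normalizer (R : Set G)}.Finite := Set.toFinite _
      obtain ⟨R, hRmax⟩ := hfin.exists_maximal ⟨R₀, hR₀, hHR₀, hg₀⟩
      obtain ⟨hR, hHR, hg⟩ := hRmax.prop
      set N : Subgroup G := Subgroup.normalizer (R : Set G) with hN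
      set Φ : Subgroup G := (Cfsg.pCore p N).map N.subtype with hΦ
      have hRN : R ≤ N := Subgroup.le_normalizer
      have hRn : (R.subgroupOf N).Normal := Subgroup.normal_in_normalizer
      have hRΦ : R ≤ Φ := by
        intro x hx
        have h1 : (⟨x, hRN hx⟩ : N) ∈ Cfsg.pCore p N :=
          le_pCore hRn hR.comap_subtype (Subgroup.mem_subgroupOf.mpr hx)
        exact Subgroup.mem_map.mpr ⟨⟨x, hRN hx⟩, h1, rfl⟩
      have hΦp : IsPGroup p Φ := (pCore_isPGroup p N).map _
      have hn : (Cfsg.pCore p N).Normal := pCore_normal p N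
      have hgΦ : g ∈ Subgroup.normalizer (Φ : Set G) := by
        rw [Subgroup.mem_normalizer_iff]
        intro x
        constructor
        · intro hx
          obtain ⟨x', hx', rfl⟩ := Subgroup.mem_map.mp hx
          exact Subgroup.mem_map.mpr ⟨⟨g, hg⟩ * x' * ⟨g, hg⟩⁻¹, hn.conj_mem x' hx' _, rfl⟩
        · intro hx
          obtain ⟨y', hy', hy⟩ := Subgroup.mem_map.mp hx
          refine Subgroup.mem_map.mpr ⟨⟨g, hg⟩⁻¹ * y' * ⟨g, hg⟩, ?_, ?_⟩
          · have := hn.conj_mem y' hy' (⟨g, hg⟩⁻¹)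
            simpa using this
          · have hy2 : (y' : G) = g * x * g⁻¹ := hy
            simp only [Subgroup.coe_subtype, Subgroup.coe_mul, Subgroup.coe_inv, hy2]
            group
      have hΦR : Φ ≤ R := hRmax.le_of_ge ⟨hΦp, hHR.trans hRΦ, hgΦ⟩ hRΦ
      exact ⟨R, hHR, le_antisymm hΦR hRΦ, hg⟩
    · rintro ⟨R, hHR, hReq, hg⟩
      refine ⟨R, ?_, hHR, hg⟩
      rw [← hReq]
      exact (pCore_isPGroup p _).map _
  · intro g
    set I : Subgroup G :=
      sInf {K : Subgroup G | ∃ Q : Sylow p G, H ≤ (Q : Subgroup G) ∧ K = (Q : Subgroup G)} with hI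
    obtain ⟨Q₀, hQ₀⟩ := hH.exists_le_sylow
    have hIQ₀ : I ≤ Q₀ := sInf_le ⟨Q₀, hQ₀, rfl⟩
    have hIp : IsPGroup p I := Q₀.isPGroup'.to_le hIQ₀
    have hHI : H ≤ I := by
      apply le_sInf
      rintro K ⟨Q, hQ, rfl⟩
      exact hQ
    rw [subnormalizer_iff p H hH g, subnormalizer_iff p I hIp g]
    constructor
    · rintro ⟨R, hR, hHR, hg⟩
      -- the intersection of the Sylow subgroups containing R
      set J : Subgroup G :=
        sInf {K : Subgroup G | ∃ Q : Sylow p G, R ≤ (Q : Subgroup G) ∧ K = (Q : Subgroup G)} with hJ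
      obtain ⟨Q₁, hQ₁⟩ := hR.exists_le_sylow
      have hJp : IsPGroup p J := Q₁.isPGroup'.to_le (sInf_le ⟨Q₁, hQ₁, rfl⟩)
      have hIJ : I ≤ J := by
        apply le_sInf
        rintro K ⟨Q, hQ, rfl⟩
        exact sInf_le ⟨Q, hHR.trans hQ, rfl⟩
      refine ⟨J, hJp, hIJ, ?_⟩
      -- g normalizes J
      have hconj : ∀ c : G, c ∈ Subgroup.normalizer (R : Set G) → ∀ x ∈ J, c * x * c⁻¹ ∈ J := by
        intro c hc x hx
        rw [hJ, Subgroup.mem_sInf] at hx ⊢
        rintro K ⟨Q, hQ, rfl⟩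
        have h1 : R ≤ ((c⁻¹ • Q : Sylow p G) : Subgroup G) := by
          intro r hr
          have h2 : c * r * c⁻¹ ∈ R := (Subgroup.mem_normalizer_iff.mp hc r).mp hr
          have h3 := hQ h2
          show r ∈ (c⁻¹ • Q : Sylow p G)
          rw [mem_sylow_smul, inv_inv]
          exact h3
        have h4 : x ∈ ((c⁻¹ • Q : Sylow p G) : Subgroup G) := hx _ ⟨c⁻¹ • Q, h1, rfl⟩
        have h5 : x ∈ (c⁻¹ • Q : Sylow p G) := h4
        rw [mem_sylow_smul, inv_inv] at h5
        exact h5
      rw [Subgroup.mem_normalizer_iff]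
      intro x
      constructor
      · exact hconj g hg x
      · intro hx
        have := hconj g⁻¹ (Subgroup.inv_mem _ hg) _ hx
        have e : g⁻¹ * (g * x * g⁻¹) * g⁻¹⁻¹ = x := by group
        rwa [e] at this
    · rintro ⟨R, hR, hIR, hg⟩
      exact ⟨R, hR, hHI.trans hIR, hg⟩

end Cfsg.Agent.S4089
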