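import Cfsg.Statements.S4091
import Mathlib
import Cfsg.Agent.H71.GheriE

set_option autoImplicit false
open Cfsg

namespace Cfsg.Agent.S4091

open Cfsg.Agent.H71 in
/-- Double counting: the number of `p`-elements is `|Syl_p(G)| · ∑_{x ∈ P} 1 / lam(x)`. -/
theorem count_p_elements {G : Type*} [Group G] [Finite G] (p : ℕ) [Fact p.Prime] (P : Sylow p G)
    [Fintype (P : Subgroup G)] :
    (Nat.card {g : G // ∃ k : ℕ, orderOf g = p ^ k} : ℝ) =
      (Nat.card (Sylow p G) : ℝ) * ∑ x : (P : Subgroup G), ((lam p (x : G) : ℕ) : ℝ)⁻¹ := by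
  classical
  have : Fintype G := Fintype.ofFinite G
  have : Fintype (Sylow p G) := Fintype.ofFinite _
  obtain ⟨w, hw⟩ : ∃ w : G → ℝ, w = fun x => ((lam p x : ℕ) : ℝ)⁻¹ := ⟨_, rfl⟩
  have hwx : ∀ x, w x = ((lam p x : ℕ) : ℝ)⁻¹ := fun x => by rw [hw]
  have hconj : ∀ Q : Sylow p G, ∑ x : G, (if x ∈ Q then w x else 0) =
      ∑ x : (P : Subgroup G), w x := by
    intro Q
    obtain ⟨g, hg⟩ := MulAction.exists_smul_eq G P Q
    have h1 : ∑ x : G, (if x ∈ Q then w x else 0) = ∑ x : G, (if x ∈ P then w x else 0) := by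
      rw [← Equiv.sum_comp (MulAut.conj g).toEquiv (fun x => if x ∈ Q then w x else 0)]
      apply Finset.sum_congr rfl
      intro x _
      have e1 : (MulAut.conj g).toEquiv x = g * x * g⁻¹ := rfl
      have e2 : g * x * g⁻¹ ∈ Q ↔ x ∈ P := by
        rw [← hg, mem_smul_sylow_iff]
        have e : g⁻¹ * (g * x * g⁻¹) * g = x := by group
        rw [e]
      have e3 : w (g * x * g⁻¹) = w x := by rw [hwx, hwx, lam_conj]
      rw [e1, e3]
      by_cases hx : x ∈ P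
      · rw [if_pos hx, if_pos (e2.2 hx)]
      · rw [if_neg hx, if_neg (fun h => hx (e2.1 h))]
    rw [h1, ← Finset.sum_filter]
    exact Finset.sum_subtype (Finset.univ.filter (fun x => x ∈ P))
      (fun x => by simp only [Finset.mem_filter, Finset.mem_univ, true_and]; exact Iff.rfl) w
  have hdc : ∑ Q : Sylow p G, ∑ x : G, (if x ∈ Q then w x else 0) =
      (Nat.card {g : G // ∃ k : ℕ, orderOf g = p ^ k} : ℝ) := by
    rw [Finset.sum_comm]
    have h2 : ∀ x : G, ∑ Q : Sylow p G, (if x ∈ Q then w x else 0) =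
        if (∃ k : ℕ, orderOf x = p ^ k) then 1 else 0 := by
      intro x
      rw [← Finset.sum_filter, Finset.sum_const, nsmul_eq_mul, ← lam_eq_card_filter, hwx]
      by_cases hx : ∃ k : ℕ, orderOf x = p ^ k
      · rw [if_pos hx]
        have h3 : ((lam p x : ℕ) : ℝ) ≠ 0 := by exact_mod_cast (lam_ne_zero_iff x).2 hx
        exact mul_inv_cancel₀ h3
      · rw [if_neg hx]
        have h3 : lam p x = 0 := by
          by_contra h
          exact hx ((lam_ne_zero_iff x).1 h)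
        simp [h3]
    rw [Finset.sum_congr rfl (fun x _ => h2 x), Finset.sum_boole, Nat.card_eq_fintype_card,
      Fintype.card_subtype]
  rw [← hdc, Finset.sum_congr rfl (fun Q _ => hconj Q), Finset.sum_const, nsmul_eq_mul,
    Finset.card_univ, Nat.card_eq_fintype_card]
  simp only [hwx]

/-- The AM-GM step. -/
theorem amgm_step {ι : Type*} [Fintype ι] (l : ι → ℕ) (hl : ∀ i, 0 < l i) (u n : ℕ) (hn : 0 < n)
    (hu : (u : ℝ) = (n : ℝ) * ∑ i, ((l i : ℕ) : ℝ)⁻¹) :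
    (n * Fintype.card ι) ^ Fintype.card ι ≤ (∏ i, l i) * u ^ Fintype.card ι := by
  by_cases hm : Fintype.card ι = 0
  · have : IsEmpty ι := Fintype.card_eq_zero_iff.1 hm
    simp
  have hmpos : (0 : ℝ) < (Fintype.card ι : ℝ) := by exact_mod_cast Nat.pos_of_ne_zero hm
  have hnpos : (0 : ℝ) < (n : ℝ) := by exact_mod_cast hn
  have hz : ∀ i, (0 : ℝ) ≤ ((l i : ℕ) : ℝ)⁻¹ := fun i => by positivity
  have h1 := Real.geom_mean_le_arith_mean_weighted Finset.univ
    (fun _ : ι => ((Fintype.card ι : ℝ))⁻¹) (fun i => ((l i : ℕ) : ℝ)⁻¹)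
    (fun _ _ => by positivity)
    (by rw [Finset.sum_const, Finset.card_univ, nsmul_eq_mul]; exact mul_inv_cancel₀ hmpos.ne')
    (fun i _ => hz i)
  rw [Real.finsetProd_rpow Finset.univ _ (fun i _ => hz i), ← Finset.mul_sum] at h1
  have hS : ∑ i, ((l i : ℕ) : ℝ)⁻¹ = (u : ℝ) / n := by
    rw [hu]; field_simp
  rw [hS] at h1
  have hprod : ∏ i, ((l i : ℕ) : ℝ)⁻¹ = (((∏ i, l i : ℕ) : ℝ))⁻¹ := by
    rw [Finset.prod_inv_distrib, Nat.cast_prod]
  have hΛpos : (0 : ℝ) < ((∏ i, l i : ℕ) : ℝ) := by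
    exact_mod_cast Finset.prod_pos (fun i _ => hl i)
  have h2 : (((∏ i, l i : ℕ) : ℝ))⁻¹ ≤ (((Fintype.card ι : ℝ))⁻¹ * ((u : ℝ) / n)) ^ Fintype.card ι := by
    have h3 := pow_le_pow_left₀ (Real.rpow_nonneg (Finset.prod_nonneg (fun i _ => hz i)) _) h1
      (Fintype.card ι)
    rw [Real.rpow_inv_natCast_pow (Finset.prod_nonneg (fun i _ => hz i)) hm, hprod] at h3
    exact h3
  have h4 : (((Fintype.card ι : ℝ))⁻¹ * ((u : ℝ) / n)) ^ Fintype.card ι =
      (u : ℝ) ^ Fintype.card ι / ((n : ℝ) * Fintype.card ι) ^ Fintype.card ι := by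
    rw [← div_pow]
    congr 1
    field_simp
  rw [h4, inv_eq_one_div, div_le_div_iff₀ hΛpos (by positivity)] at h2
  have h5 : ((n : ℝ) * Fintype.card ι) ^ Fintype.card ι ≤
      ((∏ i, l i : ℕ) : ℝ) * (u : ℝ) ^ Fintype.card ι := by
    rw [one_mul] at h2
    rw [mul_comm (((∏ i, l i : ℕ) : ℝ))]
    exact h2
  exact_mod_cast h5

/-- Let G be a finite p-solvable group, P a Sylow p-subgroup of G, u the number of p-elements of G (elements of p-power order, the identity included) and n the number of Sylow p-subgroups of G. Then u/#P ≥ n^((p−1)/p), stated as u^p ≥ #P^p · n^(p−1). -/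
theorem result {G : Type*} [Group G] [Finite G] (p : ℕ) [Fact p.Prime]
    (hG : Cfsg.IsPSolvable p G) (P : Sylow p G) :
    Nat.card (P : Subgroup G) ^ p * Nat.card (Sylow p G) ^ (p - 1) ≤ Nat.card {g : G // ∃ k : ℕ, orderOf g = p ^ k} ^ p := by
  classical
  have hp : p.Prime := Fact.out
  have : Fintype (P : Subgroup G) := Fintype.ofFinite _
  have hM := Cfsg.Agent.H71.gh_M_of_psolvable p hG P
  have hu := count_p_elements p P
  have hnpos : 0 < Nat.card (Sylow p G) := Nat.card_pos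
  have hA := amgm_step (fun x : (P : Subgroup G) => Cfsg.Agent.H71.lam p (x : G))
    (fun x => Cfsg.Agent.H71.lam_pos_of_mem P x.2) _ _ hnpos hu
  rw [← Nat.card_eq_fintype_card] at hA
  have hmpos : 0 < Nat.card (P : Subgroup G) := Nat.card_pos
  obtain ⟨m, hm⟩ : ∃ m, m = Nat.card (P : Subgroup G) := ⟨_, rfl⟩
  obtain ⟨n, hn⟩ : ∃ n, n = Nat.card (Sylow p G) := ⟨_, rfl⟩
  obtain ⟨u, hu'⟩ : ∃ u, u = Nat.card {g : G // ∃ k : ℕ, orderOf g = p ^ k} := ⟨_, rfl⟩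
  obtain ⟨Λ, hΛ⟩ : ∃ Λ, Λ = ∏ x : (P : Subgroup G), Cfsg.Agent.H71.lam p (x : G) := ⟨_, rfl⟩
  rw [← hm, ← hn, ← hu', ← hΛ] at hA
  rw [← hm, ← hn, ← hΛ] at hM
  rw [← hm] at hmpos
  rw [← hn] at hnpos
  rw [← hm, ← hn, ← hu']
  have h1 : ((n * m) ^ m) ^ p ≤ n ^ m * (u ^ m) ^ p := by
    calc ((n * m) ^ m) ^ p ≤ (Λ * u ^ m) ^ p := Nat.pow_le_pow_left hA p
      _ = Λ ^ p * (u ^ m) ^ p := mul_pow _ _ _
      _ ≤ n ^ m * (u ^ m) ^ p := Nat.mul_le_mul_right _ hM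
  obtain ⟨q, hq⟩ : ∃ q, p = q + 1 := ⟨p - 1, by have := hp.one_lt; omega⟩
  rw [hq] at h1 ⊢
  simp only [Nat.add_sub_cancel]
  have h2 : n ^ m * (m ^ (q + 1) * n ^ q) ^ m ≤ n ^ m * (u ^ (q + 1)) ^ m := by
    calc n ^ m * (m ^ (q + 1) * n ^ q) ^ m = ((n * m) ^ m) ^ (q + 1) := by ring
      _ ≤ n ^ m * (u ^ m) ^ (q + 1) := h1
      _ = n ^ m * (u ^ (q + 1)) ^ m := by ring
  have h3 := Nat.le_of_mul_le_mul_left h2 (pow_pos hnpos m)
  exact (Nat.pow_le_pow_iff_left hmpos.ne').1 h3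

end Cfsg.Agent.S4091
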