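import Mathlib
import Cfsg.Statements.S4092

set_option autoImplicit false
open Cfsg

namespace Cfsg.Agent.S4092

theorem result {G : Type*} [Group G] [Finite G] (p : ℕ) [Fact p.Prime]
    (P : Sylow p G) (hP : ¬ (P : Subgroup G).Normal) :
    p * Nat.card (P : Subgroup G) ≤ Nat.card {g : G // ∃ k : ℕ, orderOf g = p ^ k} := by
  classical
  have hpp : p.Prime := Fact.out
  have : Fintype G := Fintype.ofFinite G
  have : Fintype (Sylow p G) := Fintype.ofFinite _
  -- two distinct Sylows
  have hnt : Nontrivial (Sylow p G) := by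
    by_contra h
    rw [not_nontrivial_iff_subsingleton] at h
    exact hP (Sylow.normal_of_subsingleton P)
  obtain ⟨Q₁, Q₂, hQ⟩ := exists_pair_ne (Sylow p G)
  -- maximal intersection
  have hne0 : Nonempty {pq : Sylow p G × Sylow p G // pq.1 ≠ pq.2} := ⟨⟨(Q₁, Q₂), hQ⟩⟩
  obtain ⟨⟨⟨P₁, P₂⟩, hne⟩, hmax⟩ := Finite.exists_max
    (fun x : {pq : Sylow p G × Sylow p G // pq.1 ≠ pq.2} =>
      Nat.card ((x.1.1 : Subgroup G) ⊓ (x.1.2 : Subgroup G) : Subgroup G))
  simp only at hne hmax
  set D : Subgroup G := (P₁ : Subgroup G) ⊓ (P₂ : Subgroup G) with hD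
  have hDp : IsPGroup p D := P₁.isPGroup'.to_le inf_le_left
  have hcard : ∀ Q : Sylow p G, Nat.card (Q : Subgroup G) = Nat.card (P : Subgroup G) := by
    intro Q
    rw [Sylow.card_eq_multiplicity, Sylow.card_eq_multiplicity]
  -- p * |D| ≤ |P|
  have hDlt : p * Nat.card D ≤ Nat.card (P : Subgroup G) := by
    have hle : D ≤ (P₁ : Subgroup G) := inf_le_left
    have hdvd : Nat.card D ∣ Nat.card (P₁ : Subgroup G) := Subgroup.card_dvd_of_le hle
    obtain ⟨k, hk⟩ := hdvd
    have hk1 : k ≠ 1 := by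
      intro h1
      rw [h1, mul_one] at hk
      have : D = (P₁ : Subgroup G) := Subgroup.eq_of_le_of_card_ge hle (le_of_eq hk)
      have h12 : (P₁ : Subgroup G) ≤ (P₂ : Subgroup G) := by
        rw [← this]; exact inf_le_right
      have : (P₁ : Subgroup G) = (P₂ : Subgroup G) :=
        Subgroup.eq_of_le_of_card_ge h12 (by rw [hcard P₁, hcard P₂])
      exact hne (Sylow.ext this)
    have hkdvd : k ∣ p ^ (Nat.card G).factorization p := by
      rw [← Sylow.card_eq_multiplicity P₁, hk]; exact dvd_mul_left k _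
    obtain ⟨j, hj, hkj⟩ := (Nat.dvd_prime_pow hpp).mp hkdvd
    have hj0 : j ≠ 0 := by
      rintro rfl
      exact hk1 (by simpa using hkj)
    have hpk : p ≤ k := by
      rw [hkj]
      calc p = p ^ 1 := (pow_one p).symm
        _ ≤ p ^ j := Nat.pow_le_pow_right hpp.pos (Nat.one_le_iff_ne_zero.mpr hj0)
    rw [← hcard P₁, hk, mul_comm]
    exact Nat.mul_le_mul_left _ hpk
  -- the Sylows containing D
  set S : Finset (Sylow p G) := Finset.univ.filter (fun Q => D ≤ (Q : Subgroup G)) with hS
  have hScard : p + 1 ≤ S.card := by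
    have h1 := hDp.card_modEq_card_fixedPoints (Sylow p G)
    have h2 := card_sylow_modEq_one p G
    have h3 : Nat.card (MulAction.fixedPoints D (Sylow p G)) = S.card := by
      rw [Nat.card_eq_fintype_card, ← Set.toFinset_card]
      congr 1
      ext Q
      rw [Set.mem_toFinset, hDp.sylow_mem_fixedPoints_iff, hS, Finset.mem_filter]
      simp
    rw [h3] at h1
    have h4 : S.card ≡ 1 [MOD p] := h1.symm.trans h2
    have h5 : 1 < S.card := by
      rw [Finset.one_lt_card]
      refine ⟨P₁, ?_, P₂, ?_, hne⟩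
      · rw [hS, Finset.mem_filter]; exact ⟨Finset.mem_univ _, inf_le_left⟩
      · rw [hS, Finset.mem_filter]; exact ⟨Finset.mem_univ _, inf_le_right⟩
    have h6 : p ∣ S.card - 1 := (Nat.modEq_iff_dvd' (le_of_lt h5)).mp h4.symm
    have h7 : p ≤ S.card - 1 := Nat.le_of_dvd (by omega) h6
    omega
  -- counting
  have hfilt : ∀ K : Subgroup G, (Finset.univ.filter (fun g : G => g ∈ K)).card = Nat.card K := by
    intro K
    rw [Nat.card_eq_fintype_card, Fintype.card_subtype]
  set E : Finset G := Finset.univ.filter (fun g : G => ∃ k : ℕ, orderOf g = p ^ k) with hE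
  have hEcard : Nat.card {g : G // ∃ k : ℕ, orderOf g = p ^ k} = E.card := by
    rw [Nat.card_eq_fintype_card, Fintype.card_subtype]
  set DF : Finset G := Finset.univ.filter (fun g : G => g ∈ D) with hDF
  let T : Sylow p G → Finset G := fun Q => (Finset.univ.filter (fun g : G => g ∈ (Q : Subgroup G))) \ DF
  have hT : ∀ Q ∈ S, (T Q).card = Nat.card (P : Subgroup G) - Nat.card D := by
    intro Q hQS
    have hDQ : D ≤ (Q : Subgroup G) := by
      rw [hS, Finset.mem_filter] at hQS; exact hQS.2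
    have hsub : DF ⊆ Finset.univ.filter (fun g : G => g ∈ (Q : Subgroup G)) := by
      intro g hg
      rw [hDF, Finset.mem_filter] at hg
      rw [Finset.mem_filter]
      exact ⟨Finset.mem_univ _, hDQ hg.2⟩
    change ((Finset.univ.filter (fun g : G => g ∈ (Q : Subgroup G))) \ DF).card = _
    rw [Finset.card_sdiff_of_subset hsub, hfilt, hDF, hfilt, hcard Q]
  have hdisj : (S : Set (Sylow p G)).PairwiseDisjoint T := by
    intro Q hQS Q' hQ'S hQQ'
    have hDQ : D ≤ (Q : Subgroup G) := by
      have := hQS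
      rw [Finset.mem_coe, hS, Finset.mem_filter] at this; exact this.2
    have hDQ' : D ≤ (Q' : Subgroup G) := by
      have := hQ'S
      rw [Finset.mem_coe, hS, Finset.mem_filter] at this; exact this.2
    have hinter : D = (Q : Subgroup G) ⊓ (Q' : Subgroup G) :=
      Subgroup.eq_of_le_of_card_ge (le_inf hDQ hDQ') (hmax ⟨(Q, Q'), hQQ'⟩)
    change Disjoint (T Q) (T Q')
    rw [Finset.disjoint_left]
    intro g hg hg'
    change g ∈ (Finset.univ.filter (fun g : G => g ∈ (Q : Subgroup G))) \ DF at hg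
    change g ∈ (Finset.univ.filter (fun g : G => g ∈ (Q' : Subgroup G))) \ DF at hg'
    rw [Finset.mem_sdiff, Finset.mem_filter] at hg hg'
    apply hg.2
    rw [hDF, Finset.mem_filter]
    refine ⟨Finset.mem_univ _, ?_⟩
    rw [hinter]
    exact ⟨hg.1.2, hg'.1.2⟩
  have hdisj2 : Disjoint DF (S.biUnion T) := by
    rw [Finset.disjoint_left]
    intro g hg hg'
    rw [Finset.mem_biUnion] at hg'
    obtain ⟨Q, _, hgQ⟩ := hg'
    change g ∈ (Finset.univ.filter (fun g : G => g ∈ (Q : Subgroup G))) \ DF at hgQ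
    rw [Finset.mem_sdiff] at hgQ
    exact hgQ.2 hg
  have hpel : ∀ (Q : Sylow p G) (g : G), g ∈ (Q : Subgroup G) → ∃ k : ℕ, orderOf g = p ^ k := by
    intro Q g hg
    obtain ⟨k, hk⟩ := (IsPGroup.iff_orderOf.mp Q.isPGroup') ⟨g, hg⟩
    exact ⟨k, by rw [← hk, Subgroup.orderOf_mk]⟩
  have hsubE : DF ∪ S.biUnion T ⊆ E := by
    intro g hg
    rw [hE, Finset.mem_filter]
    refine ⟨Finset.mem_univ _, ?_⟩
    rw [Finset.mem_union] at hg
    rcases hg with hg | hg
    · rw [hDF, Finset.mem_filter] at hg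
      exact hpel P₁ g (inf_le_left (a := (P₁ : Subgroup G)) (b := (P₂ : Subgroup G)) hg.2)
    · rw [Finset.mem_biUnion] at hg
      obtain ⟨Q, _, hgQ⟩ := hg
      change g ∈ (Finset.univ.filter (fun g : G => g ∈ (Q : Subgroup G))) \ DF at hgQ
      rw [Finset.mem_sdiff, Finset.mem_filter] at hgQ
      exact hpel Q g hgQ.1.2
  have hcount : Nat.card D + S.card * (Nat.card (P : Subgroup G) - Nat.card D) ≤ E.card := by
    calc Nat.card D + S.card * (Nat.card (P : Subgroup G) - Nat.card D)
        = DF.card + ∑ Q ∈ S, (T Q).card := by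
          rw [hDF, hfilt, Finset.sum_congr rfl hT, Finset.sum_const, smul_eq_mul]
      _ = DF.card + (S.biUnion T).card := by rw [Finset.card_biUnion hdisj]
      _ = (DF ∪ S.biUnion T).card := (Finset.card_union_of_disjoint hdisj2).symm
      _ ≤ E.card := Finset.card_le_card hsubE
  rw [hEcard]
  refine le_trans ?_ hcount
  -- arithmetic
  have hDP : Nat.card D ≤ Nat.card (P : Subgroup G) := by
    have : 1 * Nat.card D ≤ p * Nat.card D := Nat.mul_le_mul_right _ hpp.pos
    omega
  obtain ⟨e, he⟩ := Nat.exists_eq_add_of_le hDP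
  rw [he, Nat.add_sub_cancel_left]
  rw [he] at hDlt
  have h1 : (p + 1) * e ≤ S.card * e := Nat.mul_le_mul_right _ hScard
  nlinarith [h1, hDlt]

end Cfsg.Agent.S4092
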