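import Mathlib
import Cfsg.Statements.S4093

set_option autoImplicit false
open scoped BigOperators
open Cfsg

namespace Cfsg.Agent.S4093

theorem result {G : Type*} [Group G] [Finite G] (p : ℕ) [Fact p.Prime]
    (P : Sylow p G) (N : Subgroup G) [N.Normal] (hNP : N.IsComplement' (P : Subgroup G)) :
    Nat.card {g : G // ∃ k : ℕ, orderOf g = p ^ k} =
      ∑ᶠ x : (P : Subgroup G), Nat.card N / Nat.card ↥(N ⊓ Subgroup.centralizer ({(x : G)} : Set G)) := by
  classical
  have hbij : Function.Bijective (fun x : N × (P : Subgroup G) => (x.1 : G) * (x.2 : G)) := hNP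
  let e : N × (P : Subgroup G) ≃ G := Equiv.ofBijective _ hbij
  have he : ∀ (n : N) (x : (P : Subgroup G)), e (n, x) = (n : G) * (x : G) := fun _ _ => rfl
  let _ : MulAction N G := MulAction.compHom G ((MulAut.conj : G →* MulAut G).comp N.subtype)
  have hsmul : ∀ (m : N) (y : G), m • y = (m : G) * y * (m : G)⁻¹ := fun _ _ => rfl
  have key1 : ∀ (x : (P : Subgroup G)) (y : G), y ∈ MulAction.orbit N (x : G) →
      (e.symm y).2 = x ∧ ∃ k : ℕ, orderOf y = p ^ k := by
    rintro x y ⟨m, rfl⟩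
    change (e.symm (m • (x : G))).2 = x ∧ ∃ k : ℕ, orderOf (m • (x : G)) = p ^ k
    constructor
    · have hmem : (m : G) * (x : G) * (m : G)⁻¹ * (x : G)⁻¹ ∈ N := by
        have h1 : (x : G) * (m : G)⁻¹ * (x : G)⁻¹ ∈ N :=
          ‹N.Normal›.conj_mem _ (N.inv_mem m.2) _
        have : (m : G) * (x : G) * (m : G)⁻¹ * (x : G)⁻¹ = (m : G) * ((x : G) * (m : G)⁻¹ * (x : G)⁻¹) := by
          group
        rw [this]
        exact N.mul_mem m.2 h1
      have h2 : e (⟨(m : G) * (x : G) * (m : G)⁻¹ * (x : G)⁻¹, hmem⟩, x) = m • (x : G) := by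
        rw [he, hsmul]; simp
      rw [← h2, Equiv.symm_apply_apply]
    · obtain ⟨k, hk⟩ := (IsPGroup.iff_orderOf.mp P.isPGroup') x
      refine ⟨k, ?_⟩
      rw [hsmul, ← hk, ← Subgroup.orderOf_coe]
      exact (MulEquiv.orderOf_eq (MulAut.conj (m : G)) (x : G))
  have key2 : ∀ g : G, (∃ k : ℕ, orderOf g = p ^ k) →
      g ∈ MulAction.orbit N (((e.symm g).2 : (P : Subgroup G)) : G) := by
    rintro g ⟨k, hk⟩
    have hpg : IsPGroup p (Subgroup.zpowers g) := by
      apply IsPGroup.of_card (n := k)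
      rw [Nat.card_zpowers, hk]
    obtain ⟨Q, hQ⟩ := hpg.exists_le_sylow
    obtain ⟨c, hc⟩ := MulAction.exists_smul_eq G P Q
    have hgQ : g ∈ (Q : Subgroup G) := hQ (Subgroup.mem_zpowers g)
    rw [← hc, Sylow.coe_subgroup_smul, Subgroup.mem_smul_pointwise_iff_exists] at hgQ
    obtain ⟨z, hz, hzg⟩ := hgQ
    -- c = m * y
    obtain ⟨⟨m, y⟩, hmy⟩ := e.surjective c
    rw [he] at hmy
    have hz' : (y : G) * z * (y : G)⁻¹ ∈ (P : Subgroup G) :=
      (P : Subgroup G).mul_mem ((P : Subgroup G).mul_mem y.2 hz) ((P : Subgroup G).inv_mem y.2)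
    have hg : g ∈ MulAction.orbit N ((⟨(y : G) * z * (y : G)⁻¹, hz'⟩ : (P : Subgroup G)) : G) := by
      refine ⟨m, ?_⟩
      change m • ((y : G) * z * (y : G)⁻¹) = g
      rw [hsmul, ← hzg, ← hmy]
      simp [MulAut.smul_def, mul_assoc]
    have := (key1 _ g hg).1
    rw [this]
    exact hg
  let Φ : {g : G // ∃ k : ℕ, orderOf g = p ^ k} ≃ Σ x : (P : Subgroup G), MulAction.orbit N (x : G) :=
    { toFun := fun g => ⟨(e.symm g.1).2, ⟨g.1, key2 g.1 g.2⟩⟩
      invFun := fun s => ⟨s.2.1, (key1 s.1 s.2.1 s.2.2).2⟩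
      left_inv := fun g => rfl
      right_inv := by
        rintro ⟨x, y, hy⟩
        have := (key1 x y hy).1
        subst this
        rfl }
  have : Fintype (P : Subgroup G) := Fintype.ofFinite _
  rw [Nat.card_congr Φ, Nat.card_sigma, finsum_eq_sum_of_fintype]
  apply Finset.sum_congr rfl
  intro x _
  have e2 := Nat.card_congr (MulAction.orbitProdStabilizerEquivGroup N (x : G))
  rw [Nat.card_prod] at e2
  have hstab : Nat.card (MulAction.stabilizer N (x : G)) =
      Nat.card ↥(N ⊓ Subgroup.centralizer ({(x : G)} : Set G)) := by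
    have h1 : MulAction.stabilizer N (x : G) = (N ⊓ Subgroup.centralizer ({(x : G)} : Set G)).subgroupOf N := by
      ext m
      rw [MulAction.mem_stabilizer_iff, Subgroup.mem_subgroupOf, hsmul, Subgroup.mem_inf,
        Subgroup.mem_centralizer_singleton_iff]
      constructor
      · intro h
        refine ⟨m.2, ?_⟩
        calc (m : G) * (x : G) = (m : G) * (x : G) * (m : G)⁻¹ * m := by group
          _ = (x : G) * m := by rw [h]
      · rintro ⟨_, h⟩
        rw [h]; group
    rw [h1]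
    exact Nat.card_congr (Subgroup.subgroupOfEquivOfLe inf_le_left).toEquiv
  rw [← e2, hstab]
  exact (Nat.mul_div_cancel _ Nat.card_pos).symm

end Cfsg.Agent.S4093
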