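import Mathlib
import Cfsg.Statements.S4097
import Cfsg.Agent.H75.FrobeniusThm
import Cfsg.Agent.S0023

set_option autoImplicit false
open Cfsg

namespace Cfsg.Agent.S4097

universe u

open scoped Pointwise

/-- Elements of `X ⊔ Y` are products when `Y` normalizes `X`. -/
theorem mem_sup_of_le_normalizer {G : Type*} [Group G] {X Y : Subgroup G}
    (hn : Y ≤ Subgroup.normalizer (X : Set G)) {u : G} (hu : u ∈ X ⊔ Y) :
    ∃ x ∈ X, ∃ y ∈ Y, u = x * y := by
  have hc : ∀ y ∈ Y, ∀ x ∈ X, y * x * y⁻¹ ∈ X := fun y hy x hx =>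
    (Subgroup.mem_normalizer_iff.mp (hn hy) x).mp hx
  rw [Subgroup.sup_eq_closure] at hu
  refine Subgroup.closure_induction ?_ ?_ ?_ ?_ hu
  · rintro x (hx | hx)
    · exact ⟨x, hx, 1, Y.one_mem, by simp⟩
    · exact ⟨1, X.one_mem, x, hx, by simp⟩
  · exact ⟨1, X.one_mem, 1, Y.one_mem, by simp⟩
  · rintro _ _ _ _ ⟨x₁, hx₁, y₁, hy₁, rfl⟩ ⟨x₂, hx₂, y₂, hy₂, rfl⟩
    exact ⟨x₁ * (y₁ * x₂ * y₁⁻¹), X.mul_mem hx₁ (hc y₁ hy₁ x₂ hx₂), y₁ * y₂, Y.mul_mem hy₁ hy₂,
      by group⟩
  · rintro _ _ ⟨x, hx, y, hy, rfl⟩
    exact ⟨y⁻¹ * x⁻¹ * y⁻¹⁻¹, hc y⁻¹ (Y.inv_mem hy) x⁻¹ (X.inv_mem hx), y⁻¹, Y.inv_mem hy,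
      by group⟩

/-- `XY` is solvable when `X`, `Y` are and `Y` normalizes `X`. -/
theorem isSolvable_sup {G : Type*} [Group G] {X Y : Subgroup G}
    (hn : Y ≤ Subgroup.normalizer (X : Set G)) (hX : Group.IsSolvable ↥X)
    (hY : Group.IsSolvable ↥Y) : Group.IsSolvable ↥(X ⊔ Y) := by
  have hN : (X.subgroupOf (X ⊔ Y)).Normal :=
    (Subgroup.normal_subgroupOf_iff_le_normalizer le_sup_left).mpr
      (sup_le Subgroup.le_normalizer hn)
  have hNs : Group.IsSolvable ↥(X.subgroupOf (X ⊔ Y)) :=
    Group.isSolvable_of_isSolvable_injective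
      (f := (Subgroup.subgroupOfEquivOfLe (le_sup_left : X ≤ X ⊔ Y)).toMonoidHom)
      (Subgroup.subgroupOfEquivOfLe (le_sup_left : X ≤ X ⊔ Y)).injective
  let φ : ↥Y →* ↥(X ⊔ Y) ⧸ X.subgroupOf (X ⊔ Y) :=
    (QuotientGroup.mk' (X.subgroupOf (X ⊔ Y))).comp (Subgroup.inclusion (le_sup_right : Y ≤ X ⊔ Y))
  have hφ : Function.Surjective φ := by
    intro q
    obtain ⟨⟨u, hu⟩, rfl⟩ := QuotientGroup.mk'_surjective _ q
    obtain ⟨x, hx, y, hy, rfl⟩ := mem_sup_of_le_normalizer hn hu
    refine ⟨⟨y, hy⟩, ?_⟩
    show QuotientGroup.mk' (X.subgroupOf (X ⊔ Y)) (Subgroup.inclusion le_sup_right ⟨y, hy⟩) =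
      QuotientGroup.mk' (X.subgroupOf (X ⊔ Y)) ⟨x * y, hu⟩
    rw [QuotientGroup.mk'_apply, QuotientGroup.mk'_apply, QuotientGroup.eq]
    rw [Subgroup.mem_subgroupOf]
    have : (((Subgroup.inclusion (le_sup_right : Y ≤ X ⊔ Y) ⟨y, hy⟩)⁻¹ *
        (⟨x * y, hu⟩ : ↥(X ⊔ Y)) : ↥(X ⊔ Y)) : G) = y⁻¹ * x * y⁻¹⁻¹ := by
      simp only [Subgroup.coe_mul, Subgroup.coe_inv, Subgroup.coe_inclusion]
      group
    rw [this]
    exact (Subgroup.mem_normalizer_iff.mp (hn (Y.inv_mem hy)) x).mp hx
  have hQs : Group.IsSolvable (↥(X ⊔ Y) ⧸ X.subgroupOf (X ⊔ Y)) :=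
    Group.isSolvable_of_surjective hφ
  exact Group.isSolvable_of_ker_le_range (X.subgroupOf (X ⊔ Y)).subtype
    (QuotientGroup.mk' (X.subgroupOf (X ⊔ Y))) (by simp)

/-- Cyclic subgroups are solvable. -/
theorem isSolvable_zpowers {G : Type*} [Group G] (a : G) :
    Group.IsSolvable ↥(Subgroup.zpowers a) := by
  apply Group.isSolvable_of_comm
  rintro ⟨x, hx⟩ ⟨y, hy⟩
  obtain ⟨i, rfl⟩ := Subgroup.mem_zpowers_iff.mp hx
  obtain ⟨j, rfl⟩ := Subgroup.mem_zpowers_iff.mp hy
  apply Subtype.ext
  show a ^ i * a ^ j = a ^ j * a ^ i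
  rw [← zpow_add, ← zpow_add, add_comm]

/-- A Frobenius complement has order coprime to its index. -/
theorem frob_coprime {G : Type u} [Group G] [Finite G] (M : Subgroup G)
    (hM : Cfsg.IsFrobeniusComplement M) : (Nat.card M).Coprime M.index := by
  classical
  rw [Cfsg.Agent.H75.isFrobeniusComplement_iff] at hM
  obtain ⟨-, -, hti⟩ := hM
  apply Nat.Coprime.symm
  apply Nat.coprime_of_dvd
  intro p hp hpi hpM
  have : Fact p.Prime := ⟨hp⟩
  obtain ⟨x, hx⟩ := exists_prime_orderOf_dvd_card' p hpM
  -- zpowers x acts on G ⧸ M with a unique fixed point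
  have hPG : IsPGroup p (Subgroup.zpowers (x : G)) := by
    apply IsPGroup.of_card (n := 1)
    rw [Nat.card_zpowers, Subgroup.orderOf_coe, hx, pow_one]
  have hmod := hPG.card_modEq_card_fixedPoints (G ⧸ M)
  have hfix : Nat.card (MulAction.fixedPoints (Subgroup.zpowers (x : G)) (G ⧸ M)) = 1 := by
    rw [Nat.card_eq_one_iff_unique]
    refine ⟨⟨?_⟩, ⟨⟨(1 : G), ?_⟩⟩⟩
    · rintro ⟨q₁, h₁⟩ ⟨q₂, h₂⟩
      have key : ∀ q : G ⧸ M, q ∈ MulAction.fixedPoints (Subgroup.zpowers (x : G)) (G ⧸ M) →
          q = ((1 : G) : G ⧸ M) := by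
        intro q hq
        obtain ⟨g, rfl⟩ := QuotientGroup.mk_surjective q
        have h1 := hq ⟨(x : G), Subgroup.mem_zpowers _⟩
        have h2 : (((x : G) * g : G) : G ⧸ M) = (g : G ⧸ M) := h1
        rw [QuotientGroup.eq] at h2
        by_contra hne
        have hgM : g ∉ M := by
          intro hg
          apply hne
          rw [QuotientGroup.eq]
          simpa using hg
        have h3 : g⁻¹ * (x : G)⁻¹ * g ∈ M := by
          simpa [mul_assoc] using h2
        have h4 := hti g hgM (x : G)⁻¹ (M.inv_mem x.2) h3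
        have h5 : (x : M) = 1 := by
          apply Subtype.ext
          simpa using h4
        rw [h5, orderOf_one] at hx
        exact hp.one_lt.ne hx
      exact Subtype.ext ((key q₁ h₁).trans (key q₂ h₂).symm)
    · intro ⟨y, hy⟩
      obtain ⟨i, rfl⟩ := Subgroup.mem_zpowers_iff.mp hy
      show (((x : G) ^ i * 1 : G) : G ⧸ M) = ((1 : G) : G ⧸ M)
      rw [QuotientGroup.eq]
      simpa using M.zpow_mem x.2 i
  rw [hfix] at hmod
  have h6 : Nat.card (G ⧸ M) = M.index := rfl
  rw [h6] at hmod
  have h7 : M.index % p = 1 % p := hmod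
  rw [Nat.dvd_iff_mod_eq_zero] at hpi
  rw [hpi, Nat.mod_eq_of_lt hp.one_lt] at h7
  exact absurd h7 (by norm_num)

theorem main : ∀ (n : ℕ) (G : Type u) [Group G] [Finite G], Nat.card G = n →
    ∀ (A : Subgroup G), Group.IsSolvable A →
    (∀ S : Subgroup G, A ≤ S → Group.IsSolvable S → ∀ a ∈ A, ∀ s ∈ S, a * s = s * a) →
    A ≤ Subgroup.center G := by
  intro n
  induction n using Nat.strong_induction_on with
  | _ n ih =>
  intro G _ _ hn A hA hc
  by_contra hnot
  -- A is abelian
  have hAab : ∀ a ∈ A, ∀ b ∈ A, a * b = b * a := hc A le_rfl hA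
  set M : Subgroup G := Subgroup.centralizer (A : Set G) with hMdef
  have hAM : A ≤ M := fun a ha => Subgroup.mem_centralizer_iff.mpr (fun b hb => hAab b hb a ha)
  have hMtop : M ≠ ⊤ := by
    intro h
    apply hnot
    intro a ha
    rw [Subgroup.mem_center_iff]
    intro g
    have : g ∈ M := h ▸ Subgroup.mem_top g
    exact (Subgroup.mem_centralizer_iff.mp this a ha).symm
  have hprop : ∀ H : Subgroup G, A ≤ H → H ≠ ⊤ → H ≤ M := by
    intro H hAH hH
    have hcard : Nat.card H < n := by
      rw [← hn]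
      exact lt_of_le_of_ne (Subgroup.card_le_card_group H)
        (fun h => hH (Subgroup.eq_top_of_card_eq H h))
    have hA' : Group.IsSolvable (A.subgroupOf H) :=
      Group.isSolvable_of_isSolvable_injective
        (f := (Subgroup.subgroupOfEquivOfLe hAH).toMonoidHom)
        (Subgroup.subgroupOfEquivOfLe hAH).injective
    have key := ih (Nat.card H) hcard H rfl (A.subgroupOf H) hA' ?_
    · intro h hh
      rw [Subgroup.mem_centralizer_iff]
      intro a ha
      have h1 : (⟨a, hAH ha⟩ : H) ∈ Subgroup.center H :=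
        key (by rw [Subgroup.mem_subgroupOf]; exact ha)
      have h2 := Subgroup.mem_center_iff.mp h1 ⟨h, hh⟩
      exact (congrArg Subtype.val h2).symm
    · intro S hAS hS a ha s hs
      have hS' : Group.IsSolvable (S.map H.subtype) :=
        Group.isSolvable_of_surjective (f := H.subtype.subgroupMap S)
          (MonoidHom.subgroupMap_surjective _ _)
      have h3 := hc (S.map H.subtype) ?_ hS' a (Subgroup.mem_subgroupOf.mp ha) s ⟨s, hs, rfl⟩
      · exact Subtype.ext h3
      · intro b hb
        exact ⟨⟨b, hAH hb⟩, hAS (by rw [Subgroup.mem_subgroupOf]; exact hb), rfl⟩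
  have hL : ∀ B : Subgroup G, B.Normal → Group.IsSolvable B → A ≤ B → False := by
    intro B hBn hBs hAB
    apply hnot
    intro a ha
    rw [Subgroup.mem_center_iff]
    intro g
    have hsol : Group.IsSolvable (B ⊔ Subgroup.zpowers g : Subgroup G) :=
      isSolvable_sup (by rw [Subgroup.normalizer_eq_top_iff.mpr hBn]; exact le_top) hBs
        (isSolvable_zpowers g)
    exact (hc _ (hAB.trans le_sup_left) hsol a ha g
      ((le_sup_right : Subgroup.zpowers g ≤ B ⊔ Subgroup.zpowers g) (Subgroup.mem_zpowers g))).symm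
  by_cases hMn : M.Normal
  · set N := Subgroup.normalClosure (A : Set G) with hN
    have hNM : N ≤ M := Subgroup.normalClosure_le_normal hAM
    have hNn : N.Normal := Subgroup.normalClosure_normal
    have hBn : (N ⊓ Subgroup.centralizer (N : Set G)).Normal := inferInstance
    have hBs : Group.IsSolvable (N ⊓ Subgroup.centralizer (N : Set G) : Subgroup G) := by
      apply Group.isSolvable_of_comm
      rintro ⟨x, hx⟩ ⟨y, hy⟩
      apply Subtype.ext
      exact (Subgroup.mem_centralizer_iff.mp hy.2 x hx.1)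
    have hAB : A ≤ N ⊓ Subgroup.centralizer (N : Set G) := by
      intro a ha
      refine Subgroup.mem_inf.mpr ⟨Subgroup.subset_normalClosure ha, ?_⟩
      rw [Subgroup.mem_centralizer_iff]
      intro h hh
      exact (Subgroup.mem_centralizer_iff.mp (hNM hh) a ha).symm
    exact hL _ hBn hBs hAB
  · have hNM : Subgroup.normalizer (M : Set G) ≤ M := by
      apply hprop
      · exact hAM.trans Subgroup.le_normalizer
      · intro h; exact hMn (Subgroup.normalizer_eq_top_iff.mp h)
    -- for g ∉ M, A and its conjugate generate G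
    have hgen : ∀ g : G, g ∉ M → A ⊔ A.map (MulAut.conj g).toMonoidHom = ⊤ := by
      intro g hg
      by_contra hne
      have h1 := hprop _ le_sup_left hne
      have h2 : A.map (MulAut.conj g).toMonoidHom ≤ M := le_sup_right.trans h1
      have h3 : A ≤ M.map (MulAut.conj g).toMonoidHom := by
        intro a ha
        refine ⟨g⁻¹ * a * g, ?_, ?_⟩
        · rw [SetLike.mem_coe, Subgroup.mem_centralizer_iff]
          intro b hb
          have h4 : g * b * g⁻¹ ∈ M := h2 ⟨b, hb, by simp⟩
          have h5 := Subgroup.mem_centralizer_iff.mp h4 a ha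
          calc b * (g⁻¹ * a * g) = g⁻¹ * ((g * b * g⁻¹) * a) * g := by group
            _ = g⁻¹ * (a * (g * b * g⁻¹)) * g := by rw [h5]
            _ = g⁻¹ * a * g * b := by group
        · show g * (g⁻¹ * a * g) * g⁻¹ = a
          group
      have hcardeq : Nat.card (M.map (MulAut.conj g).toMonoidHom) = Nat.card M :=
        Subgroup.card_map_of_injective (MulAut.conj g).injective
      have h6 : M.map (MulAut.conj g).toMonoidHom ≠ ⊤ := by
        intro h
        apply hMtop
        apply Subgroup.eq_top_of_card_eq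
        rw [← hcardeq, h, Subgroup.card_top]
      have h7 : M.map (MulAut.conj g).toMonoidHom ≤ M := hprop _ h3 h6
      have h8 : M.map (MulAut.conj g).toMonoidHom = M :=
        Subgroup.eq_of_le_of_card_ge h7 hcardeq.ge
      apply hg
      apply hNM
      rw [Subgroup.mem_normalizer_iff]
      intro h
      constructor
      · intro hh
        have : g * h * g⁻¹ ∈ M.map (MulAut.conj g).toMonoidHom := ⟨h, hh, by simp⟩
        rwa [h8] at this
      · intro hh
        rw [← h8] at hh
        obtain ⟨m, hm, hmeq⟩ := hh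
        have : m = h := by
          have h9 : g * m * g⁻¹ = g * h * g⁻¹ := by simpa using hmeq
          simpa using h9
        rw [← this]; exact hm
    have hTI : ∀ g : G, g ∉ M → ∀ x ∈ M, g⁻¹ * x * g ∈ M → x ∈ Subgroup.center G := by
      intro g hg x hx hx'
      have hcent : (⊤ : Subgroup G) ≤ Subgroup.centralizer {x} := by
        rw [← hgen g hg, sup_le_iff]
        constructor
        · intro a ha
          rw [Subgroup.mem_centralizer_iff]
          intro h hh
          rw [Set.mem_singleton_iff] at hh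
          subst hh
          exact (Subgroup.mem_centralizer_iff.mp hx a ha).symm
        · rintro _ ⟨a, ha, rfl⟩
          rw [Subgroup.mem_centralizer_iff]
          intro h hh
          rw [Set.mem_singleton_iff] at hh
          subst hh
          have h5 := Subgroup.mem_centralizer_iff.mp hx' a ha
          show h * (g * a * g⁻¹) = (g * a * g⁻¹) * h
          calc h * (g * a * g⁻¹) = g * ((g⁻¹ * h * g) * a) * g⁻¹ := by group
            _ = g * (a * (g⁻¹ * h * g)) * g⁻¹ := by rw [h5]
            _ = (g * a * g⁻¹) * h := by group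
      rw [Subgroup.mem_center_iff]
      intro y
      have h1 := hcent (Subgroup.mem_top y)
      rw [Subgroup.mem_centralizer_iff] at h1
      exact (h1 x rfl).symm
    by_cases hZ : Subgroup.center G = ⊥
    swap
    · set Z := Subgroup.center G with hZdef
      have hcardQ : Nat.card (G ⧸ Z) < n := by
        rw [← hn, Subgroup.card_eq_card_quotient_mul_card_subgroup Z]
        have h1 : 1 < Nat.card Z := (Subgroup.one_lt_card_iff_ne_bot Z).mpr hZ
        have h2 : 0 < Nat.card (G ⧸ Z) := Nat.card_pos
        nlinarith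
      have hA' : Group.IsSolvable (A.map (QuotientGroup.mk' Z)) :=
        Group.isSolvable_of_surjective (f := (QuotientGroup.mk' Z).subgroupMap A)
          (MonoidHom.subgroupMap_surjective _ _)
      have hZs : Group.IsSolvable Z := by
        apply Group.isSolvable_of_comm
        rintro ⟨x, hx⟩ ⟨y, hy⟩
        apply Subtype.ext
        exact (Subgroup.mem_center_iff.mp hy x)
      have key := ih _ hcardQ (G ⧸ Z) rfl (A.map (QuotientGroup.mk' Z)) hA' ?_
      · have hBn : (A ⊔ Z).Normal := by
          have hn1 : (A.map (QuotientGroup.mk' Z)).Normal := by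
            constructor
            intro q hq r
            have := Subgroup.mem_center_iff.mp (key hq) r
            rw [this, mul_inv_cancel_right]
            exact hq
          have : ((A.map (QuotientGroup.mk' Z)).comap (QuotientGroup.mk' Z)).Normal :=
            Subgroup.Normal.comap hn1 _
          rwa [Subgroup.comap_map_eq, QuotientGroup.ker_mk'] at this
        have hBs : Group.IsSolvable (A ⊔ Z : Subgroup G) := by
          rw [sup_comm]
          exact isSolvable_sup (X := Z) (Y := A)
            (by rw [Subgroup.normalizer_eq_top_iff.mpr inferInstance]; exact le_top) hZs hA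
        exact hL _ hBn hBs le_sup_left
      · intro S hAS hS a ha s hs
        have hZS : Z ≤ S.comap (QuotientGroup.mk' Z) := by
          intro z hz
          rw [Subgroup.mem_comap]
          have : QuotientGroup.mk' Z z = 1 := (QuotientGroup.eq_one_iff z).mpr hz
          rw [this]; exact S.one_mem
        have hS' : Group.IsSolvable (S.comap (QuotientGroup.mk' Z)) := by
          refine Group.isSolvable_of_ker_le_range (Subgroup.inclusion hZS)
            ((QuotientGroup.mk' Z).subgroupComap S) ?_
          rintro ⟨x, hx⟩ hker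
          rw [MonoidHom.mem_ker] at hker
          have h1 : QuotientGroup.mk' Z x = 1 := congrArg Subtype.val hker
          have h2 : x ∈ Z := (QuotientGroup.eq_one_iff x).mp h1
          exact ⟨⟨x, h2⟩, rfl⟩
        obtain ⟨a0, ha0, rfl⟩ := ha
        obtain ⟨s0, rfl⟩ := QuotientGroup.mk'_surjective Z s
        have hAS' : A ≤ S.comap (QuotientGroup.mk' Z) := fun b hb => hAS ⟨b, hb, rfl⟩
        have h := hc (S.comap (QuotientGroup.mk' Z)) hAS' hS' a0 ha0 s0 hs
        rw [← map_mul, ← map_mul, h]
    · have hAbot : A ≠ ⊥ := by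
        intro h; apply hnot; rw [h]; exact bot_le
      have hMbot : M ≠ ⊥ := fun h => hAbot (le_bot_iff.mp (h ▸ hAM))
      have hFrob : Cfsg.IsFrobeniusComplement M := by
        rw [Cfsg.Agent.H75.isFrobeniusComplement_iff]
        refine ⟨hMbot, hMtop, ?_⟩
        intro g hg x hx hx'
        have := hTI g hg x hx hx'
        rw [hZ] at this
        exact Subgroup.mem_bot.mp this
      obtain ⟨K, hKset, hKn, hKM⟩ := Cfsg.Agent.H75.frobenius_theorem M hFrob
      have hcardK : Nat.card K = M.index := by
        have h1 := hKM.card_mul_card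
        have h2 := M.card_mul_index
        have h3 : 0 < Nat.card M := Nat.card_pos
        rw [← h2, mul_comm] at h1
        exact Nat.eq_of_mul_eq_mul_left h3 h1
      have hcop : (Nat.card A).Coprime (Nat.card K) := by
        rw [hcardK]
        exact Nat.Coprime.coprime_dvd_left (Subgroup.card_dvd_of_le hAM) (frob_coprime M hFrob)
      have hK1 : Nat.card K ≠ 1 := by
        rw [hcardK]
        intro h
        exact hMtop (Subgroup.index_eq_one.mp h)
      obtain ⟨r, hr, hrK⟩ := Nat.exists_prime_and_dvd hK1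
      have : Fact r.Prime := ⟨hr⟩
      obtain ⟨P, hP⟩ := Cfsg.Agent.S0023.result A K
        (by rw [Subgroup.normalizer_eq_top_iff.mpr hKn]; exact le_top) hcop (Or.inl hA) r
      set R := (P : Subgroup K).map K.subtype with hRdef
      have hRK : R ≤ K := by
        rintro _ ⟨x, -, rfl⟩
        exact x.2
      have hRs : Group.IsSolvable R := by
        have h1 : Group.IsSolvable (P : Subgroup K) := by
          have := P.isPGroup'.isNilpotent
          infer_instance
        exact Group.isSolvable_of_surjective (f := K.subtype.subgroupMap (P : Subgroup K))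
          (MonoidHom.subgroupMap_surjective _ _)
      have hRA : Group.IsSolvable (R ⊔ A : Subgroup G) := isSolvable_sup hP hRs hA
      have hRM : R ≤ M := by
        intro x hx
        rw [Subgroup.mem_centralizer_iff]
        intro a ha
        exact hc _ le_sup_right hRA a ha x ((le_sup_left : R ≤ R ⊔ A) hx)
      have hRbot : R = ⊥ := by
        rw [eq_bot_iff]
        intro x hx
        have : x ∈ K ⊓ M := ⟨hRK hx, hRM hx⟩
        rw [hKM.disjoint.eq_bot] at this
        exact this
      have hPbot : (P : Subgroup K) ≠ ⊥ := P.ne_bot_of_dvd_card hrK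
      apply hPbot
      exact (Subgroup.map_eq_bot_iff_of_injective _ K.subtype_injective).mp hRbot

/-- Let A be a solvable subgroup of a finite group G such that A lies in the centre of every solvable subgroup of G containing A. Then A lies in the centre of G. -/
theorem result {G : Type*} [Group G] [Finite G]
    (A : Subgroup G) (hA : Group.IsSolvable A)
    (hc : ∀ S : Subgroup G, A ≤ S → Group.IsSolvable S → ∀ a ∈ A, ∀ s ∈ S, a * s = s * a) : A ≤ Subgroup.center G := by
  exact main _ G rfl A hA hc

end Cfsg.Agent.S4097
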