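import Mathlib
import Cfsg.Statements.S4106

set_option autoImplicit false
open Cfsg
open scoped Pointwise

namespace Cfsg.Agent.S4106

universe u

/-- A conjugacy class all of whose elements have order divisible only by primes of `π`. -/
def IsPiClass {G : Type*} [Group G] (π : Set ℕ) (C : ConjClasses G) : Prop :=
  ∀ q : ℕ, q.Prime → (∃ g : G, ConjClasses.mk g = C ∧ q ∣ orderOf g) → q ∈ π

theorem exists_parts {G : Type*} [Group G] [Finite G] (p : ℕ) (hp : p.Prime) (h : G) :
    ∃ a b : ℕ, h ^ a * h ^ b = h ∧ (∃ k : ℕ, orderOf (h ^ a) = p ^ k) ∧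
      (∀ q : ℕ, q.Prime → q ∣ orderOf (h ^ b) → q ∣ orderOf h ∧ q ≠ p) := by
  have hn0 : orderOf h ≠ 0 := (orderOf_pos h).ne'
  set n := orderOf h with hn
  set pk := p ^ n.factorization p with hpk
  set n' := n / pk with hn'
  have hmul : pk * n' = n := Nat.ordProj_mul_ordCompl_eq_self n p
  have co : pk.Coprime n' := Nat.Coprime.pow_left _ (Nat.coprime_ordCompl hp hn0)
  obtain ⟨a, ha1, ha2⟩ := Nat.chineseRemainder co 1 0
  obtain ⟨b, hb1, hb2⟩ := Nat.chineseRemainder co 0 1
  refine ⟨a, b, ?_, ?_, ?_⟩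
  · rw [← pow_add]
    have h1 : a + b ≡ 1 [MOD pk * n'] := by
      apply (Nat.modEq_and_modEq_iff_modEq_mul co).mp
      exact ⟨by simpa using ha1.add hb1, by simpa using ha2.add hb2⟩
    rw [hmul] at h1
    have := (pow_eq_pow_iff_modEq (x := h) (n := a + b) (m := 1)).mpr h1
    rw [this, pow_one]
  · have hdvd : orderOf (h ^ a) ∣ pk := by
      apply orderOf_dvd_of_pow_eq_one
      rw [← pow_mul]
      apply orderOf_dvd_iff_pow_eq_one.mp
      rw [← hn, ← hmul, mul_comm a pk]
      exact Nat.mul_dvd_mul_left pk (Nat.modEq_zero_iff_dvd.mp ha2)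
    obtain ⟨j, _, hj⟩ := (Nat.dvd_prime_pow hp).mp hdvd
    exact ⟨j, hj⟩
  · intro q hq hqd
    have hdvd : orderOf (h ^ b) ∣ n' := by
      apply orderOf_dvd_of_pow_eq_one
      rw [← pow_mul]
      apply orderOf_dvd_iff_pow_eq_one.mp
      rw [← hn, ← hmul]
      exact Nat.mul_dvd_mul_right (Nat.modEq_zero_iff_dvd.mp hb1) n'
    have hqn' : q ∣ n' := hqd.trans hdvd
    refine ⟨hqn'.trans (Dvd.intro_left pk hmul), ?_⟩
    rintro rfl
    exact Nat.not_dvd_ordCompl hp hn0 hqn'

theorem orderOf_eq_of_mk_eq {K : Type*} [Group K] {g y : K} (h : ConjClasses.mk g = ConjClasses.mk y) :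
    orderOf g = orderOf y := by
  obtain ⟨c, hc⟩ := isConj_iff.mp (ConjClasses.mk_eq_mk_iff_isConj.mp h)
  rw [← hc]
  exact (MulEquiv.orderOf_eq (MulAut.conj c) g).symm

theorem main (S : Finset ℕ) (hS : ∀ q ∈ S, q.Prime) :
    ∀ (G : Type u) [Group G] [Finite G],
      Nat.card {C : ConjClasses G // IsPiClass (↑S : Set ℕ) C} ≤
        ∏ q ∈ S, q ^ (Nat.card G).factorization q := by
  classical
  induction S using Finset.induction_on with
  | empty =>
    intro G _ _
    rw [Finset.prod_empty, Finite.card_le_one_iff_subsingleton]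
    have key : ∀ C : {C : ConjClasses G // IsPiClass (↑(∅ : Finset ℕ) : Set ℕ) C},
        C.1 = ConjClasses.mk 1 := by
      rintro ⟨C, hC⟩
      obtain ⟨h, rfl⟩ := ConjClasses.exists_rep C
      have h1 : orderOf h = 1 := by
        rw [Nat.eq_one_iff_not_exists_prime_dvd]
        intro q hq hd
        have := hC q hq ⟨h, rfl, hd⟩
        simp at this
      have h2 : h = 1 := orderOf_eq_one_iff.mp h1
      subst h2
      rfl
    exact ⟨fun C₁ C₂ => Subtype.ext ((key C₁).trans (key C₂).symm)⟩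
  | insert p S' hpS' ih =>
    intro G _ _
    have hp : p.Prime := hS p (Finset.mem_insert_self p S')
    have : Fact p.Prime := ⟨hp⟩
    have hS' : ∀ q ∈ S', q.Prime := fun q hq => hS q (Finset.mem_insert_of_mem hq)
    obtain ⟨P⟩ : Nonempty (Sylow p G) := Sylow.nonempty
    have hdata : ∀ C : {C : ConjClasses G // IsPiClass (↑(insert p S') : Set ℕ) C},
        ∃ (x : (P : Subgroup G)) (y : Subgroup.centralizer ({(x : G)} : Set G)),
          IsPiClass (↑S' : Set ℕ) (ConjClasses.mk y) ∧ ConjClasses.mk ((x : G) * (y : G)) = C.1 := by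
      rintro ⟨C, hC⟩
      obtain ⟨h, rfl⟩ := ConjClasses.exists_rep C
      obtain ⟨a, b, hab, ⟨k, hk⟩, hb⟩ := exists_parts p hp h
      have hpg : IsPGroup p (Subgroup.zpowers (h ^ a)) := by
        apply IsPGroup.of_card (n := k)
        rw [Nat.card_zpowers, hk]
      obtain ⟨Q, hQ⟩ := hpg.exists_le_sylow
      obtain ⟨c, hc⟩ := MulAction.exists_smul_eq G Q P
      have hxP : c * h ^ a * c⁻¹ ∈ (P : Subgroup G) := by
        rw [← hc, Sylow.coe_subgroup_smul]
        have := Subgroup.smul_mem_pointwise_smul (h ^ a) (MulAut.conj c) (Q : Subgroup G)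
          (hQ (Subgroup.mem_zpowers _))
        simpa [MulAut.smul_def] using this
      have hcomm : c * h ^ b * c⁻¹ ∈ Subgroup.centralizer ({c * h ^ a * c⁻¹} : Set G) := by
        rw [Subgroup.mem_centralizer_singleton_iff]
        have h1 : h ^ b * h ^ a = h ^ a * h ^ b := by rw [← pow_add, ← pow_add, add_comm]
        calc c * h ^ b * c⁻¹ * (c * h ^ a * c⁻¹) = c * (h ^ b * h ^ a) * c⁻¹ := by group
          _ = c * (h ^ a * h ^ b) * c⁻¹ := by rw [h1]
          _ = c * h ^ a * c⁻¹ * (c * h ^ b * c⁻¹) := by group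
      refine ⟨⟨c * h ^ a * c⁻¹, hxP⟩, ⟨c * h ^ b * c⁻¹, hcomm⟩, ?_, ?_⟩
      · intro q hq hex
        obtain ⟨g, hg, hd⟩ := hex
        rw [orderOf_eq_of_mk_eq hg, Subgroup.orderOf_mk] at hd
        have hd' : q ∣ orderOf (h ^ b) := by
          rw [← MulEquiv.orderOf_eq (MulAut.conj c) (h ^ b)]
          exact hd
        obtain ⟨hqh, hqp⟩ := hb q hq hd'
        have := hC q hq ⟨h, rfl, hqh⟩
        rw [Finset.coe_insert, Set.mem_insert_iff] at this
        rcases this with h1 | h1
        · exact absurd h1 hqp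
        · exact h1
      · change ConjClasses.mk (c * h ^ a * c⁻¹ * (c * h ^ b * c⁻¹)) = ConjClasses.mk h
        rw [ConjClasses.mk_eq_mk_iff_isConj, isConj_iff]
        refine ⟨c⁻¹, ?_⟩
        calc c⁻¹ * (c * h ^ a * c⁻¹ * (c * h ^ b * c⁻¹)) * c⁻¹⁻¹ = h ^ a * h ^ b := by group
          _ = h := hab
    choose fx fy hfy hfC using hdata
    let Φ : {C : ConjClasses G // IsPiClass (↑(insert p S') : Set ℕ) C} →
        Σ x : (P : Subgroup G), {D : ConjClasses (Subgroup.centralizer ({(x : G)} : Set G)) //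
          IsPiClass (↑S' : Set ℕ) D} :=
      fun C => ⟨fx C, ⟨ConjClasses.mk (fy C), hfy C⟩⟩
    let gset : (Σ x : (P : Subgroup G), {D : ConjClasses (Subgroup.centralizer ({(x : G)} : Set G)) //
          IsPiClass (↑S' : Set ℕ) D}) → Set G :=
      fun s => (fun y : Subgroup.centralizer ({(s.1 : G)} : Set G) => (s.1 : G) * (y : G)) ''
        {y | ConjClasses.mk y = s.2.1}
    have hΦ : Function.Injective Φ := by
      intro C₁ C₂ h
      apply Subtype.ext
      rw [← hfC C₁, ← hfC C₂]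
      have h1 : gset (Φ C₁) = gset (Φ C₂) := congrArg gset h
      have h2 : (fx C₁ : G) * (fy C₁ : G) ∈ gset (Φ C₁) := ⟨fy C₁, rfl, rfl⟩
      rw [h1] at h2
      obtain ⟨y', hy', hy'e⟩ := h2
      change ConjClasses.mk y' = ConjClasses.mk (fy C₂) at hy'
      change (fx C₂ : G) * (y' : G) = (fx C₁ : G) * (fy C₁ : G) at hy'e
      rw [← hy'e]
      obtain ⟨c, hc⟩ := isConj_iff.mp (ConjClasses.mk_eq_mk_iff_isConj.mp hy')
      rw [ConjClasses.mk_eq_mk_iff_isConj, isConj_iff]
      refine ⟨(c : G), ?_⟩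
      have hc' : (c : G) * (y' : G) * (c : G)⁻¹ = (fy C₂ : G) := by
        have := congrArg Subtype.val hc
        simpa using this
      have hcx : (c : G) * (fx C₂ : G) = (fx C₂ : G) * (c : G) :=
        Subgroup.mem_centralizer_singleton_iff.mp c.2
      calc (c : G) * ((fx C₂ : G) * (y' : G)) * (c : G)⁻¹
          = ((c : G) * (fx C₂ : G)) * (y' : G) * (c : G)⁻¹ := by group
        _ = (fx C₂ : G) * ((c : G) * (y' : G) * (c : G)⁻¹) := by rw [hcx]; group
        _ = (fx C₂ : G) * (fy C₂ : G) := by rw [hc']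
    have : Fintype (P : Subgroup G) := Fintype.ofFinite _
    have hle := Nat.card_le_card_of_injective Φ hΦ
    rw [Nat.card_sigma] at hle
    refine le_trans hle ?_
    have hterm : ∀ x : (P : Subgroup G),
        Nat.card {D : ConjClasses (Subgroup.centralizer ({(x : G)} : Set G)) // IsPiClass (↑S' : Set ℕ) D}
          ≤ ∏ q ∈ S', q ^ (Nat.card G).factorization q := by
      intro x
      refine le_trans (ih hS' (Subgroup.centralizer ({(x : G)} : Set G))) ?_
      apply Finset.prod_le_prod'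
      intro q hq
      apply Nat.pow_le_pow_right (hS' q hq).pos
      have hdvd : Nat.card (Subgroup.centralizer ({(x : G)} : Set G)) ∣ Nat.card G :=
        Subgroup.card_subgroup_dvd_card _
      exact (Nat.factorization_le_iff_dvd Nat.card_pos.ne' Nat.card_pos.ne').mpr hdvd q
    calc ∑ x : (P : Subgroup G),
          Nat.card {D : ConjClasses (Subgroup.centralizer ({(x : G)} : Set G)) // IsPiClass (↑S' : Set ℕ) D}
        ≤ ∑ _x : (P : Subgroup G), ∏ q ∈ S', q ^ (Nat.card G).factorization q :=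
          Finset.sum_le_sum (fun x _ => hterm x)
      _ = Nat.card (P : Subgroup G) * ∏ q ∈ S', q ^ (Nat.card G).factorization q := by
          rw [Finset.sum_const, Finset.card_univ, smul_eq_mul, ← Nat.card_eq_fintype_card]
      _ = ∏ q ∈ insert p S', q ^ (Nat.card G).factorization q := by
          rw [Finset.prod_insert hpS', Sylow.card_eq_multiplicity]

theorem result {G : Type*} [Group G] [Finite G]
    (π : Set ℕ) (hπ : ∀ q ∈ π, q.Prime)
    (m : ℕ) (hm : m ∣ Nat.card G) (hmπ : ∀ q : ℕ, q.Prime → q ∣ m → q ∈ π)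
    (hm' : ∀ q ∈ π, ¬ q ∣ Nat.card G / m) :
    Nat.card {C : ConjClasses G // ∀ q : ℕ, q.Prime → (∃ g : G, ConjClasses.mk g = C ∧ q ∣ orderOf g) → q ∈ π} ≤ m := by
  classical
  have hG0 : Nat.card G ≠ 0 := Nat.card_pos.ne'
  have hm0 : m ≠ 0 := by
    rintro rfl
    exact hG0 (Nat.eq_zero_of_zero_dvd hm)
  have hmul : m * (Nat.card G / m) = Nat.card G := Nat.mul_div_cancel' hm
  have hq0 : Nat.card G / m ≠ 0 := by
    intro h0
    rw [h0, mul_zero] at hmul
    exact hG0 hmul.symm
  set S : Finset ℕ := (Nat.card G).primeFactors.filter (· ∈ π) with hSdef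
  have hS : ∀ q ∈ S, q.Prime := by
    intro q hq
    rw [hSdef, Finset.mem_filter] at hq
    exact Nat.prime_of_mem_primeFactors hq.1
  have h1 := main S hS G
  have hsub : ∀ C : ConjClasses G,
      (∀ q : ℕ, q.Prime → (∃ g : G, ConjClasses.mk g = C ∧ q ∣ orderOf g) → q ∈ π) →
        IsPiClass (↑S : Set ℕ) C := by
    intro C hC q hq hex
    have hqπ : q ∈ π := hC q hq hex
    obtain ⟨g, _, hd⟩ := hex
    rw [Finset.mem_coe, hSdef, Finset.mem_filter, Nat.mem_primeFactors]
    exact ⟨⟨hq, hd.trans (orderOf_dvd_natCard g), hG0⟩, hqπ⟩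
  have h2 : Nat.card {C : ConjClasses G // ∀ q : ℕ, q.Prime →
      (∃ g : G, ConjClasses.mk g = C ∧ q ∣ orderOf g) → q ∈ π} ≤
      Nat.card {C : ConjClasses G // IsPiClass (↑S : Set ℕ) C} :=
    Nat.card_le_card_of_injective (Subtype.map id hsub) (Subtype.map_injective _ Function.injective_id)
  have hSm : S = m.primeFactors := by
    ext q
    rw [hSdef, Finset.mem_filter, Nat.mem_primeFactors, Nat.mem_primeFactors]
    constructor
    · rintro ⟨⟨hq, hqd, _⟩, hqπ⟩
      refine ⟨hq, ?_, hm0⟩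
      rw [← hmul] at hqd
      rcases (Nat.Prime.dvd_mul hq).mp hqd with h | h
      · exact h
      · exact absurd h (hm' q hqπ)
    · rintro ⟨hq, hqd, _⟩
      exact ⟨⟨hq, hqd.trans hm, hG0⟩, hmπ q hq hqd⟩
  have h3 : ∏ q ∈ S, q ^ (Nat.card G).factorization q = m := by
    rw [hSm]
    have h4 : ∀ q ∈ m.primeFactors, q ^ (Nat.card G).factorization q = q ^ m.factorization q := by
      intro q hq
      have hqp : q.Prime := Nat.prime_of_mem_primeFactors hq
      have hqπ : q ∈ π := hmπ q hqp (Nat.dvd_of_mem_primeFactors hq)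
      congr 1
      have h5 : (Nat.card G).factorization = m.factorization + (Nat.card G / m).factorization := by
        rw [← Nat.factorization_mul hm0 hq0, hmul]
      rw [h5, Finsupp.add_apply, Nat.factorization_eq_zero_of_not_dvd (hm' q hqπ), add_zero]
    rw [Finset.prod_congr rfl h4]
    have := Nat.prod_factorization_pow_eq_self hm0
    rw [Finsupp.prod, Nat.support_factorization] at this
    exact this
  rw [h3] at h1
  exact le_trans h2 h1

end Cfsg.Agent.S4106
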