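import Mathlib
import Cfsg.Statements.S4107

set_option autoImplicit false
open Cfsg
open scoped Pointwise

namespace Cfsg.Agent.S4107

theorem exists_coprime_factors (n : ℕ) (hn : 1 < n) (h : ¬ IsPrimePow n) :
    ∃ a b : ℕ, 1 < a ∧ 1 < b ∧ a.Coprime b ∧ a * b = n := by
  have hn0 : n ≠ 0 := by omega
  have hn1 : n ≠ 1 := by omega
  set p := n.minFac with hp
  have hpp : p.Prime := Nat.minFac_prime hn1
  have hpn : p ∣ n := Nat.minFac_dvd n
  refine ⟨p ^ n.factorization p, n / p ^ n.factorization p, ?_, ?_, ?_, ?_⟩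
  · have : 0 < n.factorization p := hpp.factorization_pos_of_dvd hn0 hpn
    exact Nat.one_lt_pow this.ne' hpp.one_lt
  · by_contra hb
    have hpos : 0 < n / p ^ n.factorization p := Nat.ordCompl_pos p hn0
    have h1 : n / p ^ n.factorization p = 1 := by omega
    have h2 : p ^ n.factorization p * (n / p ^ n.factorization p) = n := Nat.ordProj_mul_ordCompl_eq_self n p
    rw [h1, mul_one] at h2
    apply h
    rw [isPrimePow_nat_iff]
    exact ⟨p, n.factorization p, hpp, hpp.factorization_pos_of_dvd hn0 hpn, h2⟩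
  · exact Nat.Coprime.pow_left _ (Nat.coprime_ordCompl hpp hn0)
  · exact Nat.ordProj_mul_ordCompl_eq_self n p

theorem exists_normal_pgroup_of_mem {G : Type*} [Group G] [Finite G] (L : Subgroup G) [L.Normal]
    (hL : Group.IsNilpotent L) (q : ℕ) [Fact q.Prime] (y : G) (hy : y ∈ L) (k : ℕ)
    (hk : orderOf y = q ^ k) :
    ∃ K : Subgroup G, K.Normal ∧ IsPGroup q K ∧ y ∈ K := by
  have hpg : IsPGroup q (Subgroup.zpowers (⟨y, hy⟩ : L)) := by
    apply IsPGroup.of_card (n := k)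
    rw [Nat.card_zpowers, Subgroup.orderOf_mk, hk]
  obtain ⟨P, hP⟩ := hpg.exists_le_sylow
  have hPn : (P : Subgroup L).Normal := (Group.isNilpotent_of_finite_tfae.out 0 3 rfl rfl).mp hL q inferInstance P
  have : (P : Subgroup L).Characteristic := Sylow.characteristic_of_normal P hPn
  refine ⟨(P : Subgroup L).map L.subtype, inferInstance, ?_, ?_⟩
  · exact P.isPGroup'.map L.subtype
  · exact Subgroup.mem_map.mpr ⟨⟨y, hy⟩, hP (Subgroup.mem_zpowers _), rfl⟩

theorem isPGroup_of_mem {G : Type*} [Group G] [Finite G] (N : Subgroup G)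
    (heq : ∀ x : G, x ∉ N → ∀ n ∈ N, orderOf (x * n) = orderOf x)
    (p : ℕ) [Fact p.Prime] (K : Subgroup G) [K.Normal] (hK : IsPGroup p K) (x : G) (hxK : x ∈ K)
    (hxN : x ∉ N) : IsPGroup p N := by
  intro y
  obtain ⟨k, hk⟩ := (IsPGroup.iff_orderOf.mp hK) ⟨x, hxK⟩
  rw [Subgroup.orderOf_mk] at hk
  have h1 : (x * (y : G)) ^ (p ^ k) = 1 := by
    rw [← hk, ← heq x hxN y y.2]; exact pow_orderOf_eq_one _
  have h2 : (y : G) ^ (p ^ k) ∈ K := by
    rw [← QuotientGroup.eq_one_iff (N := K), QuotientGroup.mk_pow]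
    have h3 : (QuotientGroup.mk (x * (y : G)) : G ⧸ K) = QuotientGroup.mk (y : G) := by
      rw [QuotientGroup.mk_mul, (QuotientGroup.eq_one_iff x).mpr hxK, one_mul]
    rw [← h3, ← QuotientGroup.mk_pow, h1]; rfl
  obtain ⟨j, hj⟩ := hK ⟨(y : G) ^ (p ^ k), h2⟩
  refine ⟨k + j, ?_⟩
  apply Subtype.ext
  have h4 := congrArg Subtype.val hj
  simp only [Subgroup.coe_pow, Subgroup.coe_one] at h4 ⊢
  rw [pow_add, pow_mul]; exact h4

theorem fitting_le {G : Type*} [Group G] [Finite G] (N : Subgroup G)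
    (h : ∀ (p : ℕ) [Fact p.Prime] (K : Subgroup G), K.Normal → IsPGroup p K → K ≤ N) :
    Cfsg.fittingSubgroup G ≤ N := by
  apply sSup_le
  rintro L ⟨hLn, hLnil⟩
  have key : ∀ n : ℕ, ∀ y ∈ L, orderOf y = n → y ∈ N := by
    intro n
    induction n using Nat.strong_induction_on with
    | _ n ih =>
      intro y hy hn
      by_cases h1 : n = 1
      · rw [h1] at hn; rw [orderOf_eq_one_iff.mp hn]; exact one_mem N
      by_cases hpp : IsPrimePow n
      · obtain ⟨q, k, hq, hk, hqk⟩ := (isPrimePow_nat_iff n).mp hpp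
        have : Fact q.Prime := ⟨hq⟩
        obtain ⟨K, hKn, hKp, hyK⟩ := exists_normal_pgroup_of_mem L hLnil q y hy k (by rw [hn, hqk])
        exact h q K hKn hKp hyK
      · have hn1 : 1 < n := by have := orderOf_pos y; omega
        obtain ⟨a, b, ha, hb, hab, habn⟩ := exists_coprime_factors n hn1 hpp
        have hoa : orderOf (y ^ a) = b := by
          rw [orderOf_pow, hn, ← habn, Nat.gcd_mul_right_left]
          exact Nat.mul_div_cancel_left b (by omega)
        have hob : orderOf (y ^ b) = a := by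
          rw [orderOf_pow, hn, ← habn, Nat.gcd_mul_left_left]
          exact Nat.mul_div_cancel a (by omega)
        have hya : y ^ a ∈ N := ih b (by nlinarith) (y ^ a) (L.pow_mem hy a) hoa
        have hyb : y ^ b ∈ N := ih a (by nlinarith) (y ^ b) (L.pow_mem hy b) hob
        have hbez := Nat.gcd_eq_gcd_ab a b
        rw [hab] at hbez
        have h5 : y = (y ^ a) ^ (Nat.gcdA a b) * (y ^ b) ^ (Nat.gcdB a b) := by
          rw [← zpow_natCast y a, ← zpow_natCast y b, ← zpow_mul, ← zpow_mul, ← zpow_add, ← hbez]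
          simp
        rw [h5]
        exact N.mul_mem (N.zpow_mem hya _) (N.zpow_mem hyb _)
  intro y hy
  exact key _ y hy rfl

theorem normal_pgroup_le_sylow {G : Type*} [Group G] [Finite G] (p : ℕ) [Fact p.Prime]
    (L : Subgroup G) [L.Normal] (hL : IsPGroup p L) (P : Sylow p G) : L ≤ P := by
  obtain ⟨Q, hQ⟩ := hL.exists_le_sylow
  obtain ⟨g, hg⟩ := MulAction.exists_smul_eq G Q P
  intro l hl
  rw [← hg, Sylow.coe_subgroup_smul, Subgroup.mem_smul_pointwise_iff_exists]
  refine ⟨g⁻¹ * l * g, hQ ?_, ?_⟩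
  · have := ‹L.Normal›.conj_mem l hl g⁻¹
    simpa using this
  · simp [MulAut.smul_def, mul_assoc]

theorem result {G : Type*} [Group G] [Finite G] (N : Subgroup G) [N.Normal] (hN1 : N ≠ ⊥) (hN2 : N ≠ ⊤)
    (heq : ∀ x : G, x ∉ N → ∀ n ∈ N, orderOf (x * n) = orderOf x) :
    (N ≤ Cfsg.fittingSubgroup G ∨ Cfsg.fittingSubgroup G ≤ N) ∧
    (N < Cfsg.fittingSubgroup G → IsPrimePow (Nat.card (Cfsg.fittingSubgroup G))) := by
  classical
  have hmain : ¬ Cfsg.fittingSubgroup G ≤ N → ∃ (p : ℕ) (_ : Fact p.Prime), IsPGroup p N := by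
    intro hF
    by_contra hno
    apply hF
    apply fitting_le
    intro p _ K hKn hKp
    by_contra hKN
    obtain ⟨x, hxK, hxN⟩ := SetLike.not_le_iff_exists.mp hKN
    exact hno ⟨p, inferInstance, isPGroup_of_mem N heq p K hKp x hxK hxN⟩
  have hNF : ∀ (p : ℕ) [Fact p.Prime], IsPGroup p N → N ≤ Cfsg.fittingSubgroup G := by
    intro p _ hNp
    exact le_sSup ⟨inferInstance, hNp.isNilpotent⟩
  constructor
  · by_cases hF : Cfsg.fittingSubgroup G ≤ N
    · right; exact hF
    · left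
      obtain ⟨p, hp, hNp⟩ := hmain hF
      exact hNF p hNp
  · intro hlt
    have hF : ¬ Cfsg.fittingSubgroup G ≤ N := not_le_of_gt hlt
    obtain ⟨p, hp, hNp⟩ := hmain hF
    have hall : ∀ L : Subgroup G, L.Normal → Group.IsNilpotent L → IsPGroup p L := by
      intro L hLn hLnil
      by_contra hLp
      have hex : ∃ q : ℕ, q.Prime ∧ q ∣ Nat.card L ∧ q ≠ p := by
        by_contra hno
        push Not at hno
        apply hLp
        have h1 := Nat.eq_prime_pow_of_unique_prime_dvd (Nat.card_pos (α := L)).ne'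
          (fun {d} hd hdvd => hno d hd hdvd)
        exact IsPGroup.of_card h1
      obtain ⟨q, hq, hqL, hqp⟩ := hex
      have : Fact q.Prime := ⟨hq⟩
      obtain ⟨z, hz⟩ := exists_prime_orderOf_dvd_card' (G := L) q hqL
      obtain ⟨K, hKn, hKq, hzK⟩ := exists_normal_pgroup_of_mem L hLnil q (z : G) z.2 1
        (by rw [Subgroup.orderOf_coe, hz, pow_one])
      have hzN : (z : G) ∉ N := by
        intro hzN
        obtain ⟨j, hj⟩ := (IsPGroup.iff_orderOf.mp hNp) ⟨(z : G), hzN⟩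
        rw [Subgroup.orderOf_mk, Subgroup.orderOf_coe, hz] at hj
        have h2 : q ∣ p ^ j := by rw [← hj]
        exact hqp ((Nat.prime_dvd_prime_iff_eq hq hp.out).mp (hq.dvd_of_dvd_pow h2))
      have hNq : IsPGroup q N := isPGroup_of_mem N heq q K hKq (z : G) hzK hzN
      obtain ⟨⟨n₀, hn₀N⟩, hn₀⟩ := Subgroup.ne_bot_iff_exists_ne_one.mp hN1
      obtain ⟨i, hi⟩ := (IsPGroup.iff_orderOf.mp hNp) ⟨n₀, hn₀N⟩
      obtain ⟨j, hj⟩ := (IsPGroup.iff_orderOf.mp hNq) ⟨n₀, hn₀N⟩
      have hi0 : i ≠ 0 := by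
        rintro rfl
        rw [pow_zero] at hi
        exact hn₀ (orderOf_eq_one_iff.mp hi)
      have h3 : p ∣ q ^ j := by rw [← hj, hi]; exact dvd_pow_self p hi0
      exact hqp ((Nat.prime_dvd_prime_iff_eq hp.out hq).mp (hp.out.dvd_of_dvd_pow h3)).symm
    obtain ⟨P⟩ : Nonempty (Sylow p G) := Sylow.nonempty
    have hFP : Cfsg.fittingSubgroup G ≤ P := by
      apply sSup_le
      rintro L ⟨hLn, hLnil⟩
      exact normal_pgroup_le_sylow p L (hall L hLn hLnil) P
    have hFp : IsPGroup p (Cfsg.fittingSubgroup G) := P.isPGroup'.to_le hFP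
    obtain ⟨n, hn⟩ := IsPGroup.iff_card.mp hFp
    rw [isPrimePow_nat_iff]
    refine ⟨p, n, hp.out, ?_, hn.symm⟩
    rcases Nat.eq_zero_or_pos n with h0 | h0
    · exfalso
      rw [h0, pow_zero] at hn
      have h4 : Cfsg.fittingSubgroup G = ⊥ := (Subgroup.eq_bot_iff_card _).mpr hn
      rw [h4] at hlt
      exact not_lt_bot hlt
    · exact h0

end Cfsg.Agent.S4107
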