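import Mathlib
import Cfsg.Statements.S4108

set_option autoImplicit false
open Cfsg
open scoped Pointwise

namespace Cfsg.Agent.S4108

theorem frob {X : Type*} [Group X] [Finite X] (N H : Subgroup X) [N.Normal] (hN1 : N ≠ ⊥)
    (hH1 : H ≠ ⊥) (hNH : N ⊔ H = ⊤)
    (heq : ∀ x : X, x ∉ N → ∀ n ∈ N, orderOf (x * n) = orderOf x)
    (p : ℕ) [Fact p.Prime] (hNp : IsPGroup p N) (hH : (Nat.card H).Coprime p) :
    Cfsg.IsFrobeniusComplement H ∧ Cfsg.frobeniusKernel H = (N : Set X) := by
  have hNnorm : N.Normal := inferInstance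
  have hpp : p.Prime := Fact.out
  -- L1
  have hinf : H ⊓ N = ⊥ := by
    apply disjoint_iff.mp
    apply Subgroup.disjoint_of_coprime_natCard
    obtain ⟨n, hn⟩ := IsPGroup.iff_card.mp hNp
    rw [hn]
    exact Nat.Coprime.pow_right n hH
  have htriv : ∀ z : X, z ∈ H → z ∈ N → z = 1 := by
    intro z hz1 hz2
    have : z ∈ H ⊓ N := ⟨hz1, hz2⟩
    rw [hinf] at this
    exact Subgroup.mem_bot.mp this
  -- L2
  have L2 : ∀ u ∈ N, u ≠ 1 → ∀ h ∈ H, h ≠ 1 → h * u ≠ u * h := by
    intro u hu hu1 h hh hh1 hcomm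
    have hhN : h ∉ N := fun hhN => hh1 (htriv h hh hhN)
    have h1 := heq h hhN u hu
    obtain ⟨k, hk⟩ := (IsPGroup.iff_orderOf.mp hNp) ⟨u, hu⟩
    rw [Subgroup.orderOf_mk] at hk
    have hcop : (orderOf h).Coprime (orderOf u) := by
      rw [hk]
      apply Nat.Coprime.pow_right
      exact Nat.Coprime.coprime_dvd_left (Subgroup.orderOf_dvd_natCard H hh) hH
    have h2 := Commute.orderOf_mul_eq_mul_orderOf_of_coprime (show Commute h u from hcomm) hcop
    rw [h1] at h2
    have h3 : orderOf u = 1 := by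
      have hpos : 0 < orderOf h := orderOf_pos h
      have : orderOf h * 1 = orderOf h * orderOf u := by rw [mul_one]; exact h2
      exact (Nat.eq_of_mul_eq_mul_left hpos this).symm
    exact hu1 (orderOf_eq_one_iff.mp h3)
  -- L3
  have hdec : ∀ g : X, ∃ n ∈ N, ∃ h ∈ H, g = n * h := by
    intro g
    have hg : g ∈ (N ⊔ H : Subgroup X) := by rw [hNH]; exact Subgroup.mem_top g
    have : g ∈ ((N : Set X) * (H : Set X)) := by
      rw [← Subgroup.normal_mul]; exact hg
    obtain ⟨n, hn, h, hh, rfl⟩ := Set.mem_mul.mp this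
    exact ⟨n, hn, h, hh, rfl⟩
  -- L4
  have L4 : ∀ h ∈ H, h ≠ 1 → ∀ n ∈ N, ∃ u ∈ N, n * h = u * h * u⁻¹ := by
    intro h hh hh1 n hn
    let φ : N → N := fun u => ⟨(u : X) * h * (u : X)⁻¹ * h⁻¹, by
      have : (u : X) * h * (u : X)⁻¹ * h⁻¹ = (u : X) * (h * (u : X)⁻¹ * h⁻¹) := by group
      rw [this]
      exact N.mul_mem u.2 (hNnorm.conj_mem _ (N.inv_mem u.2) _)⟩
    have hφinj : Function.Injective φ := by
      intro u v huv
      have huv' : (u : X) * h * (u : X)⁻¹ * h⁻¹ = (v : X) * h * (v : X)⁻¹ * h⁻¹ :=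
        congrArg Subtype.val huv
      have h1 : (u : X) * h * (u : X)⁻¹ = (v : X) * h * (v : X)⁻¹ := mul_right_cancel huv'
      by_contra hne
      have hw : ((v : X)⁻¹ * (u : X)) ∈ N := N.mul_mem (N.inv_mem v.2) u.2
      have hw1 : ((v : X)⁻¹ * (u : X)) ≠ 1 := by
        intro h0
        apply hne
        apply Subtype.ext
        have := congrArg ((v : X) * ·) h0
        simpa using this
      apply L2 _ hw hw1 h hh hh1
      calc h * ((v : X)⁻¹ * (u : X)) = (v : X)⁻¹ * ((v : X) * h * (v : X)⁻¹) * u := by group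
        _ = (v : X)⁻¹ * ((u : X) * h * (u : X)⁻¹) * u := by rw [h1]
        _ = (v : X)⁻¹ * (u : X) * h := by group
    have hφsurj : Function.Surjective φ := Finite.injective_iff_surjective.mp hφinj
    obtain ⟨u, hu⟩ := hφsurj ⟨n, hn⟩
    have hu' : (u : X) * h * (u : X)⁻¹ * h⁻¹ = n := congrArg Subtype.val hu
    refine ⟨u, u.2, ?_⟩
    rw [← hu']; group
  constructor
  · refine ⟨hH1, ?_, ?_⟩
    · rintro rfl
      rw [top_inf_eq] at hinf
      exact hN1 hinf
    · intro g hg
      rw [eq_bot_iff]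
      rintro y ⟨hy1, hy2⟩
      rw [Subgroup.mem_bot]
      obtain ⟨n, hn, h, hh, rfl⟩ := hdec g
      have hn1 : n ≠ 1 := by
        rintro rfl
        apply hg
        rw [one_mul]; exact hh
      have hy2' : y ∈ MulAut.conj (n * h) • H := hy2
      rw [Subgroup.mem_smul_pointwise_iff_exists] at hy2'
      obtain ⟨y0, hy0, hy0e⟩ := hy2'
      have hy0e' : n * h * y0 * (n * h)⁻¹ = y := hy0e
      set y' := h * y0 * h⁻¹ with hy'
      have hy'H : y' ∈ H := H.mul_mem (H.mul_mem hh hy0) (H.inv_mem hh)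
      have hyy' : y = n * y' * n⁻¹ := by
        rw [← hy0e', hy']; group
      have h1 : y'⁻¹ * y ∈ N := by
        have : y'⁻¹ * y = (y'⁻¹ * n * y'⁻¹⁻¹) * n⁻¹ := by rw [hyy']; group
        rw [this]
        exact N.mul_mem (hNnorm.conj_mem n hn _) (N.inv_mem hn)
      have h2 : y'⁻¹ * y ∈ H := H.mul_mem (H.inv_mem hy'H) hy1
      have h3 : y'⁻¹ * y = 1 := htriv _ h2 h1
      have h4 : y = y' := by
        have := congrArg (y' * ·) h3
        simpa using this
      by_contra hy1'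
      apply L2 n hn hn1 y hy1 hy1'
      rw [← h4] at hyy'
      calc y * n = n * y * n⁻¹ * n := by rw [← hyy']
        _ = n * y := by group
  · ext x
    change (x = 1 ∨ ∀ g : X, x ∉ MulAut.conj g • H) ↔ x ∈ N
    constructor
    · rintro (rfl | hx)
      · exact one_mem N
      · by_contra hxN
        obtain ⟨n, hn, h, hh, rfl⟩ := hdec x
        have hh1 : h ≠ 1 := by
          rintro rfl
          apply hxN
          rw [mul_one]; exact hn
        obtain ⟨u, hu, hue⟩ := L4 h hh hh1 n hn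
        apply hx u
        rw [Subgroup.mem_smul_pointwise_iff_exists]
        exact ⟨h, hh, hue.symm⟩
    · intro hxN
      by_cases hx1 : x = 1
      · left; exact hx1
      · right
        intro g hx
        rw [Subgroup.mem_smul_pointwise_iff_exists] at hx
        obtain ⟨s, hs, hse⟩ := hx
        have hse' : g * s * g⁻¹ = x := hse
        have hsN : s ∈ N := by
          have : s = g⁻¹ * x * g⁻¹⁻¹ := by rw [← hse']; group
          rw [this]
          exact hNnorm.conj_mem x hxN _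
        have hs1 : s = 1 := htriv s hs hsN
        apply hx1
        rw [← hse', hs1]; group

theorem result {G : Type*} [Group G] [Finite G] (N : Subgroup G) [N.Normal] (hN1 : N ≠ ⊥) (hN2 : N ≠ ⊤)
    (heq : ∀ x : G, x ∉ N → ∀ n ∈ N, orderOf (x * n) = orderOf x)
    (p : ℕ) [Fact p.Prime] (hNp : IsPGroup p N) :
    ∀ H : Subgroup G, H ≠ ⊥ → (Nat.card H).Coprime p →
      Cfsg.IsFrobeniusComplement (H.subgroupOf (N ⊔ H)) ∧ Cfsg.frobeniusKernel (H.subgroupOf (N ⊔ H)) = (N.subgroupOf (N ⊔ H) : Set ↥(N ⊔ H)) := by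
  intro H hH1 hHcop
  have hNle : N ≤ N ⊔ H := le_sup_left
  have hHle : H ≤ N ⊔ H := le_sup_right
  apply frob (N.subgroupOf (N ⊔ H)) (H.subgroupOf (N ⊔ H)) _ _ _ _ p
  · exact hNp.of_injective (Subgroup.subgroupOfEquivOfLe hNle).toMonoidHom
      (Subgroup.subgroupOfEquivOfLe hNle).injective
  · rw [Nat.card_congr (Subgroup.subgroupOfEquivOfLe hHle).toEquiv]; exact hHcop
  · intro h
    apply hN1
    rw [eq_bot_iff]
    intro n hn
    have : (⟨n, hNle hn⟩ : ↥(N ⊔ H)) ∈ N.subgroupOf (N ⊔ H) := by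
      rw [Subgroup.mem_subgroupOf]; exact hn
    rw [h, Subgroup.mem_bot] at this
    rw [Subgroup.mem_bot]
    exact congrArg Subtype.val this
  · intro h
    apply hH1
    rw [eq_bot_iff]
    intro n hn
    have : (⟨n, hHle hn⟩ : ↥(N ⊔ H)) ∈ H.subgroupOf (N ⊔ H) := by
      rw [Subgroup.mem_subgroupOf]; exact hn
    rw [h, Subgroup.mem_bot] at this
    rw [Subgroup.mem_bot]
    exact congrArg Subtype.val this
  · rw [← Subgroup.subgroupOf_sup hNle hHle, Subgroup.subgroupOf_self]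
  · intro x hx n hn
    rw [Subgroup.mem_subgroupOf] at hx hn
    have := heq (x : G) hx (n : G) hn
    rw [← Subgroup.orderOf_coe, ← Subgroup.orderOf_coe x]
    exact this

end Cfsg.Agent.S4108
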