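import Mathlib
import Cfsg.Statements.S4112

set_option autoImplicit false
open Cfsg
open scoped Pointwise

namespace Cfsg.Agent.S4112

universe u

theorem exists_parts {G : Type*} [Group G] [Finite G] (p : ℕ) (hp : p.Prime) (h : G) :
    ∃ a b : ℕ, h ^ a * h ^ b = h ∧ (∃ k : ℕ, orderOf (h ^ a) = p ^ k) ∧
      (∀ q : ℕ, q.Prime → q ∣ orderOf (h ^ b) → q ∣ orderOf h ∧ q ≠ p) := by
  have hn0 : orderOf h ≠ 0 := (orderOf_pos h).ne'
  set n := orderOf h with hn
  set pk := p ^ n.factorization p with hpk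
  set n' := n / pk with hn'
  have hmul : pk * n' = n := Nat.ordProj_mul_ordCompl_eq_self n p
  have co : pk.Coprime n' := Nat.Coprime.pow_left _ (Nat.coprime_ordCompl hp hn0)
  obtain ⟨a, ha1, ha2⟩ := Nat.chineseRemainder co 1 0
  obtain ⟨b, hb1, hb2⟩ := Nat.chineseRemainder co 0 1
  refine ⟨a, b, ?_, ?_, ?_⟩
  · rw [← pow_add]
    have h1 : a + b ≡ 1 [MOD pk * n'] := by
      apply (Nat.modEq_and_modEq_iff_modEq_mul co).mp
      exact ⟨by simpa using ha1.add hb1, by simpa using ha2.add hb2⟩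
    rw [hmul] at h1
    have := (pow_eq_pow_iff_modEq (x := h) (n := a + b) (m := 1)).mpr h1
    rw [this, pow_one]
  · have hdvd : orderOf (h ^ a) ∣ pk := by
      apply orderOf_dvd_of_pow_eq_one
      rw [← pow_mul]
      apply orderOf_dvd_iff_pow_eq_one.mp
      rw [← hn, ← hmul, mul_comm a pk]
      exact Nat.mul_dvd_mul_left pk (Nat.modEq_zero_iff_dvd.mp ha2)
    obtain ⟨j, _, hj⟩ := (Nat.dvd_prime_pow hp).mp hdvd
    exact ⟨j, hj⟩
  · intro q hq hqd
    have hdvd : orderOf (h ^ b) ∣ n' := by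
      apply orderOf_dvd_of_pow_eq_one
      rw [← pow_mul]
      apply orderOf_dvd_iff_pow_eq_one.mp
      rw [← hn, ← hmul]
      exact Nat.mul_dvd_mul_right (Nat.modEq_zero_iff_dvd.mp hb1) n'
    have hqn' : q ∣ n' := hqd.trans hdvd
    refine ⟨hqn'.trans (Dvd.intro_left pk hmul), ?_⟩
    rintro rfl
    exact Nat.not_dvd_ordCompl hp hn0 hqn'

theorem exists_supp (n : ℕ) : ∀ (G : Type u) [Group G] [Finite G], Nat.card G = n →
    ∀ (N M : Subgroup G) [N.Normal] [M.Normal], M ≤ N → N.index.Coprime (Nat.card M) →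
      ∃ H : Subgroup G, H ⊔ N = ⊤ ∧ H ⊓ M = ⊥ := by
  induction n using Nat.strong_induction_on with
  | _ n ih =>
    intro G _ _ hcard N M _ _ hMN hcop
    by_cases hM : M = ⊥
    · exact ⟨⊤, top_sup_eq _, by rw [hM]; exact inf_bot_eq _⟩
    · have hM1 : Nat.card M ≠ 1 := fun h => hM ((Subgroup.eq_bot_iff_card M).mpr h)
      obtain ⟨p, hp, hpM⟩ := Nat.exists_prime_and_dvd hM1
      have : Fact p.Prime := ⟨hp⟩
      have hpG : p ∣ Nat.card G := hpM.trans (Subgroup.card_subgroup_dvd_card M)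
      have hpN : ¬ p ∣ N.index :=
        (Nat.Prime.coprime_iff_not_dvd hp).mp (Nat.Coprime.coprime_dvd_right hpM hcop).symm
      obtain ⟨S⟩ : Nonempty (Sylow p G) := Sylow.nonempty
      have hSN : (S : Subgroup G) ≤ N := by
        intro s hs
        obtain ⟨j, hj⟩ := (IsPGroup.iff_orderOf.mp S.isPGroup') ⟨s, hs⟩
        rw [Subgroup.orderOf_mk] at hj
        have h1 : orderOf (QuotientGroup.mk s : G ⧸ N) ∣ p ^ j := by
          rw [← hj]; exact orderOf_map_dvd (QuotientGroup.mk' N) s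
        have h2 : orderOf (QuotientGroup.mk s : G ⧸ N) ∣ N.index := orderOf_dvd_natCard _
        have h3 : orderOf (QuotientGroup.mk s : G ⧸ N) = 1 := by
          have hc : (p ^ j).Coprime N.index :=
            Nat.Coprime.pow_left j ((Nat.Prime.coprime_iff_not_dvd hp).mpr hpN)
          exact Nat.eq_one_of_dvd_coprimes hc h1 h2
        exact (QuotientGroup.eq_one_iff s).mp (orderOf_eq_one_iff.mp h3)
      by_cases hSn : (S : Subgroup G).Normal
      · set S₀ : Subgroup G := (S : Subgroup G) with hS₀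
        have hf : Function.Surjective (QuotientGroup.mk' S₀) := QuotientGroup.mk'_surjective S₀
        have hker : (QuotientGroup.mk' S₀).ker = S₀ := QuotientGroup.ker_mk' S₀
        have hSbot : S₀ ≠ ⊥ := Sylow.ne_bot_of_dvd_card S hpG
        have hlt : Nat.card (G ⧸ S₀) < n := by
          have h1 := Subgroup.card_eq_card_quotient_mul_card_subgroup S₀
          have h2 : 1 < Nat.card S₀ := by
            have h3 := (Subgroup.eq_bot_iff_card S₀).not.mp hSbot
            have h4 : 0 < Nat.card S₀ := Nat.card_pos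
            omega
          have h3 : 0 < Nat.card (G ⧸ S₀) := Nat.card_pos
          rw [← hcard, h1]; nlinarith
        have hNn : (N.map (QuotientGroup.mk' S₀)).Normal :=
          Subgroup.Normal.map inferInstance _ hf
        have hMn : (M.map (QuotientGroup.mk' S₀)).Normal :=
          Subgroup.Normal.map inferInstance _ hf
        have hidx : (N.map (QuotientGroup.mk' S₀)).index = N.index :=
          Subgroup.index_map_eq N hf (by rw [hker]; exact hSN)
        have hcop' : (N.map (QuotientGroup.mk' S₀)).index.Coprime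
            (Nat.card (M.map (QuotientGroup.mk' S₀))) := by
          rw [hidx]; exact Nat.Coprime.coprime_dvd_right (Subgroup.card_map_dvd M _) hcop
        obtain ⟨Hbar, hH1, hH2⟩ := ih _ hlt (G ⧸ S₀) rfl (N.map (QuotientGroup.mk' S₀))
          (M.map (QuotientGroup.mk' S₀)) (Subgroup.map_mono hMN) hcop'
        set H₁ : Subgroup G := Hbar.comap (QuotientGroup.mk' S₀) with hH₁
        have hSH₁ : S₀ ≤ H₁ := by
          intro s hs
          rw [hH₁, Subgroup.mem_comap]
          have : (QuotientGroup.mk' S₀) s = 1 := by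
            rw [← MonoidHom.mem_ker, hker]; exact hs
          rw [this]; exact one_mem _
        have hSZ : (Nat.card (S₀.subgroupOf H₁)).Coprime (S₀.subgroupOf H₁).index := by
          have e1 : Nat.card (S₀.subgroupOf H₁) = Nat.card S₀ :=
            Nat.card_congr (Subgroup.subgroupOfEquivOfLe hSH₁).toEquiv
          have e2 : (S₀.subgroupOf H₁).index ∣ S₀.index :=
            Subgroup.relIndex_dvd_index_of_normal S₀ H₁
          obtain ⟨k, hk⟩ := IsPGroup.iff_card.mp S.isPGroup'
          rw [e1, hS₀, hk]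
          apply Nat.Coprime.pow_left
          have h3 : ¬ p ∣ (S₀.subgroupOf H₁).index := fun h => S.not_dvd_index (h.trans e2)
          exact (Nat.Prime.coprime_iff_not_dvd hp).mpr h3
        obtain ⟨L₁, hL₁⟩ := Subgroup.exists_right_complement'_of_coprime hSZ
        refine ⟨L₁.map H₁.subtype, ?_, ?_⟩
        · have h1 : H₁ ⊔ N = ⊤ := by
            have h2 := Subgroup.comap_sup_eq (QuotientGroup.mk' S₀) Hbar
              (N.map (QuotientGroup.mk' S₀)) hf
            rw [hH1, Subgroup.comap_top, Subgroup.comap_map_eq, hker, sup_eq_left.mpr hSN] at h2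
            exact h2
          have h2 : H₁ ≤ L₁.map H₁.subtype ⊔ N := by
            have h3 : (S₀.subgroupOf H₁) ⊔ L₁ = ⊤ := hL₁.sup_eq_top
            have h4 := congrArg (Subgroup.map H₁.subtype) h3
            rw [Subgroup.map_sup, Subgroup.map_subgroupOf_eq_of_le hSH₁, ← MonoidHom.range_eq_map,
              Subgroup.range_subtype] at h4
            exact h4.symm.le.trans (sup_le (hSN.trans le_sup_right) le_sup_left)
          rw [eq_top_iff, ← h1]
          exact sup_le h2 le_sup_right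
        · rw [eq_bot_iff]
          rintro z ⟨hzL, hzM⟩
          obtain ⟨z₁, hz₁, rfl⟩ := Subgroup.mem_map.mp hzL
          have h5 : (QuotientGroup.mk' S₀) (z₁ : G) ∈ Hbar ⊓ M.map (QuotientGroup.mk' S₀) :=
            ⟨z₁.2, Subgroup.mem_map_of_mem _ hzM⟩
          rw [hH2, Subgroup.mem_bot] at h5
          have h6 : (z₁ : G) ∈ S₀ := by rw [← hker]; exact h5
          have h7 : z₁ ∈ S₀.subgroupOf H₁ ⊓ L₁ := ⟨h6, hz₁⟩
          rw [hL₁.disjoint.eq_bot, Subgroup.mem_bot] at h7
          rw [Subgroup.mem_bot, h7]; rfl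
      · set G₂ : Subgroup G := Subgroup.normalizer ((S : Subgroup G) : Set G) with hG₂
        have hG₂top : G₂ ≠ ⊤ := fun h => hSn (Subgroup.normalizer_eq_top_iff.mp h)
        have hfrat : G₂ ⊔ N = ⊤ := Sylow.normalizer_sup_eq_top' S hSN
        have hlt : Nat.card G₂ < n := by
          rw [← hcard]
          by_contra hge
          exact hG₂top (Subgroup.eq_top_of_le_card G₂ (not_lt.mp hge))
        have hidx : (N.subgroupOf G₂).index = N.index := by
          have h1 : N.relIndex G₂ = N.relIndex (G₂ ⊔ N) := (Subgroup.relIndex_sup_right G₂ N).symm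
          rw [hfrat, Subgroup.relIndex_top_right] at h1
          exact h1
        have hcardM : Nat.card (M.subgroupOf G₂) ∣ Nat.card M := by
          rw [← Subgroup.inf_subgroupOf_right,
            Nat.card_congr (Subgroup.subgroupOfEquivOfLe (inf_le_right : M ⊓ G₂ ≤ G₂)).toEquiv]
          exact Subgroup.card_dvd_of_le inf_le_left
        have hcop' : (N.subgroupOf G₂).index.Coprime (Nat.card (M.subgroupOf G₂)) := by
          rw [hidx]; exact Nat.Coprime.coprime_dvd_right hcardM hcop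
        obtain ⟨H₂, hH1, hH2⟩ := ih _ hlt G₂ rfl (N.subgroupOf G₂) (M.subgroupOf G₂)
          (fun z hz => hMN hz) hcop'
        refine ⟨H₂.map G₂.subtype, ?_, ?_⟩
        · have h4 := congrArg (Subgroup.map G₂.subtype) hH1
          rw [Subgroup.map_sup, Subgroup.subgroupOf_map_subtype, ← MonoidHom.range_eq_map,
            Subgroup.range_subtype] at h4
          rw [eq_top_iff, ← hfrat]
          refine sup_le ?_ le_sup_right
          exact h4.symm.le.trans (sup_le le_sup_left (inf_le_left.trans le_sup_right))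
        · rw [eq_bot_iff]
          rintro z ⟨hzL, hzM⟩
          obtain ⟨z₂, hz₂, rfl⟩ := Subgroup.mem_map.mp hzL
          have h7 : z₂ ∈ H₂ ⊓ M.subgroupOf G₂ := ⟨hz₂, hzM⟩
          rw [hH2, Subgroup.mem_bot] at h7
          rw [Subgroup.mem_bot, h7]; rfl

theorem part12 {G : Type*} [Group G] [Finite G] (N M : Subgroup G) [N.Normal] [M.Normal]
    (h1 : ∀ x ∈ M, x ≠ 1 → Subgroup.centralizer ({x} : Set G) ≤ N) :
    N.index.Coprime (Nat.card M) := by
  by_contra hnc
  obtain ⟨p, hp, hpN, hpM⟩ := Nat.Prime.not_coprime_iff_dvd.mp hnc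
  have : Fact p.Prime := ⟨hp⟩
  obtain ⟨gbar, hgbar⟩ := exists_prime_orderOf_dvd_card' (G := G ⧸ N) p hpN
  obtain ⟨g₀, rfl⟩ := QuotientGroup.mk_surjective gbar
  obtain ⟨a, b, hab, ⟨k, hk⟩, hb⟩ := exists_parts p hp g₀
  have hbN : g₀ ^ b ∈ N := by
    have h2 : orderOf ((QuotientGroup.mk g₀ : G ⧸ N) ^ b) ∣ p := by
      rw [← hgbar]; exact orderOf_pow_dvd b
    have h3 : orderOf ((QuotientGroup.mk g₀ : G ⧸ N) ^ b) ∣ orderOf (g₀ ^ b) := by
      rw [← QuotientGroup.mk_pow]; exact orderOf_map_dvd (QuotientGroup.mk' N) (g₀ ^ b)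
    have h4 : orderOf ((QuotientGroup.mk g₀ : G ⧸ N) ^ b) = 1 := by
      rcases (Nat.dvd_prime hp).mp h2 with h | h
      · exact h
      · exfalso; rw [h] at h3; exact (hb p hp h3).2 rfl
    rw [orderOf_eq_one_iff, ← QuotientGroup.mk_pow, QuotientGroup.eq_one_iff] at h4
    exact h4
  have haN : g₀ ^ a ∉ N := by
    intro haN
    have h2 : g₀ ∈ N := by rw [← hab]; exact N.mul_mem haN hbN
    have h3 : (QuotientGroup.mk g₀ : G ⧸ N) = 1 := (QuotientGroup.eq_one_iff g₀).mpr h2
    rw [h3, orderOf_one] at hgbar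
    exact hp.one_lt.ne hgbar
  set g := g₀ ^ a with hg
  have hpg : IsPGroup p (Subgroup.zpowers g) :=
    IsPGroup.of_card (n := k) (by rw [Nat.card_zpowers, hk])
  let _ : MulAction (Subgroup.zpowers g) M :=
    MulAction.compHom M ((MulAut.conjNormal : G →* MulAut M).comp (Subgroup.zpowers g).subtype)
  have hsmul : ∀ (c : Subgroup.zpowers g) (m : M),
      ((c • m : M) : G) = (c : G) * (m : G) * (c : G)⁻¹ := fun c m => rfl
  have hmod := hpg.card_modEq_card_fixedPoints M
  have hdvd : p ∣ Nat.card (MulAction.fixedPoints (Subgroup.zpowers g) M) :=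
    (Nat.modEq_zero_iff_dvd).mp (hmod.symm.trans ((Nat.modEq_zero_iff_dvd).mpr hpM))
  have hne : ∃ x : M, x ∈ MulAction.fixedPoints (Subgroup.zpowers g) M ∧ x ≠ 1 := by
    by_contra hno
    push Not at hno
    have hsub : Subsingleton (MulAction.fixedPoints (Subgroup.zpowers g) M) :=
      ⟨fun x y => Subtype.ext ((hno x x.2).trans (hno y y.2).symm)⟩
    have h2 : Nat.card (MulAction.fixedPoints (Subgroup.zpowers g) M) ≤ 1 :=
      Finite.card_le_one_iff_subsingleton.mpr hsub
    have h1fix : (1 : M) ∈ MulAction.fixedPoints (Subgroup.zpowers g) M := by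
      intro c
      apply Subtype.ext
      rw [hsmul]; simp
    have hpos : 0 < Nat.card (MulAction.fixedPoints (Subgroup.zpowers g) M) :=
      Nat.card_pos_iff.mpr ⟨⟨⟨1, h1fix⟩⟩, inferInstance⟩
    have h3 : Nat.card (MulAction.fixedPoints (Subgroup.zpowers g) M) = 1 := by omega
    rw [h3] at hdvd
    exact hp.one_lt.ne' (Nat.dvd_one.mp hdvd)
  obtain ⟨x, hxfix, hx1⟩ := hne
  have hcomm : g ∈ Subgroup.centralizer ({(x : G)} : Set G) := by
    rw [Subgroup.mem_centralizer_singleton_iff]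
    have h2 := hxfix ⟨g, Subgroup.mem_zpowers g⟩
    have h' := congrArg Subtype.val h2
    rw [hsmul] at h'
    calc g * (x : G) = g * (x : G) * g⁻¹ * g := by group
      _ = (x : G) * g := by rw [h']
  exact haN (h1 (x : G) x.2 (fun h => hx1 (Subtype.ext h)) hcomm)

theorem part21 {G : Type*} [Group G] [Finite G] (N M : Subgroup G) [N.Normal] [M.Normal]
    (hcam : ∀ g : G, g ∉ N → ∀ m ∈ M, ∃ x : G, x * g * x⁻¹ = g * m)
    (hcop : N.index.Coprime (Nat.card M)) :
    ∀ x ∈ M, x ≠ 1 → Subgroup.centralizer ({x} : Set G) ≤ N := by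
  intro x hx hx1 c hc
  rw [Subgroup.mem_centralizer_singleton_iff] at hc
  by_contra hcN
  have hox : orderOf x ≠ 1 := fun h => hx1 (orderOf_eq_one_iff.mp h)
  set p := (orderOf x).minFac with hp_def
  have hp : p.Prime := Nat.minFac_prime hox
  have hpx : p ∣ orderOf x := Nat.minFac_dvd _
  have hpM : p ∣ Nat.card M := hpx.trans (Subgroup.orderOf_dvd_natCard M hx)
  have hpN : ¬ p ∣ N.index :=
    (Nat.Prime.coprime_iff_not_dvd hp).mp (Nat.Coprime.coprime_dvd_right hpM hcop).symm
  set x' := x ^ (orderOf x / p) with hx'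
  have hx'o : orderOf x' = p := orderOf_pow_orderOf_div (orderOf_pos x).ne' hpx
  have hx'M : x' ∈ M := M.pow_mem hx _
  obtain ⟨a, b, hab, ⟨k, hk⟩, hb⟩ := exists_parts p hp c
  have haN : c ^ a ∈ N := by
    have h1 : orderOf (QuotientGroup.mk (c ^ a) : G ⧸ N) ∣ p ^ k := by
      rw [← hk]; exact orderOf_map_dvd (QuotientGroup.mk' N) (c ^ a)
    have h2 : orderOf (QuotientGroup.mk (c ^ a) : G ⧸ N) ∣ N.index := orderOf_dvd_natCard _
    have hc' : (p ^ k).Coprime N.index :=
      Nat.Coprime.pow_left k ((Nat.Prime.coprime_iff_not_dvd hp).mpr hpN)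
    have h3 := Nat.eq_one_of_dvd_coprimes hc' h1 h2
    exact (QuotientGroup.eq_one_iff _).mp (orderOf_eq_one_iff.mp h3)
  have hbN : c ^ b ∉ N := by
    intro hbN; apply hcN; rw [← hab]; exact N.mul_mem haN hbN
  have hgx : Commute (c ^ b) x' := by
    have h0 : Commute c x := hc
    exact (h0.pow_left b).pow_right _
  have hcop2 : (orderOf (c ^ b)).Coprime (orderOf x') := by
    rw [hx'o]
    apply Nat.Coprime.symm
    rw [Nat.Prime.coprime_iff_not_dvd hp]
    intro hd; exact (hb p hp hd).2 rfl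
  obtain ⟨y, hy⟩ := hcam (c ^ b) hbN x' hx'M
  have ho : orderOf (c ^ b * x') = orderOf (c ^ b) := by
    rw [← hy]; exact MulEquiv.orderOf_eq (MulAut.conj y) (c ^ b)
  rw [hgx.orderOf_mul_eq_mul_orderOf_of_coprime hcop2, hx'o] at ho
  have hpos : 0 < orderOf (c ^ b) := orderOf_pos _
  have h1 : p = 1 := by
    have h2 : orderOf (c ^ b) * p = orderOf (c ^ b) * 1 := by rw [mul_one]; exact ho
    exact Nat.eq_of_mul_eq_mul_left hpos h2
  exact hp.one_lt.ne' h1

theorem result {G : Type*} [Group G] [Finite G] (N M : Subgroup G) [N.Normal] [M.Normal] (hMN : M ≤ N) (hM1 : M ≠ ⊥) (hN2 : N ≠ ⊤)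
    (hcam : ∀ g : G, g ∉ N → ∀ m ∈ M, ∃ x : G, x * g * x⁻¹ = g * m) :
    ((∀ x ∈ M, x ≠ 1 → Subgroup.centralizer ({x} : Set G) ≤ N) ↔ N.index.Coprime (Nat.card M)) ∧
    ((∀ x ∈ M, x ≠ 1 → Subgroup.centralizer ({x} : Set G) ≤ N) → ∃ H : Subgroup G, H ⊔ N = ⊤ ∧ H ⊓ M = ⊥) := by
  refine ⟨⟨part12 N M, part21 N M hcam⟩, fun h => ?_⟩
  exact exists_supp (Nat.card G) G rfl N M hMN (part12 N M h)

end Cfsg.Agent.S4112
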