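import Mathlib
import Cfsg.Statements.S4116

set_option autoImplicit false
open Cfsg
open scoped Pointwise

namespace Cfsg.Agent.S4116

/-- self-normalizing trivial-intersection property of a subgroup -/
def SNTI {K : Type*} [Group K] (A : Subgroup K) : Prop :=
  ∀ x ∈ A, x ≠ 1 → ∀ k : K, k * x * k⁻¹ ∈ A → k ∈ A

/-- the non-identity elements of the union of the conjugates of `A` -/
def conjUnion {K : Type*} [Group K] (A : Subgroup K) : Set K :=
  {z | z ≠ 1 ∧ ∃ k : K, k⁻¹ * z * k ∈ A}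

theorem card_conjUnion {K : Type*} [Group K] [Finite K] (A : Subgroup K) (hA : SNTI A) :
    ∃ s : ℕ, s * Nat.card A = Nat.card K ∧ Nat.card (conjUnion A) = s * (Nat.card A - 1) := by
  classical
  obtain ⟨S, hS, -⟩ := A.exists_isComplement_left 1
  refine ⟨Nat.card S, hS.card_mul_card, ?_⟩
  let φ : S × {x : A // x ≠ 1} → K := fun t => (t.1 : K) * (t.2.1 : K) * (t.1 : K)⁻¹
  have hinj : Function.Injective φ := by
    rintro ⟨s, x, hx⟩ ⟨s', x', hx'⟩ h
    change (s : K) * (x : K) * (s : K)⁻¹ = (s' : K) * (x' : K) * (s' : K)⁻¹ at h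
    have hc : ((s' : K)⁻¹ * (s : K)) * (x : K) * ((s' : K)⁻¹ * (s : K))⁻¹ = (x' : K) := by
      calc ((s' : K)⁻¹ * (s : K)) * (x : K) * ((s' : K)⁻¹ * (s : K))⁻¹
          = (s' : K)⁻¹ * ((s : K) * (x : K) * (s : K)⁻¹) * (s' : K) := by group
        _ = (x' : K) := by rw [h]; group
    have hcA : (s' : K)⁻¹ * (s : K) ∈ A :=
      hA (x : K) x.2 (fun h1 => hx (Subtype.ext h1)) _ (by rw [hc]; exact x'.2)
    have hpair : ((s, (1 : A)) : S × A) = (s', ⟨(s' : K)⁻¹ * (s : K), hcA⟩) := by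
      apply hS.1
      simp
    have hs : s = s' := congrArg Prod.fst hpair
    subst hs
    have hx_eq : (x : K) = (x' : K) := mul_left_cancel (mul_right_cancel h)
    have hx_eq' : x = x' := Subtype.ext hx_eq
    subst hx_eq'
    rfl
  have hrange : Set.range φ = conjUnion A := by
    ext z
    constructor
    · rintro ⟨⟨s, x, hx⟩, rfl⟩
      refine ⟨?_, (s : K), ?_⟩
      · intro h0
        apply hx
        apply Subtype.ext
        have h1 : (x : K) = (s : K)⁻¹ * ((s : K) * (x : K) * (s : K)⁻¹) * (s : K) := by group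
        change (s : K) * (x : K) * (s : K)⁻¹ = 1 at h0
        rw [h1, h0]; simp
      · have h1 : (s : K)⁻¹ * ((s : K) * (x : K) * (s : K)⁻¹) * (s : K) = (x : K) := by group
        change (s : K)⁻¹ * ((s : K) * (x : K) * (s : K)⁻¹) * (s : K) ∈ A
        rw [h1]; exact x.2
    · rintro ⟨hz1, k, hk⟩
      obtain ⟨⟨s, c⟩, hsc⟩ := hS.2 k
      change (s : K) * (c : K) = k at hsc
      refine ⟨⟨s, ⟨⟨(c : K) * (k⁻¹ * z * k) * (c : K)⁻¹,
        A.mul_mem (A.mul_mem c.2 hk) (A.inv_mem c.2)⟩, ?_⟩⟩, ?_⟩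
      · intro h0
        apply hz1
        have h1 : (c : K) * (k⁻¹ * z * k) * (c : K)⁻¹ = 1 := congrArg Subtype.val h0
        have h2 : z = k * ((c : K)⁻¹ * ((c : K) * (k⁻¹ * z * k) * (c : K)⁻¹) * (c : K)) * k⁻¹ := by
          group
        rw [h2, h1]; group
      · change (s : K) * ((c : K) * (k⁻¹ * z * k) * (c : K)⁻¹) * (s : K)⁻¹ = z
        rw [← hsc]; group
  rw [← hrange, Nat.card_range_of_injective hinj, Nat.card_prod]
  congr 1
  have : Fintype A := Fintype.ofFinite A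
  rw [Nat.card_eq_fintype_card, Nat.card_eq_fintype_card, Fintype.card_subtype_compl,
    Fintype.card_subtype_eq]

theorem result {G : Type*} [Group G] [Finite G] (H : Subgroup G)
    (hHall : (Nat.card H).Coprime H.index) (hTI : Cfsg.IsTISubset (H : Set G))
    (K : Subgroup G) (hK : ∀ q : ℕ, q.Prime → q ∣ Nat.card K → q ∣ Nat.card H) :
    ∃ g : G, K ≤ H.map (MulAut.conj g).toMonoidHom := by
  classical
  by_cases hKbot : K = ⊥
  · exact ⟨1, by rw [hKbot]; exact bot_le⟩
  have hmem : ∀ g x : G, x ∈ H.map (MulAut.conj g).toMonoidHom ↔ g⁻¹ * x * g ∈ H := by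
    intro g x
    rw [Subgroup.mem_map]
    constructor
    · rintro ⟨h, hh, rfl⟩
      have : g⁻¹ * ((MulAut.conj g).toMonoidHom h) * g = h := by
        change g⁻¹ * (g * h * g⁻¹) * g = h
        group
      rw [this]; exact hh
    · intro hx
      refine ⟨g⁻¹ * x * g, hx, ?_⟩
      change g * (g⁻¹ * x * g) * g⁻¹ = x
      group
  -- (b')
  have hb : ∀ a b x : G, x ≠ 1 → x ∈ H.map (MulAut.conj a).toMonoidHom →
      x ∈ H.map (MulAut.conj b).toMonoidHom → b⁻¹ * a ∈ Subgroup.normalizer (H : Set G) := by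
    intro a b x hx1 hxa hxb
    rw [hmem] at hxa hxb
    by_contra hg
    have h1 := hTI (b⁻¹ * a) hg (a⁻¹ * x * a) hxa (by
      have : b⁻¹ * a * (a⁻¹ * x * a) * (b⁻¹ * a)⁻¹ = b⁻¹ * x * b := by group
      rw [this]; exact hxb)
    apply hx1
    have h2 : x = a * (a⁻¹ * x * a) * a⁻¹ := by group
    rw [h2, h1]; group
  have hb2 : ∀ a b x : G, x ≠ 1 → x ∈ H.map (MulAut.conj a).toMonoidHom →
      x ∈ H.map (MulAut.conj b).toMonoidHom →
      ∀ y : G, y ∈ H.map (MulAut.conj a).toMonoidHom ↔ y ∈ H.map (MulAut.conj b).toMonoidHom := by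
    intro a b x hx1 hxa hxb y
    have hn := hb a b x hx1 hxa hxb
    rw [Subgroup.mem_normalizer_iff] at hn
    rw [hmem, hmem, hn (a⁻¹ * y * a)]
    have : b⁻¹ * a * (a⁻¹ * y * a) * (b⁻¹ * a)⁻¹ = b⁻¹ * y * b := by group
    rw [this]
  -- (c')
  have hc : ∀ z ∈ Subgroup.normalizer (H : Set G),
      (∀ q : ℕ, q.Prime → q ∣ orderOf z → q ∣ Nat.card H) → z ∈ H := by
    intro z hz hzπ
    by_contra hzH
    have hne : (QuotientGroup.mk (⟨z, hz⟩ : Subgroup.normalizer (H : Set G)) :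
        Subgroup.normalizer (H : Set G) ⧸ H.subgroupOf (Subgroup.normalizer (H : Set G))) ≠ 1 := by
      intro h1
      rw [QuotientGroup.eq_one_iff, Subgroup.mem_subgroupOf] at h1
      exact hzH h1
    have ho1 : orderOf (QuotientGroup.mk (⟨z, hz⟩ : Subgroup.normalizer (H : Set G)) :
        Subgroup.normalizer (H : Set G) ⧸ H.subgroupOf (Subgroup.normalizer (H : Set G))) ≠ 1 :=
      fun h => hne (orderOf_eq_one_iff.mp h)
    obtain ⟨q, hq, hqo⟩ := Nat.exists_prime_and_dvd ho1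
    have h1 : q ∣ orderOf z := by
      have h2 := orderOf_map_dvd
        (QuotientGroup.mk' (H.subgroupOf (Subgroup.normalizer (H : Set G))))
        (⟨z, hz⟩ : Subgroup.normalizer (H : Set G))
      rw [Subgroup.orderOf_mk] at h2
      exact hqo.trans h2
    have h2 : q ∣ H.index := by
      have h3 : orderOf (QuotientGroup.mk (⟨z, hz⟩ : Subgroup.normalizer (H : Set G)) :
          Subgroup.normalizer (H : Set G) ⧸ H.subgroupOf (Subgroup.normalizer (H : Set G))) ∣
          H.relIndex (Subgroup.normalizer (H : Set G)) := orderOf_dvd_natCard _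
      exact (hqo.trans h3).trans (Subgroup.relIndex_dvd_index_of_le Subgroup.le_normalizer)
    have h3 : q ∣ Nat.gcd (Nat.card H) H.index := Nat.dvd_gcd (hzπ q hq h1) h2
    rw [hHall] at h3
    exact hq.one_lt.ne' (Nat.dvd_one.mp h3)
  -- (a)
  have ha : ∀ (x : G) (r : ℕ), r.Prime → orderOf x = r → r ∣ Nat.card H →
      ∃ g : G, x ∈ H.map (MulAut.conj g).toMonoidHom := by
    intro x r hr hxr hrH
    have : Fact r.Prime := ⟨hr⟩
    obtain ⟨PH⟩ : Nonempty (Sylow r H) := Sylow.nonempty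
    have hQ₀ : IsPGroup r ((PH : Subgroup H).map H.subtype) := PH.isPGroup'.map _
    obtain ⟨Q', hQ'⟩ := hQ₀.exists_le_sylow
    have hcard : Nat.card (Q' : Subgroup G) ≤ Nat.card ((PH : Subgroup H).map H.subtype) := by
      rw [Subgroup.card_map_of_injective H.subtype_injective, Sylow.card_eq_multiplicity,
        Sylow.card_eq_multiplicity]
      have hmul : Nat.card H * H.index = Nat.card G := Subgroup.card_mul_index H
      have hidx0 : H.index ≠ 0 := Subgroup.index_ne_zero_of_finite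
      have hrI : ¬ r ∣ H.index := by
        intro h
        have h3 : r ∣ Nat.gcd (Nat.card H) H.index := Nat.dvd_gcd hrH h
        rw [hHall] at h3
        exact hr.one_lt.ne' (Nat.dvd_one.mp h3)
      rw [← hmul, Nat.factorization_mul Nat.card_pos.ne' hidx0, Finsupp.add_apply,
        Nat.factorization_eq_zero_of_not_dvd hrI, add_zero]
    have hQeq : (PH : Subgroup H).map H.subtype = (Q' : Subgroup G) :=
      Subgroup.eq_of_le_of_card_ge hQ' hcard
    have hQ'H : (Q' : Subgroup G) ≤ H := by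
      rw [← hQeq]; exact Subgroup.map_subtype_le _
    have hpg : IsPGroup r (Subgroup.zpowers x) := by
      apply IsPGroup.of_card (n := 1)
      rw [Nat.card_zpowers, hxr, pow_one]
    obtain ⟨Q, hQ⟩ := hpg.exists_le_sylow
    obtain ⟨g, hg⟩ := MulAction.exists_smul_eq G Q' Q
    have hxQ : x ∈ (Q : Subgroup G) := hQ (Subgroup.mem_zpowers x)
    rw [← hg, Sylow.coe_subgroup_smul, Subgroup.mem_smul_pointwise_iff_exists] at hxQ
    obtain ⟨s, hs, hsx⟩ := hxQ
    refine ⟨g, ?_⟩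
    rw [hmem]
    have : g⁻¹ * x * g = s := by
      rw [← hsx]; simp [MulAut.smul_def, mul_assoc]
    rw [this]; exact hQ'H hs
  -- the family inside K
  have hSNTI : ∀ a : G, SNTI ((H.map (MulAut.conj a).toMonoidHom).subgroupOf K) := by
    intro a x hx hx1 k hk
    rw [Subgroup.mem_subgroupOf] at hx hk ⊢
    have hx1' : (x : G) ≠ 1 := fun h => hx1 (Subtype.ext h)
    have hk' : (k : G) * (x : G) * (k : G)⁻¹ ∈ H.map (MulAut.conj a).toMonoidHom := hk
    have hk2 : (k : G) * (x : G) * (k : G)⁻¹ ∈ H.map (MulAut.conj ((k : G) * a)).toMonoidHom := by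
      rw [hmem]
      have : ((k : G) * a)⁻¹ * ((k : G) * (x : G) * (k : G)⁻¹) * ((k : G) * a) = a⁻¹ * (x : G) * a := by
        group
      rw [this, ← hmem]; exact hx
    have hne : (k : G) * (x : G) * (k : G)⁻¹ ≠ 1 := by
      intro h0
      apply hx1'
      have h2 : (x : G) = (k : G)⁻¹ * ((k : G) * (x : G) * (k : G)⁻¹) * (k : G) := by group
      rw [h2, h0]; group
    have hn := hb a ((k : G) * a) _ hne hk' hk2
    have hn' : a⁻¹ * (k : G) * a ∈ Subgroup.normalizer (H : Set G) := by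
      have h3 := Subgroup.inv_mem _ hn
      have h4 : (((k : G) * a)⁻¹ * a)⁻¹ = a⁻¹ * (k : G) * a := by group
      rw [h4] at h3; exact h3
    rw [hmem]
    apply hc _ hn'
    intro q hq hqo
    apply hK q hq
    have h5 : orderOf (a⁻¹ * (k : G) * a) = orderOf (k : G) := by
      have := MulEquiv.orderOf_eq (MulAut.conj a⁻¹) (k : G)
      rw [← this]
      simp
    rw [h5] at hqo
    exact hqo.trans (Subgroup.orderOf_dvd_natCard K k.2)
  by_contra hno
  push Not at hno
  have hAtop : ∀ a : G, (H.map (MulAut.conj a).toMonoidHom).subgroupOf K ≠ ⊤ := by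
    intro a h
    exact hno a (Subgroup.subgroupOf_eq_top.mp h)
  -- an element of prime order in K
  have hK1 : Nat.card K ≠ 1 := fun h => hKbot ((Subgroup.eq_bot_iff_card K).mpr h)
  obtain ⟨p, hp, hpK⟩ := Nat.exists_prime_and_dvd hK1
  have : Fact p.Prime := ⟨hp⟩
  obtain ⟨y₁, hy₁⟩ := exists_prime_orderOf_dvd_card' (G := K) p hpK
  obtain ⟨a, hya⟩ := ha (y₁ : G) p hp (by rw [Subgroup.orderOf_coe]; exact hy₁) (hK p hp hpK)
  have hy₁1 : y₁ ≠ 1 := by
    rintro rfl
    rw [orderOf_one] at hy₁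
    exact hp.one_lt.ne hy₁
  -- general facts on a member of the family containing a non-identity element
  have hhalf : ∀ (a : G) (y : K), y ≠ 1 → (y : G) ∈ H.map (MulAut.conj a).toMonoidHom →
      Nat.card K ≤ 2 * Nat.card (conjUnion ((H.map (MulAut.conj a).toMonoidHom).subgroupOf K)) ∧
      ∃ y₂ : K, y₂ ≠ 1 ∧ y₂ ∉ conjUnion ((H.map (MulAut.conj a).toMonoidHom).subgroupOf K) := by
    intro a y hy1 hya
    obtain ⟨s, hs1, hs2⟩ := card_conjUnion _ (hSNTI a)
    have hAbot : (H.map (MulAut.conj a).toMonoidHom).subgroupOf K ≠ ⊥ := by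
      intro h
      have : y ∈ (H.map (MulAut.conj a).toMonoidHom).subgroupOf K := by
        rw [Subgroup.mem_subgroupOf]; exact hya
      rw [h, Subgroup.mem_bot] at this
      exact hy1 this
    have hA2 : 1 < Nat.card ((H.map (MulAut.conj a).toMonoidHom).subgroupOf K) :=
      (Subgroup.one_lt_card_iff_ne_bot _).mpr hAbot
    obtain ⟨c, hc⟩ : ∃ c, Nat.card ((H.map (MulAut.conj a).toMonoidHom).subgroupOf K) = c + 1 :=
      ⟨Nat.card ((H.map (MulAut.conj a).toMonoidHom).subgroupOf K) - 1, by omega⟩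
    have hc1 : 1 ≤ c := by omega
    rw [hc] at hs1 hs2
    rw [Nat.add_sub_cancel] at hs2
    have hs1' : s * c + s = Nat.card K := by rw [← hs1]; ring
    have hsc : s ≤ s * c := Nat.le_mul_of_pos_right _ hc1
    constructor
    · rw [hs2]; omega
    · by_contra hall
      push Not at hall
      have hset : conjUnion ((H.map (MulAut.conj a).toMonoidHom).subgroupOf K) = ({1} : Set K)ᶜ := by
        ext z
        constructor
        · intro hz; exact hz.1
        · intro hz; exact hall z hz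
      have hcard : Nat.card (conjUnion ((H.map (MulAut.conj a).toMonoidHom).subgroupOf K)) =
          Nat.card K - 1 := by
        rw [hset, Nat.card_coe_set_eq, Set.ncard_compl, Set.ncard_singleton]
      rw [hs2] at hcard
      have hKpos : 0 < Nat.card K := Nat.card_pos
      have hs_one : s = 1 := by omega
      rw [hs_one, one_mul] at hs1
      apply hAtop a
      apply Subgroup.eq_top_of_le_card
      rw [hc, hs1]
  obtain ⟨hhalf_a, y₂, hy₂1, hy₂a⟩ := hhalf a y₁ hy₁1 hya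
  -- prime order power of y₂
  have hoy₂ : orderOf y₂ ≠ 1 := fun h => hy₂1 (orderOf_eq_one_iff.mp h)
  set q := (orderOf y₂).minFac with hq_def
  have hq : q.Prime := Nat.minFac_prime hoy₂
  have hqy : q ∣ orderOf y₂ := Nat.minFac_dvd _
  set y₃ := y₂ ^ (orderOf y₂ / q) with hy₃
  have hy₃o : orderOf y₃ = q := orderOf_pow_orderOf_div (orderOf_pos y₂).ne' hqy
  have hy₃1 : y₃ ≠ 1 := by
    intro h
    rw [h, orderOf_one] at hy₃o
    exact hq.one_lt.ne hy₃o
  have hy₃a : y₃ ∉ conjUnion ((H.map (MulAut.conj a).toMonoidHom).subgroupOf K) := by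
    rintro ⟨-, k, hk⟩
    apply hy₂a
    refine ⟨hy₂1, k, ?_⟩
    have hne : k⁻¹ * y₃ * k ≠ 1 := by
      intro h0
      apply hy₃1
      have h2 : y₃ = k * (k⁻¹ * y₃ * k) * k⁻¹ := by group
      rw [h2, h0]; group
    apply hSNTI a _ hk hne
    have hcomm : y₂ * y₃ = y₃ * y₂ := by
      rw [hy₃, ← pow_succ', ← pow_succ]
    have : k⁻¹ * y₂ * k * (k⁻¹ * y₃ * k) * (k⁻¹ * y₂ * k)⁻¹ = k⁻¹ * y₃ * k := by
      calc k⁻¹ * y₂ * k * (k⁻¹ * y₃ * k) * (k⁻¹ * y₂ * k)⁻¹ = k⁻¹ * (y₂ * y₃) * y₂⁻¹ * k := by group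
        _ = k⁻¹ * (y₃ * y₂) * y₂⁻¹ * k := by rw [hcomm]
        _ = k⁻¹ * y₃ * k := by group
    rw [this]; exact hk
  have hqK : q ∣ Nat.card K := hqy.trans (orderOf_dvd_natCard y₂)
  obtain ⟨b, hyb⟩ := ha (y₃ : G) q hq (by rw [Subgroup.orderOf_coe]; exact hy₃o) (hK q hq hqK)
  obtain ⟨hhalf_b, -⟩ := hhalf b y₃ hy₃1 hyb
  -- disjointness
  have hdisj : Disjoint (conjUnion ((H.map (MulAut.conj a).toMonoidHom).subgroupOf K))
      (conjUnion ((H.map (MulAut.conj b).toMonoidHom).subgroupOf K)) := by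
    rw [Set.disjoint_left]
    rintro z ⟨hz1, k, hk⟩ ⟨-, l, hl⟩
    rw [Subgroup.mem_subgroupOf] at hk hl
    apply hy₃a
    refine ⟨hy₃1, l⁻¹ * k, ?_⟩
    rw [Subgroup.mem_subgroupOf]
    have hz1' : (z : G) ≠ 1 := fun h => hz1 (Subtype.ext h)
    have hza : (z : G) ∈ H.map (MulAut.conj ((k : G) * a)).toMonoidHom := by
      rw [hmem]
      have h1 : ((k : G) * a)⁻¹ * (z : G) * ((k : G) * a) = a⁻¹ * ((k : G)⁻¹ * (z : G) * (k : G)) * a := by
        group
      rw [h1, ← hmem]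
      exact hk
    have hzb : (z : G) ∈ H.map (MulAut.conj ((l : G) * b)).toMonoidHom := by
      rw [hmem]
      have h1 : ((l : G) * b)⁻¹ * (z : G) * ((l : G) * b) = b⁻¹ * ((l : G)⁻¹ * (z : G) * (l : G)) * b := by
        group
      rw [h1, ← hmem]
      exact hl
    have hy₃lb : (l : G) * (y₃ : G) * (l : G)⁻¹ ∈ H.map (MulAut.conj ((l : G) * b)).toMonoidHom := by
      rw [hmem]
      have h1 : ((l : G) * b)⁻¹ * ((l : G) * (y₃ : G) * (l : G)⁻¹) * ((l : G) * b) = b⁻¹ * (y₃ : G) * b := by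
        group
      rw [h1, ← hmem]
      exact hyb
    have hy₃ka := (hb2 ((l : G) * b) ((k : G) * a) (z : G) hz1' hzb hza _).mp hy₃lb
    rw [hmem] at hy₃ka
    rw [hmem]
    have h2 : a⁻¹ * (((l⁻¹ * k)⁻¹ * y₃ * (l⁻¹ * k) : K) : G) * a =
        ((k : G) * a)⁻¹ * ((l : G) * (y₃ : G) * (l : G)⁻¹) * ((k : G) * a) := by
      simp only [Subgroup.coe_mul, Subgroup.coe_inv]
      group
    rw [h2]; exact hy₃ka
  -- counting
  have hsub : conjUnion ((H.map (MulAut.conj a).toMonoidHom).subgroupOf K) ∪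
      conjUnion ((H.map (MulAut.conj b).toMonoidHom).subgroupOf K) ⊆ ({1} : Set K)ᶜ := by
    rintro z (hz | hz)
    · exact hz.1
    · exact hz.1
  have hle := Set.ncard_le_ncard hsub (Set.toFinite _)
  rw [Set.ncard_union_eq hdisj (Set.toFinite _) (Set.toFinite _), Set.ncard_compl,
    Set.ncard_singleton, ← Nat.card_coe_set_eq, ← Nat.card_coe_set_eq] at hle
  have hKpos : 0 < Nat.card K := Nat.card_pos
  omega

end Cfsg.Agent.S4116
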