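import Mathlib
import Cfsg.Statements.S4127
import Cfsg.Agent.H72.ClassSize
import Cfsg.Agent.H72.Casolo

set_option autoImplicit false
open Cfsg

namespace Cfsg.Agent.S4127

open Cfsg.Agent.H72

/-- Let G be a finite group, p a prime and p^a the largest power of p dividing the size of any conjugacy class of G. If some element of p-power order has a conjugacy class of size exactly p^a, then G has a normal p-complement. -/
theorem result {G : Type*} [Group G] [Finite G] (p : ℕ) [Fact p.Prime]
    (a : ℕ) (hmax : ∀ y : G, ¬ p ^ (a + 1) ∣ (Subgroup.centralizer ({y} : Set G)).index)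
    (hx : ∃ x : G, (∃ k : ℕ, orderOf x = p ^ k) ∧ (Subgroup.centralizer ({x} : Set G)).index = p ^ a) :
    Cfsg.HasNormalPComplement p G := by
  have hp : p.Prime := Fact.out
  obtain ⟨x, ⟨kx, hkx⟩, hxa⟩ := hx
  set C : Subgroup G := Subgroup.centralizer ({x} : Set G) with hC
  have hstep2 : ∀ y : C, (orderOf y).Coprime p →
      ¬ p ∣ (Subgroup.centralizer ({y} : Set C)).index := by
    intro y hy hdvd
    have hxy : Commute x (y : G) := (Subgroup.mem_centralizer_singleton_iff.mp y.2).symm
    have hoy : (orderOf (y : G)).Coprime p := by rwa [Subgroup.orderOf_coe]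
    have hco : (orderOf x).Coprime (orderOf (y : G)) := by
      rw [hkx]; exact Nat.Coprime.pow_left kx hoy.symm
    have hle : Subgroup.centralizer ({x * (y : G)} : Set G) ≤ C := by
      intro g hg
      rw [hC, Subgroup.mem_centralizer_singleton_iff]
      rw [Subgroup.mem_centralizer_singleton_iff] at hg
      have h1 : Commute g (x * (y : G)) := hg
      have h2 : Commute g ((x * (y : G)) ^ orderOf (y : G)) := h1.pow_right _
      rw [hxy.mul_pow, pow_orderOf_eq_one, mul_one] at h2
      obtain ⟨m, hm⟩ := exists_pow_eq_self_of_coprime (x := x) (n := orderOf (y : G)) hco.symm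
      have h3 : Commute g x := by rw [← hm]; exact h2.pow_right m
      exact h3.eq
    have hsub : (Subgroup.centralizer ({x * (y : G)} : Set G)).subgroupOf C =
        Subgroup.centralizer ({y} : Set C) := by
      ext g
      rw [Subgroup.mem_subgroupOf, Subgroup.mem_centralizer_singleton_iff,
        Subgroup.mem_centralizer_singleton_iff]
      constructor
      · intro hg
        have h1 : Commute (g : G) (x * (y : G)) := hg
        have h2 : Commute (g : G) ((x * (y : G)) ^ orderOf x) := h1.pow_right _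
        rw [hxy.mul_pow, pow_orderOf_eq_one, one_mul] at h2
        obtain ⟨m, hm⟩ := exists_pow_eq_self_of_coprime (x := (y : G)) (n := orderOf x) hco
        have h3 : Commute (g : G) (y : G) := by rw [← hm]; exact h2.pow_right m
        exact Subtype.ext h3.eq
      · intro hg
        have h3 : (g : G) * (y : G) = (y : G) * (g : G) := congrArg Subtype.val hg
        have h4 : (g : G) * x = x * (g : G) := Subgroup.mem_centralizer_singleton_iff.mp g.2
        calc (g : G) * (x * (y : G)) = ((g : G) * x) * (y : G) := by group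
          _ = x * ((g : G) * (y : G)) := by rw [h4]; group
          _ = x * (y : G) * (g : G) := by rw [h3]; group
    have hidx : (Subgroup.centralizer ({x * (y : G)} : Set G)).index =
        (Subgroup.centralizer ({y} : Set C)).index * p ^ a := by
      rw [← Subgroup.relIndex_mul_index hle, hxa]
      congr 1
      unfold Subgroup.relIndex
      rw [hsub]
    apply hmax (x * (y : G))
    rw [hidx, pow_succ, mul_comm]
    exact Nat.mul_dvd_mul_right hdvd _
  obtain ⟨H, hHn, hHco, ⟨k, hHidx⟩, hHall⟩ := exists_normal_pcomp_of_classes p hstep2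
  set H₀ : Subgroup G := H.map C.subtype with hH₀
  have hH₀C : H₀ ≤ C := Subgroup.map_subtype_le _
  have hH₀card : Nat.card H₀ = Nat.card H :=
    Subgroup.card_map_of_injective C.subtype_injective
  have hH₀co : (Nat.card H₀).Coprime p := by rw [hH₀card]; exact hHco
  have hH₀mem : ∀ y ∈ C, (orderOf y).Coprime p → y ∈ H₀ := by
    intro y hy hyo
    refine Subgroup.mem_map.mpr ⟨⟨y, hy⟩, hHall _ ?_, rfl⟩
    rw [← Subgroup.orderOf_coe]; exact hyo
  have hcardG : Nat.card G = Nat.card H₀ * p ^ (k + a) := by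
    rw [← Subgroup.card_mul_index C, hxa, ← Subgroup.card_mul_index H, hHidx, hH₀card, pow_add]
    ring
  have hxpg : IsPGroup p (Subgroup.zpowers x) :=
    IsPGroup.of_card (n := kx) (by rw [Nat.card_zpowers, hkx])
  obtain ⟨P, hP⟩ := hxpg.exists_le_sylow
  have hxP : x ∈ (P : Subgroup G) := hP (Subgroup.mem_zpowers x)
  have hndvd : ¬ p ∣ Nat.card H₀ := (Nat.Prime.coprime_iff_not_dvd hp).mp hH₀co.symm
  have hPcard : Nat.card (P : Subgroup G) = p ^ (k + a) := by
    rw [Sylow.card_eq_multiplicity, hcardG, Nat.factorization_mul (Nat.card_pos.ne')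
      (pow_ne_zero _ hp.ne_zero), Nat.Prime.factorization_pow hp]
    simp [Nat.factorization_eq_zero_of_not_dvd hndvd]
  have hcompl : H₀.IsComplement' (P : Subgroup G) := by
    apply Subgroup.isComplement'_of_coprime
    · rw [hPcard, hcardG]
    · rw [hPcard]; exact Nat.Coprime.pow_right _ hH₀co
  have hxH₀ : ∀ h ∈ H₀, h * x = x * h := fun h hh =>
    Subgroup.mem_centralizer_singleton_iff.mp (hH₀C hh)
  -- the normal closure of `x` is a `p`-group
  set X : Subgroup G := Subgroup.normalClosure ({x} : Set G) with hX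
  have hXn : X.Normal := Subgroup.normalClosure_normal
  have hxX : x ∈ X := Subgroup.subset_normalClosure (Set.mem_singleton x)
  have hXP : X ≤ (P : Subgroup G) := by
    rw [hX, Subgroup.normalClosure, Subgroup.closure_le]
    intro w hw
    obtain ⟨b, hb, hconj⟩ := Group.mem_conjugatesOfSet_iff.mp hw
    rw [Set.mem_singleton_iff] at hb
    subst hb
    obtain ⟨c, rfl⟩ := isConj_iff.mp hconj
    obtain ⟨⟨u, h⟩, hc, -⟩ := (Subgroup.isComplement'_def.mp hcompl.symm).existsUnique c
    simp only at hc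
    have e : c * b * c⁻¹ = (u : G) * b * (u : G)⁻¹ := by
      rw [← hc]
      calc (u : G) * (h : G) * b * ((u : G) * (h : G))⁻¹
          = (u : G) * ((h : G) * b) * (h : G)⁻¹ * (u : G)⁻¹ := by group
        _ = (u : G) * (b * (h : G)) * (h : G)⁻¹ * (u : G)⁻¹ := by rw [hxH₀ h h.2]
        _ = (u : G) * b * (u : G)⁻¹ := by group
    show c * b * c⁻¹ ∈ (P : Subgroup G)
    rw [e]
    exact Subgroup.mul_mem _ (Subgroup.mul_mem _ u.2 hxP) (Subgroup.inv_mem _ u.2)
  have hXH₀ : ∀ w ∈ X, w ∈ H₀ → w = 1 := by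
    intro w hwX hwH
    obtain ⟨j, hj⟩ := (IsPGroup.iff_orderOf.mp P.isPGroup') ⟨w, hXP hwX⟩
    rw [← Subgroup.orderOf_coe] at hj
    simp only at hj
    have h1 : orderOf w ∣ Nat.card H₀ := by
      have := orderOf_dvd_natCard (⟨w, hwH⟩ : H₀)
      rwa [← Subgroup.orderOf_coe] at this
    rcases Nat.eq_zero_or_pos j with h0 | hpos
    · rw [h0, pow_zero, orderOf_eq_one_iff] at hj
      exact hj
    · exfalso
      apply hndvd
      refine dvd_trans ?_ h1
      rw [hj]; exact dvd_pow_self p hpos.ne'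
  have hord : ∀ h ∈ H₀, (orderOf h).Coprime p := by
    intro h hh
    have h1 : orderOf h ∣ Nat.card H₀ := by
      have := orderOf_dvd_natCard (⟨h, hh⟩ : H₀)
      rwa [← Subgroup.orderOf_coe] at this
    exact Nat.Coprime.coprime_dvd_left h1 hH₀co
  have hK : ∀ v : G, v * x * v⁻¹ ∈ Subgroup.normalizer (H₀ : Set G) →
      ∀ h ∈ H₀, v⁻¹ * h * v ∈ H₀ := by
    intro v hv h hh
    set w := v * x * v⁻¹ with hw
    have hwX : w ∈ X := hXn.conj_mem x hxX v
    have h1 : w * h * w⁻¹ * h⁻¹ ∈ H₀ :=
      H₀.mul_mem ((Subgroup.mem_normalizer_iff.mp hv h).mp hh) (H₀.inv_mem hh)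
    have h2 : w * h * w⁻¹ * h⁻¹ ∈ X := by
      have e : w * h * w⁻¹ * h⁻¹ = w * (h * w⁻¹ * h⁻¹) := by group
      rw [e]
      exact X.mul_mem hwX (hXn.conj_mem _ (X.inv_mem hwX) h)
    have h3 : w * h * w⁻¹ * h⁻¹ = 1 := hXH₀ _ h2 h1
    have h4 : w * h = h * w := by
      have e : w * h = (w * h * w⁻¹ * h⁻¹) * (h * w) := by group
      rw [e, h3, one_mul]
    apply hH₀mem
    · rw [hC, Subgroup.mem_centralizer_singleton_iff]
      calc v⁻¹ * h * v * x = v⁻¹ * (h * w) * v := by rw [hw]; group
        _ = v⁻¹ * (w * h) * v := by rw [h4]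
        _ = x * (v⁻¹ * h * v) := by rw [hw]; group
    · have e : v⁻¹ * h * v = v⁻¹ * h * v⁻¹⁻¹ := by group
      have hco : orderOf (v⁻¹ * h * v⁻¹⁻¹) = orderOf h :=
        MulEquiv.orderOf_eq (MulAut.conj v⁻¹) h
      rw [e, hco]
      exact hord h hh
  have hxN : x ∈ Subgroup.normalizer (H₀ : Set G) := by
    rw [Subgroup.mem_normalizer_iff]
    intro h
    constructor
    · intro hh
      have e : x * h * x⁻¹ = h := by rw [← hxH₀ h hh]; group
      rw [e]; exact hh
    · intro hh
      have h1 := hxH₀ _ hh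
      have e : h = x⁻¹ * ((x * h * x⁻¹) * x) := by group
      rw [e, h1]
      have e2 : x⁻¹ * (x * (x * h * x⁻¹)) = x * h * x⁻¹ := by group
      rw [e2]; exact hh
  have hPN : (P : Subgroup G) ≤ Subgroup.normalizer (H₀ : Set G) := by
    by_contra hnot
    have hlt : (P : Subgroup G) ⊓ Subgroup.normalizer (H₀ : Set G) < (P : Subgroup G) := by
      refine lt_of_le_of_ne inf_le_left (fun h => hnot ?_)
      rw [← h]; exact inf_le_right
    obtain ⟨v, hvP, hvN, hvn⟩ := normalizer_grows P.isPGroup' hlt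
    have hxPH : x ∈ (P : Subgroup G) ⊓ Subgroup.normalizer (H₀ : Set G) := ⟨hxP, hxN⟩
    have h1 : v * x * v⁻¹ ∈ Subgroup.normalizer (H₀ : Set G) :=
      ((Subgroup.mem_normalizer_iff.mp hvN x).mp hxPH).2
    have h2 : v⁻¹ * x * v⁻¹⁻¹ ∈ Subgroup.normalizer (H₀ : Set G) :=
      ((Subgroup.mem_normalizer_iff.mp (Subgroup.inv_mem _ hvN) x).mp hxPH).2
    have k1 := hK v h1
    have k2 := hK v⁻¹ h2
    apply hvn
    refine ⟨hvP, ?_⟩
    show v ∈ Subgroup.normalizer (H₀ : Set G)
    rw [Subgroup.mem_normalizer_iff]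
    intro h
    constructor
    · intro hh
      have := k2 h hh
      rwa [inv_inv] at this
    · intro hh
      have := k1 _ hh
      have e : v⁻¹ * (v * h * v⁻¹) * v = h := by group
      rwa [e] at this
  have hH₀n : H₀.Normal := by
    rw [← Subgroup.normalizer_eq_top_iff, eq_top_iff]
    intro g _
    obtain ⟨⟨u, h⟩, hc, -⟩ := (Subgroup.isComplement'_def.mp hcompl.symm).existsUnique g
    simp only at hc
    rw [← hc]
    exact Subgroup.mul_mem _ (hPN u.2) (Subgroup.le_normalizer h.2)
  exact ⟨P, H₀, hH₀n, hcompl⟩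

end Cfsg.Agent.S4127
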