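import Cfsg.Statements.S4139
import Cfsg.Agent.H69.ClassSize

set_option autoImplicit false
open Cfsg

namespace Cfsg.Agent.S4139

/-- Let G and H be finite groups such that for every natural number k, G and H have the same number of conjugacy classes of size k. If H is nilpotent then G is nilpotent. -/
theorem result {G H : Type*} [Group G] [Finite G] [Group H] [Finite H]
    (hH : Group.IsNilpotent H)
    (h : ∀ k : ℕ, Nat.card {C : ConjClasses G // Nat.card C.carrier = k} = Nat.card {C : ConjClasses H // Nat.card C.carrier = k}) :
    Group.IsNilpotent G := by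
  obtain ⟨φ, hφ⟩ := Cfsg.Agent.H69.exists_equiv_of_card_fiber_eq
    (fun x : G => (Subgroup.centralizer ({x} : Set G)).index)
    (fun y : H => (Subgroup.centralizer ({y} : Set H)).index)
    (fun k => by
      have hG := Cfsg.Agent.H69.card_elts_classSize (G := G) k
      have hH' := Cfsg.Agent.H69.card_elts_classSize (G := H) k
      simp only [Cfsg.Agent.H69.card_carrier_eq_index] at hG hH'
      rw [hG, hH', h k])
  have htr : ∀ Q : ℕ → Prop, Nat.card {x : G // Q (Subgroup.centralizer ({x} : Set G)).index}
      = Nat.card {y : H // Q (Subgroup.centralizer ({y} : Set H)).index} := fun Q =>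
    Nat.card_congr (φ.subtypeEquiv (fun x => by rw [hφ]))
  have hcard : Nat.card G = Nat.card H := Nat.card_congr φ
  have hcenter : Nat.card ↥(Subgroup.center G) = Nat.card ↥(Subgroup.center H) := by
    have h1 : Nat.card ↥(Subgroup.center G) =
        Nat.card {x : G // (Subgroup.centralizer ({x} : Set G)).index = 1} :=
      Nat.card_congr (Equiv.subtypeEquivRight
        (fun x => Cfsg.Agent.H69.mem_center_iff_index_centralizer x))
    have h2 : Nat.card ↥(Subgroup.center H) =
        Nat.card {y : H // (Subgroup.centralizer ({y} : Set H)).index = 1} :=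
      Nat.card_congr (Equiv.subtypeEquivRight
        (fun x => Cfsg.Agent.H69.mem_center_iff_index_centralizer x))
    rw [h1, h2]
    exact htr (fun n => n = 1)
  refine ((Group.isNilpotent_of_finite_tfae (G := G)).out 0 3).mpr ?_
  intro p hp P
  obtain ⟨P'⟩ : Nonempty (Sylow p H) := inferInstance
  apply Cfsg.Agent.H69.sylow_normal_of_card_eq P
  have h1 := htr (fun n => ¬ p ∣ n)
  have h2 := Cfsg.Agent.H69.card_pcentral_of_nilpotent hH P'
  have h3 := Cfsg.Agent.H69.card_center_inf_sylow P
  have h4 := Cfsg.Agent.H69.card_center_inf_sylow P'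
  have h5 : Nat.card ↥(P : Subgroup G) = Nat.card ↥(P' : Subgroup H) := by
    rw [P.card_eq_multiplicity, P'.card_eq_multiplicity, hcard]
  have h6 : (P : Subgroup G).index = (P' : Subgroup H).index := by
    have e1 := Subgroup.card_mul_index (P : Subgroup G)
    have e2 := Subgroup.card_mul_index (P' : Subgroup H)
    rw [hcard, ← e2, h5] at e1
    exact Nat.eq_of_mul_eq_mul_left Nat.card_pos e1
  rw [h1, h2, h3, h4, hcenter, h6]

end Cfsg.Agent.S4139
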