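import Cfsg.Statements.S4140
import Mathlib
import Cfsg.Agent.H77.Camina

set_option autoImplicit false
open Cfsg

namespace Cfsg.Agent.S4140

/-- Let G be a finite group and N a proper non-trivial normal subgroup such that for every g outside N the conjugacy class of g is a union of cosets of N (equivalently gn is conjugate to g for every n ∈ N). Then either every element of G outside N acts fixed-point-freely on N (C_G(x) ≤ N for all x ∈ N, x ≠ 1, so G is a Frobenius group with kernel N), or N has prime-power order, or G/N has prime-power order. -/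
theorem result {G : Type*} [Group G] [Finite G] (N : Subgroup G) [N.Normal] (hN1 : N ≠ ⊥) (hN2 : N ≠ ⊤)
    (hcam : ∀ g : G, g ∉ N → ∀ n ∈ N, ∃ x : G, x * g * x⁻¹ = g * n) :
    (∀ x ∈ N, x ≠ 1 → Subgroup.centralizer ({x} : Set G) ≤ N) ∨ IsPrimePow (Nat.card N) ∨ IsPrimePow N.index := by
  by_contra hcon
  have h1 : ¬ (∀ x ∈ N, x ≠ 1 → Subgroup.centralizer ({x} : Set G) ≤ N) := fun h => hcon (Or.inl h)
  have h2 : ¬ IsPrimePow (Nat.card N) := fun h => hcon (Or.inr (Or.inl h))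
  have h3 : ¬ IsPrimePow N.index := fun h => hcon (Or.inr (Or.inr h))
  -- a nontrivial element of N centralized by an element outside N
  obtain ⟨n₀, hn₀N, hn₀1, g₀, hg₀C, hg₀N⟩ : ∃ n₀ ∈ N, n₀ ≠ 1 ∧
      ∃ g₀ ∈ Subgroup.centralizer ({n₀} : Set G), g₀ ∉ N := by
    by_contra hno
    apply h1
    intro x hx hx1 g hg
    by_contra hgN
    exact hno ⟨x, hx, hx1, g, hg, hgN⟩
  have hcomm₀ : n₀ * g₀ = g₀ * n₀ := (Subgroup.mem_centralizer_iff.mp hg₀C) n₀ rfl
  -- a prime p and a p-element outside N centralizing n₀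
  have hg₀b : (g₀ : G ⧸ N) ≠ 1 := fun h => hg₀N ((QuotientGroup.eq_one_iff g₀).mp h)
  have hm1 : orderOf (g₀ : G ⧸ N) ≠ 1 := fun h => hg₀b (orderOf_eq_one_iff.mp h)
  set m := orderOf (g₀ : G ⧸ N) with hm
  have hp : m.minFac.Prime := Nat.minFac_prime hm1
  set p := m.minFac with hpdef
  have hpm : p ∣ m := Nat.minFac_dvd m
  have : Fact p.Prime := ⟨hp⟩
  have hg₁o : orderOf ((g₀ ^ (m / p) : G) : G ⧸ N) = p := by
    rw [QuotientGroup.mk_pow, hm]
    exact orderOf_pow_orderOf_div (orderOf_pos _).ne' hpm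
  obtain ⟨b, k, hk, hbk⟩ := Nat.exists_eq_pow_mul_and_not_dvd (orderOf_pos (g₀ ^ (m / p))).ne' p hp.ne_one
  set g := (g₀ ^ (m / p)) ^ k with hg
  have hgb : g ^ (p ^ b) = 1 := by
    rw [hg, ← pow_mul, mul_comm, ← hbk, pow_orderOf_eq_one]
  have hgN : g ∉ N := by
    intro h
    have h4 : ((g₀ ^ (m / p) : G) : G ⧸ N) ^ k = 1 := by
      rw [← QuotientGroup.mk_pow]; exact (QuotientGroup.eq_one_iff _).mpr h
    have := orderOf_dvd_of_pow_eq_one h4
    rw [hg₁o] at this
    exact hk this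
  have hgcomm : g * n₀ = n₀ * g := by
    have hc : Commute g₀ n₀ := hcomm₀.symm
    exact ((hc.pow_left (m / p)).pow_left k).eq
  have hn₀p : n₀ ^ (p ^ b) = 1 := by
    have h4 := Cfsg.Agent.H77.Camina.pow_orderOf_eq_one_of_comm N hcam hgN hn₀N hgcomm
    have h5 : orderOf g ∣ p ^ b := orderOf_dvd_of_pow_eq_one hgb
    obtain ⟨c, hc⟩ := h5
    rw [hc, pow_mul, h4, one_pow]
  have hpN : p ∣ Nat.card N := by
    obtain ⟨j, _, hj⟩ := (Nat.dvd_prime_pow hp).mp (orderOf_dvd_of_pow_eq_one hn₀p)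
    have hj0 : j ≠ 0 := by
      intro h0
      rw [h0, pow_zero, orderOf_eq_one_iff] at hj
      exact hn₀1 hj
    have h4 : orderOf n₀ ∣ Nat.card N := Subgroup.orderOf_dvd_natCard N hn₀N
    rw [hj] at h4
    exact (dvd_pow_self p hj0).trans h4
  -- another prime dividing the index
  have hpidx : p ∣ N.index := by
    have h4 : m ∣ Nat.card (G ⧸ N) := orderOf_dvd_natCard _
    exact hpm.trans h4
  obtain ⟨q, hq, hqidx, hqp⟩ : ∃ q : ℕ, q.Prime ∧ q ∣ N.index ∧ q ≠ p := by
    by_contra hno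
    apply h3
    have hidx0 : N.index ≠ 0 := Subgroup.index_ne_zero_of_finite
    have h4 : N.index = p ^ N.index.primeFactorsList.length := by
      apply Nat.eq_prime_pow_of_unique_prime_dvd hidx0
      intro d hd hdvd
      by_contra hdp
      exact hno ⟨d, hd, hdvd, hdp⟩
    rw [h4]
    apply hp.isPrimePow.pow
    intro h0
    rw [h0, pow_zero] at h4
    exact hN2 (Subgroup.index_eq_one.mp h4)
  have : Fact q.Prime := ⟨hq⟩
  by_cases hII : ∃ S : Subgroup G, S ≤ N ∧ IsPGroup p S ∧ ¬ p ∣ S.relIndex N ∧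
      N ⊓ Subgroup.normalizer (S : Set G) ≤ S
  · obtain ⟨S, hSN, hS, hSyl, hself⟩ := hII
    have hNS := Cfsg.Agent.H77.Camina.le_of_self_normalizing N hcam hqp hqidx S hSN hS hSyl hself
    apply h2
    have hNp : IsPGroup p N := hS.to_le hNS
    obtain ⟨j, hj⟩ := (IsPGroup.iff_card).mp hNp
    rw [hj]
    apply hp.isPrimePow.pow
    intro h0
    rw [h0, pow_zero] at hj
    exact hN1 ((Subgroup.card_eq_one).mp hj)
  · apply Cfsg.Agent.H77.Camina.false_of_not_self_normalizing N hcam g hgN ⟨b, hgb⟩ hpN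
    intro S hSN hS hSyl hself
    exact hII ⟨S, hSN, hS, hSyl, hself⟩

end Cfsg.Agent.S4140
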