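import Mathlib
import Cfsg.Statements.S4142

set_option autoImplicit false
open Cfsg

namespace Cfsg.Agent.S4142

theorem key {G : Type*} [Group G] [Finite G] (N : Subgroup G) [N.Normal] (g : G) :
    (∀ n ∈ N, ∃ x : G, x * g * x⁻¹ = g * n) ↔
      Nat.card (Subgroup.centralizer ({g} : Set G)) =
        Nat.card (Subgroup.centralizer ({(QuotientGroup.mk g : G ⧸ N)} : Set (G ⧸ N))) := by
  classical
  set Cbar := Subgroup.centralizer ({(QuotientGroup.mk g : G ⧸ N)} : Set (G ⧸ N)) with hCbar
  set D : Subgroup G := Cbar.comap (QuotientGroup.mk' N) with hD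
  set C := Subgroup.centralizer ({g} : Set G) with hC
  have hmemD : ∀ x : G, x ∈ D ↔ g⁻¹ * x * g * x⁻¹ ∈ N := by
    intro x
    rw [hD, Subgroup.mem_comap, hCbar, Subgroup.mem_centralizer_singleton_iff]
    rw [← QuotientGroup.eq_one_iff (N := N)]
    simp only [QuotientGroup.mk'_apply, QuotientGroup.mk_mul, QuotientGroup.mk_inv]
    constructor
    · intro h
      rw [mul_assoc (QuotientGroup.mk g : G ⧸ N)⁻¹, h]
      group
    · intro h
      have : ((QuotientGroup.mk g : G ⧸ N))⁻¹ * (QuotientGroup.mk x) * (QuotientGroup.mk g) = (QuotientGroup.mk x) := by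
        have h2 := congrArg (· * (QuotientGroup.mk x : G ⧸ N)) h
        simpa using h2
      calc (QuotientGroup.mk x : G ⧸ N) * QuotientGroup.mk g
          = ((QuotientGroup.mk g : G ⧸ N)⁻¹ * QuotientGroup.mk x * QuotientGroup.mk g) * QuotientGroup.mk g := by
            rw [this]
        _ = QuotientGroup.mk g * ((QuotientGroup.mk g : G ⧸ N)⁻¹ * QuotientGroup.mk x * QuotientGroup.mk g) := by
            rw [this]
            have h3 : (QuotientGroup.mk g : G ⧸ N) * QuotientGroup.mk x
                = QuotientGroup.mk x * QuotientGroup.mk g := by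
              calc (QuotientGroup.mk g : G ⧸ N) * QuotientGroup.mk x
                  = QuotientGroup.mk g * ((QuotientGroup.mk g : G ⧸ N)⁻¹ * QuotientGroup.mk x * QuotientGroup.mk g) := by
                    rw [this]
                _ = QuotientGroup.mk x * QuotientGroup.mk g := by group
            rw [h3]
        _ = QuotientGroup.mk g * QuotientGroup.mk x := by rw [this]
  have hCD : C ≤ D := by
    intro x hx
    rw [hmemD]
    rw [hC, Subgroup.mem_centralizer_singleton_iff] at hx
    have : g⁻¹ * x * g * x⁻¹ = 1 := by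
      rw [mul_assoc g⁻¹, hx]; group
    rw [this]; exact one_mem N
  -- Claim 1
  have h1 : Nat.card D = Nat.card Cbar * Nat.card N := by
    have hidx : D.index = Cbar.index :=
      Subgroup.index_comap_of_surjective Cbar (QuotientGroup.mk'_surjective N)
    have e1 : Nat.card G = Nat.card (G ⧸ N) * Nat.card N :=
      Subgroup.card_eq_card_quotient_mul_card_subgroup N
    have e2 := Subgroup.card_mul_index D
    have e3 := Subgroup.card_mul_index Cbar
    have hpos : 0 < Cbar.index := Nat.pos_of_ne_zero Subgroup.index_ne_zero_of_finite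
    apply Nat.eq_of_mul_eq_mul_right hpos
    rw [← hidx, e2, e1, ← e3, hidx]; ring
  -- Claim 2
  set S : Set G := {n | n ∈ N ∧ ∃ x : G, x * g * x⁻¹ = g * n} with hS
  have h2 : Nat.card S * Nat.card C = Nat.card D := by
    let _ : MulAction D G := MulAction.compHom G ((MulAut.conj : G →* MulAut G).comp D.subtype)
    have hsmul : ∀ (x : D) (y : G), x • y = (x : G) * y * (x : G)⁻¹ := fun x y => rfl
    have e := Nat.card_congr (MulAction.orbitProdStabilizerEquivGroup D g)
    rw [Nat.card_prod] at e
    have horb : MulAction.orbit D g = (fun n => g * n) '' S := by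
      ext y
      constructor
      · rintro ⟨x, rfl⟩
        refine ⟨g⁻¹ * (x : G) * g * (x : G)⁻¹, ⟨(hmemD x).mp x.2, x, ?_⟩, ?_⟩
        · group
        · simp only [hsmul]; group
      · rintro ⟨n, ⟨hn, x, hx⟩, rfl⟩
        have hxD : x ∈ D := by
          rw [hmemD]
          have : g⁻¹ * x * g * x⁻¹ = n := by
            rw [mul_assoc g⁻¹, mul_assoc g⁻¹, hx]; group
          rw [this]; exact hn
        exact ⟨⟨x, hxD⟩, hx⟩
    have hstab : Nat.card (MulAction.stabilizer D g) = Nat.card C := by
      have : MulAction.stabilizer D g = C.subgroupOf D := by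
        ext x
        rw [MulAction.mem_stabilizer_iff, Subgroup.mem_subgroupOf, hC,
          Subgroup.mem_centralizer_singleton_iff, hsmul]
        constructor
        · intro h
          calc (x : G) * g = (x : G) * g * (x : G)⁻¹ * x := by group
            _ = g * x := by rw [h]
        · intro h
          rw [h]; group
      rw [this]
      exact Nat.card_congr (Subgroup.subgroupOfEquivOfLe hCD).toEquiv
    rw [horb, Nat.card_image_of_injective (mul_right_injective g), hstab] at e
    exact e
  have hSN : S ⊆ (N : Set G) := fun n hn => hn.1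
  have hCpos : 0 < Nat.card C := Nat.card_pos
  have hNpos : 0 < Nat.card N := Nat.card_pos
  have h3 : (∀ n ∈ N, ∃ x : G, x * g * x⁻¹ = g * n) ↔ Nat.card S = Nat.card N := by
    constructor
    · intro h
      have : S = (N : Set G) := by
        apply Set.Subset.antisymm hSN
        intro n hn
        exact ⟨hn, h n hn⟩
      rw [this]; rfl
    · intro h n hn
      have : S = (N : Set G) := by
        apply Set.eq_of_subset_of_ncard_le hSN _ (Set.toFinite _)
        rw [← Nat.card_coe_set_eq, ← Nat.card_coe_set_eq, h]; rfl
      have hn' : n ∈ S := by rw [this]; exact hn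
      exact hn'.2
  rw [h3]
  constructor
  · intro h
    rw [h, h1] at h2
    have : Nat.card N * Nat.card C = Nat.card N * Nat.card Cbar := by rw [h2]; ring
    exact Nat.eq_of_mul_eq_mul_left hNpos this
  · intro h
    rw [h1, h] at h2
    have : Nat.card S * Nat.card Cbar = Nat.card N * Nat.card Cbar := by rw [h2]; ring
    exact Nat.eq_of_mul_eq_mul_right (h ▸ hCpos) this

theorem result {G : Type*} [Group G] [Finite G] (N : Subgroup G) [N.Normal] :
    (∀ g : G, g ∉ N → ∀ n ∈ N, ∃ x : G, x * g * x⁻¹ = g * n) ↔
      ∀ g : G, g ∉ N → Nat.card (Subgroup.centralizer ({g} : Set G)) =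
        Nat.card (Subgroup.centralizer ({(QuotientGroup.mk g : G ⧸ N)} : Set (G ⧸ N))) := by
  constructor
  · intro h g hg
    exact (key N g).mp (h g hg)
  · intro h g hg
    exact (key N g).mpr (h g hg)

end Cfsg.Agent.S4142
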