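import Mathlib
import Cfsg.Statements.S4143

set_option autoImplicit false
open Cfsg

namespace Cfsg.Agent.S4143

open Subgroup

universe u

/-- card of the preimage of a subgroup under the quotient map. -/
theorem card_comap_mk {X : Type*} [Group X] [Finite X] (Z : Subgroup X) [Z.Normal]
    (K : Subgroup (X ⧸ Z)) :
    Nat.card (K.comap (QuotientGroup.mk' Z)) = Nat.card K * Nat.card Z := by
  have hsurj := QuotientGroup.mk'_surjective Z
  have h1 := Subgroup.index_comap_of_surjective K hsurj
  have h2 := Subgroup.card_mul_index (K.comap (QuotientGroup.mk' Z))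
  have h3 := Subgroup.card_mul_index K
  have h4 := Subgroup.card_eq_card_quotient_mul_card_subgroup Z
  have hi : 0 < K.index := Nat.pos_of_ne_zero Subgroup.index_ne_zero_of_finite
  rw [h1] at h2
  have : Nat.card (K.comap (QuotientGroup.mk' Z)) * K.index =
      Nat.card K * Nat.card Z * K.index := by
    rw [h2, h4, ← h3]; ring
  exact Nat.eq_of_mul_eq_mul_right hi this

/-- A group of order dividing `p ^ 2` is commutative. -/
theorem comm_of_card_dvd_sq {p : ℕ} [hp : Fact p.Prime] {H : Type*} [Group H] [Finite H]
    (h : Nat.card H ∣ p ^ 2) : ∀ x y : H, x * y = y * x := by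
  obtain ⟨k, hk, hc⟩ := (Nat.dvd_prime_pow hp.out).mp h
  interval_cases k
  · have : Subsingleton H := (Nat.card_eq_one_iff_unique.mp (by simpa using hc)).1
    intro x y
    rw [Subsingleton.elim x y]
  · have : IsCyclic H := isCyclic_of_prime_card (p := p) (by simpa using hc)
    intro x y
    let _ : CommGroup H := IsCyclic.commGroup
    exact mul_comm x y
  · exact fun x y => (IsPGroup.isMulCommutative_of_card_eq_prime_sq hc).is_comm.comm x y

theorem card_le_of_fibers {α β : Type*} [Finite α] [Finite β] (f : α → β) (c : ℕ)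
    (h : ∀ b, Nat.card {a // f a = b} ≤ c) : Nat.card α ≤ Nat.card β * c := by
  classical
  have := Fintype.ofFinite β
  rw [← Nat.card_congr (Equiv.sigmaFiberEquiv f), Nat.card_sigma]
  calc ∑ b, Nat.card {a // f a = b} ≤ ∑ _b : β, c := Finset.sum_le_sum (fun b _ => h b)
    _ = Nat.card β * c := by simp [Nat.card_eq_fintype_card]


/-- Suzuki's lemma: a finite `p`-group with a self-centralizing subgroup of order `p ^ 2` has
maximal class. -/
theorem suzuki {p : ℕ} [hp : Fact p.Prime] (n : ℕ) : ∀ (X : Type u) [Group X] [Finite X],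
    Nat.card X = p ^ n → ∀ A : Subgroup X, Nat.card A = p ^ 2 → centralizer (A : Set X) ≤ A →
    Group.nilpotencyClass X = n - 1 := by
  induction n with
  | zero =>
    intro X _ _ hX A hA hC
    exfalso
    have h1 := Subgroup.card_subgroup_dvd_card A
    rw [hA, hX, pow_zero] at h1
    have h2 := Nat.le_of_dvd one_pos h1
    have h3 := hp.out.two_le
    nlinarith
  | succ n ih =>
    intro X _ _ hX A hA hC
    have hXp : IsPGroup p X := IsPGroup.of_card hX
    have hnil : Group.IsNilpotent X := hXp.isNilpotent
    have hnt : Nontrivial X := by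
      apply Finite.one_lt_card_iff_nontrivial.mp
      rw [hX]
      exact Nat.one_lt_pow (Nat.succ_ne_zero n) hp.out.one_lt
    have hAcomm : ∀ x y : A, x * y = y * x := comm_of_card_dvd_sq (p := p) (by rw [hA])
    by_cases hAtop : A = ⊤
    · have hcard : Nat.card X = p ^ 2 := by rw [← hA, hAtop, Subgroup.card_top]
      have hn : n + 1 = 2 := Nat.pow_right_injective hp.out.two_le (hX.symm.trans hcard)
      have hcomm : ∀ x y : X, x * y = y * x := by
        intro x y
        have := hAcomm ⟨x, hAtop ▸ mem_top x⟩ ⟨y, hAtop ▸ mem_top y⟩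
        exact congrArg Subtype.val this
      have h1 : Group.nilpotencyClass X ≤ 1 := by
        rw [← Subgroup.upperCentralSeries_eq_top_iff_nilpotencyClass_le,
          Subgroup.upperCentralSeries_one, eq_top_iff]
        intro x _
        rw [mem_center_iff]
        intro y
        exact hcomm y x
      have h2 : Group.nilpotencyClass X ≠ 0 := by
        intro h0
        have := Group.nilpotencyClass_zero_iff_subsingleton.mp h0
        exact not_subsingleton X this
      omega
    · set Z := center X with hZ
      have hZA : Z ≤ A := (center_le_centralizer _).trans hC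
      have hZnt : Nontrivial Z := hXp.center_nontrivial
      have hZcard : Nat.card Z = p := by
        have hdvd : Nat.card Z ∣ p ^ 2 := hA ▸ Subgroup.card_dvd_of_le hZA
        obtain ⟨k, hk, hc⟩ := (Nat.dvd_prime_pow hp.out).mp hdvd
        have h1 : k ≠ 0 := by
          rintro rfl
          rw [pow_zero] at hc
          have := Finite.one_lt_card_iff_nontrivial.mpr hZnt
          omega
        have h2 : k ≠ 2 := by
          rintro rfl
          have hZeq : Z = A := Subgroup.eq_of_le_of_card_ge hZA (by rw [hA, hc])
          apply hAtop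
          rw [eq_top_iff]
          intro x _
          apply hC
          rw [mem_centralizer_iff]
          intro y hy
          have hy' : y ∈ Z := by rw [hZeq]; exact hy
          exact ((mem_center_iff.mp hy') x).symm
        have h3 : k = 1 := by omega
        rw [hc, h3, pow_one]
      obtain ⟨a0, ha0A, ha0Z⟩ : ∃ a0 ∈ A, a0 ∉ Z := by
        by_contra hcon
        push Not at hcon
        have h1 : A ≤ Z := fun x hx => hcon x hx
        have h2 := Subgroup.card_le_of_le h1
        rw [hA, hZcard] at h2
        have h3 := hp.out.two_le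
        nlinarith
      have hcent_a0 : ∀ x : X, x * a0 = a0 * x → x ∈ A := by
        intro x hx
        apply hC
        set T := A ⊓ centralizer ({x} : Set X) with hT
        have hZT : Z ≤ T := le_inf hZA (center_le_centralizer _)
        have ha0T : a0 ∈ T := ⟨ha0A, mem_centralizer_singleton_iff.mpr hx.symm⟩
        have hTA : T ≤ A := inf_le_left
        have hTcard : Nat.card T = p ^ 2 := by
          have hdvd : Nat.card T ∣ p ^ 2 := hA ▸ Subgroup.card_dvd_of_le hTA
          obtain ⟨k, hk, hc⟩ := (Nat.dvd_prime_pow hp.out).mp hdvd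
          have hlt : p < Nat.card T := by
            by_contra hle
            push Not at hle
            have hZT' : Z = T := Subgroup.eq_of_le_of_card_ge hZT (by rw [hZcard]; exact hle)
            exact ha0Z (hZT' ▸ ha0T)
          have hk2 : k = 2 := by
            rw [hc] at hlt
            have h1 : p ^ 1 < p ^ k := by rwa [pow_one]
            have h2 := (Nat.pow_lt_pow_iff_right hp.out.one_lt).mp h1
            omega
          rw [hc, hk2]
        have hTeq : T = A := Subgroup.eq_of_le_of_card_ge hTA (by rw [hA, hTcard])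
        rw [mem_centralizer_iff]
        intro y hy
        have hyT : y ∈ T := hTeq ▸ hy
        exact mem_centralizer_singleton_iff.mp hyT.2
      have hXbar : Nat.card (X ⧸ Z) = p ^ n := by
        have h := Subgroup.card_eq_card_quotient_mul_card_subgroup Z
        rw [hX, hZcard, pow_succ] at h
        exact (Nat.eq_of_mul_eq_mul_right hp.out.pos h).symm
      have hXbarp : IsPGroup p (X ⧸ Z) := IsPGroup.of_card hXbar
      set abar : X ⧸ Z := QuotientGroup.mk' Z a0 with habar
      have habar1 : abar ≠ 1 := by
        intro h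
        exact ha0Z ((QuotientGroup.eq_one_iff a0).mp h)
      have hntbar : Nontrivial (X ⧸ Z) := nontrivial_of_ne abar 1 habar1
      set D := centralizer ({abar} : Set (X ⧸ Z)) with hD
      have habarD : abar ∈ D := mem_centralizer_singleton_iff.mpr rfl
      have hDC : centralizer (D : Set (X ⧸ Z)) ≤ D := by
        intro x hx
        rw [hD, mem_centralizer_singleton_iff]
        exact ((mem_centralizer_iff.mp hx) abar habarD).symm
      have hAbar : Nat.card (A.map (QuotientGroup.mk' Z)) = p := by
        have h1 := card_comap_mk Z (A.map (QuotientGroup.mk' Z))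
        rw [Subgroup.comap_map_eq, QuotientGroup.ker_mk', sup_eq_left.mpr hZA, hA, hZcard,
          pow_two] at h1
        exact (Nat.eq_of_mul_eq_mul_right hp.out.pos h1).symm
      have hDcard : Nat.card D = p ^ 2 := by
        have hdvd : Nat.card D ∣ p ^ n := hXbar ▸ Subgroup.card_subgroup_dvd_card D
        obtain ⟨k, hk, hc⟩ := (Nat.dvd_prime_pow hp.out).mp hdvd
        have hk0 : k ≠ 0 := by
          rintro rfl
          rw [pow_zero] at hc
          have hbot : D = ⊥ := Subgroup.eq_bot_of_card_eq D hc
          rw [hbot, mem_bot] at habarD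
          exact habar1 habarD
        have hk1 : k ≠ 1 := by
          rintro rfl
          rw [pow_one] at hc
          have hZb : Nontrivial (center (X ⧸ Z)) := hXbarp.center_nontrivial
          have hZbD : center (X ⧸ Z) ≤ D := center_le_centralizer _
          have h1 : Nat.card (center (X ⧸ Z)) ∣ p := hc ▸ Subgroup.card_dvd_of_le hZbD
          have h2 : Nat.card (center (X ⧸ Z)) = p := by
            rcases (Nat.dvd_prime hp.out).mp h1 with h | h
            · have := Finite.one_lt_card_iff_nontrivial.mpr hZb
              omega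
            · exact h
          have h3 : center (X ⧸ Z) = D := Subgroup.eq_of_le_of_card_ge hZbD (by rw [h2, hc])
          have h4 : abar ∈ center (X ⧸ Z) := h3 ▸ habarD
          have h5 : D = ⊤ := by
            rw [eq_top_iff]
            intro x _
            rw [hD, mem_centralizer_singleton_iff]
            exact (mem_center_iff.mp h4) x
          have h6 : Nat.card (X ⧸ Z) = p := by rw [← hc, h5, Subgroup.card_top]
          have h7 : n = 1 := by
            have : p ^ n = p ^ 1 := by rw [← hXbar, h6, pow_one]
            exact Nat.pow_right_injective hp.out.two_le this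
          apply hAtop
          apply Subgroup.eq_top_of_card_eq
          rw [hA, hX, h7]
        have hk2 : k ≤ 2 := by
          have hfun : ∀ d : D, (Quotient.out (d : X ⧸ Z)) * a0 * (Quotient.out (d : X ⧸ Z))⁻¹ * a0⁻¹ ∈ Z := by
            intro d
            rw [← QuotientGroup.eq_one_iff]
            have h1 : ((Quotient.out (d : X ⧸ Z) : X) : X ⧸ Z) = d := QuotientGroup.out_eq' _
            have h2 : abar * (d : X ⧸ Z) = d * abar := (mem_centralizer_singleton_iff.mp d.2).symm
            simp only [QuotientGroup.mk_mul, QuotientGroup.mk_inv, h1]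
            change (d : X ⧸ Z) * abar * (d : X ⧸ Z)⁻¹ * abar⁻¹ = 1
            rw [← h2]
            group
          have hle := card_le_of_fibers (fun d : D => (⟨_, hfun d⟩ : Z)) p (by
            intro z
            by_cases hne : Nonempty {d : D // (⟨_, hfun d⟩ : Z) = z}
            · obtain ⟨d0, hd0⟩ := hne
              have hmem : ∀ d : {d : D // (⟨_, hfun d⟩ : Z) = z},
                  (d0 : X ⧸ Z)⁻¹ * (d.1 : X ⧸ Z) ∈ A.map (QuotientGroup.mk' Z) := by
                intro d
                have h1 : (Quotient.out (d.1 : X ⧸ Z)) * a0 * (Quotient.out (d.1 : X ⧸ Z))⁻¹ * a0⁻¹ =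
                    (Quotient.out (d0 : X ⧸ Z)) * a0 * (Quotient.out (d0 : X ⧸ Z))⁻¹ * a0⁻¹ := by
                  have e1 := congrArg Subtype.val d.2
                  have e2 := congrArg Subtype.val hd0
                  exact e1.trans e2.symm
                have h2 : ((Quotient.out (d0 : X ⧸ Z))⁻¹ * Quotient.out (d.1 : X ⧸ Z)) * a0 =
                    a0 * ((Quotient.out (d0 : X ⧸ Z))⁻¹ * Quotient.out (d.1 : X ⧸ Z)) := by
                  have h3 : (Quotient.out (d.1 : X ⧸ Z)) * a0 * (Quotient.out (d.1 : X ⧸ Z))⁻¹ =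
                      (Quotient.out (d0 : X ⧸ Z)) * a0 * (Quotient.out (d0 : X ⧸ Z))⁻¹ :=
                    mul_right_cancel h1
                  calc ((Quotient.out (d0 : X ⧸ Z))⁻¹ * Quotient.out (d.1 : X ⧸ Z)) * a0
                      = (Quotient.out (d0 : X ⧸ Z))⁻¹ * ((Quotient.out (d.1 : X ⧸ Z)) * a0 *
                          (Quotient.out (d.1 : X ⧸ Z))⁻¹) * Quotient.out (d.1 : X ⧸ Z) := by group
                    _ = a0 * ((Quotient.out (d0 : X ⧸ Z))⁻¹ * Quotient.out (d.1 : X ⧸ Z)) := by
                        rw [h3]; group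
                refine ⟨_, hcent_a0 _ h2, ?_⟩
                simp only [QuotientGroup.mk'_apply, QuotientGroup.mk_mul, QuotientGroup.mk_inv,
                  QuotientGroup.out_eq']
              have hinj : Function.Injective (fun d : {d : D // (⟨_, hfun d⟩ : Z) = z} =>
                  (⟨_, hmem d⟩ : A.map (QuotientGroup.mk' Z))) := by
                intro d1 d2 h
                have h1 := congrArg Subtype.val h
                simp only at h1
                have h2 : (d1.1 : X ⧸ Z) = d2.1 := mul_left_cancel h1
                exact Subtype.ext (Subtype.ext h2)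
              have := Nat.card_le_card_of_injective _ hinj
              rwa [hAbar] at this
            · rw [not_nonempty_iff] at hne
              simp)
          rw [hc, hZcard] at hle
          have h1 : p ^ k ≤ p ^ 2 := by rwa [← pow_two] at hle
          exact (Nat.pow_le_pow_iff_right hp.out.one_lt).mp h1
        have hk3 : k = 2 := by omega
        rw [hc, hk3]
      have hIH := ih (X ⧸ Z) hXbar D hDcard hDC
      rw [Group.nilpotencyClass_eq_quotient_center_plus_one, hIH]
      have h2n : 2 ≤ n := by
        have h1 := Subgroup.card_subgroup_dvd_card D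
        rw [hDcard, hXbar] at h1
        exact (Nat.pow_dvd_pow_iff_le_right hp.out.one_lt).mp h1
      omega


/-- Let X be a finite p-group of order p^n containing a non-abelian subgroup B of order p³ with C_X(B) ≤ B. Then X has nilpotency class n − 1 (maximal class). -/
theorem result {X : Type*} [Group X] [Finite X] {p : ℕ} [Fact p.Prime] (n : ℕ) (hX : Nat.card X = p ^ n)
    (B : Subgroup X) (hB : Nat.card B = p ^ 3) (hBna : ¬ IsMulCommutative B) (hC : Subgroup.centralizer (B : Set X) ≤ B) :
    Group.nilpotencyClass X = n - 1 := by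
  have hp : Fact p.Prime := inferInstance
  have hXp : IsPGroup p X := IsPGroup.of_card hX
  have hnil : Group.IsNilpotent X := hXp.isNilpotent
  obtain ⟨a, ha, b, hb, hab⟩ : ∃ a ∈ B, ∃ b ∈ B, a * b ≠ b * a := by
    by_contra hcon
    push Not at hcon
    apply hBna
    exact ⟨⟨fun x y => Subtype.ext (hcon x x.2 y y.2)⟩⟩
  have hnt : Nontrivial X := nontrivial_of_ne _ _ hab
  have hkey : ∀ x : X, x * a = a * x → x * b = b * x → x ∈ centralizer (B : Set X) := by
    intro x hxa hxb
    set T := B ⊓ centralizer ({x} : Set X) with hT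
    have haT : a ∈ T := ⟨ha, mem_centralizer_singleton_iff.mpr hxa.symm⟩
    have hbT : b ∈ T := ⟨hb, mem_centralizer_singleton_iff.mpr hxb.symm⟩
    have hTB : T ≤ B := inf_le_left
    have hTcard : Nat.card T = p ^ 3 := by
      have hdvd : Nat.card T ∣ p ^ 3 := hB ▸ Subgroup.card_dvd_of_le hTB
      obtain ⟨k, hk, hc⟩ := (Nat.dvd_prime_pow hp.out).mp hdvd
      by_contra hne
      have hk2 : k ≤ 2 := by
        by_contra h
        have h3 : k = 3 := by omega
        exact hne (by rw [hc, h3])
      have hcomm := comm_of_card_dvd_sq (p := p) (H := T) (by rw [hc]; exact pow_dvd_pow p hk2)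
      have := hcomm ⟨a, haT⟩ ⟨b, hbT⟩
      exact hab (congrArg Subtype.val this)
    have hTeq : T = B := Subgroup.eq_of_le_of_card_ge hTB (by rw [hB, hTcard])
    rw [mem_centralizer_iff]
    intro y hy
    have hyT : y ∈ T := hTeq ▸ hy
    exact mem_centralizer_singleton_iff.mp hyT.2
  set Z := center X with hZ
  have hZB : Z ≤ B := (center_le_centralizer _).trans hC
  have hZC : Z ≤ centralizer (B : Set X) := center_le_centralizer _
  have hZnt : Nontrivial Z := hXp.center_nontrivial
  have hCBcard : Nat.card (centralizer (B : Set X)) = p := by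
    have hdvd : Nat.card (centralizer (B : Set X)) ∣ p ^ 3 := hB ▸ Subgroup.card_dvd_of_le hC
    obtain ⟨k, hk, hc⟩ := (Nat.dvd_prime_pow hp.out).mp hdvd
    have hk0 : k ≠ 0 := by
      rintro rfl
      rw [pow_zero] at hc
      have h1 := Subgroup.card_le_of_le hZC
      have h2 := Finite.one_lt_card_iff_nontrivial.mpr hZnt
      omega
    have haC : a ∉ centralizer (B : Set X) := by
      intro ha'
      exact hab ((mem_centralizer_iff.mp ha') b hb).symm
    have hk3 : k ≠ 3 := by
      rintro rfl
      have h1 : centralizer (B : Set X) = B := Subgroup.eq_of_le_of_card_ge hC (by rw [hB, hc])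
      exact haC (by rw [h1]; exact ha)
    have hk2 : k ≠ 2 := by
      rintro rfl
      set T := B ⊓ centralizer ({a} : Set X) with hT
      have hCT : centralizer (B : Set X) ≤ T := by
        intro x hx
        exact ⟨hC hx, mem_centralizer_singleton_iff.mpr ((mem_centralizer_iff.mp hx) a ha).symm⟩
      have haT : a ∈ T := ⟨ha, mem_centralizer_singleton_iff.mpr rfl⟩
      have hTB : T ≤ B := inf_le_left
      have hTcard : Nat.card T = p ^ 3 := by
        have hdvd : Nat.card T ∣ p ^ 3 := hB ▸ Subgroup.card_dvd_of_le hTB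
        obtain ⟨j, hj, hcj⟩ := (Nat.dvd_prime_pow hp.out).mp hdvd
        have hlt : p ^ 2 < Nat.card T := by
          by_contra hle
          push Not at hle
          have h1 : centralizer (B : Set X) = T :=
            Subgroup.eq_of_le_of_card_ge hCT (by rw [hc]; exact hle)
          exact haC (h1 ▸ haT)
        rw [hcj] at hlt
        have h2 := (Nat.pow_lt_pow_iff_right hp.out.one_lt).mp hlt
        have h3 : j = 3 := by omega
        rw [hcj, h3]
      have hTeq : T = B := Subgroup.eq_of_le_of_card_ge hTB (by rw [hB, hTcard])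
      have hbT : b ∈ T := hTeq ▸ hb
      exact hab (mem_centralizer_singleton_iff.mp hbT.2).symm
    have h1 : k = 1 := by omega
    rw [hc, h1, pow_one]
  have hZeq : Z = centralizer (B : Set X) := by
    apply Subgroup.eq_of_le_of_card_ge hZC
    rw [hCBcard]
    have h1 : Nat.card Z ∣ p := hCBcard ▸ Subgroup.card_dvd_of_le hZC
    rcases (Nat.dvd_prime hp.out).mp h1 with h | h
    · have := Finite.one_lt_card_iff_nontrivial.mpr hZnt
      omega
    · exact h.ge
  have hZcard : Nat.card Z = p := by rw [hZeq, hCBcard]
  have hn3 : 3 ≤ n := by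
    have h1 := Subgroup.card_subgroup_dvd_card B
    rw [hB, hX] at h1
    exact (Nat.pow_dvd_pow_iff_le_right hp.out.one_lt).mp h1
  obtain ⟨m, rfl⟩ : ∃ m, n = m + 1 := ⟨n - 1, by omega⟩
  have hXbar : Nat.card (X ⧸ Z) = p ^ m := by
    have h := Subgroup.card_eq_card_quotient_mul_card_subgroup Z
    rw [hX, hZcard, pow_succ] at h
    exact (Nat.eq_of_mul_eq_mul_right hp.out.pos h).symm
  set Bbar := B.map (QuotientGroup.mk' Z) with hBbar
  have hBbarcard : Nat.card Bbar = p ^ 2 := by
    have h1 := card_comap_mk Z Bbar
    rw [hBbar, Subgroup.comap_map_eq, QuotientGroup.ker_mk', sup_eq_left.mpr hZB, hB, hZcard,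
      pow_succ] at h1
    exact (Nat.eq_of_mul_eq_mul_right hp.out.pos h1).symm
  have hBbarcomm : ∀ x y : Bbar, x * y = y * x :=
    comm_of_card_dvd_sq (p := p) (by rw [hBbarcard])
  have hBbarle : Bbar ≤ centralizer (Bbar : Set (X ⧸ Z)) := by
    intro x hx
    rw [mem_centralizer_iff]
    intro y hy
    exact congrArg Subtype.val (hBbarcomm ⟨y, hy⟩ ⟨x, hx⟩)
  have hfa : ∀ e : centralizer (Bbar : Set (X ⧸ Z)),
      (Quotient.out (e : X ⧸ Z)) * a * (Quotient.out (e : X ⧸ Z))⁻¹ * a⁻¹ ∈ Z := by
    intro e
    rw [← QuotientGroup.eq_one_iff]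
    have h1 : ((Quotient.out (e : X ⧸ Z) : X) : X ⧸ Z) = e := QuotientGroup.out_eq' _
    have h2 : (QuotientGroup.mk' Z a) * (e : X ⧸ Z) = e * (QuotientGroup.mk' Z a) :=
      (mem_centralizer_iff.mp e.2) _ (Subgroup.mem_map_of_mem _ ha)
    simp only [QuotientGroup.mk_mul, QuotientGroup.mk_inv, h1]
    change (e : X ⧸ Z) * (QuotientGroup.mk' Z a) * (e : X ⧸ Z)⁻¹ * (QuotientGroup.mk' Z a)⁻¹ = 1
    rw [← h2]
    group
  have hfb : ∀ e : centralizer (Bbar : Set (X ⧸ Z)),
      (Quotient.out (e : X ⧸ Z)) * b * (Quotient.out (e : X ⧸ Z))⁻¹ * b⁻¹ ∈ Z := by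
    intro e
    rw [← QuotientGroup.eq_one_iff]
    have h1 : ((Quotient.out (e : X ⧸ Z) : X) : X ⧸ Z) = e := QuotientGroup.out_eq' _
    have h2 : (QuotientGroup.mk' Z b) * (e : X ⧸ Z) = e * (QuotientGroup.mk' Z b) :=
      (mem_centralizer_iff.mp e.2) _ (Subgroup.mem_map_of_mem _ hb)
    simp only [QuotientGroup.mk_mul, QuotientGroup.mk_inv, h1]
    change (e : X ⧸ Z) * (QuotientGroup.mk' Z b) * (e : X ⧸ Z)⁻¹ * (QuotientGroup.mk' Z b)⁻¹ = 1
    rw [← h2]
    group
  have hconj : ∀ (u v c : X), u * c * u⁻¹ * c⁻¹ = v * c * v⁻¹ * c⁻¹ →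
      (v⁻¹ * u) * c = c * (v⁻¹ * u) := by
    intro u v c h
    have h3 : u * c * u⁻¹ = v * c * v⁻¹ := mul_right_cancel h
    calc (v⁻¹ * u) * c = v⁻¹ * (u * c * u⁻¹) * u := by group
      _ = c * (v⁻¹ * u) := by rw [h3]; group
  have hinj : Function.Injective (fun e : centralizer (Bbar : Set (X ⧸ Z)) =>
      ((⟨_, hfa e⟩ : Z), (⟨_, hfb e⟩ : Z))) := by
    intro e1 e2 h
    have h1 := congrArg (fun q : Z × Z => (q.1 : X)) h
    have h2 := congrArg (fun q : Z × Z => (q.2 : X)) h
    simp only at h1 h2
    have h3 := hconj _ _ _ h1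
    have h4 := hconj _ _ _ h2
    have h5 : (Quotient.out (e2 : X ⧸ Z))⁻¹ * Quotient.out (e1 : X ⧸ Z) ∈ Z := by
      have h5' := hkey _ h3 h4
      rw [← hZeq] at h5'
      exact h5'
    have h6 := (QuotientGroup.eq_one_iff _).mpr h5
    simp only [QuotientGroup.mk_mul, QuotientGroup.mk_inv, QuotientGroup.out_eq'] at h6
    apply Subtype.ext
    have h7 : (e2 : X ⧸ Z)⁻¹ * (e1 : X ⧸ Z) = 1 := h6
    exact (inv_mul_eq_one.mp h7).symm
  have hEcard : Nat.card (centralizer (Bbar : Set (X ⧸ Z))) ≤ p ^ 2 := by
    have h1 := Nat.card_le_card_of_injective _ hinj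
    rwa [Nat.card_prod, hZcard, ← pow_two] at h1
  have hEeq : Bbar = centralizer (Bbar : Set (X ⧸ Z)) :=
    Subgroup.eq_of_le_of_card_ge hBbarle (by rw [hBbarcard]; exact hEcard)
  have hsuz := suzuki (p := p) m (X ⧸ Z) hXbar Bbar hBbarcard hEeq.ge
  rw [Group.nilpotencyClass_eq_quotient_center_plus_one, hsuz]
  omega

end Cfsg.Agent.S4143
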