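import Mathlib
import Cfsg.Statements.S4145

set_option autoImplicit false
open Cfsg
open scoped Pointwise

namespace Cfsg.Agent.S4145

theorem exists_parts {G : Type*} [Group G] [Finite G] (p : ℕ) (hp : p.Prime) (h : G) :
    ∃ a b : ℕ, h ^ a * h ^ b = h ∧ (∃ k : ℕ, orderOf (h ^ a) = p ^ k) ∧
      (∀ q : ℕ, q.Prime → q ∣ orderOf (h ^ b) → q ∣ orderOf h ∧ q ≠ p) := by
  have hn0 : orderOf h ≠ 0 := (orderOf_pos h).ne'
  set n := orderOf h with hn
  set pk := p ^ n.factorization p with hpk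
  set n' := n / pk with hn'
  have hmul : pk * n' = n := Nat.ordProj_mul_ordCompl_eq_self n p
  have co : pk.Coprime n' := Nat.Coprime.pow_left _ (Nat.coprime_ordCompl hp hn0)
  obtain ⟨a, ha1, ha2⟩ := Nat.chineseRemainder co 1 0
  obtain ⟨b, hb1, hb2⟩ := Nat.chineseRemainder co 0 1
  refine ⟨a, b, ?_, ?_, ?_⟩
  · rw [← pow_add]
    have h1 : a + b ≡ 1 [MOD pk * n'] := by
      apply (Nat.modEq_and_modEq_iff_modEq_mul co).mp
      exact ⟨by simpa using ha1.add hb1, by simpa using ha2.add hb2⟩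
    rw [hmul] at h1
    have := (pow_eq_pow_iff_modEq (x := h) (n := a + b) (m := 1)).mpr h1
    rw [this, pow_one]
  · have hdvd : orderOf (h ^ a) ∣ pk := by
      apply orderOf_dvd_of_pow_eq_one
      rw [← pow_mul]
      apply orderOf_dvd_iff_pow_eq_one.mp
      rw [← hn, ← hmul, mul_comm a pk]
      exact Nat.mul_dvd_mul_left pk (Nat.modEq_zero_iff_dvd.mp ha2)
    obtain ⟨j, _, hj⟩ := (Nat.dvd_prime_pow hp).mp hdvd
    exact ⟨j, hj⟩
  · intro q hq hqd
    have hdvd : orderOf (h ^ b) ∣ n' := by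
      apply orderOf_dvd_of_pow_eq_one
      rw [← pow_mul]
      apply orderOf_dvd_iff_pow_eq_one.mp
      rw [← hn, ← hmul]
      exact Nat.mul_dvd_mul_right (Nat.modEq_zero_iff_dvd.mp hb1) n'
    have hqn' : q ∣ n' := hqd.trans hdvd
    refine ⟨hqn'.trans (Dvd.intro_left pk hmul), ?_⟩
    rintro rfl
    exact Nat.not_dvd_ordCompl hp hn0 hqn'

theorem conj_pow_eq {X : Type*} [Group X] (n v : X) (t : ℤ) (h : n * v * n⁻¹ = v ^ t) (i : ℕ) :
    n ^ i * v * (n ^ i)⁻¹ = v ^ (t ^ i) := by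
  induction i with
  | zero => simp
  | succ i ih =>
    have h1 : n ^ (i + 1) * v * (n ^ (i + 1))⁻¹ = n * (n ^ i * v * (n ^ i)⁻¹) * n⁻¹ := by
      rw [pow_succ']; group
    rw [h1, ih, ← conj_zpow, h, ← zpow_mul, pow_succ']

theorem conj_eq_self_of_coprime {X : Type*} [Group X] [Finite X] (p : ℕ) (_hp : p.Prime)
    (n v : X) (m : ℕ) (hv : orderOf v = p ^ m) (t : ℤ) (h : n * v * n⁻¹ = v ^ t)
    (ht : (p : ℤ) ∣ t - 1) (hn : (orderOf n).Coprime p) : n * v * n⁻¹ = v := by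
  rcases Nat.eq_zero_or_pos m with hm | hm
  · subst hm
    rw [pow_zero, orderOf_eq_one_iff] at hv
    subst hv; simp
  obtain ⟨k, rfl⟩ : ∃ k, m = k + 1 := ⟨m - 1, by omega⟩
  have h1 : v ^ (t ^ orderOf n) = v ^ (1 : ℤ) := by
    rw [← conj_pow_eq n v t h (orderOf n), pow_orderOf_eq_one]; simp
  rw [zpow_eq_zpow_iff_modEq, hv] at h1
  have h2 : ((t : ZMod (p ^ (k + 1))) ^ orderOf n) = 1 := by
    have := (ZMod.intCast_eq_intCast_iff _ _ _).mpr h1
    simpa using this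
  have h3 : ((t : ZMod (p ^ (k + 1))) ^ (p ^ k)) = 1 := by
    have h4 : ((p : ℤ)) ^ (k + 1) ∣ t ^ (p ^ k) - 1 ^ (p ^ k) := dvd_sub_pow_of_dvd_sub ht k
    rw [one_pow] at h4
    have h5 : t ^ (p ^ k) ≡ 1 [ZMOD ((p ^ (k + 1) : ℕ) : ℤ)] := by
      rw [Int.modEq_iff_dvd]
      push_cast
      have : (1 : ℤ) - t ^ p ^ k = -(t ^ (p ^ k) - 1) := by ring
      rw [this]
      exact (dvd_neg).mpr h4
    have := (ZMod.intCast_eq_intCast_iff _ _ _).mpr h5
    simpa using this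
  have h6 : (t : ZMod (p ^ (k + 1))) ^ (Nat.gcd (orderOf n) (p ^ k)) = 1 :=
    pow_gcd_eq_one.mpr ⟨h2, h3⟩
  have h7 : Nat.gcd (orderOf n) (p ^ k) = 1 := Nat.Coprime.pow_right k hn
  rw [h7, pow_one] at h6
  have h8 : t ≡ 1 [ZMOD ((p ^ (k + 1) : ℕ) : ℤ)] := by
    apply (ZMod.intCast_eq_intCast_iff _ _ _).mp
    simpa using h6
  rw [h]
  have : v ^ t = v ^ (1 : ℤ) := by
    rw [zpow_eq_zpow_iff_modEq, hv]; exact h8
  rw [this, zpow_one]

theorem norm_cent {X : Type*} [Group X] [Finite X] (p : ℕ) [hp : Fact p.Prime] (P : Sylow p X)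
    (v : X) (hv : v ∈ P) (hgen : (P : Subgroup X) ≤ Subgroup.zpowers v) (n : X)
    (hn : n ∈ Subgroup.normalizer ((P : Subgroup X) : Set X)) (t : ℤ)
    (h : n * v * n⁻¹ = v ^ t) (ht : (p : ℤ) ∣ t - 1) : n * v * n⁻¹ = v := by
  obtain ⟨a, b, hab, ⟨k, hk⟩, hb⟩ := exists_parts p hp.out n
  obtain ⟨m, hm⟩ := (IsPGroup.iff_orderOf.mp P.isPGroup') ⟨v, hv⟩
  rw [← Subgroup.orderOf_coe] at hm
  simp only at hm
  -- the p-part lies in P
  have haP : n ^ a ∈ (P : Subgroup X) := by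
    have hpg : IsPGroup p (Subgroup.zpowers (n ^ a)) :=
      IsPGroup.of_card (n := k) (by rw [Nat.card_zpowers, hk])
    have h1 := hpg.inf_normalizer_sylow P
    have h2 : n ^ a ∈ Subgroup.zpowers (n ^ a) ⊓ Subgroup.normalizer ((P : Subgroup X) : Set X) :=
      ⟨Subgroup.mem_zpowers _, Subgroup.pow_mem _ hn a⟩
    exact (h1.le h2).2
  have hacomm : n ^ a * v * (n ^ a)⁻¹ = v := by
    obtain ⟨j, hj⟩ := Subgroup.mem_zpowers_iff.mp (hgen haP)
    rw [← hj]
    have : Commute (v ^ j) v := (Commute.refl v).zpow_left j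
    rw [this.eq]; group
  have hbcomm : n ^ b * v * (n ^ b)⁻¹ = v := by
    apply conj_eq_self_of_coprime p hp.out (n ^ b) v m hm (t ^ b) (conj_pow_eq n v t h b)
    · have : t - 1 ∣ t ^ b - 1 ^ b := sub_dvd_pow_sub_pow t 1 b
      rw [one_pow] at this
      exact ht.trans this
    · rw [Nat.coprime_comm, Nat.Prime.coprime_iff_not_dvd hp.out]
      intro hd
      exact (hb p hp.out hd).2 rfl
  calc n * v * n⁻¹ = n ^ a * (n ^ b * v * (n ^ b)⁻¹) * (n ^ a)⁻¹ := by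
        conv_lhs => rw [← hab]
        group
    _ = v := by rw [hbcomm, hacomm]

theorem TH {X : Type*} [Group X] [Finite X] (p : ℕ) [hp : Fact p.Prime] (P : Sylow p X) (v : X)
    (hv : v ∈ P) (hgen : (P : Subgroup X) ≤ Subgroup.zpowers v)
    (hdag : ∀ n ∈ Subgroup.normalizer ((P : Subgroup X) : Set X), ∀ t : ℤ,
      n * v * n⁻¹ = v ^ t → (p : ℤ) ∣ t - 1) :
    ∃ N : Subgroup X, N.Normal ∧ N.IsComplement' (P : Subgroup X) ∧
      ∀ x, x ∈ N ↔ (orderOf x).Coprime p := by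
  have hNC : Subgroup.normalizer ((P : Subgroup X) : Set X) ≤ Subgroup.centralizer (P : Subgroup X) := by
    intro n hn
    have h1 : n * v * n⁻¹ ∈ (P : Subgroup X) := (Subgroup.mem_normalizer_iff.mp hn v).mp hv
    obtain ⟨t, ht⟩ := Subgroup.mem_zpowers_iff.mp (hgen h1)
    have h2 : n * v * n⁻¹ = v := norm_cent p P v hv hgen n hn t ht.symm (hdag n hn t ht.symm)
    rw [Subgroup.mem_centralizer_iff]
    intro u hu
    obtain ⟨j, hj⟩ := Subgroup.mem_zpowers_iff.mp (hgen hu)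
    have h3 : n * v = v * n := by
      calc n * v = n * v * n⁻¹ * n := by group
        _ = v * n := by rw [h2]
    have h4 : Commute n v := h3
    rw [← hj]
    exact ((h4.zpow_right j).eq).symm
  have hc := MonoidHom.ker_transferSylow_isComplement' P hNC
  refine ⟨(MonoidHom.transferSylow P hNC).ker, inferInstance, hc, ?_⟩
  set N := (MonoidHom.transferSylow P hNC).ker with hN
  have hcardN : Nat.card N = (P : Subgroup X).index := (hc.index_eq_card).symm
  have hidx : N.index = Nat.card (P : Subgroup X) := (hc.symm.index_eq_card)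
  obtain ⟨k, hk⟩ := (IsPGroup.iff_card.mp P.isPGroup')
  intro x
  constructor
  · intro hx
    have h1 : orderOf x ∣ Nat.card N := by
      have := orderOf_dvd_natCard (⟨x, hx⟩ : N)
      rwa [← Subgroup.orderOf_coe] at this
    rw [hcardN] at h1
    rw [Nat.coprime_comm, Nat.Prime.coprime_iff_not_dvd hp.out]
    intro hd
    exact P.not_dvd_index (hd.trans h1)
  · intro hx
    have h1 : x ^ (p ^ k) ∈ N := by
      rw [← hk, ← hidx]; exact Subgroup.pow_index_mem N x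
    have h2 : (p ^ k).Coprime (orderOf x) := Nat.Coprime.pow_left k hx.symm
    obtain ⟨j, hj⟩ := exists_pow_eq_self_of_coprime h2
    rw [← hj]
    exact Subgroup.pow_mem _ h1 j

theorem TH_sub {G : Type*} [Group G] [Finite G] (p : ℕ) [hp : Fact p.Prime] (P : Sylow p G)
    (v : G) (hv : v ∈ P) (hgen : (P : Subgroup G) ≤ Subgroup.zpowers v) (K : Subgroup G)
    (hPK : (P : Subgroup G) ≤ K)
    (hdag : ∀ n ∈ K, n * v * n⁻¹ ∈ (P : Subgroup G) → ∀ t : ℤ, n * v * n⁻¹ = v ^ t →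
      (p : ℤ) ∣ t - 1) :
    ∃ N : Subgroup G, (∀ x, x ∈ N ↔ x ∈ K ∧ (orderOf x).Coprime p) ∧
      (∀ x ∈ K, ∃ n ∈ N, ∃ u ∈ (P : Subgroup G), x = n * u) ∧
      N.relIndex K = Nat.card (P : Subgroup G) ∧ (Nat.card N).Coprime p := by
  set PK : Sylow p K := P.subtype hPK with hPKdef
  have hmemPK : ∀ u : K, u ∈ (PK : Subgroup K) ↔ (u : G) ∈ (P : Subgroup G) := by
    intro u
    rw [hPKdef, Sylow.coe_subtype, Subgroup.mem_subgroupOf]
  have hv' : (⟨v, hPK hv⟩ : K) ∈ PK := (hmemPK _).mpr hv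
  have hgen' : (PK : Subgroup K) ≤ Subgroup.zpowers (⟨v, hPK hv⟩ : K) := by
    intro u hu
    obtain ⟨j, hj⟩ := Subgroup.mem_zpowers_iff.mp (hgen ((hmemPK u).mp hu))
    refine Subgroup.mem_zpowers_iff.mpr ⟨j, ?_⟩
    apply Subtype.ext
    rw [Subgroup.coe_zpow]
    exact hj
  have hdag' : ∀ n ∈ Subgroup.normalizer ((PK : Subgroup K) : Set K), ∀ t : ℤ,
      n * (⟨v, hPK hv⟩ : K) * n⁻¹ = (⟨v, hPK hv⟩ : K) ^ t → (p : ℤ) ∣ t - 1 := by
    intro n hn t ht
    have h1 : n * (⟨v, hPK hv⟩ : K) * n⁻¹ ∈ (PK : Subgroup K) :=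
      (Subgroup.mem_normalizer_iff.mp hn _).mp hv'
    have h2 : (n : G) * v * (n : G)⁻¹ ∈ (P : Subgroup G) := (hmemPK _).mp h1
    have h3 : (n : G) * v * (n : G)⁻¹ = v ^ t := by
      have := congrArg Subtype.val ht
      rw [Subgroup.coe_zpow] at this
      exact this
    exact hdag (n : G) n.2 h2 t h3
  obtain ⟨N', hN'normal, hc, hN'mem⟩ := TH p PK ⟨v, hPK hv⟩ hv' hgen' hdag'
  have hinj : Function.Injective K.subtype := K.subtype_injective
  refine ⟨N'.map K.subtype, ?_, ?_, ?_, ?_⟩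
  · intro x
    rw [Subgroup.mem_map]
    constructor
    · rintro ⟨y, hy, rfl⟩
      refine ⟨y.2, ?_⟩
      have := (hN'mem y).mp hy
      rwa [← Subgroup.orderOf_coe] at this
    · rintro ⟨hxK, hxo⟩
      refine ⟨⟨x, hxK⟩, (hN'mem _).mpr ?_, rfl⟩
      rw [← Subgroup.orderOf_coe]
      exact hxo
  · intro x hx
    obtain ⟨⟨n', u'⟩, h, _⟩ := (Subgroup.isComplement'_def.mp hc).existsUnique ⟨x, hx⟩
    refine ⟨(n' : K), Subgroup.mem_map.mpr ⟨n', n'.2, rfl⟩, (u' : K), (hmemPK _).mp u'.2, ?_⟩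
    have := congrArg Subtype.val h
    simpa using this.symm
  · have h1 : (N'.map K.subtype).relIndex K = N'.index := by
      unfold Subgroup.relIndex Subgroup.subgroupOf
      rw [Subgroup.comap_map_eq_self_of_injective hinj]
    rw [h1, hc.symm.index_eq_card, hPKdef, Sylow.coe_subtype]
    exact Nat.card_congr (Subgroup.subgroupOfEquivOfLe hPK).toEquiv
  · rw [Subgroup.card_map_of_injective hinj, ← hc.index_eq_card,
      Nat.coprime_comm, Nat.Prime.coprime_iff_not_dvd hp.out]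
    exact PK.not_dvd_index

theorem result {G : Type*} [Group G] [Finite G] (p : ℕ) [Fact p.Prime]
    (P : Sylow p G) (hP : IsCyclic (P : Subgroup G)) (H : Subgroup G) [H.Normal] (h1 : p ∣ Nat.card H) (h2 : p ∣ H.index) :
    Cfsg.HasNormalPComplement p H ∧ Cfsg.IsPSolvable p G := by
  have hp : p.Prime := Fact.out
  have hHn : H.Normal := inferInstance
  obtain ⟨⟨v₀, hv₀⟩, hgen'⟩ := hP.exists_generator
  have hgen : (P : Subgroup G) ≤ Subgroup.zpowers v₀ := by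
    intro u hu
    obtain ⟨j, hj⟩ := Subgroup.mem_zpowers_iff.mp (hgen' ⟨u, hu⟩)
    refine Subgroup.mem_zpowers_iff.mpr ⟨j, ?_⟩
    have := congrArg Subtype.val hj
    simpa using this
  obtain ⟨m, hm⟩ : ∃ m, orderOf v₀ = p ^ m := by
    obtain ⟨m, hm⟩ := (IsPGroup.iff_orderOf.mp P.isPGroup') ⟨v₀, hv₀⟩
    rw [← Subgroup.orderOf_coe] at hm
    exact ⟨m, hm⟩
  obtain ⟨kP, hkP⟩ := (IsPGroup.iff_card.mp P.isPGroup')
  have hPcomm : ∀ a ∈ (P : Subgroup G), ∀ b ∈ (P : Subgroup G), a * b = b * a := by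
    intro a ha b hb
    obtain ⟨i, rfl⟩ := Subgroup.mem_zpowers_iff.mp (hgen ha)
    obtain ⟨j, rfl⟩ := Subgroup.mem_zpowers_iff.mp (hgen hb)
    exact (Commute.zpow_zpow_self v₀ i j).eq
  -- Claim A: v₀ ∉ H
  have hA : v₀ ∉ H := by
    intro hv
    have hPH : (P : Subgroup G) ≤ H := fun u hu => by
      obtain ⟨j, hj⟩ := Subgroup.mem_zpowers_iff.mp (hgen hu)
      rw [← hj]; exact H.zpow_mem hv j
    exact P.not_dvd_index (h2.trans (Subgroup.index_dvd_of_le hPH))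
  have hkey : ∀ t : ℤ, v₀ ^ (t - 1) ∈ H → (p : ℤ) ∣ t - 1 := by
    intro t ht
    by_contra hnd
    have hco : IsCoprime (t - 1) ((p : ℤ) ^ m) := by
      apply IsCoprime.pow_right
      exact ((Nat.prime_iff_prime_int.mp hp).irreducible.coprime_iff_not_dvd.mpr hnd).symm
    obtain ⟨a, b, hab⟩ := hco
    apply hA
    have h3 : (v₀ ^ (t - 1)) ^ a = v₀ ^ (1 : ℤ) := by
      rw [← zpow_mul, zpow_eq_zpow_iff_modEq, hm, Int.modEq_iff_dvd]
      refine Dvd.intro_left b ?_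
      push_cast
      linarith
    rw [zpow_one] at h3
    rw [← h3]
    exact H.zpow_mem ht a
  -- Claim B
  have hB : ∃ w₀ : G, w₀ ∈ (P : Subgroup G) ∧ w₀ ∈ H ∧ w₀ ≠ 1 := by
    obtain ⟨x, hx⟩ := exists_prime_orderOf_dvd_card' (G := H) p h1
    have hpg : IsPGroup p (Subgroup.zpowers (x : G)) :=
      IsPGroup.of_card (n := 1) (by rw [Nat.card_zpowers, Subgroup.orderOf_coe, hx, pow_one])
    obtain ⟨Q, hQ⟩ := hpg.exists_le_sylow
    obtain ⟨g, hg⟩ := MulAction.exists_smul_eq G Q P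
    refine ⟨g * x * g⁻¹, ?_, ?_, ?_⟩
    · have : g * x * g⁻¹ ∈ ((g • Q : Sylow p G) : Subgroup G) := by
        have h5 : ((g • Q : Sylow p G) : Subgroup G) = MulAut.conj g • (Q : Subgroup G) :=
          Sylow.coe_subgroup_smul
        rw [h5]
        exact (Subgroup.mem_smul_pointwise_iff_exists _ _ _).mpr ⟨x, hQ (Subgroup.mem_zpowers _), rfl⟩
      rwa [hg] at this
    · exact hHn.conj_mem _ x.2 g
    · intro h
      have hx1 : (x : G) = 1 := by
        have : (x : G) = g⁻¹ * (g * x * g⁻¹) * g := by group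
        rw [this, h]; group
      have hx2 : x = 1 := Subtype.ext hx1
      rw [hx2, orderOf_one] at hx
      exact hp.one_lt.ne hx
  -- Part 1
  set L : Subgroup G := H ⊔ (P : Subgroup G) with hL
  have hPL : (P : Subgroup G) ≤ L := le_sup_right
  have hHL : H ≤ L := le_sup_left
  have hLmem : ∀ x ∈ L, ∃ h ∈ H, ∃ u ∈ (P : Subgroup G), x = h * u := by
    intro x hx
    have : x ∈ ((H ⊔ (P : Subgroup G) : Subgroup G) : Set G) := hx
    rw [Subgroup.normal_mul] at this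
    obtain ⟨h, hh, u, hu, rfl⟩ := Set.mem_mul.mp this
    exact ⟨h, hh, u, hu, rfl⟩
  have hdagL : ∀ n ∈ L, n * v₀ * n⁻¹ ∈ (P : Subgroup G) → ∀ t : ℤ, n * v₀ * n⁻¹ = v₀ ^ t →
      (p : ℤ) ∣ t - 1 := by
    intro n hn _ t ht
    apply hkey
    obtain ⟨h, hh, u, hu, rfl⟩ := hLmem n hn
    have hc : u * v₀ = v₀ * u := hPcomm u hu v₀ hv₀
    have e : v₀ ^ (t - 1) = h * (v₀ * h⁻¹ * v₀⁻¹) := by
      rw [zpow_sub, zpow_one, ← ht]
      have : h * u * v₀ * (h * u)⁻¹ = h * (u * v₀) * u⁻¹ * h⁻¹ := by group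
      rw [this, hc]; group
    rw [e]
    exact H.mul_mem hh (hHn.conj_mem _ (H.inv_mem hh) v₀)
  obtain ⟨N₀, hN₀mem, hN₀dec, -, hN₀co⟩ := TH_sub p P v₀ hv₀ hgen L hPL hdagL
  have hN₀H : N₀ ≤ H := by
    intro x hx
    obtain ⟨hxL, hxo⟩ := (hN₀mem x).mp hx
    obtain ⟨h, hh, u, hu, rfl⟩ := hLmem x hxL
    have hu1 : u ^ (p ^ kP) = 1 := by
      have := pow_card_eq_one' (x := (⟨u, hu⟩ : (P : Subgroup G)))
      rw [hkP] at this
      have := congrArg Subtype.val this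
      simpa using this
    have h3 : (h * u) ^ (p ^ kP) ∈ H := by
      rw [← QuotientGroup.eq_one_iff, QuotientGroup.mk_pow, QuotientGroup.mk_mul,
        (QuotientGroup.eq_one_iff h).mpr hh, one_mul, ← QuotientGroup.mk_pow, hu1]
      rfl
    have h4 : (p ^ kP).Coprime (orderOf (h * u)) := Nat.Coprime.pow_left kP hxo.symm
    obtain ⟨j, hj⟩ := exists_pow_eq_self_of_coprime h4
    rw [← hj]
    exact H.pow_mem h3 j
  have hconj_ord : ∀ g x : G, orderOf (g * x * g⁻¹) = orderOf x := fun g x =>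
    MulEquiv.orderOf_eq (MulAut.conj g) x
  have hN₀normal : N₀.Normal := by
    refine ⟨fun x hx g => ?_⟩
    rw [hN₀mem]
    refine ⟨hHL (hHn.conj_mem x (hN₀H hx) g), ?_⟩
    rw [hconj_ord]
    exact ((hN₀mem x).mp hx).2
  have part1 : Cfsg.HasNormalPComplement p H := by
    obtain ⟨Q⟩ : Nonempty (Sylow p H) := inferInstance
    refine ⟨Q, N₀.subgroupOf H, hN₀normal.subgroupOf H, ?_⟩
    have hcard : Nat.card (N₀.subgroupOf H) = Nat.card N₀ :=
      Nat.card_congr (Subgroup.subgroupOfEquivOfLe hN₀H).toEquiv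
    have hpq : IsPGroup p (H ⧸ N₀.subgroupOf H) := by
      have := hN₀normal.subgroupOf H
      intro g
      induction g using QuotientGroup.induction_on with
      | H h =>
        obtain ⟨a, b, hab, ⟨k, hk⟩, hb⟩ := exists_parts p hp h
        refine ⟨k, ?_⟩
        rw [← QuotientGroup.mk_pow, QuotientGroup.eq_one_iff]
        have hbN : h ^ b ∈ N₀.subgroupOf H := by
          rw [Subgroup.mem_subgroupOf, hN₀mem]
          refine ⟨hHL (h ^ b).2, ?_⟩
          rw [Subgroup.orderOf_coe, Nat.coprime_comm, Nat.Prime.coprime_iff_not_dvd hp]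
          intro hd
          exact (hb p hp hd).2 rfl
        have e : h ^ (p ^ k) = (h ^ b) ^ (p ^ k) := by
          conv_lhs => rw [← hab]
          rw [(Commute.pow_pow_self h a b).mul_pow, ← hk, pow_orderOf_eq_one, one_mul]
        rw [e]
        exact Subgroup.pow_mem _ hbN _
    obtain ⟨j, hj⟩ := IsPGroup.iff_card.mp hpq
    rw [← Subgroup.index_eq_card] at hj
    have hmul : Nat.card (N₀.subgroupOf H) * p ^ j = Nat.card H := by
      rw [← hj]; exact Subgroup.card_mul_index _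
    have hndvd : ¬ p ∣ Nat.card (N₀.subgroupOf H) := by
      rw [hcard]
      exact (Nat.Prime.coprime_iff_not_dvd hp).mp hN₀co.symm
    have hQ : Nat.card (Q : Subgroup H) = p ^ j := by
      rw [Sylow.card_eq_multiplicity, ← hmul, Nat.factorization_mul (Nat.card_pos.ne')
        (pow_ne_zero _ hp.ne_zero), Nat.Prime.factorization_pow hp]
      simp [Nat.factorization_eq_zero_of_not_dvd hndvd]
    apply Subgroup.isComplement'_of_coprime
    · rw [hQ, hmul]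
    · rw [hQ, hcard]
      exact Nat.Coprime.pow_right j hN₀co
  refine ⟨part1, ?_⟩
  -- Part 2
  let C₁ : Subgroup G :=
    { carrier := {g | ∀ x ∈ H, g * x * g⁻¹ * x⁻¹ ∈ N₀}
      one_mem' := by
        intro x _
        have : (1 : G) * x * (1 : G)⁻¹ * x⁻¹ = 1 := by group
        rw [this]; exact N₀.one_mem
      mul_mem' := by
        intro g₁ g₂ h₁ h₂ x hx
        have e : g₁ * g₂ * x * (g₁ * g₂)⁻¹ * x⁻¹ =
            (g₁ * (g₂ * x * g₂⁻¹ * x⁻¹) * g₁⁻¹) * (g₁ * x * g₁⁻¹ * x⁻¹) := by group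
        rw [e]
        exact N₀.mul_mem (hN₀normal.conj_mem _ (h₂ x hx) g₁) (h₁ x hx)
      inv_mem' := by
        intro g hg x hx
        have hy : g⁻¹ * x * g ∈ H := by simpa using hHn.conj_mem x hx g⁻¹
        have h3 := N₀.inv_mem (hg _ hy)
        have e : g⁻¹ * x * g⁻¹⁻¹ * x⁻¹ = (g * (g⁻¹ * x * g) * g⁻¹ * (g⁻¹ * x * g)⁻¹)⁻¹ := by group
        rw [e]; exact h3 }
  have hC₁mem : ∀ g, g ∈ C₁ ↔ ∀ x ∈ H, g * x * g⁻¹ * x⁻¹ ∈ N₀ := fun g => Iff.rfl
  have hC₁normal : C₁.Normal := by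
    refine ⟨fun g hg c => ?_⟩
    rw [hC₁mem]
    intro x hx
    have hy : c⁻¹ * x * c ∈ H := by simpa using hHn.conj_mem x hx c⁻¹
    have h3 := hN₀normal.conj_mem _ ((hC₁mem g).mp hg _ hy) c
    have e : c * g * c⁻¹ * x * (c * g * c⁻¹)⁻¹ * x⁻¹ =
        c * (g * (c⁻¹ * x * c) * g⁻¹ * (c⁻¹ * x * c)⁻¹) * c⁻¹ := by group
    rw [e]; exact h3
  have hPC₁ : (P : Subgroup G) ≤ C₁ := by
    intro u hu
    rw [hC₁mem]
    intro x hx
    obtain ⟨n, hn, u', hu', rfl⟩ := hN₀dec x (hHL hx)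
    have hc : u * u' = u' * u := hPcomm u hu u' hu'
    have e : u * (n * u') * u⁻¹ * (n * u')⁻¹ = (u * n * u⁻¹) * (u * u') * u⁻¹ * u'⁻¹ * n⁻¹ := by
      group
    rw [e, hc]
    have e2 : u * n * u⁻¹ * (u' * u) * u⁻¹ * u'⁻¹ * n⁻¹ = (u * n * u⁻¹) * n⁻¹ := by group
    rw [e2]
    exact N₀.mul_mem (hN₀normal.conj_mem n hn u) (N₀.inv_mem hn)
  obtain ⟨w₀, hw₀P, hw₀H, hw₀1⟩ := hB
  have hdagC : ∀ n ∈ C₁, n * v₀ * n⁻¹ ∈ (P : Subgroup G) → ∀ t : ℤ, n * v₀ * n⁻¹ = v₀ ^ t →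
      (p : ℤ) ∣ t - 1 := by
    intro n hn _ t ht
    obtain ⟨j, hj⟩ := Subgroup.mem_zpowers_iff.mp (hgen hw₀P)
    have h3 : n * w₀ * n⁻¹ = w₀ ^ t := by
      rw [← hj, ← conj_zpow, ht, ← zpow_mul, ← zpow_mul, mul_comm]
    have h4 : w₀ ^ (t - 1) ∈ N₀ := by
      have := (hC₁mem n).mp hn w₀ hw₀H
      rw [h3] at this
      rw [zpow_sub, zpow_one]
      exact this
    have h5 : w₀ ^ (t - 1) ∈ (P : Subgroup G) := Subgroup.zpow_mem _ hw₀P _
    have h6 : w₀ ^ (t - 1) = 1 := by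
      obtain ⟨i, hi⟩ := (IsPGroup.iff_orderOf.mp P.isPGroup') ⟨w₀ ^ (t - 1), h5⟩
      rw [← Subgroup.orderOf_coe] at hi
      simp only at hi
      have hco := ((hN₀mem _).mp h4).2
      rw [hi] at hco
      rcases Nat.eq_zero_or_pos i with h0 | hpos
      · rw [h0, pow_zero, orderOf_eq_one_iff] at hi
        exact hi
      · exfalso
        have : p ∣ p ^ i := dvd_pow_self p hpos.ne'
        have h7 := Nat.Coprime.eq_one_of_dvd hco.symm this
        exact hp.one_lt.ne' h7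
    obtain ⟨i, hi⟩ := (IsPGroup.iff_orderOf.mp P.isPGroup') ⟨w₀, hw₀P⟩
    rw [← Subgroup.orderOf_coe] at hi
    simp only at hi
    have hi0 : i ≠ 0 := by
      rintro rfl
      rw [pow_zero, orderOf_eq_one_iff] at hi
      exact hw₀1 hi
    have h7 : ((orderOf w₀ : ℕ) : ℤ) ∣ t - 1 := orderOf_dvd_iff_zpow_eq_one.mpr h6
    rw [hi] at h7
    have h8 : (p : ℤ) ∣ ((p ^ i : ℕ) : ℤ) := by
      push_cast
      exact dvd_pow_self _ hi0
    exact h8.trans h7
  obtain ⟨N₁, hN₁mem, -, hN₁idx, hN₁co⟩ := TH_sub p P v₀ hv₀ hgen C₁ hPC₁ hdagC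
  have hN₁C : N₁ ≤ C₁ := fun x hx => ((hN₁mem x).mp hx).1
  have hN₁normal : N₁.Normal := by
    refine ⟨fun x hx g => ?_⟩
    rw [hN₁mem]
    refine ⟨hC₁normal.conj_mem x (hN₁C hx) g, ?_⟩
    rw [hconj_ord]
    exact ((hN₁mem x).mp hx).2
  refine ⟨3, ![⊥, N₁, C₁, ⊤], rfl, rfl, ?_, ?_, ?_⟩
  · rw [Fin.monotone_iff_le_succ]
    intro i
    fin_cases i
    · exact bot_le
    · exact hN₁C
    · exact le_top
  · intro i
    fin_cases i
    · exact Subgroup.normal_bot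
    · exact hN₁normal
    · exact hC₁normal
    · exact Subgroup.normal_top
  · intro i
    fin_cases i
    · right
      show (Subgroup.relIndex ⊥ N₁).Coprime p
      rw [Subgroup.relIndex_bot_left]
      exact hN₁co
    · left
      exact ⟨kP, hN₁idx.trans hkP⟩
    · right
      show (Subgroup.relIndex C₁ ⊤).Coprime p
      rw [Subgroup.relIndex_top_right, Nat.coprime_comm, Nat.Prime.coprime_iff_not_dvd hp]
      intro hd
      exact P.not_dvd_index (hd.trans (Subgroup.index_dvd_of_le hPC₁))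

end Cfsg.Agent.S4145
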