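import Cfsg.Statements.S4160
import Cfsg.Agent.H73.Cover

set_option autoImplicit false
open Cfsg

namespace Cfsg.Agent.S4160

/-- If the normalizer of a Sylow subgroup is not its centralizer, the non-identity elements
conjugate into the centralizer number at most `#G / 2 - 1`. -/
theorem half_bound {G : Type*} [Group G] [Finite G] (p : ℕ) [Fact p.Prime] (P : Sylow p G)
    (hP : ¬ Subgroup.normalizer ((P : Subgroup G) : Set G) ≤ Subgroup.centralizer ((P : Subgroup G) : Set G)) :
    2 * {g : G | g ≠ 1 ∧ ∃ k : G, k⁻¹ * g * k ∈ Subgroup.centralizer ((P : Subgroup G) : Set G)}.ncard + 2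
      ≤ Nat.card G := by
  set C := Subgroup.centralizer ((P : Subgroup G) : Set G) with hC
  set N := Subgroup.normalizer ((P : Subgroup G) : Set G) with hN
  have hCN : C ≤ N := Subgroup.centralizer_le_normalizer _
  have hNC : N ≤ Subgroup.normalizer (C : Set G) := by
    intro n hn
    rw [Subgroup.mem_normalizer_iff]
    have key : ∀ m : G, m ∈ N → ∀ c : G, c ∈ C → m * c * m⁻¹ ∈ C := by
      intro m hm c hc
      rw [hC, Subgroup.mem_centralizer_iff] at hc ⊢
      intro x hx
      have hx' : m⁻¹ * x * m ∈ (P : Subgroup G) := by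
        have hm' := N.inv_mem hm
        rw [hN, Subgroup.mem_normalizer_iff] at hm'
        have := (hm' x).mp hx
        simpa using this
      have := hc _ hx'
      calc x * (m * c * m⁻¹) = m * ((m⁻¹ * x * m) * c) * m⁻¹ := by group
        _ = m * (c * (m⁻¹ * x * m)) * m⁻¹ := by rw [this]
        _ = m * c * m⁻¹ * x := by group
    intro c
    constructor
    · exact key n hn c
    · intro hc
      have := key n⁻¹ (N.inv_mem hn) _ hc
      have e : n⁻¹ * (n * c * n⁻¹) * n⁻¹⁻¹ = c := by group
      rwa [e] at this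
  have hbound := Cfsg.Agent.H73.ncard_conj_cover_le C N hNC
  have hdvd : Nat.card C ∣ Nat.card N := Subgroup.card_dvd_of_le hCN
  have hne : Nat.card C ≠ Nat.card N := by
    intro h
    have := Subgroup.eq_of_le_of_card_ge hCN h.ge
    exact hP (this ▸ le_refl _)
  have hCpos : 0 < Nat.card C := Nat.card_pos
  have h2 : 2 * Nat.card C ≤ Nat.card N := by
    obtain ⟨t, ht⟩ := hdvd
    have ht1 : t ≠ 1 := by
      intro h1; rw [h1, mul_one] at ht; exact hne ht.symm
    have ht0 : t ≠ 0 := by
      intro h0; rw [h0, mul_zero] at ht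
      have : 0 < Nat.card N := Nat.card_pos
      omega
    have : 2 ≤ t := by omega
    calc 2 * Nat.card C = Nat.card C * 2 := by ring
      _ ≤ Nat.card C * t := Nat.mul_le_mul_left _ this
      _ = Nat.card N := ht.symm
  have hidx : N.index * Nat.card N = Nat.card G := Subgroup.index_mul_card N
  have hipos : 0 < N.index := Nat.pos_of_ne_zero Subgroup.index_ne_zero_of_finite
  have e1 : N.index * (Nat.card C - 1) + N.index = N.index * Nat.card C := by
    have : Nat.card C - 1 + 1 = Nat.card C := Nat.sub_add_cancel hCpos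
    calc N.index * (Nat.card C - 1) + N.index = N.index * (Nat.card C - 1 + 1) := by ring
      _ = N.index * Nat.card C := by rw [this]
  have e2 : 2 * (N.index * Nat.card C) ≤ Nat.card G := by
    calc 2 * (N.index * Nat.card C) = N.index * (2 * Nat.card C) := by ring
      _ ≤ N.index * Nat.card N := Nat.mul_le_mul_left _ h2
      _ = Nat.card G := hidx
  omega

/-- Let G be a finite group and p ≠ q primes each dividing the size of some conjugacy class of G, such that no conjugacy class size is divisible by pq. Then G has a normal p-complement or a normal q-complement. -/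
theorem result {G : Type*} [Group G] [Finite G] (p q : ℕ) (hp : p.Prime) (hq : q.Prime) (hpq : p ≠ q)
    (hp' : ∃ x : G, p ∣ (Subgroup.centralizer ({x} : Set G)).index) (hq' : ∃ x : G, q ∣ (Subgroup.centralizer ({x} : Set G)).index) (h : ∀ x : G, ¬ p * q ∣ (Subgroup.centralizer ({x} : Set G)).index) :
    Cfsg.HasNormalPComplement p G ∨ Cfsg.HasNormalPComplement q G := by
  have _ := hp'
  have _ := hq'
  have : Fact p.Prime := ⟨hp⟩
  have : Fact q.Prime := ⟨hq⟩
  obtain ⟨P⟩ : Nonempty (Sylow p G) := inferInstance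
  obtain ⟨Q⟩ : Nonempty (Sylow q G) := inferInstance
  by_cases hP : Subgroup.normalizer ((P : Subgroup G) : Set G) ≤ Subgroup.centralizer ((P : Subgroup G) : Set G)
  · left
    exact ⟨P, _, inferInstance, MonoidHom.ker_transferSylow_isComplement' P hP⟩
  by_cases hQ : Subgroup.normalizer ((Q : Subgroup G) : Set G) ≤ Subgroup.centralizer ((Q : Subgroup G) : Set G)
  · right
    exact ⟨Q, _, inferInstance, MonoidHom.ker_transferSylow_isComplement' Q hQ⟩
  exfalso
  have hbP := half_bound p P hP
  have hbQ := half_bound q Q hQ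
  set UP := {g : G | g ≠ 1 ∧ ∃ k : G, k⁻¹ * g * k ∈ Subgroup.centralizer ((P : Subgroup G) : Set G)}
  set UQ := {g : G | g ≠ 1 ∧ ∃ k : G, k⁻¹ * g * k ∈ Subgroup.centralizer ((Q : Subgroup G) : Set G)}
  have hcover : ({1}ᶜ : Set G) ⊆ UP ∪ UQ := by
    intro g hg
    have hg1 : g ≠ 1 := hg
    have hcop : p.Coprime q := (Nat.coprime_primes hp hq).mpr hpq
    by_cases hpg : p ∣ (Subgroup.centralizer ({g} : Set G)).index
    · have hqg : ¬ q ∣ (Subgroup.centralizer ({g} : Set G)).index := fun hqg =>
        h g (hcop.mul_dvd_of_dvd_of_dvd hpg hqg)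
      right
      exact ⟨hg1, Cfsg.Agent.H73.exists_conj_mem_centralizer_sylow q Q g hqg⟩
    · left
      exact ⟨hg1, Cfsg.Agent.H73.exists_conj_mem_centralizer_sylow p P g hpg⟩
  have h1 : ({1}ᶜ : Set G).ncard ≤ UP.ncard + UQ.ncard :=
    (Set.ncard_le_ncard hcover (Set.toFinite _)).trans (Set.ncard_union_le _ _)
  have h2 : ({1}ᶜ : Set G).ncard = Nat.card G - 1 := by
    rw [Set.ncard_compl, Set.ncard_singleton]
  have hG : 0 < Nat.card G := Nat.card_pos
  omega

end Cfsg.Agent.S4160
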