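import Cfsg.Statements.S4149
import Cfsg.Agent.S4160
import Cfsg.Agent.H73.Cover

set_option autoImplicit false
open Cfsg

namespace Cfsg.Agent.S4149

/-- If `G` has no normal `r`-complement, fewer than half of the elements have class size prime
to `r`. -/
theorem per_prime {G : Type*} [Group G] [Finite G] (r : ℕ) (hr : r.Prime)
    (hno : ¬ Cfsg.HasNormalPComplement r G) :
    2 * {x : G | x ≠ 1 ∧ ¬ r ∣ (Subgroup.centralizer ({x} : Set G)).index}.ncard + 2
      ≤ Nat.card G := by
  have : Fact r.Prime := ⟨hr⟩
  obtain ⟨R⟩ : Nonempty (Sylow r G) := inferInstance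
  have hR : ¬ Subgroup.normalizer ((R : Subgroup G) : Set G)
      ≤ Subgroup.centralizer ((R : Subgroup G) : Set G) := by
    intro h
    exact hno ⟨R, _, inferInstance, MonoidHom.ker_transferSylow_isComplement' R h⟩
  have hb := Cfsg.Agent.S4160.half_bound r R hR
  have hsub : {x : G | x ≠ 1 ∧ ¬ r ∣ (Subgroup.centralizer ({x} : Set G)).index} ⊆
      {g : G | g ≠ 1 ∧ ∃ k : G, k⁻¹ * g * k ∈ Subgroup.centralizer ((R : Subgroup G) : Set G)} := by
    rintro x ⟨hx1, hx⟩
    exact ⟨hx1, Cfsg.Agent.H73.exists_conj_mem_centralizer_sylow r R x hx⟩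
  have := Set.ncard_le_ncard hsub (Set.toFinite _)
  omega

/-- Let G be a finite group that has a normal p-complement for at most one prime p dividing its order, and let σ be a natural number such that every conjugacy class size of G has at most σ distinct prime divisors. Then the number of primes dividing at least one conjugacy class size of G is at most 2σ. -/
theorem result {G : Type*} [Group G] [Finite G] (σ : ℕ)
    (hσ : ∀ x : G, ((Subgroup.centralizer ({x} : Set G)).index).primeFactors.card ≤ σ)
    (hnil : ∀ p q : ℕ, p.Prime → q.Prime → p ∣ Nat.card G → q ∣ Nat.card G →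
      Cfsg.HasNormalPComplement p G → Cfsg.HasNormalPComplement q G → p = q) :
    Nat.card {p : ℕ | p.Prime ∧ ∃ x : G, p ∣ (Subgroup.centralizer ({x} : Set G)).index} ≤ 2 * σ := by
  classical
  have hfin : {p : ℕ | p.Prime ∧ ∃ x : G, p ∣ (Subgroup.centralizer ({x} : Set G)).index}.Finite := by
    apply (Nat.card G).primeFactors.finite_toSet.subset
    rintro p ⟨hp, x, hx⟩
    simp only [Finset.mem_coe, Nat.mem_primeFactors]
    exact ⟨hp, dvd_trans hx (Subgroup.index_dvd_card _), Nat.card_pos.ne'⟩
  rw [Nat.card_coe_set_eq, Set.ncard_eq_toFinset_card _ hfin]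
  set F := hfin.toFinset with hF
  have hFmem : ∀ r ∈ F, r.Prime ∧ ∃ x : G, r ∣ (Subgroup.centralizer ({x} : Set G)).index :=
    fun r hr => hfin.mem_toFinset.mp hr
  by_contra hcon
  push Not at hcon
  -- `σ ≥ 1`
  have hσ1 : 1 ≤ σ := by
    have hne : F.Nonempty := Finset.card_pos.mp (by omega)
    obtain ⟨r, hr⟩ := hne
    obtain ⟨hrp, x, hx⟩ := hFmem r hr
    have h1 := hσ x
    have h2 : 0 < ((Subgroup.centralizer ({x} : Set G)).index).primeFactors.card :=
      Finset.card_pos.mpr ⟨r, Nat.mem_primeFactors.mpr ⟨hrp, hx, Subgroup.index_ne_zero_of_finite⟩⟩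
    omega
  have : Fintype G := Fintype.ofFinite G
  set X : Finset G := Finset.univ.erase 1 with hXdef
  have hX : X.card + 1 = Nat.card G := by
    rw [hXdef, Finset.card_erase_of_mem (Finset.mem_univ _), Finset.card_univ,
      Nat.card_eq_fintype_card]
    have : 0 < Fintype.card G := Fintype.card_pos
    omega
  -- double counting
  have hdc : ∑ r ∈ F, (X.filter (fun x => ¬ r ∣ (Subgroup.centralizer ({x} : Set G)).index)).card
      = ∑ x ∈ X, (F.filter (fun r => ¬ r ∣ (Subgroup.centralizer ({x} : Set G)).index)).card := by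
    simp only [Finset.card_filter]
    exact Finset.sum_comm
  -- lower bound
  have hlow : ∀ x ∈ X, F.card ≤
      (F.filter (fun r => ¬ r ∣ (Subgroup.centralizer ({x} : Set G)).index)).card + σ := by
    intro x _
    have h1 := Finset.card_filter_add_card_filter_not (s := F)
      (fun r => r ∣ (Subgroup.centralizer ({x} : Set G)).index)
    have h2 : (F.filter (fun r => r ∣ (Subgroup.centralizer ({x} : Set G)).index)).card ≤ σ := by
      refine le_trans (Finset.card_le_card ?_) (hσ x)
      intro r hr
      rw [Finset.mem_filter] at hr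
      rw [Nat.mem_primeFactors]
      exact ⟨(hFmem r hr.1).1, hr.2, Subgroup.index_ne_zero_of_finite⟩
    omega
  have hsumlow : X.card * F.card ≤
      ∑ x ∈ X, (F.filter (fun r => ¬ r ∣ (Subgroup.centralizer ({x} : Set G)).index)).card
        + X.card * σ := by
    have h1 : ∑ _x ∈ X, F.card ≤ ∑ x ∈ X,
        ((F.filter (fun r => ¬ r ∣ (Subgroup.centralizer ({x} : Set G)).index)).card + σ) :=
      Finset.sum_le_sum hlow
    rw [Finset.sum_const, smul_eq_mul, Finset.sum_add_distrib, Finset.sum_const, smul_eq_mul] at h1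
    exact h1
  -- upper bounds
  set FB := F.filter (fun r => Cfsg.HasNormalPComplement r G) with hFB
  set FN := F.filter (fun r => ¬ Cfsg.HasNormalPComplement r G) with hFN
  have hcardF : FB.card + FN.card = F.card :=
    Finset.card_filter_add_card_filter_not _
  have hsplit : ∑ r ∈ FB, (X.filter (fun x => ¬ r ∣ (Subgroup.centralizer ({x} : Set G)).index)).card
      + ∑ r ∈ FN, (X.filter (fun x => ¬ r ∣ (Subgroup.centralizer ({x} : Set G)).index)).card
      = ∑ r ∈ F, (X.filter (fun x => ¬ r ∣ (Subgroup.centralizer ({x} : Set G)).index)).card :=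
    Finset.sum_filter_add_sum_filter_not _ _ _
  have hBcard : FB.card ≤ 1 := by
    rw [Finset.card_le_one]
    intro a ha b hb
    rw [hFB, Finset.mem_filter] at ha hb
    obtain ⟨hap, xa, hxa⟩ := hFmem a ha.1
    obtain ⟨hbp, xb, hxb⟩ := hFmem b hb.1
    exact hnil a b hap hbp (dvd_trans hxa (Subgroup.index_dvd_card _))
      (dvd_trans hxb (Subgroup.index_dvd_card _)) ha.2 hb.2
  have hSB : ∑ r ∈ FB, (X.filter (fun x => ¬ r ∣ (Subgroup.centralizer ({x} : Set G)).index)).card
      ≤ FB.card * X.card := by
    have := Finset.sum_le_card_nsmul FB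
      (fun r => (X.filter (fun x => ¬ r ∣ (Subgroup.centralizer ({x} : Set G)).index)).card)
      X.card (fun r _ => Finset.card_filter_le _ _)
    rwa [smul_eq_mul] at this
  have hSN : ∑ r ∈ FN,
      (2 * (X.filter (fun x => ¬ r ∣ (Subgroup.centralizer ({x} : Set G)).index)).card + 1)
      ≤ FN.card * X.card := by
    have := Finset.sum_le_card_nsmul FN
      (fun r => 2 * (X.filter (fun x => ¬ r ∣ (Subgroup.centralizer ({x} : Set G)).index)).card + 1)
      X.card (by
        intro r hr
        rw [hFN, Finset.mem_filter] at hr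
        have h1 := per_prime r (hFmem r hr.1).1 hr.2
        have e : {x : G | x ≠ 1 ∧ ¬ r ∣ (Subgroup.centralizer ({x} : Set G)).index}.ncard
            = (X.filter (fun x => ¬ r ∣ (Subgroup.centralizer ({x} : Set G)).index)).card := by
          rw [← Set.ncard_coe_finset]
          congr 1
          ext x
          simp [hXdef]
        show 2 * (X.filter (fun x => ¬ r ∣ (Subgroup.centralizer ({x} : Set G)).index)).card + 1
          ≤ X.card
        omega)
    rwa [smul_eq_mul] at this
  rw [Finset.sum_add_distrib, ← Finset.mul_sum, Finset.sum_const, smul_eq_mul, mul_one] at hSN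
  -- arithmetic
  have hmul1 : X.card * (2 * σ + 1) ≤ X.card * F.card := Nat.mul_le_mul_left _ (by omega)
  have hmul2 : FB.card * X.card ≤ X.card := by
    calc FB.card * X.card ≤ 1 * X.card := Nat.mul_le_mul_right _ hBcard
      _ = X.card := one_mul _
  have hmul3 : X.card * F.card = FB.card * X.card + FN.card * X.card := by
    rw [← hcardF]; ring
  have hmul4 : X.card * (2 * σ + 1) = 2 * (X.card * σ) + X.card := by ring
  have hFN0 : FN.card = 0 := by omega
  omega

end Cfsg.Agent.S4149
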