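import Cfsg.Statements.S4153
import Cfsg.Agent.H73.Syl

set_option autoImplicit false
open Cfsg

namespace Cfsg.Agent.S4153

open Cfsg.Agent.H73

theorem card_inf_mul {G : Type*} [Group G] [Finite G] (p : ℕ) [Fact p.Prime] (N : Subgroup G)
    [N.Normal] (P T : Sylow p G) (Pbar : Sylow p (G ⧸ N)) :
    Nat.card ↥((T : Subgroup G) ⊓ N) * Nat.card (Pbar : Subgroup (G ⧸ N)) =
      Nat.card (P : Subgroup G) := by
  have h1 : Nat.card (T : Subgroup G) = Nat.card (P : Subgroup G) := sylow_card_eq T P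
  have hsurj : Function.Surjective (QuotientGroup.mk' N) := QuotientGroup.mk'_surjective N
  have h2 : Nat.card ((T : Subgroup G).map (QuotientGroup.mk' N)) =
      Nat.card (Pbar : Subgroup (G ⧸ N)) := by
    rw [← Sylow.coe_mapSurjective hsurj]
    exact sylow_card_eq _ _
  have h3 : N.relIndex (T : Subgroup G) =
      Nat.card ((T : Subgroup G).map (QuotientGroup.mk' N)) := by
    have := Subgroup.relIndex_ker (QuotientGroup.mk' N) (K := (T : Subgroup G))
    rwa [QuotientGroup.ker_mk'] at this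
  have h4 : ((T : Subgroup G) ⊓ N).relIndex T = N.relIndex T := by
    rw [inf_comm, Subgroup.inf_relIndex_right]
  have h5 := Subgroup.relIndex_mul_relIndex (H := ⊥) (K := (T : Subgroup G) ⊓ N)
    (L := (T : Subgroup G)) bot_le inf_le_left
  rw [Subgroup.relIndex_bot_left, Subgroup.relIndex_bot_left, h4, h3, h2, h1] at h5
  exact h5

/-- Let G be a finite group, p a prime, N a normal subgroup, P a Sylow p-subgroup of G and P̄ a Sylow p-subgroup of G/N. Count the elements of p-power order, the identity included. Then (number of such elements of G/N)/#P̄ ≤ (number of such elements of G)/#P, stated as a cross-multiplied inequality, with equality when N is central. -/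
theorem result {G : Type*} [Group G] [Finite G] (p : ℕ) [Fact p.Prime] (N : Subgroup G) [N.Normal]
    (P : Sylow p G) (Pbar : Sylow p (G ⧸ N)) :
    Nat.card {g : (G ⧸ N) // ∃ k : ℕ, orderOf g = p ^ k} * Nat.card (P : Subgroup G) ≤ Nat.card {g : G // ∃ k : ℕ, orderOf g = p ^ k} * Nat.card (Pbar : Subgroup (G ⧸ N)) ∧
    (N ≤ Subgroup.center G → Nat.card {g : (G ⧸ N) // ∃ k : ℕ, orderOf g = p ^ k} * Nat.card (P : Subgroup G) = Nat.card {g : G // ∃ k : ℕ, orderOf g = p ^ k} * Nat.card (Pbar : Subgroup (G ⧸ N))) := by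
  classical
  set π := QuotientGroup.mk' N with hπ
  have hsurj : Function.Surjective π := QuotientGroup.mk'_surjective N
  have hlift : ∀ y : {g : (G ⧸ N) // ∃ k : ℕ, orderOf g = p ^ k},
      ∃ T : Sylow p G, ∃ x : G, x ∈ (T : Subgroup G) ∧ π x = y.1 := by
    rintro ⟨y, k, hk⟩
    obtain ⟨Q, hy⟩ := exists_sylow_mem y k hk
    obtain ⟨T, hT⟩ := Sylow.mapSurjective_surjective hsurj p Q
    rw [← hT, Sylow.coe_mapSurjective] at hy
    obtain ⟨x, hx, hxy⟩ := Subgroup.mem_map.mp hy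
    exact ⟨T, x, hx, hxy⟩
  choose T x hxT hπx using hlift
  let ι : (Σ y : {g : (G ⧸ N) // ∃ k : ℕ, orderOf g = p ^ k}, ↥((T y : Subgroup G) ⊓ N)) →
      {g : G // ∃ k : ℕ, orderOf g = p ^ k} :=
    fun s => ⟨x s.1 * (s.2 : G), sylow_orderOf (T s.1) _ (Subgroup.mul_mem _ (hxT s.1) s.2.2.1)⟩
  have hπι : ∀ s, π (ι s).1 = s.1.1 := by
    intro s
    show π (x s.1 * (s.2 : G)) = _
    rw [map_mul, hπx]
    have : π (s.2 : G) = 1 := (QuotientGroup.eq_one_iff _).mpr s.2.2.2
    rw [this, mul_one]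
  have hinj : Function.Injective ι := by
    rintro ⟨y₁, n₁⟩ ⟨y₂, n₂⟩ h
    have h1 := hπι ⟨y₁, n₁⟩
    have h2 := hπι ⟨y₂, n₂⟩
    rw [h] at h1
    have hy : y₁ = y₂ := Subtype.ext (h1.symm.trans h2)
    subst hy
    have h3 : x y₁ * (n₁ : G) = x y₁ * (n₂ : G) := congrArg Subtype.val h
    have h4 : (n₁ : G) = n₂ := mul_left_cancel h3
    have : n₁ = n₂ := Subtype.ext h4
    rw [this]
  have hcard : Nat.card (Σ y : {g : (G ⧸ N) // ∃ k : ℕ, orderOf g = p ^ k},
      ↥((T y : Subgroup G) ⊓ N)) * Nat.card (Pbar : Subgroup (G ⧸ N)) =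
      Nat.card {g : (G ⧸ N) // ∃ k : ℕ, orderOf g = p ^ k} * Nat.card (P : Subgroup G) := by
    let _ : Fintype {g : (G ⧸ N) // ∃ k : ℕ, orderOf g = p ^ k} := Fintype.ofFinite _
    rw [Nat.card_sigma, Finset.sum_mul]
    simp only [card_inf_mul p N P _ Pbar]
    rw [Finset.sum_const, Finset.card_univ, smul_eq_mul, ← Nat.card_eq_fintype_card]
  constructor
  · rw [← hcard]
    exact Nat.mul_le_mul_right _ (Nat.card_le_card_of_injective ι hinj)
  · intro hcen
    rw [← hcard]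
    congr 1
    apply Nat.card_congr
    refine Equiv.ofBijective ι ⟨hinj, ?_⟩
    rintro ⟨g, k, hk⟩
    have hgbar : ∃ j : ℕ, orderOf (π g) = p ^ j := by
      have : orderOf (π g) ∣ p ^ k := hk ▸ orderOf_map_dvd π g
      obtain ⟨j, _, hj⟩ := (Nat.dvd_prime_pow (Fact.out)).mp this
      exact ⟨j, hj⟩
    set y : {g : (G ⧸ N) // ∃ k : ℕ, orderOf g = p ^ k} := ⟨π g, hgbar⟩ with hy
    have hn : (x y)⁻¹ * g ∈ N := by
      have : π (x y) = π g := hπx y
      exact QuotientGroup.eq.mp this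
    have hnc : (x y)⁻¹ * g ∈ Subgroup.center G := hcen hn
    obtain ⟨a, ha⟩ := sylow_orderOf (T y) (x y) (hxT y)
    have hcomm : Commute (x y)⁻¹ g := by
      have h1 := Subgroup.mem_center_iff.mp hnc (x y)
      -- x * (x⁻¹ * g) = (x⁻¹ * g) * x
      have h2 : g = (x y)⁻¹ * g * x y := by
        rw [← h1]; group
      show (x y)⁻¹ * g = g * (x y)⁻¹
      nth_rewrite 2 [h2]
      group
    have hpow : ((x y)⁻¹ * g) ^ (p ^ (a + k)) = 1 := by
      rw [hcomm.mul_pow, inv_pow, pow_add, pow_mul, ← ha, pow_orderOf_eq_one, one_pow, inv_one,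
        one_mul, mul_comm, pow_mul, ← hk, pow_orderOf_eq_one, one_pow]
    obtain ⟨j, _, hj⟩ := (Nat.dvd_prime_pow (Fact.out)).mp (orderOf_dvd_of_pow_eq_one hpow)
    have hnT : (x y)⁻¹ * g ∈ (T y : Subgroup G) := central_mem_sylow _ j hj hnc (T y)
    refine ⟨⟨y, ⟨(x y)⁻¹ * g, hnT, hn⟩⟩, ?_⟩
    apply Subtype.ext
    show x y * ((x y)⁻¹ * g) = g
    group

end Cfsg.Agent.S4153
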