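import Cfsg.Statements.S4154

set_option autoImplicit false
open Cfsg

namespace Cfsg.Agent.S4154

/-- Fixed points of an endomorphism, as a subgroup. -/
def fixSub {Q : Type*} [Group Q] (β : Q →* Q) : Subgroup Q where
  carrier := {q | β q = q}
  one_mem' := by simp
  mul_mem' := by
    intro a b ha hb
    simp only [Set.mem_ofPred_eq] at ha hb ⊢
    rw [map_mul, ha, hb]
  inv_mem' := by
    intro a ha
    simp only [Set.mem_ofPred_eq] at ha ⊢
    rw [map_inv, ha]

theorem mem_fixSub {Q : Type*} [Group Q] (β : Q →* Q) (q : Q) : q ∈ fixSub β ↔ β q = q := Iff.rfl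

theorem fix_le {Q : Type*} [Group Q] [Finite Q] (β : Q →* Q) (Cb : Subgroup Q)
    (hC : ∀ c ∈ Cb, β c = c) (hs : ∀ q : Q, ∃ c ∈ Cb, ∃ g : Q, q = c * (g⁻¹ * β g)) :
    ∀ q, β q = q → q ∈ Cb := by
  classical
  set φ : Q → Q := fun q => q⁻¹ * β q with hφ
  have hφF : ∀ (f : Q), f ∈ fixSub β → ∀ q, φ (f * q) = φ q := by
    intro f hf q
    simp only [hφ, map_mul, (mem_fixSub β f).mp hf, mul_inv_rev]
    group
  -- injection range φ × F → Q
  have h1 : Nat.card (Set.range φ × fixSub β) ≤ Nat.card Q := by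
    apply Nat.card_le_card_of_injective (fun p : Set.range φ × fixSub β => (p.2 : Q) * p.1.2.choose)
    rintro ⟨⟨k₁, hk₁⟩, ⟨f₁, hf₁⟩⟩ ⟨⟨k₂, hk₂⟩, ⟨f₂, hf₂⟩⟩ h
    simp only at h
    have e1 := hk₁.choose_spec
    have e2 := hk₂.choose_spec
    have e3 := congrArg φ h
    rw [hφF f₁ hf₁, hφF f₂ hf₂, e1, e2] at e3
    subst e3
    have e4 : f₁ = f₂ := mul_right_cancel h
    subst e4
    rfl
  -- surjection Cb × range φ → Q
  have h2 : Nat.card Q ≤ Nat.card (Cb × Set.range φ) := by
    apply Nat.card_le_card_of_surjective (fun p : Cb × Set.range φ => (p.1 : Q) * (p.2 : Q))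
    intro q
    obtain ⟨c, hc, g, hq⟩ := hs q
    exact ⟨⟨⟨c, hc⟩, ⟨φ g, Set.mem_range_self g⟩⟩, hq.symm⟩
  rw [Nat.card_prod] at h1 h2
  have hpos : 0 < Nat.card (Set.range φ) := by
    have : Nonempty (Set.range φ) := ⟨⟨φ 1, Set.mem_range_self 1⟩⟩
    exact Nat.card_pos
  have h3 : Nat.card (fixSub β) ≤ Nat.card Cb := by
    have := h1.trans h2
    rw [mul_comm] at this
    exact Nat.le_of_mul_le_mul_right this hpos
  have hle : Cb ≤ fixSub β := fun c hc => hC c hc
  have heq : Cb = fixSub β := Subgroup.eq_of_le_of_card_ge hle h3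
  intro q hq
  rw [heq]
  exact hq

/-- Let G be a finite group and α an automorphism of G such that every element of G is the product of an element fixed by α and an element of the form g⁻¹α(g). If N is a normal α-invariant subgroup, then the automorphism ᾱ induced on G/N has the same property, and every coset fixed by ᾱ contains an element fixed by α (so the fixed points of ᾱ are the images of the fixed points of α). -/
theorem result {G : Type*} [Group G] [Finite G] (α : MulAut G)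
    (hccp : ∀ x : G, ∃ c g : G, α c = c ∧ x = c * (g⁻¹ * α g))
    (N : Subgroup G) [N.Normal] (hN : ∀ n ∈ N, α n ∈ N) :
    (∀ x : G, ∃ c g : G, c⁻¹ * α c ∈ N ∧ x⁻¹ * (c * (g⁻¹ * α g)) ∈ N) ∧
    (∀ x : G, x⁻¹ * α x ∈ N → ∃ c : G, α c = c ∧ c⁻¹ * x ∈ N) := by
  constructor
  · intro x
    obtain ⟨c, g, hc, hx⟩ := hccp x
    refine ⟨c, g, ?_, ?_⟩
    · rw [hc]; simp
    · rw [← hx]; simp
  · intro x hx
    have hN' : N ≤ N.comap (α : G →* G) := fun n hn => hN n hn
    set β : G ⧸ N →* G ⧸ N := QuotientGroup.map N N (α : G →* G) hN' with hβ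
    have hβmk : ∀ g : G, β (QuotientGroup.mk g) = QuotientGroup.mk (α g) := by
      intro g
      rfl
    set Cb : Subgroup (G ⧸ N) := (fixSub (α : G →* G)).map (QuotientGroup.mk' N) with hCb
    have key := fix_le β Cb ?_ ?_ (QuotientGroup.mk x) ?_
    · rw [hCb, Subgroup.mem_map] at key
      obtain ⟨c, hc, hcx⟩ := key
      refine ⟨c, hc, ?_⟩
      exact QuotientGroup.eq.mp hcx
    · rintro _ ⟨c, hc, rfl⟩
      rw [QuotientGroup.mk'_apply, hβmk]
      congr 1
    · intro q
      obtain ⟨y, rfl⟩ := QuotientGroup.mk_surjective q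
      obtain ⟨c, g, hc, hy⟩ := hccp y
      refine ⟨QuotientGroup.mk c, ⟨c, hc, rfl⟩, QuotientGroup.mk g, ?_⟩
      rw [hβmk, hy]
      rfl
    · rw [hβmk]
      symm
      exact QuotientGroup.eq.mpr hx

end Cfsg.Agent.S4154
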