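import Cfsg.Statements.S4156

set_option autoImplicit false
open Cfsg

namespace Cfsg.Agent.S4156

open Matrix

variable (n : ℕ) (F : Type*) [Field F]

/-- Permutation matrix. -/
def pm (σ : Equiv.Perm (Fin (n + 1))) : Matrix (Fin (n + 1)) (Fin (n + 1)) F :=
  Matrix.of fun a b => if σ b = a then 1 else 0

/-- Restriction to the first `n` coordinates. -/
def rr : Matrix (Fin n) (Fin (n + 1)) F :=
  Matrix.of fun i a => if a = Fin.castSucc i then 1 else 0

/-- Embedding of the deleted module: columns `e_j - e_last`. -/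
def ee : Matrix (Fin (n + 1)) (Fin n) F :=
  Matrix.of fun a j => (if a = Fin.castSucc j then 1 else 0) - (if a = Fin.last n then 1 else 0)

/-- The matrix with ones in the last row. -/
def jj : Matrix (Fin (n + 1)) (Fin (n + 1)) F :=
  Matrix.of fun a _ => if a = Fin.last n then 1 else 0

theorem pm_apply (σ : Equiv.Perm (Fin (n + 1))) (a b : Fin (n + 1)) :
    pm n F σ a b = if σ b = a then 1 else 0 := rfl

theorem rr_apply (i : Fin n) (a : Fin (n + 1)) :
    rr n F i a = if a = Fin.castSucc i then 1 else 0 := rfl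

theorem ee_apply (a : Fin (n + 1)) (j : Fin n) :
    ee n F a j = (if a = Fin.castSucc j then 1 else 0) - (if a = Fin.last n then 1 else 0) := rfl

theorem jj_apply (a b : Fin (n + 1)) :
    jj n F a b = if a = Fin.last n then 1 else 0 := rfl

theorem pm_one : pm n F 1 = 1 := by
  ext a b
  rw [pm_apply, Matrix.one_apply]
  simp [eq_comm]

theorem pm_mul (σ τ : Equiv.Perm (Fin (n + 1))) :
    pm n F (σ * τ) = pm n F σ * pm n F τ := by
  ext a c
  rw [Matrix.mul_apply, pm_apply]
  simp only [pm_apply, mul_ite, mul_one, mul_zero, Finset.sum_ite_eq, Finset.mem_univ, if_true]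
  rfl

theorem rr_mul {m : Type*} [Fintype m] (X : Matrix (Fin (n + 1)) m F) (i : Fin n) (b : m) :
    (rr n F * X) i b = X (Fin.castSucc i) b := by
  rw [Matrix.mul_apply]
  simp only [rr_apply, ite_mul, one_mul, zero_mul, Finset.sum_ite_eq', Finset.mem_univ, if_true]

theorem mul_ee {m : Type*} [Fintype m] (X : Matrix m (Fin (n + 1)) F) (a : m) (j : Fin n) :
    (X * ee n F) a j = X a (Fin.castSucc j) - X a (Fin.last n) := by
  rw [Matrix.mul_apply]
  simp only [ee_apply, mul_sub, Finset.sum_sub_distrib, mul_ite, mul_one, mul_zero,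
    Finset.sum_ite_eq', Finset.mem_univ, if_true]

theorem rr_mul_ee : rr n F * ee n F = 1 := by
  ext i j
  rw [rr_mul, ee_apply, Matrix.one_apply]
  have h1 : (Fin.castSucc i = Fin.castSucc j) ↔ i = j := Fin.castSucc_inj
  have h2 : ¬ (Fin.castSucc i = Fin.last n) := Fin.castSucc_ne_last i
  simp [h1, h2]

theorem ee_mul_rr : ee n F * rr n F = 1 - jj n F := by
  ext a b
  rw [Matrix.mul_apply, Matrix.sub_apply, Matrix.one_apply, jj_apply]
  simp only [ee_apply, rr_apply]
  induction b using Fin.lastCases with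
  | last =>
    have : ∀ j : Fin n, ¬ (Fin.last n = Fin.castSucc j) := fun j h => Fin.castSucc_ne_last j h.symm
    simp [this]
  | cast j₀ =>
    have : ∀ j : Fin n, (Fin.castSucc j₀ = Fin.castSucc j) ↔ j₀ = j := fun j => Fin.castSucc_inj
    simp only [this, mul_ite, mul_one, mul_zero, Finset.sum_ite_eq, Finset.mem_univ, if_true]

theorem jj_mul_pm (τ : Equiv.Perm (Fin (n + 1))) : jj n F * pm n F τ = jj n F := by
  ext a c
  rw [Matrix.mul_apply, jj_apply]
  simp only [jj_apply, pm_apply, mul_ite, mul_one, mul_zero, Finset.sum_ite_eq, Finset.mem_univ,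
    if_true]

theorem jj_mul_ee : jj n F * ee n F = 0 := by
  ext a j
  rw [mul_ee, jj_apply, jj_apply]
  simp

/-- The deleted permutation representation as matrices. -/
def mm (σ : Equiv.Perm (Fin (n + 1))) : Matrix (Fin n) (Fin n) F :=
  rr n F * pm n F σ * ee n F

theorem mm_one : mm n F 1 = 1 := by
  rw [mm, pm_one, Matrix.mul_one, rr_mul_ee]

theorem mm_mul (σ τ : Equiv.Perm (Fin (n + 1))) :
    mm n F (σ * τ) = mm n F σ * mm n F τ := by
  have h : mm n F σ * mm n F τ = rr n F * pm n F σ * (ee n F * rr n F) * pm n F τ * ee n F := by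
    simp only [mm, Matrix.mul_assoc]
  rw [h, ee_mul_rr, Matrix.mul_sub, Matrix.mul_one, Matrix.sub_mul, Matrix.sub_mul, mm, pm_mul]
  have h2 : rr n F * pm n F σ * jj n F * pm n F τ * ee n F = 0 := by
    rw [Matrix.mul_assoc (rr n F * pm n F σ) (jj n F) (pm n F τ), jj_mul_pm, Matrix.mul_assoc,
      jj_mul_ee, Matrix.mul_zero]
  rw [h2, sub_zero, Matrix.mul_assoc (rr n F) (pm n F σ) (pm n F τ)]

theorem mm_apply (σ : Equiv.Perm (Fin (n + 1))) (i j : Fin n) :
    mm n F σ i j =
      (if σ (Fin.castSucc j) = Fin.castSucc i then 1 else 0) -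
        (if σ (Fin.last n) = Fin.castSucc i then 1 else 0) := by
  rw [mm, mul_ee, rr_mul, rr_mul, pm_apply, pm_apply]

/-- The monoid hom into matrices. -/
def mmHom : Equiv.Perm (Fin (n + 1)) →* Matrix (Fin n) (Fin n) F where
  toFun := mm n F
  map_one' := mm_one n F
  map_mul' := mm_mul n F

theorem det_mm_alt (hn : 5 ≤ n) (σ : alternatingGroup (Fin (n + 1))) :
    (mm n F (σ : Equiv.Perm (Fin (n + 1)))).det = 1 := by
  set ψ : alternatingGroup (Fin (n + 1)) →* Fˣ :=
    ((Matrix.detMonoidHom (n := Fin n) (R := F)).comp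
      ((mmHom n F).comp (alternatingGroup (Fin (n + 1))).subtype)).toHomUnits with hψ
  have hker : commutator (alternatingGroup (Fin (n + 1))) ≤ ψ.ker :=
    Abelianization.commutator_subset_ker ψ
  have hperf : commutator (alternatingGroup (Fin (n + 1))) = ⊤ :=
    commutator_alternatingGroup_eq_top (by simp; omega)
  have hσ : σ ∈ ψ.ker := hker (by rw [hperf]; trivial)
  rw [MonoidHom.mem_ker] at hσ
  have := congrArg Units.val hσ
  simpa [hψ, mmHom] using this

/-- The homomorphism into `SL`. -/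
def slHom (hn : 5 ≤ n) : alternatingGroup (Fin (n + 1)) →* Matrix.SpecialLinearGroup (Fin n) F where
  toFun σ := ⟨mm n F (σ : Equiv.Perm (Fin (n + 1))), det_mm_alt n F hn σ⟩
  map_one' := by
    apply Subtype.ext
    exact mm_one n F
  map_mul' σ τ := by
    apply Subtype.ext
    exact mm_mul n F _ _

/-- Let n ≥ 5 and F a finite field. Then the projective special linear group PSL_n(F) contains a subgroup isomorphic to the alternating group of degree n + 1. -/
theorem result (n : ℕ) (hn : 5 ≤ n) (F : Type*) [Field F] [Finite F] :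
    ∃ f : alternatingGroup (Fin (n + 1)) →* Matrix.ProjectiveSpecialLinearGroup (Fin n) F, Function.Injective f := by
  set f : alternatingGroup (Fin (n + 1)) →* Matrix.ProjectiveSpecialLinearGroup (Fin n) F :=
    (QuotientGroup.mk' (Subgroup.center (Matrix.SpecialLinearGroup (Fin n) F))).comp
      (slHom n F hn) with hf
  refine ⟨f, ?_⟩
  rw [← MonoidHom.ker_eq_bot_iff]
  have hsimple : IsSimpleGroup (alternatingGroup (Fin (n + 1))) :=
    alternatingGroup.isSimpleGroup (by simp; omega)
  rcases (MonoidHom.normal_ker f).eq_bot_or_eq_top with h | h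
  · exact h
  · exfalso
    -- a 3-cycle
    set a : Fin (n + 1) := Fin.castSucc (⟨0, by omega⟩ : Fin n) with ha
    set b : Fin (n + 1) := Fin.castSucc (⟨1, by omega⟩ : Fin n) with hb
    set c : Fin (n + 1) := Fin.castSucc (⟨2, by omega⟩ : Fin n) with hc
    have hab : a ≠ b := by
      intro h; have := Fin.castSucc_inj.mp h; simp [Fin.ext_iff] at this
    have hac : a ≠ c := by
      intro h; have := Fin.castSucc_inj.mp h; simp [Fin.ext_iff] at this
    have hbc : b ≠ c := by
      intro h; have := Fin.castSucc_inj.mp h; simp [Fin.ext_iff] at this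
    have hla : Fin.last n ≠ a := (Fin.castSucc_ne_last _).symm
    have hlb : Fin.last n ≠ b := (Fin.castSucc_ne_last _).symm
    have hlc : Fin.last n ≠ c := (Fin.castSucc_ne_last _).symm
    set σ : Equiv.Perm (Fin (n + 1)) := Equiv.swap a b * Equiv.swap b c with hσ
    have hσmem : σ ∈ alternatingGroup (Fin (n + 1)) := by
      rw [Equiv.Perm.mem_alternatingGroup, hσ, map_mul, Equiv.Perm.sign_swap hab,
        Equiv.Perm.sign_swap hbc]
      simp
    have hσa : σ a = b := by
      rw [hσ, Equiv.Perm.mul_apply, Equiv.swap_apply_of_ne_of_ne hab hac, Equiv.swap_apply_left]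
    have hσl : σ (Fin.last n) = Fin.last n := by
      rw [hσ, Equiv.Perm.mul_apply, Equiv.swap_apply_of_ne_of_ne hlb hlc,
        Equiv.swap_apply_of_ne_of_ne hla hlb]
    have hmem : (⟨σ, hσmem⟩ : alternatingGroup (Fin (n + 1))) ∈ f.ker := by rw [h]; trivial
    rw [MonoidHom.mem_ker, hf, MonoidHom.comp_apply, QuotientGroup.mk'_apply,
      QuotientGroup.eq_one_iff, Matrix.SpecialLinearGroup.mem_center_iff] at hmem
    obtain ⟨r, _, hr⟩ := hmem
    have hentry := congrFun (congrFun hr (⟨1, by omega⟩ : Fin n)) (⟨0, by omega⟩ : Fin n)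
    have h10 : (⟨1, by omega⟩ : Fin n) ≠ ⟨0, by omega⟩ := by simp [Fin.ext_iff]
    have hval : ((slHom n F hn ⟨σ, hσmem⟩ : Matrix.SpecialLinearGroup (Fin n) F) :
        Matrix (Fin n) (Fin n) F) ⟨1, by omega⟩ ⟨0, by omega⟩ = 1 := by
      show mm n F σ ⟨1, by omega⟩ ⟨0, by omega⟩ = 1
      rw [mm_apply, ← ha, ← hb, hσa, hσl]
      simp [hlb]
    rw [hval] at hentry
    simp [Matrix.scalar_apply, h10] at hentry

end Cfsg.Agent.S4156
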