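import Cfsg.Statements.S4169
import Cfsg.Agent.H73.IsaacsB
import Cfsg.Agent.S0015

set_option autoImplicit false
open Cfsg

namespace Cfsg.Agent.S4169

open scoped commutatorElement

/-- Let P be a finite p-group whose conjugacy classes have exactly two sizes (1 and one other value). Then P has nilpotency class at most 3. -/
theorem result {P : Type*} [Group P] [Finite P] {p : ℕ} [Fact p.Prime] (hP : IsPGroup p P)
    (m : ℕ) (hm : 1 < m) (h : ∀ x : P, (Subgroup.centralizer ({x} : Set P)).index = 1 ∨ (Subgroup.centralizer ({x} : Set P)).index = m) :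
    upperCentralSeries P 3 = ⊤ := by
  have hnil : Group.IsNilpotent P := hP.isNilpotent
  -- a maximal normal abelian subgroup
  let T := {M : Subgroup P // M.Normal ∧ IsMulCommutative M}
  have hne : Nonempty T := ⟨⟨⊥, inferInstance, inferInstance⟩⟩
  obtain ⟨⟨A, hAn, hAc⟩, hAmax⟩ := Finite.exists_max (fun M : T => Nat.card (M.1 : Subgroup P))
  have hmax : ∀ M : Subgroup P, M.Normal → IsMulCommutative M → A ≤ M → M = A := by
    intro M hMn hMc hAM
    have := hAmax ⟨M, hMn, hMc⟩
    exact (Subgroup.eq_of_le_of_card_ge hAM this).symm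
  have hCA : Subgroup.centralizer (A : Set P) = A := Cfsg.Agent.S0015.result A hmax
  have key := Cfsg.Agent.H73.class_le_three_of_comm_central A hCA Set.univ (by
    intro x _ a ha
    rcases h x with hx | hx
    · have hxc : x ∈ Subgroup.center P := by
        rw [Subgroup.index_eq_one, Subgroup.centralizer_eq_top_iff_subset] at hx
        exact hx (Set.mem_singleton x)
      have e : ⁅a, x⁆ = 1 := by
        rw [commutatorElement_eq_one_iff_mul_comm]
        exact Subgroup.mem_center_iff.mp hxc a
      rw [e]; exact Subgroup.one_mem _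
    · refine Cfsg.Agent.H73.isaacs_comm_mem_center A hAc x ?_ a ha
      intro y hy
      rcases h y with hy' | hy'
      · omega
      · rw [hx, hy'])
  rw [Subgroup.closure_univ] at key
  exact Subgroup.lowerCentralSeries_eq_bot_iff_upperCentralSeries_eq_top.mp key

end Cfsg.Agent.S4169
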