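import Cfsg.Statements.S4172
import Cfsg.Agent.H74.FStarMinD

set_option autoImplicit false
open Cfsg

namespace Cfsg.Agent.S4172

/-- Let p be a prime and G a finite group with a non-commutative Sylow p-subgroup P whose Frattini subgroup has index p² in P (P is generated by two elements). Suppose G has no nontrivial normal subgroup of order prime to p and the Frattini subgroup of P contains no nontrivial normal subgroup of G. Then the generalized Fitting subgroup F*(G) is the unique minimal normal subgroup of G, the image of P in G/F*(G) is cyclic, and if F*(G) is not commutative then P permutes the components of G transitively by conjugation. -/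
theorem result {G : Type*} [Group G] [Finite G] (p : ℕ) [Fact p.Prime] (P : Sylow p G) (hna : ¬ IsMulCommutative (P : Subgroup G)) (hgen : (frattini ↥(P : Subgroup G)).index = p ^ 2) (hcore : Cfsg.pPrimeCore p G = ⊥) (hfrat : ((frattini ↥(P : Subgroup G)).map (P : Subgroup G).subtype).normalCore = ⊥) [hFn : (Cfsg.generalizedFittingSubgroup G).Normal] :
    (Cfsg.generalizedFittingSubgroup G ≠ ⊥ ∧ ∀ K : Subgroup G, K.Normal → K ≠ ⊥ → Cfsg.generalizedFittingSubgroup G ≤ K) ∧
      IsCyclic ↥((P : Subgroup G).map (QuotientGroup.mk' (Cfsg.generalizedFittingSubgroup G))) ∧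
      (¬ IsMulCommutative (Cfsg.generalizedFittingSubgroup G) → ∀ K L : Subgroup G, Cfsg.IsComponent K → Cfsg.IsComponent L → ∃ x ∈ (P : Subgroup G), L = K.map (MulAut.conj x).toMonoidHom) := by
  have H : Cfsg.Agent.H74.FSM.Hyp P := ⟨hna, hgen, hcore, hfrat⟩
  obtain ⟨N, hNn, hN, hmin⟩ := H.exists_min
  obtain ⟨hle, hcase⟩ := H.genFitting_le N hN hmin
  refine ⟨⟨H.genFitting_ne_bot, fun K hKn hK => hle.trans (hmin K hKn hK)⟩, ?_, ?_⟩
  · have hn : ((Cfsg.generalizedFittingSubgroup G).subgroupOf (P : Subgroup G)).Normal :=
      Subgroup.normal_subgroupOf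
    have hc := H.isCyclic_quotient (Cfsg.generalizedFittingSubgroup G)
      (H.not_inf_le_Phi (Cfsg.generalizedFittingSubgroup G) H.genFitting_ne_bot)
    have hker : (Cfsg.generalizedFittingSubgroup G).subgroupOf (P : Subgroup G) ≤
        ((QuotientGroup.mk' (Cfsg.generalizedFittingSubgroup G)).subgroupMap
          (P : Subgroup G)).ker := by
      intro x hx
      rw [MonoidHom.mem_ker]
      apply Subtype.ext
      show QuotientGroup.mk' (Cfsg.generalizedFittingSubgroup G) (x : G) = 1
      rw [QuotientGroup.mk'_apply, QuotientGroup.eq_one_iff]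
      exact Subgroup.mem_subgroupOf.1 hx
    have hsurj : Function.Surjective (QuotientGroup.lift
        ((Cfsg.generalizedFittingSubgroup G).subgroupOf (P : Subgroup G))
        ((QuotientGroup.mk' (Cfsg.generalizedFittingSubgroup G)).subgroupMap
          (P : Subgroup G)) hker) := by
      intro y
      obtain ⟨x, rfl⟩ := MonoidHom.subgroupMap_surjective
        (QuotientGroup.mk' (Cfsg.generalizedFittingSubgroup G)) (P : Subgroup G) y
      exact ⟨QuotientGroup.mk x, rfl⟩
    exact isCyclic_of_surjective _ hsurj
  · intro _ K L hK hL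
    have hF : Cfsg.fittingSubgroup G = ⊥ := by
      rcases hcase with h | h
      · exact absurd hK (Cfsg.Agent.H28.layer_eq_bot_iff.1 h K)
      · exact h
    exact H.exists_conj_of_components hF hK hL

end Cfsg.Agent.S4172
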