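import Cfsg.Statements.S4177
import Cfsg.Agent.H73.Act

set_option autoImplicit false
open Cfsg

namespace Cfsg.Agent.S4177

open Cfsg.Agent.H73

/-- Core averaging lemma: a subgroup `K` of invertible order, transitive on the spanning orbit of
`a`, has its fixed vectors inside the span of an `H`-invariant vector. -/
theorem core {k V H : Type*} [Field k] [AddCommGroup V] [Module k V] [Group H] [Finite H]
    (ρ : Representation k H V) (a : V)
    (hspan : Submodule.span k {u : V | ∃ h : H, ρ h a = u} = ⊤)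
    (hO : (Nat.card {u : V | ∃ h : H, ρ h a = u} : k) ≠ 0)
    (K : Subgroup H) (hK : (Nat.card K : k) ≠ 0)
    (htrans : ∀ h : H, ∃ c ∈ K, ρ c a = ρ h a) :
    ∃ s : V, (∀ h : H, ρ h s = s) ∧ ∀ v : V, (∀ c ∈ K, ρ c v = v) → v ∈ Submodule.span k {s} := by
  classical
  have hfin : Set.Finite {u : V | ∃ h : H, ρ h a = u} := Set.finite_range (fun h : H => ρ h a)
  let _ : Fintype K := Fintype.ofFinite K
  set O : Finset V := hfin.toFinset with hOdef
  have hmemO : ∀ u : V, u ∈ O ↔ ∃ h : H, ρ h a = u := by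
    intro u; rw [hOdef, Set.Finite.mem_toFinset]; rfl
  set A : V →ₗ[k] V := ∑ c : K, ρ (c : H) with hA
  have hAapp : ∀ v : V, A v = ∑ c : K, ρ (c : H) v := by
    intro v; rw [hA, LinearMap.sum_apply]
  set sK : V := A a with hsK
  -- A is constant on the orbit
  have hconst : ∀ u ∈ O, A u = sK := by
    intro u hu
    obtain ⟨h, rfl⟩ := (hmemO u).mp hu
    obtain ⟨c₀, hc₀, hc₀a⟩ := htrans h
    rw [← hc₀a, hsK, hAapp, hAapp]
    have : ∀ c : K, ρ (c : H) (ρ c₀ a) = ρ ((c * ⟨c₀, hc₀⟩ : K) : H) a := by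
      intro c
      rw [Subgroup.coe_mul, map_mul]
      rfl
    simp_rw [this]
    exact Fintype.sum_equiv (Equiv.mulRight (⟨c₀, hc₀⟩ : K)) _ _ (fun c => rfl)
  -- A on K-fixed vectors
  have hfix : ∀ v : V, (∀ c ∈ K, ρ c v = v) → A v = (Nat.card K : k) • v := by
    intro v hv
    rw [hAapp]
    have : ∀ c : K, ρ (c : H) v = v := fun c => hv c c.2
    simp_rw [this]
    rw [Finset.sum_const, Finset.card_univ, Nat.card_eq_fintype_card, Nat.cast_smul_eq_nsmul]
  -- the orbit sum
  set σ : V := ∑ o ∈ O, o with hσ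
  have hσinv : ∀ g : H, ρ g σ = σ := by
    intro g
    rw [hσ, map_sum]
    apply Finset.sum_nbij' (fun o => ρ g o) (fun o => ρ g⁻¹ o)
    · intro o ho
      obtain ⟨h, rfl⟩ := (hmemO o).mp ho
      exact (hmemO _).mpr ⟨g * h, by rw [map_mul]; rfl⟩
    · intro o ho
      obtain ⟨h, rfl⟩ := (hmemO o).mp ho
      exact (hmemO _).mpr ⟨g⁻¹ * h, by rw [map_mul]; rfl⟩
    · intro o _
      have : ρ g⁻¹ (ρ g o) = (ρ g⁻¹ * ρ g) o := rfl
      rw [this, ← map_mul, inv_mul_cancel, map_one]; rfl
    · intro o _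
      have : ρ g (ρ g⁻¹ o) = (ρ g * ρ g⁻¹) o := rfl
      rw [this, ← map_mul, mul_inv_cancel, map_one]; rfl
    · intro o _; rfl
  have hcardO : Nat.card {u : V | ∃ h : H, ρ h a = u} = O.card := by
    rw [hOdef, Nat.card_eq_card_finite_toFinset hfin]
  have h1 : A σ = (O.card : k) • sK := by
    rw [hσ, map_sum, Finset.sum_congr rfl hconst, Finset.sum_const, Nat.cast_smul_eq_nsmul]
  have h2 : A σ = (Nat.card K : k) • σ := hfix σ (fun c _ => hσinv c)
  have hsKeq : sK = ((O.card : k)⁻¹ * (Nat.card K : k)) • σ := by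
    rw [hcardO] at hO
    rw [mul_smul, ← h2, h1, smul_smul, inv_mul_cancel₀ hO, one_smul]
  refine ⟨σ, hσinv, ?_⟩
  intro v hv
  have h3 : A v ∈ Submodule.span k {sK} := by
    have hv' : v ∈ Submodule.span k {u : V | ∃ h : H, ρ h a = u} := by rw [hspan]; trivial
    have : A v ∈ (Submodule.span k {u : V | ∃ h : H, ρ h a = u}).map A :=
      Submodule.mem_map_of_mem hv'
    rw [Submodule.map_span] at this
    refine Submodule.span_mono ?_ this
    rintro _ ⟨u, hu, rfl⟩
    rw [Set.mem_singleton_iff]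
    exact hconst u ((hmemO u).mpr hu)
  rw [hfix v hv] at h3
  have h4 : v ∈ Submodule.span k {sK} := by
    have := Submodule.smul_mem _ ((Nat.card K : k)⁻¹) h3
    rwa [smul_smul, inv_mul_cancel₀ hK, one_smul] at this
  rw [hsKeq] at h4
  obtain ⟨c, rfl⟩ := Submodule.mem_span_singleton.mp h4
  rw [smul_smul]
  exact Submodule.smul_mem _ _ (Submodule.mem_span_singleton_self σ)

/-- Let k be a field whose characteristic does not divide the order of the finite group H (for instance a field of characteristic zero), and ρ a k-linear representation of H on V. Let a be a vector whose H-orbit spans V. Then the space of H-fixed vectors has dimension at most 1, and every vector b whose H-orbit has size coprime to the size of the orbit of a is fixed by H. -/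
theorem result {k V H : Type*} [Field k] [AddCommGroup V] [Module k V] [Group H] [Finite H]
    (hchar : ¬ ringChar k ∣ Nat.card H) (ρ : Representation k H V) (a : V)
    (hspan : Submodule.span k {u : V | ∃ h : H, ρ h a = u} = ⊤) :
    Module.finrank k ρ.invariants ≤ 1 ∧
    ∀ b : V, (Nat.card {u : V | ∃ h : H, ρ h a = u}).Coprime (Nat.card {u : V | ∃ h : H, ρ h b = u}) → ∀ h : H, ρ h b = b := by
  classical
  have hH : (Nat.card H : k) ≠ 0 := fun h0 => hchar ((ringChar.spec k _).mp h0)
  have hdvd : ∀ d : ℕ, d ∣ Nat.card H → (d : k) ≠ 0 := by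
    rintro d ⟨e, he⟩ hd
    apply hH
    rw [he, Nat.cast_mul, hd, zero_mul]
  let _ : MulAction H V := MulAction.compHom V (ρ : H →* Module.End k V)
  have hsmul : ∀ (h : H) (v : V), h • v = ρ h v := fun h v => rfl
  have horb : ∀ v : V, MulAction.orbit H v = {u : V | ∃ h : H, ρ h v = u} := by
    intro v; rfl
  have hO : (Nat.card {u : V | ∃ h : H, ρ h a = u} : k) ≠ 0 := by
    apply hdvd
    rw [← horb, Nat.card_coe_set_eq, ← MulAction.index_stabilizer]
    exact Subgroup.index_dvd_card _
  constructor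
  · obtain ⟨s, _, hs⟩ := core ρ a hspan hO ⊤ (by rw [Subgroup.card_top]; exact hH)
      (fun h => ⟨h, Subgroup.mem_top h, rfl⟩)
    have hle : ρ.invariants ≤ Submodule.span k {s} := by
      intro v hv
      exact hs v (fun c _ => (Representation.mem_invariants ρ v).mp hv c)
    refine (Submodule.finrank_mono hle).trans ?_
    exact (finrank_span_le_card ({s} : Set V)).trans (by simp)
  · intro b hcop h
    rw [← horb, ← horb] at hcop
    obtain ⟨s, hsinv, hs⟩ := core ρ a hspan hO (MulAction.stabilizer H b)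
      (hdvd _ (Subgroup.card_subgroup_dvd_card _))
      (fun h => by
        obtain ⟨c, hc, hca⟩ := exists_stab_smul_eq_of_coprime a b hcop h
        exact ⟨c, hc, hca⟩)
    have hb := hs b (fun c hc => MulAction.mem_stabilizer_iff.mp hc)
    obtain ⟨c, rfl⟩ := Submodule.mem_span_singleton.mp hb
    rw [map_smul, hsinv]

end Cfsg.Agent.S4177
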