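import Cfsg.Statements.S4176
import Cfsg.Agent.S4177
import Cfsg.Agent.S3744
import Cfsg.Agent.H73.PSolv

set_option autoImplicit false
open Cfsg

namespace Cfsg.Agent.S4176

open Cfsg.Agent.H73

/-- Let k be a field of prime characteristic p, H a finite p-soluble group and ρ a k-linear representation of H on V. Let a be a vector that is fixed by some Sylow p-subgroup of H and whose H-orbit spans V. Then the space of H-fixed vectors has dimension at most 1, and every vector b whose H-orbit has size coprime to the size of the orbit of a is fixed by H. -/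
theorem result {k V H : Type*} [Field k] (p : ℕ) [Fact p.Prime] [CharP k p] [AddCommGroup V] [Module k V]
    [Group H] [Finite H] (hsol : Cfsg.IsPSolvable p H) (ρ : Representation k H V) (a : V)
    (hfix : ∃ P : Sylow p H, ∀ x : H, x ∈ (P : Subgroup H) → ρ x a = a)
    (hspan : Submodule.span k {u : V | ∃ h : H, ρ h a = u} = ⊤) :
    Module.finrank k ρ.invariants ≤ 1 ∧
    ∀ b : V, (Nat.card {u : V | ∃ h : H, ρ h a = u}).Coprime (Nat.card {u : V | ∃ h : H, ρ h b = u}) → ∀ h : H, ρ h b = b := by
  classical
  have hp : p.Prime := Fact.out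
  let _ : MulAction H V := MulAction.compHom V (ρ : H →* Module.End k V)
  have hsmul : ∀ (h : H) (v : V), h • v = ρ h v := fun h v => rfl
  have horb : ∀ v : V, MulAction.orbit H v = {u : V | ∃ h : H, ρ h v = u} := fun v => rfl
  obtain ⟨P, hPfix⟩ := hfix
  have hcast : ∀ d : ℕ, d.Coprime p → (d : k) ≠ 0 := by
    intro d hd h0
    have h1 : p ∣ d := (CharP.cast_eq_zero_iff k p d).mp h0
    have h2 : p ∣ Nat.gcd d p := Nat.dvd_gcd h1 dvd_rfl
    rw [hd] at h2
    exact hp.one_lt.ne' (Nat.dvd_one.mp h2)
  have hOa : (Nat.card (MulAction.orbit H a)).Coprime p := by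
    rw [Nat.card_coe_set_eq, ← MulAction.index_stabilizer]
    have hle : (P : Subgroup H) ≤ MulAction.stabilizer H a := fun x hx => hPfix x hx
    have hdvd : (MulAction.stabilizer H a).index ∣ (P : Subgroup H).index :=
      Subgroup.index_dvd_of_le hle
    have hnd : ¬ p ∣ (P : Subgroup H).index := P.not_dvd_index
    exact Nat.Coprime.coprime_dvd_left hdvd ((Nat.Prime.coprime_iff_not_dvd hp).mpr hnd).symm
  have hO : (Nat.card {u : V | ∃ h : H, ρ h a = u} : k) ≠ 0 :=
    hcast _ (by rw [← horb]; exact hOa)
  constructor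
  · obtain ⟨K, hKc, n, hKn⟩ := (Cfsg.Agent.S3744.result hsol).1
    have htrans : ∀ h : H, ∃ c ∈ K, ρ c a = ρ h a := by
      intro h
      exact exists_mem_smul_eq_of_coprime_index a K
        (by rw [hKn]; exact Nat.Coprime.pow_right n hOa) h
    obtain ⟨s, _, hs⟩ := Cfsg.Agent.S4177.core ρ a hspan hO K (hcast _ hKc) htrans
    have hle : ρ.invariants ≤ Submodule.span k {s} := by
      intro v hv
      exact hs v (fun c _ => (Representation.mem_invariants ρ v).mp hv c)
    refine (Submodule.finrank_mono hle).trans ?_
    exact (finrank_span_le_card ({s} : Set V)).trans (by simp)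
  · intro b hcop h
    rw [← horb, ← horb] at hcop
    set B := MulAction.stabilizer H b with hB
    have hBsol : Cfsg.IsPSolvable p B := isPSolvable_subgroup hsol B
    obtain ⟨U, hUc, n, hUn⟩ := (Cfsg.Agent.S3744.result hBsol).1
    set K := U.map B.subtype with hK
    have hKle : K ≤ B := Subgroup.map_subtype_le U
    have hKcard : Nat.card K = Nat.card U :=
      Subgroup.card_map_of_injective B.subtype_injective
    have hKidx : K.index = p ^ n * Nat.card (MulAction.orbit H b) := by
      rw [hK, Subgroup.index_map_subtype, hUn, hB, MulAction.index_stabilizer,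
        Nat.card_coe_set_eq]
    have htrans : ∀ h : H, ∃ c ∈ K, ρ c a = ρ h a := by
      intro h
      exact exists_mem_smul_eq_of_coprime_index a K
        (by rw [hKidx]; exact Nat.Coprime.mul_right (Nat.Coprime.pow_right n hOa) hcop) h
    obtain ⟨s, hsinv, hs⟩ := Cfsg.Agent.S4177.core ρ a hspan hO K
      (hcast _ (by rw [hKcard]; exact hUc)) htrans
    have hb := hs b (fun c hc => MulAction.mem_stabilizer_iff.mp (hKle hc))
    obtain ⟨c, rfl⟩ := Submodule.mem_span_singleton.mp hb
    rw [map_smul, hsinv]

end Cfsg.Agent.S4176
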