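import Cfsg.Statements.S4178
import Cfsg.Agent.H97.EigOne

set_option autoImplicit false
open Cfsg

namespace Cfsg.Agent.S4178

/-- Let F be a finite field with q elements, V a non-zero finite-dimensional F-space of dimension d, H a group of invertible linear maps of V, and R the subgroup of H generated by the elements of H that fix some non-zero vector (have eigenvalue 1). Then the index of R in H is at most q^d − 1; and if H leaves invariant some proper non-zero subspace, the index is at most q^(d/2) − 1. -/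
theorem result {F V : Type*} [Field F] [Fintype F] [AddCommGroup V] [Module F V] [FiniteDimensional F V] [Nontrivial V]
    (H : Subgroup (V ≃ₗ[F] V)) :
    (Subgroup.closure {h : ↥H | ∃ v : V, v ≠ 0 ∧ (h : V ≃ₗ[F] V) v = v}).index ≤ Fintype.card F ^ Module.finrank F V - 1 ∧
    ((∃ W : Submodule F V, W ≠ ⊥ ∧ W ≠ ⊤ ∧ ∀ h ∈ H, ∀ w ∈ W, h w ∈ W) →
      ((Subgroup.closure {h : ↥H | ∃ v : V, v ≠ 0 ∧ (h : V ≃ₗ[F] V) v = v}).index : ℝ) ≤ Real.sqrt ((Fintype.card F : ℝ) ^ Module.finrank F V) - 1) := by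
  classical
  refine ⟨?_, ?_⟩
  · obtain ⟨v, hv⟩ := exists_ne (0 : V)
    have h := Cfsg.Agent.H97.eig_one_index_le_sub H ⊤ (fun _ _ _ _ => Submodule.mem_top) v
      Submodule.mem_top hv
    rw [finrank_top] at h
    omega
  · rintro ⟨W, hW0, hWtop, hWinv⟩
    have hq1 : (1 : ℝ) ≤ (Fintype.card F : ℝ) := by exact_mod_cast Fintype.card_pos
    have key : ∃ m : ℕ, 2 * m ≤ Module.finrank F V ∧
        (Subgroup.closure {h : ↥H | ∃ v : V, v ≠ 0 ∧ (h : V ≃ₗ[F] V) v = v}).index + 1
          ≤ Fintype.card F ^ m := by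
      by_cases hk : 2 * Module.finrank F W ≤ Module.finrank F V
      · obtain ⟨v, hvW, hv0⟩ := Submodule.exists_mem_ne_zero_of_ne_bot hW0
        exact ⟨_, hk, Cfsg.Agent.H97.eig_one_index_le_sub H W hWinv v hvW hv0⟩
      · obtain ⟨v, hv⟩ : ∃ v : V, v ∉ W := by
          by_contra hcon
          push Not at hcon
          exact hWtop (eq_top_iff.mpr (fun x _ => hcon x))
        have hle : Module.finrank F W ≤ Module.finrank F V := Submodule.finrank_le W
        exact ⟨_, by omega, Cfsg.Agent.H97.eig_one_index_le_quot H W hWinv v hv⟩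
    obtain ⟨m, hm, hidx⟩ := key
    have h1 : ((Subgroup.closure {h : ↥H | ∃ v : V, v ≠ 0 ∧ (h : V ≃ₗ[F] V) v = v}).index : ℝ) + 1
        ≤ (Fintype.card F : ℝ) ^ m := by exact_mod_cast hidx
    have h2 : (Fintype.card F : ℝ) ^ m
        ≤ Real.sqrt ((Fintype.card F : ℝ) ^ Module.finrank F V) := by
      apply (Real.le_sqrt (by positivity) (by positivity)).mpr
      rw [← pow_mul]
      exact pow_le_pow_right₀ hq1 (by omega)
    linarith

end Cfsg.Agent.S4178
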