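import Cfsg.Statements.S4184
import Cfsg.Agent.H73.Syl
import Cfsg.Agent.H73.Cover

set_option autoImplicit false
open Cfsg

namespace Cfsg.Agent.S4184

/-- The size of the conjugacy class of `g`, as the index of its centralizer. -/
noncomputable def cs (G : Type*) [Group G] (g : G) : ℕ :=
  (Subgroup.centralizer ({g} : Set G)).index

theorem card_mul_cs {G : Type*} [Group G] (g : G) :
    Nat.card (Subgroup.centralizer ({g} : Set G)) * cs G g = Nat.card G :=
  Subgroup.card_mul_index _

theorem cs_dvd {G : Type*} [Group G] (g : G) : cs G g ∣ Nat.card G :=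
  Dvd.intro_left _ (card_mul_cs g)

theorem cs_ne_zero {G : Type*} [Group G] [Finite G] (g : G) : cs G g ≠ 0 :=
  Subgroup.index_ne_zero_of_finite

theorem cs_fact {G : Type*} [Group G] [Finite G] (g : G) (q : ℕ) :
    (Nat.card (Subgroup.centralizer ({g} : Set G))).factorization q + (cs G g).factorization q
      = (Nat.card G).factorization q := by
  rw [← card_mul_cs g, Nat.factorization_mul Nat.card_pos.ne' (cs_ne_zero g), Finsupp.add_apply]

theorem cs_one_of_eq_one {G : Type*} [Group G] : cs G (1 : G) = 1 := by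
  unfold cs
  rw [Subgroup.index_eq_one, Subgroup.centralizer_eq_top_iff_subset]
  intro x hx
  rw [Set.mem_singleton_iff] at hx
  subst hx
  exact Subgroup.one_mem _

theorem cs_ne_one {G : Type*} [Group G] (hZ : Subgroup.center G = ⊥) (g : G) (hg : g ≠ 1) :
    cs G g ≠ 1 := by
  intro h
  unfold cs at h
  rw [Subgroup.index_eq_one, Subgroup.centralizer_eq_top_iff_subset] at h
  have : g ∈ Subgroup.center G := h (Set.mem_singleton g)
  rw [hZ, Subgroup.mem_bot] at this
  exact hg this

theorem cs_dvd_cs {G : Type*} [Group G] (x y : G)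
    (h : Subgroup.centralizer ({x} : Set G) ≤ Subgroup.centralizer ({y} : Set G)) :
    cs G y ∣ cs G x :=
  Subgroup.index_dvd_of_le h

theorem mem_cent_iff {G : Type*} [Group G] (x y : G) :
    x ∈ Subgroup.centralizer ({y} : Set G) ↔ Commute y x := by
  rw [Subgroup.mem_centralizer_iff]
  constructor
  · intro h; exact h y (Set.mem_singleton y)
  · intro h z hz; rw [Set.mem_singleton_iff] at hz; rw [hz]; exact h

theorem fact_le_of_dvd {a b : ℕ} (hb : b ≠ 0) (h : a ∣ b) (q : ℕ) :
    a.factorization q ≤ b.factorization q := by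
  have ha : a ≠ 0 := fun h0 => hb (by rw [h0] at h; exact Nat.eq_zero_of_zero_dvd h)
  exact (Nat.factorization_le_iff_dvd ha hb).mpr h q

/-- In `M`, an element whose order is divisible by a prime on one side of the prime graph
has class size with full part on the other side. -/
theorem typeM {M : Type*} [Group M] [Finite M] (S : ℕ → Prop)
    (hd : ∀ a b : ℕ, S a → ¬ S b → a.Prime → b.Prime → a ∣ Nat.card M → b ∣ Nat.card M →
      ¬ ∃ x : M, orderOf x = a * b)
    (x : M) (r : ℕ) (hr : r.Prime) (hrx : r ∣ orderOf x) (hrS : S r)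
    (q : ℕ) (hq : q.Prime) (hqS : ¬ S q) :
    (cs M x).factorization q = (Nat.card M).factorization q := by
  have hm : Nat.card M ≠ 0 := Nat.card_pos.ne'
  by_cases hqm : q ∣ Nat.card M
  · have hnd : ¬ q ∣ Nat.card (Subgroup.centralizer ({x} : Set M)) := by
      intro hdvd
      have : Fact q.Prime := ⟨hq⟩
      obtain ⟨y, hy⟩ := exists_prime_orderOf_dvd_card' q hdvd
      have hy' : orderOf (y : M) = q := by rw [Subgroup.orderOf_coe]; exact hy
      have hcomm : Commute (y : M) x := by
        have := Subgroup.mem_centralizer_iff.mp y.2 x (Set.mem_singleton x)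
        exact this.symm
      have hx0 : orderOf x ≠ 0 := (orderOf_pos x).ne'
      have hx' : orderOf (x ^ (orderOf x / r)) = r := orderOf_pow_orderOf_div hx0 hrx
      have hcomm' : Commute (x ^ (orderOf x / r)) (y : M) := (hcomm.pow_right _).symm
      have hne : r ≠ q := by
        intro h; rw [h] at hrS; exact hqS hrS
      have hcop : (orderOf (x ^ (orderOf x / r))).Coprime (orderOf (y : M)) := by
        rw [hx', hy']; exact (Nat.coprime_primes hr hq).mpr hne
      have hord := hcomm'.orderOf_mul_eq_mul_orderOf_of_coprime hcop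
      rw [hx', hy'] at hord
      exact hd r q hrS hqS hr hq (dvd_trans hrx (orderOf_dvd_natCard x)) hqm ⟨_, hord⟩
    have := cs_fact x q
    rw [Nat.factorization_eq_zero_of_not_dvd hnd, zero_add] at this
    exact this
  · rw [Nat.factorization_eq_zero_of_not_dvd hqm, Nat.factorization_eq_zero_of_not_dvd]
    intro h
    exact hqm (dvd_trans h (cs_dvd x))

/-- The core argument: on the side `S` of the prime graph, `#G` has no larger `p`-part than `m`. -/
theorem core {G : Type*} [Group G] [Finite G] (m : ℕ) (hm : m ≠ 0) (S : ℕ → Prop)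
    (h1 : ∀ g : G, g ≠ 1 →
      (∀ q : ℕ, q.Prime → S q → (cs G g).factorization q = m.factorization q) ∨
      (∀ q : ℕ, q.Prime → ¬ S q → (cs G g).factorization q = m.factorization q))
    (h2 : ∀ g : G, cs G g ∣ m)
    (h3 : ∀ g : G, cs G g ≠ m)
    (b : ℕ) (hb : b.Prime) (hbS : ¬ S b) (hbm : b ∣ m) (hmG : m ∣ Nat.card G)
    (p : ℕ) (hp : p.Prime) (hpS : S p) (hpm : p ∣ m) :
    (Nat.card G).factorization p ≤ m.factorization p := by
  by_contra hlt
  push Not at hlt
  have : Fact p.Prime := ⟨hp⟩
  have : Fact b.Prime := ⟨hb⟩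
  have hG0 : Nat.card G ≠ 0 := Nat.card_pos.ne'
  have hbp : b ≠ p := by
    intro h; rw [h] at hbS; exact hbS hpS
  -- general facts on factorizations of class sizes
  have hle : ∀ (g : G) (q : ℕ), (cs G g).factorization q ≤ m.factorization q :=
    fun g q => fact_le_of_dvd hm (h2 g) q
  -- the element `w`
  obtain ⟨Sb⟩ : Nonempty (Sylow b G) := inferInstance
  have hSb : (Sb : Subgroup G) ≠ ⊥ := Sb.ne_bot_of_dvd_card (dvd_trans hbm hmG)
  have : Nontrivial (Sb : Subgroup G) := (Subgroup.nontrivial_iff_ne_bot _).mpr hSb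
  have hcn := IsPGroup.center_nontrivial (Sb.isPGroup')
  obtain ⟨⟨w', hw'c⟩, hw'1⟩ := exists_ne (1 : Subgroup.center (Sb : Subgroup G))
  have hw1 : (w' : G) ≠ 1 := by
    intro h
    apply hw'1
    apply Subtype.ext
    apply Subtype.ext
    exact h
  obtain ⟨j, hj⟩ := Cfsg.Agent.H73.sylow_orderOf Sb (w' : G) w'.2
  have hSbw : (Sb : Subgroup G) ≤ Subgroup.centralizer ({(w' : G)} : Set G) := by
    intro x hx
    rw [Subgroup.mem_centralizer_iff]
    intro y hy
    rw [Set.mem_singleton_iff] at hy
    subst hy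
    have := Subgroup.mem_center_iff.mp hw'c ⟨x, hx⟩
    have h' := congrArg (Subtype.val) this
    simpa using h'.symm
  have hbw : ¬ b ∣ cs G (w' : G) := fun h =>
    Sb.not_dvd_index (dvd_trans h (Subgroup.index_dvd_of_le hSbw))
  have hwS : ∀ q : ℕ, q.Prime → S q → (cs G (w' : G)).factorization q = m.factorization q := by
    rcases h1 _ hw1 with h | h
    · exact h
    · exfalso
      have h' := h b hb hbS
      rw [Nat.factorization_eq_zero_of_not_dvd hbw] at h'
      have := hb.factorization_pos_of_dvd hm hbm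
      omega
  set w : G := (w' : G) with hwdef
  set C := Subgroup.centralizer ({w} : Set G) with hC
  -- the `p`-part of `#C`
  have hCp : (Nat.card C).factorization p + m.factorization p = (Nat.card G).factorization p := by
    have := cs_fact w p
    rw [hwS p hp hpS] at this
    exact this
  obtain ⟨T⟩ : Nonempty (Sylow p C) := inferInstance
  set T' : Subgroup G := (T : Subgroup C).map C.subtype with hT'
  have hT'card : Nat.card T' = p ^ (Nat.card C).factorization p := by
    rw [hT', Subgroup.card_map_of_injective C.subtype_injective, Sylow.card_eq_multiplicity]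
  have hT'p : IsPGroup p T' := T.isPGroup'.map _
  have hT'C : T' ≤ C := Subgroup.map_subtype_le _
  -- all nontrivial elements of `T'` have full `S`-part
  have hkey : ∀ u ∈ T', u ≠ 1 →
      ∀ q : ℕ, q.Prime → S q → (cs G u).factorization q = m.factorization q := by
    intro u hu hu1
    obtain ⟨k, hk⟩ := (IsPGroup.iff_orderOf.mp hT'p) ⟨u, hu⟩
    rw [Subgroup.orderOf_mk] at hk
    have hcomm : Commute u w := by
      have := Subgroup.mem_centralizer_iff.mp (hT'C hu) w (Set.mem_singleton w)
      exact this.symm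
    -- `w` and `u` are powers of `u * w`
    have hcop1 : (p ^ k).Coprime (orderOf w) := by
      rw [hj]
      exact Nat.Coprime.pow _ _ ((Nat.coprime_primes hp hb).mpr (Ne.symm hbp))
    have hcop2 : (b ^ j).Coprime (orderOf u) := by
      rw [hk]
      exact Nat.Coprime.pow _ _ ((Nat.coprime_primes hb hp).mpr hbp)
    obtain ⟨n1, hn1⟩ := exists_pow_eq_self_of_coprime hcop1
    obtain ⟨n2, hn2⟩ := exists_pow_eq_self_of_coprime hcop2
    have hpw : ((u * w) ^ (p ^ k)) ^ n1 = w := by
      rw [hcomm.mul_pow, ← hk, pow_orderOf_eq_one, one_mul, hk]; exact hn1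
    have hpu : ((u * w) ^ (b ^ j)) ^ n2 = u := by
      rw [hcomm.mul_pow, ← hj, pow_orderOf_eq_one, mul_one, hj]; exact hn2
    have huw1 : u * w ≠ 1 := by
      intro h
      rw [h, one_pow, one_pow] at hpw
      exact hw1 hpw.symm
    have hcw : Subgroup.centralizer ({u * w} : Set G) ≤ Subgroup.centralizer ({w} : Set G) := by
      intro x hx
      rw [mem_cent_iff] at hx ⊢
      have := (hx.pow_left (p ^ k)).pow_left n1
      rw [hpw] at this
      exact this
    have hcu : Subgroup.centralizer ({u * w} : Set G) ≤ Subgroup.centralizer ({u} : Set G) := by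
      intro x hx
      rw [mem_cent_iff] at hx ⊢
      have := (hx.pow_left (b ^ j)).pow_left n2
      rw [hpu] at this
      exact this
    have hd1 : cs G w ∣ cs G (u * w) := cs_dvd_cs _ _ hcw
    have hd2 : cs G u ∣ cs G (u * w) := cs_dvd_cs _ _ hcu
    have huwS : ∀ q : ℕ, q.Prime → S q → (cs G (u * w)).factorization q = m.factorization q := by
      intro q hq hqS
      have h5 := fact_le_of_dvd (cs_ne_zero (u * w)) hd1 q
      rw [hwS q hq hqS] at h5
      exact le_antisymm (hle _ q) h5
    rcases h1 u hu1 with h | h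
    · exact h
    · exfalso
      apply h3 (u * w)
      apply Nat.eq_of_factorization_eq (cs_ne_zero _) hm
      intro q
      by_cases hq : q.Prime
      · by_cases hqS : S q
        · exact huwS q hq hqS
        · have h5 := fact_le_of_dvd (cs_ne_zero (u * w)) hd2 q
          rw [h q hq hqS] at h5
          exact le_antisymm (hle _ q) h5
      · rw [Nat.factorization_eq_zero_of_not_prime _ hq, Nat.factorization_eq_zero_of_not_prime _ hq]
  -- `T` is a nontrivial `p`-group
  have hCpos : 0 < (Nat.card C).factorization p := by omega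
  have hTnt : Nontrivial (T : Subgroup C) := by
    rw [← Finite.one_lt_card_iff_nontrivial, Sylow.card_eq_multiplicity]
    exact Nat.one_lt_pow hCpos.ne' hp.one_lt
  have hcnT := IsPGroup.center_nontrivial (T.isPGroup')
  obtain ⟨⟨v', hv'c⟩, hv'1⟩ := exists_ne (1 : Subgroup.center (T : Subgroup C))
  set v : G := ((v' : C) : G) with hvdef
  have hvT' : v ∈ T' := by
    rw [hT']
    exact Subgroup.mem_map_of_mem _ v'.2
  have hv1 : v ≠ 1 := by
    intro h
    apply hv'1
    apply Subtype.ext
    apply Subtype.ext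
    apply Subtype.ext
    exact h
  have hvcomm : ∀ t ∈ T', Commute t v := by
    intro t ht
    rw [hT', Subgroup.mem_map] at ht
    obtain ⟨t0, ht0, rfl⟩ := ht
    have := Subgroup.mem_center_iff.mp hv'c ⟨t0, ht0⟩
    have h' := congrArg (fun z : (T : Subgroup C) => ((z : C) : G)) this
    have h'' : (t0 : G) * v = v * (t0 : G) := by simpa using h'
    exact h''
  have hvS := hkey v hvT' hv1
  have hKp : (Nat.card (Subgroup.centralizer ({v} : Set G))).factorization p
      = (Nat.card C).factorization p := by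
    have := cs_fact v p
    rw [hvS p hp hpS] at this
    omega
  set K := Subgroup.centralizer ({v} : Set G) with hK
  -- a Sylow `p`-subgroup of `G` containing `T'`
  obtain ⟨P, hP⟩ := hT'p.exists_le_sylow
  have hpG : p ∣ Nat.card G := by
    have : 0 < (Nat.card G).factorization p := by omega
    exact Nat.dvd_of_factorization_pos this.ne'
  have hPnb : (P : Subgroup G) ≠ ⊥ := P.ne_bot_of_dvd_card hpG
  have : Nontrivial (P : Subgroup G) := (Subgroup.nontrivial_iff_ne_bot _).mpr hPnb
  have hcnP := IsPGroup.center_nontrivial (P.isPGroup')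
  obtain ⟨⟨z', hz'c⟩, hz'1⟩ := exists_ne (1 : Subgroup.center (P : Subgroup G))
  set z : G := (z' : G) with hzdef
  have hz1 : z ≠ 1 := by
    intro h
    apply hz'1
    apply Subtype.ext
    apply Subtype.ext
    exact h
  have hzcomm : ∀ t ∈ (P : Subgroup G), Commute t z := by
    intro t ht
    have := Subgroup.mem_center_iff.mp hz'c ⟨t, ht⟩
    have h' := congrArg (Subtype.val) this
    have h'' : t * z = z * t := by simpa using h'
    exact h''
  -- `z ∈ T'`
  have hzT' : z ∈ T' := by
    set J := T' ⊔ Subgroup.zpowers z with hJ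
    have hJP : J ≤ (P : Subgroup G) := by
      rw [hJ]
      refine sup_le hP ?_
      rw [Subgroup.zpowers_le]
      exact z'.2
    have hJK : J ≤ K := by
      rw [hJ]
      refine sup_le ?_ ?_
      · intro t ht
        rw [hK, mem_cent_iff]
        exact (hvcomm t ht).symm
      · rw [Subgroup.zpowers_le, hK, mem_cent_iff]
        exact hzcomm v (hP hvT')
    have hJp : IsPGroup p J := P.isPGroup'.to_le hJP
    obtain ⟨n, hn⟩ := IsPGroup.iff_card.mp hJp
    have hdvd : p ^ n ∣ Nat.card K := by
      rw [← hn]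
      exact Subgroup.card_dvd_of_le hJK
    have hnle : n ≤ (Nat.card K).factorization p :=
      (hp.pow_dvd_iff_le_factorization Nat.card_pos.ne').mp hdvd
    have hcard : Nat.card J ≤ Nat.card T' := by
      rw [hn, hT'card, ← hKp]
      exact Nat.pow_le_pow_right hp.pos hnle
    have hTJ : T' = J := Subgroup.eq_of_le_of_card_ge le_sup_left hcard
    rw [hTJ, hJ]
    exact Subgroup.mem_sup_right (Subgroup.mem_zpowers z)
  have hzS := hkey z hzT' hz1 p hp hpS
  have hPz : (P : Subgroup G) ≤ Subgroup.centralizer ({z} : Set G) := by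
    intro t ht
    rw [mem_cent_iff]
    exact (hzcomm t ht).symm
  have hpz : ¬ p ∣ cs G z := fun h =>
    P.not_dvd_index (dvd_trans h (Subgroup.index_dvd_of_le hPz))
  rw [Nat.factorization_eq_zero_of_not_dvd hpz] at hzS
  have := hp.factorization_pos_of_dvd hm hpm
  omega

/-- Let G and M be finite groups with trivial centres and the same set of conjugacy class sizes, and suppose the prime graph of M is disconnected: the prime divisors of #M split into two non-empty parts such that M has no element of order pq with p in one part and q in the other. Then #G = #M. -/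
theorem result {G M : Type*}
    [Group G] [Finite G] [Group M] [Finite M] (hZG : Subgroup.center G = ⊥) (hZM : Subgroup.center M = ⊥)
    (h : Set.range (fun g : G => (Subgroup.centralizer ({g} : Set G)).index) = Set.range (fun g : M => (Subgroup.centralizer ({g} : Set M)).index))
    (hdisc : ∃ A : Set ℕ, (∃ a ∈ A, a.Prime ∧ a ∣ Nat.card M) ∧ (∃ b ∉ A, b.Prime ∧ b ∣ Nat.card M) ∧
      ∀ a ∈ A, ∀ b ∉ A, a.Prime → b.Prime → a ∣ Nat.card M → b ∣ Nat.card M → ¬ ∃ x : M, orderOf x = a * b) :
    Nat.card G = Nat.card M := by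
  have _ := hZM
  obtain ⟨A, ⟨a, haA, hap, ham⟩, ⟨b, hbA, hbp, hbm⟩, hd⟩ := hdisc
  have hm : Nat.card M ≠ 0 := Nat.card_pos.ne'
  have hG0 : Nat.card G ≠ 0 := Nat.card_pos.ne'
  -- the two forms of the hypothesis on `M`
  have hdA : ∀ a b : ℕ, a ∈ A → ¬ b ∈ A → a.Prime → b.Prime → a ∣ Nat.card M → b ∣ Nat.card M →
      ¬ ∃ x : M, orderOf x = a * b := fun a b ha hb => hd a ha b hb
  have hdB : ∀ a b : ℕ, a ∉ A → ¬ b ∉ A → a.Prime → b.Prime → a ∣ Nat.card M → b ∣ Nat.card M →
      ¬ ∃ x : M, orderOf x = a * b := by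
    intro a b ha hb hap hbp ham hbm ⟨x, hx⟩
    exact hd b (not_not.mp hb) a ha hbp hap hbm ham ⟨x, by rw [hx, mul_comm]⟩
  -- transfer between class sizes
  have hGM : ∀ g : G, ∃ x : M, cs M x = cs G g := by
    intro g
    have : cs G g ∈ Set.range (fun g : M => (Subgroup.centralizer ({g} : Set M)).index) := by
      rw [← h]; exact ⟨g, rfl⟩
    obtain ⟨x, hx⟩ := this
    exact ⟨x, hx⟩
  have hMG : ∀ x : M, ∃ g : G, cs G g = cs M x := by
    intro x
    have : cs M x ∈ Set.range (fun g : G => (Subgroup.centralizer ({g} : Set G)).index) := by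
      rw [h]; exact ⟨x, rfl⟩
    obtain ⟨g, hg⟩ := this
    exact ⟨g, hg⟩
  -- the type dichotomy in `G`
  have h1 : ∀ g : G, g ≠ 1 →
      (∀ q : ℕ, q.Prime → q ∈ A → (cs G g).factorization q = (Nat.card M).factorization q) ∨
      (∀ q : ℕ, q.Prime → ¬ q ∈ A → (cs G g).factorization q = (Nat.card M).factorization q) := by
    intro g hg
    obtain ⟨x, hx⟩ := hGM g
    have hx1 : x ≠ 1 := by
      intro h1
      rw [h1, cs_one_of_eq_one] at hx
      exact cs_ne_one hZG g hg hx.symm
    have hox : orderOf x ≠ 1 := fun h => hx1 (orderOf_eq_one_iff.mp h)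
    obtain ⟨r, hr, hrx⟩ := Nat.exists_prime_and_dvd hox
    by_cases hrA : r ∈ A
    · right
      intro q hq hqA
      rw [← hx]
      exact typeM (· ∈ A) hdA x r hr hrx hrA q hq hqA
    · left
      intro q hq hqA
      rw [← hx]
      exact typeM (· ∉ A) hdB x r hr hrx hrA q hq (not_not.mpr hqA)
  have h2 : ∀ g : G, cs G g ∣ Nat.card M := by
    intro g
    obtain ⟨x, hx⟩ := hGM g
    rw [← hx]; exact cs_dvd x
  have h3 : ∀ g : G, cs G g ≠ Nat.card M := by
    intro g hg
    obtain ⟨x, hx⟩ := hGM g
    rw [← hx] at hg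
    have hc := card_mul_cs x
    rw [hg] at hc
    have hc1 : Nat.card (Subgroup.centralizer ({x} : Set M)) = 1 := by
      have := Nat.eq_of_mul_eq_mul_right (Nat.pos_of_ne_zero hm) (hc.trans (one_mul _).symm)
      exact this
    have hbot : Subgroup.centralizer ({x} : Set M) = ⊥ := Subgroup.card_eq_one.mp hc1
    have hxm : x ∈ Subgroup.centralizer ({x} : Set M) := by
      rw [Subgroup.mem_centralizer_iff]
      intro y hy
      rw [Set.mem_singleton_iff] at hy
      subst hy
      rfl
    rw [hbot, Subgroup.mem_bot] at hxm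
    rw [hxm, cs_one_of_eq_one] at hg
    rw [← hg] at ham
    exact hap.one_lt.ne' (Nat.dvd_one.mp ham)
  -- `#M ∣ #G`
  have hmG : Nat.card M ∣ Nat.card G := by
    have : Fact a.Prime := ⟨hap⟩
    have : Fact b.Prime := ⟨hbp⟩
    obtain ⟨xa, hxa⟩ := exists_prime_orderOf_dvd_card' a ham
    obtain ⟨xb, hxb⟩ := exists_prime_orderOf_dvd_card' b hbm
    obtain ⟨ga, hga⟩ := hMG xa
    obtain ⟨gb, hgb⟩ := hMG xb
    apply (Nat.factorization_prime_le_iff_dvd hm hG0).mp
    intro q hq
    by_cases hqA : q ∈ A
    · have := typeM (· ∉ A) hdB xb b hbp (by rw [hxb]) hbA q hq (not_not.mpr hqA)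
      rw [← this, ← hgb]
      exact fact_le_of_dvd hG0 (cs_dvd gb) q
    · have := typeM (· ∈ A) hdA xa a hap (by rw [hxa]) haA q hq hqA
      rw [← this, ← hga]
      exact fact_le_of_dvd hG0 (cs_dvd ga) q
  -- `#G ∣ #M`
  have hGm : Nat.card G ∣ Nat.card M := by
    apply (Nat.factorization_prime_le_iff_dvd hG0 hm).mp
    intro p hp
    by_cases hpm : p ∣ Nat.card M
    · by_cases hpA : p ∈ A
      · exact core (Nat.card M) hm (· ∈ A) h1 h2 h3 b hbp hbA hbm hmG p hp hpA hpm
      · refine core (Nat.card M) hm (· ∉ A) ?_ h2 h3 a hap (not_not.mpr haA) ham hmG p hp hpA hpm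
        intro g hg
        rcases h1 g hg with h | h
        · right
          intro q hq hqA
          exact h q hq (not_not.mp hqA)
        · left
          exact h
    · have : Fact p.Prime := ⟨hp⟩
      have hnd : ∀ g : G, ¬ p ∣ (Subgroup.centralizer ({g} : Set G)).index := by
        intro g hdvd
        exact hpm (dvd_trans hdvd (h2 g))
      obtain ⟨P⟩ : Nonempty (Sylow p G) := inferInstance
      have hPc := Cfsg.Agent.H73.sylow_le_center_of_not_dvd p hnd P
      rw [hZG, le_bot_iff] at hPc
      have hpG : ¬ p ∣ Nat.card G := fun hdvd => P.ne_bot_of_dvd_card hdvd hPc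
      rw [Nat.factorization_eq_zero_of_not_dvd hpG]
      exact Nat.zero_le _
  exact Nat.dvd_antisymm hGm hmG

end Cfsg.Agent.S4184
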