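import Cfsg.Statements.S4186

set_option autoImplicit false
open Cfsg

namespace Cfsg.Agent.S4186

/-- Let T and X be subgroups of a group with T a finite 2-group normalizing X but not centralizing it. Then some element of T inverts some non-identity element of X under conjugation. -/
theorem result {G : Type*} [Group G] (T X : Subgroup G) [Finite ↥T] (hT : IsPGroup 2 ↥T) (hTN : T ≤ Subgroup.normalizer (X : Set G)) (hTC : ¬ T ≤ Subgroup.centralizer (X : Set G)) : ∃ t ∈ T, ∃ x ∈ X, x ≠ 1 ∧ t * x * t⁻¹ = x⁻¹ := by
  have key : ∀ k : ℕ, ∀ t ∈ T, t ^ (2 ^ k) ∈ Subgroup.centralizer (X : Set G) →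
      (t ∈ Subgroup.centralizer (X : Set G) ∨ ∃ t ∈ T, ∃ x ∈ X, x ≠ 1 ∧ t * x * t⁻¹ = x⁻¹) := by
    intro k
    induction k with
    | zero =>
      intro t _ h
      left
      simpa using h
    | succ k ih =>
      intro t ht h
      have h2 : (t ^ 2) ^ (2 ^ k) ∈ Subgroup.centralizer (X : Set G) := by
        rw [← pow_mul, ← pow_succ']
        exact h
      rcases ih (t ^ 2) (T.pow_mem ht 2) h2 with h3 | h3
      · by_cases htc : t ∈ Subgroup.centralizer (X : Set G)
        · exact Or.inl htc
        · right
          rw [Subgroup.mem_centralizer_iff] at htc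
          push Not at htc
          obtain ⟨x, hx, hne⟩ := htc
          have hx' : x ∈ X := hx
          have htx : t * x * t⁻¹ ∈ X := ((Subgroup.mem_normalizer_iff.mp (hTN ht)) x).mp hx'
          refine ⟨t, ht, x⁻¹ * (t * x * t⁻¹), X.mul_mem (X.inv_mem hx') htx, ?_, ?_⟩
          · intro h1
            apply hne
            have : t * x * t⁻¹ = x := by
              have := congrArg (fun z => x * z) h1
              simpa using this
            have h4 := congrArg (fun z => z * t) this
            simpa using h4.symm
          · have h5 : x * t ^ 2 = t ^ 2 * x := (Subgroup.mem_centralizer_iff.mp h3) x hx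
            have h6 : t * (t * x * t⁻¹) * t⁻¹ = x := by
              have : t * (t * x * t⁻¹) * t⁻¹ = (t ^ 2 * x) * (t ^ 2)⁻¹ := by
                simp only [pow_two, mul_inv_rev]; group
              rw [this, ← h5]; group
            calc t * (x⁻¹ * (t * x * t⁻¹)) * t⁻¹
                = (t * x * t⁻¹)⁻¹ * (t * (t * x * t⁻¹) * t⁻¹) := by group
              _ = (t * x * t⁻¹)⁻¹ * x := by rw [h6]
              _ = (x⁻¹ * (t * x * t⁻¹))⁻¹ := by group
      · exact Or.inr h3
  obtain ⟨t, ht, htc⟩ := SetLike.not_le_iff_exists.mp hTC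
  obtain ⟨k, hk⟩ := hT ⟨t, ht⟩
  have hk' : t ^ (2 ^ k) = 1 := by
    have := congrArg Subtype.val hk
    simpa using this
  rcases key k t ht (by rw [hk']; exact Subgroup.one_mem _) with h | h
  · exact absurd h htc
  · exact h

end Cfsg.Agent.S4186
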