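import Cfsg.Statements.S4189
import Cfsg.Agent.H25.Tau3
import Cfsg.Agent.H25.Tau4
import Cfsg.Agent.H25.Lift

set_option autoImplicit false
open Cfsg

namespace Cfsg.Agent.S4189

/-- Let P be a finite non-abelian 2-group whose commutator subgroup has index 4 and whose automorphism group is not a 2-group (some automorphism has order that is not a power of 2). Then P is isomorphic to the quaternion group of order 8. -/
theorem result {P : Type*} [Group P] [Finite P] (hP : IsPGroup 2 P) (hna : ¬ IsMulCommutative P) (h4 : (commutator P).index = 4) (haut : ¬ IsPGroup 2 (MulAut P)) : Nonempty (P ≃* QuaternionGroup 2) := by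
  have : Fact (Nat.Prime 2) := ⟨Nat.prime_two⟩
  obtain ⟨e, he⟩ := IsPGroup.iff_card.mp hP
  have hdvd : 4 ∣ Nat.card P := h4 ▸ Subgroup.index_dvd_card (commutator P)
  have h8 : 8 ≤ Nat.card P := by
    by_contra hcon
    have hpos : 0 < Nat.card P := Nat.card_pos
    have hc4 : Nat.card P = 4 := by
      obtain ⟨q, hq⟩ := hdvd
      have : q = 1 := by omega
      omega
    have hbot : commutator P = ⊥ := by
      apply (Subgroup.card_eq_one).mp
      have h3 := Subgroup.card_mul_index (commutator P)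
      rw [h4, hc4] at h3
      omega
    apply hna
    exact ⟨⟨fun x y => Cfsg.Agent.H25.comm_of_commutator_eq_bot hbot x y⟩⟩
  obtain ⟨n, a, b, hn3, hn, hoa, hb, hcases⟩ := Cfsg.Agent.H25.taussky_struct hP h4 h8
  have hidx : (Subgroup.zpowers a).index = 2 := by
    have h3 := Subgroup.card_mul_index (Subgroup.zpowers a)
    rw [Nat.card_zpowers, hoa, hn] at h3
    have h5 : 2 ^ n = 2 ^ (n - 1) * 2 := by
      rw [← pow_succ]; congr 1; omega
    rw [h5] at h3
    exact Nat.eq_of_mul_eq_mul_left (by positivity) h3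
  have hout : ∀ g : P, g ∉ Subgroup.zpowers a → ∃ j : ℤ, g = a ^ j * b := by
    intro g hg
    have h5 : g * b⁻¹ ∈ Subgroup.zpowers a := by
      rw [Subgroup.mul_mem_iff_of_index_two hidx]
      exact iff_of_false hg (fun h' => hb (by simpa using inv_mem h'))
    obtain ⟨j, hj⟩ := Subgroup.mem_zpowers_iff.mp h5
    exact ⟨j, by rw [hj]; group⟩
  have hsq : ∀ j : ℤ, (a ^ j * b) ^ 2 = a ^ j * (b * a * b⁻¹) ^ j * (b * b) := by
    intro j
    rw [conj_zpow, pow_two]; group
  have hpow : a ^ (2 ^ (n - 1)) = 1 := by rw [← hoa]; exact pow_orderOf_eq_one a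
  have h4le : 2 ^ 2 ≤ 2 ^ (n - 1) := Nat.pow_le_pow_right (by norm_num) (by omega)
  rcases hcases with ⟨hbb, hba⟩ | ⟨hbb, hba⟩ | ⟨hn4, hbb, hba⟩
  · -- dihedral: Aut is a 2-group
    exfalso
    apply haut
    apply Cfsg.Agent.H25.aut_two_of_small_outside a b (n - 1) 2 hoa hb hidx
    · intro g hg
      obtain ⟨j, rfl⟩ := hout g hg
      rw [hsq, hba, ← pow_two, hbb, mul_one, inv_zpow, mul_inv_cancel]
    · intro hd
      have := Nat.le_of_dvd (by norm_num) hd
      omega
  · -- quaternion
    by_cases hn4 : 4 ≤ n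
    · exfalso
      apply haut
      apply Cfsg.Agent.H25.aut_two_of_small_outside a b (n - 1) 4 hoa hb hidx
      · intro g hg
        obtain ⟨j, rfl⟩ := hout g hg
        have h5 : (a ^ j * b) ^ 2 = a ^ (2 ^ (n - 2)) := by
          rw [hsq, hba, ← pow_two, hbb, inv_zpow, mul_inv_cancel, one_mul]
        rw [show 4 = 2 * 2 by norm_num, pow_mul, h5, ← pow_mul, ← pow_succ,
          show n - 2 + 1 = n - 1 by omega, hpow]
      · intro hd
        have := Nat.le_of_dvd (by norm_num) hd
        have h8le : 2 ^ 3 ≤ 2 ^ (n - 1) := Nat.pow_le_pow_right (by norm_num) (by omega)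
        omega
    · have hn3' : n = 3 := by omega
      subst hn3'
      have hord : ∀ c : ℤ, a ^ c = 1 → ((2 * 2 : ℕ) : ℤ) ∣ c := by
        intro c hc
        have h5 := orderOf_dvd_iff_zpow_eq_one.mpr hc
        rw [hoa] at h5
        exact h5
      have hBn : ∀ c : ℤ, b * a ^ c ≠ 1 := by
        intro c hc
        apply hb
        have : b = (a ^ c)⁻¹ := eq_inv_of_mul_eq_one_left hc
        rw [this]
        exact Subgroup.inv_mem _ (Subgroup.zpow_mem_zpowers a c)
      obtain ⟨φ⟩ := Cfsg.Agent.H25.nonempty_quat_equiv 2 (⊤ : Subgroup P) a b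
        (by exact hpow)
        (by rw [← pow_two]; exact hbb) hba hord hBn
        (Subgroup.mem_top a) (Subgroup.mem_top b)
        (by rw [Subgroup.card_top, hn]; norm_num)
      exact ⟨Subgroup.topEquiv.symm.trans φ⟩
  · -- semidihedral
    exfalso
    apply haut
    apply Cfsg.Agent.H25.aut_two_of_small_outside a b (n - 1) 4 hoa hb hidx
    · intro g hg
      obtain ⟨j, rfl⟩ := hout g hg
      obtain ⟨w, hw⟩ : ∃ w : P, w = a ^ (2 ^ (n - 2)) := ⟨_, rfl⟩
      have hww : w ^ 2 = 1 := by
        rw [hw, ← pow_mul, ← pow_succ, show n - 2 + 1 = n - 1 by omega, hpow]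
      have hwa : Commute w a := by
        rw [hw]; exact (Commute.refl a).pow_left _
      have hba' : b * a * b⁻¹ = w * a⁻¹ := by
        rw [hba, hw]
        have hM : 2 ^ (n - 2) ≠ 0 := by positivity
        rw [← pow_sub_one_mul hM a, mul_inv_cancel_right]
      have h5 : (a ^ j * b) ^ 2 = w ^ j := by
        rw [hsq, hba', ← pow_two, hbb, mul_one, (hwa.inv_right).mul_zpow, inv_zpow]
        have h6 : Commute (a ^ j) (w ^ j) := (hwa.symm).zpow_zpow j j
        rw [← mul_assoc, h6.eq, mul_assoc, mul_inv_cancel, mul_one]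
      rw [show 4 = 2 * 2 by norm_num, pow_mul, h5, ← zpow_natCast, ← zpow_mul, mul_comm,
        zpow_mul, zpow_natCast, hww, one_zpow]
    · intro hd
      have := Nat.le_of_dvd (by norm_num) hd
      have h8le : 2 ^ 3 ≤ 2 ^ (n - 1) := Nat.pow_le_pow_right (by norm_num) (by omega)
      omega

end Cfsg.Agent.S4189
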