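import Cfsg.Statements.S4195

set_option autoImplicit false
open Cfsg

namespace Cfsg.Agent.S4195

/-- The subgroup of elements conjugating `x` to `x` or `x⁻¹`. -/
def invNormalizer {G : Type*} [Group G] (x : G) : Subgroup G where
  carrier := {g | g * x * g⁻¹ = x ∨ g * x * g⁻¹ = x⁻¹}
  one_mem' := by simp
  mul_mem' := by
    intro a b ha hb
    have e : a * b * x * (a * b)⁻¹ = a * (b * x * b⁻¹) * a⁻¹ := by group
    have e' : a * x⁻¹ * a⁻¹ = (a * x * a⁻¹)⁻¹ := by group
    simp only [Set.mem_ofPred_eq] at ha hb ⊢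
    rcases hb with hb | hb <;> rcases ha with ha | ha
    · left; rw [e, hb, ha]
    · right; rw [e, hb, ha]
    · right; rw [e, hb, e', ha]
    · left; rw [e, hb, e', ha, inv_inv]
  inv_mem' := by
    intro a ha
    simp only [Set.mem_ofPred_eq] at ha ⊢
    rcases ha with ha | ha
    · left
      calc a⁻¹ * x * a⁻¹⁻¹ = a⁻¹ * (a * x * a⁻¹) * a := by rw [ha, inv_inv]
        _ = x := by group
    · right
      have hx : x = (a * x * a⁻¹)⁻¹ := by rw [ha, inv_inv]
      calc a⁻¹ * x * a⁻¹⁻¹ = a⁻¹ * (a * x * a⁻¹)⁻¹ * a := by rw [← hx, inv_inv]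
        _ = x⁻¹ := by group

theorem real_two_central_inv_eq {G : Type*} [Group G] [Finite G] (x : G) (P : Sylow 2 G)
    (hP : (P : Subgroup G) ≤ Subgroup.centralizer ({x} : Set G)) (hreal : IsConj x x⁻¹) :
    x⁻¹ = x := by
  by_contra hne
  obtain ⟨g, hg⟩ := isConj_iff.mp hreal
  have hCN : Subgroup.centralizer ({x} : Set G) ≤ invNormalizer x := by
    intro c hc
    rw [Subgroup.mem_centralizer_iff] at hc
    have := hc x rfl
    left
    rw [← this]; group
  have hmemC : ∀ b : G, b ∈ Subgroup.centralizer ({x} : Set G) ↔ b * x * b⁻¹ = x := by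
    intro b
    rw [Subgroup.mem_centralizer_iff]
    constructor
    · intro h
      rw [← h x rfl]; group
    · intro h y hy
      rw [Set.mem_singleton_iff] at hy
      subst hy
      nth_rewrite 1 [← h]
      group
  have h2 : (Subgroup.centralizer ({x} : Set G)).relIndex (invNormalizer x) = 2 := by
    rw [Subgroup.relIndex, Subgroup.index_eq_two_iff]
    refine ⟨⟨g, Or.inr hg⟩, ?_⟩
    rintro ⟨b, hb⟩
    simp only [Subgroup.mem_subgroupOf, Subgroup.coe_mul, hmemC]
    have e : b * g * x * (b * g)⁻¹ = b * (g * x * g⁻¹) * b⁻¹ := by group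
    have e' : b * x⁻¹ * b⁻¹ = (b * x * b⁻¹)⁻¹ := by group
    rw [e, hg, e']
    rcases hb with hb | hb
    · right
      refine ⟨hb, ?_⟩
      rw [hb]; exact hne
    · left
      refine ⟨by rw [hb, inv_inv], ?_⟩
      rw [hb]; exact hne
  have h3 : 2 ∣ (Subgroup.centralizer ({x} : Set G)).index := by
    rw [← h2]; exact Subgroup.relIndex_dvd_index_of_le hCN
  have h4 : 2 ∣ (P : Subgroup G).index := h3.trans (Subgroup.index_dvd_of_le hP)
  have : Fact (Nat.Prime 2) := ⟨Nat.prime_two⟩
  exact P.not_dvd_index h4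

/-- Let x be a non-identity element of a finite group G whose centralizer contains a Sylow 2-subgroup of G. If x is conjugate to its inverse, then x has order 2. -/
theorem result {G : Type*} [Group G] [Finite G] (x : G) (hx : x ≠ 1) (P : Sylow 2 G) (hP : (P : Subgroup G) ≤ Subgroup.centralizer ({x} : Set G)) (hreal : IsConj x x⁻¹) : orderOf x = 2 := by
  have h := real_two_central_inv_eq x P hP hreal
  have h2 : x ^ 2 = 1 := by
    rw [pow_two]
    nth_rewrite 1 [← h]
    group
  exact orderOf_eq_prime h2 hx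

end Cfsg.Agent.S4195
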