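import Cfsg.Statements.S4196
import Cfsg.Agent.S4195

set_option autoImplicit false
open Cfsg

namespace Cfsg.Agent.S4196

/-- A finite group G has elementary abelian Sylow 2-subgroups (commutative with every element squaring to the identity) if and only if every 2-element of G has a Sylow 2-subgroup in its centralizer and is conjugate to its inverse. -/
theorem result {G : Type*} [Group G] [Finite G] (P : Sylow 2 G) :
    (IsMulCommutative (P : Subgroup G) ∧ ∀ x ∈ (P : Subgroup G), x ^ 2 = 1) ↔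
      ∀ x : G, (∃ k : ℕ, orderOf x = 2 ^ k) → (∃ Q : Sylow 2 G, (Q : Subgroup G) ≤ Subgroup.centralizer ({x} : Set G)) ∧ IsConj x x⁻¹ := by
  have : Fact (Nat.Prime 2) := ⟨Nat.prime_two⟩
  constructor
  · rintro ⟨hcomm, hsq⟩ x ⟨k, hk⟩
    have hpg : IsPGroup 2 (Subgroup.zpowers x) := by
      apply IsPGroup.of_card (n := k)
      rw [Nat.card_zpowers, hk]
    obtain ⟨Q, hQ⟩ := hpg.exists_le_sylow
    obtain ⟨g, hg⟩ := MulAction.exists_smul_eq G P Q
    have hmem : ∀ z : G, z ∈ (Q : Subgroup G) ↔ g⁻¹ * z * g ∈ (P : Subgroup G) := by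
      intro z
      rw [← hg, Sylow.smul_def, Sylow.pointwise_smul_def, Subgroup.mem_pointwise_smul_iff_inv_smul_mem]
      simp [MulAut.smul_def]
    have hxQ : x ∈ (Q : Subgroup G) := hQ (Subgroup.mem_zpowers x)
    have hxP := (hmem x).mp hxQ
    refine ⟨⟨Q, ?_⟩, ?_⟩
    · intro z hz
      rw [Subgroup.mem_centralizer_iff]
      intro y hy
      rw [Set.mem_singleton_iff] at hy
      subst hy
      have hzP := (hmem z).mp hz
      have := setLike_mul_comm (s := (P : Subgroup G)) hxP hzP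
      calc y * z = g * ((g⁻¹ * y * g) * (g⁻¹ * z * g)) * g⁻¹ := by group
        _ = g * ((g⁻¹ * z * g) * (g⁻¹ * y * g)) * g⁻¹ := by rw [this]
        _ = z * y := by group
    · have h1 := hsq _ hxP
      have h2 : x ^ 2 = 1 := by
        have : (g⁻¹ * x * g) ^ 2 = g⁻¹ * x ^ 2 * g := by
          simp only [pow_two]; group
        rw [this] at h1
        calc x ^ 2 = g * (g⁻¹ * x ^ 2 * g) * g⁻¹ := by group
          _ = 1 := by rw [h1]; group
      have h3 : x⁻¹ = x := by
        rw [inv_eq_iff_mul_eq_one, ← pow_two]; exact h2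
      rw [h3]
  · intro h
    have hsq : ∀ x ∈ (P : Subgroup G), x ^ 2 = 1 := by
      intro x hx
      by_cases hx1 : x = 1
      · rw [hx1]; simp
      · have hpg := P.isPGroup'
        obtain ⟨k, hk⟩ := (IsPGroup.iff_orderOf.mp hpg) ⟨x, hx⟩
        rw [Subgroup.orderOf_mk] at hk
        obtain ⟨⟨Q, hQ⟩, hreal⟩ := h x ⟨k, hk⟩
        have := Cfsg.Agent.S4195.result x hx1 Q hQ hreal
        rw [← this]; exact pow_orderOf_eq_one x
    refine ⟨?_, hsq⟩
    rw [isMulCommutative_iff]
    rintro ⟨a, ha⟩ ⟨b, hb⟩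
    apply Subtype.ext
    show a * b = b * a
    have h1 := hsq a ha
    have h2 := hsq b hb
    have h3 := hsq (a * b) (Subgroup.mul_mem _ ha hb)
    rw [pow_two] at h1 h2 h3
    have ha' : a⁻¹ = a := inv_eq_of_mul_eq_one_left h1
    have hb' : b⁻¹ = b := inv_eq_of_mul_eq_one_left h2
    calc a * b = (a * b)⁻¹ := (inv_eq_of_mul_eq_one_left h3).symm
      _ = b⁻¹ * a⁻¹ := mul_inv_rev a b
      _ = b * a := by rw [ha', hb']

end Cfsg.Agent.S4196
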