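import Cfsg.Statements.S4230

set_option autoImplicit false
open Cfsg

namespace Cfsg.Agent.S4230

open Polynomial

theorem isRoot_pow_mul {p : ℕ} [Fact p.Prime] (m j : ℕ) (hm : ¬ p ∣ m) (x : ZMod p) :
    (cyclotomic (p ^ j * m) (ZMod p)).IsRoot x ↔ (cyclotomic m (ZMod p)).IsRoot x := by
  rcases Nat.eq_zero_or_pos j with rfl | hj
  · simp
  · rw [cyclotomic_mul_prime_pow_eq (ZMod p) hm hj]
    have hpos : p ^ j - p ^ (j - 1) ≠ 0 := by
      have hp : 1 < p := (Fact.out : p.Prime).one_lt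
      have : p ^ (j - 1) < p ^ j := Nat.pow_lt_pow_right hp (by omega)
      omega
    simp only [IsRoot.def, eval_pow]
    exact pow_eq_zero_iff hpos

theorem isRoot_iff_orderOf {p : ℕ} [Fact p.Prime] (m : ℕ) (hm : ¬ p ∣ m) (x : ZMod p) :
    (cyclotomic m (ZMod p)).IsRoot x ↔ m = orderOf x := by
  haveI : NeZero (m : ZMod p) := ⟨by
    intro h
    exact hm ((ZMod.natCast_eq_zero_iff m p).mp h)⟩
  rw [isRoot_cyclotomic_iff]
  constructor
  · intro h; exact h.eq_orderOf
  · intro h; rw [h]; exact IsPrimitiveRoot.orderOf x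

/-- Let p be an odd prime, q a natural number not divisible by p, and e the multiplicative order of q modulo p. For a natural number f, p divides the value at q of the f-th cyclotomic polynomial if and only if f = e·p^j for some j ≥ 0. -/
theorem result (p q f : ℕ) (hp : p.Prime) (hp2 : p ≠ 2) (hpq : ¬ p ∣ q) :
    ((p : ℤ) ∣ (Polynomial.cyclotomic f ℤ).eval (q : ℤ)) ↔ ∃ j : ℕ, f = orderOf (q : ZMod p) * p ^ j := by
  haveI : Fact p.Prime := ⟨hp⟩
  have hq0 : (q : ZMod p) ≠ 0 := by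
    intro h
    exact hpq ((ZMod.natCast_eq_zero_iff q p).mp h)
  have he_dvd : orderOf (q : ZMod p) ∣ p - 1 :=
    orderOf_dvd_of_pow_eq_one (ZMod.pow_card_sub_one_eq_one hq0)
  have he_pos : 0 < orderOf (q : ZMod p) := by
    rcases Nat.eq_zero_or_pos (orderOf (q : ZMod p)) with h | h
    · rw [h, zero_dvd_iff] at he_dvd
      have := hp.two_le
      omega
    · exact h
  have he_ndvd : ¬ p ∣ orderOf (q : ZMod p) := by
    intro h
    have h1 := Nat.le_of_dvd he_pos h
    have h2 := Nat.le_of_dvd (by have := hp.two_le; omega) he_dvd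
    have := hp.two_le
    omega
  have hiff : ((p : ℤ) ∣ (Polynomial.cyclotomic f ℤ).eval (q : ℤ)) ↔
      (cyclotomic f (ZMod p)).IsRoot (q : ZMod p) := by
    rw [← ZMod.intCast_zmod_eq_zero_iff_dvd, IsRoot.def, ← map_cyclotomic f (Int.castRingHom (ZMod p))]
    have := eval_intCast_map (Int.castRingHom (ZMod p)) (cyclotomic f ℤ) (q : ℤ)
    simp only [Int.cast_natCast, eq_intCast] at this
    rw [this]
  rw [hiff]
  constructor
  · intro h
    rcases Nat.eq_zero_or_pos f with rfl | hf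
    · simp at h
    · obtain ⟨j, m, hm, rfl⟩ := Nat.exists_eq_pow_mul_and_not_dvd hf.ne' p hp.ne_one
      rw [isRoot_pow_mul m j hm, isRoot_iff_orderOf m hm] at h
      exact ⟨j, by rw [h, mul_comm]⟩
  · rintro ⟨j, rfl⟩
    rw [mul_comm, isRoot_pow_mul _ j he_ndvd, isRoot_iff_orderOf _ he_ndvd]

end Cfsg.Agent.S4230
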