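import Cfsg.Statements.S4244
import Cfsg.Agent.H74.Basic

set_option autoImplicit false
open Cfsg

namespace Cfsg.Agent.S4244

/-- Let H be a subnormal subgroup of a finite group G. Then for every subgroup K of G the index of H ∩ K in H divides the index of K in G. -/
theorem result {G : Type*} [Group G] [Finite G] (H : Subgroup G) (hH : H.IsSubnormal) (K : Subgroup G) :
    (H ⊓ K).relIndex H ∣ K.index := by
  rw [Subgroup.inf_relIndex_left]
  induction hH generalizing K with
  | top => rw [Subgroup.relIndex_top_right]
  | step H M hHM hM hN ih =>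
    have h1 := ih (M ⊓ K)
    have h2 : (M ⊓ K).relIndex M ∣ K.index := by
      have := ih K
      rwa [← Subgroup.inf_relIndex_left] at this
    have h3 : K.relIndex H = (M ⊓ K).relIndex H := by
      rw [← Subgroup.inf_relIndex_left H K, ← Subgroup.inf_relIndex_left H (M ⊓ K)]
      congr 1
      rw [← inf_assoc, inf_of_le_left hHM]
    rw [h3]
    refine dvd_trans ?_ h2
    have h4 := H74.relIndex_dvd_index_of_normal_right ((M ⊓ K).subgroupOf M) (H.subgroupOf M)
    rw [Subgroup.relIndex_subgroupOf hHM] at h4
    exact h4

end Cfsg.Agent.S4244
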