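import Cfsg.Statements.S4249
import Mathlib
import Cfsg.Agent.H74.Kegel
import Cfsg.Agent.S0659

set_option autoImplicit false
open Cfsg

namespace Cfsg.Agent.S4249

/-- Let G be a finite group and p a prime such that G is not a p-group, and suppose the Hughes subgroup H_p(G), generated by all elements g with g^p ≠ 1, is a proper subgroup. Then H_p(G) is nilpotent and has index p in G. -/
theorem result {G : Type*} [Group G] [Finite G] (p : ℕ) (hp : p.Prime) (hG : ¬ IsPGroup p G)
    (hH : Subgroup.closure {g : G | g ^ p ≠ 1} ≠ ⊤) :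
    Group.IsNilpotent (Subgroup.closure {g : G | g ^ p ≠ 1}) ∧ (Subgroup.closure {g : G | g ^ p ≠ 1}).index = p := by
  exact Cfsg.Agent.H74.Keg.hughes_thompson_kegel
    (fun K _ _ => (Cfsg.Agent.H77.Fpf.oracle_of_zjA
      (fun {q} _ hq P hN => Cfsg.Agent.S0659.result hq P hN)).oracle2) p hp hG hH

end Cfsg.Agent.S4249
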