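import Cfsg.Statements.S4251
import Cfsg.Agent.H74.Frobenius

set_option autoImplicit false
open Cfsg

namespace Cfsg.Agent.S4251

/-- Let P be a Sylow p-subgroup of a finite group G. Call an intersection H = P ∩ Q with a Sylow p-subgroup Q tame when N_P(H) and N_Q(H) are Sylow p-subgroups of N_G(H). If N_G(H)/C_G(H) is a p-group for every nontrivial tame intersection H = P ∩ Q, then G has a normal p-complement. -/
theorem result {G : Type*} [Group G] [Finite G] (p : ℕ) [Fact p.Prime] (P : Sylow p G)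
    (h : ∀ Q : Sylow p G, (P : Subgroup G) ⊓ (Q : Subgroup G) ≠ ⊥ → (¬ p ∣ ((P : Subgroup G) ⊓ Subgroup.normalizer (((P : Subgroup G) ⊓ (Q : Subgroup G) : Subgroup G) : Set G)).relIndex (Subgroup.normalizer (((P : Subgroup G) ⊓ (Q : Subgroup G) : Subgroup G) : Set G)) ∧ ¬ p ∣ ((Q : Subgroup G) ⊓ Subgroup.normalizer (((P : Subgroup G) ⊓ (Q : Subgroup G) : Subgroup G) : Set G)).relIndex (Subgroup.normalizer (((P : Subgroup G) ⊓ (Q : Subgroup G) : Subgroup G) : Set G))) →
      IsPGroup p (Subgroup.normalizer (((P : Subgroup G) ⊓ (Q : Subgroup G) : Subgroup G) : Set G) ⧸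
        (Subgroup.centralizer (((P : Subgroup G) ⊓ (Q : Subgroup G) : Subgroup G) : Set G)).subgroupOf
          (Subgroup.normalizer (((P : Subgroup G) ⊓ (Q : Subgroup G) : Subgroup G) : Set G)))) :
    Cfsg.HasNormalPComplement p G := by
  classical
  -- the normalizers of tame intersections act on them like elements of `P`
  have hstep : ∀ Q : Sylow p G, Cfsg.Agent.H40.Alp.Tame P Q →
      ∀ x ∈ Subgroup.normalizer ((((P : Subgroup G) ⊓ (Q : Subgroup G)) : Subgroup G) : Set G),
      ∃ u ∈ (P : Subgroup G), ∀ a ∈ (P : Subgroup G) ⊓ (Q : Subgroup G),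
        x⁻¹ * a * x = u⁻¹ * a * u := by
    intro Q ht x hx
    by_cases hne : (P : Subgroup G) ⊓ (Q : Subgroup G) = ⊥
    · refine ⟨1, one_mem _, fun a ha => ?_⟩
      rw [hne, Subgroup.mem_bot] at ha
      subst ha
      group
    · exact Cfsg.Agent.H74.step_of_isPGroup_quot P Q ht (h Q hne ht) x hx
  -- hence the Frobenius condition holds
  have hF : Cfsg.Agent.H74.FrobCond P := by
    intro Q hQ g hg hcop
    obtain ⟨u, hu, hu'⟩ := Cfsg.Agent.H74.control_of_step P hstep (Q : Set G) g hQ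
      (fun a ha => hQ ((Subgroup.mem_normalizer_iff''.mp hg a).mp ha))
    refine Cfsg.Agent.H74.mem_centralizer_of_conj_eq (p := p) Q hg hcop ?_ hu'
    obtain ⟨k, hk⟩ := P.2 ⟨u, hu⟩
    exact ⟨k, by simpa using congrArg Subtype.val hk⟩
  exact Cfsg.Agent.H74.hasNormalPComplement_of_frobCond P hF

end Cfsg.Agent.S4251
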