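import Cfsg.Statements.S4261
import Cfsg.Agent.H74.Solvable

set_option autoImplicit false
open Cfsg

namespace Cfsg.Agent.S4261

/-- Let M be a maximal subgroup of a finite solvable group G such that x^[G : M] lies in M for every x in G. Then M is normal in G. -/
theorem result {G : Type*} [Group G] [Finite G] (hG : Group.IsSolvable G) (M : Subgroup G) (hM : IsCoatom M)
    (hexp : ∀ x : G, x ^ M.index ∈ M) : M.Normal := by
  haveI := hG
  obtain ⟨p, k, hp, hk⟩ := H74.exists_prime_pow_index_of_coatom M hM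
  haveI : Fact p.Prime := ⟨hp⟩
  set S : Set G := {y | (orderOf y).Coprime p} with hS
  have hSM : ∀ y ∈ S, y ∈ M := by
    intro y hy
    have hcop : (M.index).Coprime (orderOf y) := by
      rw [hk]
      exact Nat.Coprime.pow_left k hy.symm
    obtain ⟨j, hj⟩ := exists_pow_eq_self_of_coprime hcop
    rw [← hj]
    exact M.pow_mem (hexp y) j
  set K : Subgroup G := Subgroup.normalClosure S with hK
  haveI hKn : K.Normal := Subgroup.normalClosure_normal
  have hKM : K ≤ M := by
    rw [hK, Subgroup.normalClosure]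
    rw [Subgroup.closure_le]
    intro a ha
    rw [Group.mem_conjugatesOfSet_iff] at ha
    obtain ⟨b, hb, hba⟩ := ha
    apply hSM
    rw [isConj_iff] at hba
    obtain ⟨c, hc⟩ := hba
    have hs : SemiconjBy c b a := by
      rw [SemiconjBy, ← hc]; group
    show (orderOf a).Coprime p
    rw [← hs.orderOf_eq c]
    exact hb
  have hQp : IsPGroup p (G ⧸ K) := by
    intro g
    induction g using QuotientGroup.induction_on with
    | H y =>
    obtain ⟨a, m, hm, hym⟩ := Nat.exists_eq_pow_mul_and_not_dvd (orderOf_pos y).ne' p hp.ne_one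
    refine ⟨a, ?_⟩
    have hz : y ^ p ^ a ∈ S := by
      show (orderOf (y ^ p ^ a)).Coprime p
      have h1 : (y ^ p ^ a) ^ m = 1 := by
        rw [← pow_mul, ← hym, pow_orderOf_eq_one]
      have h2 : orderOf (y ^ p ^ a) ∣ m := orderOf_dvd_of_pow_eq_one h1
      have h3 : m.Coprime p := (Nat.Coprime.symm ((Nat.Prime.coprime_iff_not_dvd hp).mpr hm))
      exact Nat.Coprime.coprime_dvd_left h2 h3
    have hzK : y ^ p ^ a ∈ K := Subgroup.subset_normalClosure hz
    rw [← QuotientGroup.mk_pow]
    exact (QuotientGroup.eq_one_iff _).mpr hzK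
  haveI : Group.IsNilpotent (G ⧸ K) := hQp.isNilpotent
  set π := QuotientGroup.mk' K with hπ
  have hcm : (M.map π).comap π = M := by
    rw [Subgroup.comap_map_eq, hπ, QuotientGroup.ker_mk', sup_of_le_left hKM]
  have hmem : ∀ n : G, π n ∈ M.map π ↔ n ∈ M := by
    intro n
    rw [← Subgroup.mem_comap, hcm]
  have hlt : M.map π < ⊤ := by
    rw [lt_top_iff_ne_top]
    intro h
    apply hM.1
    rw [← hcm, h, Subgroup.comap_top]
  have hnc := Group.normalizerCondition_of_isNilpotent (G := G ⧸ K) (M.map π) hlt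
  obtain ⟨gq, hgq1, hgq2⟩ := SetLike.exists_of_lt hnc
  obtain ⟨g, rfl⟩ := QuotientGroup.mk'_surjective K gq
  have hgM : g ∉ M := fun h => hgq2 ((hmem g).mpr h)
  have hgN : g ∈ Subgroup.normalizer (M : Set G) := by
    rw [Subgroup.mem_normalizer_iff]
    intro n
    rw [Subgroup.mem_normalizer_iff] at hgq1
    have := hgq1 (π n)
    rw [← hmem n, this, ← hmem (g * n * g⁻¹)]
    simp [hπ]
  have hNtop : Subgroup.normalizer (M : Set G) = ⊤ := by
    apply hM.2
    refine lt_of_le_of_ne Subgroup.le_normalizer ?_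
    intro h
    exact hgM (h ▸ hgN)
  exact Subgroup.normalizer_eq_top_iff.mp hNtop

end Cfsg.Agent.S4261
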