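import Cfsg.Statements.S4262
import Cfsg.Agent.H74.Herstein

set_option autoImplicit false
open Cfsg

namespace Cfsg.Agent.S4262

open Subgroup
open scoped commutatorElement

section
variable {G : Type*} [Group G]

/-- comparable centralizers of non-central elements are equal -/
theorem cent_eq_of_le
    (h : ∀ g : G, g ∉ center G → IsCoatom (centralizer ({g} : Set G)))
    {x y : G} (hx : x ∉ center G) (hy : y ∉ center G)
    (hle : centralizer ({x} : Set G) ≤ centralizer ({y} : Set G)) :
    centralizer ({x} : Set G) = centralizer ({y} : Set G) :=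
  (((h x hx).le_iff.mp hle).resolve_left (h y hy).1).symm

theorem cent_le_cent_pow (x : G) (k : ℕ) :
    centralizer ({x} : Set G) ≤ centralizer ({x ^ k} : Set G) := by
  intro c hc
  rw [mem_centralizer_singleton_iff] at hc ⊢
  exact ((Commute.pow_right (show Commute c x from hc) k)).eq

theorem not_mem_center_of_pow {x : G} {k : ℕ} (hxk : x ^ k ∉ center G) : x ∉ center G :=
  fun hx => hxk (pow_mem hx k)

/-- Step 1: commuting non-central elements with different centralizers have the same
order modulo the centre. -/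
theorem pow_mem_center_of_commute
    (h : ∀ g : G, g ∉ center G → IsCoatom (centralizer ({g} : Set G)))
    {x y : G} (hx : x ∉ center G) (hy : y ∉ center G) (hxy : x * y = y * x)
    (hne : centralizer ({x} : Set G) ≠ centralizer ({y} : Set G)) (m : ℕ)
    (hm : x ^ m ∈ center G) : y ^ m ∈ center G := by
  by_contra hym
  have hxyc : Commute x y := hxy
  -- `x * y` is not central
  have hxyZ : x * y ∉ center G := by
    intro hc
    apply hne
    apply cent_eq_of_le h hx hy
    intro c hcx
    rw [mem_centralizer_singleton_iff] at hcx ⊢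
    have h1 : c * (x * y) = (x * y) * c := (mem_center_iff.mp hc) c
    have h2 : c * y = x⁻¹ * (c * (x * y)) := by
      rw [← mul_assoc c x y, hcx]; group
    rw [h2, h1]; group
  have hpow : (x * y) ^ m = x ^ m * y ^ m := hxyc.mul_pow m
  have hpowZ : (x * y) ^ m ∉ center G := by
    intro hc
    apply hym
    have e : y ^ m = (x ^ m)⁻¹ * (x * y) ^ m := by rw [hpow]; group
    rw [e]
    exact mul_mem (inv_mem hm) hc
  have e1 : centralizer ({x * y} : Set G) = centralizer ({(x * y) ^ m} : Set G) :=
    cent_eq_of_le h hxyZ hpowZ (cent_le_cent_pow _ m)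
  have e2 : centralizer ({y} : Set G) = centralizer ({y ^ m} : Set G) :=
    cent_eq_of_le h hy hym (cent_le_cent_pow _ m)
  have e3 : centralizer ({(x * y) ^ m} : Set G) = centralizer ({y ^ m} : Set G) := by
    ext c
    rw [mem_centralizer_singleton_iff, mem_centralizer_singleton_iff, hpow]
    have hz : c * x ^ m = x ^ m * c := (mem_center_iff.mp hm) c
    constructor
    · intro h1
      have : x ^ m * (c * y ^ m) = x ^ m * (y ^ m * c) := by
        rw [← mul_assoc, ← hz, mul_assoc, h1, mul_assoc]
      exact mul_left_cancel this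
    · intro h1
      rw [← mul_assoc, hz, mul_assoc, h1, mul_assoc]
  have e4 : centralizer ({x * y} : Set G) = centralizer ({y} : Set G) := by
    rw [e1, e3, ← e2]
  apply hne
  symm
  apply cent_eq_of_le h hy hx
  intro c hcy
  have hcxy : c ∈ centralizer ({x * y} : Set G) := by rw [e4]; exact hcy
  rw [mem_centralizer_singleton_iff] at hcy hcxy ⊢
  have h2 : c * x = (c * (x * y)) * y⁻¹ := by group
  rw [h2, hcxy]
  have h3 : y⁻¹ * c = c * y⁻¹ := ((show Commute c y from hcy).inv_right).eq.symm
  calc x * y * c * y⁻¹ = x * y * (c * y⁻¹) := by group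
    _ = x * y * (y⁻¹ * c) := by rw [h3]
    _ = x * c := by group

theorem mk_pow_eq_one_iff (x : G) (m : ℕ) :
    ((QuotientGroup.mk x : G ⧸ center G)) ^ m = 1 ↔ x ^ m ∈ center G := by
  rw [← QuotientGroup.mk_pow, QuotientGroup.eq_one_iff]

theorem orderOf_mk_eq
    (h : ∀ g : G, g ∉ center G → IsCoatom (centralizer ({g} : Set G)))
    {x y : G} (hx : x ∉ center G) (hy : y ∉ center G) (hxy : x * y = y * x)
    (hne : centralizer ({x} : Set G) ≠ centralizer ({y} : Set G)) :
    orderOf (QuotientGroup.mk x : G ⧸ center G) = orderOf (QuotientGroup.mk y : G ⧸ center G) := by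
  apply Nat.dvd_antisymm
  · apply orderOf_dvd_of_pow_eq_one
    rw [mk_pow_eq_one_iff]
    apply pow_mem_center_of_commute h hy hx hxy.symm hne.symm
    rw [← mk_pow_eq_one_iff]; exact pow_orderOf_eq_one _
  · apply orderOf_dvd_of_pow_eq_one
    rw [mk_pow_eq_one_iff]
    apply pow_mem_center_of_commute h hx hy hxy hne
    rw [← mk_pow_eq_one_iff]; exact pow_orderOf_eq_one _

theorem orderOf_mk_prime [Finite G]
    (h : ∀ g : G, g ∉ center G → IsCoatom (centralizer ({g} : Set G)))
    {x y : G} (hx : x ∉ center G) (hy : y ∉ center G) (hxy : x * y = y * x)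
    (hne : centralizer ({x} : Set G) ≠ centralizer ({y} : Set G)) :
    (orderOf (QuotientGroup.mk x : G ⧸ center G)).Prime := by
  have hm1 : orderOf (QuotientGroup.mk x : G ⧸ center G) ≠ 1 := by
    rw [Ne, orderOf_eq_one_iff, QuotientGroup.eq_one_iff]; exact hx
  have hm0 : 0 < orderOf (QuotientGroup.mk x : G ⧸ center G) := orderOf_pos _
  by_contra hnp
  obtain ⟨r, hrm, hr2, hrlt⟩ := (Nat.not_prime_iff_exists_dvd_lt (by omega)).mp hnp
  obtain ⟨s, hs⟩ := hrm
  have hs0 : 0 < s := by
    rcases Nat.eq_zero_or_pos s with h0 | h0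
    · rw [h0, mul_zero] at hs; omega
    · exact h0
  have hslt : s < orderOf (QuotientGroup.mk x : G ⧸ center G) := by
    rw [hs]; nlinarith
  have hxr : x ^ r ∉ center G := by
    rw [← mk_pow_eq_one_iff]
    exact pow_ne_one_of_lt_orderOf (by omega) hrlt
  have hcr : centralizer ({x ^ r} : Set G) = centralizer ({x} : Set G) :=
    (cent_eq_of_le h hx hxr (cent_le_cent_pow x r)).symm
  have hys : y ^ s ∈ center G := by
    apply pow_mem_center_of_commute h hxr hy
      ((Commute.pow_left (show Commute x y from hxy) r).eq) (by rw [hcr]; exact hne) s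
    rw [← pow_mul, ← hs, ← mk_pow_eq_one_iff]; exact pow_orderOf_eq_one _
  have hdvd : orderOf (QuotientGroup.mk x : G ⧸ center G) ∣ s := by
    rw [orderOf_mk_eq h hx hy hxy hne]
    apply orderOf_dvd_of_pow_eq_one
    rw [mk_pow_eq_one_iff]; exact hys
  exact absurd (Nat.le_of_dvd hs0 hdvd) (by omega)

theorem exists_other {x : G}
    (hB : ¬ ∀ a ∈ centralizer ({x} : Set G), ∀ b ∈ centralizer ({x} : Set G), a * b = b * a) :
    ∃ y ∈ centralizer ({x} : Set G), y ∉ center G ∧
      centralizer ({x} : Set G) ≠ centralizer ({y} : Set G) := by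
  by_contra hcon
  apply hB
  intro a ha b hb
  by_contra hab
  apply hcon
  refine ⟨a, ha, ?_, ?_⟩
  · intro haZ; exact hab ((mem_center_iff.mp haZ b).symm)
  · intro heq
    rw [heq, mem_centralizer_singleton_iff] at hb
    exact hab hb.symm

theorem caseB_prime [Finite G]
    (h : ∀ g : G, g ∉ center G → IsCoatom (centralizer ({g} : Set G)))
    (hB : ∀ x : G, x ∉ center G →
      ¬ ∀ a ∈ centralizer ({x} : Set G), ∀ b ∈ centralizer ({x} : Set G), a * b = b * a)
    {x : G} (hx : x ∉ center G) : (orderOf (QuotientGroup.mk x : G ⧸ center G)).Prime := by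
  obtain ⟨y, hy, hyZ, hne⟩ := exists_other (hB x hx)
  rw [mem_centralizer_singleton_iff] at hy
  exact orderOf_mk_prime h hx hyZ hy.symm hne

theorem caseB_order [Finite G]
    (h : ∀ g : G, g ∉ center G → IsCoatom (centralizer ({g} : Set G)))
    (hB : ∀ x : G, x ∉ center G →
      ¬ ∀ a ∈ centralizer ({x} : Set G), ∀ b ∈ centralizer ({x} : Set G), a * b = b * a)
    {x w : G} (hx : x ∉ center G) (hw : w ∈ centralizer ({x} : Set G)) (hwZ : w ∉ center G) :
    orderOf (QuotientGroup.mk w : G ⧸ center G) = orderOf (QuotientGroup.mk x : G ⧸ center G) := by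
  have hwx : w * x = x * w := mem_centralizer_singleton_iff.mp hw
  by_cases hc : centralizer ({x} : Set G) = centralizer ({w} : Set G)
  · obtain ⟨y, hy, hyZ, hne⟩ := exists_other (hB x hx)
    have hyx : y * x = x * y := mem_centralizer_singleton_iff.mp hy
    have hyw : y * w = w * y := by rw [hc] at hy; exact mem_centralizer_singleton_iff.mp hy
    rw [orderOf_mk_eq h hwZ hyZ hyw.symm (hc ▸ hne), orderOf_mk_eq h hx hyZ hyx.symm hne]
  · exact (orderOf_mk_eq h hx hwZ hwx.symm hc).symm

/-- In case B every nonidentity element `u` of `G/Z` has prime order `p` and a maximal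
`p`-subgroup inside its centralizer. -/
theorem caseB_quot [Finite G]
    (h : ∀ g : G, g ∉ center G → IsCoatom (centralizer ({g} : Set G)))
    (hB : ∀ x : G, x ∉ center G →
      ¬ ∀ a ∈ centralizer ({x} : Set G), ∀ b ∈ centralizer ({x} : Set G), a * b = b * a)
    (u : G ⧸ center G) (hu : u ≠ 1) :
    (orderOf u).Prime ∧ ∃ M : Subgroup (G ⧸ center G), IsCoatom M ∧ IsPGroup (orderOf u) M ∧
      M ≤ centralizer ({u} : Set (G ⧸ center G)) := by
  obtain ⟨x, rfl⟩ := QuotientGroup.mk_surjective u
  have hx : x ∉ center G := fun hx => hu ((QuotientGroup.eq_one_iff x).mpr hx)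
  refine ⟨caseB_prime h hB hx,
    (centralizer ({x} : Set G)).map (QuotientGroup.mk' (center G)), ?_, ?_, ?_⟩
  · exact Cfsg.Agent.H74.isCoatom_map_mk (center G) _ (h x hx) (center_le_centralizer _)
  · rintro ⟨_, ⟨w, hw, rfl⟩⟩
    by_cases hwZ : w ∈ center G
    · refine ⟨0, Subtype.ext ?_⟩
      rw [pow_zero, pow_one]
      exact (QuotientGroup.eq_one_iff w).mpr hwZ
    · refine ⟨1, Subtype.ext ?_⟩
      have h1 := caseB_order h hB hx hw hwZ
      rw [pow_one]
      show (QuotientGroup.mk w : G ⧸ center G) ^ orderOf (QuotientGroup.mk x : G ⧸ center G) = 1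
      rw [← h1]; exact pow_orderOf_eq_one _
  · rintro _ ⟨w, hw, rfl⟩
    have hw' : w * x = x * w := mem_centralizer_singleton_iff.mp hw
    rw [mem_centralizer_singleton_iff]
    show (QuotientGroup.mk w : G ⧸ center G) * QuotientGroup.mk x
      = QuotientGroup.mk x * QuotientGroup.mk w
    rw [← QuotientGroup.mk_mul, ← QuotientGroup.mk_mul, hw']

end

theorem sum_inv_sq_le (N : ℕ) (hN : 1 ≤ N) :
    ∑ k ∈ Finset.Icc 2 N, (1 : ℚ) / (k : ℚ) ^ 2 ≤ 1 - 1 / (N : ℚ) := by
  induction N, hN using Nat.le_induction with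
  | base => simp
  | succ n hn ih =>
    rw [Finset.sum_Icc_succ_top (by omega)]
    have hn' : (0 : ℚ) < n := by exact_mod_cast hn
    have h1 : (1 : ℚ) / ((n + 1 : ℕ) : ℚ) ^ 2 ≤ 1 / (n : ℚ) - 1 / ((n + 1 : ℕ) : ℚ) := by
      push_cast
      rw [div_sub_div _ _ hn'.ne' (by positivity), div_le_div_iff₀ (by positivity) (by positivity)]
      nlinarith
    linarith

section
variable {X : Type*} [Group X] [Finite X]

theorem card_eq_one_of_counts (hP1 : ∀ u : X, u ≠ 1 → (orderOf u).Prime)
    (hcount : ∀ p : ℕ, p.Prime → p ∣ Nat.card X →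
      p ^ 2 * Nat.card {u : X // orderOf u = p} < Nat.card X) : Nat.card X = 1 := by
  classical
  have : Fintype X := Fintype.ofFinite X
  have hNpos : 0 < Nat.card X := Nat.card_pos
  -- the nonidentity elements, by order
  have hmaps : ((Finset.univ.filter (fun u : X => u ≠ 1) : Finset X) : Set X).MapsTo orderOf
      ((Nat.card X).primeFactors : Finset ℕ) := by
    intro u hu
    have hu1 : u ≠ 1 := by simpa using hu
    exact Finset.mem_coe.mpr (Nat.mem_primeFactors.mpr ⟨hP1 u hu1, orderOf_dvd_natCard u, hNpos.ne'⟩)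
  have hsum := Finset.card_eq_sum_card_fiberwise hmaps
  have hcard1 : (Finset.univ.filter (fun u : X => u ≠ 1)).card + 1 = Nat.card X := by
    rw [Finset.filter_ne' Finset.univ (1 : X), Finset.card_erase_of_mem (Finset.mem_univ _),
      Finset.card_univ, Nat.card_eq_fintype_card]
    have : 0 < Fintype.card X := Fintype.card_pos
    omega
  have hfib : ∀ p ∈ (Nat.card X).primeFactors,
      ((((Finset.univ.filter (fun u : X => u ≠ 1)).filter (fun u => orderOf u = p)).card : ℕ) : ℚ)
        ≤ ((Nat.card X : ℚ) - 1) * (1 / (p : ℚ) ^ 2) := by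
    intro p hp
    obtain ⟨hpp, hpd, -⟩ := Nat.mem_primeFactors.mp hp
    have h1 := hcount p hpp hpd
    have h2 : ((Finset.univ.filter (fun u : X => u ≠ 1)).filter (fun u => orderOf u = p)).card
        ≤ Nat.card {u : X // orderOf u = p} := by
      rw [Nat.card_eq_fintype_card, Fintype.card_subtype]
      apply Finset.card_le_card
      intro u hu
      simp only [Finset.mem_filter, Finset.mem_univ, true_and] at hu ⊢
      exact hu.2
    have h3 : p ^ 2 * ((Finset.univ.filter (fun u : X => u ≠ 1)).filter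
        (fun u => orderOf u = p)).card + 1 ≤ Nat.card X := by
      have := Nat.mul_le_mul_left (p ^ 2) h2
      omega
    have hp0 : (0 : ℚ) < (p : ℚ) ^ 2 := by
      have : (0 : ℚ) < p := by exact_mod_cast hpp.pos
      positivity
    rw [mul_one_div, le_div_iff₀ hp0]
    have h4 : ((p ^ 2 * ((Finset.univ.filter (fun u : X => u ≠ 1)).filter
        (fun u => orderOf u = p)).card + 1 : ℕ) : ℚ) ≤ (Nat.card X : ℚ) := by exact_mod_cast h3
    push_cast at h4
    linarith
  have hS : ∑ p ∈ (Nat.card X).primeFactors, (1 : ℚ) / (p : ℚ) ^ 2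
      ≤ 1 - 1 / (Nat.card X : ℚ) := by
    refine le_trans ?_ (sum_inv_sq_le (Nat.card X) hNpos)
    apply Finset.sum_le_sum_of_subset_of_nonneg
    · intro p hp
      obtain ⟨hpp, hpd, -⟩ := Nat.mem_primeFactors.mp hp
      exact Finset.mem_Icc.mpr ⟨hpp.two_le, Nat.le_of_dvd hNpos hpd⟩
    · intro k _ _
      positivity
  have hc0 : (0 : ℚ) ≤ (Nat.card X : ℚ) - 1 := by
    have : (1 : ℚ) ≤ (Nat.card X : ℚ) := by exact_mod_cast hNpos
    linarith
  have hmain : (Nat.card X : ℚ) - 1 ≤ ((Nat.card X : ℚ) - 1) * (1 - 1 / (Nat.card X : ℚ)) := by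
    have e : (Nat.card X : ℚ) - 1 = (((Finset.univ.filter (fun u : X => u ≠ 1)).card : ℕ) : ℚ) := by
      rw [← hcard1]; push_cast; ring
    calc (Nat.card X : ℚ) - 1
        = (((Finset.univ.filter (fun u : X => u ≠ 1)).card : ℕ) : ℚ) := e
      _ = ∑ p ∈ (Nat.card X).primeFactors,
            ((((Finset.univ.filter (fun u : X => u ≠ 1)).filter (fun u => orderOf u = p)).card : ℕ) : ℚ) := by
          rw [hsum]; push_cast; rfl
      _ ≤ ∑ p ∈ (Nat.card X).primeFactors, ((Nat.card X : ℚ) - 1) * (1 / (p : ℚ) ^ 2) :=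
          Finset.sum_le_sum hfib
      _ = ((Nat.card X : ℚ) - 1) * ∑ p ∈ (Nat.card X).primeFactors, (1 : ℚ) / (p : ℚ) ^ 2 := by
          rw [Finset.mul_sum]
      _ ≤ ((Nat.card X : ℚ) - 1) * (1 - 1 / (Nat.card X : ℚ)) :=
          mul_le_mul_of_nonneg_left hS hc0
  -- hence `card X ≤ 1`
  have hNq : (0 : ℚ) < (Nat.card X : ℚ) := by exact_mod_cast hNpos
  have h5 : ((Nat.card X : ℚ) - 1) * (1 / (Nat.card X : ℚ)) ≤ 0 := by linarith
  have h6 : (Nat.card X : ℚ) - 1 ≤ 0 := by
    by_contra hpos
    have hpos' : 0 < (Nat.card X : ℚ) - 1 := not_le.mp hpos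
    have : 0 < ((Nat.card X : ℚ) - 1) * (1 / (Nat.card X : ℚ)) := by positivity
    linarith
  have h7 : (Nat.card X : ℚ) ≤ 1 := by linarith
  have h8 : Nat.card X ≤ 1 := by exact_mod_cast h7
  omega

end

section
variable {X : Type*} [Group X]

/-- solvable from a solvable normal subgroup with abelian quotient -/
theorem isSolvable_of_commutator_le (N : Subgroup X) [N.Normal] (hN : Group.IsSolvable N)
    (h : commutator X ≤ N) : Group.IsSolvable X := by
  have hq : Group.IsSolvable (X ⧸ N) := by
    apply Group.isSolvable_of_comm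
    intro a b
    induction a using QuotientGroup.induction_on with
    | H x =>
      induction b using QuotientGroup.induction_on with
      | H y =>
        rw [← QuotientGroup.mk_mul, ← QuotientGroup.mk_mul, QuotientGroup.eq]
        apply h
        have e : (x * y)⁻¹ * (y * x) = ⁅y⁻¹, x⁻¹⁆ := by rw [commutatorElement_def]; group
        rw [e]
        exact Subgroup.commutator_mem_commutator (mem_top _) (mem_top _)
  exact Group.isSolvable_of_ker_le_range N.subtype (QuotientGroup.mk' N)
    (by rw [QuotientGroup.ker_mk', Subgroup.range_subtype])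

variable [Finite X]

/-- a nonabelian `p`-group has centre of index divisible by `p²` -/
theorem sq_dvd_index_center {Q : Type*} [Group Q] [Finite Q] {p : ℕ} [Fact p.Prime]
    (hQ : IsPGroup p Q) (hnab : ¬ ∀ a b : Q, a * b = b * a) : p ^ 2 ∣ (center Q).index := by
  obtain ⟨k, hk⟩ := hQ.index (center Q)
  rcases k with _ | _ | k
  · exfalso; apply hnab
    rw [pow_zero, Subgroup.index_eq_one] at hk
    intro a b
    have hb : b ∈ center Q := by rw [hk]; exact mem_top b
    exact (mem_center_iff.mp hb a)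
  · exfalso; apply hnab
    rw [zero_add, pow_one] at hk
    have hcyc : IsCyclic (Q ⧸ center Q) :=
      isCyclic_of_prime_card (p := p) (by rw [← Subgroup.index_eq_card]; exact hk)
    exact (MonoidHom.isMulCommutative_of_isCyclic_of_ker_le_center (QuotientGroup.mk' (center Q))
      (by rw [QuotientGroup.ker_mk'])).is_comm.comm
  · rw [hk]; exact pow_dvd_pow p (by omega)

/-- the centralizer of a nonidentity element is a maximal subgroup and a `p`-group -/
theorem cent_coatom_pgroup
    (hP : ∀ u : X, u ≠ 1 → (orderOf u).Prime ∧ ∃ M : Subgroup X, IsCoatom M ∧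
      IsPGroup (orderOf u) M ∧ M ≤ centralizer ({u} : Set X))
    (hpg : ¬ ∃ p : ℕ, p.Prime ∧ IsPGroup p X) (u : X) (hu : u ≠ 1) :
    IsCoatom (centralizer ({u} : Set X)) ∧ IsPGroup (orderOf u) (centralizer ({u} : Set X)) := by
  obtain ⟨hp, M, hM, hMp, hMle⟩ := hP u hu
  rcases hM.le_iff.mp hMle with htop | heq
  · exfalso
    have huZ : ∀ v : X, Commute u v := fun v => by
      have hv : v ∈ centralizer ({u} : Set X) := by rw [htop]; exact mem_top v
      exact (mem_centralizer_singleton_iff.mp hv).symm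
    have hex : ∃ q : ℕ, q.Prime ∧ q ∣ Nat.card X ∧ q ≠ orderOf u := by
      by_contra hcon
      apply hpg
      refine ⟨orderOf u, hp, ?_⟩
      have hcard : Nat.card X = orderOf u ^ (Nat.card X).primeFactorsList.length :=
        Nat.eq_prime_pow_of_unique_prime_dvd Nat.card_pos.ne' (fun {d} hd hdvd => by
          by_contra hne; exact hcon ⟨d, hd, hdvd, hne⟩)
      exact IsPGroup.of_card hcard
    obtain ⟨q, hq, hqd, hqne⟩ := hex
    have : Fact q.Prime := ⟨hq⟩
    obtain ⟨v, hv⟩ := exists_prime_orderOf_dvd_card' q hqd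
    have hcop : (orderOf u).Coprime (orderOf v) := by
      rw [hv]; exact (Nat.coprime_primes hp hq).mpr (Ne.symm hqne)
    have hord := (huZ v).orderOf_mul_eq_mul_orderOf_of_coprime hcop
    have huv : u * v ≠ 1 := by
      intro h1
      rw [h1, orderOf_one] at hord
      have h2 : orderOf u = 1 := Nat.eq_one_of_mul_eq_one_right hord.symm
      exact hp.one_lt.ne' h2
    have h3 := (hP (u * v) huv).1
    rw [hord] at h3
    exact Nat.not_prime_mul hp.one_lt.ne' (by rw [hv]; exact hq.one_lt.ne') h3
  · rw [heq]; exact ⟨hM, hMp⟩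

/-- every nontrivial Sylow subgroup is a maximal subgroup -/
theorem sylow_coatom
    (hP : ∀ u : X, u ≠ 1 → (orderOf u).Prime ∧ ∃ M : Subgroup X, IsCoatom M ∧
      IsPGroup (orderOf u) M ∧ M ≤ centralizer ({u} : Set X))
    (hpg : ¬ ∃ p : ℕ, p.Prime ∧ IsPGroup p X) {p : ℕ} [Fact p.Prime] (P : Sylow p X)
    (hne : (P : Subgroup X) ≠ ⊥) : IsCoatom (P : Subgroup X) := by
  have hnt : Nontrivial (P : Subgroup X) := (Subgroup.nontrivial_iff_ne_bot _).mpr hne
  have hcn := P.isPGroup'.center_nontrivial
  obtain ⟨⟨z, hz⟩, hz1⟩ := (Subgroup.ne_bot_iff_exists_ne_one).mp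
    ((Subgroup.nontrivial_iff_ne_bot (center (P : Subgroup X))).mp hcn)
  have hzX : (z : X) ≠ 1 := fun h => hz1 (Subtype.ext (Subtype.ext h))
  obtain ⟨hco, hpg'⟩ := cent_coatom_pgroup hP hpg (z : X) hzX
  have hprime := (hP (z : X) hzX).1
  have hord : orderOf (z : X) = p := by
    obtain ⟨k, hk⟩ := P.isPGroup' z
    have h1 : orderOf (z : X) ∣ p ^ k := by
      apply orderOf_dvd_of_pow_eq_one
      have h2 := congrArg Subtype.val hk
      simpa using h2
    exact (Nat.prime_dvd_prime_iff_eq hprime Fact.out).mp (hprime.dvd_of_dvd_pow h1)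
  rw [hord] at hpg'
  have hle : (P : Subgroup X) ≤ centralizer ({(z : X)} : Set X) := by
    intro y hy
    rw [mem_centralizer_singleton_iff]
    have h3 := (mem_center_iff.mp hz) ⟨y, hy⟩
    exact congrArg Subtype.val h3
  have heq := P.is_maximal' hpg' hle
  rw [← heq]; exact hco

/-- counting the elements of order `p` when the Sylow `p`-subgroups are nonabelian and
not normal -/
theorem count_order_p
    (hP : ∀ u : X, u ≠ 1 → (orderOf u).Prime ∧ ∃ M : Subgroup X, IsCoatom M ∧
      IsPGroup (orderOf u) M ∧ M ≤ centralizer ({u} : Set X))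
    (hpg : ¬ ∃ p : ℕ, p.Prime ∧ IsPGroup p X) {p : ℕ} [Fact p.Prime] (hpd : p ∣ Nat.card X)
    (hnn : ∀ P : Sylow p X, ¬ (P : Subgroup X).Normal)
    (hnab : ∀ P : Sylow p X,
      ¬ ∀ a ∈ (P : Subgroup X), ∀ b ∈ (P : Subgroup X), a * b = b * a) :
    p ^ 2 * Nat.card {u : X // orderOf u = p} < Nat.card X := by
  classical
  have hpp : p.Prime := Fact.out
  have : Fintype (Sylow p X) := Fintype.ofFinite _
  -- each element of order `p` has a Sylow subgroup as centralizer
  have hex : ∀ u : {u : X // orderOf u = p},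
      ∃ Q : Sylow p X, (Q : Subgroup X) = centralizer ({u.1} : Set X) := by
    rintro ⟨u, hu⟩
    have hu1 : u ≠ 1 := by
      intro h1; rw [h1, orderOf_one] at hu; exact hpp.one_lt.ne hu
    obtain ⟨hco, hpg'⟩ := cent_coatom_pgroup hP hpg u hu1
    rw [hu] at hpg'
    obtain ⟨Q, hQ⟩ := hpg'.exists_le_sylow
    refine ⟨Q, ?_⟩
    rcases hco.le_iff.mp hQ with htop | heq
    · exfalso
      apply hpg
      refine ⟨p, hpp, fun x => ?_⟩
      have hx : x ∈ (Q : Subgroup X) := by rw [htop]; exact mem_top x
      obtain ⟨k, hk⟩ := Q.isPGroup' ⟨x, hx⟩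
      exact ⟨k, by simpa using congrArg Subtype.val hk⟩
    · exact heq
  choose f hf using hex
  -- the fibres inject into the centres
  have hfib : ∀ Q : Sylow p X,
      Nat.card {u : {u : X // orderOf u = p} // f u = Q} + 1 ≤ Nat.card (center (Q : Subgroup X)) := by
    intro Q
    have hmem : ∀ u : {u : {u : X // orderOf u = p} // f u = Q}, (u.1.1 : X) ∈ (Q : Subgroup X) := by
      intro u
      have h0 := hf u.1
      rw [u.2] at h0
      rw [h0, mem_centralizer_singleton_iff]
    have hcen : ∀ u : {u : {u : X // orderOf u = p} // f u = Q},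
        (⟨u.1.1, hmem u⟩ : (Q : Subgroup X)) ∈ center (Q : Subgroup X) := by
      intro u
      rw [mem_center_iff]
      rintro ⟨y, hy⟩
      have h0 := hf u.1
      rw [u.2] at h0
      have hy' : y ∈ centralizer ({(u.1.1 : X)} : Set X) := by
        rw [← h0]; exact hy
      exact Subtype.ext (mem_centralizer_singleton_iff.mp hy')
    let g : Option {u : {u : X // orderOf u = p} // f u = Q} → center (Q : Subgroup X) :=
      fun o => match o with
        | none => 1
        | some u => ⟨⟨u.1.1, hmem u⟩, hcen u⟩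
    have hg : Function.Injective g := by
      intro a b hab
      match a, b with
      | none, none => rfl
      | none, some u =>
        exfalso
        have h1 : (u.1.1 : X) = 1 := by
          have := congrArg (fun z : center (Q : Subgroup X) => ((z : (Q : Subgroup X)) : X)) hab
          exact this.symm
        have h2 := u.1.2
        rw [h1, orderOf_one] at h2
        exact hpp.one_lt.ne h2
      | some u, none =>
        exfalso
        have h1 : (u.1.1 : X) = 1 := by
          have := congrArg (fun z : center (Q : Subgroup X) => ((z : (Q : Subgroup X)) : X)) hab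
          exact this
        have h2 := u.1.2
        rw [h1, orderOf_one] at h2
        exact hpp.one_lt.ne h2
      | some u, some v =>
        have h1 : (u.1.1 : X) = v.1.1 := by
          have := congrArg (fun z : center (Q : Subgroup X) => ((z : (Q : Subgroup X)) : X)) hab
          exact this
        exact congrArg some (Subtype.ext (Subtype.ext h1))
    have h1 := Nat.card_le_card_of_injective g hg
    rw [Finite.card_option] at h1
    exact h1
  -- centres are small
  have hcen : ∀ Q : Sylow p X, p ^ 2 * Nat.card (center (Q : Subgroup X)) ≤ Nat.card (Q : Subgroup X) := by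
    intro Q
    have hnabQ : ¬ ∀ a b : (Q : Subgroup X), a * b = b * a := by
      intro hc
      apply hnab Q
      intro a ha b hb
      exact congrArg Subtype.val (hc ⟨a, ha⟩ ⟨b, hb⟩)
    have h1 := sq_dvd_index_center Q.isPGroup' hnabQ
    have h2 := Subgroup.card_mul_index (center (Q : Subgroup X))
    have h3 : p ^ 2 ≤ (center (Q : Subgroup X)).index :=
      Nat.le_of_dvd (Nat.pos_of_ne_zero Subgroup.index_ne_zero_of_finite) h1
    calc p ^ 2 * Nat.card (center (Q : Subgroup X))
        ≤ (center (Q : Subgroup X)).index * Nat.card (center (Q : Subgroup X)) :=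
          Nat.mul_le_mul_right _ h3
      _ = Nat.card (Q : Subgroup X) := by rw [mul_comm, h2]
  -- a fixed Sylow subgroup
  obtain ⟨P₀⟩ : Nonempty (Sylow p X) := inferInstance
  have hP₀ne : (P₀ : Subgroup X) ≠ ⊥ := Sylow.ne_bot_of_dvd_card P₀ hpd
  have hP₀co := sylow_coatom hP hpg P₀ hP₀ne
  have hnorm : normalizer ((P₀ : Subgroup X) : Set X) = P₀ :=
    (hP₀co.le_iff.mp le_normalizer).resolve_left
      (fun h => hnn P₀ (normalizer_eq_top_iff.mp h))
  have hnp : Nat.card (Sylow p X) * Nat.card (P₀ : Subgroup X) = Nat.card X := by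
    have h1 : Nat.card (Sylow p X) = (normalizer ((P₀ : Subgroup X) : Set X)).index :=
      Sylow.card_eq_index_normalizer P₀
    rw [h1, hnorm, Subgroup.index_mul_card]
  have hcardQ : ∀ Q : Sylow p X, Nat.card (Q : Subgroup X) = Nat.card (P₀ : Subgroup X) := by
    intro Q
    rw [Sylow.card_eq_multiplicity, Sylow.card_eq_multiplicity]
  -- total count
  have hsum : Nat.card {u : X // orderOf u = p} =
      ∑ Q : Sylow p X, Nat.card {u : {u : X // orderOf u = p} // f u = Q} := by
    rw [← Nat.card_sigma]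
    exact Nat.card_congr (Equiv.sigmaFiberEquiv f).symm
  have hkey : p ^ 2 * Nat.card {u : X // orderOf u = p} + p ^ 2 * Nat.card (Sylow p X)
      ≤ Nat.card X := by
    have e1 : p ^ 2 * Nat.card {u : X // orderOf u = p} + p ^ 2 * Nat.card (Sylow p X)
        = ∑ Q : Sylow p X,
          (p ^ 2 * Nat.card {u : {u : X // orderOf u = p} // f u = Q} + p ^ 2) := by
      rw [hsum, Finset.mul_sum, Finset.sum_add_distrib, Finset.sum_const, Finset.card_univ,
        smul_eq_mul, Nat.card_eq_fintype_card (α := Sylow p X), mul_comm (Fintype.card _)]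
    have e2 : Nat.card X = ∑ _Q : Sylow p X, Nat.card (P₀ : Subgroup X) := by
      rw [Finset.sum_const, Finset.card_univ, smul_eq_mul, ← hnp,
        Nat.card_eq_fintype_card (α := Sylow p X)]
    rw [e1, e2]
    apply Finset.sum_le_sum
    intro Q _
    have h1 := hfib Q
    have h2 := hcen Q
    rw [hcardQ Q] at h2
    calc p ^ 2 * Nat.card {u : {u : X // orderOf u = p} // f u = Q} + p ^ 2
        = p ^ 2 * (Nat.card {u : {u : X // orderOf u = p} // f u = Q} + 1) := by ring
      _ ≤ p ^ 2 * Nat.card (center (Q : Subgroup X)) := Nat.mul_le_mul_left _ h1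
      _ ≤ Nat.card (P₀ : Subgroup X) := h2
  have hpos : 0 < p ^ 2 * Nat.card (Sylow p X) :=
    Nat.mul_pos (pow_pos hpp.pos 2) Nat.card_pos
  omega

end

section
variable {X : Type*} [Group X] [Finite X]

/-- the quotient by the centre is solvable in case B -/
theorem solvable_of_quot_props
    (hP : ∀ u : X, u ≠ 1 → (orderOf u).Prime ∧ ∃ M : Subgroup X, IsCoatom M ∧
      IsPGroup (orderOf u) M ∧ M ≤ centralizer ({u} : Set X)) : Group.IsSolvable X := by
  by_cases hpg : ∃ p : ℕ, p.Prime ∧ IsPGroup p X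
  · obtain ⟨p, hp, hX⟩ := hpg
    have : Fact p.Prime := ⟨hp⟩
    have := hX.isNilpotent
    infer_instance
  by_cases hnorm : ∃ (p : ℕ) (_ : Fact p.Prime) (P : Sylow p X),
      (P : Subgroup X) ≠ ⊥ ∧ (P : Subgroup X).Normal
  · obtain ⟨p, hp, P, hne, hn⟩ := hnorm
    have hco := sylow_coatom hP hpg P hne
    obtain ⟨g₀, hg₀⟩ : ∃ g, g ∉ (P : Subgroup X) := by
      by_contra hcon
      exact hco.1 (eq_top_iff.mpr fun x _ => by_contra fun hx => hcon ⟨x, hx⟩)
    have hsup : zpowers g₀ ⊔ (P : Subgroup X) = ⊤ :=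
      hco.2 _ (lt_of_le_of_ne le_sup_right
        (fun h => hg₀ (by rw [h]; exact mem_sup_left (mem_zpowers g₀))))
    have hc : commutator X ≤ (P : Subgroup X) := by
      refine Cfsg.Agent.H74.commutator_le_of_sup_eq_top (zpowers g₀) (P : Subgroup X)
        (fun a ha b hb => ?_) hsup
      obtain ⟨i, rfl⟩ := mem_zpowers_iff.mp ha
      obtain ⟨j, rfl⟩ := mem_zpowers_iff.mp hb
      rw [← zpow_add, ← zpow_add, add_comm]
    have := P.isPGroup'.isNilpotent
    exact isSolvable_of_commutator_le (P : Subgroup X) inferInstance hc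
  by_cases hab : ∃ (p : ℕ) (_ : Fact p.Prime) (P : Sylow p X),
      (P : Subgroup X) ≠ ⊥ ∧ ∀ a ∈ (P : Subgroup X), ∀ b ∈ (P : Subgroup X), a * b = b * a
  · obtain ⟨p, hp, P, hne, hPab⟩ := hab
    exact Cfsg.Agent.H74.isSolvable_of_abelian_coatom (P : Subgroup X)
      (sylow_coatom hP hpg P hne) hPab
  exfalso
  have hcard : Nat.card X = 1 := by
    apply card_eq_one_of_counts (fun u hu => (hP u hu).1)
    intro p hp hpd
    have : Fact p.Prime := ⟨hp⟩
    apply count_order_p hP hpg hpd
    · intro P hn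
      exact hnorm ⟨p, ⟨hp⟩, P, Sylow.ne_bot_of_dvd_card P hpd, hn⟩
    · intro P hPab
      exact hab ⟨p, ⟨hp⟩, P, Sylow.ne_bot_of_dvd_card P hpd, hPab⟩
  apply hpg
  exact ⟨2, Nat.prime_two, IsPGroup.of_card (n := 0) (by rw [hcard, pow_zero])⟩

end

/-- Let G be a finite group in which the centralizer of every non-central element is a maximal subgroup of G. Then G is solvable. -/
theorem result {G : Type*} [Group G] [Finite G]
    (h : ∀ g : G, g ∉ Subgroup.center G → IsCoatom (Subgroup.centralizer ({g} : Set G))) :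
    Group.IsSolvable G := by
  classical
  by_cases hA : ∃ x : G, x ∉ Subgroup.center G ∧
      ∀ a ∈ Subgroup.centralizer ({x} : Set G), ∀ b ∈ Subgroup.centralizer ({x} : Set G),
        a * b = b * a
  · obtain ⟨x, hx, hab⟩ := hA
    exact Cfsg.Agent.H74.isSolvable_of_abelian_coatom _ (h x hx) hab
  · have hB : ∀ x : G, x ∉ Subgroup.center G →
        ¬ ∀ a ∈ Subgroup.centralizer ({x} : Set G), ∀ b ∈ Subgroup.centralizer ({x} : Set G),
          a * b = b * a := fun x hx hab => hA ⟨x, hx, hab⟩
    have hX : Group.IsSolvable (G ⧸ Subgroup.center G) :=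
      solvable_of_quot_props (caseB_quot h hB)
    have hZ : Group.IsSolvable (Subgroup.center G) :=
      Group.isSolvable_of_comm (fun a b => Subtype.ext ((Subgroup.mem_center_iff.mp b.2 a)))
    exact Group.isSolvable_of_ker_le_range (Subgroup.center G).subtype
      (QuotientGroup.mk' (Subgroup.center G))
      (by rw [QuotientGroup.ker_mk', Subgroup.range_subtype])

end Cfsg.Agent.S4262
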