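import Cfsg.Statements.S4263

set_option autoImplicit false
open Cfsg

namespace Cfsg.Agent.S4263

open scoped Pointwise

/-- If for every prime `p` some power `z ^ c` with `p ∤ c` lies in `H`, then `z ∈ H`. -/
theorem mem_of_forall_prime_pow_mem {G : Type*} [Group G] [Finite G] (H : Subgroup G) (z : G)
    (h : ∀ p : ℕ, p.Prime → ∃ c : ℕ, ¬ p ∣ c ∧ z ^ c ∈ H) : z ∈ H := by
  classical
  have hex : ∃ k : ℕ, 0 < k ∧ z ^ k ∈ H := ⟨orderOf z, orderOf_pos z, by simp [pow_orderOf_eq_one]⟩
  set d := Nat.find hex with hd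
  have hd1 : 0 < d ∧ z ^ d ∈ H := Nat.find_spec hex
  have hmin : ∀ k, 0 < k → z ^ k ∈ H → d ≤ k := fun k hk hk' => Nat.find_min' hex ⟨hk, hk'⟩
  have hdvd : ∀ k, z ^ k ∈ H → d ∣ k := by
    intro k hk
    by_contra hnd
    have hmod : 0 < k % d := Nat.pos_of_ne_zero (fun h0 => hnd (Nat.dvd_of_mod_eq_zero h0))
    have hmem : z ^ (k % d) ∈ H := by
      have hk2 : z ^ k = z ^ (k % d) * (z ^ d) ^ (k / d) := by
        rw [← pow_mul, ← pow_add, Nat.mod_add_div]
      have h3 : z ^ (k % d) = z ^ k * ((z ^ d) ^ (k / d))⁻¹ := by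
        rw [hk2]; group
      rw [h3]
      exact H.mul_mem hk (H.inv_mem (H.pow_mem hd1.2 _))
    have := hmin _ hmod hmem
    have := Nat.mod_lt k hd1.1
    omega
  by_cases h1 : d = 1
  · have := hd1.2
    rw [h1, pow_one] at this
    exact this
  · exfalso
    obtain ⟨q, hq, hqd⟩ := Nat.exists_prime_and_dvd h1
    obtain ⟨c, hc, hzc⟩ := h q hq
    exact hc (hqd.trans (hdvd c hzc))

/-- In a finite nilpotent group, `x ^ [F : L] ∈ L` for every subgroup `L`. -/
theorem pow_index_mem_of_nilpotent {F : Type*} [Group F] [Finite F] [Group.IsNilpotent F] :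
    ∀ (n : ℕ) (L : Subgroup F), L.index = n → ∀ x : F, x ^ L.index ∈ L := by
  intro n
  induction n using Nat.strong_induction_on with
  | _ n ih =>
    intro L hL x
    by_cases htop : L = ⊤
    · rw [htop]; trivial
    · have hlt : L < ⊤ := lt_top_iff_ne_top.mpr htop
      have hnc := Group.normalizerCondition_of_isNilpotent (G := F) L hlt
      set M := Subgroup.normalizer (L : Set F) with hM
      have hLM : L ≤ M := hnc.le
      have hmul : L.relIndex M * M.index = L.index := Subgroup.relIndex_mul_index hLM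
      have hrel : L.relIndex M ≠ 1 := by
        intro h1
        rw [Subgroup.relIndex_eq_one] at h1
        exact (not_le_of_gt hnc) h1
      have hMpos : 0 < M.index := Nat.pos_of_ne_zero (Subgroup.index_ne_zero_of_finite)
      have hrelpos : 0 < L.relIndex M := by
        rcases Nat.eq_zero_or_pos (L.relIndex M) with h0 | h0
        · rw [h0, zero_mul] at hmul
          exact absurd hmul.symm (Subgroup.index_ne_zero_of_finite)
        · exact h0
      have hMlt : M.index < n := by
        rw [← hL, ← hmul]
        have : 2 ≤ L.relIndex M := by omega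
        nlinarith
      have hxM : x ^ M.index ∈ M := ih M.index hMlt M rfl x
      have : (L.subgroupOf M).Normal := Subgroup.normal_in_normalizer
      have h2 := Subgroup.pow_index_mem (L.subgroupOf M) (⟨x ^ M.index, hxM⟩ : M)
      rw [Subgroup.mem_subgroupOf] at h2
      have h3 : (x ^ M.index) ^ L.relIndex M ∈ L := by
        simpa [Subgroup.relIndex] using h2
      rw [← hmul, mul_comm, pow_mul]
      exact h3

/-- For a normal subgroup `R`, `|R : H ∩ R|` divides `|G : H|`. -/
theorem relIndex_dvd_index_of_normal_right {G : Type*} [Group G] [Finite G] (H R : Subgroup G)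
    [R.Normal] : H.relIndex R ∣ H.index := by
  have h1 : H.relIndex (H ⊔ R) ∣ H.index := Subgroup.relIndex_dvd_index_of_le le_sup_left
  have e1 : (H ⊓ R).relIndex H * H.relIndex (H ⊔ R) = (H ⊓ R).relIndex (H ⊔ R) :=
    Subgroup.relIndex_mul_relIndex _ _ _ inf_le_left le_sup_left
  have e2 : (H ⊓ R).relIndex R * R.relIndex (H ⊔ R) = (H ⊓ R).relIndex (H ⊔ R) :=
    Subgroup.relIndex_mul_relIndex _ _ _ inf_le_right le_sup_right
  have e3 : R.relIndex (H ⊔ R) = R.relIndex H := Subgroup.relIndex_sup_right H R
  have e4 : (H ⊓ R).relIndex H = R.relIndex H := Subgroup.inf_relIndex_left H R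
  have e5 : (H ⊓ R).relIndex R = H.relIndex R := Subgroup.inf_relIndex_right H R
  have hpos : 0 < R.relIndex H := Nat.pos_of_ne_zero (Subgroup.index_ne_zero_of_finite)
  have : H.relIndex (H ⊔ R) = H.relIndex R := by
    rw [e3, e5] at e2
    rw [e4] at e1
    have : R.relIndex H * H.relIndex (H ⊔ R) = R.relIndex H * H.relIndex R := by
      rw [e1, ← e2, mul_comm]
    exact Nat.eq_of_mul_eq_mul_left hpos this
  rw [← this]
  exact h1

/-- For a normal nilpotent subgroup `N` and `x ∈ N`, `x ^ [G : H] ∈ H` for every subgroup `H`. -/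
theorem pow_index_mem_of_mem_normal_nilpotent {G : Type*} [Group G] [Finite G] (N : Subgroup G)
    [N.Normal] (hN : Group.IsNilpotent N) (H : Subgroup G) (x : G) (hx : x ∈ N) :
    x ^ H.index ∈ H := by
  have h1 := pow_index_mem_of_nilpotent (F := N) _ (H.subgroupOf N) rfl ⟨x, hx⟩
  rw [Subgroup.mem_subgroupOf] at h1
  have h2 : x ^ H.relIndex N ∈ H := by simpa [Subgroup.relIndex] using h1
  obtain ⟨k, hk⟩ := relIndex_dvd_index_of_normal_right H N
  rw [hk, pow_mul]
  exact H.pow_mem h2 k

/-- A join of normal subgroups of order prime to `p` has order prime to `p`. -/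
theorem coprime_card_sSup {G : Type*} [Group G] [Finite G] (p : ℕ) (S : Set (Subgroup G)) :
    (∀ N ∈ S, N.Normal ∧ (Nat.card N).Coprime p) →
      (sSup S).Normal ∧ (Nat.card ↥(sSup S)).Coprime p := by
  have hfin : S.Finite := Set.toFinite S
  induction S, hfin using Set.Finite.induction_on with
  | empty =>
    intro _
    refine ⟨by rw [sSup_empty]; infer_instance, ?_⟩
    rw [sSup_empty]
    simp
  | @insert a s ha hs ih =>
    intro h
    have h1 := ih (fun N hN => h N (Set.mem_insert_of_mem _ hN))
    have h2 := h a (Set.mem_insert _ _)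
    rw [sSup_insert]
    have := h1.1
    have := h2.1
    refine ⟨inferInstance, ?_⟩
    set K := sSup s with hK
    have e1 : K.relIndex (a ⊔ K) = K.relIndex a := Subgroup.relIndex_sup_right a K
    have e2 : Nat.card K * K.relIndex (a ⊔ K) = Nat.card ↥(a ⊔ K) := by
      have := Subgroup.relIndex_mul_relIndex (⊥ : Subgroup G) K (a ⊔ K) bot_le le_sup_right
      simpa [Subgroup.relIndex_bot_left] using this
    have e3 : K.relIndex a ∣ Nat.card a := Subgroup.relIndex_dvd_card K a
    rw [← e2, e1]
    exact Nat.Coprime.mul_left h1.2 (Nat.Coprime.coprime_dvd_left e3 h2.2)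

/-- The image of a normal nilpotent subgroup in `G / O_p(G)` has order prime to `p`. -/
theorem coprime_card_map_mk_pCore {G : Type*} [Group G] [Finite G] (p : ℕ) [Fact p.Prime]
    (R : Subgroup G) [R.Normal] (hR : ∀ N : Subgroup G, N.Normal → IsPGroup p N → N ≤ R)
    (N : Subgroup G) [N.Normal] (hN : Group.IsNilpotent N) :
    (Nat.card (N.map (QuotientGroup.mk' R))).Coprime p := by
  obtain ⟨P⟩ : Nonempty (Sylow p N) := inferInstance
  have hPn : (P : Subgroup N).Normal :=
    (Group.isNilpotent_of_finite_tfae (G := N)).out 0 3 rfl rfl |>.mp hN p inferInstance P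
  have hPc : (P : Subgroup N).Characteristic := Sylow.characteristic_of_normal P hPn
  have hQn : ((P : Subgroup N).map N.subtype).Normal := inferInstance
  have hQp : IsPGroup p ((P : Subgroup N).map N.subtype) := P.isPGroup'.map N.subtype
  have hQR : (P : Subgroup N).map N.subtype ≤ R := hR _ hQn hQp
  have e1 : Nat.card (N.map (QuotientGroup.mk' R)) = R.relIndex N := by
    rw [← Subgroup.relIndex_ker, QuotientGroup.ker_mk']
  have e2 : R.relIndex N ∣ ((P : Subgroup N).map N.subtype).relIndex N :=
    Subgroup.relIndex_dvd_of_le_left N hQR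
  have e3 : ((P : Subgroup N).map N.subtype).relIndex N = (P : Subgroup N).index := by
    rw [Subgroup.relIndex]
    congr 1
    ext x
    simp [Subgroup.mem_subgroupOf]
  have e4 : ¬ p ∣ (P : Subgroup N).index := P.not_dvd_index
  rw [e1]
  have hp : p.Prime := Fact.out
  rw [Nat.coprime_comm, hp.coprime_iff_not_dvd]
  intro hdvd
  exact e4 (e3 ▸ (hdvd.trans e2))

/-- Let G be a finite group. An element x lies in the Fitting subgroup F(G) if and only if, for every subgroup H of G, the power x^[G : H] lies in H. -/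
theorem result {G : Type*} [Group G] [Finite G] (x : G) :
    x ∈ Cfsg.fittingSubgroup G ↔ ∀ H : Subgroup G, x ^ H.index ∈ H := by
  constructor
  · intro hx H
    apply mem_of_forall_prime_pow_mem
    intro p hp
    have : Fact p.Prime := ⟨hp⟩
    -- the p-core
    set R : Subgroup G := sSup {N : Subgroup G | N.Normal ∧ IsPGroup p N} with hRdef
    have hRn : R.Normal := Subgroup.sSup_normal _ (fun _ h => h.1)
    have hRp : IsPGroup p R := Sylow.sSup_of_normal _ (fun _ h => h.2) (fun _ h => h.1)
    have hRmax : ∀ N : Subgroup G, N.Normal → IsPGroup p N → N ≤ R :=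
      fun N h1 h2 => le_sSup ⟨h1, h2⟩
    -- the p'-core of the quotient
    set K : Subgroup (G ⧸ R) := sSup {N : Subgroup (G ⧸ R) | N.Normal ∧ (Nat.card N).Coprime p}
      with hKdef
    have hK := coprime_card_sSup p {N : Subgroup (G ⧸ R) | N.Normal ∧ (Nat.card N).Coprime p}
      (fun N hN => hN)
    have hFK : Cfsg.fittingSubgroup G ≤ K.comap (QuotientGroup.mk' R) := by
      apply sSup_le
      rintro N ⟨hNn, hNnil⟩
      rw [← Subgroup.map_le_iff_le_comap]
      apply le_sSup
      have := hNn
      exact ⟨hNn.map _ (QuotientGroup.mk'_surjective R), coprime_card_map_mk_pCore p R hRmax N hNnil⟩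
    have hxK : QuotientGroup.mk' R x ∈ K := hFK hx
    refine ⟨Nat.card K, ?_, ?_⟩
    · have := hK.2
      rw [Nat.coprime_comm, hp.coprime_iff_not_dvd] at this
      exact this
    · have h1 : (⟨QuotientGroup.mk' R x, hxK⟩ : K) ^ Nat.card K = 1 := pow_card_eq_one'
      have h2 : (QuotientGroup.mk' R x) ^ Nat.card K = 1 := by
        have h := congrArg (Subtype.val) h1
        rwa [Subgroup.coe_pow, Subgroup.coe_one] at h
      have h3 : x ^ Nat.card K ∈ R := by
        rw [← QuotientGroup.eq_one_iff, ← h2]
        rfl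
      have h4 := pow_index_mem_of_mem_normal_nilpotent R hRp.isNilpotent H _ h3
      rw [← pow_mul, mul_comm, pow_mul] at h4
      exact h4
  · intro h
    apply mem_of_forall_prime_pow_mem
    intro p hp
    have : Fact p.Prime := ⟨hp⟩
    obtain ⟨P₀⟩ : Nonempty (Sylow p G) := inferInstance
    refine ⟨(P₀ : Subgroup G).index, P₀.not_dvd_index, ?_⟩
    -- x ^ index lies in every Sylow p-subgroup
    set K : Subgroup G := ⨅ P : Sylow p G, (P : Subgroup G) with hKdef
    have hxK : x ^ (P₀ : Subgroup G).index ∈ K := by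
      rw [hKdef, Subgroup.mem_iInf]
      intro P
      have hidx : (P : Subgroup G).index = (P₀ : Subgroup G).index := by
        have h1 := (P : Subgroup G).card_mul_index
        have h2 := (P₀ : Subgroup G).card_mul_index
        have h3 : Nat.card (P : Subgroup G) = Nat.card (P₀ : Subgroup G) := by
          rw [Sylow.card_eq_multiplicity, Sylow.card_eq_multiplicity]
        rw [h3, ← h2] at h1
        exact Nat.eq_of_mul_eq_mul_left Nat.card_pos h1
      rw [← hidx]
      exact h P
    have hKn : K.Normal := by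
      constructor
      intro n hn g
      rw [hKdef, Subgroup.mem_iInf] at hn ⊢
      intro P
      have h5 : n ∈ (MulAut.conj g⁻¹ • (P : Subgroup G)) := by
        rw [← Sylow.coe_subgroup_smul]; exact hn (g⁻¹ • P)
      rw [Subgroup.mem_pointwise_smul_iff_inv_smul_mem] at h5
      simpa using h5
    have hKp : IsPGroup p K := P₀.isPGroup'.to_le (iInf_le _ P₀)
    have hKF : K ≤ Cfsg.fittingSubgroup G := le_sSup ⟨hKn, hKp.isNilpotent⟩
    exact hKF hxK

end Cfsg.Agent.S4263
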