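import Cfsg.Statements.S4269
import Cfsg.Agent.H75.Pronormal

set_option autoImplicit false
open Cfsg

namespace Cfsg.Agent.S4269

open Cfsg.Agent.H75
open scoped commutatorElement

/-- Let G be a finite group, V an abelian normal subgroup and H a subgroup with HV = G. Then H is pronormal in G (H and gHg⁻¹ are conjugate inside the subgroup they generate, for every g) if and only if every H-invariant subgroup U of V satisfies U = N_U(H)·[H, U], that is, U is the join of U ∩ N_G(H) and the commutator subgroup [H, U]. -/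
theorem result {G : Type*} [Group G] [Finite G]
    (V : Subgroup G) [V.Normal] (hV : IsMulCommutative ↥V) (H : Subgroup G) (hHV : H ⊔ V = ⊤) :
    Cfsg.IsPronormal H ↔
      ∀ U : Subgroup G, U ≤ V → (∀ h ∈ H, U.map (MulAut.conj h).toMonoidHom = U) →
        U = (U ⊓ Subgroup.normalizer (H : Set G)) ⊔ ⁅H, U⁆ := by
  have hVcomm : ∀ a ∈ V, ∀ b ∈ V, a * b = b * a := by
    intro a ha b hb
    have := hV.is_comm.comm (⟨a, ha⟩ : V) ⟨b, hb⟩
    exact congrArg Subtype.val this
  constructor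
  · intro hP U hUV hinv
    have hinv' := forall_mem_of_conjMap_eq hinv
    have hWU : ⁅H, U⁆ ≤ U := by
      rw [Subgroup.commutator_le]
      intro h hh u hu
      rw [commutatorElement_def]
      exact U.mul_mem (hinv' h hh u hu) (U.inv_mem hu)
    apply le_antisymm _ (sup_le inf_le_left hWU)
    intro u hu
    obtain ⟨x, hx, hxeq⟩ := hP u
    have hHW : H ≤ Subgroup.normalizer ((⁅H, U⁆ : Subgroup G) : Set G) := by
      intro h' hh'
      rw [Subgroup.mem_normalizer_iff_map_conj_eq]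
      rw [Subgroup.map_commutator]
      have e1 : Subgroup.map ((MulAut.conj h' : G ≃* G) : G →* G) H = H := conjMap_of_mem hh'
      have e2 : Subgroup.map ((MulAut.conj h' : G ≃* G) : G →* G) U = U := hinv h' hh'
      rw [e1, e2]
    have hle : H ⊔ H.map (MulAut.conj u).toMonoidHom ≤ ⁅H, U⁆ ⊔ H := by
      apply sup_le le_sup_right
      intro y hy
      rw [mem_conjMap] at hy
      have h1 : ⁅u, u⁻¹ * y * u⁆ ∈ ⁅H, U⁆ := by
        rw [Subgroup.commutator_comm]
        exact Subgroup.commutator_mem_commutator hu hy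
      have h2 : y = ⁅u, u⁻¹ * y * u⁆ * (u⁻¹ * y * u) := by
        rw [commutatorElement_def]; group
      rw [h2]
      exact Subgroup.mul_mem _ (Subgroup.mem_sup_left h1) (Subgroup.mem_sup_right hy)
    have hx' : x ∈ ((⁅H, U⁆ ⊔ H : Subgroup G) : Set G) := hle hx
    rw [Subgroup.coe_mul_of_right_le_normalizer_left _ _ hHW] at hx'
    obtain ⟨w, hw, h, hh, rfl⟩ := hx'
    have hw' : w ∈ ⁅H, U⁆ := hw
    have hh' : h ∈ H := hh
    rw [conjMap_mul_of_mem_right w hh'] at hxeq
    have hn : w⁻¹ * u ∈ Subgroup.normalizer (H : Set G) := by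
      rw [mem_normalizer_iff_conjMap, conjMap_mul, hxeq, conjMap_inv_conjMap]
    have hu2 : u = w * (w⁻¹ * u) := by group
    rw [hu2]
    refine Subgroup.mul_mem _ (Subgroup.mem_sup_right hw') (Subgroup.mem_sup_left ⟨?_, hn⟩)
    exact U.mul_mem (U.inv_mem (hWU hw')) hu
  · intro hcond g
    have hg : g ∈ V ⊔ H := by rw [sup_comm, hHV]; trivial
    rw [Subgroup.mem_sup_of_normal_left] at hg
    obtain ⟨v, hv, h, hh, rfl⟩ := hg
    rw [conjMap_mul_of_mem_right v hh]
    set D : Subgroup G := H ⊔ H.map (MulAut.conj v).toMonoidHom with hD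
    -- the smallest H-invariant subgroup containing v
    let S : Set G := Set.range fun h : H => (h : G) * v * (h : G)⁻¹
    let U : Subgroup G := Subgroup.closure S
    have hSV : S ⊆ V := by
      rintro _ ⟨h, rfl⟩
      exact Subgroup.Normal.conj_mem inferInstance v hv _
    have hUV : U ≤ V := (Subgroup.closure_le V).mpr hSV
    have hvU : v ∈ U := by
      apply Subgroup.subset_closure
      exact ⟨1, by simp⟩
    have hUinv' : ∀ h ∈ H, ∀ u ∈ U, h * u * h⁻¹ ∈ U := by
      intro h hh u hu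
      have hmap : U.map (MulAut.conj h).toMonoidHom ≤ U := by
        rw [MonoidHom.map_closure, Subgroup.closure_le]
        rintro _ ⟨_, ⟨h', rfl⟩, rfl⟩
        apply Subgroup.subset_closure
        refine ⟨⟨h, hh⟩ * h', ?_⟩
        simp [MulAut.conj_apply, mul_assoc]
      apply hmap
      rw [mem_conjMap]
      simpa [mul_assoc] using hu
    have hUinv := conjMap_eq_of_forall_mem hUinv'
    have hU := hcond U hUV hUinv
    -- [H, v] ⊆ D
    have hcomm_v : ∀ a ∈ H, a * v * a⁻¹ * v⁻¹ ∈ D := by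
      intro a ha
      have h1 : v * a⁻¹ * v⁻¹ ∈ H.map (MulAut.conj v).toMonoidHom := by
        rw [mem_conjMap]
        simpa [mul_assoc] using H.inv_mem ha
      have h2 : a * v * a⁻¹ * v⁻¹ = a * (v * a⁻¹ * v⁻¹) := by group
      rw [h2]
      exact D.mul_mem (Subgroup.mem_sup_left ha) (Subgroup.mem_sup_right h1)
    -- [H, U] ≤ D
    let T : Subgroup G :=
      { carrier := {u | u ∈ V ∧ ∀ a ∈ H, a * u * a⁻¹ * u⁻¹ ∈ D}
        mul_mem' := by
          rintro x y ⟨hxV, hx⟩ ⟨hyV, hy⟩
          refine ⟨V.mul_mem hxV hyV, fun a ha => ?_⟩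
          have hc1 : a * y * a⁻¹ * y⁻¹ ∈ V :=
            V.mul_mem (Subgroup.Normal.conj_mem inferInstance y hyV a) (V.inv_mem hyV)
          have hc2 := hVcomm (a * y * a⁻¹ * y⁻¹) hc1 x⁻¹ (V.inv_mem hxV)
          have h3 : a * (x * y) * a⁻¹ * (x * y)⁻¹
              = (a * x * a⁻¹ * x⁻¹) * (a * y * a⁻¹ * y⁻¹) := by
            calc a * (x * y) * a⁻¹ * (x * y)⁻¹
                = a * x * a⁻¹ * ((a * y * a⁻¹ * y⁻¹) * x⁻¹) := by group
              _ = a * x * a⁻¹ * (x⁻¹ * (a * y * a⁻¹ * y⁻¹)) := by rw [hc2]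
              _ = (a * x * a⁻¹ * x⁻¹) * (a * y * a⁻¹ * y⁻¹) := by group
          rw [h3]
          exact D.mul_mem (hx a ha) (hy a ha)
        one_mem' := ⟨V.one_mem, fun a _ => by simp⟩
        inv_mem' := by
          rintro x ⟨hxV, hx⟩
          refine ⟨V.inv_mem hxV, fun a ha => ?_⟩
          have hc1 : a * x⁻¹ * a⁻¹ ∈ V :=
            Subgroup.Normal.conj_mem inferInstance x⁻¹ (V.inv_mem hxV) a
          have hc2 := hVcomm (a * x⁻¹ * a⁻¹) hc1 x hxV
          have h3 : a * x⁻¹ * a⁻¹ * x⁻¹⁻¹ = (a * x * a⁻¹ * x⁻¹)⁻¹ := by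
            calc a * x⁻¹ * a⁻¹ * x⁻¹⁻¹ = (a * x⁻¹ * a⁻¹) * x := by group
              _ = x * (a * x⁻¹ * a⁻¹) := hc2
              _ = (a * x * a⁻¹ * x⁻¹)⁻¹ := by group
          rw [h3]
          exact D.inv_mem (hx a ha) }
    have hST : S ⊆ T := by
      rintro _ ⟨h', rfl⟩
      refine ⟨hSV ⟨h', rfl⟩, fun a ha => ?_⟩
      have e : a * ((h' : G) * v * (h' : G)⁻¹) * a⁻¹ * ((h' : G) * v * (h' : G)⁻¹)⁻¹
          = ((a * h') * v * (a * h')⁻¹ * v⁻¹) * ((h' : G) * v * (h' : G)⁻¹ * v⁻¹)⁻¹ := by group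
      rw [e]
      exact D.mul_mem (hcomm_v _ (H.mul_mem ha h'.2)) (D.inv_mem (hcomm_v _ h'.2))
    have hUT : U ≤ T := (Subgroup.closure_le T).mpr hST
    have hWD : ⁅H, U⁆ ≤ D := by
      rw [Subgroup.commutator_le]
      intro a ha u hu
      rw [commutatorElement_def]
      exact (hUT hu).2 a ha
    have hWU : ⁅H, U⁆ ≤ U := by
      rw [Subgroup.commutator_le]
      intro h hh u hu
      rw [commutatorElement_def]
      exact U.mul_mem (hUinv' h hh u hu) (U.inv_mem hu)
    -- decompose v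
    have hnorm : (U ⊓ Subgroup.normalizer (H : Set G)) ≤ Subgroup.normalizer ((⁅H, U⁆ : Subgroup G) : Set G) := by
      intro n hn
      rw [Subgroup.mem_normalizer_iff]
      intro w
      constructor
      · intro hw
        have : n * w * n⁻¹ = w := by
          rw [hVcomm n (hUV hn.1) w (hUV (hWU hw))]; group
        rw [this]; exact hw
      · intro hw
        have hwV : n * w * n⁻¹ ∈ V := hUV (hWU hw)
        have hwV' : w ∈ V := by
          have := Subgroup.Normal.conj_mem (inferInstance : V.Normal) _ hwV n⁻¹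
          simpa [mul_assoc] using this
        have : n * w * n⁻¹ = w := by
          rw [hVcomm n (hUV hn.1) w hwV']; group
        rw [this] at hw; exact hw
    have hv2 : v ∈ (((U ⊓ Subgroup.normalizer (H : Set G)) ⊔ ⁅H, U⁆ : Subgroup G) : Set G) := by
      rw [← hU]; exact hvU
    rw [Subgroup.coe_mul_of_left_le_normalizer_right _ _ hnorm] at hv2
    obtain ⟨n, hn, w, hw, hnw⟩ := hv2
    have hn' : n ∈ U ⊓ Subgroup.normalizer (H : Set G) := hn
    have hw' : w ∈ ⁅H, U⁆ := hw
    have hvw : v = w * n := by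
      rw [← hnw]
      exact hVcomm n (hUV hn'.1) w (hUV (hWU hw'))
    refine ⟨w, hWD hw', ?_⟩
    rw [hvw, conjMap_mul_of_mem_normalizer w hn'.2]

end Cfsg.Agent.S4269
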