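-- Statement S4274: a group of order 175560 is simple or has a normal Sylow 19-subgroup.
-- helper26 assembly; pieces by helper16 (B, ACT), helper44 (A, RED), helper56 (C, E),
-- helper73 (D), helper59 (F, G, 760), helper54 (H).
import Cfsg.Statements.S4274
import Cfsg.Agent.H26.Census19
import Cfsg.Agent.H59.Ord760
import Cfsg.Agent.H44.Ord175560A
import Cfsg.Agent.H44.Ord175560Red
import Cfsg.Agent.H16.Ord175560B
import Cfsg.Agent.H16.Ord175560Act
import Cfsg.Agent.H56.Ord175560C
import Cfsg.Agent.H56.Ord175560E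
import Cfsg.Agent.H73.Ord15960
import Cfsg.Agent.H59.Ord35112
import Cfsg.Agent.H59.Ord58520
import Cfsg.Agent.H54.Ord175560H

set_option autoImplicit false
open Cfsg

namespace Cfsg.Agent.S4274

/-- No non-cyclic simple group has order `19 * m` with `m` a proper divisor of `9240`. -/
theorem no_simple_19m {H : Type*} [Group H] [Finite H] [IsSimpleGroup H] (hnc : ¬ IsCyclic H)
    (m : ℕ) (hm : m ∣ 9240) (hm' : m ≠ 9240) (h : Nat.card H = 19 * m) : False := by
  rcases Cfsg.Agent.H26.Census19.census m hm hm' with ⟨p, hp⟩ | ⟨p, hp⟩ | hsp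
  · rw [← h] at hp
    exact Cfsg.Agent.H11.not_sylowKills hnc p hp
  · rw [← h] at hp
    exact Cfsg.Agent.H11.not_burnsideKills hnc p hp
  · rw [← h] at hsp
    simp only [Cfsg.Agent.H26.Census19.special, List.mem_cons, List.not_mem_nil, or_false] at hsp
    rcases hsp with h' | h' | h' | h' | h' | h' | h' | h' | h' | h' | h' | h'
    · exact Cfsg.Agent.H59.Ord760.no_simple_760 h'
    · exact Cfsg.Agent.H44.Ord175560.no_simple_2280 h'
    · exact Cfsg.Agent.H44.Ord175560.no_simple_5320 h'
    · exact Cfsg.Agent.H16.Ord175560.no_simple_5852 h'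
    · exact Cfsg.Agent.H56.Ord175560.no_simple_7980 h'
    · exact Cfsg.Agent.H16.Ord175560.no_simple_11704 h'
    · exact Cfsg.Agent.H73.Ord175560.no_simple_15960 h'
    · exact Cfsg.Agent.H56.Ord175560.no_simple_17556 h'
    · exact Cfsg.Agent.H16.Ord175560.no_simple_29260 h'
    · exact Cfsg.Agent.H59.Ord175560.no_simple_35112 h'
    · exact Cfsg.Agent.H59.Ord175560.no_simple_58520 h'
    · exact Cfsg.Agent.H54.Ord175560.no_simple_87780 h'

/-- A finite group of order 175560 = 2³·3·5·7·11·19 is either simple or has a normal Sylow 19-subgroup. -/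
theorem result {G : Type*} [Group G] [Finite G] (hG : Nat.card G = 175560) : IsSimpleGroup G ∨ ∀ P : Sylow 19 G, (P : Subgroup G).Normal :=
  Cfsg.Agent.H44.Ord175560.reduction
    (fun H _ _ _ hnc m hm hm' h => no_simple_19m hnc m hm hm' h)
    (fun H _ _ N _ hN x hx => Cfsg.Agent.H16.Ord175560.act_trivial N hN x hx)
    9240 (dvd_refl _) (by rw [hG])

end Cfsg.Agent.S4274
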