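import Mathlib
import Cfsg.Statements.S4304
import Cfsg.Agent.H70.N15b
import Cfsg.Agent.H70.N15c

set_option autoImplicit false
open Cfsg

namespace Cfsg.Agent.S4304

open Cfsg.Agent.H70.N15 in
/-- No finite group has exactly 15 Sylow 7-subgroups. -/
theorem result {G : Type*} [Group G] [Finite G] : Nat.card (Sylow 7 G) ≠ 15 := by
  intro h15
  have hp7 : Fact (Nat.Prime 7) := ⟨by norm_num⟩
  obtain ⟨O, hO⟩ := part1 h15
  obtain ⟨P0⟩ : Nonempty (Sylow 7 G) := inferInstance
  have hnt : Nontrivial (Sylow 7 G) := by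
    rw [← Finite.one_lt_card_iff_nontrivial, h15]; norm_num
  obtain ⟨Q0, hQ0⟩ := exists_ne P0
  have hOle : ∀ R : Sylow 7 G, O ≤ (R : Subgroup G) := by
    intro R
    obtain ⟨Q, hQ⟩ := exists_ne R
    rw [← (hO R Q hQ.symm).1]
    exact inf_le_left
  have hPN : ∀ P Q : Sylow 7 G, P ≠ Q →
      (P : Subgroup G) ⊓ Subgroup.normalizer ((Q : Subgroup G) : Set G) ≤ O := by
    intro P Q hne
    rw [← (hO P Q hne).1]
    exact le_inf inf_le_left (inf_normalizer_le P Q)
  have hφ : ∀ (g : G) (R : Sylow 7 G), (MulAction.toPermHom G (Sylow 7 G)) g R = g • R :=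
    fun g R => rfl
  have hOker : ∀ g ∈ O, (MulAction.toPermHom G (Sylow 7 G)) g = 1 := by
    intro g hg
    apply Equiv.ext
    intro R
    rw [hφ, Equiv.Perm.one_apply, smul_eq_iff]
    exact Subgroup.le_normalizer (hOle R hg)
  have hsm : ∀ (g : G) (R : Sylow 7 G),
      ((MulAction.toPermHom G (Sylow 7 G)).rangeRestrict g) • R = g • R := fun g R => rfl
  have hfaith : ∀ y : ↥(MulAction.toPermHom G (Sylow 7 G)).range,
      (∀ ω : Sylow 7 G, y • ω = ω) → y = 1 := by
    intro y hy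
    apply Subtype.ext
    apply Equiv.ext
    intro R
    exact hy R
  have htrans : ∀ a b : Sylow 7 G, ∃ y : ↥(MulAction.toPermHom G (Sylow 7 G)).range,
      y • a = b := by
    intro a b
    obtain ⟨g, hg⟩ := MulAction.exists_smul_eq G a b
    exact ⟨(MulAction.toPermHom G (Sylow 7 G)).rangeRestrict g, (hsm g a).trans hg⟩
  have h49 : ¬ 49 ∣ Nat.card ↥(MulAction.toPermHom G (Sylow 7 G)).range := by
    intro h
    have h1 : Nat.card (MulAction.toPermHom G (Sylow 7 G)).ker *
        Nat.card ↥(MulAction.toPermHom G (Sylow 7 G)).range = Nat.card G := by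
      rw [← Subgroup.index_ker]; exact Subgroup.card_mul_index _
    have h2 : Nat.card O ∣ Nat.card (MulAction.toPermHom G (Sylow 7 G)).ker :=
      Subgroup.card_dvd_of_le (fun g hg => MonoidHom.mem_ker.mpr (hOker g hg))
    have h3 : Nat.card (P0 : Subgroup G) = 7 ^ (Nat.card G).factorization 7 :=
      Sylow.card_eq_multiplicity P0
    have h4 := (hO P0 Q0 hQ0.symm).2
    have h5 : 7 ^ ((Nat.card G).factorization 7 + 1) ∣ Nat.card G := by
      rw [pow_succ, ← h3, h4, ← h1]
      obtain ⟨a, ha⟩ := h2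
      obtain ⟨b, hb⟩ := h
      rw [ha, hb]
      exact ⟨a * b, by ring⟩
    exact Nat.pow_succ_factorization_not_dvd (Nat.card_pos.ne') (by norm_num) h5
  have hU : Nat.card ((P0 : Subgroup G).map
      (MulAction.toPermHom G (Sylow 7 G)).rangeRestrict) = 7 := by
    have h1 : Nat.card ((P0 : Subgroup G).map
        (MulAction.toPermHom G (Sylow 7 G)).rangeRestrict) ∣ Nat.card (P0 : Subgroup G) :=
      Subgroup.card_map_dvd _ _
    obtain ⟨n, hn⟩ := IsPGroup.iff_card.mp P0.isPGroup'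
    rw [hn] at h1
    obtain ⟨j, hj, hcj⟩ := (Nat.dvd_prime_pow (by norm_num)).mp h1
    have h2 : Nat.card ((P0 : Subgroup G).map
        (MulAction.toPermHom G (Sylow 7 G)).rangeRestrict) ∣
        Nat.card ↥(MulAction.toPermHom G (Sylow 7 G)).range :=
      Subgroup.card_subgroup_dvd_card _
    rcases j with _ | _ | j
    · exfalso
      rw [pow_zero, Subgroup.card_eq_one] at hcj
      have hle : (P0 : Subgroup G) ≤ Subgroup.normalizer ((Q0 : Subgroup G) : Set G) := by
        intro g hg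
        have h3 : (MulAction.toPermHom G (Sylow 7 G)).rangeRestrict g ∈
            (P0 : Subgroup G).map (MulAction.toPermHom G (Sylow 7 G)).rangeRestrict :=
          Subgroup.mem_map_of_mem _ hg
        rw [hcj, Subgroup.mem_bot] at h3
        rw [← smul_eq_iff, ← hsm, h3, one_smul]
      have hle2 : (P0 : Subgroup G) ≤ Q0 :=
        (le_inf le_rfl hle).trans (inf_normalizer_le P0 Q0)
      exact hQ0 (sylow_eq_of_le P0 Q0 hle2).symm
    · rw [hcj]; norm_num
    · exfalso
      apply h49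
      rw [hcj] at h2
      exact (pow_dvd_pow 7 (by omega : 2 ≤ j + 1 + 1)).trans h2
  have hfix : ∀ u ∈ (P0 : Subgroup G).map (MulAction.toPermHom G (Sylow 7 G)).rangeRestrict,
      u • P0 = P0 := by
    intro u hu
    obtain ⟨g, hg, rfl⟩ := Subgroup.mem_map.mp hu
    rw [hsm, smul_eq_iff]
    exact Subgroup.le_normalizer hg
  have hsemi : ∀ u ∈ (P0 : Subgroup G).map (MulAction.toPermHom G (Sylow 7 G)).rangeRestrict,
      u ≠ 1 → ∀ ω : Sylow 7 G, u • ω = ω → ω = P0 := by
    intro u hu hu1 Q hQ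
    by_contra hne
    obtain ⟨g, hg, rfl⟩ := Subgroup.mem_map.mp hu
    rw [hsm, smul_eq_iff] at hQ
    have hgO : g ∈ O := hPN P0 Q (Ne.symm hne) ⟨hg, hQ⟩
    apply hu1
    apply Subtype.ext
    exact hOker g hgO
  have hnorm : ∀ y : ↥(MulAction.toPermHom G (Sylow 7 G)).range, y • P0 = P0 →
      ∀ u ∈ (P0 : Subgroup G).map (MulAction.toPermHom G (Sylow 7 G)).rangeRestrict,
        y * u * y⁻¹ ∈ (P0 : Subgroup G).map (MulAction.toPermHom G (Sylow 7 G)).rangeRestrict := by
    intro y hy u hu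
    obtain ⟨g, rfl⟩ := (MulAction.toPermHom G (Sylow 7 G)).rangeRestrict_surjective y
    obtain ⟨h, hh, rfl⟩ := Subgroup.mem_map.mp hu
    rw [hsm, smul_eq_iff, Subgroup.mem_normalizer_iff] at hy
    refine Subgroup.mem_map.mpr ⟨g * h * g⁻¹, (hy h).mp hh, ?_⟩
    rw [map_mul, map_mul, map_inv]
  exact main_lemma h15 hfaith htrans h49 _ hU P0 hfix hsemi hnorm

end Cfsg.Agent.S4304
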