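import Cfsg.Statements.S4332

set_option autoImplicit false
open Cfsg
open Pointwise

namespace Cfsg.Agent.S4332

open Equiv Equiv.Perm

variable {α : Type*} [Fintype α] [DecidableEq α]

/-- A three-cycle on three distinct points with support exactly those points. -/
theorem exists_threeCycle_support (x y z : α) (hxy : x ≠ y) (hxz : x ≠ z) (hyz : y ≠ z) :
    ∃ τ : Perm α, τ.IsThreeCycle ∧ τ.support = {x, y, z} := by
  refine ⟨swap x y * swap y z, ?_, ?_⟩
  · rw [← card_support_eq_three_iff, support_swap_mul_swap (by simp [hxy, hxz, hyz])]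
    rw [Finset.card_insert_of_notMem (by simp [hxy, hxz]), Finset.card_pair hyz]
  · exact support_swap_mul_swap (by simp [hxy, hxz, hyz])

/-- Case A: three fixed points. -/
theorem caseA (c : Perm α) (x y z : α) (hxy : x ≠ y) (hxz : x ≠ z) (hyz : y ≠ z)
    (hx : c x = x) (hy : c y = y) (hz : c z = z) :
    ∃ τ : Perm α, τ.IsThreeCycle ∧ Commute τ (c * τ * c⁻¹) := by
  obtain ⟨τ, hτ, hs⟩ := exists_threeCycle_support x y z hxy hxz hyz
  refine ⟨τ, hτ, ?_⟩
  have hd : Perm.Disjoint c τ := by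
    rw [disjoint_iff_disjoint_support, hs, Finset.disjoint_left]
    intro a ha hmem
    rw [mem_support] at ha
    simp only [Finset.mem_insert, Finset.mem_singleton] at hmem
    rcases hmem with rfl | rfl | rfl
    · exact ha hx
    · exact ha hy
    · exact ha hz
  have : c * τ * c⁻¹ = τ := by
    rw [hd.commute.eq, mul_inv_cancel_right]
  rw [this]

/-- Case C: three points moved off themselves. -/
theorem caseC (c : Perm α) (x y z : α) (hxy : x ≠ y) (hxz : x ≠ z) (hyz : y ≠ z)
    (hx : c x ≠ x ∧ c x ≠ y ∧ c x ≠ z) (hy : c y ≠ x ∧ c y ≠ y ∧ c y ≠ z)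
    (hz : c z ≠ x ∧ c z ≠ y ∧ c z ≠ z) :
    ∃ τ : Perm α, τ.IsThreeCycle ∧ Commute τ (c * τ * c⁻¹) := by
  obtain ⟨τ, hτ, hs⟩ := exists_threeCycle_support x y z hxy hxz hyz
  refine ⟨τ, hτ, ?_⟩
  have hd : Perm.Disjoint τ (c * τ * c⁻¹) := by
    rw [disjoint_iff_disjoint_support, support_conj, hs, Finset.disjoint_left]
    intro a ha hmem
    simp only [Finset.mem_map, Finset.mem_insert, Finset.mem_singleton,
      Equiv.coe_toEmbedding] at hmem ha
    obtain ⟨b, hb, rfl⟩ := hmem
    rcases hb with rfl | rfl | rfl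
    · rcases ha with h | h | h
      · exact hx.1 h
      · exact hx.2.1 h
      · exact hx.2.2 h
    · rcases ha with h | h | h
      · exact hy.1 h
      · exact hy.2.1 h
      · exact hy.2.2 h
    · rcases ha with h | h | h
      · exact hz.1 h
      · exact hz.2.1 h
      · exact hz.2.2 h
  exact hd.commute

omit [Fintype α] in
theorem swap_identity (a b d : α) (hab : a ≠ b) (had : a ≠ d) (_hbd : b ≠ d) :
    swap b d * swap d a = swap a b * swap b d := by
  rw [mul_swap_eq_swap_mul, swap_apply_right, swap_apply_of_ne_of_ne hab had, swap_comm b a]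

/-- Case B: an orbit of size three. -/
theorem caseB (c : Perm α) (x : α) (hx : c x ≠ x) (h3 : c (c (c x)) = x) :
    ∃ τ : Perm α, τ.IsThreeCycle ∧ Commute τ (c * τ * c⁻¹) := by
  have h1 : x ≠ c x := fun h => hx h.symm
  have h2 : c x ≠ c (c x) := fun h => h1 (c.injective h)
  have h3' : x ≠ c (c x) := by
    intro h
    apply hx
    have : c x = c (c (c x)) := congrArg c h
    rw [this, h3]
  refine ⟨swap x (c x) * swap (c x) (c (c x)), ?_, ?_⟩
  · rw [← card_support_eq_three_iff, support_swap_mul_swap (by simp [h1, h2, h3'])]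
    rw [Finset.card_insert_of_notMem (by simp [h1, h3']), Finset.card_pair h2]
  · have : c * (swap x (c x) * swap (c x) (c (c x))) * c⁻¹
        = swap x (c x) * swap (c x) (c (c x)) := by
      have e1 : c * swap x (c x) = swap (c x) (c (c x)) * c := mul_swap_eq_swap_mul c x (c x)
      have e2 : c * swap (c x) (c (c x)) = swap (c (c x)) x * c := by
        rw [mul_swap_eq_swap_mul, h3]
      calc c * (swap x (c x) * swap (c x) (c (c x))) * c⁻¹
          = (c * swap x (c x)) * swap (c x) (c (c x)) * c⁻¹ := by simp only [mul_assoc]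
        _ = swap (c x) (c (c x)) * (c * swap (c x) (c (c x))) * c⁻¹ := by
            rw [e1]; simp only [mul_assoc]
        _ = swap (c x) (c (c x)) * swap (c (c x)) x := by
            rw [e2]; simp only [mul_assoc, mul_inv_cancel, mul_one]
        _ = swap x (c x) * swap (c x) (c (c x)) := swap_identity x (c x) (c (c x)) h1 h3' h2
    rw [this]

theorem exists_threeCycle_commute (c : Perm α) (hcard : 8 ≤ Fintype.card α) :
    ∃ τ : Perm α, τ.IsThreeCycle ∧ Commute τ (c * τ * c⁻¹) := by
  by_cases hfix : 2 < (Finset.univ \ c.support).card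
  · obtain ⟨x, y, z, hx, hy, hz, hxy, hxz, hyz⟩ := Finset.two_lt_card_iff.mp hfix
    simp only [Finset.mem_sdiff, Finset.mem_univ, true_and, mem_support, not_not] at hx hy hz
    exact caseA c x y z hxy hxz hyz hx hy hz
  have hsupp : 6 ≤ c.support.card := by
    have h1 := Finset.card_sdiff_add_card_eq_card (Finset.subset_univ c.support)
    rw [Finset.card_univ] at h1
    omega
  by_cases hB : ∃ x, c x ≠ x ∧ c (c (c x)) = x
  · obtain ⟨x, hx, h3⟩ := hB
    exact caseB c x hx h3
  push Not at hB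
  by_cases h2 : ∃ x, c x ≠ x ∧ c (c x) ≠ x
  · obtain ⟨x, hx, hx2⟩ := h2
    have hx3 := hB x hx
    -- pick z in the support outside five points
    have hex : ∃ z ∈ c.support, z ∉ ({c⁻¹ x, x, c x, c (c x), c (c (c x))} : Finset α) := by
      by_contra hcon
      push Not at hcon
      have hsub : c.support ⊆ ({c⁻¹ x, x, c x, c (c x), c (c (c x))} : Finset α) := hcon
      have := Finset.card_le_card hsub
      have h5 : ({c⁻¹ x, x, c x, c (c x), c (c (c x))} : Finset α).card ≤ 5 :=
        Finset.card_le_five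
      omega
    obtain ⟨z, hzs, hz⟩ := hex
    simp only [Finset.mem_insert, Finset.mem_singleton, not_or] at hz
    obtain ⟨hz0, hz1, hz2, hz3, hz4⟩ := hz
    rw [mem_support] at hzs
    refine caseC c x (c (c x)) z (fun h => hx2 h.symm) (fun h => hz1 h.symm)
      (fun h => hz3 h.symm) ⟨hx, ?_, fun h => hz2 h.symm⟩ ⟨hx3, ?_, fun h => hz4 h.symm⟩
      ⟨?_, ?_, hzs⟩
    · intro h
      exact hx (c.injective h).symm
    · intro h
      exact hx (c.injective (c.injective h))
    · intro h
      apply hz0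
      rw [← h]
      simp
    · intro h
      exact hz2 (c.injective h)
  · push Not at h2
    -- all moved points have orbits of size two
    have hne : c.support.Nonempty := by
      rw [← Finset.card_pos]; omega
    obtain ⟨x, hxs⟩ := hne
    have hx : c x ≠ x := mem_support.mp hxs
    have hexy : ∃ y ∈ c.support, y ∉ ({x, c x} : Finset α) := by
      by_contra hcon
      push Not at hcon
      have hsub : c.support ⊆ ({x, c x} : Finset α) := hcon
      have := Finset.card_le_card hsub
      have h5 : ({x, c x} : Finset α).card ≤ 2 := Finset.card_le_two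
      omega
    obtain ⟨y, hys, hy⟩ := hexy
    have hexz : ∃ z ∈ c.support, z ∉ ({x, c x, y, c y} : Finset α) := by
      by_contra hcon
      push Not at hcon
      have hsub : c.support ⊆ ({x, c x, y, c y} : Finset α) := hcon
      have := Finset.card_le_card hsub
      have h5 : ({x, c x, y, c y} : Finset α).card ≤ 4 := Finset.card_le_four
      omega
    obtain ⟨z, hzs, hz⟩ := hexz
    simp only [Finset.mem_insert, Finset.mem_singleton, not_or] at hy hz
    obtain ⟨hy0, hy1⟩ := hy
    obtain ⟨hz0, hz1, hz2, hz3⟩ := hz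
    rw [mem_support] at hys hzs
    have hxx := h2 x hx
    have hyy := h2 y hys
    have hzz := h2 z hzs
    refine caseC c x y z (fun h => hy0 h.symm) (fun h => hz0 h.symm) (fun h => hz2 h.symm)
      ⟨hx, fun h => hy1 h.symm, fun h => hz1 h.symm⟩ ⟨?_, hys, fun h => hz3 h.symm⟩
      ⟨?_, ?_, hzs⟩
    · intro h
      apply hy1
      rw [← h, hyy]
    · intro h
      apply hz1
      rw [← h, hzz]
    · intro h
      apply hz3
      rw [← h, hzz]

theorem subnormal_of_commute {G : Type*} [Group G] (s t : G) (h : Commute s t) :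
    ((Subgroup.zpowers s).subgroupOf (Subgroup.zpowers s ⊔ Subgroup.zpowers t)).IsSubnormal := by
  apply Subgroup.Normal.isSubnormal
  have hle : Subgroup.zpowers s ⊔ Subgroup.zpowers t ≤ Subgroup.centralizer {s} := by
    rw [sup_le_iff, Subgroup.zpowers_le, Subgroup.zpowers_le,
      Subgroup.mem_centralizer_singleton_iff, Subgroup.mem_centralizer_singleton_iff]
    exact ⟨rfl, h.eq.symm⟩
  constructor
  rintro ⟨n, hn⟩ hmem ⟨g, hg⟩
  rw [Subgroup.mem_subgroupOf] at hmem ⊢
  simp only [Subgroup.coe_mul, Subgroup.coe_inv] at hmem ⊢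
  obtain ⟨k, rfl⟩ := Subgroup.mem_zpowers_iff.mp hmem
  have hgs : Commute g s := Subgroup.mem_centralizer_singleton_iff.mp (hle hg)
  have : g * s ^ k * g⁻¹ = s ^ k := by
    rw [(hgs.zpow_right k).eq, mul_inv_cancel_right]
  rw [this]
  exact Subgroup.zpow_mem_zpowers s k

theorem conj_smul_zpowers {G : Type*} [Group G] (g s : G) :
    MulAut.conj g • Subgroup.zpowers s = Subgroup.zpowers (g * s * g⁻¹) := by
  ext x
  rw [Subgroup.mem_pointwise_smul_iff_inv_smul_mem]
  simp only [MulAut.smul_def, MulAut.conj_inv_apply]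
  constructor
  · intro hx
    obtain ⟨k, hk⟩ := Subgroup.mem_zpowers_iff.mp hx
    rw [Subgroup.mem_zpowers_iff]
    refine ⟨k, ?_⟩
    rw [conj_zpow, hk]
    group
  · intro hx
    obtain ⟨k, hk⟩ := Subgroup.mem_zpowers_iff.mp hx
    rw [Subgroup.mem_zpowers_iff]
    refine ⟨k, ?_⟩
    rw [← hk, conj_zpow]
    group

theorem pCore_three_perm : Cfsg.pCore 3 (Perm (Fin 8)) = ⊥ := by
  unfold Cfsg.pCore
  rw [sSup_eq_bot]
  rintro N ⟨hN, hp⟩
  by_contra hne
  have hnt : Nontrivial N := (Subgroup.nontrivial_iff_ne_bot N).mpr hne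
  have hle := alternatingGroup_le_of_normal (α := Fin 8) (by simp) hnt
  have hmem : (swap (0 : Fin 8) 1 * swap (2 : Fin 8) 3) ∈ N := by
    apply hle
    rw [mem_alternatingGroup]
    decide
  obtain ⟨k, hk⟩ := hp ⟨_, hmem⟩
  have h2 : (⟨swap (0 : Fin 8) 1 * swap (2 : Fin 8) 3, hmem⟩ : N) ^ 2 = 1 := by
    apply Subtype.ext
    simp only [Subgroup.coe_pow, Subgroup.coe_one]
    decide
  have hdvd1 : orderOf (⟨swap (0 : Fin 8) 1 * swap (2 : Fin 8) 3, hmem⟩ : N) ∣ 2 :=
    orderOf_dvd_of_pow_eq_one h2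
  have hdvd2 : orderOf (⟨swap (0 : Fin 8) 1 * swap (2 : Fin 8) 3, hmem⟩ : N) ∣ 3 ^ k :=
    orderOf_dvd_of_pow_eq_one hk
  have hcop : Nat.Coprime 2 (3 ^ k) := Nat.Coprime.pow_right k (by norm_num)
  have h1 : orderOf (⟨swap (0 : Fin 8) 1 * swap (2 : Fin 8) 3, hmem⟩ : N) = 1 :=
    Nat.eq_one_of_dvd_coprimes hcop hdvd1 hdvd2
  rw [orderOf_eq_one_iff] at h1
  have : swap (0 : Fin 8) 1 * swap (2 : Fin 8) 3 = 1 := congrArg Subtype.val h1
  revert this
  decide

/-- In the symmetric group of degree 8, let A be the subgroup generated by a 3-cycle. Then every conjugacy class contains an element g for which A is subnormal in the subgroup generated by A and its conjugate by g, although O_3 of the symmetric group of degree 8 is trivial. -/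
theorem result
    (σ : Equiv.Perm (Fin 8)) (hσ : σ.IsThreeCycle) :
    (∀ c : Equiv.Perm (Fin 8), ∃ g : Equiv.Perm (Fin 8), IsConj c g ∧
      ((Subgroup.zpowers σ).subgroupOf (Subgroup.zpowers σ ⊔ MulAut.conj g • Subgroup.zpowers σ)).IsSubnormal) ∧
    Cfsg.pCore 3 (Equiv.Perm (Fin 8)) = ⊥ := by
  refine ⟨?_, pCore_three_perm⟩
  intro c
  obtain ⟨τ, hτ, hcomm⟩ := exists_threeCycle_commute c (by simp)
  have hconj : IsConj τ σ := by
    rw [isConj_iff_cycleType_eq, hτ.cycleType, hσ.cycleType]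
  obtain ⟨h, hh⟩ := isConj_iff.mp hconj
  refine ⟨h * c * h⁻¹, isConj_iff.mpr ⟨h, rfl⟩, ?_⟩
  rw [conj_smul_zpowers]
  apply subnormal_of_commute
  have e1 : (h * c * h⁻¹) * σ * (h * c * h⁻¹)⁻¹ = h * (c * τ * c⁻¹) * h⁻¹ := by
    rw [← hh]; group
  rw [e1, ← hh]
  have := hcomm.eq
  show h * τ * h⁻¹ * (h * (c * τ * c⁻¹) * h⁻¹) = h * (c * τ * c⁻¹) * h⁻¹ * (h * τ * h⁻¹)
  calc h * τ * h⁻¹ * (h * (c * τ * c⁻¹) * h⁻¹) = h * (τ * (c * τ * c⁻¹)) * h⁻¹ := by group
    _ = h * ((c * τ * c⁻¹) * τ) * h⁻¹ := by rw [this]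
    _ = h * (c * τ * c⁻¹) * h⁻¹ * (h * τ * h⁻¹) := by group

end Cfsg.Agent.S4332
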