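import Cfsg.Statements.S4331
import Cfsg.Agent.H76.SD16
import Cfsg.Agent.S4332

set_option autoImplicit false
open Cfsg

namespace Cfsg.Agent.S4331

open Cfsg.Agent.H76

/-- the plane over `F_3` as a multiplicative group -/
abbrev N := Multiplicative SD16.V

/-- the action of an element of `SD16` as an additive automorphism -/
def actEquiv (h : SD16) : SD16.V ≃+ SD16.V where
  toFun := SD16.act h
  invFun := SD16.act h⁻¹
  left_inv v := by rw [← SD16.act_mul, inv_mul_cancel, SD16.act_one]
  right_inv v := by rw [← SD16.act_mul, mul_inv_cancel, SD16.act_one]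
  map_add' := SD16.act_add h

/-- the action as a homomorphism into the automorphism group -/
def φ : SD16 →* MulAut N where
  toFun h := AddEquiv.toMultiplicative (actEquiv h)
  map_one' := by
    refine MulEquiv.ext fun v => ?_
    exact congrArg Multiplicative.ofAdd (SD16.act_one (Multiplicative.toAdd v))
  map_mul' h h' := by
    refine MulEquiv.ext fun v => ?_
    exact congrArg Multiplicative.ofAdd (SD16.act_mul h h' (Multiplicative.toAdd v))

/-- the group `AΓL(1, 9)` of order 144 -/
abbrev G := N ⋊[φ] SD16

instance : Finite G := Finite.of_equiv _ SemidirectProduct.equivProd.symm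

/-- the Frobenius involution -/
def a : G := SemidirectProduct.inr SD16.s

theorem a_sq : a ^ 2 = 1 := by
  unfold a
  rw [← map_pow, SD16.s_sq, map_one]

theorem a_ne_one : a ≠ 1 := by
  intro h
  have : SD16.s = 1 := SemidirectProduct.inr_injective (h.trans (map_one _).symm)
  exact SD16.s_ne_one this

theorem card_A : Nat.card (Subgroup.zpowers a) = 2 := by
  rw [Nat.card_zpowers]
  exact orderOf_eq_prime a_sq a_ne_one

theorem isPGroup_SD16 : IsPGroup 2 SD16 :=
  IsPGroup.of_card (n := 4) (by rw [Nat.card_eq_fintype_card, SD16.card_eq]; norm_num)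

theorem solvable_G : Group.IsSolvable G := by
  have : Group.IsSolvable SD16 := by
    have := isPGroup_SD16.isNilpotent
    infer_instance
  exact Group.isSolvable_of_ker_le_range (SemidirectProduct.inl : N →* G)
    SemidirectProduct.rightHom (by rw [SemidirectProduct.range_inl_eq_ker_rightHom])

/-- Every subgroup of a finite nilpotent group is subnormal. -/
theorem isSubnormal_of_isNilpotent {K : Type*} [Group K] [Finite K] [Group.IsNilpotent K]
    (H : Subgroup K) : H.IsSubnormal := by
  have key : ∀ n : ℕ, ∀ H : Subgroup K, Nat.card K - Nat.card H = n → H.IsSubnormal := by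
    intro n
    induction n using Nat.strong_induction_on with
    | _ n ih =>
      intro H hH
      by_cases htop : H = ⊤
      · rw [htop]
        exact Subgroup.IsSubnormal.top
      · have hlt : H < Subgroup.normalizer (H : Set K) :=
          Group.normalizerCondition_of_isNilpotent H (lt_top_iff_ne_top.mpr htop)
        have h1 : Nat.card H < Nat.card (Subgroup.normalizer (H : Set K)) := by
          by_contra hcon
          push Not at hcon
          exact (ne_of_lt hlt) (Subgroup.eq_of_le_of_card_ge hlt.le hcon)
        have h2 := Subgroup.card_le_card_group (Subgroup.normalizer (H : Set K))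
        exact Subgroup.IsSubnormal.step H _ hlt.le
          (ih (Nat.card K - Nat.card (Subgroup.normalizer (H : Set K))) (by omega) _ rfl)
          Subgroup.normal_in_normalizer
  exact key _ H rfl

theorem commute_a_of (g : G) (l : SD16.V) (hl : g.left = Multiplicative.ofAdd l)
    (h1 : SD16.act SD16.s l = l) (h2 : g.right * SD16.s = SD16.s * g.right) : Commute a g := by
  show a * g = g * a
  apply SemidirectProduct.ext
  · rw [SemidirectProduct.mul_left, SemidirectProduct.mul_left, hl]
    show (1 : N) * Multiplicative.ofAdd (SD16.act SD16.s l) = Multiplicative.ofAdd l * φ g.right 1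
    rw [h1, map_one, one_mul, mul_one]
  · rw [SemidirectProduct.mul_right, SemidirectProduct.mul_right]
    exact h2.symm

theorem conj_claim (c : G) : ∃ g : G, IsConj c g ∧
    ((Subgroup.zpowers a).subgroupOf (Subgroup.zpowers a ⊔ Subgroup.zpowers g)).IsSubnormal := by
  obtain ⟨k, m, hkm⟩ := SD16.key (Multiplicative.toAdd c.left) c.right
  let x : G := ⟨Multiplicative.ofAdd m, k⟩
  have hleft : (x * c * x⁻¹).left =
      Multiplicative.ofAdd (SD16.conjLeft k m c.right (Multiplicative.toAdd c.left)) := by
    simp only [SemidirectProduct.mul_left, SemidirectProduct.mul_right,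
      SemidirectProduct.inv_left]
    rfl
  have hright : (x * c * x⁻¹).right = k * c.right * k⁻¹ := rfl
  refine ⟨x * c * x⁻¹, isConj_iff.mpr ⟨x, rfl⟩, ?_⟩
  rcases hkm with h0 | ⟨h1, h2⟩
  · -- the conjugate lies in the complement, a 2-group
    have hg : x * c * x⁻¹ ∈ (SemidirectProduct.inr : SD16 →* G).range := by
      refine ⟨(x * c * x⁻¹).right, ?_⟩
      apply SemidirectProduct.ext
      · rw [SemidirectProduct.left_inr, hleft, h0]
        rfl
      · rw [SemidirectProduct.right_inr]
    have ha : a ∈ (SemidirectProduct.inr : SD16 →* G).range := ⟨SD16.s, rfl⟩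
    have hle : Subgroup.zpowers a ⊔ Subgroup.zpowers (x * c * x⁻¹) ≤
        (SemidirectProduct.inr : SD16 →* G).range := by
      rw [sup_le_iff, Subgroup.zpowers_le, Subgroup.zpowers_le]
      exact ⟨ha, hg⟩
    have hP : IsPGroup 2 (SemidirectProduct.inr : SD16 →* G).range :=
      isPGroup_SD16.of_surjective (SemidirectProduct.inr : SD16 →* G).rangeRestrict
        (MonoidHom.rangeRestrict_surjective _)
    have hJ : IsPGroup 2 ↥(Subgroup.zpowers a ⊔ Subgroup.zpowers (x * c * x⁻¹)) := hP.to_le hle
    have := hJ.isNilpotent
    exact isSubnormal_of_isNilpotent _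
  · -- the conjugate commutes with `a`
    apply Cfsg.Agent.S4332.subnormal_of_commute
    rw [← hright] at h2
    exact commute_a_of _ _ hleft h1 h2

theorem not_le_pCore : ¬ Subgroup.zpowers a ≤ Cfsg.pCore 2 G := by
  intro hle
  have hN3 : IsPGroup 3 (SemidirectProduct.inl : N →* G).range := by
    have h9 : IsPGroup 3 N := IsPGroup.of_card (n := 2) (by
      rw [Nat.card_eq_fintype_card]
      rfl)
    exact h9.of_surjective (SemidirectProduct.inl : N →* G).rangeRestrict
      (MonoidHom.rangeRestrict_surjective _)
  have hNn : (SemidirectProduct.inl : N →* G).range.Normal := by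
    rw [SemidirectProduct.range_inl_eq_ker_rightHom]
    infer_instance
  have hcore : Cfsg.pCore 2 G ≤
      Subgroup.centralizer ((SemidirectProduct.inl : N →* G).range : Set G) := by
    unfold Cfsg.pCore
    apply sSup_le
    rintro K ⟨hKn, hKp⟩
    intro x hx
    rw [Subgroup.mem_centralizer_iff]
    intro y hy
    have hdis : Disjoint K (SemidirectProduct.inl : N →* G).range :=
      IsPGroup.disjoint_of_ne 2 3 (by norm_num) K _ hKp hN3
    exact (Subgroup.commute_of_normal_of_disjoint K _ hKn hNn hdis x y hx hy).eq.symm
  have ha : a ∈ Subgroup.centralizer ((SemidirectProduct.inl : N →* G).range : Set G) :=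
    hcore (hle (Subgroup.mem_zpowers a))
  rw [Subgroup.mem_centralizer_iff] at ha
  have h1 := ha (SemidirectProduct.inl (Multiplicative.ofAdd ((0, 1) : SD16.V))) ⟨_, rfl⟩
  have h2 := congrArg SemidirectProduct.left h1
  rw [SemidirectProduct.mul_left, SemidirectProduct.mul_left] at h2
  have h3 : Multiplicative.ofAdd ((0, 1) : SD16.V) =
      Multiplicative.ofAdd (SD16.act SD16.s ((0, 1) : SD16.V)) := by
    have h4 : (Multiplicative.ofAdd ((0, 1) : SD16.V) : N) =
        φ SD16.s (Multiplicative.ofAdd ((0, 1) : SD16.V)) := by
      simpa [a] using h2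
    exact h4
  exact SD16.act_s_ne (Multiplicative.ofAdd.injective h3).symm

/-- There is a finite solvable group G with a subgroup A of order 2 such that every conjugacy class of G contains an element g for which A is subnormal in the subgroup generated by A and g, and yet A is not contained in O_2(G). (So the corresponding criteria for odd primes fail at the prime 2, even for solvable groups.) -/
theorem result :
    ∃ (G : Type) (_ : Group G) (_ : Finite G) (A : Subgroup G), Group.IsSolvable G ∧ Nat.card A = 2 ∧
      (∀ c : G, ∃ g : G, IsConj c g ∧ (A.subgroupOf (A ⊔ Subgroup.zpowers g)).IsSubnormal) ∧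
      ¬ A ≤ Cfsg.pCore 2 G :=
  ⟨G, inferInstance, inferInstance, Subgroup.zpowers a, solvable_G, card_A, conj_claim,
    not_le_pCore⟩

end Cfsg.Agent.S4331
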