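import Cfsg.Statements.S4337
import Cfsg.Agent.H76.PermSolvable

set_option autoImplicit false
open Cfsg

namespace Cfsg.Agent.S4337

open Cfsg.Agent.H76 Equiv Equiv.Perm

theorem card_union_three {α : Type*} [DecidableEq α] (A B C : Finset α) (hA : A.card = 2)
    (hB : B.card = 2) (hC : C.card = 2) (h1 : ¬ Disjoint C (A ∪ B)) (h2 : ¬ Disjoint B (A ∪ C))
    (h3 : ¬ Disjoint A (B ∪ C)) : (A ∪ B ∪ C).card ≤ 4 := by
  have e1 := Finset.card_union_add_card_inter (A ∪ B) C
  have e2 := Finset.card_union_add_card_inter A B
  by_cases hAB : Disjoint A B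
  · -- `C` meets both `A` and `B`
    have hBC : ¬ Disjoint B C := by
      intro h
      exact h2 (Finset.disjoint_union_right.mpr ⟨hAB.symm, h⟩)
    have hAC : ¬ Disjoint A C := by
      intro h
      exact h3 (Finset.disjoint_union_right.mpr ⟨hAB, h⟩)
    have h4 : 2 ≤ ((A ∪ B) ∩ C).card := by
      rw [Finset.union_inter_distrib_right, Finset.card_union_of_disjoint]
      · have ha : 0 < (A ∩ C).card := by
          rw [Finset.card_pos]
          exact Finset.not_disjoint_iff_nonempty_inter.mp hAC
        have hb : 0 < (B ∩ C).card := by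
          rw [Finset.card_pos]
          exact Finset.not_disjoint_iff_nonempty_inter.mp hBC
        omega
      · exact Finset.disjoint_of_subset_left Finset.inter_subset_left
          (Finset.disjoint_of_subset_right Finset.inter_subset_left hAB)
    omega
  · have h4 : 0 < (A ∩ B).card := by
      rw [Finset.card_pos]
      exact Finset.not_disjoint_iff_nonempty_inter.mp hAB
    have h5 : 0 < ((A ∪ B) ∩ C).card := by
      rw [Finset.card_pos]
      exact Finset.not_disjoint_iff_nonempty_inter.mp (fun h => h1 h.symm)
    omega

theorem solvable_two {α : Type*} [Fintype α] [DecidableEq α] (a b : Perm α)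
    (h : (a.support ∪ b.support).card ≤ 4) :
    Group.IsSolvable (Subgroup.closure ({a, b} : Set (Perm α))) := by
  apply isSolvable_of_support_subset _ (a.support ∪ b.support) h
  have hle : Subgroup.closure ({a, b} : Set (Perm α)) ≤
      fixingSubgroup (Perm α) ((↑(a.support ∪ b.support) : Set α)ᶜ) := by
    rw [Subgroup.closure_le]
    intro g hg
    rw [SetLike.mem_coe, mem_fixingSubgroup_iff]
    intro y hy
    by_contra hne
    apply hy
    rcases hg with rfl | rfl
    · exact Finset.mem_coe.mpr (Finset.mem_union_left _ (mem_support.mpr hne))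
    · exact Finset.mem_coe.mpr (Finset.mem_union_right _ (mem_support.mpr hne))
  intro g hg x hx
  have := (mem_fixingSubgroup_iff (Perm α)).mp (hle hg)
  by_contra hxX
  exact hx (this x hxX)

theorem solvable_three_small {α : Type*} [Fintype α] [DecidableEq α] (a b c : Perm α)
    (h : (a.support ∪ b.support ∪ c.support).card ≤ 4) :
    Group.IsSolvable (Subgroup.closure ({a, b, c} : Set (Perm α))) := by
  apply isSolvable_of_support_subset _ (a.support ∪ b.support ∪ c.support) h
  have hle : Subgroup.closure ({a, b, c} : Set (Perm α)) ≤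
      fixingSubgroup (Perm α) ((↑(a.support ∪ b.support ∪ c.support) : Set α)ᶜ) := by
    rw [Subgroup.closure_le]
    intro g hg
    rw [SetLike.mem_coe, mem_fixingSubgroup_iff]
    intro y hy
    by_contra hne
    apply hy
    rcases hg with rfl | rfl | rfl
    · exact Finset.mem_coe.mpr
        (Finset.mem_union_left _ (Finset.mem_union_left _ (mem_support.mpr hne)))
    · exact Finset.mem_coe.mpr
        (Finset.mem_union_left _ (Finset.mem_union_right _ (mem_support.mpr hne)))
    · exact Finset.mem_coe.mpr (Finset.mem_union_right _ (mem_support.mpr hne))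
  intro g hg x hx
  have := (mem_fixingSubgroup_iff (Perm α)).mp (hle hg)
  by_contra hxX
  exact hx (this x hxX)

theorem solvable_three_disjoint {α : Type*} [Fintype α] [DecidableEq α] (a b c : Perm α)
    (h : (a.support ∪ b.support).card ≤ 4) (hca : Commute a c) (hcb : Commute b c) :
    Group.IsSolvable (Subgroup.closure ({a, b, c} : Set (Perm α))) := by
  have h1 : Group.IsSolvable (Subgroup.closure ({a, b} : Set (Perm α))) := solvable_two a b h
  have h2 : Group.IsSolvable (Subgroup.zpowers c) :=
    Group.isSolvable_of_comm (fun x y => by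
      obtain ⟨x, hx⟩ := x
      obtain ⟨y, hy⟩ := y
      obtain ⟨i, rfl⟩ := Subgroup.mem_zpowers_iff.mp hx
      obtain ⟨j, rfl⟩ := Subgroup.mem_zpowers_iff.mp hy
      exact Subtype.ext (zpow_mul_comm c i j))
  have hcomm : ∀ (x : Subgroup.closure ({a, b} : Set (Perm α))) (y : Subgroup.zpowers c),
      Commute ((Subgroup.closure ({a, b} : Set (Perm α))).subtype x)
        ((Subgroup.zpowers c).subtype y) := by
    rintro ⟨x, hx⟩ ⟨y, hy⟩
    obtain ⟨k, rfl⟩ := Subgroup.mem_zpowers_iff.mp hy
    have hx' : x ∈ Subgroup.centralizer ({c} : Set (Perm α)) := by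
      have hle : Subgroup.closure ({a, b} : Set (Perm α)) ≤
          Subgroup.centralizer ({c} : Set (Perm α)) := by
        rw [Subgroup.closure_le]
        intro g hg
        rw [SetLike.mem_coe, Subgroup.mem_centralizer_singleton_iff]
        rcases hg with rfl | rfl
        · exact hca.eq
        · exact hcb.eq
      exact hle hx
    have hxc : Commute x c := Subgroup.mem_centralizer_singleton_iff.mp hx'
    exact hxc.zpow_right k
  let ψ := MonoidHom.noncommCoprod (Subgroup.closure ({a, b} : Set (Perm α))).subtype
    (Subgroup.zpowers c).subtype hcomm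
  have hrange : Group.IsSolvable ψ.range :=
    Group.isSolvable_of_surjective (f := ψ.rangeRestrict) ψ.rangeRestrict_surjective
  have hle : Subgroup.closure ({a, b, c} : Set (Perm α)) ≤ ψ.range := by
    rw [Subgroup.closure_le]
    intro g hg
    rcases hg with rfl | rfl | rfl
    · exact ⟨(⟨g, Subgroup.subset_closure (by simp)⟩, 1), by simp [ψ]⟩
    · exact ⟨(⟨g, Subgroup.subset_closure (by simp)⟩, 1), by simp [ψ]⟩
    · exact ⟨(1, ⟨g, Subgroup.mem_zpowers g⟩), by simp [ψ]⟩
  exact Group.isSolvable_of_isSolvable_injective (Subgroup.inclusion_injective hle)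

theorem commute_of_disjoint_support {α : Type*} [Fintype α] [DecidableEq α] (a b c : Perm α)
    (h : Disjoint c.support (a.support ∪ b.support)) : Commute a c ∧ Commute b c := by
  rw [Finset.disjoint_union_right] at h
  exact ⟨(disjoint_iff_disjoint_support.mpr h.1.symm).commute,
    (disjoint_iff_disjoint_support.mpr h.2.symm).commute⟩

/-- In a finite symmetric group, any three transpositions generate a solvable subgroup. -/
theorem result (n : ℕ) (a b c : Equiv.Perm (Fin n))
    (ha : a.IsSwap) (hb : b.IsSwap) (hc : c.IsSwap) :
    Group.IsSolvable (Subgroup.closure ({a, b, c} : Set (Equiv.Perm (Fin n)))) := by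
  have hA : a.support.card = 2 := card_support_eq_two.mpr ha
  have hB : b.support.card = 2 := card_support_eq_two.mpr hb
  have hC : c.support.card = 2 := card_support_eq_two.mpr hc
  by_cases h1 : Disjoint c.support (a.support ∪ b.support)
  · obtain ⟨hca, hcb⟩ := commute_of_disjoint_support a b c h1
    refine solvable_three_disjoint a b c ?_ hca hcb
    have := Finset.card_union_le a.support b.support
    omega
  by_cases h2 : Disjoint b.support (a.support ∪ c.support)
  · obtain ⟨hba, hbc⟩ := commute_of_disjoint_support a c b h2
    have e : ({a, b, c} : Set (Equiv.Perm (Fin n))) = {a, c, b} := by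
      ext g; simp only [Set.mem_insert_iff, Set.mem_singleton_iff]; tauto
    rw [e]
    refine solvable_three_disjoint a c b ?_ hba hbc
    have := Finset.card_union_le a.support c.support
    omega
  by_cases h3 : Disjoint a.support (b.support ∪ c.support)
  · obtain ⟨hab, hac⟩ := commute_of_disjoint_support b c a h3
    have e : ({a, b, c} : Set (Equiv.Perm (Fin n))) = {b, c, a} := by
      ext g; simp only [Set.mem_insert_iff, Set.mem_singleton_iff]; tauto
    rw [e]
    refine solvable_three_disjoint b c a ?_ hab hac
    have := Finset.card_union_le b.support c.support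
    omega
  exact solvable_three_small a b c (card_union_three _ _ _ hA hB hC h1 h2 h3)

end Cfsg.Agent.S4337
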