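import Cfsg.Statements.S4341
import Cfsg.Agent.H76.SylowCount

set_option autoImplicit false
open Cfsg

namespace Cfsg.Agent.S4341

open Cfsg.Agent.H76

theorem normalizer_le_normalizer_inf_normal {G : Type*} [Group G] (P K : Subgroup G) [K.Normal] :
    Subgroup.normalizer (P : Set G) ≤ Subgroup.normalizer ((P ⊓ K : Subgroup G) : Set G) := by
  intro x hx
  rw [Subgroup.mem_normalizer_iff] at hx ⊢
  intro h
  constructor
  · rintro ⟨h1, h2⟩
    exact ⟨(hx h).mp h1, ‹K.Normal›.conj_mem h h2 x⟩
  · rintro ⟨h1, h2⟩
    refine ⟨(hx h).mpr h1, ?_⟩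
    have := ‹K.Normal›.conj_mem _ h2 x⁻¹
    simpa [mul_assoc] using this

theorem relIndex_inf_of_le {G : Type*} [Group G] (A B C : Subgroup G) (h : C ≤ B) :
    (A ⊓ B).relIndex C = A.relIndex C := by
  rw [← Subgroup.inf_relIndex_right (A ⊓ B) C, inf_assoc, inf_of_le_right h,
    Subgroup.inf_relIndex_right]

/-- Let K be a normal subgroup of a finite group G, p a prime and P a Sylow p-subgroup of G; let N be the normalizer of P ∩ K inside the subgroup PK. Then the number of Sylow p-subgroups of G equals the product of the numbers of Sylow p-subgroups of G/K, of K, and of N/(P ∩ K). (The normality of P ∩ K in N, which always holds, is assumed as a hypothesis so that the quotient can be formed.) -/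
theorem result {G : Type*} [Group G] [Finite G]
    (p : ℕ) [Fact p.Prime] (K : Subgroup G) [K.Normal] (P : Sylow p G) (N : Subgroup G)
    (hN : N = ((P : Subgroup G) ⊔ K) ⊓ Subgroup.normalizer (((P : Subgroup G) ⊓ K : Subgroup G) : Set G))
    [hn : (((P : Subgroup G) ⊓ K).subgroupOf N).Normal] :
    Nat.card (Sylow p G) =
      Nat.card (Sylow p (G ⧸ K)) * Nat.card (Sylow p K) * Nat.card (Sylow p (N ⧸ ((P : Subgroup G) ⊓ K).subgroupOf N)) := by
  set T : Subgroup G := (P : Subgroup G) ⊔ K with hT
  set R : Subgroup G := (P : Subgroup G) ⊓ K with hR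
  set nP : Subgroup G := Subgroup.normalizer ((P : Subgroup G) : Set G) with hnP
  set nR : Subgroup G := Subgroup.normalizer (R : Set G) with hnR
  have hPT : (P : Subgroup G) ≤ T := le_sup_left
  have hKT : K ≤ T := le_sup_right
  have hnPnR : nP ≤ nR := normalizer_le_normalizer_inf_normal (P : Subgroup G) K
  have hPN : (P : Subgroup G) ≤ N := by
    rw [hN]; exact le_inf hPT (le_trans Subgroup.le_normalizer hnPnR)
  have hNT : N ≤ T := by rw [hN]; exact inf_le_left
  -- (3) Sylow subgroups of `K`
  have h3 : Nat.card (Sylow p K) = nR.relIndex K := by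
    have hp1 : IsPGroup p ((P : Subgroup G).subgroupOf K) := P.isPGroup'.comap_subtype
    have hp2 : ¬ p ∣ ((P : Subgroup G).subgroupOf K).index := sylow_not_dvd_relIndex_of_normal P K
    rw [Sylow.card_eq_index_normalizer (hp1.toSylow hp2)]
    show (Subgroup.normalizer ((((P : Subgroup G).subgroupOf K) : Subgroup K) : Set K)).index = _
    rw [← Subgroup.inf_subgroupOf_right, ← Subgroup.subgroupOf_normalizer_eq inf_le_right]
    rfl
  -- (4) Sylow subgroups of `N / R`
  have h4 : Nat.card (Sylow p (N ⧸ R.subgroupOf N)) = nP.relIndex N := by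
    rw [← card_sylow_subgroup P N hPN]
    have hle : R.subgroupOf N ≤ ((P.subtype hPN : Sylow p N) : Subgroup N) := by
      intro x hx
      exact (Subgroup.mem_subgroupOf.mp hx).1
    rw [card_sylow_eq_mul (R.subgroupOf N) (P.subtype hPN),
      card_sylow_eq_one_of_le_normalizer (P.subtype hPN) _ le_sup_left
        (sup_le Subgroup.le_normalizer (le_trans hle Subgroup.le_normalizer)), mul_one]
  -- (5) index arithmetic
  have h5 : N.relIndex T = nR.relIndex K := by
    have e1 : N ⊔ K = T := le_antisymm (sup_le hNT hKT) (sup_le (le_trans hPN le_sup_left) le_sup_right)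
    rw [← e1, relIndex_sup_of_le_normalizer N K Subgroup.le_normalizer_of_normal, hN]
    rw [inf_comm]
    exact relIndex_inf_of_le nR T K hKT
  have h6 : nP.relIndex T = nP.relIndex N * N.relIndex T := by
    have e1 : nP ⊓ T ≤ N := by
      rw [hN]; exact le_inf inf_le_right (le_trans inf_le_left hnPnR)
    have e2 := Subgroup.relIndex_mul_relIndex (nP ⊓ T) N T e1 hNT
    rw [relIndex_inf_of_le nP T N hNT, Subgroup.inf_relIndex_right] at e2
    exact e2.symm
  rw [card_sylow_eq_mul K P, card_sylow_subgroup P T hPT, h3, h4, h6, h5]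
  ring

end Cfsg.Agent.S4341
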