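import Cfsg.Statements.S4343
import Cfsg.Agent.H76.Brodkey

set_option autoImplicit false
open Cfsg

namespace Cfsg.Agent.S4343

open Cfsg.Agent.H76

/-- If `G` has fewer than `p²` Sylow `p`-subgroups then distinct Sylow `p`-subgroups
intersect in a subgroup of index `p`. -/
theorem relIndex_eq_of_ne {G : Type*} [Group G] [Finite G] (p : ℕ) [Fact p.Prime]
    (hn : Nat.card (Sylow p G) < p ^ 2) (P Q : Sylow p G) (hPQ : P ≠ Q) :
    (Q : Subgroup G).relIndex P = p := by
  have hp : p.Prime := Fact.out
  -- the stabilizer of `Q` in `P`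
  have hstab : MulAction.stabilizer (P : Subgroup G) Q =
      (Subgroup.normalizer ((Q : Subgroup G) : Set G)).subgroupOf (P : Subgroup G) := by
    ext x
    rw [MulAction.mem_stabilizer_iff, Subgroup.mem_subgroupOf]
    exact Sylow.smul_eq_iff_mem_normalizer
  have h1 : (MulAction.stabilizer (P : Subgroup G) Q).index = (Q : Subgroup G).relIndex P := by
    rw [hstab]
    show (Subgroup.normalizer ((Q : Subgroup G) : Set G)).relIndex P = _
    have hpn : (P : Subgroup G) ⊓ Subgroup.normalizer ((Q : Subgroup G) : Set G) =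
        (P : Subgroup G) ⊓ Q := P.isPGroup'.inf_normalizer_sylow Q
    rw [← Subgroup.inf_relIndex_left, hpn, Subgroup.inf_relIndex_left]
  have h2 := MulAction.index_stabilizer (P : Subgroup G) Q
  -- the orbit is a proper subset
  have h3 : (MulAction.orbit (P : Subgroup G) Q).ncard < Nat.card (Sylow p G) := by
    rw [← Set.ncard_univ]
    apply Set.ncard_lt_ncard _ Set.finite_univ
    rw [Set.ssubset_univ_iff]
    intro huniv
    have hP : P ∈ MulAction.orbit (P : Subgroup G) Q := by rw [huniv]; trivial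
    obtain ⟨x, hxP, hx'⟩ : ∃ x : G, x ∈ (P : Subgroup G) ∧ x • Q = P := by
      obtain ⟨x, hx⟩ := hP
      exact ⟨(x : G), x.2, hx⟩
    apply hPQ
    have hx2 : x⁻¹ • P = P :=
      Sylow.smul_eq_iff_mem_normalizer.mpr (Subgroup.le_normalizer ((P : Subgroup G).inv_mem hxP))
    have hQ : Q = x⁻¹ • P := by rw [← hx', inv_smul_smul]
    rw [hQ, hx2]
  -- the index is a power of `p`
  obtain ⟨j, hj⟩ := P.isPGroup'.index ((Q : Subgroup G).subgroupOf P)
  have hj' : (Q : Subgroup G).relIndex P = p ^ j := hj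
  have hne1 : (Q : Subgroup G).relIndex P ≠ 1 := by
    intro h
    have hle : (P : Subgroup G) ≤ Q := Subgroup.relIndex_eq_one.mp h
    exact hPQ (Sylow.ext (P.is_maximal' Q.isPGroup' hle)).symm
  have hlt : p ^ j < p ^ 2 := by
    rw [← hj', ← h1, h2]
    exact lt_trans h3 hn
  have hj1 : j < 2 := (Nat.pow_lt_pow_iff_right hp.one_lt).mp hlt
  have hj0 : j ≠ 0 := by
    rintro rfl
    exact hne1 (by rw [hj', pow_zero])
  have : j = 1 := by omega
  rw [hj', this, pow_one]

/-- In a `p`-group, a subgroup of index `p` contains all commutators. -/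
theorem commutator_mem_of_relIndex {G : Type*} [Group G] [Finite G] (p : ℕ) [Fact p.Prime]
    (P Q : Sylow p G) (hP : (P : Subgroup G) ≠ ⊥) (h : (Q : Subgroup G).relIndex P = p)
    (x y : G) (hx : x ∈ P) (hy : y ∈ P) : x * y * x⁻¹ * y⁻¹ ∈ Q := by
  have hp : p.Prime := Fact.out
  set H : Subgroup (P : Subgroup G) := (Q : Subgroup G).subgroupOf P with hH
  have hidx : H.index = p := h
  obtain ⟨k, hk⟩ := IsPGroup.iff_card.mp P.isPGroup'
  have hk0 : k ≠ 0 := by
    rintro rfl
    rw [pow_zero] at hk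
    exact hP (Subgroup.card_eq_one.mp hk)
  have hnorm : H.Normal := by
    apply Subgroup.normal_of_index_eq_minFac_card
    rw [hidx, hk, hp.pow_minFac hk0]
  have hcard : Nat.card ((P : Subgroup G) ⧸ H) = p := by
    rw [← Subgroup.index_eq_card]; exact hidx
  have hcyc : IsCyclic ((P : Subgroup G) ⧸ H) := isCyclic_of_prime_card hcard
  have hcomm := isMulCommutative_iff.mp (IsCyclic.isMulCommutative (α := (P : Subgroup G) ⧸ H))
  have e := hcomm (QuotientGroup.mk (⟨y⁻¹, (P : Subgroup G).inv_mem hy⟩ : (P : Subgroup G)))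
    (QuotientGroup.mk (⟨x⁻¹, (P : Subgroup G).inv_mem hx⟩ : (P : Subgroup G)))
  rw [← QuotientGroup.mk_mul, ← QuotientGroup.mk_mul, QuotientGroup.eq] at e
  have e' := Subgroup.mem_subgroupOf.mp e
  show x * y * x⁻¹ * y⁻¹ ∈ (Q : Subgroup G)
  simpa [mul_assoc] using e'

/-- Let S be a finite non-abelian simple group and p a prime dividing its order. If S has fewer than p² Sylow p-subgroups, then its Sylow p-subgroups have order p. -/
theorem result {S : Type*} [Group S] [Finite S]
    [IsSimpleGroup S] (hS : ¬ IsMulCommutative S) (p : ℕ) [Fact p.Prime] (hp : p ∣ Nat.card S)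
    (hn : Nat.card (Sylow p S) < p ^ 2) (P : Sylow p S) : Nat.card P = p := by
  -- the intersection of all Sylow subgroups
  let core : Subgroup S := ⨅ Q : Sylow p S, (Q : Subgroup S)
  have hcore_le : ∀ Q : Sylow p S, core ≤ Q := fun Q => iInf_le _ Q
  have hcore_normal : core.Normal := by
    constructor
    intro n hn' g
    rw [Subgroup.mem_iInf]
    intro Q
    have h1 : n ∈ g⁻¹ • Q := hcore_le (g⁻¹ • Q) hn'
    rw [mem_smul_sylow_iff, inv_inv] at h1
    exact h1
  have hcore : core = ⊥ := by
    rcases hcore_normal.eq_bot_or_eq_top with h | h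
    · exact h
    · exfalso
      have hPtop : (P : Subgroup S) = ⊤ := top_le_iff.mp (h ▸ hcore_le P)
      have hSp : IsPGroup p S := by
        intro x
        have hx : x ∈ (P : Subgroup S) := by rw [hPtop]; trivial
        obtain ⟨k, hk⟩ := P.isPGroup' ⟨x, hx⟩
        exact ⟨k, by simpa [Subtype.ext_iff] using hk⟩
      have hZ : Nontrivial (Subgroup.center S) := hSp.center_nontrivial
      have hZtop : Subgroup.center S = ⊤ := by
        rcases (inferInstance : (Subgroup.center S).Normal).eq_bot_or_eq_top with h0 | h0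
        · exfalso
          rw [Subgroup.nontrivial_iff_ne_bot] at hZ
          exact hZ h0
        · exact h0
      apply hS
      rw [isMulCommutative_iff]
      intro a b
      have ha : a ∈ Subgroup.center S := by rw [hZtop]; trivial
      exact (Subgroup.mem_center_iff.mp ha b).symm
  have hne_bot : ∀ Q : Sylow p S, (Q : Subgroup S) ≠ ⊥ := fun Q => Q.ne_bot_of_dvd_card hp
  -- all Sylow subgroups are abelian
  have hab : ∀ Q : Sylow p S, ∀ a ∈ Q, ∀ b ∈ Q, a * b = b * a := by
    intro Q a ha b hb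
    have hc : a * b * a⁻¹ * b⁻¹ ∈ core := by
      rw [Subgroup.mem_iInf]
      intro R
      by_cases hQR : Q = R
      · subst hQR
        exact (Q : Subgroup S).mul_mem ((Q : Subgroup S).mul_mem ((Q : Subgroup S).mul_mem ha hb)
          ((Q : Subgroup S).inv_mem ha)) ((Q : Subgroup S).inv_mem hb)
      · exact commutator_mem_of_relIndex p Q R (hne_bot Q) (relIndex_eq_of_ne p hn Q R hQR) a b ha hb
    rw [hcore, Subgroup.mem_bot] at hc
    have : a * b = (a * b * a⁻¹ * b⁻¹) * (b * a) := by group
    rw [this, hc, one_mul]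
  obtain ⟨P₀, Q₀, hPQ⟩ := brodkey hab
  have hinf : (P₀ : Subgroup S) ⊓ Q₀ = ⊥ := by
    rw [eq_bot_iff, ← hcore]
    exact le_iInf hPQ
  have hne : P₀ ≠ Q₀ := by
    rintro rfl
    rw [inf_idem] at hinf
    exact hne_bot P₀ hinf
  have h1 := relIndex_eq_of_ne p hn P₀ Q₀ hne
  rw [← Subgroup.inf_relIndex_left, hinf, Subgroup.relIndex_bot_left] at h1
  rw [Sylow.card_eq_multiplicity P₀] at h1
  rw [Sylow.card_eq_multiplicity P]
  exact h1

end Cfsg.Agent.S4343
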