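import Cfsg.Statements.S4344
import Cfsg.Agent.H76.SylowBasics

set_option autoImplicit false
open Cfsg

namespace Cfsg.Agent.S4344

open Cfsg.Agent.H76

theorem orderOf_conj_eq {G : Type*} [Group G] (g x : G) : orderOf (g * x * g⁻¹) = orderOf x :=
  (MulAut.conj g).orderOf_eq x

theorem conj_eq_self_of_comm {G : Type*} [Group G] (y q : G)
    (h : y * (y * q * y⁻¹) = (y * q * y⁻¹) * y) : y * q * y⁻¹ = q := by
  have : y * (y * q * y⁻¹) = y * q := by rw [h]; group
  exact mul_left_cancel this

/-- Let S be a finite non-abelian simple group, M a maximal subgroup of S and C a cyclic normal subgroup of M. If a Sylow p-subgroup P of S (for a prime p dividing the order of S) is contained in C, then the number of Sylow p-subgroups of S equals the index of M. -/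
theorem result {S : Type*} [Group S] [Finite S]
    [IsSimpleGroup S] (hS : ¬ IsMulCommutative S) (p : ℕ) [Fact p.Prime] (hp : p ∣ Nat.card S)
    (M : Subgroup S) (hM : IsCoatom M) (C : Subgroup S) (hCM : C ≤ M) (hCn : (C.subgroupOf M).Normal)
    (hC : IsCyclic C) (P : Sylow p S) (hP : (P : Subgroup S) ≤ C) :
    Nat.card (Sylow p S) = M.index := by
  have hCcomm : ∀ a ∈ C, ∀ b ∈ C, a * b = b * a := by
    intro a ha b hb
    have := (isMulCommutative_iff.mp (IsCyclic.isMulCommutative (α := C))) ⟨a, ha⟩ ⟨b, hb⟩
    exact congrArg Subtype.val this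
  -- conjugation by an element of `M` maps `P` into `P`
  have key : ∀ m ∈ M, ∀ x ∈ P, m * x * m⁻¹ ∈ P := by
    intro m hm x hx
    have hyC : m * x * m⁻¹ ∈ C := by
      have := hCn.conj_mem ⟨x, hCM (hP hx)⟩ (Subgroup.mem_subgroupOf.mpr (hP hx)) ⟨m, hm⟩
      exact Subgroup.mem_subgroupOf.mp this
    apply mem_sylow_of_mem_normalizer P
    · obtain ⟨k, hk⟩ := orderOf_eq_pow_of_mem_sylow P hx
      exact ⟨k, by rw [orderOf_conj_eq, hk]⟩
    · have hyn : ∀ y : S, y ∈ C → y ∈ Subgroup.normalizer ((P : Subgroup S) : Set S) := by
        intro y hy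
        rw [Subgroup.mem_normalizer_iff]
        intro q
        constructor
        · intro hq
          have e := hCcomm y hy q (hP hq)
          have : y * q * y⁻¹ = q := by rw [e]; group
          rw [this]; exact hq
        · intro hq
          have e := hCcomm y hy _ (hP hq)
          have : y * q * y⁻¹ = q := conj_eq_self_of_comm y q e
          rw [this] at hq; exact hq
      exact hyn _ hyC
  have hle : M ≤ Subgroup.normalizer ((P : Subgroup S) : Set S) := by
    intro m hm
    rw [Subgroup.mem_normalizer_iff]
    intro x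
    constructor
    · exact fun hx => key m hm x hx
    · intro hx
      have := key m⁻¹ (M.inv_mem hm) _ hx
      have e : m⁻¹ * (m * x * m⁻¹) * m⁻¹⁻¹ = x := by group
      rwa [e] at this
  have hne : Subgroup.normalizer ((P : Subgroup S) : Set S) ≠ ⊤ := by
    intro htop
    have hnorm : (P : Subgroup S).Normal := Subgroup.normalizer_eq_top_iff.mp htop
    rcases hnorm.eq_bot_or_eq_top with h | h
    · exact P.ne_bot_of_dvd_card hp h
    · apply hS
      rw [isMulCommutative_iff]
      intro a b
      have ha : a ∈ (P : Subgroup S) := by rw [h]; trivial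
      have hb : b ∈ (P : Subgroup S) := by rw [h]; trivial
      exact hCcomm a (hP ha) b (hP hb)
  have heq : Subgroup.normalizer ((P : Subgroup S) : Set S) = M := (hM.le_iff_eq hne).mp hle
  rw [Sylow.card_eq_index_normalizer P]
  exact congrArg Subgroup.index heq

end Cfsg.Agent.S4344
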