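import Cfsg.Statements.S4345
import Cfsg.Agent.H76.SylowCount
import Cfsg.Agent.H76.SolvableNormal

set_option autoImplicit false
open Cfsg

namespace Cfsg.Agent.S4345

open Cfsg.Agent.H76

universe u

theorem aux (p ℓ : ℕ) [Fact p.Prime] :
    ∀ (n : ℕ) (G : Type u) [Group G] [Finite G], Nat.card G = n → Group.IsSolvable G →
      ℓ ^ (Nat.card (Sylow p G)).factorization ℓ ≡ 1 [MOD p] := by
  intro n
  induction n using Nat.strong_induction_on with
  | _ n ih =>
    intro G _ _ hn hG
    rcases subsingleton_or_nontrivial G with hs | hnt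
    · have h1 : Nat.card (Sylow p G) = 1 := by
        have : Subsingleton (Sylow p G) := by
          constructor
          intro P Q
          apply Sylow.ext
          apply Subsingleton.elim
        obtain ⟨P⟩ : Nonempty (Sylow p G) := inferInstance
        exact Nat.card_of_subsingleton P
      rw [h1]
      simp [Nat.ModEq]
    · obtain ⟨q, K, hq, hKn, hK, hKq⟩ := exists_normal_pGroup_of_solvable hG
      obtain ⟨P⟩ : Nonempty (Sylow p G) := inferInstance
      have hcardlt : Nat.card (G ⧸ K) < n := by
        rw [← hn, ← Subgroup.index_eq_card, ← Subgroup.index_mul_card K]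
        have h1 : 1 < Nat.card K := by
          by_contra hcon
          have : Nat.card K = 1 := by
            have := Nat.card_pos (α := K)
            omega
          exact hK (Subgroup.card_eq_one.mp this)
        have h2 : 0 < K.index := Nat.pos_of_ne_zero Subgroup.index_ne_zero_of_finite
        nlinarith
      have ih1 := ih (Nat.card (G ⧸ K)) hcardlt (G ⧸ K) rfl inferInstance
      set T : Subgroup G := (P : Subgroup G) ⊔ K with hT
      have hm1 : Nat.card (Sylow p T) ≡ 1 [MOD p] := card_sylow_modEq_one p T
      have hm2 : Nat.card (Sylow p T) ∣ Nat.card K := by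
        rw [card_sylow_subgroup P T le_sup_left]
        refine dvd_trans (Subgroup.relIndex_dvd_of_le_left T Subgroup.le_normalizer) ?_
        rw [hT, relIndex_sup_of_le_normalizer (P : Subgroup G) K Subgroup.le_normalizer_of_normal]
        exact Subgroup.relIndex_dvd_card _ _
      have hqf : Fact q.Prime := ⟨hq⟩
      obtain ⟨a, ha⟩ := IsPGroup.iff_card.mp hKq
      rw [ha] at hm2
      obtain ⟨b, -, hb⟩ := (Nat.dvd_prime_pow hq).mp hm2
      have hmul := card_sylow_eq_mul K P
      rw [← hT, hb] at hmul
      have hpos : Nat.card (Sylow p (G ⧸ K)) ≠ 0 := Nat.card_pos.ne'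
      have hqb : q ^ b ≠ 0 := pow_ne_zero _ hq.ne_zero
      rw [hmul, Nat.factorization_mul hpos hqb, Finsupp.add_apply, pow_add,
        Nat.Prime.factorization_pow hq]
      have h2 : ℓ ^ (Finsupp.single q b) ℓ ≡ 1 [MOD p] := by
        by_cases hlq : ℓ = q
        · subst hlq
          rw [Finsupp.single_eq_same, ← hb]
          exact hm1
        · rw [Finsupp.single_eq_of_ne hlq, pow_zero]
      simpa using ih1.mul h2

/-- Let G be a finite solvable group and p, ℓ primes. Then the largest power of ℓ dividing the number of Sylow p-subgroups of G is congruent to 1 modulo p. -/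
theorem result {G : Type*} [Group G] [Finite G]
    (hG : Group.IsSolvable G) (p ℓ : ℕ) [Fact p.Prime] (hℓ : ℓ.Prime) :
    ℓ ^ (Nat.card (Sylow p G)).factorization ℓ ≡ 1 [MOD p] :=
  aux p ℓ (Nat.card G) G rfl hG

end Cfsg.Agent.S4345
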