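import Cfsg.Statements.S4354
import Cfsg.Agent.H76.SylowBasics

set_option autoImplicit false
open Cfsg

namespace Cfsg.Agent.S4354

open Cfsg.Agent.H76
open scoped Pointwise

/-- Every `p`-element has class size prime to `p`. -/
def CC (p : ℕ) (G : Type*) [Group G] : Prop :=
  ∀ x : G, (∃ k : ℕ, orderOf x = p ^ k) → ¬ p ∣ (Subgroup.centralizer ({x} : Set G)).index

theorem cc_subgroup {G : Type*} [Group G] [Finite G] (p : ℕ) [Fact p.Prime] (N : Subgroup G)
    [N.Normal] (h : CC p G) : CC p N := by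
  intro x hx
  have hx' : ∃ k : ℕ, orderOf (x : G) = p ^ k := by simpa [Subgroup.orderOf_coe] using hx
  obtain ⟨Q, hQ⟩ := (not_dvd_index_iff_exists_sylow_le _).mp (h x hx')
  have heq : Subgroup.centralizer ({x} : Set N) =
      (Subgroup.centralizer ({(x : G)} : Set G)).subgroupOf N := by
    ext y
    rw [Subgroup.mem_centralizer_iff, Subgroup.mem_subgroupOf, Subgroup.mem_centralizer_iff]
    constructor
    · intro hy z hz
      rw [Set.mem_singleton_iff] at hz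
      subst hz
      exact congrArg Subtype.val (hy x (Set.mem_singleton x))
    · intro hy z hz
      rw [Set.mem_singleton_iff] at hz
      subst hz
      exact Subtype.ext (hy (z : G) (Set.mem_singleton _))
  rw [heq]
  intro hd
  have h1 : (Subgroup.centralizer ({(x : G)} : Set G)).relIndex N ∣ (Q : Subgroup G).relIndex N :=
    Subgroup.relIndex_dvd_of_le_left N hQ
  exact sylow_not_dvd_relIndex_of_normal Q N (dvd_trans hd h1)

theorem cc_quotient {G : Type*} [Group G] [Finite G] (p : ℕ) [Fact p.Prime] (N : Subgroup G)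
    [N.Normal] (h : CC p G) : CC p (G ⧸ N) := by
  intro xbar hx
  obtain ⟨Qbar, hQbar⟩ := exists_sylow_mem_of_orderOf hx
  obtain ⟨Q, rfl⟩ := Sylow.mapSurjective_surjective (QuotientGroup.mk'_surjective N) p Qbar
  obtain ⟨x, hxQ, rfl⟩ := Subgroup.mem_map.mp
    (show xbar ∈ (Q : Subgroup G).map (QuotientGroup.mk' N) from hQbar)
  obtain ⟨Q', hQ'⟩ := (not_dvd_index_iff_exists_sylow_le _).mp
    (h x (orderOf_eq_pow_of_mem_sylow Q hxQ))
  rw [not_dvd_index_iff_exists_sylow_le]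
  refine ⟨Q'.mapSurjective (QuotientGroup.mk'_surjective N), ?_⟩
  intro y hy
  obtain ⟨q, hq, rfl⟩ := Subgroup.mem_map.mp
    (show y ∈ (Q' : Subgroup G).map (QuotientGroup.mk' N) from hy)
  rw [Subgroup.mem_centralizer_iff]
  intro z hz
  rw [Set.mem_singleton_iff] at hz
  subst hz
  have := hQ' hq
  rw [Subgroup.mem_centralizer_iff] at this
  have h2 := this x (Set.mem_singleton x)
  rw [← map_mul, ← map_mul, h2]

theorem sylow_comm_of_normal {G : Type*} [Group G] [Finite G] (p : ℕ) [Fact p.Prime]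
    (N : Subgroup G) [N.Normal] (h : CC p G)
    (hN : ∀ S : Sylow p N, IsMulCommutative S)
    (hQ : ∀ S : Sylow p (G ⧸ N), IsMulCommutative S) (P : Sylow p G) :
    IsMulCommutative P := by
  -- (b) `P ⊓ N` is commutative
  have hb : ∀ r₁ ∈ (P : Subgroup G) ⊓ N, ∀ r₂ ∈ (P : Subgroup G) ⊓ N, r₁ * r₂ = r₂ * r₁ := by
    intro r₁ h₁ r₂ h₂
    have hp : IsPGroup p (((P : Subgroup G) ⊓ N).subgroupOf N) :=
      (P.isPGroup'.to_le inf_le_left).comap_subtype
    obtain ⟨S, hS⟩ := hp.exists_le_sylow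
    have hSc := hN S
    have e := (isMulCommutative_iff.mp hSc)
      ⟨⟨r₁, h₁.2⟩, hS (Subgroup.mem_subgroupOf.mpr h₁)⟩
      ⟨⟨r₂, h₂.2⟩, hS (Subgroup.mem_subgroupOf.mpr h₂)⟩
    have := congrArg (fun t : S => ((t : N) : G)) e
    simpa using this
  -- (a) every element of `P` is central in `P` modulo `P ⊓ N`
  have ha : ∀ x ∈ P, ∃ z ∈ P, (∀ u ∈ P, z * u = u * z) ∧ x⁻¹ * z ∈ N := by
    intro x hx
    have hxp := orderOf_eq_pow_of_mem_sylow P hx
    obtain ⟨Q, hQC⟩ := (not_dvd_index_iff_exists_sylow_le _).mp (h x hxp)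
    have hcomm : ∀ q ∈ Q, x * q = q * x := by
      intro q hq
      have := hQC hq
      rw [Subgroup.mem_centralizer_iff] at this
      exact this x (Set.mem_singleton x)
    have hxQ : x ∈ Q := by
      apply mem_sylow_of_mem_normalizer Q hxp
      rw [Subgroup.mem_normalizer_iff]
      intro q
      constructor
      · intro hq
        have : x * q * x⁻¹ = q := by rw [hcomm q hq]; group
        rw [this]; exact hq
      · intro hq
        have e := hcomm _ hq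
        have : x * q * x⁻¹ = q := by
          have e2 : x * (x * q * x⁻¹) * x⁻¹ = x * q * x⁻¹ := by rw [e]; group
          have e3 : x * (x * q * x⁻¹) * x⁻¹ = x * (x * q * x⁻¹ * x⁻¹) := by group
          have : x * q * x⁻¹ * x⁻¹ = q * x⁻¹ := by
            apply mul_left_cancel (a := x)
            rw [← e3, e2]; group
          exact mul_right_cancel this
        rw [this] at hq; exact hq
    have hπ : Function.Surjective (QuotientGroup.mk' N) := QuotientGroup.mk'_surjective N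
    set π := QuotientGroup.mk' N with hπdef
    set Pb : Sylow p (G ⧸ N) := P.mapSurjective hπ with hPb
    set Qb : Sylow p (G ⧸ N) := Q.mapSurjective hπ with hQb
    have hPbc := hQ Pb
    obtain ⟨g, hg⟩ := MulAction.exists_smul_eq (G ⧸ N) Qb Pb
    have hxPb : π x ∈ Pb := Subgroup.mem_map_of_mem π hx
    have hmemsmul : ∀ (a : G ⧸ N) (R : Sylow p (G ⧸ N)) (y : G ⧸ N), y ∈ R →
        a * y * a⁻¹ ∈ a • R := by
      intro a R y hy
      show a * y * a⁻¹ ∈ ((a • R : Sylow p (G ⧸ N)) : Subgroup (G ⧸ N))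
      rw [Sylow.coe_subgroup_smul]
      exact ⟨y, hy, rfl⟩
    have hgx : (g⁻¹)⁻¹ * π x * g⁻¹ ∈ Pb := by
      rw [inv_inv, ← hg]
      exact hmemsmul g Qb (π x) (Subgroup.mem_map_of_mem π hxQ)
    obtain ⟨n, hn, hnx⟩ := Pb.conj_eq_normalizer_conj_of_mem (π x) g⁻¹ hxPb hgx
    rw [inv_inv] at hnx
    obtain ⟨c, hc⟩ := hπ (n * g)
    have hcx : π (c * x * c⁻¹) = π x := by
      rw [map_mul, map_mul, map_inv, hc]
      calc n * g * π x * (n * g)⁻¹ = n * (g * π x * g⁻¹) * n⁻¹ := by group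
        _ = n * (n⁻¹ * π x * n) * n⁻¹ := by rw [hnx]
        _ = π x := by group
    have hngQ : (n * g) • Qb = Pb := by
      rw [mul_smul, hg]; exact Sylow.smul_eq_iff_mem_normalizer.mpr hn
    have hmemsmulG : ∀ (a : G) (R : Sylow p G) (y : G), y ∈ a • R ↔ ∃ q ∈ R, y = a * q * a⁻¹ := by
      intro a R y
      show y ∈ ((a • R : Sylow p G) : Subgroup G) ↔ _
      rw [Sylow.coe_subgroup_smul]
      constructor
      · rintro ⟨q, hq, rfl⟩; exact ⟨q, hq, rfl⟩
      · rintro ⟨q, hq, rfl⟩; exact ⟨q, hq, rfl⟩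
    have hQ1 : ((c • Q : Sylow p G) : Subgroup G) ≤ (P : Subgroup G) ⊔ N := by
      intro y hy
      obtain ⟨q, hq, rfl⟩ := (hmemsmulG c Q y).mp hy
      have h1 : π (c * q * c⁻¹) ∈ Pb := by
        rw [← hngQ, map_mul, map_mul, map_inv, hc]
        exact hmemsmul (n * g) Qb (π q) (Subgroup.mem_map_of_mem π hq)
      obtain ⟨u, hu, hue⟩ := Subgroup.mem_map.mp h1
      have h3 : u⁻¹ * (c * q * c⁻¹) ∈ N := by
        rw [← QuotientGroup.eq]; exact hue
      have : c * q * c⁻¹ = u * (u⁻¹ * (c * q * c⁻¹)) := by group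
      rw [this]
      exact Subgroup.mul_mem_sup hu h3
    obtain ⟨t, ht1, ht''⟩ : ∃ t : G, t ∈ (P : Subgroup G) ⊔ N ∧ t • (c • Q) = P := by
      obtain ⟨t, ht⟩ := MulAction.exists_smul_eq ↥((P : Subgroup G) ⊔ N)
        ((c • Q).subtype hQ1) (P.subtype le_sup_left)
      rw [Sylow.smul_subtype] at ht
      exact ⟨t, t.2, Sylow.subtype_injective ht⟩
    have ht2 : t ∈ ((P : Subgroup G) : Set G) * (N : Set G) := by
      rw [← Subgroup.mul_normal]; exact ht1
    obtain ⟨u, hu, m, hm, htum⟩ := Set.mem_mul.mp ht2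
    have hz' : t * (c * x * c⁻¹) * t⁻¹ ∈ P := by
      rw [← ht'']
      exact (hmemsmulG _ _ _).mpr ⟨c * x * c⁻¹, (hmemsmulG _ _ _).mpr ⟨x, hxQ, rfl⟩, rfl⟩
    have hzc : ∀ v ∈ P, (t * (c * x * c⁻¹) * t⁻¹) * v =
        v * (t * (c * x * c⁻¹) * t⁻¹) := by
      intro v hv
      rw [← ht''] at hv
      obtain ⟨w, hw, rfl⟩ := (hmemsmulG _ _ _).mp hv
      obtain ⟨q, hq, rfl⟩ := (hmemsmulG _ _ _).mp hw
      have e := hcomm q hq
      calc t * (c * x * c⁻¹) * t⁻¹ * (t * (c * q * c⁻¹) * t⁻¹)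
          = t * c * (x * q) * c⁻¹ * t⁻¹ := by group
        _ = t * c * (q * x) * c⁻¹ * t⁻¹ := by rw [e]
        _ = t * (c * q * c⁻¹) * t⁻¹ * (t * (c * x * c⁻¹) * t⁻¹) := by group
    refine ⟨t * (c * x * c⁻¹) * t⁻¹, hz', hzc, ?_⟩
    have e1 : t * (c * x * c⁻¹) * t⁻¹ = m * (c * x * c⁻¹) * m⁻¹ := by
      have e0 := hzc u hu
      rw [← htum] at e0 ⊢
      have e2 : u * m * (c * x * c⁻¹) * (u * m)⁻¹ = u * (m * (c * x * c⁻¹) * m⁻¹) * u⁻¹ := by group
      rw [e2] at e0 ⊢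
      have e3 : u * (m * (c * x * c⁻¹) * m⁻¹) * u⁻¹ * u = u * (m * (c * x * c⁻¹) * m⁻¹) := by group
      rw [e3] at e0
      exact (mul_left_cancel e0).symm
    rw [e1, ← QuotientGroup.eq_one_iff]
    have hm1 : π m = 1 := (QuotientGroup.eq_one_iff m).mpr hm
    show π (x⁻¹ * (m * (c * x * c⁻¹) * m⁻¹)) = 1
    rw [map_mul, map_mul, map_mul, map_inv, map_inv, hcx, hm1]
    group
  rw [isMulCommutative_iff]
  rintro ⟨x, hx⟩ ⟨y, hy⟩
  obtain ⟨z₁, hz₁, hc₁, hn₁⟩ := ha x hx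
  obtain ⟨z₂, hz₂, hc₂, hn₂⟩ := ha y hy
  have hr₁ : z₁⁻¹ * x ∈ (P : Subgroup G) ⊓ N :=
    ⟨(P : Subgroup G).mul_mem ((P : Subgroup G).inv_mem hz₁) hx, by simpa using N.inv_mem hn₁⟩
  have hr₂ : z₂⁻¹ * y ∈ (P : Subgroup G) ⊓ N :=
    ⟨(P : Subgroup G).mul_mem ((P : Subgroup G).inv_mem hz₂) hy, by simpa using N.inv_mem hn₂⟩
  have e := hb _ hr₁ _ hr₂
  have c1 := hc₂ _ hr₁.1
  have c2 := hc₁ z₂ hz₂
  have c3 := hc₁ _ hr₂.1
  apply Subtype.ext
  show x * y = y * x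
  calc x * y = z₁ * ((z₁⁻¹ * x) * z₂) * (z₂⁻¹ * y) := by group
    _ = z₁ * (z₂ * (z₁⁻¹ * x)) * (z₂⁻¹ * y) := by rw [c1]
    _ = (z₁ * z₂) * ((z₁⁻¹ * x) * (z₂⁻¹ * y)) := by group
    _ = (z₂ * z₁) * ((z₂⁻¹ * y) * (z₁⁻¹ * x)) := by rw [c2, e]
    _ = z₂ * (z₁ * (z₂⁻¹ * y)) * (z₁⁻¹ * x) := by group
    _ = z₂ * ((z₂⁻¹ * y) * z₁) * (z₁⁻¹ * x) := by rw [c3]
    _ = y * x := by group

/-- Let G be a finite group and p a prime such that the Sylow p-subgroups of G are non-abelian while every element of p-power order has conjugacy class size prime to p, and suppose no nontrivial proper normal subgroup N of G has this property and no quotient G/N by such an N has it. Then G is simple. -/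
theorem result {G : Type*} [Group G] [Finite G]
    (p : ℕ) [Fact p.Prime] (h : ((∃ P : Sylow p G, ¬ IsMulCommutative P) ∧ ∀ x : G, (∃ k : ℕ, orderOf x = p ^ k) → ¬ p ∣ (Subgroup.centralizer ({x} : Set G)).index))
    (hmin : ∀ (N : Subgroup G) [N.Normal], N ≠ ⊥ → N ≠ ⊤ →
      ¬ ((∃ P : Sylow p N, ¬ IsMulCommutative P) ∧ ∀ x : N, (∃ k : ℕ, orderOf x = p ^ k) → ¬ p ∣ (Subgroup.centralizer ({x} : Set N)).index) ∧
      ¬ ((∃ P : Sylow p (G ⧸ N), ¬ IsMulCommutative P) ∧ ∀ x : (G ⧸ N), (∃ k : ℕ, orderOf x = p ^ k) → ¬ p ∣ (Subgroup.centralizer ({x} : Set (G ⧸ N))).index)) :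
    IsSimpleGroup G := by
  obtain ⟨⟨P, hP⟩, hcc⟩ := h
  have hnt : Nontrivial G := by
    by_contra hnt
    rw [not_nontrivial_iff_subsingleton] at hnt
    exact hP (isMulCommutative_iff.mpr fun a b => Subsingleton.elim _ _)
  refine { toNontrivial := hnt, eq_bot_or_eq_top_of_normal := ?_ }
  intro N hN
  by_contra hcon
  rw [not_or] at hcon
  obtain ⟨h1, h2⟩ := hmin N hcon.1 hcon.2
  have hN1 : ∀ S : Sylow p N, IsMulCommutative S := by
    intro S
    by_contra hS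
    exact h1 ⟨⟨S, hS⟩, cc_subgroup p N hcc⟩
  have hN2 : ∀ S : Sylow p (G ⧸ N), IsMulCommutative S := by
    intro S
    by_contra hS
    exact h2 ⟨⟨S, hS⟩, cc_quotient p N hcc⟩
  exact hP (sylow_comm_of_normal p N hcc hN1 hN2 P)

end Cfsg.Agent.S4354
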