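import Cfsg.Statements.S4364
import Cfsg.Agent.H11.Cores
import Cfsg.Agent.H92.ClassComm

set_option autoImplicit false
open Cfsg Cfsg.Agent.H92

namespace Cfsg.Agent.S4364

/-- Let G be a finite group, p a prime and x an element whose conjugacy class has p-power size. Then for any two conjugates y and z of x, the commutator y z y⁻¹ z⁻¹ lies in O_p(G), the largest normal p-subgroup of G. -/
theorem result {G : Type*} [Group G] [Finite G] (p : ℕ) [Fact p.Prime]
    (x : G) (hx : ∃ a : ℕ, (Subgroup.centralizer ({x} : Set G)).index = p ^ a) (g h : G) :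
    (g * x * g⁻¹) * (h * x * h⁻¹) * (g * x * g⁻¹)⁻¹ * (h * x * h⁻¹)⁻¹ ∈ Cfsg.pCore p G := by
  have hp := (Fact.out : p.Prime)
  obtain ⟨a, ha⟩ := hx
  haveI hOc : (Cfsg.pCore p G).Characteristic := Cfsg.Agent.H11.pCore_characteristic p
  haveI hOn : (Cfsg.pCore p G).Normal := inferInstance
  have hOp : IsPGroup p (Cfsg.pCore p G) := Cfsg.Agent.H11.isPGroup_pCore p
  have hOpq : ∀ T : Subgroup (G ⧸ Cfsg.pCore p G), T.Normal → IsPGroup p T → T = ⊥ := by
    intro T hT hTp
    have h1 : T.comap (QuotientGroup.mk' (Cfsg.pCore p G)) ≤ Cfsg.pCore p G := by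
      apply le_sSup
      refine ⟨hT.comap _, ?_⟩
      apply IsPGroup.comap_of_ker_isPGroup hTp
      rw [QuotientGroup.ker_mk']
      exact hOp
    rw [eq_bot_iff]
    intro t ht
    obtain ⟨y, rfl⟩ := QuotientGroup.mk_surjective t
    have : y ∈ Cfsg.pCore p G := h1 ht
    rw [Subgroup.mem_bot]
    exact (QuotientGroup.eq_one_iff y).mpr this
  obtain ⟨b, hb⟩ : ∃ b, (Subgroup.centralizer
      ({(QuotientGroup.mk x : G ⧸ Cfsg.pCore p G)} : Set (G ⧸ Cfsg.pCore p G))).index = p ^ b := by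
    have := index_centralizer_quotient_dvd (Cfsg.pCore p G) x
    rw [ha] at this
    obtain ⟨b, -, hb⟩ := (Nat.dvd_prime_pow hp).mp this
    exact ⟨b, hb⟩
  have hconj : ∀ k : G, (QuotientGroup.mk' (Cfsg.pCore p G)) (k * x * k⁻¹) ∈
      Subgroup.normalClosure ({(QuotientGroup.mk x : G ⧸ Cfsg.pCore p G)} :
        Set (G ⧸ Cfsg.pCore p G)) := by
    intro k
    have hx' : (QuotientGroup.mk' (Cfsg.pCore p G)) x ∈
        Subgroup.normalClosure ({(QuotientGroup.mk x : G ⧸ Cfsg.pCore p G)} :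
          Set (G ⧸ Cfsg.pCore p G)) :=
      Subgroup.subset_normalClosure (Set.mem_singleton _)
    have h3 := (Subgroup.normalClosure_normal
      (s := ({(QuotientGroup.mk x : G ⧸ Cfsg.pCore p G)} : Set (G ⧸ Cfsg.pCore p G)))).conj_mem
      ((QuotientGroup.mk' (Cfsg.pCore p G)) x) hx' ((QuotientGroup.mk' (Cfsg.pCore p G)) k)
    rw [map_mul, map_mul, map_inv]
    exact h3
  have hcomm : (QuotientGroup.mk' (Cfsg.pCore p G)) (g * x * g⁻¹) *
      (QuotientGroup.mk' (Cfsg.pCore p G)) (h * x * h⁻¹) =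
      (QuotientGroup.mk' (Cfsg.pCore p G)) (h * x * h⁻¹) *
      (QuotientGroup.mk' (Cfsg.pCore p G)) (g * x * g⁻¹) :=
    normalClosure_abelian_of_no_normal_p hp hOpq
      (QuotientGroup.mk x : G ⧸ Cfsg.pCore p G) hb _ _ (hconj g) (hconj h)
  have hker : (QuotientGroup.mk' (Cfsg.pCore p G))
      ((g * x * g⁻¹) * (h * x * h⁻¹) * (g * x * g⁻¹)⁻¹ * (h * x * h⁻¹)⁻¹) = 1 := by
    rw [map_mul, map_mul, map_mul, map_inv, map_inv, hcomm, mul_inv_cancel_right,
      mul_inv_cancel]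
  exact (QuotientGroup.eq_one_iff _).mp hker


end Cfsg.Agent.S4364
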