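import Cfsg.Statements.S4365

set_option autoImplicit false
open Cfsg

namespace Cfsg.Agent.S4365

theorem conj_pow_central {P : Type*} [Group P] (k t z : P) (hz : ∀ g : P, g * z = z * g)
    (h : k * t * k⁻¹ = z * t) (j : ℕ) : k ^ j * t * (k ^ j)⁻¹ = z ^ j * t := by
  induction j with
  | zero => simp
  | succ j ih =>
    have hzj : k * z ^ j = z ^ j * k := by
      have : Commute k z := hz k
      exact this.pow_right j
    calc k ^ (j + 1) * t * (k ^ (j + 1))⁻¹ = k * (k ^ j * t * (k ^ j)⁻¹) * k⁻¹ := by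
          rw [pow_succ']; group
      _ = k * (z ^ j * t) * k⁻¹ := by rw [ih]
      _ = (k * z ^ j) * t * k⁻¹ := by group
      _ = z ^ j * (k * t * k⁻¹) := by rw [hzj]; group
      _ = z ^ (j + 1) * t := by rw [h, pow_succ]; group

/-- Key lemma: if `C(t ^ p) = C(t)` and `k t k⁻¹ = z t` with `z` a central `p`-element, then
`z = 1`. -/
theorem central_conj_trivial {P : Type*} [Group P] (p : ℕ) (t : P)
    (hCt : ∀ g : P, g * t ^ p = t ^ p * g → g * t = t * g) :
    ∀ (e : ℕ) (k z : P), (∀ g : P, g * z = z * g) → z ^ (p ^ e) = 1 → k * t * k⁻¹ = z * t →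
      z = 1 := by
  intro e
  induction e with
  | zero =>
    intro k z _ hz1 _
    simpa using hz1
  | succ e ih =>
    intro k z hz hz1 h
    have hzp : z ^ p = 1 := by
      apply ih (k ^ p) (z ^ p)
      · intro g
        have : Commute g z := hz g
        exact this.pow_right p
      · rw [← pow_mul, ← pow_succ']; exact hz1
      · exact conj_pow_central k t z hz h p
    have h2 : k * t ^ p * k⁻¹ = t ^ p := by
      have e1 : k * t ^ p * k⁻¹ = (k * t * k⁻¹) ^ p := (conj_pow (a := k) (b := t) (i := p)).symm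
      have hc : Commute z t := (hz t).symm
      rw [e1, h, hc.mul_pow, hzp, one_mul]
    have h3 : k * t ^ p = t ^ p * k := by
      calc k * t ^ p = (k * t ^ p * k⁻¹) * k := by group
        _ = t ^ p * k := by rw [h2]
    have h4 := hCt k h3
    have h5 : k * t * k⁻¹ = t := by rw [h4]; group
    rw [h5] at h
    have : z * t = 1 * t := by rw [one_mul]; exact h.symm
    exact mul_right_cancel this

/-- Let P be a finite p-group whose conjugacy class sizes are exactly 1 and pᵃ for some a ≥ 1. Then every element of P has its p-th power in the center of P (P/Z(P) has exponent p). -/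
theorem result {P : Type*} [Group P] [Finite P] (p : ℕ) [Fact p.Prime]
    (hP : IsPGroup p P) (a : ℕ) (ha : 1 ≤ a)
    (hcs : {k : ℕ | ∃ x : P, (Subgroup.centralizer ({x} : Set P)).index = k} = {1, p ^ a}) (x : P) :
    x ^ p ∈ Subgroup.center P := by
  have hp : p.Prime := Fact.out
  have hpa : p ^ a ≠ 1 := by
    have : 1 < p ^ a := Nat.one_lt_pow (by omega) hp.one_lt
    omega
  -- basic facts
  have hidx : ∀ t : P, (Subgroup.centralizer ({t} : Set P)).index = 1 ∨
      (Subgroup.centralizer ({t} : Set P)).index = p ^ a := by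
    intro t
    have : (Subgroup.centralizer ({t} : Set P)).index ∈ ({1, p ^ a} : Set ℕ) := by
      rw [← hcs]; exact ⟨t, rfl⟩
    simpa using this
  have hcen : ∀ t : P, t ∈ Subgroup.center P ↔ Subgroup.centralizer ({t} : Set P) = ⊤ := by
    intro t
    rw [Subgroup.centralizer_eq_top_iff_subset, Set.singleton_subset_iff]
    rfl
  have hidx' : ∀ t : P, t ∉ Subgroup.center P →
      (Subgroup.centralizer ({t} : Set P)).index = p ^ a := by
    intro t ht
    rcases hidx t with h | h
    · exact absurd ((hcen t).mpr (Subgroup.index_eq_one.mp h)) ht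
    · exact h
  have hmemZ : ∀ t : P, t ∈ Subgroup.center P ↔ ∀ g : P, g * t = t * g := by
    intro t
    rw [Subgroup.mem_center_iff]
  have F1 : ∀ t s : P, t ∉ Subgroup.center P → s ∉ Subgroup.center P →
      Subgroup.centralizer ({t} : Set P) ≤ Subgroup.centralizer ({s} : Set P) →
      Subgroup.centralizer ({s} : Set P) ≤ Subgroup.centralizer ({t} : Set P) := by
    intro t s ht hs hle
    have h1 := Subgroup.relIndex_mul_index hle
    rw [hidx' t ht, hidx' s hs] at h1
    have h2 : (Subgroup.centralizer ({t} : Set P)).relIndex (Subgroup.centralizer ({s} : Set P)) = 1 := by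
      have hpos : 0 < p ^ a := pow_pos hp.pos a
      have : (Subgroup.centralizer ({t} : Set P)).relIndex (Subgroup.centralizer ({s} : Set P)) * p ^ a
          = 1 * p ^ a := by rw [h1, one_mul]
      exact Nat.eq_of_mul_eq_mul_right hpos this
    exact Subgroup.relIndex_eq_one.mp h2
  have F1' : ∀ t s : P, t ∉ Subgroup.center P → s ∉ Subgroup.center P →
      (∀ g : P, g * t = t * g → g * s = s * g) → ∀ g : P, g * s = s * g → g * t = t * g := by
    intro t s ht hs hle g hg
    have := F1 t s ht hs (fun g hg => Subgroup.mem_centralizer_singleton_iff.mpr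
      (hle g (Subgroup.mem_centralizer_singleton_iff.mp hg)))
    exact Subgroup.mem_centralizer_singleton_iff.mp
      (this (Subgroup.mem_centralizer_singleton_iff.mpr hg))
  -- F2 : if `t ^ p` is not central then `C(t ^ p) = C(t)`
  have F2 : ∀ t : P, t ^ p ∉ Subgroup.center P → ∀ g : P, g * t ^ p = t ^ p * g → g * t = t * g := by
    intro t ht
    have ht' : t ∉ Subgroup.center P := fun h => ht ((Subgroup.center P).pow_mem h p)
    apply F1' t (t ^ p) ht' ht
    intro g hg
    have : Commute g t := hg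
    exact this.pow_right p
  -- F3
  have F3 : ∀ t : P, t ^ p ∉ Subgroup.center P → ∀ k : P, k * t * k⁻¹ * t⁻¹ ∈ Subgroup.center P →
      k * t = t * k := by
    intro t ht k hk
    obtain ⟨e, he⟩ := hP (k * t * k⁻¹ * t⁻¹)
    have h1 : k * t * k⁻¹ = (k * t * k⁻¹ * t⁻¹) * t := by group
    have hz1 := central_conj_trivial p t (F2 t ht) e k (k * t * k⁻¹ * t⁻¹)
      ((hmemZ _).mp hk) he h1
    have : k * t = (k * t * k⁻¹ * t⁻¹) * (t * k) := by group
    rw [this, hz1, one_mul]
  by_contra hx
  have hxZ : x ∉ Subgroup.center P := fun h => hx ((Subgroup.center P).pow_mem h p)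
  -- Step 1: an element `y` of the second center
  obtain ⟨y, hyZ, hy2⟩ : ∃ y : P, y ∉ Subgroup.center P ∧
      ∀ g : P, g * y * g⁻¹ * y⁻¹ ∈ Subgroup.center P := by
    have hnt : Nontrivial (P ⧸ Subgroup.center P) := by
      rw [← not_subsingleton_iff_nontrivial]
      intro hs
      apply hxZ
      have : (QuotientGroup.mk x : P ⧸ Subgroup.center P) = 1 := Subsingleton.elim _ _
      exact (QuotientGroup.eq_one_iff x).mp this
    have hPq : IsPGroup p (P ⧸ Subgroup.center P) := hP.to_quotient _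
    have hZnt : Nontrivial (Subgroup.center (P ⧸ Subgroup.center P)) := hPq.center_nontrivial
    obtain ⟨⟨c, hc⟩, hc1⟩ := exists_ne (1 : Subgroup.center (P ⧸ Subgroup.center P))
    obtain ⟨y, rfl⟩ := QuotientGroup.mk_surjective c
    refine ⟨y, ?_, ?_⟩
    · intro hy
      apply hc1
      apply Subtype.ext
      exact (QuotientGroup.eq_one_iff y).mpr hy
    · intro g
      rw [← QuotientGroup.eq_one_iff]
      have := Subgroup.mem_center_iff.mp hc (QuotientGroup.mk g)
      simp only [QuotientGroup.mk_mul, QuotientGroup.mk_inv]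
      rw [this]
      group
  -- `y ^ p` is central
  have hyp : y ^ p ∈ Subgroup.center P := by
    by_contra hyp
    apply hyZ
    rw [hmemZ]
    intro g
    exact F3 y hyp g (hy2 g)
  -- Step 2: `x` commutes with `y`
  have hxy : y * x = x * y := by
    apply F3 x hx y
    have := (Subgroup.center P).inv_mem (hy2 x)
    have e : (x * y * x⁻¹ * y⁻¹)⁻¹ = y * x * y⁻¹ * x⁻¹ := by group
    rwa [e] at this
  -- Step 3: `C(x) = C(y)`
  have hw : (x * y) ^ p = x ^ p * y ^ p := by
    have : Commute x y := hxy.symm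
    exact this.mul_pow p
  have hwZ : (x * y) ^ p ∉ Subgroup.center P := by
    intro h
    apply hx
    have : x ^ p = (x * y) ^ p * (y ^ p)⁻¹ := by rw [hw]; group
    rw [this]
    exact (Subgroup.center P).mul_mem h ((Subgroup.center P).inv_mem hyp)
  have hyc := (hmemZ _).mp hyp
  have hCw : ∀ g : P, g * x = x * g → g * (x * y) = (x * y) * g := by
    intro g hg
    apply F2 (x * y) hwZ
    have h1 : g * x ^ p = x ^ p * g := by
      have : Commute g x := hg
      exact this.pow_right p
    rw [hw]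
    calc g * (x ^ p * y ^ p) = (g * x ^ p) * y ^ p := by group
      _ = x ^ p * (g * y ^ p) := by rw [h1]; group
      _ = x ^ p * y ^ p * g := by rw [hyc g]; group
  have hDy : ∀ g : P, g * x = x * g → g * y = y * g := by
    intro g hg
    have h1 := hCw g hg
    have : x * (g * y) = x * (y * g) := by
      calc x * (g * y) = (x * g) * y := by group
        _ = (g * x) * y := by rw [hg]
        _ = g * (x * y) := by group
        _ = x * y * g := h1
        _ = x * (y * g) := by group
    exact mul_left_cancel this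
  have hDy' : ∀ g : P, g * y = y * g → g * x = x * g := F1' x y hxZ hyZ hDy
  -- Step 4/5: every conjugate of `x` has the same centralizer as `x`
  have hconjy : ∀ g d : P, d * y = y * d → (g * d * g⁻¹) * y = y * (g * d * g⁻¹) := by
    intro g d hd
    have hz := (hmemZ _).mp (hy2 g⁻¹)
    -- g⁻¹ y g = z y with z central
    set z := g⁻¹ * y * g⁻¹⁻¹ * y⁻¹ with hzdef
    have e1 : g⁻¹ * y * g = z * y := by rw [hzdef]; group
    have e2 : d * (z * y) = (z * y) * d := by
      calc d * (z * y) = (d * z) * y := by group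
        _ = z * (d * y) := by rw [hz d]; group
        _ = z * y * d := by rw [hd]; group
    calc g * d * g⁻¹ * y = g * (d * (g⁻¹ * y * g)) * g⁻¹ := by group
      _ = g * ((g⁻¹ * y * g) * d) * g⁻¹ := by rw [e1, e2]
      _ = y * (g * d * g⁻¹) := by group
  have hconjx : ∀ g d : P, d * x = x * d → (g * d * g⁻¹) * x = x * (g * d * g⁻¹) := by
    intro g d hd
    exact hDy' _ (hconjy g d (hDy d hd))
  have hcx : ∀ g d : P, d * x = x * d → d * (g * x * g⁻¹) = (g * x * g⁻¹) * d := by
    intro g d hd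
    have h1 := hconjx g⁻¹ d hd
    rw [inv_inv] at h1
    calc d * (g * x * g⁻¹) = g * ((g⁻¹ * d * g) * x) * g⁻¹ := by group
      _ = g * (x * (g⁻¹ * d * g)) * g⁻¹ := by rw [h1]
      _ = g * x * g⁻¹ * d := by group
  have hcx' : ∀ g d : P, d * (g * x * g⁻¹) = (g * x * g⁻¹) * d → d * x = x * d := by
    intro g d hd
    have h1 : (g⁻¹ * d * g) * x = x * (g⁻¹ * d * g) := by
      calc g⁻¹ * d * g * x = g⁻¹ * (d * (g * x * g⁻¹)) * g := by group
        _ = g⁻¹ * ((g * x * g⁻¹) * d) * g := by rw [hd]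
        _ = x * (g⁻¹ * d * g) := by group
    have h2 := hconjx g _ h1
    have e : g * (g⁻¹ * d * g) * g⁻¹ = d := by group
    rwa [e] at h2
  -- Step 6: counting
  obtain ⟨u, hu⟩ : ∃ u : P, ¬ (u * x = x * u) := by
    by_contra hcon
    push Not at hcon
    exact hxZ ((hmemZ x).mpr hcon)
  have huZ : u ∉ Subgroup.center P := fun h => hu ((Subgroup.mem_center_iff.mp h x).symm)
  set D : Subgroup P := Subgroup.centralizer ({x} : Set P) with hD
  set Cu : Subgroup P := Subgroup.centralizer ({u} : Set P) with hCu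
  let f : P ⧸ D → P ⧸ Cu := fun q => Quotient.liftOn' q
    (fun g => (QuotientGroup.mk (g * x * g⁻¹) : P ⧸ Cu)) (by
      intro g₁ g₂ h
      have h' : g₁⁻¹ * g₂ ∈ D := QuotientGroup.leftRel_apply.mp h
      have h'' : (g₁⁻¹ * g₂) * x = x * (g₁⁻¹ * g₂) := Subgroup.mem_centralizer_singleton_iff.mp h'
      have : g₁ * x * g₁⁻¹ = g₂ * x * g₂⁻¹ := by
        calc g₁ * x * g₁⁻¹ = g₁ * (x * (g₁⁻¹ * g₂)) * g₂⁻¹ := by group
          _ = g₁ * ((g₁⁻¹ * g₂) * x) * g₂⁻¹ := by rw [h'']
          _ = g₂ * x * g₂⁻¹ := by group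
      show (QuotientGroup.mk (g₁ * x * g₁⁻¹) : P ⧸ Cu) = QuotientGroup.mk (g₂ * x * g₂⁻¹)
      rw [this])
  have hf : ∀ g : P, f (QuotientGroup.mk g) = QuotientGroup.mk (g * x * g⁻¹) := fun g => rfl
  have hinj : Function.Injective f := by
    intro q₁ q₂ h
    obtain ⟨g₁, rfl⟩ := QuotientGroup.mk_surjective q₁
    obtain ⟨g₂, rfl⟩ := QuotientGroup.mk_surjective q₂
    rw [hf, hf, QuotientGroup.eq] at h
    set c := (g₁ * x * g₁⁻¹)⁻¹ * (g₂ * x * g₂⁻¹) with hc
    have hcu : c * u = u * c := Subgroup.mem_centralizer_singleton_iff.mp h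
    -- `c` is centralized by `D`
    have hcD : ∀ d : P, d * x = x * d → d * c = c * d := by
      intro d hd
      have h1 := hcx g₁ d hd
      have h2 := hcx g₂ d hd
      have h1' : d * (g₁ * x * g₁⁻¹)⁻¹ = (g₁ * x * g₁⁻¹)⁻¹ * d := by
        have : Commute d (g₁ * x * g₁⁻¹) := h1
        exact this.inv_right
      rw [hc]
      calc d * ((g₁ * x * g₁⁻¹)⁻¹ * (g₂ * x * g₂⁻¹))
          = (d * (g₁ * x * g₁⁻¹)⁻¹) * (g₂ * x * g₂⁻¹) := by group
        _ = (g₁ * x * g₁⁻¹)⁻¹ * (d * (g₂ * x * g₂⁻¹)) := by rw [h1']; group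
        _ = (g₁ * x * g₁⁻¹)⁻¹ * (g₂ * x * g₂⁻¹) * d := by rw [h2]; group
    have hcZ : c ∈ Subgroup.center P := by
      by_contra hcZ
      apply hu
      exact F1' x c hxZ hcZ hcD u hcu.symm
    -- now `g₁⁻¹ g₂` commutes with `x`
    rw [QuotientGroup.eq]
    apply Subgroup.mem_centralizer_singleton_iff.mpr
    apply F3 x hx
    have e : g₁⁻¹ * g₂ * x * (g₁⁻¹ * g₂)⁻¹ * x⁻¹ = g₁⁻¹ * (g₁ * x * g₁⁻¹ * c * (g₁ * x * g₁⁻¹)⁻¹) * g₁ := by
      rw [hc]; group
    rw [e]
    have hcc := (hmemZ c).mp hcZ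
    have e2 : g₁ * x * g₁⁻¹ * c * (g₁ * x * g₁⁻¹)⁻¹ = c := by
      rw [hcc (g₁ * x * g₁⁻¹)]; group
    rw [e2]
    have e3 : g₁⁻¹ * c * g₁ = c := by
      rw [hcc g₁⁻¹]; group
    rw [e3]
    exact hcZ
  have hcard : Nat.card (P ⧸ Cu) ≤ Nat.card (P ⧸ D) := by
    rw [← Subgroup.index_eq_card, ← Subgroup.index_eq_card, hidx' u huZ, hidx' x hxZ]
  have hbij := hinj.bijective_of_nat_card_le hcard
  obtain ⟨q, hq⟩ := hbij.2 (QuotientGroup.mk (1 : P))
  obtain ⟨g, rfl⟩ := QuotientGroup.mk_surjective q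
  rw [hf, QuotientGroup.eq, mul_one] at hq
  have hq' : g * x * g⁻¹ ∈ Cu := by
    have := Cu.inv_mem hq
    rwa [inv_inv] at this
  have h1 : (g * x * g⁻¹) * u = u * (g * x * g⁻¹) := Subgroup.mem_centralizer_singleton_iff.mp hq'
  exact hu (hcx' g u h1.symm)

end Cfsg.Agent.S4365
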