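import Cfsg.Statements.S4370
import Cfsg.Agent.S0016
import Cfsg.Agent.H76.SylowBasics

set_option autoImplicit false
open Cfsg

namespace Cfsg.Agent.S4370

open Cfsg.Agent.H76 QuaternionGroup

theorem zmod_two_mul_eq_zero {n : ℕ} [NeZero n] (j : ZMod (2 * n)) (h : 2 * j = 0) :
    j = 0 ∨ j = (n : ZMod (2 * n)) := by
  have hn : 0 < n := Nat.pos_of_ne_zero (NeZero.ne n)
  have h1 : ((2 * j.val : ℕ) : ZMod (2 * n)) = 0 := by
    push_cast
    rw [ZMod.natCast_zmod_val]
    exact h
  rw [ZMod.natCast_eq_zero_iff] at h1
  have h2 : n ∣ j.val := (Nat.mul_dvd_mul_iff_left (by norm_num : 0 < 2)).mp h1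
  have h3 : j.val < 2 * n := ZMod.val_lt j
  obtain ⟨t, ht⟩ := h2
  have ht2 : t = 0 ∨ t = 1 := by
    rcases Nat.lt_or_ge t 2 with h | h
    · omega
    · exfalso
      have : n * 2 ≤ n * t := Nat.mul_le_mul_left n h
      omega
  rcases ht2 with rfl | rfl
  · left
    have : j.val = 0 := by omega
    exact (ZMod.val_eq_zero j).mp this
  · right
    have hv : j.val = n := by omega
    calc j = ((j.val : ℕ) : ZMod (2 * n)) := (ZMod.natCast_zmod_val j).symm
      _ = (n : ZMod (2 * n)) := by rw [hv]

theorem quaternion_a_central {n : ℕ} [NeZero n] (i : ZMod (2 * n)) (h : 2 * i = 0)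
    (y : QuaternionGroup n) : a i * y = y * a i := by
  have h' : i = -i := by
    have : i + i = 0 := (two_mul i).symm.trans h
    exact eq_neg_of_add_eq_zero_left this
  cases y with
  | a j => rw [a_mul_a, a_mul_a, add_comm]
  | xa j =>
    rw [a_mul_xa, xa_mul_a]
    congr 1
    rw [sub_eq_add_neg, ← h']

theorem quaternion_isCyclic_centralizer {n : ℕ} [NeZero n] (q : QuaternionGroup n)
    (hq : ∃ y, q * y ≠ y * q) :
    IsCyclic (Subgroup.centralizer ({q} : Set (QuaternionGroup n))) := by
  obtain ⟨y, hy⟩ := hq
  cases q with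
  | a i =>
    have hle : Subgroup.centralizer ({a i} : Set (QuaternionGroup n)) ≤
        Subgroup.zpowers (a 1 : QuaternionGroup n) := by
      intro g hg
      rw [Subgroup.mem_centralizer_singleton_iff] at hg
      cases g with
      | a j =>
        rw [Subgroup.mem_zpowers_iff]
        refine ⟨j.val, ?_⟩
        rw [zpow_natCast, a_one_pow, ZMod.natCast_zmod_val]
      | xa j =>
        exfalso
        rw [a_mul_xa, xa_mul_a] at hg
        have h1 : j + i = j - i := by
          injection hg
        have h2 : 2 * i = 0 := by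
          have : i + i = 0 := by
            have h3 : (j + i) - (j - i) = 0 := by rw [h1]; ring
            have h4 : (j + i) - (j - i) = i + i := by ring
            rw [← h4]; exact h3
          exact (two_mul i).trans this
        exact hy (quaternion_a_central i h2 y)
    exact Subgroup.isCyclic_of_le hle
  | xa i =>
    have hle : Subgroup.centralizer ({xa i} : Set (QuaternionGroup n)) ≤
        Subgroup.zpowers (xa i : QuaternionGroup n) := by
      intro g hg
      rw [Subgroup.mem_centralizer_singleton_iff] at hg
      cases g with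
      | a j =>
        rw [xa_mul_a, a_mul_xa] at hg
        have h1 : i - j = i + j := by
          injection hg
        have h1 := h1.symm
        have h2 : 2 * j = 0 := by
          have h3 : (i + j) - (i - j) = 0 := by rw [h1]; ring
          have h4 : (i + j) - (i - j) = 2 * j := by ring
          rw [← h4]; exact h3
        rcases zmod_two_mul_eq_zero j h2 with rfl | rfl
        · rw [a_zero]
          exact one_mem _
        · rw [← xa_sq i]
          exact pow_mem (Subgroup.mem_zpowers _) 2
      | xa j =>
        rw [xa_mul_xa, xa_mul_xa] at hg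
        have h1 : (n : ZMod (2 * n)) + i - j = (n : ZMod (2 * n)) + j - i := by
          injection hg
        have h1 := h1.symm
        have h2 : 2 * (j - i) = 0 := by
          have h3 : ((n : ZMod (2 * n)) + j - i) - ((n : ZMod (2 * n)) + i - j) = 0 := by
            rw [h1]; ring
          have h4 : ((n : ZMod (2 * n)) + j - i) - ((n : ZMod (2 * n)) + i - j) = 2 * (j - i) := by
            ring
          rw [← h4]; exact h3
        rcases zmod_two_mul_eq_zero (j - i) h2 with h | h
        · have : j = i := sub_eq_zero.mp h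
          rw [this]
          exact Subgroup.mem_zpowers _
        · have : j = i + n := by rw [← h]; ring
          rw [this, ← xa_mul_a, ← xa_sq i]
          exact mul_mem (Subgroup.mem_zpowers _) (pow_mem (Subgroup.mem_zpowers _) 2)
    exact Subgroup.isCyclic_of_le hle


/-- `⇐`: in `Q_{2^(k+2)} × C_m`, `m` odd, centralizers of non-central elements are cyclic. -/
theorem backward {G : Type*} [Group G] (k m : ℕ) (hm : Odd m)
    (e : G ≃* QuaternionGroup (2 ^ k) × Multiplicative (ZMod m)) (x : G)
    (hx : x ∉ Subgroup.center G) : IsCyclic (Subgroup.centralizer ({x} : Set G)) := by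
  have : NeZero (2 ^ k) := ⟨by positivity⟩
  have : NeZero m := ⟨by
    rintro rfl
    exact absurd hm (by decide)⟩
  have hq : ∃ y, (e x).1 * y ≠ y * (e x).1 := by
    by_contra hcon
    push Not at hcon
    apply hx
    rw [Subgroup.mem_center_iff]
    intro g
    apply e.injective
    rw [map_mul, map_mul]
    apply Prod.ext
    · exact (hcon (e g).1).symm
    · exact mul_comm _ _
  have hcyc := quaternion_isCyclic_centralizer (e x).1 hq
  let f1 : Subgroup.centralizer ({x} : Set G) →*
      Subgroup.centralizer ({(e x).1} : Set (QuaternionGroup (2 ^ k))) :=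
    MonoidHom.codRestrict (((MonoidHom.fst _ _).comp e.toMonoidHom).comp
      (Subgroup.centralizer ({x} : Set G)).subtype) _ (by
      intro g
      rw [Subgroup.mem_centralizer_singleton_iff]
      have h1 := Subgroup.mem_centralizer_singleton_iff.mp g.2
      have h2 := congrArg (fun z => (e z).1) h1
      simpa using h2)
  let f2 : Subgroup.centralizer ({x} : Set G) →* Multiplicative (ZMod m) :=
    ((MonoidHom.snd _ _).comp e.toMonoidHom).comp (Subgroup.centralizer ({x} : Set G)).subtype
  have hinj : Function.Injective (f1.prod f2) := by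
    intro g g' h
    have h1 : (e g.1).1 = (e g'.1).1 :=
      congrArg (fun z : Subgroup.centralizer ({(e x).1} : Set (QuaternionGroup (2 ^ k))) ×
        Multiplicative (ZMod m) => (z.1 : QuaternionGroup (2 ^ k))) h
    have h2 : (e g.1).2 = (e g'.1).2 :=
      congrArg (fun z : Subgroup.centralizer ({(e x).1} : Set (QuaternionGroup (2 ^ k))) ×
        Multiplicative (ZMod m) => z.2) h
    apply Subtype.ext
    apply e.injective
    exact Prod.ext h1 h2
  have : IsCyclic (Subgroup.centralizer ({(e x).1} : Set (QuaternionGroup (2 ^ k))) ×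
      Multiplicative (ZMod m)) := by
    rw [Group.isCyclic_prod_iff]
    refine ⟨hcyc, inferInstance, ?_⟩
    have h1 : Nat.card (Subgroup.centralizer ({(e x).1} : Set (QuaternionGroup (2 ^ k)))) ∣
        2 ^ (k + 2) := by
      have h0 := Subgroup.card_subgroup_dvd_card
        (Subgroup.centralizer ({(e x).1} : Set (QuaternionGroup (2 ^ k))))
      rw [Nat.card_eq_fintype_card (α := QuaternionGroup (2 ^ k)), QuaternionGroup.card] at h0
      have h3 : 4 * 2 ^ k = 2 ^ (k + 2) := by ring
      rw [h3] at h0
      exact h0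
    have h2 : Nat.card (Multiplicative (ZMod m)) = m := by
      rw [Nat.card_eq_fintype_card]
      simp [ZMod.card]
    rw [h2]
    exact Nat.Coprime.coprime_dvd_left h1 (Nat.Coprime.pow_left _ (Nat.coprime_two_left.mpr hm))
  exact isCyclic_of_injective (f1.prod f2) hinj

/-- A subgroup containing a Sylow `q`-subgroup for every prime `q` is the whole group. -/
theorem eq_top_of_sylow_le {G : Type*} [Group G] [Finite G] (H : Subgroup G)
    (h : ∀ (q : ℕ) [Fact q.Prime], ∃ Q : Sylow q G, (Q : Subgroup G) ≤ H) : H = ⊤ := by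
  rw [← Subgroup.index_eq_one, Nat.eq_one_iff_not_exists_prime_dvd]
  intro q hq hdvd
  have := Fact.mk hq
  exact (not_dvd_index_iff_exists_sylow_le H).mpr (h q) hdvd

/-- In a finite nilpotent group, Sylow subgroups for different primes centralize each other. -/
theorem sylow_le_centralizer {G : Type*} [Group G] [Finite G] (hG : Group.IsNilpotent G)
    {p q : ℕ} [Fact p.Prime] [Fact q.Prime] (hpq : p ≠ q) (P : Sylow p G) (Q : Sylow q G) :
    (Q : Subgroup G) ≤ Subgroup.centralizer ((P : Subgroup G) : Set G) := by
  have hn := ((Group.isNilpotent_of_finite_tfae (G := G)).out 0 3).mp hG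
  have hP : (P : Subgroup G).Normal := hn p inferInstance P
  have hQ : (Q : Subgroup G).Normal := hn q inferInstance Q
  have hdis : Disjoint (P : Subgroup G) (Q : Subgroup G) :=
    IsPGroup.disjoint_of_ne p q hpq _ _ P.isPGroup' Q.isPGroup'
  intro y hy
  rw [Subgroup.mem_centralizer_iff]
  intro u hu
  exact (Subgroup.commute_of_normal_of_disjoint _ _ hP hQ hdis u y hu hy).eq

/-- Two subgroups of the same order in a finite cyclic group coincide. -/
theorem subgroup_eq_of_card_eq_of_isCyclic {E : Type*} [Group E] [Finite E] [IsCyclic E]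
    (H K : Subgroup E) (h : Nat.card H = Nat.card K) : H = K := by
  letI : CommGroup E := IsCyclic.commGroup
  have key : ∀ L : Subgroup E, L = (powMonoidHom (Nat.card L) : E →* E).ker := by
    intro L
    apply Subgroup.eq_of_le_of_card_ge
    · intro x hx
      rw [MonoidHom.mem_ker, powMonoidHom_apply]
      have h1 : (⟨x, hx⟩ : L) ^ Nat.card L = 1 := pow_card_eq_one'
      exact congrArg Subtype.val h1
    · rw [IsCyclic.card_powMonoidHom_ker]
      exact Nat.le_of_eq (Nat.gcd_eq_right (Subgroup.card_subgroup_dvd_card L))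
  rw [key H, key K, h]

/-- Elements of prime order are central. -/
theorem prime_order_central {G : Type*} [Group G] [Finite G] (hG : Group.IsNilpotent G)
    (hc : ∀ x : G, x ∉ Subgroup.center G → IsCyclic (Subgroup.centralizer ({x} : Set G)))
    (p : ℕ) [Fact p.Prime] (y : G) (hy : orderOf y = p) : y ∈ Subgroup.center G := by
  have hp : p.Prime := Fact.out
  obtain ⟨P, hyP⟩ := exists_sylow_mem_of_orderOf (p := p) (x := y) ⟨1, by rw [hy, pow_one]⟩
  have hy1 : y ≠ 1 := by
    intro h
    rw [h, orderOf_one] at hy
    exact hp.one_lt.ne hy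
  have : Nontrivial P := ⟨⟨⟨y, hyP⟩, 1, fun h => hy1 (congrArg Subtype.val h)⟩⟩
  have hZ : Nontrivial (Subgroup.center P) := P.isPGroup'.center_nontrivial
  have hpdvd : p ∣ Nat.card (Subgroup.center P) := by
    obtain ⟨k, hk⟩ := IsPGroup.iff_card.mp (P.isPGroup'.to_subgroup (Subgroup.center P))
    rw [hk]
    have hk0 : k ≠ 0 := by
      rintro rfl
      rw [pow_zero] at hk
      have := Finite.one_lt_card (α := Subgroup.center P)
      omega
    exact dvd_pow_self p hk0
  obtain ⟨z, hz⟩ := exists_prime_orderOf_dvd_card' p hpdvd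
  have hzord : orderOf ((z : P) : G) = p := by
    calc orderOf ((z : P) : G) = orderOf (z : P) := Subgroup.orderOf_coe _
      _ = orderOf z := Subgroup.orderOf_coe _
      _ = p := hz
  have hzG : ((z : P) : G) ∈ Subgroup.center G := by
    have htop : Subgroup.centralizer ({((z : P) : G)} : Set G) = ⊤ := by
      apply eq_top_of_sylow_le
      intro q _
      by_cases hqp : q = p
      · subst hqp
        refine ⟨P, ?_⟩
        intro u hu
        rw [Subgroup.mem_centralizer_singleton_iff]
        have h1 := Subgroup.mem_center_iff.mp z.2 ⟨u, hu⟩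
        exact congrArg Subtype.val h1
      · obtain ⟨Q⟩ : Nonempty (Sylow q G) := inferInstance
        refine ⟨Q, ?_⟩
        intro u hu
        have h1 := sylow_le_centralizer hG (Ne.symm hqp) P Q hu
        rw [Subgroup.mem_centralizer_iff] at h1
        rw [Subgroup.mem_centralizer_singleton_iff]
        exact (h1 _ z.1.2).symm
    rw [Subgroup.mem_center_iff]
    intro g
    have hg : g ∈ Subgroup.centralizer ({((z : P) : G)} : Set G) := htop ▸ Subgroup.mem_top g
    exact Subgroup.mem_centralizer_singleton_iff.mp hg
  by_contra hyc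
  have hcy := hc y hyc
  have hz_mem : ((z : P) : G) ∈ Subgroup.centralizer ({y} : Set G) := by
    rw [Subgroup.mem_centralizer_singleton_iff]
    exact (Subgroup.mem_center_iff.mp hzG y).symm
  have hy_mem : y ∈ Subgroup.centralizer ({y} : Set G) := by
    rw [Subgroup.mem_centralizer_singleton_iff]
  have heq := subgroup_eq_of_card_eq_of_isCyclic
    (Subgroup.zpowers (⟨y, hy_mem⟩ : Subgroup.centralizer ({y} : Set G)))
    (Subgroup.zpowers (⟨((z : P) : G), hz_mem⟩ : Subgroup.centralizer ({y} : Set G)))
    (by rw [Nat.card_zpowers, Nat.card_zpowers, Subgroup.orderOf_mk, Subgroup.orderOf_mk, hy, hzord])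
  have h1 : (⟨y, hy_mem⟩ : Subgroup.centralizer ({y} : Set G)) ∈
      Subgroup.zpowers (⟨((z : P) : G), hz_mem⟩ : Subgroup.centralizer ({y} : Set G)) := by
    rw [← heq]
    exact Subgroup.mem_zpowers _
  obtain ⟨j, hj⟩ := Subgroup.mem_zpowers_iff.mp h1
  have h2 : ((z : P) : G) ^ j = y := by
    have := congrArg Subtype.val hj
    simpa using this
  apply hyc
  rw [← h2]
  exact zpow_mem hzG j

/-- There is at most one subgroup of each prime order. -/
theorem unique_subgroup_prime_card {G : Type*} [Group G] [Finite G] (hG : Group.IsNilpotent G)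
    (hna : ¬ IsMulCommutative G)
    (hc : ∀ x : G, x ∉ Subgroup.center G → IsCyclic (Subgroup.centralizer ({x} : Set G)))
    (p : ℕ) [Fact p.Prime] (H K : Subgroup G) (hH : Nat.card H = p) (hK : Nat.card K = p) :
    H = K := by
  have hp : p.Prime := Fact.out
  obtain ⟨x, hx⟩ : ∃ x : G, x ∉ Subgroup.center G := by
    by_contra hcon
    push Not at hcon
    apply hna
    exact ⟨⟨fun a b => (Subgroup.mem_center_iff.mp (hcon b) a)⟩⟩
  have hcyc := hc x hx
  have hle : ∀ L : Subgroup G, Nat.card L = p → L ≤ Subgroup.centralizer ({x} : Set G) := by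
    intro L hL y hy
    have hyc : y ∈ Subgroup.center G := by
      by_cases hy1 : y = 1
      · rw [hy1]
        exact one_mem _
      · apply prime_order_central hG hc p y
        have h1 : orderOf (⟨y, hy⟩ : L) ∣ p := by
          rw [← hL]
          exact orderOf_dvd_natCard _
        have h2 : orderOf (⟨y, hy⟩ : L) ≠ 1 := by
          rw [Ne, orderOf_eq_one_iff]
          intro h
          exact hy1 (congrArg Subtype.val h)
        have h3 := ((Nat.dvd_prime hp).mp h1).resolve_left h2
        rw [← h3, Subgroup.orderOf_mk]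
    rw [Subgroup.mem_centralizer_singleton_iff]
    exact (Subgroup.mem_center_iff.mp hyc x).symm
  have hcard : ∀ L : Subgroup G, Nat.card L = p →
      Nat.card (L.subgroupOf (Subgroup.centralizer ({x} : Set G))) = p := by
    intro L hL
    rw [Nat.card_congr (Subgroup.subgroupOfEquivOfLe (hle L hL)).toEquiv, hL]
  have h1 := subgroup_eq_of_card_eq_of_isCyclic
    (H.subgroupOf (Subgroup.centralizer ({x} : Set G)))
    (K.subgroupOf (Subgroup.centralizer ({x} : Set G))) (by rw [hcard H hH, hcard K hK])
  rw [Subgroup.subgroupOf_inj, inf_of_le_left (hle H hH), inf_of_le_left (hle K hK)] at h1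
  exact h1

/-- `⇒` -/
theorem forward {G : Type*} [Group G] [Finite G] (hG : Group.IsNilpotent G)
    (hna : ¬ IsMulCommutative G)
    (hc : ∀ x : G, x ∉ Subgroup.center G → IsCyclic (Subgroup.centralizer ({x} : Set G))) :
    ∃ (k m : ℕ), 1 ≤ k ∧ Odd m ∧
      Nonempty (G ≃* QuaternionGroup (2 ^ k) × Multiplicative (ZMod m)) := by
  have hn := ((Group.isNilpotent_of_finite_tfae (G := G)).out 0 3).mp hG
  have hS : ∀ (p : ℕ) [Fact p.Prime] (P : Sylow p G),
      IsCyclic P ∨ (p = 2 ∧ ∃ n : ℕ, Nonempty (P ≃* QuaternionGroup (2 ^ n))) := by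
    intro p _ P
    apply Cfsg.Agent.S0016.result p P.isPGroup'
    intro H K hH hK
    have h1 := unique_subgroup_prime_card hG hna hc p (H.map (P : Subgroup G).subtype)
      (K.map (P : Subgroup G).subtype)
      (by rw [Subgroup.card_map_of_injective (Subgroup.subtype_injective _), hH])
      (by rw [Subgroup.card_map_of_injective (Subgroup.subtype_injective _), hK])
    exact Subgroup.map_injective (Subgroup.subtype_injective _) h1
  by_cases hall : ∀ (p : ℕ) [Fact p.Prime] (P : Sylow p G), IsCyclic P
  · exfalso
    have : IsZGroup G := ⟨fun p hp P => by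
      have := Fact.mk hp
      exact hall p P⟩
    have : IsCyclic G := inferInstance
    letI : CommGroup G := IsCyclic.commGroup
    exact hna ⟨⟨fun a b => mul_comm a b⟩⟩
  · push Not at hall
    obtain ⟨p, hp, P, hP⟩ := hall
    obtain ⟨rfl, n, ⟨e⟩⟩ := (hS p P).resolve_left hP
    have hn0 : n ≠ 0 := by
      rintro rfl
      apply hP
      have : IsCyclic (QuaternionGroup (2 ^ 0)) := by
        simpa using QuaternionGroup.quaternionGroup_one_isCyclic
      exact isCyclic_of_injective e.toMonoidHom e.injective
    have : NeZero (2 ^ n) := ⟨by positivity⟩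
    have hxy : ((e.symm (a 1) : P) : G) * ((e.symm (xa 0) : P) : G) ≠
        ((e.symm (xa 0) : P) : G) * ((e.symm (a 1) : P) : G) := by
      intro h
      have h1 : e.symm (a 1) * e.symm (xa 0) = e.symm (xa 0) * e.symm (a 1) := Subtype.ext h
      rw [← map_mul, ← map_mul] at h1
      have h2 := e.symm.injective h1
      rw [a_mul_xa, xa_mul_a] at h2
      have h3 : (0 : ZMod (2 * 2 ^ n)) - 1 = 0 + 1 := by
        injection h2
      have h4 : ((2 : ℕ) : ZMod (2 * 2 ^ n)) = 0 := by
        have h5 : (1 : ZMod (2 * 2 ^ n)) + 1 = 0 := by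
          have h6 : (0 : ZMod (2 * 2 ^ n)) + 1 - (0 - 1) = 0 := by rw [h3]; ring
          have h7 : (0 : ZMod (2 * 2 ^ n)) + 1 - (0 - 1) = 1 + 1 := by ring
          rw [← h7]; exact h6
        rw [Nat.cast_ofNat]
        exact one_add_one_eq_two.symm.trans h5
      rw [ZMod.natCast_eq_zero_iff] at h4
      have h8 : 2 * 2 ^ n ≤ 2 := Nat.le_of_dvd (by norm_num) h4
      have h9 : 2 ^ 1 ≤ 2 ^ n := Nat.pow_le_pow_right (by norm_num) (by omega)
      omega
    have hx₀ : ((e.symm (a 1) : P) : G) ∉ Subgroup.center G := fun h =>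
      hxy ((Subgroup.mem_center_iff.mp h _).symm)
    have hcyc := hc _ hx₀
    have hPn : (P : Subgroup G).Normal := hn 2 inferInstance P
    obtain ⟨H, hH⟩ := Subgroup.exists_right_complement'_of_coprime P.card_coprime_index
    have hHcard : Nat.card H = (P : Subgroup G).index := (hH.symm.index_eq_card).symm
    have hodd : ¬ 2 ∣ (P : Subgroup G).index :=
      (not_dvd_index_iff_exists_sylow_le _).mpr ⟨P, le_rfl⟩
    have hHle : H ≤ Subgroup.centralizer ((P : Subgroup G) : Set G) := by
      rw [← Subgroup.relIndex_eq_one, Nat.eq_one_iff_not_exists_prime_dvd]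
      intro q hq hdvd
      have := Fact.mk hq
      have h1 : q ∣ (Subgroup.centralizer ((P : Subgroup G) : Set G)).index :=
        dvd_trans hdvd (Subgroup.relIndex_dvd_index_of_normal _ _)
      have h2 : q ∣ Nat.card H := dvd_trans hdvd (Subgroup.relIndex_dvd_card _ _)
      by_cases hq2 : q = 2
      · subst hq2
        rw [hHcard] at h2
        exact hodd h2
      · obtain ⟨Q⟩ : Nonempty (Sylow q G) := inferInstance
        exact (not_dvd_index_iff_exists_sylow_le _).mpr
          ⟨Q, sylow_le_centralizer hG (Ne.symm hq2) P Q⟩ h1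
    have hHx : H ≤ Subgroup.centralizer ({((e.symm (a 1) : P) : G)} : Set G) := by
      intro c hc'
      have h1 := hHle hc'
      rw [Subgroup.mem_centralizer_iff] at h1
      rw [Subgroup.mem_centralizer_singleton_iff]
      exact (h1 _ (e.symm (a 1)).2).symm
    have hHc : IsCyclic H := Subgroup.isCyclic_of_le hHx
    have hcomm : ∀ (u : (P : Subgroup G)) (c : H),
        Commute ((P : Subgroup G).subtype u) (H.subtype c) := by
      intro u c
      have h1 := hHle c.2
      rw [Subgroup.mem_centralizer_iff] at h1
      exact h1 u.1 u.2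
    have hbij : Function.Bijective
        (MonoidHom.noncommCoprod (P : Subgroup G).subtype H.subtype hcomm) := hH
    refine ⟨n, Nat.card H, Nat.one_le_iff_ne_zero.mpr hn0, ?_,
      ⟨(MulEquiv.ofBijective _ hbij).symm.trans
        (MulEquiv.prodCongr e (zmodCyclicMulEquiv hHc).symm)⟩⟩
    rw [hHcard, ← Nat.not_even_iff_odd, even_iff_two_dvd]
    exact hodd

/-- Let G be a finite non-abelian nilpotent group. Then the centralizer of every non-central element of G is cyclic if and only if G is isomorphic to the direct product of a generalized quaternion group and a cyclic group of odd order. -/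
theorem result {G : Type*} [Group G] [Finite G] (hG : Group.IsNilpotent G)
    (hna : ¬ IsMulCommutative G) :
    (∀ x : G, x ∉ Subgroup.center G → IsCyclic (Subgroup.centralizer ({x} : Set G))) ↔
      ∃ (k m : ℕ), 1 ≤ k ∧ Odd m ∧ Nonempty (G ≃* QuaternionGroup (2 ^ k) × Multiplicative (ZMod m)) := by
  constructor
  · exact forward hG hna
  · rintro ⟨k, m, _, hm, ⟨e⟩⟩ x hx
    exact backward k m hm e x hx

end Cfsg.Agent.S4370
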