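import Cfsg.Statements.S4377

set_option autoImplicit false
open Cfsg

namespace Cfsg.Agent.S4377

theorem card_pow_eq {G : Type*} [Group G] [Finite G] (n : ℕ) (hn : n ≠ 0) :
    Nat.card {g : G // g ^ n = 1} = ∑ m ∈ n.divisors, Nat.card {g : G // orderOf g = m} := by
  classical
  have := Fintype.ofFinite G
  have h := sum_card_orderOf_eq_card_pow_eq_one (G := G) hn
  have e1 : Nat.card {g : G // g ^ n = 1} = (Finset.univ.filter fun x : G => x ^ n = 1).card := by
    rw [Nat.card_eq_fintype_card, Fintype.card_subtype]
  have e2 : ∀ m : ℕ, Nat.card {g : G // orderOf g = m} =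
      (Finset.univ.filter fun x : G => orderOf x = m).card := by
    intro m
    rw [Nat.card_eq_fintype_card, Fintype.card_subtype]
  rw [e1, ← h]
  exact Finset.sum_congr rfl fun m _ => (e2 m).symm

theorem card_pow_card {G : Type*} [Group G] [Finite G] (m : ℕ) :
    Nat.card {g : G // g ^ (Nat.card G * m) = 1} = Nat.card G := by
  have : ∀ g : G, g ^ (Nat.card G * m) = 1 := by
    intro g
    rw [pow_mul, pow_card_eq_one', one_pow]
  rw [Nat.card_congr (Equiv.subtypeUnivEquiv this)]

theorem card_orderOf_zero {G : Type*} [Group G] [Finite G] :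
    Nat.card {g : G // orderOf g = 0} = 0 := by
  have : IsEmpty {g : G // orderOf g = 0} := ⟨fun ⟨g, hg⟩ => (orderOf_pos g).ne' hg⟩
  exact Nat.card_of_isEmpty

/-- Two finite groups have the same number of elements of each order if and only if, for every n, they have the same number of elements g with gⁿ = 1. -/
theorem result {G H : Type*} [Group G] [Finite G] [Group H] [Finite H] :
    (∀ n : ℕ, Nat.card {g : G // orderOf g = n} = Nat.card {h : H // orderOf h = n}) ↔
      ∀ n : ℕ, Nat.card {g : G // g ^ n = 1} = Nat.card {h : H // h ^ n = 1} := by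
  constructor
  · intro h
    have hpos : ∀ n : ℕ, n ≠ 0 →
        Nat.card {g : G // g ^ n = 1} = Nat.card {h : H // h ^ n = 1} := by
      intro n hn
      rw [card_pow_eq n hn, card_pow_eq n hn]
      exact Finset.sum_congr rfl fun m _ => h m
    have hcard : Nat.card G = Nat.card H := by
      have h1 := card_pow_card (G := G) (Nat.card H)
      have h2 := card_pow_card (G := H) (Nat.card G)
      rw [mul_comm] at h2
      have h3 := hpos (Nat.card G * Nat.card H)
        (Nat.mul_ne_zero Nat.card_pos.ne' Nat.card_pos.ne')
      rw [← h1, h3, h2]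
    intro n
    rcases Nat.eq_zero_or_pos n with rfl | hn
    · have e1 : Nat.card {g : G // g ^ 0 = 1} = Nat.card G :=
        Nat.card_congr (Equiv.subtypeUnivEquiv fun g => pow_zero g)
      have e2 : Nat.card {g : H // g ^ 0 = 1} = Nat.card H :=
        Nat.card_congr (Equiv.subtypeUnivEquiv fun g => pow_zero g)
      rw [e1, e2, hcard]
    · exact hpos n hn.ne'
  · intro h n
    induction n using Nat.strong_induction_on with
    | _ n ih =>
      rcases Nat.eq_zero_or_pos n with rfl | hn
      · rw [card_orderOf_zero, card_orderOf_zero]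
      · have h1 := card_pow_eq (G := G) n hn.ne'
        have h2 := card_pow_eq (G := H) n hn.ne'
        rw [← Nat.cons_self_properDivisors hn.ne', Finset.sum_cons] at h1 h2
        have h3 : ∑ m ∈ n.properDivisors, Nat.card {g : G // orderOf g = m} =
            ∑ m ∈ n.properDivisors, Nat.card {g : H // orderOf g = m} :=
          Finset.sum_congr rfl fun m hm => ih m (Nat.mem_properDivisors.mp hm).2
        have h4 := h n
        omega

end Cfsg.Agent.S4377
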