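import Cfsg.Statements.S4387
import Cfsg.Agent.H76.SylowBasics

set_option autoImplicit false
open Cfsg
open Pointwise

namespace Cfsg.Agent.S4387

open Cfsg.Agent.H76

theorem index_conj_smul {G : Type*} [Group G] (g : G) (M : Subgroup G) :
    (MulAut.conj g • M).index = M.index :=
  Subgroup.index_map_equiv (H := M) (MulAut.conj g)

/-- Let G be a non-trivial finite group in which any two maximal subgroups are conjugate. Then G is cyclic of prime-power order. -/
theorem result {G : Type*} [Group G] [Finite G] [Nontrivial G]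
    (h : ∀ M N : Subgroup G, IsCoatom M → IsCoatom N → ∃ g : G, N = MulAut.conj g • M) :
    IsCyclic G ∧ IsPrimePow (Nat.card G) := by
  have hfin : Finite (Subgroup G) := inferInstance
  -- a maximal subgroup
  obtain ⟨M, hM, -⟩ : ∃ M : Subgroup G, IsCoatom M ∧ ⊥ ≤ M :=
    (eq_top_or_exists_le_coatom (⊥ : Subgroup G)).resolve_left bot_ne_top
  have hMidx : M.index ≠ 1 := fun h1 => hM.1 (Subgroup.index_eq_one.mp h1)
  set p := M.index.minFac with hpdef
  have hp : p.Prime := Nat.minFac_prime hMidx
  have : Fact p.Prime := ⟨hp⟩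
  have hpM : p ∣ M.index := Nat.minFac_dvd _
  obtain ⟨P⟩ : Nonempty (Sylow p G) := inferInstance
  have hPtop : (P : Subgroup G) = ⊤ := by
    rcases eq_top_or_exists_le_coatom (P : Subgroup G) with h1 | ⟨N, hN, hPN⟩
    · exact h1
    · exfalso
      obtain ⟨g, rfl⟩ := h M N hM hN
      apply P.not_dvd_index
      refine dvd_trans ?_ (Subgroup.index_dvd_of_le hPN)
      rwa [index_conj_smul]
  have hG : IsPGroup p G := by
    intro x
    have hx : x ∈ (P : Subgroup G) := by rw [hPtop]; trivial
    obtain ⟨k, hk⟩ := P.isPGroup' ⟨x, hx⟩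
    exact ⟨k, by simpa [Subtype.ext_iff] using hk⟩
  have hnil : Group.IsNilpotent G := hG.isNilpotent
  have hMn : M.Normal := Subgroup.NormalizerCondition.normal_of_coatom M Group.normalizerCondition_of_isNilpotent hM
  have huniq : ∀ N : Subgroup G, IsCoatom N → N = M := by
    intro N hN
    obtain ⟨g, rfl⟩ := h M N hM hN
    exact Subgroup.Normal.conj_smul_eq_self g M
  obtain ⟨x, hx⟩ : ∃ x : G, x ∉ M := by
    by_contra hcon
    push Not at hcon
    exact hM.1 (eq_top_iff.mpr fun y _ => hcon y)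
  have hxtop : Subgroup.zpowers x = ⊤ := by
    rcases eq_top_or_exists_le_coatom (Subgroup.zpowers x) with h1 | ⟨N, hN, hxN⟩
    · exact h1
    · exfalso
      rw [huniq N hN] at hxN
      exact hx (hxN (Subgroup.mem_zpowers x))
  refine ⟨isCyclic_iff_exists_zpowers_eq_top.mpr ⟨x, hxtop⟩, ?_⟩
  obtain ⟨n, hn⟩ := IsPGroup.iff_card.mp hG
  have hn0 : n ≠ 0 := by
    rintro rfl
    have : 1 < Nat.card G := Finite.one_lt_card
    rw [hn] at this
    simp at this
  rw [hn]
  exact ⟨p, n, hp.prime, Nat.pos_of_ne_zero hn0, rfl⟩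

end Cfsg.Agent.S4387
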