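import Cfsg.Statements.S4396
import Cfsg.Agent.H37.FFMain

set_option autoImplicit false
open Cfsg

namespace Cfsg.Agent.S4396

/-- Let the finite group A act faithfully and linearly on a finite-dimensional vector space V over a field k, and suppose A is a Frobenius group with nilpotent kernel F (every Frobenius kernel is nilpotent) and complement H such that F fixes no nonzero vector. Then V is free as a module for H: there is a subspace W with V the direct sum of the translates hW, h ∈ H. (No assumption on the characteristic of k.) -/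
theorem result {k V A : Type*} [Field k] [AddCommGroup V] [Module k V] [FiniteDimensional k V] [Group A] [Finite A] [DecidableEq A]
    (ρ : Representation k A V) (hρ : Function.Injective ρ)
    (Fk Hc : Subgroup A) [Fk.Normal] (hHc : Cfsg.IsFrobeniusComplement Hc) (hker : Cfsg.frobeniusKernel Hc = (Fk : Set A)) (hnil : Group.IsNilpotent ↥Fk)
    (hCF : ∀ v : V, (∀ f ∈ Fk, ρ f v = v) → v = 0) :
    ∃ W : Submodule k V, DirectSum.IsInternal (fun h : ↥Hc => W.map (ρ (h : A))) := by
  have hfpf : ∀ (h : ↥Hc) (x : ↥Fk), h ≠ 1 → (h : A) * x * (h : A)⁻¹ = x → x = 1 := by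
    intro h x hh hx
    by_contra hx1
    have hxk : (x : A) ∈ Cfsg.frobeniusKernel Hc := by rw [hker]; exact x.2
    rcases hxk with h1 | h2
    · exact hx1 (Subtype.ext h1)
    · have hxH : (x : A) ∉ Hc := by
        have := h2 1
        simpa using this
      have hbot := hHc.2.2 (x : A) hxH
      have hcomm : (h : A) * x = x * h := mul_inv_eq_iff_eq_mul.mp hx
      have hmem : (h : A) ∈ (⊥ : Subgroup A) := by
        rw [← hbot]
        refine Subgroup.mem_inf.mpr ⟨h.2, ?_⟩
        rw [Subgroup.mem_pointwise_smul_iff_inv_smul_mem]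
        have h3 : (MulAut.conj (x : A))⁻¹ • (h : A) = (h : A) := by
          rw [← map_inv, MulAut.smul_def, MulAut.conj_apply, inv_inv, mul_assoc, hcomm,
            inv_mul_cancel_left]
        rw [h3]; exact h.2
      rw [Subgroup.mem_bot] at hmem
      exact hh (Subtype.ext hmem)
  let FAd : Cfsg.Agent.H37.FF.FA k ↥Fk ↥Hc V :=
    { act := fun h x => ⟨(h : A) * x * (h : A)⁻¹, ‹Fk.Normal›.conj_mem x x.2 h⟩
      act_mul := fun h x y => Subtype.ext (by simp [mul_assoc])
      act_one := fun x => Subtype.ext (by simp)
      act_comp := fun h h' x => Subtype.ext (by simp [mul_assoc])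
      fpf := fun h x hh hx => hfpf h x hh (congrArg Subtype.val hx)
      rF := ρ.comp Fk.subtype
      rH := ρ.comp Hc.subtype
      compat := fun h x v => by
        show ρ (h : A) (ρ (x : A) v) = ρ ((h : A) * x * (h : A)⁻¹) (ρ (h : A) v)
        rw [← Module.End.mul_apply, ← Module.End.mul_apply, ← map_mul, ← map_mul]
        congr 2; group }
  obtain ⟨W, hind, hsup⟩ := Cfsg.Agent.H37.FF.main FAd hnil
    (fun v hv => hCF v (fun f hf => hv ⟨f, hf⟩))
  exact ⟨W, DirectSum.isInternal_submodule_of_iSupIndep_of_iSup_eq_top hind hsup⟩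

end Cfsg.Agent.S4396
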