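import Cfsg.Statements.S4399
import Cfsg.Agent.H25.Tau3
import Cfsg.Agent.H25.Lift

set_option autoImplicit false
open Cfsg

namespace Cfsg.Agent.S4399

/-- Let S be a finite 2-group whose commutator quotient S/[S,S] is a Klein four-group (order 4 and exponent 2). Then S itself has order 4, or S is dihedral of order at least 8, semidihedral of order at least 16 (order 2^(k+4) with an element a of order 2^(k+3) and an involution b with b a b⁻¹ = a^(2^(k+2)−1)), or generalized quaternion of order at least 8. -/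
theorem result {S : Type*} [Group S] [Finite S] (h2 : IsPGroup 2 S) (hab : Nat.card (Abelianization S) = 4)
    (hexp : ∀ x : Abelianization S, x ^ 2 = 1) :
    Nat.card S = 4 ∨
    ((∃ k : ℕ, Nonempty (S ≃* DihedralGroup (2 ^ (k + 2)))) ∨
      (∃ k : ℕ, Nat.card S = 2 ^ (k + 4) ∧ ∃ a b : S, orderOf a = 2 ^ (k + 3) ∧ orderOf b = 2 ∧ b * a * b⁻¹ = a ^ (2 ^ (k + 2) - 1)) ∨
      (∃ k : ℕ, Nonempty (S ≃* QuaternionGroup (2 ^ (k + 1))))) := by
  have : Fact (Nat.Prime 2) := ⟨Nat.prime_two⟩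
  have h4 : (commutator S).index = 4 := by
    rw [Subgroup.index_eq_card]; exact hab
  obtain ⟨e, he⟩ := IsPGroup.iff_card.mp h2
  have hdvd : 4 ∣ Nat.card S := h4 ▸ Subgroup.index_dvd_card (commutator S)
  by_cases h8 : 8 ≤ Nat.card S
  swap
  · left
    have hpos : 0 < Nat.card S := Nat.card_pos
    obtain ⟨q, hq⟩ := hdvd
    have : q = 1 := by omega
    omega
  right
  obtain ⟨n, a, b, hn3, hn, hoa, hb, hcases⟩ := Cfsg.Agent.H25.taussky_struct h2 h4 h8
  obtain ⟨k, rfl⟩ : ∃ k, n = k + 3 := ⟨n - 3, by omega⟩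
  have hn1 : k + 3 - 1 = k + 2 := rfl
  have hn2 : k + 3 - 2 = k + 1 := rfl
  rw [hn1] at hoa
  rw [hn2] at hcases
  have hord : ∀ c : ℤ, a ^ c = 1 → ((2 ^ (k + 2) : ℕ) : ℤ) ∣ c := by
    intro c hc
    rw [← hoa]; exact orderOf_dvd_iff_zpow_eq_one.mpr hc
  have hBn : ∀ c : ℤ, b * a ^ c ≠ 1 := by
    intro c hc
    apply hb
    have : b = (a ^ c)⁻¹ := eq_inv_of_mul_eq_one_left hc
    rw [this]
    exact Subgroup.inv_mem _ (Subgroup.zpow_mem_zpowers a c)
  have hA : a ^ (2 ^ (k + 2)) = 1 := by rw [← hoa]; exact pow_orderOf_eq_one a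
  rcases hcases with ⟨hbb, hba⟩ | ⟨hbb, hba⟩ | ⟨hn4, hbb, hba⟩
  · left
    refine ⟨k, ?_⟩
    obtain ⟨φ⟩ := Cfsg.Agent.H25.nonempty_dihedral_equiv (2 ^ (k + 2)) (⊤ : Subgroup S) a b hA
      (by rw [← pow_two]; exact hbb) hba hord hBn (Subgroup.mem_top a) (Subgroup.mem_top b)
      (by rw [Subgroup.card_top, hn, pow_succ, mul_comm])
    exact ⟨Subgroup.topEquiv.symm.trans φ⟩
  · right; right
    refine ⟨k, ?_⟩
    obtain ⟨φ⟩ := Cfsg.Agent.H25.nonempty_quat_equiv (2 ^ (k + 1)) (⊤ : Subgroup S) a b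
      (by rw [← pow_succ']; exact hA)
      (by rw [← pow_two]; exact hbb) hba
      (by intro c hc; have := hord c hc; rwa [pow_succ'] at this) hBn
      (Subgroup.mem_top a) (Subgroup.mem_top b)
      (by rw [Subgroup.card_top, hn]; ring)
    exact ⟨Subgroup.topEquiv.symm.trans φ⟩
  · right; left
    obtain ⟨j, rfl⟩ : ∃ j, k = j + 1 := ⟨k - 1, by omega⟩
    refine ⟨j, hn, a, b, hoa, ?_, hba⟩
    apply orderOf_eq_prime hbb
    intro hb1
    apply hb
    rw [hb1]; exact Subgroup.one_mem _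

end Cfsg.Agent.S4399
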