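import Cfsg.Statements.S4398
import Cfsg.Agent.S4399
import Cfsg.Agent.H25.SecRank

set_option autoImplicit false
open Cfsg

namespace Cfsg.Agent.S4398

/-- A non-abelian group of order `8` has commutator subgroup of index `4`. -/
theorem commutator_index_of_card_eight {H : Type*} [Group H] [Finite H] (h8 : Nat.card H = 8)
    (x y : H) (hxy : x * y ≠ y * x) : (commutator H).index = 4 := by
  have : Fact (Nat.Prime 2) := ⟨Nat.prime_two⟩
  have h2 : IsPGroup 2 H := IsPGroup.of_card (n := 3) (by rw [h8]; norm_num)
  have hmem : x * y * x⁻¹ * y⁻¹ ∈ commutator H := by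
    rw [commutator_def]
    exact Subgroup.commutator_mem_commutator (Subgroup.mem_top x) (Subgroup.mem_top y)
  have hne : commutator H ≠ ⊥ := by
    intro h
    rw [h, Subgroup.mem_bot] at hmem
    apply hxy
    have : x * y = (x * y * x⁻¹ * y⁻¹) * (y * x) := by group
    rw [this, hmem, one_mul]
  have h4 := Cfsg.Agent.H25.four_le_commutator_index h2 hne
  have h1 := Subgroup.card_mul_index (commutator H)
  rw [h8] at h1
  have h3 : 2 ≤ Nat.card (commutator H) := by
    by_contra hlt
    apply hne
    have : Nat.card (commutator H) ≤ 1 := by omega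
    exact (Subgroup.card_le_one_iff_eq_bot _).mp this
  nlinarith

/-- Let S be a finite 2-group of sectional 2-rank at most 2 that contains a subgroup isomorphic to the dihedral group of order 8 or to the quaternion group of order 8. Then S is dihedral of order at least 8, semidihedral of order at least 16 (order 2^(k+4) with an element a of order 2^(k+3) and an involution b with b a b⁻¹ = a^(2^(k+2)−1)), or generalized quaternion of order at least 8. -/
theorem result {S : Type*} [Group S] [Finite S] (h2 : IsPGroup 2 S) (hr : Cfsg.SectionalPRankLE 2 2 S)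
    (hsub : ∃ H : Subgroup S, Nonempty (↥H ≃* DihedralGroup 4) ∨ Nonempty (↥H ≃* QuaternionGroup 2)) :
    ((∃ k : ℕ, Nonempty (S ≃* DihedralGroup (2 ^ (k + 2)))) ∨
      (∃ k : ℕ, Nat.card S = 2 ^ (k + 4) ∧ ∃ a b : S, orderOf a = 2 ^ (k + 3) ∧ orderOf b = 2 ∧ b * a * b⁻¹ = a ^ (2 ^ (k + 2) - 1)) ∨
      (∃ k : ℕ, Nonempty (S ≃* QuaternionGroup (2 ^ (k + 1))))) := by
  have : Fact (Nat.Prime 2) := ⟨Nat.prime_two⟩
  obtain ⟨H, hH⟩ := hsub
  have hH8 : Nat.card H = 8 ∧ (commutator H).index = 4 := by
    rcases hH with ⟨⟨e⟩⟩ | ⟨⟨e⟩⟩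
    · have h8 : Nat.card H = 8 := by
        rw [Nat.card_congr e.toEquiv, DihedralGroup.nat_card]
      refine ⟨h8, commutator_index_of_card_eight h8 (e.symm (DihedralGroup.r 1))
        (e.symm (DihedralGroup.sr 0)) ?_⟩
      rw [← map_mul, ← map_mul]
      intro h
      have := e.symm.injective h
      revert this
      decide
    · have h8 : Nat.card H = 8 := by
        rw [Nat.card_congr e.toEquiv, Nat.card_eq_fintype_card, QuaternionGroup.card]
      refine ⟨h8, commutator_index_of_card_eight h8 (e.symm (QuaternionGroup.a 1))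
        (e.symm (QuaternionGroup.xa 0)) ?_⟩
      rw [← map_mul, ← map_mul]
      intro h
      have := e.symm.injective h
      revert this
      decide
  obtain ⟨hH8, hH4⟩ := hH8
  have h4 : (commutator S).index = 4 :=
    Cfsg.Agent.H25.commutator_index_four_of_sectional h2 hr H hH8 hH4
  have hS8 : 8 ≤ Nat.card S := hH8 ▸ Subgroup.card_le_card_group H
  have hab : Nat.card (Abelianization S) = 4 := by
    rw [← h4, Subgroup.index_eq_card]; rfl
  have hexp : ∀ x : Abelianization S, x ^ 2 = 1 := by
    intro x
    obtain ⟨g, rfl⟩ : ∃ g : S, Abelianization.of g = x := QuotientGroup.mk_surjective x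
    rw [← map_pow, ← MonoidHom.mem_ker, Abelianization.ker_of]
    exact Cfsg.Agent.H25.sq_mem_commutator h2 h4 hS8 g
  rcases Cfsg.Agent.S4399.result h2 hab hexp with h | h
  · omega
  · exact h

end Cfsg.Agent.S4398
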