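import Cfsg.Statements.S4401
import Mathlib
import Cfsg.Agent.H25.Sec4C

set_option autoImplicit false
open Cfsg

namespace Cfsg.Agent.S4401

open Cfsg.Agent.H25.Sec4 in
/-- Let S be a finite 2-group of sectional 2-rank at most 4 and P a proper non-abelian subgroup whose centre has order 2. Let S₀ be the centralizer in S of Z(P) and suppose P is normal in S₀. Then either S₀ = S, or P has sectional 2-rank at most 2 and S₀ has index 2 in S. -/
theorem result {S : Type*} [Group S] [Finite S] (h2 : IsPGroup 2 S) (hr : Cfsg.SectionalPRankLE 2 4 S)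
    (P : Subgroup S) (hPlt : P ≠ ⊤) (hP : ¬ IsMulCommutative ↥P) (hZP : Nat.card ↥(Subgroup.center ↥P) = 2)
    (S₀ : Subgroup S) (hS₀ : S₀ = Subgroup.centralizer (((Subgroup.center ↥P).map P.subtype : Subgroup S) : Set S))
    (hPn : ∀ s ∈ S₀, ∀ x ∈ P, s * x * s⁻¹ ∈ P) :
    S₀ = ⊤ ∨ (Cfsg.SectionalPRankLE 2 2 ↥P ∧ S₀.index = 2) := by
  by_cases htop : S₀ = ⊤
  · exact Or.inl htop
  right
  have : Fact (Nat.Prime 2) := ⟨Nat.prime_two⟩
  have hs : SqBound 4 S := sqBound_of_secBound (H3.secBound_of_sectional hr)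
  obtain ⟨z, hnice, hmem⟩ := exists_nice P hP hZP
  have hcfg : Cfg P z S₀ := ⟨hnice, fun s => by rw [hS₀]; exact hmem s, hPn⟩
  have hnil : Group.IsNilpotent S := h2.isNilpotent
  have hNC : NormalizerCondition S := Group.normalizerCondition_of_isNilpotent
  have hlt : S₀ < Subgroup.normalizer (S₀ : Set S) := hNC S₀ (lt_top_iff_ne_top.mpr htop)
  obtain ⟨x, hxN, hxS⟩ := SetLike.exists_of_lt hlt
  -- the normalizer of `S₀` is everything
  have hN1 : Subgroup.normalizer (S₀ : Set S) = ⊤ := by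
    by_contra hne
    have hlt2 := hNC _ (lt_top_iff_ne_top.mpr hne)
    obtain ⟨w, hwN2, hwN1⟩ := SetLike.exists_of_lt hlt2
    have hcfg' := hcfg.map (MulAut.conj w)
    have hnorm : Subgroup.normalizer (S₀ : Set S) =
        Subgroup.normalizer ((S₀.map (MulAut.conj w).toMonoidHom : Subgroup S) : Set S) := by
      rw [← Subgroup.map_equiv_normalizer_eq, map_conj_eq hwN2]
    have hKK : S₀ ≠ S₀.map (MulAut.conj w).toMonoidHom := by
      intro e
      apply hwN1
      rw [Subgroup.mem_normalizer_iff]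
      intro y
      have e1 : w * y * w⁻¹ ∈ S₀ ↔ w * y * w⁻¹ ∈ S₀.map (MulAut.conj w).toMonoidHom := by
        rw [← e]
      rw [e1, Subgroup.mem_map_equiv, MulAut.conj_symm_apply]
      have e2 : w⁻¹ * (w * y * w⁻¹) * w = y := by group
      rw [e2]
    have hx' : w * x * w⁻¹ ∈
        Subgroup.normalizer ((S₀.map (MulAut.conj w).toMonoidHom : Subgroup S) : Set S) := by
      rw [← Subgroup.map_equiv_normalizer_eq, Subgroup.mem_map_equiv, MulAut.conj_symm_apply]
      have e2 : w⁻¹ * (w * x * w⁻¹) * w = x := by group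
      rw [e2]; exact hxN
    have hx'K : w * x * w⁻¹ ∉ S₀.map (MulAut.conj w).toMonoidHom := by
      rw [Subgroup.mem_map_equiv, MulAut.conj_symm_apply]
      have e2 : w⁻¹ * (w * x * w⁻¹) * w = x := by group
      rw [e2]; exact hxS
    exact cfg_top h2 hs hcfg hcfg' hKK hnorm hxN hxS hx' hx'K
  have hP2 : ∀ g k : S, g ∉ S₀ → k ∉ S₀ → g⁻¹ * k ∈ S₀ := fun g k hg hk =>
    hcfg.p2 h2 hs (g := g) (k := k) (by rw [hN1]; trivial) (by rw [hN1]; trivial) hg hk
  refine ⟨?_, ?_⟩
  · -- sectional rank of `P`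
    have cx := hcfg.conj hxN
    obtain ⟨hinf, hcomm⟩ := hcfg.pair h2 cx (hcfg.conj_ne hxS)
    apply sectional_of_rel
    intro H N hHP hNH hsq
    have hH' : H.map (MulAut.conj x).toMonoidHom ≤ P.map (MulAut.conj x).toMonoidHom :=
      Subgroup.map_mono hHP
    have hN' : N.map (MulAut.conj x).toMonoidHom ≤ H.map (MulAut.conj x).toMonoidHom :=
      Subgroup.map_mono hNH
    have hc : Comm2 H (H.map (MulAut.conj x).toMonoidHom) :=
      fun a ha b hb => hcomm a (hHP ha) b (hH' hb)
    have hcN : Comm2 N (N.map (MulAut.conj x).toMonoidHom) :=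
      fun a ha b hb => hc a (hNH ha) b (hN' hb)
    have hd : H ⊓ H.map (MulAut.conj x).toMonoidHom = ⊥ := by
      rw [eq_bot_iff, ← hinf]; exact inf_le_inf hHP hH'
    have hT : ∀ t ∈ H ⊔ H.map (MulAut.conj x).toMonoidHom,
        t * t ∈ N ⊔ N.map (MulAut.conj x).toMonoidHom := by
      intro t ht
      obtain ⟨a, ha, b, hb, rfl⟩ := mem_sup_of_comm hc ht
      have e : a * b * (a * b) = (a * a) * (b * b) := by
        rw [mul_assoc, ← mul_assoc b a b, ← hc a ha b hb]; group
      rw [e]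
      refine Subgroup.mul_mem_sup (hsq a ha) ?_
      obtain ⟨a', ha', rfl⟩ := Subgroup.mem_map.mp hb
      rw [← map_mul]
      exact Subgroup.mem_map_of_mem _ (hsq a' ha')
    have h1 := hs _ _ (sup_le_sup hNH hN') hT
    rw [card_sup_eq_of_comm hc hd,
      Subgroup.card_map_of_injective (MulAut.conj x).injective] at h1
    have h3 := card_sup_le_of_comm hcN
    rw [Subgroup.card_map_of_injective (MulAut.conj x).injective] at h3
    have h4 : Nat.card H * Nat.card H ≤ (2 ^ 2 * Nat.card N) * (2 ^ 2 * Nat.card N) := by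
      calc Nat.card H * Nat.card H ≤ 2 ^ 4 * Nat.card
            (N ⊔ N.map (MulAut.conj x).toMonoidHom : Subgroup S) := h1
        _ ≤ 2 ^ 4 * (Nat.card N * Nat.card N) := Nat.mul_le_mul_left _ h3
        _ = (2 ^ 2 * Nat.card N) * (2 ^ 2 * Nat.card N) := by ring
    exact Nat.mul_self_le_mul_self_iff.mp h4
  · rw [Subgroup.index_eq_two_iff_exists_notMem_and']
    refine ⟨x⁻¹, fun h => hxS (by simpa using S₀.inv_mem h), fun b => ?_⟩
    by_cases hb : b ∈ S₀
    · exact Or.inr hb
    · left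
      have := hP2 x b hxS hb
      exact this

end Cfsg.Agent.S4401
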