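import Cfsg.Statements.S4405
import Cfsg.Agent.H91.Order320
import Cfsg.Agent.H54.ES2
import Cfsg.Agent.H4.PaQb
import Cfsg.Agent.H1.HallHigman

set_option autoImplicit false
open Cfsg
open scoped commutatorElement

namespace Cfsg.Agent.S4405

/-- Let G be a finite group of order 320 = 64·5 whose largest normal 2-subgroup H = O₂(G) equals the Fitting subgroup F(G) and is extraspecial of order 32 containing no elementary abelian subgroup of order 8 (so H is the central product of a quaternion group and a dihedral group of order 8). If T is an involution of G outside H whose centralizer in H contains an elementary abelian subgroup of order 4, then C_H(T) itself is elementary abelian of order 4. -/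
theorem result {G : Type*} [Group G] [Finite G]
    (hG : Nat.card G = 320) (hHF : Cfsg.pCore 2 G = Cfsg.fittingSubgroup G)
    (hex : Cfsg.IsExtraspecial 2 ↥(Cfsg.pCore 2 G)) (h32 : Nat.card ↥(Cfsg.pCore 2 G) = 32)
    (hminus : ∀ A : Subgroup G, A ≤ Cfsg.pCore 2 G → Cfsg.IsElementaryAbelian 2 A → Nat.card ↥A ≤ 4)
    (T : G) (hT : orderOf T = 2) (hTH : T ∉ Cfsg.pCore 2 G)
    (V : Subgroup G) (hV : V ≤ Cfsg.pCore 2 G ⊓ Subgroup.centralizer ({T} : Set G)) (hV4 : Nat.card ↥V = 4) (hVe : Cfsg.IsElementaryAbelian 2 V) :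
    Nat.card ↥(Cfsg.pCore 2 G ⊓ Subgroup.centralizer ({T} : Set G)) = 4 ∧
      Cfsg.IsElementaryAbelian 2 (Cfsg.pCore 2 G ⊓ Subgroup.centralizer ({T} : Set G)) := by
  classical
  have hHn : (Cfsg.pCore 2 G).Normal := Subgroup.sSup_normal _ (fun _ h => h.1)
  have hES := Cfsg.Agent.H54.ES2.of_isExtraspecial hex
  have hsolv : Group.IsSolvable G :=
    Cfsg.Agent.H4.isSolvable_of_card_eq_prime_pow_mul_prime_pow 2 5 6 1 Nat.prime_two
      (by norm_num) (by rw [hG]; norm_num)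
  have hCH : Subgroup.centralizer ((Cfsg.pCore 2 G : Subgroup G) : Set G) ≤ Cfsg.pCore 2 G := by
    have h := Cfsg.Agent.H1.centralizer_fitting_le (G := G)
    rw [← hHF] at h
    exact h
  -- the centre of `O₂(G)`, inside `G`
  have hZH : (Subgroup.center ↥(Cfsg.pCore 2 G)).map (Cfsg.pCore 2 G).subtype ≤ Cfsg.pCore 2 G := by
    rintro x ⟨y, _, rfl⟩
    exact y.2
  have hZ2 : ∀ c ∈ (Subgroup.center ↥(Cfsg.pCore 2 G)).map (Cfsg.pCore 2 G).subtype, c * c = 1 := by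
    rintro x ⟨y, hy, rfl⟩
    have := hES.central_sq hy
    exact congrArg Subtype.val this
  have hZc : ∀ c ∈ (Subgroup.center ↥(Cfsg.pCore 2 G)).map (Cfsg.pCore 2 G).subtype,
      ∀ g : G, g * c = c * g := by
    rintro x ⟨y, hy, rfl⟩ g
    by_cases hy1 : y = 1
    · subst hy1; simp
    · have hmem : g * (y : G) * g⁻¹ ∈ Cfsg.pCore 2 G := hHn.conj_mem _ y.2 g
      have hcen : (⟨g * (y : G) * g⁻¹, hmem⟩ : ↥(Cfsg.pCore 2 G)) ∈ Subgroup.center ↥(Cfsg.pCore 2 G) := by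
        rw [Subgroup.mem_center_iff]
        intro k
        apply Subtype.ext
        show (k : G) * (g * (y : G) * g⁻¹) = g * (y : G) * g⁻¹ * (k : G)
        have hk : g⁻¹ * (k : G) * g⁻¹⁻¹ ∈ Cfsg.pCore 2 G := hHn.conj_mem _ k.2 g⁻¹
        have h1 := Subgroup.mem_center_iff.mp hy ⟨g⁻¹ * (k : G) * g⁻¹⁻¹, hk⟩
        have h2 : g⁻¹ * (k : G) * g⁻¹⁻¹ * (y : G) = (y : G) * (g⁻¹ * (k : G) * g⁻¹⁻¹) :=
          congrArg Subtype.val h1
        calc (k : G) * (g * (y : G) * g⁻¹) = g * (g⁻¹ * (k : G) * g⁻¹⁻¹ * (y : G)) * g⁻¹ := by group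
          _ = g * ((y : G) * (g⁻¹ * (k : G) * g⁻¹⁻¹)) * g⁻¹ := by rw [h2]
          _ = g * (y : G) * g⁻¹ * (k : G) := by group
      have hne : (⟨g * (y : G) * g⁻¹, hmem⟩ : ↥(Cfsg.pCore 2 G)) ≠ 1 := by
        intro h
        apply hy1
        have h' : g * (y : G) * g⁻¹ = 1 := congrArg Subtype.val h
        apply Subtype.ext
        have : (y : G) = g⁻¹ * (g * (y : G) * g⁻¹) * g := by group
        rw [this, h']
        simp
      have heq := hES.central_eq hcen hy hne hy1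
      have heq' : g * (y : G) * g⁻¹ = (y : G) := congrArg Subtype.val heq
      show g * (y : G) = (y : G) * g
      calc g * (y : G) = (g * (y : G) * g⁻¹) * g := by group
        _ = (y : G) * g := by rw [heq']
  have hcomm : ∀ h ∈ Cfsg.pCore 2 G, ∀ k ∈ Cfsg.pCore 2 G,
      h * k * h⁻¹ * k⁻¹ ∈ (Subgroup.center ↥(Cfsg.pCore 2 G)).map (Cfsg.pCore 2 G).subtype := by
    intro h hh k hk
    refine ⟨⁅(⟨h, hh⟩ : ↥(Cfsg.pCore 2 G)), ⟨k, hk⟩⁆, hES.comm_mem _ _, ?_⟩
    rw [commutatorElement_def]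
    rfl
  have hsq : ∀ h ∈ Cfsg.pCore 2 G,
      h * h ∈ (Subgroup.center ↥(Cfsg.pCore 2 G)).map (Cfsg.pCore 2 G).subtype := by
    intro h hh
    exact ⟨(⟨h, hh⟩ : ↥(Cfsg.pCore 2 G)) * ⟨h, hh⟩, hES.sq_mem _, rfl⟩
  have hO2 : ∀ A : Subgroup G, A.Normal → IsPGroup 2 A → A ≤ Cfsg.pCore 2 G :=
    fun A hn hp => le_sSup ⟨hn, hp⟩
  -- a nontrivial central element
  obtain ⟨z, hz, hz1⟩ : ∃ z : G,
      z ∈ (Subgroup.center ↥(Cfsg.pCore 2 G)).map (Cfsg.pCore 2 G).subtype ∧ z ≠ 1 := by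
    have hnt : Nontrivial ↥(Subgroup.center ↥(Cfsg.pCore 2 G)) := by
      rw [← Finite.one_lt_card_iff_nontrivial, hES.card_center]
      norm_num
    obtain ⟨y, hy⟩ := exists_ne (1 : ↥(Subgroup.center ↥(Cfsg.pCore 2 G)))
    refine ⟨((y : ↥(Cfsg.pCore 2 G)) : G), ⟨(y : ↥(Cfsg.pCore 2 G)), y.2, rfl⟩, ?_⟩
    intro h
    apply hy
    apply Subtype.ext
    apply Subtype.ext
    exact h
  have hT2 : T * T = 1 := by
    have := pow_orderOf_eq_one T
    rw [hT, pow_two] at this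
    exact this
  have hmain := Cfsg.Agent.H91.eq_centralizer_of_card_four (Cfsg.pCore 2 G)
    ((Subgroup.center ↥(Cfsg.pCore 2 G)).map (Cfsg.pCore 2 G).subtype) hZc hG h32 hZH hZ2 hcomm hsq
    hCH hO2 hminus z hz hz1 T hT2 hTH V hV hV4
  rw [← hmain]
  exact ⟨hV4, hVe⟩

end Cfsg.Agent.S4405
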