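import Cfsg.Statements.S4406

set_option autoImplicit false
open Cfsg

namespace Cfsg.Agent.S4406

/-- The alternating group of degree 4. -/
abbrev A4 : Type := ↥(alternatingGroup (Fin 4))

set_option maxRecDepth 1000000 in
theorem sq_or_cube : ∀ u : A4, u ^ 2 = 1 ∨ u ^ 3 = 1 := by decide

set_option maxRecDepth 1000000 in
theorem exists_order3 : ∃ c : A4, c ≠ 1 ∧ c ^ 3 = 1 := by decide

set_option maxRecDepth 1000000 in
set_option synthInstance.maxSize 10000 in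
theorem conj_cases : ∀ c u w : A4,
    (c ^ 3 = 1 ∧ c ≠ 1 ∧ u ^ 2 = 1 ∧ w ^ 2 = 1 ∧ u ≠ 1 ∧ w ≠ 1 ∧ u ≠ w) →
    (c * u * c⁻¹ = w ∧ c * w * c⁻¹ = u * w ∧ c⁻¹ * u * c⁻¹⁻¹ = u * w ∧ c⁻¹ * w * c⁻¹⁻¹ = u) ∨
    (c * u * c⁻¹ = u * w ∧ c * w * c⁻¹ = u ∧ c⁻¹ * u * c⁻¹⁻¹ = w ∧ c⁻¹ * w * c⁻¹⁻¹ = u * w) := by
  decide

theorem four_elts {α : Type*} (s : Set α) (hs : Nat.card s = 4) (a b c d : α)
    (ha : a ∈ s) (hb : b ∈ s) (hc : c ∈ s) (hd : d ∈ s)
    (hab : a ≠ b) (hac : a ≠ c) (had : a ≠ d) (hbc : b ≠ c) (hbd : b ≠ d) (hcd : c ≠ d) :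
    ∀ z ∈ s, z = a ∨ z = b ∨ z = c ∨ z = d := by
  classical
  intro z hz
  by_contra hcon
  rw [not_or, not_or, not_or] at hcon
  obtain ⟨hza, hzb, hzc, hzd⟩ := hcon
  have hfin : s.Finite := by
    have : Finite s := Nat.finite_of_card_ne_zero (by omega)
    exact Set.toFinite s
  let T : Finset α := {z, a, b, c, d}
  have hT : T.card = 5 := by
    simp only [T]
    rw [Finset.card_insert_of_notMem, Finset.card_insert_of_notMem, Finset.card_insert_of_notMem,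
      Finset.card_insert_of_notMem, Finset.card_singleton]
    all_goals simp [*]
  have hTs : (T : Set α) ⊆ s := by
    intro w hw
    simp only [T, Finset.coe_insert, Finset.coe_singleton, Set.mem_insert_iff,
      Set.mem_singleton_iff] at hw
    rcases hw with rfl | rfl | rfl | rfl | rfl <;> assumption
  have h1 := Set.ncard_le_ncard hTs hfin
  rw [Set.ncard_coe_finset, hT, ← Nat.card_coe_set_eq, hs] at h1
  omega

open Pointwise in
theorem exists_conj_mem_sylow3 (Q : Sylow 3 (A4 × A4)) (z : A4 × A4) (hz : z ^ 3 = 1) :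
    ∃ g : A4 × A4, g * z * g⁻¹ ∈ Q := by
  haveI : Fact (Nat.Prime 3) := ⟨Nat.prime_three⟩
  have hK : IsPGroup 3 (Subgroup.zpowers z) := by
    rintro ⟨w, hw⟩
    refine ⟨1, ?_⟩
    obtain ⟨k, rfl⟩ := hw
    apply Subtype.ext
    simp only [pow_one, Subgroup.coe_pow, Subgroup.coe_one]
    rw [← zpow_natCast, ← zpow_mul, mul_comm, zpow_mul, zpow_natCast, hz, one_zpow]
  obtain ⟨Q', hQ'⟩ := hK.exists_le_sylow
  obtain ⟨g, hg⟩ := MulAction.exists_smul_eq (A4 × A4) Q' Q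
  refine ⟨g, ?_⟩
  have hzQ' : z ∈ (Q' : Subgroup (A4 × A4)) := hQ' (Subgroup.mem_zpowers z)
  have h1 : MulAut.conj g • z ∈ MulAut.conj g • (Q' : Subgroup (A4 × A4)) :=
    Subgroup.smul_mem_pointwise_smul _ _ _ hzQ'
  rw [← hg]
  have h2 : g * z * g⁻¹ ∈ ((MulAut.conj g • Q' : Sylow 3 (A4 × A4)) : Subgroup (A4 × A4)) := by
    rw [Sylow.pointwise_smul_def]
    exact h1
  exact h2

theorem sq_of_mem_sylow2 (X : Sylow 2 (A4 × A4)) (x : A4 × A4) (hx : x ∈ X) :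
    x.1 ^ 2 = 1 ∧ x.2 ^ 2 = 1 := by
  obtain ⟨k, hk⟩ := X.isPGroup' ⟨x, hx⟩
  have hk' : x ^ 2 ^ k = 1 := by simpa using congrArg Subtype.val hk
  have h1 : x.1 ^ 2 ^ k = 1 := by simpa using congrArg Prod.fst hk'
  have h2 : x.2 ^ 2 ^ k = 1 := by simpa using congrArg Prod.snd hk'
  have aux : ∀ u : A4, u ^ 2 ^ k = 1 → u ^ 2 = 1 := by
    intro u hu
    rcases sq_or_cube u with h | h
    · exact h
    · have h3 : orderOf u ∣ Nat.gcd (2 ^ k) 3 :=
        Nat.dvd_gcd (orderOf_dvd_of_pow_eq_one hu) (orderOf_dvd_of_pow_eq_one h)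
      have hc : Nat.gcd (2 ^ k) 3 = 1 := Nat.Coprime.pow_left k (by norm_num)
      rw [hc, Nat.dvd_one, orderOf_eq_one_iff] at h3
      rw [h3, one_pow]
  exact ⟨aux _ h1, aux _ h2⟩

/-- In the direct product P = A₄ × A₄, every subgroup B of order 4 of the Sylow 2-subgroup either
meets one of the factors nontrivially or is normalized by a diagonal subgroup of order 3 of `Q`. -/
theorem result
    (X : Sylow 2 (↥(alternatingGroup (Fin 4)) × ↥(alternatingGroup (Fin 4))))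
    (Q : Sylow 3 (↥(alternatingGroup (Fin 4)) × ↥(alternatingGroup (Fin 4))))
    (B : Subgroup (↥(alternatingGroup (Fin 4)) × ↥(alternatingGroup (Fin 4)))) (hBX : B ≤ (X : Subgroup _)) (hB4 : Nat.card ↥B = 4) :
    B ⊓ ((X : Subgroup _) ⊓ Subgroup.prod ⊤ ⊥) ≠ ⊥ ∨ B ⊓ ((X : Subgroup _) ⊓ Subgroup.prod ⊥ ⊤) ≠ ⊥ ∨
      ∃ R : Subgroup (↥(alternatingGroup (Fin 4)) × ↥(alternatingGroup (Fin 4))), R ≤ (Q : Subgroup _) ∧ Nat.card ↥R = 3 ∧
        R ≠ (Q : Subgroup _) ⊓ Subgroup.prod ⊤ ⊥ ∧ R ≠ (Q : Subgroup _) ⊓ Subgroup.prod ⊥ ⊤ ∧ R ≤ Subgroup.normalizer (B : Set _) := by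
  by_contra hcon
  rw [not_or, not_or, not_not, not_not] at hcon
  obtain ⟨h1, h2, h3⟩ := hcon
  have hB1 : ∀ u : A4, ((u, 1) : A4 × A4) ∈ B → u = 1 := by
    intro u hu
    have hmem : ((u, 1) : A4 × A4) ∈ B ⊓ ((X : Subgroup _) ⊓ Subgroup.prod ⊤ ⊥) :=
      ⟨hu, hBX hu, by simp [Subgroup.mem_prod]⟩
    rw [h1, Subgroup.mem_bot] at hmem
    exact congrArg Prod.fst hmem
  have hB2 : ∀ v : A4, ((1, v) : A4 × A4) ∈ B → v = 1 := by
    intro v hv
    have hmem : ((1, v) : A4 × A4) ∈ B ⊓ ((X : Subgroup _) ⊓ Subgroup.prod ⊥ ⊤) :=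
      ⟨hv, hBX hv, by simp [Subgroup.mem_prod]⟩
    rw [h2, Subgroup.mem_bot] at hmem
    exact congrArg Prod.snd hmem
  haveI : Finite B := Nat.finite_of_card_ne_zero (by omega)
  -- a first non-identity element
  obtain ⟨x, hxB, hx1⟩ : ∃ x ∈ B, x ≠ 1 := by
    by_contra hno
    push Not at hno
    have : Nat.card B ≤ 1 := by
      rw [Finite.card_le_one_iff_subsingleton]
      exact ⟨fun a b => Subtype.ext ((hno a a.2).trans (hno b b.2).symm)⟩
    omega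
  obtain ⟨y, hyB, hy1, hyx⟩ : ∃ y ∈ B, y ≠ 1 ∧ y ≠ x := by
    by_contra hno
    push Not at hno
    have hinj : Function.Injective (fun b : B => decide ((b : A4 × A4) = 1)) := by
      intro a b hab
      apply Subtype.ext
      by_cases ha : (a : A4 × A4) = 1
      · have hb : (b : A4 × A4) = 1 := by simpa [ha] using hab
        rw [ha, hb]
      · have hb : (b : A4 × A4) ≠ 1 := by simpa [ha] using hab
        rw [hno a a.2 ha, hno b b.2 hb]
    have := Nat.card_le_card_of_injective _ hinj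
    rw [hB4, Nat.card_eq_fintype_card, Fintype.card_bool] at this
    omega
  obtain ⟨x1, x2⟩ := x
  obtain ⟨y1, y2⟩ := y
  obtain ⟨hx1s, hx2s⟩ := sq_of_mem_sylow2 X _ (hBX hxB)
  obtain ⟨hy1s, hy2s⟩ := sq_of_mem_sylow2 X _ (hBX hyB)
  simp only at hx1s hx2s hy1s hy2s
  have hinv : ∀ u : A4, u ^ 2 = 1 → u⁻¹ = u := by
    intro u hu
    rw [pow_two] at hu
    exact inv_eq_of_mul_eq_one_left hu
  have hx1n : x1 ≠ 1 := by
    rintro rfl
    exact hx1 (by rw [hB2 x2 hxB]; rfl)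
  have hx2n : x2 ≠ 1 := by
    rintro rfl
    exact hx1 (by rw [hB1 x1 hxB]; rfl)
  have hy1n : y1 ≠ 1 := by
    rintro rfl
    exact hy1 (by rw [hB2 y2 hyB]; rfl)
  have hy2n : y2 ≠ 1 := by
    rintro rfl
    exact hy1 (by rw [hB1 y1 hyB]; rfl)
  have hxyB : ((x1 * y1, x2 * y2) : A4 × A4) ∈ B := B.mul_mem hxB hyB
  have hx1y1 : x1 ≠ y1 := by
    rintro rfl
    have h4 : x1 * x1 = 1 := by rw [← pow_two]; exact hx1s
    rw [h4] at hxyB
    have h5 := hB2 _ hxyB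
    have h6 : x2 = y2 := by
      rw [← hinv y2 hy2s]
      exact eq_inv_of_mul_eq_one_left h5
    exact hyx (by rw [h6])
  have hx2y2 : x2 ≠ y2 := by
    rintro rfl
    have h4 : x2 * x2 = 1 := by rw [← pow_two]; exact hx2s
    rw [h4] at hxyB
    have h5 := hB1 _ hxyB
    have h6 : x1 = y1 := by
      rw [← hinv y1 hy1s]
      exact eq_inv_of_mul_eq_one_left h5
    exact hyx (by rw [h6])
  -- `B = {1, x, y, x * y}`
  have hxy1 : x1 * y1 ≠ 1 := by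
    intro h
    apply hx1y1
    rw [← hinv y1 hy1s]
    exact eq_inv_of_mul_eq_one_left h
  have hBel : ∀ b ∈ B, b = 1 ∨ b = (x1, x2) ∨ b = (y1, y2) ∨ b = (x1 * y1, x2 * y2) := by
    refine four_elts (B : Set (A4 × A4)) hB4 1 (x1, x2) (y1, y2) (x1 * y1, x2 * y2)
      B.one_mem hxB hyB hxyB (Ne.symm hx1) (Ne.symm hy1) ?_ (Ne.symm hyx) ?_ ?_
    · intro h
      exact hxy1 (congrArg Prod.fst h).symm
    · intro h
      have h' : x1 = x1 * y1 := congrArg Prod.fst h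
      exact hy1n (by simpa using h')
    · intro h
      have h' : y1 = x1 * y1 := congrArg Prod.fst h
      exact hx1n (by simpa using h')
  -- the elements of order 3 of `Q`
  obtain ⟨c, hc1, hc3⟩ := exists_order3
  obtain ⟨g, hg⟩ := exists_conj_mem_sylow3 Q (c, 1) (by rw [Prod.pow_mk, hc3, one_pow]; rfl)
  obtain ⟨g', hg'⟩ := exists_conj_mem_sylow3 Q (1, c) (by rw [Prod.pow_mk, hc3, one_pow]; rfl)
  have haQ : ((g.1 * c * g.1⁻¹, 1) : A4 × A4) ∈ Q := by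
    have h : g * ((c, 1) : A4 × A4) * g⁻¹ = (g.1 * c * g.1⁻¹, 1) := by
      ext <;> simp
    rw [← h]; exact hg
  have hbQ : ((1, g'.2 * c * g'.2⁻¹) : A4 × A4) ∈ Q := by
    have h : g' * ((1, c) : A4 × A4) * g'⁻¹ = (1, g'.2 * c * g'.2⁻¹) := by
      ext <;> simp
    rw [← h]; exact hg'
  have hconj1 : ∀ t : A4, t * c * t⁻¹ ≠ 1 := by
    intro t h
    apply hc1
    have : c = t⁻¹ * (t * c * t⁻¹) * t := by group
    rw [this, h]; group
  have hconj3 : ∀ t : A4, (t * c * t⁻¹) ^ 3 = 1 := by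
    intro t
    rw [conj_pow, hc3]; group
  have ha1 := hconj1 g.1
  have ha3 := hconj3 g.1
  have hb1 := hconj1 g'.2
  have hb3 := hconj3 g'.2
  generalize g.1 * c * g.1⁻¹ = a at haQ ha1 ha3
  generalize g'.2 * c * g'.2⁻¹ = b at hbQ hb1 hb3
  -- the final step: an element of `Q` with both coordinates non-trivial normalizing `B`
  have hfin : ∀ r1 r2 : A4, ((r1, r2) : A4 × A4) ∈ Q → r1 ≠ 1 → r2 ≠ 1 → r1 ^ 3 = 1 → r2 ^ 3 = 1 →
      ((r1 * x1 * r1⁻¹, r2 * x2 * r2⁻¹) : A4 × A4) ∈ B →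
      ((r1 * y1 * r1⁻¹, r2 * y2 * r2⁻¹) : A4 × A4) ∈ B → False := by
    intro r1 r2 hrQ hr1 hr2 hr13 hr23 hrx hry
    have hr3 : ((r1, r2) : A4 × A4) ^ 3 = 1 := by rw [Prod.pow_mk, hr13, hr23]; rfl
    have hfwd : ∀ n ∈ B, ((r1, r2) : A4 × A4) * n * ((r1, r2) : A4 × A4)⁻¹ ∈ B := by
      intro n hn
      rcases hBel n hn with rfl | rfl | rfl | rfl
      · rw [mul_one, mul_inv_cancel]; exact B.one_mem
      · exact hrx
      · exact hry
      · have h := B.mul_mem hrx hry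
        have h' : ((r1, r2) : A4 × A4) * (x1 * y1, x2 * y2) * ((r1, r2) : A4 × A4)⁻¹
            = (r1 * x1 * r1⁻¹, r2 * x2 * r2⁻¹) * (r1 * y1 * r1⁻¹, r2 * y2 * r2⁻¹) := by
          ext <;> simp [mul_assoc]
        rw [h']; exact h
    have hnorm : ((r1, r2) : A4 × A4) ∈ Subgroup.normalizer (B : Set (A4 × A4)) := by
      rw [Subgroup.mem_normalizer_iff]
      intro n
      refine ⟨hfwd n, fun h => ?_⟩
      have h2 := hfwd _ (hfwd _ h)
      have h3 : ((r1, r2) : A4 × A4)⁻¹ = ((r1, r2) : A4 × A4) ^ 2 := by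
        rw [eq_comm, ← mul_eq_one_iff_eq_inv, ← pow_succ, hr3]
      have h4 : ((r1, r2) : A4 × A4) * (((r1, r2) : A4 × A4) * (((r1, r2) : A4 × A4) * n *
          ((r1, r2) : A4 × A4)⁻¹) * ((r1, r2) : A4 × A4)⁻¹) * ((r1, r2) : A4 × A4)⁻¹ = n := by
        have h5 : ((r1, r2) : A4 × A4) * ((r1, r2) : A4 × A4) * ((r1, r2) : A4 × A4) = 1 := by
          rw [← hr3, pow_succ, pow_two]
        have h6 : ((r1, r2) : A4 × A4)⁻¹ * ((r1, r2) : A4 × A4)⁻¹ * ((r1, r2) : A4 × A4)⁻¹ = 1 := by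
          rw [← mul_inv_rev, ← mul_inv_rev, ← mul_assoc, h5, inv_one]
        calc ((r1, r2) : A4 × A4) * (((r1, r2) : A4 × A4) * (((r1, r2) : A4 × A4) * n *
          ((r1, r2) : A4 × A4)⁻¹) * ((r1, r2) : A4 × A4)⁻¹) * ((r1, r2) : A4 × A4)⁻¹
            = (((r1, r2) : A4 × A4) * ((r1, r2) : A4 × A4) * ((r1, r2) : A4 × A4)) * n *
              (((r1, r2) : A4 × A4)⁻¹ * ((r1, r2) : A4 × A4)⁻¹ * ((r1, r2) : A4 × A4)⁻¹) := by
                simp only [mul_assoc]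
          _ = n := by rw [h5, h6, one_mul, mul_one]
      rw [h4] at h2
      exact h2
    refine h3 ⟨Subgroup.zpowers ((r1, r2) : A4 × A4), ?_, ?_, ?_, ?_, ?_⟩
    · exact Subgroup.zpowers_le.mpr hrQ
    · rw [Nat.card_zpowers]
      refine orderOf_eq_prime hr3 ?_
      intro h
      exact hr1 (congrArg Prod.fst h)
    · intro h
      have hmem : ((r1, r2) : A4 × A4) ∈ (Q : Subgroup _) ⊓ Subgroup.prod ⊤ ⊥ := by
        rw [← h]; exact Subgroup.mem_zpowers _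
      exact hr2 (by simpa [Subgroup.mem_prod] using hmem.2)
    · intro h
      have hmem : ((r1, r2) : A4 × A4) ∈ (Q : Subgroup _) ⊓ Subgroup.prod ⊥ ⊤ := by
        rw [← h]; exact Subgroup.mem_zpowers _
      exact hr1 (by simpa [Subgroup.mem_prod] using hmem.2)
    · exact Subgroup.zpowers_le.mpr hnorm
  have habQ : ((a, b) : A4 × A4) ∈ Q := by
    have h : ((a, b) : A4 × A4) ∈ (Q : Subgroup (A4 × A4)) := by
      simpa using (Q : Subgroup (A4 × A4)).mul_mem haQ hbQ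
    exact h
  have habQ' : ((a, b⁻¹) : A4 × A4) ∈ Q := by
    have h : ((a, b⁻¹) : A4 × A4) ∈ (Q : Subgroup (A4 × A4)) := by
      simpa using (Q : Subgroup (A4 × A4)).mul_mem haQ ((Q : Subgroup (A4 × A4)).inv_mem hbQ)
    exact h
  have hb1' : b⁻¹ ≠ 1 := by simpa using hb1
  have hb3' : b⁻¹ ^ 3 = 1 := by rw [inv_pow, hb3, inv_one]
  rcases conj_cases a x1 y1 ⟨ha3, ha1, hx1s, hy1s, hx1n, hy1n, hx1y1⟩ with
    ⟨e1, e2, -, -⟩ | ⟨e1, e2, -, -⟩ <;>
  rcases conj_cases b x2 y2 ⟨hb3, hb1, hx2s, hy2s, hx2n, hy2n, hx2y2⟩ with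
    ⟨f1, f2, f3, f4⟩ | ⟨f1, f2, f3, f4⟩
  · exact hfin a b habQ ha1 hb1 ha3 hb3 (by rw [e1, f1]; exact hyB) (by rw [e2, f2]; exact hxyB)
  · exact hfin a b⁻¹ habQ' ha1 hb1' ha3 hb3' (by rw [e1, f3]; exact hyB)
      (by rw [e2, f4]; exact hxyB)
  · exact hfin a b⁻¹ habQ' ha1 hb1' ha3 hb3' (by rw [e1, f3]; exact hxyB)
      (by rw [e2, f4]; exact hxB)
  · exact hfin a b habQ ha1 hb1 ha3 hb3 (by rw [e1, f1]; exact hxyB) (by rw [e2, f2]; exact hxB)

end Cfsg.Agent.S4406
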