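import Cfsg.Statements.S5432
import Cfsg.Agent.H91.ESOut2

set_option autoImplicit false
open scoped MatrixGroups
open Cfsg

namespace Cfsg.Agent.S5432

open Cfsg.Agent.H91 Cfsg.Agent.S5396 Cfsg.Agent.S3763

theorem elab_map {G : Type*} {H : Type*} [Group G] [Group H] (e : G ≃* H) (A : Subgroup G)
    (hA : IsElementaryAbelian 2 A) :
    IsElementaryAbelian 2 (A.map (e : G →* H)) ∧ Nat.card (A.map (e : G →* H)) = Nat.card A := by
  refine ⟨⟨⟨⟨?_⟩⟩, ?_⟩, ?_⟩
  · rintro ⟨a, ha⟩ ⟨b, hb⟩
    obtain ⟨a', ha', rfl⟩ := Subgroup.mem_map.mp ha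
    obtain ⟨b', hb', rfl⟩ := Subgroup.mem_map.mp hb
    apply Subtype.ext
    show (e : G →* H) a' * (e : G →* H) b' = (e : G →* H) b' * (e : G →* H) a'
    rw [← map_mul, ← map_mul]
    congr 1
    exact congrArg Subtype.val (hA.1.is_comm.comm ⟨a', ha'⟩ ⟨b', hb'⟩)
  · intro a ha
    obtain ⟨a', ha', rfl⟩ := Subgroup.mem_map.mp ha
    rw [← map_pow, hA.2 a' ha', map_one]
  · exact (Nat.card_congr (e.subgroupMap A).toEquiv).symm

/-- Let E be an extraspecial 2-group of order 2^(2n+1), n ≥ 1. If E contains an elementary abelian subgroup of order 2^(n+1) (plus type), then its outer automorphism group is isomorphic to the full isometry group of the hyperbolic quadratic form in dimension 2n over the field with two elements; otherwise (minus type) it is isomorphic to the full isometry group of the elliptic quadratic form in dimension 2n over that field. -/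
theorem result {E : Type*} [Group E] [Finite E] (hE : Cfsg.IsExtraspecial 2 E) (n : ℕ) (hn : 1 ≤ n) (hcard : Nat.card E = 2 ^ (2 * n + 1)) : ((∃ A : Subgroup E, Cfsg.IsElementaryAbelian 2 A ∧ Nat.card ↥A = 2 ^ (n + 1)) → Nonempty (Cfsg.Out E ≃* Cfsg.isometryGroup (ZMod 2) (Cfsg.quadFormPlus n (ZMod 2)))) ∧ ((¬ ∃ A : Subgroup E, Cfsg.IsElementaryAbelian 2 A ∧ Nat.card ↥A = 2 ^ (n + 1)) → Nonempty (Cfsg.Out E ≃* Cfsg.isometryGroup (ZMod 2) (Cfsg.quadFormMinus (n - 1) (ZMod 2) 1 1))) := by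
  obtain ⟨m, s, rfl, ⟨e⟩⟩ := classify' hE n hcard
  have key : (∃ A : Subgroup E, IsElementaryAbelian 2 A ∧ Nat.card ↥A = 2 ^ (m + 1 + 1)) ↔
      s = 0 := by
    constructor
    · rintro ⟨A, hA, hAc⟩
      rcases z2_cases s with rfl | rfl
      · rfl
      · exfalso
        obtain ⟨h1, h2⟩ := elab_map e.symm A hA
        exact minus_no_big m _ h1 (by rw [h2, hAc])
    · rintro rfl
      obtain ⟨A, hA, hAc⟩ := exists_plus m
      obtain ⟨h1, h2⟩ := elab_map e A hA
      exact ⟨_, h1, by rw [h2, hAc]⟩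
  constructor
  · intro h
    have hs := key.mp h
    subst hs
    obtain ⟨f⟩ := out_plus m
    exact ⟨(outCongr e.symm).trans f⟩
  · intro h
    have hs : s = 1 := by
      rcases z2_cases s with rfl | rfl
      · exact absurd (key.mpr rfl) h
      · rfl
    subst hs
    obtain ⟨f⟩ := out_minus m
    exact ⟨(outCongr e.symm).trans f⟩

end Cfsg.Agent.S5432
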