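import Cfsg.Statements.S4413
import Cfsg.Agent.S5432
import Cfsg.Agent.S0824

set_option autoImplicit false
open Cfsg

namespace Cfsg.Agent.S4413

open Cfsg.Agent.H91

/-- Let P be an extraspecial 2-group of order 32 with no elementary abelian subgroup of order 8 (the central product of a dihedral and a quaternion group of order 8). Then the inner automorphism group of P has order 16 and the outer automorphism group Aut(P)/Inn(P) is isomorphic to the symmetric group of degree 5; in particular Aut(P) has order 1920. -/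
theorem result {P : Type*} [Group P] [Finite P]
    (hex : Cfsg.IsExtraspecial 2 P) (h32 : Nat.card P = 32)
    (hminus : ∀ A : Subgroup P, Cfsg.IsElementaryAbelian 2 A → Nat.card ↥A ≤ 4)
    [(MulAut.conj : P →* MulAut P).range.Normal] :
    Nat.card ↥(MulAut.conj : P →* MulAut P).range = 16 ∧ Nat.card (MulAut P) = 1920 ∧
      Nonempty ((MulAut P ⧸ (MulAut.conj : P →* MulAut P).range) ≃* Equiv.Perm (Fin 5)) := by
  have hminus' : ¬ ∃ A : Subgroup P, Cfsg.IsElementaryAbelian 2 A ∧ Nat.card ↥A = 2 ^ (2 + 1) := by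
    rintro ⟨A, hA, hc⟩
    have h1 := hminus A hA
    rw [hc] at h1
    norm_num at h1
  obtain ⟨f⟩ := (Cfsg.Agent.S5432.result hex 2 (by norm_num) (by rw [h32]; norm_num)).2 hminus'
  obtain ⟨g⟩ := Cfsg.Agent.S0824.result (F := ZMod 2) (ZMod.card 2)
  have hInn : Nat.card ↥(MulAut.conj : P →* MulAut P).range = 16 := by
    have h : Nat.card (Subgroup.center P) * Nat.card ↥(MulAut.conj : P →* MulAut P).range
        = Nat.card P := card_inn_mul P
    rw [hex.2, h32] at h
    omega
  have hOut : Nonempty ((MulAut P ⧸ (MulAut.conj : P →* MulAut P).range) ≃* Equiv.Perm (Fin 5)) :=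
    ⟨f.trans g⟩
  refine ⟨hInn, ?_, hOut⟩
  obtain ⟨k⟩ := hOut
  have h1 := Subgroup.card_eq_card_quotient_mul_card_subgroup
    (MulAut.conj : P →* MulAut P).range
  rw [h1, hInn, Nat.card_congr k.toEquiv, Nat.card_eq_fintype_card, Fintype.card_perm,
    Fintype.card_fin]
  rfl

end Cfsg.Agent.S4413
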