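import Cfsg.Statements.S4417
import Cfsg.Agent.H76.LinFin

set_option autoImplicit false
open Cfsg

namespace Cfsg.Agent.S4417

/-- Let F be a field with q elements, p a prime not dividing q, and e the multiplicative order of q modulo p; assume e ≤ n. Then every p-subgroup of GL_n(F) has derived length at most ⌊log₂(n/e)⌋ + 1: that term of its derived series is trivial (n/e is the integer quotient). -/
theorem result {F : Type*} [Field F] [Fintype F] (q : ℕ) (hF : Fintype.card F = q) (p : ℕ) [Fact p.Prime] (hpq : ¬ p ∣ q) (n e : ℕ) (he : e = orderOf (q : ZMod p)) (hen : e ≤ n) (P : Subgroup (GL (Fin n) F)) (hP : IsPGroup p P) : derivedSeries ↥P (Nat.log 2 (n / e) + 1) = ⊥ := by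
  subst hF
  subst he
  have hp : p.Prime := Fact.out
  have hpF : (p : F) ≠ 0 := by
    intro h0
    apply hpq
    have : CharP F p := (CharP.charP_iff_prime_eq_zero hp).mpr h0
    obtain ⟨k, -, hk⟩ := FiniteField.card F p
    rw [hk]
    exact dvd_pow_self p k.ne_zero
  have he0 : 0 < orderOf ((Fintype.card F : ℕ) : ZMod p) := by
    apply orderOf_pos_iff.mpr
    rw [isOfFinOrder_iff_pow_eq_one]
    refine ⟨p - 1, by have := hp.two_le; omega, ?_⟩
    apply ZMod.pow_card_sub_one_eq_one
    rw [Ne, ZMod.natCast_eq_zero_iff]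
    exact hpq
  let ρ' : P →* Module.End F (Fin n → F) :=
    ((Matrix.toLinAlgEquiv' : Matrix (Fin n) (Fin n) F ≃ₐ[F] _) :
      Matrix (Fin n) (Fin n) F →* _).comp ((Units.coeHom _).comp P.subtype)
  have hinj : Function.Injective ρ' := by
    intro a b hab
    apply Subtype.ext
    apply Units.ext
    exact (Matrix.toLinAlgEquiv' : Matrix (Fin n) (Fin n) F ≃ₐ[F] _).injective hab
  have hfr : Module.finrank F (Fin n → F) = n := Module.finrank_fin_fun F
  have key := Cfsg.Agent.H76.LinDer.main p 2 _ le_rfl hp.two_le (Or.inl rfl) he0 hpF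
    (Cfsg.Agent.H76.LinDer.fpfDvd_finite p) n (Fin n → F) hfr P hP ρ'
  rw [eq_bot_iff]
  intro x hx
  rw [Subgroup.mem_bot]
  apply hinj
  rw [map_one]
  exact MonoidHom.mem_ker.mp (key hx)

end Cfsg.Agent.S4417
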