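import Cfsg.Statements.S4420

set_option autoImplicit false
open Cfsg

namespace Cfsg.Agent.S4420

/-- Main lemma: if `H` is not an elementary abelian 2-group, then `A` itself is abelian,
of index 2, and is inverted by every element outside it. -/
theorem key {H : Type*} [Group H] (A : Subgroup H) (hA : A ≠ ⊤)
    (hD : ∀ x : H, x ∉ A → x ^ 2 = 1)
    (hne : ¬ ((∀ a b : H, a * b = b * a) ∧ ∀ x : H, x ^ 2 = 1)) :
    (∀ a ∈ A, ∀ b ∈ A, a * b = b * a) ∧ A.index = 2 ∧
      (∀ x : H, x ∉ A → ∀ b ∈ A, x * b * x⁻¹ = b⁻¹) := by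
  -- elements outside `A` are their own inverses
  have hinv : ∀ x : H, x ∉ A → x⁻¹ = x := by
    intro x hx
    have h := hD x hx
    rw [pow_two] at h
    exact inv_eq_of_mul_eq_one_left h
  -- elements outside `A` invert `A`
  have hI : ∀ x : H, x ∉ A → ∀ a ∈ A, x * a * x⁻¹ = a⁻¹ := by
    intro x hx a ha
    have hxa : x * a ∉ A := by
      intro h
      apply hx
      have := A.mul_mem h (A.inv_mem ha)
      simpa using this
    have h1 := hD _ hxa
    rw [pow_two] at h1
    rw [hinv x hx]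
    -- x * a * x * a = 1
    have h2 : x * a * x * a = 1 := by simpa [mul_assoc] using h1
    exact eq_inv_of_mul_eq_one_left h2
  obtain ⟨x0, hx0⟩ : ∃ x0 : H, x0 ∉ A := by
    by_contra hcon
    push Not at hcon
    exact hA (by ext z; simp [hcon z])
  have hab : ∀ a ∈ A, ∀ b ∈ A, a * b = b * a := by
    intro a ha b hb
    have h1 := hI x0 hx0 (a * b) (A.mul_mem ha hb)
    have h2 := hI x0 hx0 a ha
    have h3 := hI x0 hx0 b hb
    have h4 : x0 * (a * b) * x0⁻¹ = (x0 * a * x0⁻¹) * (x0 * b * x0⁻¹) := by group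
    rw [h4, h2, h3, mul_inv_rev] at h1
    -- a⁻¹ * b⁻¹ = b⁻¹ * a⁻¹
    have h5 : (a⁻¹ * b⁻¹)⁻¹ = (b⁻¹ * a⁻¹)⁻¹ := by rw [h1]
    simpa using h5.symm
  have hprod : ∀ x y : H, x ∉ A → y ∉ A → x * y ∈ A := by
    intro x y hx hy
    by_contra hxy
    apply hne
    have hsqA : ∀ a ∈ A, a ^ 2 = 1 := by
      intro a ha
      have h1 := hI _ hxy a ha
      have h2 := hI x hx a⁻¹ (A.inv_mem ha)
      have h3 := hI y hy a ha
      have h4 : x * y * a * (x * y)⁻¹ = x * (y * a * y⁻¹) * x⁻¹ := by group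
      rw [h4, h3, h2, inv_inv] at h1
      -- a = a⁻¹
      rw [pow_two]
      nth_rewrite 2 [h1]
      exact mul_inv_cancel a
    have hsq : ∀ x : H, x ^ 2 = 1 := by
      intro z
      by_cases hz : z ∈ A
      · exact hsqA z hz
      · exact hD z hz
    refine ⟨?_, hsq⟩
    intro a b
    have ha := hsq a
    have hb := hsq b
    have hab' := hsq (a * b)
    rw [pow_two] at ha hb hab'
    have ha' : a⁻¹ = a := inv_eq_of_mul_eq_one_left ha
    have hb' : b⁻¹ = b := inv_eq_of_mul_eq_one_left hb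
    have h5 : (a * b)⁻¹ = a * b := inv_eq_of_mul_eq_one_left hab'
    rw [mul_inv_rev, ha', hb'] at h5
    exact h5.symm
  refine ⟨hab, ?_, hI⟩
  rw [Subgroup.index_eq_two_iff]
  refine ⟨x0, fun b => ?_⟩
  by_cases hb : b ∈ A
  · right
    refine ⟨hb, fun h => hx0 ?_⟩
    have := A.mul_mem (A.inv_mem hb) h
    simpa using this
  · left
    exact ⟨hprod b x0 hb hx0, hb⟩

/-- Structure of groups in which every element outside some proper subgroup has square 1. -/
theorem result {H : Type*} [Group H] [Finite H] (A : Subgroup H) (hA : A ≠ ⊤) (hD : ∀ x : H, x ∉ A → x ^ 2 = 1) :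
    ∃ B : Subgroup H, B.Normal ∧ IsMulCommutative ↥B ∧ B.index = 2 ∧
      (∀ x : H, x ∉ B → x ^ 2 = 1 ∧ ∀ b ∈ B, x * b * x⁻¹ = b⁻¹) ∧
      (¬ (IsMulCommutative H ∧ ∀ x : H, x ^ 2 = 1) →
        ∀ B' : Subgroup H, B'.Normal → IsMulCommutative ↥B' → B'.index = 2 →
          (∀ x : H, x ∉ B' → x ^ 2 = 1 ∧ ∀ b ∈ B', x * b * x⁻¹ = b⁻¹) → B' = B) := by
  by_cases hel : IsMulCommutative H ∧ ∀ x : H, x ^ 2 = 1
  · -- elementary abelian 2-group: take any subgroup of index 2
    obtain ⟨hcomm, hsq⟩ := hel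
    have hcomm' : ∀ a b : H, a * b = b * a := isMulCommutative_iff.mp hcomm
    haveI : Fact (Nat.Prime 2) := ⟨Nat.prime_two⟩
    have hp : IsPGroup 2 H := by
      intro g
      exact ⟨1, by simpa using hsq g⟩
    obtain ⟨n, hn⟩ := hp.exists_card_eq
    have hn0 : n ≠ 0 := by
      rintro rfl
      rw [pow_zero] at hn
      haveI : Subsingleton H := (Nat.card_eq_one_iff_unique.mp hn).1
      exact hA (Subsingleton.elim _ _)
    obtain ⟨m, rfl⟩ : ∃ m, n = m + 1 := ⟨n - 1, by omega⟩
    obtain ⟨B, hB⟩ := Sylow.exists_subgroup_card_pow_prime (G := H) 2 (n := m)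
      (by rw [hn]; exact pow_dvd_pow 2 (Nat.le_succ m))
    have hidx : B.index = 2 := by
      have h1 := B.card_mul_index
      rw [hB, hn, pow_succ] at h1
      have hpos : 0 < 2 ^ m := by positivity
      exact Nat.eq_of_mul_eq_mul_left hpos h1
    refine ⟨B, ⟨fun n hn g => ?_⟩, ?_, hidx, ?_, fun h => absurd ⟨hcomm, hsq⟩ h⟩
    · rw [hcomm' g n]; simpa using hn
    · exact isMulCommutative_iff.mpr (fun a b => Subtype.ext (hcomm' a b))
    · intro x _
      refine ⟨hsq x, fun b _ => ?_⟩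
      rw [hcomm' x b, mul_inv_cancel_right]
      have hb := hsq b
      rw [pow_two] at hb
      exact (inv_eq_of_mul_eq_one_left hb).symm
  · have hel' : ¬ ((∀ a b : H, a * b = b * a) ∧ ∀ x : H, x ^ 2 = 1) := by
      intro h
      exact hel ⟨isMulCommutative_iff.mpr h.1, h.2⟩
    obtain ⟨hab, hidx, hI⟩ := key A hA hD hel'
    refine ⟨A, Subgroup.normal_of_index_eq_two hidx, ?_, hidx, fun x hx => ⟨hD x hx, hI x hx⟩, ?_⟩
    · exact isMulCommutative_iff.mpr (fun a b => Subtype.ext (hab a a.2 b b.2))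
    · intro _ B' _ _ hB'idx hB'
      -- apply the key lemma to `A ⊓ B'`
      have hne : A ⊓ B' ≠ ⊤ := by
        intro h
        apply hA
        rw [eq_top_iff, ← h]
        exact inf_le_left
      have hD' : ∀ x : H, x ∉ A ⊓ B' → x ^ 2 = 1 := by
        intro x hx
        by_cases hxA : x ∈ A
        · have hxB : x ∉ B' := fun h => hx ⟨hxA, h⟩
          exact (hB' x hxB).1
        · exact hD x hxA
      obtain ⟨-, hidx', -⟩ := key (A ⊓ B') hne hD' hel'
      have h1 : A ≤ A ⊓ B' := by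
        have := Subgroup.relIndex_mul_index (H := A ⊓ B') (K := A) inf_le_left
        rw [hidx, hidx'] at this
        have h2 : (A ⊓ B').relIndex A = 1 := by omega
        exact Subgroup.relIndex_eq_one.mp h2
      have h2 : B' ≤ A ⊓ B' := by
        have := Subgroup.relIndex_mul_index (H := A ⊓ B') (K := B') inf_le_right
        rw [hB'idx, hidx'] at this
        have h2 : (A ⊓ B').relIndex B' = 1 := by omega
        exact Subgroup.relIndex_eq_one.mp h2
      exact le_antisymm (h2.trans inf_le_left) (h1.trans inf_le_right)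

end Cfsg.Agent.S4420
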