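import Cfsg.Statements.S4492
import Cfsg.Agent.H79.FongBlock
import Cfsg.Agent.H14.PSolv
import Cfsg.Agent.H73.PSolv
import Cfsg.Agent.H39.PPrime

set_option autoImplicit false
open Cfsg

namespace Cfsg.Agent.S4492

/-- Let G be a finite p-solvable group, N = O_{p'}(G) its largest normal subgroup of order prime to p, and θ an irreducible character of N invariant under conjugation by G; fix a maximal ideal M of the algebraic integers containing p. Then the irreducible characters of G lying over θ (those whose restriction to N contains θ) form a single p-block of G, and the defect groups of that block are exactly the Sylow p-subgroups of G. -/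
theorem result {G : Type*} [Group G] [Fintype G] (p : ℕ) [Fact p.Prime] (M : Ideal Cfsg.AlgInt) (hM : Cfsg.IsPModular p M) (hsolv : Cfsg.IsPSolvable p G) (N : Subgroup G) [hN : N.Normal] [Fintype N] (hNdef : N = Cfsg.pPrimeCore p G) (θ : Cfsg.IrrCharacter N) (hinv : ∀ (g : G) (n : N), (θ : N → ℂ) ⟨g * n * g⁻¹, hN.conj_mem n n.2 g⟩ = (θ : N → ℂ) n) : ∃ B : Set (Cfsg.IrrCharacter G), Cfsg.IsPBlock M B ∧ (∀ χ : Cfsg.IrrCharacter G, χ ∈ B ↔ Cfsg.classInner (fun n : N => (χ : G → ℂ) n) (θ : N → ℂ) ≠ 0) ∧ (∀ P : Sylow p G, Cfsg.IsDefectGroup p M B (P : Subgroup G)) ∧ ∀ D : Subgroup G, Cfsg.IsDefectGroup p M B D → ∃ P : Sylow p G, D = (P : Subgroup G) := by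
  classical
  have hp : p.Prime := Fact.out
  have hMp := Cfsg.Agent.H20.isPrime_of_isPModular hM
  have hLn : (Cfsg.pPrimePCore p G).Normal := Cfsg.Agent.H39.pPrimePCore_normal' p
  have hNL : N ≤ Cfsg.pPrimePCore p G := by
    rw [hNdef]; exact Cfsg.Agent.H39.pPrimeCore_le_pPrimePCore p
  have hKp : ¬ p ∣ Nat.card N := by
    rw [hNdef]
    exact (Nat.Prime.coprime_iff_not_dvd hp).mp (Cfsg.Agent.H14.pPrimeCore_coprime p G).symm
  have hidx : ∃ a : ℕ, N.relIndex (Cfsg.pPrimePCore p G) = p ^ a := by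
    rw [hNdef]; exact Cfsg.Agent.H39.relIndex_pPrimeCore p
  have hcon : Cfsg.IsPConstrained p G := by
    obtain ⟨P₀⟩ := (inferInstance : Nonempty (Sylow p ↥(Cfsg.pPrimePCore p G)))
    exact Cfsg.Agent.H14.isPConstrained_of_centralizer_isPSolvable P₀
      (Cfsg.Agent.H73.isPSolvable_subgroup hsolv _)
  have hinv' : ∀ g : G, Cfsg.Agent.H79.conjIrr N g θ = θ := by
    intro g
    apply Subtype.ext
    funext n
    exact hinv g n
  obtain ⟨χ₁, hiff, hdef⟩ := Cfsg.Agent.H79.fong_block hM N (Cfsg.pPrimePCore p G) hNL hKp hidx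
    hcon θ hinv'
  -- a defect group
  obtain ⟨y, hy⟩ := Cfsg.Agent.S0906.result p M hM (Cfsg.blockOf M χ₁.1) ⟨χ₁, rfl⟩
  obtain ⟨S⟩ := (inferInstance : Nonempty (Sylow p (Subgroup.centralizer ({y} : Set G))))
  obtain ⟨D₀, hD₀def⟩ : ∃ D₀ : Subgroup G,
      D₀ = (S : Subgroup (Subgroup.centralizer ({y} : Set G))).map
        (Subgroup.centralizer ({y} : Set G)).subtype := ⟨_, rfl⟩
  have hD₀ : Cfsg.IsDefectGroup p M (Cfsg.blockOf M χ₁.1) D₀ := ⟨y, hy, S, hD₀def⟩
  have hcard : ∀ D : Subgroup G, Cfsg.IsDefectGroup p M (Cfsg.blockOf M χ₁.1) D →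
      Nat.card D = p ^ (Nat.card G).factorization p := by
    intro D hD
    rw [Cfsg.Agent.H20.card_defectGroup hM χ₁ D hD, hdef]
  refine ⟨Cfsg.blockOf M χ₁.1, ⟨χ₁, rfl⟩, hiff, ?_, ?_⟩
  · intro P
    obtain ⟨g, hg⟩ := MulAction.exists_smul_eq G (Sylow.ofCard D₀ (hcard D₀ hD₀)) P
    have hPeq : (P : Subgroup G) = D₀.map (MulAut.conj g).toMonoidHom := by
      rw [← hg, Sylow.coe_subgroup_smul, Sylow.coe_ofCard]
      rfl
    rw [hPeq]
    exact Cfsg.Agent.H81.isDefectGroup_map_conj hD₀ g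
  · intro D hD
    exact ⟨Sylow.ofCard D (hcard D hD), (Sylow.coe_ofCard D (hcard D hD)).symm⟩

end Cfsg.Agent.S4492
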