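-- Statement S4517: a 2-block of full defect stable under the Galois twist g ↦ g^k is principal.
import Mathlib
import Cfsg.Statements.S4517
import Cfsg.Agent.H84.BlockDom
import Cfsg.Agent.H84.PairSum

set_option autoImplicit false
open Cfsg

namespace Cfsg.Agent.S4517

open Cfsg.Agent.H84 Cfsg.Agent.H20
open scoped ComplexConjugate

/-- Let G be a finite group, M a maximal ideal of the algebraic integers containing 2, and k a natural number coprime to the order of G with g ^ k = g⁻¹ for every element g of odd order (so that g ↦ g ^ k induces a field automorphism of the character values inverting the roots of unity of odd order). If B is a 2-block of full defect (its defect equals the exponent of 2 in the order of G) that is stable under χ ↦ χ ∘ (· ^ k), then B is the principal 2-block. -/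
theorem result {G : Type*} [Group G] [Finite G] (M : Ideal Cfsg.AlgInt) (hM : Cfsg.IsPModular 2 M) (k : ℕ) (hk : Nat.Coprime k (Nat.card G)) (hk₂ : ∀ g : G, Odd (orderOf g) → g ^ k = g⁻¹) (B : Set (Cfsg.IrrCharacter G)) (hB : Cfsg.IsPBlock M B) (hdef : Cfsg.blockDefect 2 B = (Nat.card G).factorization 2) (hstab : ∀ χ ∈ B, ∃ ψ ∈ B, ∀ g : G, (ψ : G → ℂ) g = (χ : G → ℂ) (g ^ k)) : B = Cfsg.principalBlock M G := by
  classical
  have _ : Fintype G := Fintype.ofFinite G
  have hMp := isPrime_of_isPModular hM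
  obtain ⟨χ₀, hχ₀⟩ := hB
  have hχ₀B : χ₀ ∈ B := hχ₀ ▸ Cfsg.Agent.H80.mem_blockOf_self hMp χ₀
  have h2 : MemLocalIdeal M (2 : ℂ) := by
    have := memLocalIdeal_natCast_self hM
    exact_mod_cast this
  -- (1) a character of odd degree in `B`
  obtain ⟨χ₁, hχ₁B, hχ₁odd⟩ : ∃ χ₁ ∈ B, ¬ 2 ∣ Cfsg.charDegree (χ₁ : G → ℂ) := by
    unfold Cfsg.blockDefect at hdef
    rcases Nat.eq_zero_or_pos ((Nat.card G).factorization 2) with h0 | h0
    · refine ⟨χ₀, hχ₀B, fun hdvd => ?_⟩
      obtain ⟨n, hn, hnG, hn1⟩ := Cfsg.Agent.H81.irr_degree_dvd χ₀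
      have hdeg : Cfsg.charDegree (χ₀ : G → ℂ) = n := by
        have := Cfsg.Agent.H82.irr_one_eq_charDegree χ₀
        rw [hn1] at this
        exact_mod_cast this.symm
      have hGne : Nat.card G ≠ 0 := (Nat.card_pos (α := G)).ne'
      rcases (Nat.factorization_eq_zero_iff _ _).mp h0 with h | h | h
      · exact h Nat.prime_two
      · exact h ((hdeg ▸ hdvd).trans hnG)
      · exact hGne h
    · have hne : ((fun χ : Cfsg.IrrCharacter G =>
          (Cfsg.charDegree (χ : G → ℂ)).factorization 2) '' B).Nonempty := ⟨_, χ₀, hχ₀B, rfl⟩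
      have hmem := Nat.sInf_mem hne
      have hzero : sInf ((fun χ : Cfsg.IrrCharacter G =>
          (Cfsg.charDegree (χ : G → ℂ)).factorization 2) '' B) = 0 := by omega
      rw [hzero] at hmem
      obtain ⟨χ₁, hχ₁B, hχ₁⟩ := hmem
      refine ⟨χ₁, hχ₁B, fun hdvd => ?_⟩
      rcases (Nat.factorization_eq_zero_iff _ _).mp hχ₁ with h | h | h
      · exact h Nat.prime_two
      · exact h hdvd
      · exact (Cfsg.Agent.H82.charDegree_pos χ₁).ne' h
  -- (2) the block idempotent is invariant under `g ↦ g ^ k`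
  have hcoeff : ∀ g : G, Cfsg.blockCoeff B (g ^ k) = Cfsg.blockCoeff B g := by
    intro g
    unfold Cfsg.blockCoeff
    congr 1
    choose F hFB hF using hstab
    let F' : B → B := fun χ => ⟨F χ.1 χ.2, hFB χ.1 χ.2⟩
    have hbij : Function.Bijective F' := by
      have : Finite (Cfsg.IrrCharacter G) := Cfsg.Agent.H4.finite_irr G
      have : Finite B := Finite.of_injective (fun χ : B => χ.1) Subtype.val_injective
      rw [← Finite.injective_iff_bijective]
      intro χ χ' h
      apply Subtype.ext
      apply Subtype.ext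
      funext g
      have h1 := hF χ.1 χ.2 (powCoprime hk.symm |>.symm g)
      have h2 := hF χ'.1 χ'.2 (powCoprime hk.symm |>.symm g)
      have h3 : (powCoprime hk.symm |>.symm g) ^ k = g := (powCoprime hk.symm).apply_symm_apply g
      rw [h3] at h1 h2
      have h4 : F χ.1 χ.2 = F χ'.1 χ'.2 := congrArg Subtype.val h
      rw [← h1, ← h2, h4]
    rw [← finsum_set_coe_eq_finsum_mem, ← finsum_set_coe_eq_finsum_mem]
    conv_rhs => rw [← finsum_comp F' hbij]
    refine finsum_congr (fun χ => ?_)
    show _ = ((F χ.1 χ.2 : Cfsg.IrrCharacter G) : G → ℂ) 1 *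
      conj (((F χ.1 χ.2 : Cfsg.IrrCharacter G) : G → ℂ) g)
    rw [hF χ.1 χ.2 1, hF χ.1 χ.2 g, one_pow]
  have hinv : ∀ g : G, Odd (orderOf g) → Cfsg.blockCoeff B g⁻¹ = Cfsg.blockCoeff B g := by
    intro g hg
    rw [← hk₂ g hg, hcoeff]
  have haR : ∀ g, MemLocalRing M (Cfsg.blockCoeff B g) := fun g => by
    rw [hχ₀]; exact blockCoeff_memLocalRing hMp χ₀ g
  have hasing : ∀ g : G, 2 ∣ orderOf g → Cfsg.blockCoeff B g = 0 := fun g hg => by
    rw [hχ₀]; exact blockCoeff_eq_zero_of_singular hM χ₀ g hg
  -- (3) the key congruence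
  have key : ∀ (θ : Cfsg.IrrCharacter G) (θ' : G → ℂ), ¬ 2 ∣ Cfsg.charDegree (θ : G → ℂ) →
      Cfsg.SameBlock M (θ : G → ℂ) θ' → (∀ g : G, Odd (orderOf g) → θ' g = (θ : G → ℂ) g⁻¹) →
      MemLocalIdeal M (omega (θ : G → ℂ) (blockElt B) - Cfsg.blockCoeff B 1) := by
    intro θ θ' hθodd hθθ' hθ'
    have hθ1 : (θ : G → ℂ) 1 ≠ 0 := Cfsg.Agent.H82.irr_one_ne_zero θ
    have hθcl := Cfsg.Agent.H4.irr_isClassFunction θ
    have hθinvR : MemLocalRing M ((θ : G → ℂ) 1)⁻¹ := by
      rw [Cfsg.Agent.H82.irr_one_eq_charDegree]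
      exact memLocalRing_inv_natCast hM hθodd
    have hθR : ∀ g, MemLocalRing M ((θ : G → ℂ) g) := fun g =>
      memLocalRing_algInt hMp ⟨_, Cfsg.Agent.H82.irr_isIntegral θ g⟩
    have hθ'1 : θ' 1 = (θ : G → ℂ) 1 := by
      have := hθ' 1 (by rw [orderOf_one]; exact odd_one)
      rwa [inv_one] at this
    have e1 : omega (θ : G → ℂ) (blockElt B) - Cfsg.blockCoeff B 1 =
        ∑ g : G, (if g = 1 then 0 else Cfsg.blockCoeff B g * (θ : G → ℂ) g / (θ : G → ℂ) 1) := by
      unfold omega
      simp only [coeff_blockElt]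
      rw [Finset.sum_div, ← Finset.add_sum_erase Finset.univ _ (Finset.mem_univ (1 : G)),
        ← Finset.add_sum_erase Finset.univ
          (fun g : G => if g = 1 then 0 else
            Cfsg.blockCoeff B g * (θ : G → ℂ) g / (θ : G → ℂ) 1) (Finset.mem_univ (1 : G))]
      simp only [if_true, zero_add]
      rw [mul_div_assoc, div_self hθ1, mul_one, add_sub_cancel_left]
      refine Finset.sum_congr rfl (fun g hg => ?_)
      rw [if_neg (Finset.ne_of_mem_erase hg)]
    rw [e1]
    have hsum := sum_mem_of_conj_inv_closed (localIdeal M hMp)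
      (fun g : G => if g = 1 then 0 else Cfsg.blockCoeff B g * (θ : G → ℂ) g / (θ : G → ℂ) 1)
      (by
        intro g x
        have h1 : x * g * x⁻¹ = 1 ↔ g = 1 := by
          constructor
          · intro h
            have : g = x⁻¹ * (x * g * x⁻¹) * x := by group
            rw [this, h]; group
          · intro h; rw [h]; group
        by_cases hg : g = 1
        · simp only [if_pos hg, if_pos (h1.mpr hg)]
        · simp only [if_neg hg, if_neg (fun h => hg (h1.mp h))]
          rw [blockCoeff_conj_invariant, hθcl])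
      (by
        intro g hreal
        by_cases hg : g = 1
        · simp only [if_pos hg, mul_zero]; exact (localIdeal M hMp).zero_mem
        · simp only [if_neg hg]
          rw [mem_localIdeal]
          by_cases hsing : 2 ∣ orderOf g
          · rw [hasing g hsing]; simp only [zero_mul, zero_div, mul_zero]
            exact memLocalIdeal_zero hMp
          · have hodd : Odd (orderOf g) := Nat.not_even_iff_odd.mp
              (fun h => hsing (even_iff_two_dvd.mp h))
            obtain ⟨m, hm⟩ := even_iff_two_dvd.mp (even_index_centralizer_of_real g hodd hg hreal)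
            rw [hm]
            have e : ((2 * m : ℕ) : ℂ) * (Cfsg.blockCoeff B g * (θ : G → ℂ) g / (θ : G → ℂ) 1) =
                (2 : ℂ) * ((m : ℂ) * Cfsg.blockCoeff B g * (θ : G → ℂ) g * ((θ : G → ℂ) 1)⁻¹) := by
              push_cast; ring
            rw [e]
            exact memLocalIdeal_mul_right hMp h2
              (memLocalRing_mul hMp (memLocalRing_mul hMp (memLocalRing_mul hMp
                (memLocalRing_natCast hMp m) (haR g)) (hθR g)) hθinvR))
      (by
        intro g hnreal
        have hg : g ≠ 1 := by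
          rintro rfl
          apply hnreal
          rw [inv_one]
        have hg' : g⁻¹ ≠ 1 := fun h => hg (inv_eq_one.mp h)
        simp only [if_neg hg, if_neg hg']
        rw [mem_localIdeal]
        by_cases hsing : 2 ∣ orderOf g
        · rw [hasing g hsing, hasing g⁻¹ (by rw [orderOf_inv]; exact hsing)]
          simp only [zero_mul, zero_div, add_zero, mul_zero]
          exact memLocalIdeal_zero hMp
        · have hodd : Odd (orderOf g) := Nat.not_even_iff_odd.mp
            (fun h => hsing (even_iff_two_dvd.mp h))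
          rw [hinv g hodd]
          have e : ((Subgroup.centralizer ({g} : Set G)).index : ℂ) *
              (Cfsg.blockCoeff B g * (θ : G → ℂ) g / (θ : G → ℂ) 1 +
                Cfsg.blockCoeff B g * (θ : G → ℂ) g⁻¹ / (θ : G → ℂ) 1) =
              Cfsg.blockCoeff B g * ((2 : ℂ) * Cfsg.centralChar (θ : G → ℂ) g -
                (Cfsg.centralChar (θ : G → ℂ) g - Cfsg.centralChar θ' g)) := by
            unfold Cfsg.centralChar
            rw [hθ' g hodd, hθ'1]
            ring
          rw [e]
          exact memLocalIdeal_mul_left hMp (haR g)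
            (memLocalIdeal_sub hMp
              (memLocalIdeal_mul_right hMp h2 (centralChar_memLocalRing hMp θ g)) (hθθ' g)))
      Finset.univ (fun g _ x => Finset.mem_univ _) (fun g _ => Finset.mem_univ _)
    exact hsum
  -- (4) conclusion
  obtain ⟨ψ₁, hψ₁B, hψ₁⟩ := hstab χ₁ hχ₁B
  have hsame : Cfsg.SameBlock M (χ₁ : G → ℂ) (ψ₁ : G → ℂ) := by
    rw [hχ₀] at hχ₁B hψ₁B
    exact Cfsg.Agent.H80.sameBlock_trans hMp (Cfsg.Agent.H80.sameBlock_symm hχ₁B) hψ₁B
  have k1 := key χ₁ (ψ₁ : G → ℂ) hχ₁odd hsame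
    (fun g hg => by rw [hψ₁ g, hk₂ g hg])
  have k2 := key (Cfsg.Agent.H80.trivChar G) (fun _ => (1 : ℂ))
    (by
      have : Cfsg.charDegree ((Cfsg.Agent.H80.trivChar G : Cfsg.IrrCharacter G) : G → ℂ) = 1 := by
        have h := Cfsg.Agent.H82.irr_one_eq_charDegree (Cfsg.Agent.H80.trivChar G)
        rw [Cfsg.Agent.H80.trivChar_apply] at h
        exact_mod_cast h.symm
      rw [this]; decide)
    (Cfsg.Agent.H80.sameBlock_refl hMp _)
    (fun g _ => rfl)
  rw [omega_blockElt, if_pos hχ₁B] at k1
  rw [omega_blockElt] at k2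
  have htriv : Cfsg.Agent.H80.trivChar G ∈ B := by
    by_contra hcon
    rw [if_neg hcon] at k2
    have := memLocalIdeal_sub hMp k1 k2
    rw [show (1 : ℂ) - Cfsg.blockCoeff B 1 - (0 - Cfsg.blockCoeff B 1) = 1 by ring] at this
    exact not_memLocalIdeal_one hMp this
  rw [Cfsg.Agent.H80.principalBlock_eq, hχ₀]
  rw [hχ₀] at htriv
  exact (Cfsg.Agent.H80.blockOf_eq_of_mem hMp htriv).symm

end Cfsg.Agent.S4517
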