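-- Statement S4518 (row 4518).
import Cfsg.Statements.S4518
import Cfsg.Agent.H79.GaloisAct
import Cfsg.Agent.H83.Gagola2
import Cfsg.Agent.S0174
import Cfsg.Agent.S1486

set_option autoImplicit false
open Cfsg

namespace Cfsg.Agent.S4518

open Cfsg.Agent.H79 Cfsg.Agent.H4
open scoped ComplexConjugate

/-- Let N be a normal subgroup of the finite group G whose index is not divisible by the prime p, and let k be coprime to the order of G with k ^ (p ^ e) ≡ 1 modulo the order of G for some e (so g ↦ g ^ k induces a field automorphism of p-power order on character values). If an irreducible character χ of G satisfies χ (g ^ k) = χ g for all g, then every irreducible constituent θ of the restriction of χ to N satisfies θ (n ^ k) = θ n for all n. -/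
theorem result {G : Type*} [Group G] [Fintype G] (p : ℕ) [Fact p.Prime] (N : Subgroup G) [N.Normal] [Fintype N] (hidx : ¬ p ∣ N.index) (k e : ℕ) (hk : Nat.Coprime k (Nat.card G)) (hke : k ^ (p ^ e) ≡ 1 [MOD Nat.card G]) (χ : Cfsg.IrrCharacter G) (hχ : ∀ g : G, (χ : G → ℂ) (g ^ k) = (χ : G → ℂ) g) (θ : Cfsg.IrrCharacter N) (hθ : Cfsg.classInner (fun n : N => (χ : G → ℂ) n) (θ : N → ℂ) ≠ 0) : ∀ n : N, (θ : N → ℂ) (n ^ k) = (θ : N → ℂ) n := by
  classical
  have hkN : k.Coprime (Nat.card N) :=
    Nat.Coprime.coprime_dvd_right (Subgroup.card_subgroup_dvd_card N) hk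
  let σ : IrrCharacter N → IrrCharacter N := irrPow k hkN
  let _ : MulAction G (IrrCharacter N) := Cfsg.Agent.H83.conjIrrAction N
  have hsmul : ∀ (g : G) (μ : IrrCharacter N) (n : N),
      ((g • μ : IrrCharacter N) : N → ℂ) n = (μ : N → ℂ) ((MulAut.conjNormal g⁻¹ : MulAut N) n) :=
    fun g μ n => rfl
  -- σ commutes with the action
  have hcomm : ∀ (g : G) (μ : IrrCharacter N), σ (g • μ) = g • σ μ := by
    intro g μ
    apply Subtype.ext
    funext n
    change ((g • μ : IrrCharacter N) : N → ℂ) (n ^ k) =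
      (μ : N → ℂ) (((MulAut.conjNormal g⁻¹ : MulAut N) n) ^ k)
    rw [hsmul, map_pow]
  -- σ θ is a constituent of χ restricted to N, hence conjugate to θ
  have hcfχ : IsClassFunction G (χ : G → ℂ) := irr_isClassFunction χ
  have hσθ : classInner (σ θ : N → ℂ) (fun n : N => (χ : G → ℂ) n) =
      classInner (θ : N → ℂ) (fun n : N => (χ : G → ℂ) n) := by
    simp only [classInner]
    congr 1
    refine Fintype.sum_equiv (powCoprime hkN.symm) _ _ (fun n => ?_)
    change (θ : N → ℂ) (n ^ k) * conj ((χ : G → ℂ) (n : G)) =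
      (θ : N → ℂ) (n ^ k) * conj ((χ : G → ℂ) ((n ^ k : N) : G))
    rw [Subgroup.coe_pow, hχ]
  have hθ' : classInner (θ : N → ℂ) (fun n : N => (χ : G → ℂ) n) ≠ 0 := by
    intro h
    apply hθ
    rw [← classInner_conj_symm, h, map_zero]
  have horb : σ θ ∈ MulAction.orbit G θ := by
    by_contra hnot
    have hnex : ¬ ∃ g : G, (σ θ : N → ℂ) = fun h : N =>
        (θ : N → ℂ) ⟨g * h * g⁻¹, (inferInstance : N.Normal).conj_mem h h.2 g⟩ := by
      rintro ⟨g, hg⟩
      apply hnot
      refine ⟨g⁻¹, ?_⟩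
      apply Subtype.ext
      funext n
      change ((g⁻¹ • θ : IrrCharacter N) : N → ℂ) n = (σ θ : N → ℂ) n
      rw [hsmul, hg, inv_inv]
      rfl
    have h0 := (Cfsg.Agent.S1486.result N (θ : N → ℂ) (σ θ : N → ℂ) θ.2 (σ θ).2).2 hnex
    have h1 := Cfsg.Agent.S0174.disjoint_of_inner_zero
      (isCharacter_indFun N (σ θ : N → ℂ) (isCharacter_of_isIrrCharacter (σ θ).2))
      (isCharacter_indFun N (θ : N → ℂ) (isCharacter_of_isIrrCharacter θ.2)) h0 χ
    rw [frobenius_reciprocity N _ _ hcfχ, frobenius_reciprocity N _ _ hcfχ, hσθ] at h1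
    rcases h1 with h | h <;> exact hθ' h
  -- σ preserves the orbit
  have hpres : ∀ μ ∈ MulAction.orbit G θ, σ μ ∈ MulAction.orbit G θ := by
    rintro μ ⟨g, rfl⟩
    obtain ⟨h, hh⟩ := horb
    refine ⟨g * h, ?_⟩
    change (g * h) • θ = σ (g • θ)
    rw [hcomm, ← hh, mul_smul]
  let f : Function.End (MulAction.orbit G θ) := fun x => ⟨σ x.1, hpres x.1 x.2⟩
  have hfpow : ∀ (j : ℕ) (x : MulAction.orbit G θ), ((f ^ j) x).1 = σ^[j] x.1 := by
    intro j
    induction j with
    | zero => intro x; rfl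
    | succ j ih =>
      intro x
      rw [pow_succ]
      change ((f ^ j) (f x)).1 = _
      rw [ih (f x), Function.iterate_succ_apply]
  have hf : f ^ p ^ e = 1 := by
    funext x
    apply Subtype.ext
    rw [hfpow]
    apply Subtype.ext
    funext n
    rw [iterate_irrPow]
    change (x.1 : N → ℂ) (n ^ (k ^ (p ^ e))) = (x.1 : N → ℂ) n
    have h1 : k ^ (p ^ e) ≡ 1 [MOD orderOf n] :=
      hke.of_dvd ((orderOf_dvd_natCard n).trans (Subgroup.card_subgroup_dvd_card N))
    have h2 := pow_eq_pow_iff_modEq.mpr h1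
    rw [pow_one] at h2
    rw [h2]
  have : Finite (IrrCharacter N) := finite_irr N
  have : Fintype (MulAction.orbit G θ) := Fintype.ofFinite _
  have hmod := Equiv.Perm.card_fixedPoints_modEq (p := p) hf
  -- the orbit has size prime to p
  have hcard : ¬ p ∣ Fintype.card (MulAction.orbit G θ) := by
    have h1 : (MulAction.stabilizer G θ).index = Fintype.card (MulAction.orbit G θ) := by
      rw [MulAction.index_stabilizer, ← Nat.card_coe_set_eq, Nat.card_eq_fintype_card]
    have h2 : N ≤ MulAction.stabilizer G θ := by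
      intro m hm
      rw [MulAction.mem_stabilizer_iff]
      apply Subtype.ext
      funext n
      rw [hsmul]
      have hcf : IsClassFunction N (θ : N → ℂ) := irr_isClassFunction θ
      have h3 := hcf n (⟨m, hm⟩⁻¹ : N)
      rw [inv_inv] at h3
      have h4 : (MulAut.conjNormal m⁻¹ : MulAut N) n = (⟨m, hm⟩⁻¹ : N) * n * ⟨m, hm⟩ := by
        apply Subtype.ext
        simp
      rw [h4, h3]
    rw [← h1]
    intro hdvd
    exact hidx (hdvd.trans (Subgroup.index_dvd_of_le h2))
  obtain ⟨x, hx⟩ : ∃ x : MulAction.orbit G θ, f x = x := by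
    by_contra hne
    push Not at hne
    have hempty : IsEmpty (Function.fixedPoints f) := ⟨fun y => hne y.1 y.2⟩
    have h0 : Fintype.card (Function.fixedPoints f) = 0 := Fintype.card_eq_zero
    rw [h0] at hmod
    exact hcard ((Nat.modEq_zero_iff_dvd).mp hmod)
  obtain ⟨μ, g, hg⟩ := x
  have h1 : σ μ = μ := congrArg Subtype.val hx
  have hg' : g • θ = μ := hg
  rw [← hg', hcomm] at h1
  have h2 : σ θ = θ := by
    have := congrArg (fun μ => g⁻¹ • μ) h1
    simpa using this
  intro n
  exact congrFun (congrArg Subtype.val h2) n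

end Cfsg.Agent.S4518
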