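import Cfsg.Statements.S4539
import Cfsg.Agent.S0923
import Cfsg.Agent.H84.Major4
import Cfsg.Agent.H20.DefectOrder

set_option autoImplicit false
open Cfsg

namespace Cfsg.Agent.S4539

/-- Let B be a p-block of the finite group G (relative to a maximal ideal M of the algebraic integers containing p) of defect d with defect group D. Let z be an element of D commuting with every element of D, and let b be a block of the centralizer C of z with defect group D that induces B (a major subsection (z, b)). If b has p-regular rank at most two, then B contains at most p ^ d irreducible characters. -/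
theorem result {G : Type*} [Group G] [Finite G] (p : ℕ) [Fact p.Prime] (M : Ideal Cfsg.AlgInt) (hM : Cfsg.IsPModular p M) (B : Set (Cfsg.IrrCharacter G)) (hB : Cfsg.IsPBlock M B) (D : Subgroup G) (hD : Cfsg.IsDefectGroup p M B D) (z : G) (hzD : z ∈ D) (hzc : ∀ d ∈ D, d * z = z * d) (b : Set (Cfsg.IrrCharacter ↥(Subgroup.centralizer ({z} : Set G)))) (hb : Cfsg.IsInducedBlock M (Subgroup.centralizer ({z} : Set G)) b B) (hbD : Cfsg.IsDefectGroup p M b (D.subgroupOf (Subgroup.centralizer ({z} : Set G)))) (hl : Cfsg.blockRank p b ≤ 2) : Nat.card B ≤ p ^ Cfsg.blockDefect p B := by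
  classical
  have hp : p.Prime := hM.1
  letI : Fintype G := Fintype.ofFinite G
  letI : Fintype (Subgroup.centralizer ({z} : Set G)) := Fintype.ofFinite _
  have h2 : Cfsg.Agent.H84.SecondMain p M G := fun x hx B hB χ hχ b hb hnot y hy =>
    Cfsg.Agent.S0923.result p M hM x hx B hB χ hχ b hb hnot y hy
  obtain ⟨χ₀, rfl⟩ := hB
  obtain ⟨ψ₀, rfl⟩ := hb.1
  have hxC : ∀ c ∈ Subgroup.centralizer ({z} : Set G), z * c = c * z := fun c hc =>
    (Subgroup.mem_centralizer_singleton_iff.mp hc).symm
  have hCx : ∀ g : G, g * z = z * g → g ∈ Subgroup.centralizer ({z} : Set G) := fun g hg =>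
    Subgroup.mem_centralizer_singleton_iff.mpr hg
  have hDle : D ≤ Subgroup.centralizer ({z} : Set G) := fun g hg => hCx g (hzc g hg)
  have hcD := Cfsg.Agent.H20.card_defectGroup hM χ₀ D hD
  have hcb := Cfsg.Agent.H20.card_defectGroup hM ψ₀ _ hbD
  have hcc : Nat.card (D.subgroupOf (Subgroup.centralizer ({z} : Set G))) = Nat.card D :=
    Nat.card_congr (Subgroup.subgroupOfEquivOfLe hDle).toEquiv
  have hdef : Cfsg.blockDefect p (Cfsg.blockOf M (ψ₀ : ↥(Subgroup.centralizer ({z} : Set G)) → ℂ)) =
      Cfsg.blockDefect p (Cfsg.blockOf M (χ₀ : G → ℂ)) := by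
    apply Nat.pow_right_injective hp.two_le
    show p ^ _ = p ^ _
    rw [← hcb, ← hcD, hcc]
  have hx : ∃ k : ℕ, orderOf z = p ^ k := by
    have h1 : orderOf (⟨z, hzD⟩ : D) ∣ Nat.card D := orderOf_dvd_natCard _
    rw [Subgroup.orderOf_mk, hcD] at h1
    obtain ⟨k, -, hk⟩ := (Nat.dvd_prime_pow hp).mp h1
    exact ⟨k, hk⟩
  exact Cfsg.Agent.H84.major_bound hM h2 z hx _ hxC hCx ψ₀ _ hb hdef hl

end Cfsg.Agent.S4539
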