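import Cfsg.Statements.S4540
import Cfsg.Agent.S0923
import Cfsg.Agent.S0908
import Cfsg.Agent.H20.TwoMajor

set_option autoImplicit false
set_option linter.style.haveILetI false
open Cfsg

namespace Cfsg.Agent.S4540

/-- Let B be a 2-block of the finite group G (relative to a maximal ideal M of the algebraic integers containing 2) of defect d with defect group D. Let z be an element of D commuting with every element of D, and let b be a block of the centralizer C of z with defect group D that induces B (a major subsection (z, b)). If b has 2-regular rank at most three, then 3·k(B) ≤ 3·k₀(B) + 2·Σ 2 ^ h(χ), where k(B) is the number of members of B, k₀(B) the number of members of height zero, and the sum runs over the members χ of B of positive height h(χ); this bound is at most 3·2 ^ d, so in particular B contains at most 2 ^ d irreducible characters. -/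
theorem result {G : Type*} [Group G] [Finite G] (M : Ideal Cfsg.AlgInt) (hM : Cfsg.IsPModular 2 M) (B : Set (Cfsg.IrrCharacter G)) (hB : Cfsg.IsPBlock M B) (D : Subgroup G) (hD : Cfsg.IsDefectGroup 2 M B D) (z : G) (hzD : z ∈ D) (hzc : ∀ d ∈ D, d * z = z * d) (b : Set (Cfsg.IrrCharacter ↥(Subgroup.centralizer ({z} : Set G)))) (hb : Cfsg.IsInducedBlock M (Subgroup.centralizer ({z} : Set G)) b B) (hbD : Cfsg.IsDefectGroup 2 M b (D.subgroupOf (Subgroup.centralizer ({z} : Set G)))) (hl : Cfsg.blockRank 2 b ≤ 3) : 3 * Nat.card B ≤ 3 * Nat.card {χ : Cfsg.IrrCharacter G // χ ∈ B ∧ Cfsg.blockHeight 2 B (χ : G → ℂ) = 0} + 2 * (∑ᶠ χ ∈ {χ : Cfsg.IrrCharacter G | χ ∈ B ∧ 1 ≤ Cfsg.blockHeight 2 B (χ : G → ℂ)}, 2 ^ Cfsg.blockHeight 2 B (χ : G → ℂ)) ∧ 3 * Nat.card {χ : Cfsg.IrrCharacter G // χ ∈ B ∧ Cfsg.blockHeight 2 B (χ : G → ℂ) = 0} + 2 * (∑ᶠ χ ∈ {χ : Cfsg.IrrCharacter G | χ ∈ B ∧ 1 ≤ Cfsg.blockHeight 2 B (χ : G → ℂ)}, 2 ^ Cfsg.blockHeight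 2 B (χ : G → ℂ)) ≤ 3 * 2 ^ Cfsg.blockDefect 2 B := by
  classical
  haveI : Fact (Nat.Prime 2) := ⟨Nat.prime_two⟩
  letI : Fintype G := Fintype.ofFinite G
  letI : Fintype (Subgroup.centralizer ({z} : Set G)) := Fintype.ofFinite _
  have h2 : Cfsg.Agent.H84.SecondMain 2 M G := fun x hx B hB χ hχ b hb hnot y hy =>
    Cfsg.Agent.S0923.result 2 M hM x hx B hB χ hχ b hb hnot y hy
  have hbD' := Cfsg.Agent.S0908.result 2 M hM _ hb.1 _ hbD
  obtain ⟨ψ₀, rfl⟩ := hb.1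
  have hxC : ∀ c ∈ Subgroup.centralizer ({z} : Set G), z * c = c * z := fun c hc =>
    (Subgroup.mem_centralizer_singleton_iff.mp hc).symm
  have hCx : ∀ g : G, g * z = z * g → g ∈ Subgroup.centralizer ({z} : Set G) := fun g hg =>
    Subgroup.mem_centralizer_singleton_iff.mpr hg
  have hDp : IsPGroup 2 D := Cfsg.Agent.H20.isPGroup_of_isDefectGroup hD
  obtain ⟨k, hk⟩ : ∃ k : ℕ, orderOf z = 2 ^ k := by
    obtain ⟨k, hk⟩ := IsPGroup.iff_orderOf.mp hDp ⟨z, hzD⟩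
    exact ⟨k, by rw [← hk]; exact (Subgroup.orderOf_mk z hzD).symm⟩
  have hDle : D ≤ Subgroup.centralizer ({z} : Set G) := fun d hd =>
    Subgroup.mem_centralizer_singleton_iff.mpr (hzc d hd)
  have hdef : Cfsg.blockDefect 2 (Cfsg.blockOf M
      (ψ₀ : ↥(Subgroup.centralizer ({z} : Set G)) → ℂ)) = Cfsg.blockDefect 2 B := by
    have h1 := Cfsg.Agent.S0908.result 2 M hM B hB D hD
    have h4 : Nat.card (D.subgroupOf (Subgroup.centralizer ({z} : Set G))) = Nat.card D :=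
      Nat.card_congr (Subgroup.subgroupOfEquivOfLe hDle).toEquiv
    rw [h4, h1] at hbD'
    exact (Nat.pow_right_injective (le_refl 2) hbD').symm
  have hA0 : Cfsg.Agent.H84.irrFinset
      {χ : Cfsg.IrrCharacter G | χ ∈ B ∧ Cfsg.blockHeight 2 B (χ : G → ℂ) = 0} =
      (Cfsg.Agent.H84.irrFinset B).filter
        (fun χ : Cfsg.IrrCharacter G => Cfsg.blockHeight 2 B (χ : G → ℂ) = 0) := by
    ext χ
    rw [Cfsg.Agent.H84.mem_irrFinset, Finset.mem_filter, Cfsg.Agent.H84.mem_irrFinset]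
    rfl
  have hA1 : Cfsg.Agent.H84.irrFinset
      {χ : Cfsg.IrrCharacter G | χ ∈ B ∧ 1 ≤ Cfsg.blockHeight 2 B (χ : G → ℂ)} =
      (Cfsg.Agent.H84.irrFinset B).filter
        (fun χ : Cfsg.IrrCharacter G => Cfsg.blockHeight 2 B (χ : G → ℂ) ≠ 0) := by
    ext χ
    rw [Cfsg.Agent.H84.mem_irrFinset, Finset.mem_filter, Cfsg.Agent.H84.mem_irrFinset,
      Set.mem_ofPred_eq, Nat.one_le_iff_ne_zero]
  have hc0 : Nat.card {χ : Cfsg.IrrCharacter G // χ ∈ B ∧
      Cfsg.blockHeight 2 B (χ : G → ℂ) = 0} = ((Cfsg.Agent.H84.irrFinset B).filter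
        (fun χ : Cfsg.IrrCharacter G => Cfsg.blockHeight 2 B (χ : G → ℂ) = 0)).card := by
    rw [← hA0]
    exact (Cfsg.Agent.H84.card_irrFinset _).symm
  have hs1 : (∑ᶠ χ ∈ {χ : Cfsg.IrrCharacter G | χ ∈ B ∧
      1 ≤ Cfsg.blockHeight 2 B (χ : G → ℂ)}, 2 ^ Cfsg.blockHeight 2 B (χ : G → ℂ)) =
      ∑ χ ∈ (Cfsg.Agent.H84.irrFinset B).filter
        (fun χ : Cfsg.IrrCharacter G => Cfsg.blockHeight 2 B (χ : G → ℂ) ≠ 0),
        2 ^ Cfsg.blockHeight 2 B (χ : G → ℂ) := by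
    rw [Cfsg.Agent.H84.finsum_mem_eq_sum_irrFinset, hA1]
  have hcB : Nat.card B = (Cfsg.Agent.H84.irrFinset B).card :=
    (Cfsg.Agent.H84.card_irrFinset B).symm
  have h5 := Finset.card_filter_add_card_filter_not (s := Cfsg.Agent.H84.irrFinset B)
    (fun χ : Cfsg.IrrCharacter G => Cfsg.blockHeight 2 B (χ : G → ℂ) = 0)
  have h6 : 3 * ((Cfsg.Agent.H84.irrFinset B).filter
      (fun χ : Cfsg.IrrCharacter G => ¬ Cfsg.blockHeight 2 B (χ : G → ℂ) = 0)).card ≤
      2 * ∑ χ ∈ (Cfsg.Agent.H84.irrFinset B).filter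
        (fun χ : Cfsg.IrrCharacter G => Cfsg.blockHeight 2 B (χ : G → ℂ) ≠ 0),
        2 ^ Cfsg.blockHeight 2 B (χ : G → ℂ) := by
    calc 3 * ((Cfsg.Agent.H84.irrFinset B).filter
          (fun χ : Cfsg.IrrCharacter G => ¬ Cfsg.blockHeight 2 B (χ : G → ℂ) = 0)).card
        = ∑ χ ∈ (Cfsg.Agent.H84.irrFinset B).filter
          (fun χ : Cfsg.IrrCharacter G => Cfsg.blockHeight 2 B (χ : G → ℂ) ≠ 0), 3 := by
          rw [Finset.sum_const, smul_eq_mul, mul_comm]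
      _ ≤ ∑ χ ∈ (Cfsg.Agent.H84.irrFinset B).filter
          (fun χ : Cfsg.IrrCharacter G => Cfsg.blockHeight 2 B (χ : G → ℂ) ≠ 0),
          2 * 2 ^ Cfsg.blockHeight 2 B (χ : G → ℂ) := by
          apply Finset.sum_le_sum
          intro χ hχ
          rw [Finset.mem_filter] at hχ
          have := Nat.one_lt_two_pow hχ.2
          omega
      _ = _ := by rw [Finset.mul_sum]
  have key := Cfsg.Agent.H20.two_major_bound hM h2 z k hk _ hxC hCx ψ₀ B hb hdef (Or.inl hl)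
  rw [hc0, hs1, hcB]
  refine ⟨?_, key⟩
  omega

end Cfsg.Agent.S4540
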