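import Cfsg.Statements.S4541
import Cfsg.Agent.S0923
import Cfsg.Agent.H84.Contrib5

set_option autoImplicit false
open Cfsg

namespace Cfsg.Agent.S4541

/-- Let B be a 2-block of the finite group G (relative to a maximal ideal M of the algebraic integers containing 2), u a 2-element, and b a block of the centralizer of u inducing B (a subsection (u, b)), of defect q and 2-regular rank l; write s for the integer square root of l and k₀(B) for the number of members of B of height zero. If s is odd then k₀(B) ≤ s·2 ^ q, and otherwise (s + 1)·k₀(B) ≤ l·2 ^ q; in particular k₀(B) ≤ 2 ^ q when l ≤ 3. -/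
theorem result {G : Type*} [Group G] [Finite G] (M : Ideal Cfsg.AlgInt) (hM : Cfsg.IsPModular 2 M) (B : Set (Cfsg.IrrCharacter G)) (hB : Cfsg.IsPBlock M B) (u : G) (hu : ∃ j : ℕ, orderOf u = 2 ^ j) (b : Set (Cfsg.IrrCharacter ↥(Subgroup.centralizer ({u} : Set G)))) (hb : Cfsg.IsInducedBlock M (Subgroup.centralizer ({u} : Set G)) b B) : (Odd (Nat.sqrt (Cfsg.blockRank 2 b)) → Nat.card {χ : Cfsg.IrrCharacter G // χ ∈ B ∧ Cfsg.blockHeight 2 B (χ : G → ℂ) = 0} ≤ Nat.sqrt (Cfsg.blockRank 2 b) * 2 ^ Cfsg.blockDefect 2 b) ∧ (¬ Odd (Nat.sqrt (Cfsg.blockRank 2 b)) → (Nat.sqrt (Cfsg.blockRank 2 b) + 1) * Nat.card {χ : Cfsg.IrrCharacter G // χ ∈ B ∧ Cfsg.blockHeight 2 B (χ : G → ℂ) = 0} ≤ Cfsg.blockRank 2 b * 2 ^ Cfsg.blockDefect 2 b) ∧ (Cfsg.blockRank 2 b ≤ 3 → Nat.card {χ : Cfsg.IrrCharacter G // χ ∈ B ∧ Cfsg.blockHeight 2 B (χ : G → ℂ) = 0} ≤ 2 ^ Cfsg.blockDefect 2 b) := by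
  classical
  haveI : Fact (Nat.Prime 2) := ⟨Nat.prime_two⟩
  letI : Fintype G := Fintype.ofFinite G
  letI : Fintype (Subgroup.centralizer ({u} : Set G)) := Fintype.ofFinite _
  have h2 : Cfsg.Agent.H84.SecondMain 2 M G := fun x hx B hB χ hχ b hb hnot y hy =>
    Cfsg.Agent.S0923.result 2 M hM x hx B hB χ hχ b hb hnot y hy
  obtain ⟨ψ₀, rfl⟩ := hb.1
  have hxC : ∀ c ∈ Subgroup.centralizer ({u} : Set G), u * c = c * u := fun c hc =>
    (Subgroup.mem_centralizer_singleton_iff.mp hc).symm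
  have hCx : ∀ g : G, g * u = u * g → g ∈ Subgroup.centralizer ({u} : Set G) := fun g hg =>
    Subgroup.mem_centralizer_singleton_iff.mpr hg
  have hcard : (Cfsg.Agent.H84.irrFinset
      {χ : Cfsg.IrrCharacter G | χ ∈ B ∧ Cfsg.blockHeight 2 B (χ : G → ℂ) = 0}).card =
      Nat.card {χ : Cfsg.IrrCharacter G // χ ∈ B ∧ Cfsg.blockHeight 2 B (χ : G → ℂ) = 0} :=
    Cfsg.Agent.H84.card_irrFinset _
  have h := Cfsg.Agent.H84.two_block_bound hM h2 u hu _ hxC hCx ψ₀ B hb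
    (Cfsg.Agent.H84.irrFinset
      {χ : Cfsg.IrrCharacter G | χ ∈ B ∧ Cfsg.blockHeight 2 B (χ : G → ℂ) = 0})
    (fun χ hχ => Cfsg.Agent.H84.mem_irrFinset.mp hχ)
  rw [hcard] at h
  exact h

end Cfsg.Agent.S4541
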