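-- Statement S4550 (row 4550).
import Cfsg.Statements.S4550
import Cfsg.Agent.H79.GaloisAct
import Cfsg.Agent.H20.BlockIdem
import Cfsg.Agent.H4.PaQb

set_option autoImplicit false
open Cfsg

namespace Cfsg.Agent.S4550

open Cfsg.Agent.H79
open scoped ComplexConjugate

/-- `k` is coprime to the group order. -/
theorem coprime_card {G : Type*} [Group G] [Finite G] (k : ℕ)
    (hk₁ : ∀ g : G, (∃ j : ℕ, orderOf g = 2 ^ j) → g ^ k = g ^ 3)
    (hk₂ : ∀ g : G, Odd (orderOf g) → g ^ k = g) : k.Coprime (Nat.card G) := by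
  apply Nat.coprime_of_dvd
  intro q hq hqk hqG
  have : Fact q.Prime := ⟨hq⟩
  obtain ⟨g, hg⟩ := exists_prime_orderOf_dvd_card' q hqG
  have hgk : g ^ k = 1 := orderOf_dvd_iff_pow_eq_one.mp (hg ▸ hqk)
  have hg1 : g ≠ 1 := by
    rintro rfl
    rw [orderOf_one] at hg
    exact hq.one_lt.ne hg
  rcases hq.eq_two_or_odd' with rfl | hodd
  · have h1 := hk₁ g ⟨1, by rw [hg, pow_one]⟩
    rw [hgk] at h1
    have h2 : g ^ 2 = 1 := by rw [← hg]; exact pow_orderOf_eq_one g
    have h3 : g ^ 3 = g := by rw [pow_succ, h2, one_mul]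
    rw [h3] at h1
    exact hg1 h1.symm
  · have h1 := hk₂ g (hg ▸ hodd)
    rw [hgk] at h1
    exact hg1 h1.symm

theorem three_pow_modEq (a e : ℕ) (hae : a ≤ e) : 3 ^ (2 ^ e) ≡ 1 [MOD 2 ^ a] := by
  have h3 : (3 : ℕ) ^ Nat.totient (2 ^ a) ≡ 1 [MOD 2 ^ a] :=
    Nat.ModEq.pow_totient (Nat.Coprime.pow_right a (by norm_num))
  have hdvd : Nat.totient (2 ^ a) ∣ 2 ^ e := by
    rcases Nat.eq_zero_or_pos a with rfl | ha
    · simp
    · rw [Nat.totient_prime_pow Nat.prime_two ha]
      simp only [Nat.add_one_sub_one, mul_one]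
      exact pow_dvd_pow 2 (by omega)
  obtain ⟨c, hc⟩ := hdvd
  rw [hc, pow_mul]
  simpa using h3.pow c

/-- The power map `g ↦ g ^ k` has `2`-power order. -/
theorem pow_pow_eq_self {G : Type*} [Group G] [Finite G] (k : ℕ)
    (hk₁ : ∀ g : G, (∃ j : ℕ, orderOf g = 2 ^ j) → g ^ k = g ^ 3)
    (hk₂ : ∀ g : G, Odd (orderOf g) → g ^ k = g) (g : G) :
    g ^ (k ^ (2 ^ Nat.card G)) = g := by
  have hn : orderOf g ≠ 0 := (orderOf_pos g).ne'
  obtain ⟨a, m, hm, hnam⟩ := Nat.exists_eq_two_pow_mul_odd hn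
  have hm0 : m ≠ 0 := by
    rintro rfl
    exact (Nat.not_odd_iff_even.mpr (by decide : Even 0)) hm
  have h2a0 : 2 ^ a ≠ 0 := by positivity
  have ho1 : orderOf (g ^ m) = 2 ^ a := by
    rw [orderOf_pow_of_dvd hm0 (hnam ▸ Dvd.intro_left _ rfl), hnam]
    exact Nat.mul_div_cancel _ (Nat.pos_of_ne_zero hm0)
  have ho2 : orderOf (g ^ (2 ^ a)) = m := by
    rw [orderOf_pow_of_dvd h2a0 (hnam ▸ Dvd.intro _ rfl), hnam]
    exact Nat.mul_div_cancel_left _ (Nat.pos_of_ne_zero h2a0)
  have hk3 : k ≡ 3 [MOD 2 ^ a] := by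
    have := hk₁ (g ^ m) ⟨a, ho1⟩
    rw [pow_eq_pow_iff_modEq, ho1] at this
    exact this
  have hk1 : k ≡ 1 [MOD m] := by
    have := hk₂ (g ^ (2 ^ a)) (ho2 ▸ hm)
    nth_rewrite 2 [← pow_one (g ^ (2 ^ a))] at this
    rw [pow_eq_pow_iff_modEq, ho2] at this
    exact this
  have hae : a ≤ Nat.card G := by
    have h1 : a < 2 ^ a := Nat.lt_two_pow_self
    have h2 : 2 ^ a ≤ orderOf g := by
      rw [hnam]; exact Nat.le_mul_of_pos_right _ (Nat.pos_of_ne_zero hm0)
    have h3 : orderOf g ≤ Nat.card G := orderOf_le_card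
    omega
  have hK2 : k ^ (2 ^ Nat.card G) ≡ 1 [MOD 2 ^ a] :=
    (hk3.pow _).trans (three_pow_modEq a _ hae)
  have hKm : k ^ (2 ^ Nat.card G) ≡ 1 [MOD m] := by
    simpa using hk1.pow (2 ^ Nat.card G)
  have hcop : (2 ^ a).Coprime m := Nat.Coprime.pow_left a (Nat.coprime_two_left.mpr hm)
  have hK : k ^ (2 ^ Nat.card G) ≡ 1 [MOD orderOf g] := by
    rw [hnam]
    exact (Nat.modEq_and_modEq_iff_modEq_mul hcop).mp ⟨hK2, hKm⟩
  have := pow_eq_pow_iff_modEq.mpr hK
  rwa [pow_one] at this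

/-- The number of odd-degree characters in the principal `2`-block of a group of even order is
even (a consequence of Osima's theorem on the block idempotent). -/
theorem even_card_odd_degree {G : Type*} [Group G] [Fintype G] (M : Ideal Cfsg.AlgInt)
    (hM : Cfsg.IsPModular 2 M) (hev : Even (Nat.card G)) [Fintype (Cfsg.IrrCharacter G)]
    [DecidablePred fun χ : Cfsg.IrrCharacter G =>
      χ ∈ Cfsg.principalBlock M G ∧ Odd (Cfsg.charDegree (χ : G → ℂ))] :
    Even (Fintype.card {χ : Cfsg.IrrCharacter G //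
      χ ∈ Cfsg.principalBlock M G ∧ Odd (Cfsg.charDegree (χ : G → ℂ))}) := by
  classical
  have hMp := Cfsg.Agent.H20.isPrime_of_isPModular hM
  have hos := Cfsg.Agent.H20.blockCoeff_memLocalRing hMp (Cfsg.Agent.H4.trivialIrr G) (1 : G)
  have hB : blockOf M ((Cfsg.Agent.H4.trivialIrr G : IrrCharacter G) : G → ℂ) =
      principalBlock M G := rfl
  rw [hB] at hos
  have hdeg : ∀ χ : IrrCharacter G, (χ : G → ℂ) 1 = (charDegree (χ : G → ℂ) : ℂ) := by
    intro χ
    obtain ⟨n, -, hn⟩ := Cfsg.Agent.H4.irr_one_eq_natCast χ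
    simp only [charDegree, hn]
    simp
  -- |G| * blockCoeff = sum of squares of degrees
  have hG0 : (Nat.card G : ℂ) ≠ 0 := by
    have : 0 < Nat.card G := Nat.card_pos
    exact_mod_cast this.ne'
  have hsum : (Nat.card G : ℂ) * blockCoeff (principalBlock M G) 1 =
      ((∑ᶠ χ ∈ principalBlock M G, charDegree (χ : G → ℂ) ^ 2 : ℕ) : ℂ) := by
    simp only [blockCoeff]
    rw [← mul_assoc, mul_inv_cancel₀ hG0, one_mul]
    have hfin : (Set.univ : Set (IrrCharacter G)).Finite := Set.finite_univ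
    rw [finsum_mem_eq_finite_toFinset_sum _ (Set.toFinite _),
      finsum_mem_eq_finite_toFinset_sum _ (Set.toFinite _)]
    push_cast
    refine Finset.sum_congr rfl fun χ _ => ?_
    rw [hdeg χ, Complex.conj_natCast, sq]
  have hGideal : MemLocalIdeal M (Nat.card G : ℂ) :=
    (Cfsg.Agent.H20.memLocalIdeal_natCast_iff hM _).mpr hev.two_dvd
  have hmem : MemLocalIdeal M ((Nat.card G : ℂ) * blockCoeff (principalBlock M G) 1) :=
    Cfsg.Agent.H20.memLocalIdeal_mul_right hMp hGideal hos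
  rw [hsum, Cfsg.Agent.H20.memLocalIdeal_natCast_iff hM] at hmem
  -- parity
  rw [← ZMod.natCast_eq_zero_iff_even]
  have h0 : ((∑ᶠ χ ∈ principalBlock M G, charDegree (χ : G → ℂ) ^ 2 : ℕ) : ZMod 2) = 0 :=
    (ZMod.natCast_eq_zero_iff _ 2).mpr hmem
  rw [← h0, finsum_mem_eq_finite_toFinset_sum _ (Set.toFinite _), Fintype.card_subtype,
    Finset.card_filter]
  push_cast
  rw [← Finset.sum_filter]
  have hfilt : (Set.toFinite (principalBlock M G)).toFinset =
      Finset.univ.filter (fun χ => χ ∈ principalBlock M G) := by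
    ext χ; simp
  rw [hfilt, Finset.sum_filter, Finset.sum_filter]
  refine Finset.sum_congr rfl fun χ _ => ?_
  by_cases h1 : χ ∈ principalBlock M G
  · by_cases h2 : Odd (charDegree (χ : G → ℂ))
    · rw [if_pos ⟨h1, h2⟩, if_pos h1]
      obtain ⟨c, hc⟩ := h2
      rw [hc]
      push_cast
      have h2z : (2 : ZMod 2) = 0 := rfl
      rw [h2z]; ring
    · rw [if_neg (fun h => h2 h.2), if_pos h1]
      obtain ⟨c, hc⟩ := Nat.not_odd_iff_even.mp h2
      rw [hc]
      push_cast
      have h2z : (c : ZMod 2) + c = 0 := by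
        rw [← two_mul]
        have h2z : (2 : ZMod 2) = 0 := rfl
        rw [h2z, zero_mul]
      rw [h2z]; ring
  · rw [if_neg (fun h => h1 h.1), if_neg h1]

/-- Let G be a finite group of even order and M a maximal ideal of the algebraic integers containing 2. Let k be a natural number with g ^ k = g ^ 3 for every 2-element g and g ^ k = g for every element g of odd order (such k exist); an irreducible character χ is unchanged by g ↦ g ^ k exactly when it is fixed by the field automorphism that cubes the 2-power roots of unity and fixes the roots of unity of odd order. Then the number of members χ of the principal 2-block of odd degree with χ (g ^ k) = χ g for all g is even. -/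
theorem result {G : Type*} [Group G] [Finite G] (M : Ideal Cfsg.AlgInt) (hM : Cfsg.IsPModular 2 M) (hev : Even (Nat.card G)) (k : ℕ) (hk₁ : ∀ g : G, (∃ j : ℕ, orderOf g = 2 ^ j) → g ^ k = g ^ 3) (hk₂ : ∀ g : G, Odd (orderOf g) → g ^ k = g) : Even (Nat.card {χ : Cfsg.IrrCharacter G // χ ∈ Cfsg.principalBlock M G ∧ Odd (Cfsg.charDegree (χ : G → ℂ)) ∧ ∀ g : G, (χ : G → ℂ) (g ^ k) = (χ : G → ℂ) g}) := by
  classical
  have : Fintype G := Fintype.ofFinite G
  let _ : Fintype (Cfsg.IrrCharacter G) := Cfsg.Agent.H4.fintypeIrr G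
  have hk := coprime_card k hk₁ hk₂
  let Ω := {χ : Cfsg.IrrCharacter G //
    χ ∈ Cfsg.principalBlock M G ∧ Odd (Cfsg.charDegree (χ : G → ℂ))}
  let f : Function.End Ω := fun x =>
    ⟨irrPow k hk x.1, irrPow_mem_principalBlock M k hk x.1 x.2.1, by
      rw [charDegree_irrPow]; exact x.2.2⟩
  have hfpow : ∀ (j : ℕ) (x : Ω) (g : G),
      (((f ^ j) x).1 : G → ℂ) g = (x.1 : G → ℂ) (g ^ (k ^ j)) := by
    intro j
    induction j with
    | zero => intro x g; rw [pow_zero, pow_zero, pow_one]; rfl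
    | succ j ih =>
      intro x g
      rw [pow_succ]
      change (((f ^ j) (f x)).1 : G → ℂ) g = _
      rw [ih (f x) g]
      change (x.1 : G → ℂ) ((g ^ (k ^ j)) ^ k) = _
      rw [← pow_mul, ← pow_succ]
  have hf : f ^ 2 ^ Nat.card G = 1 := by
    funext x
    apply Subtype.ext
    apply Subtype.ext
    funext g
    rw [hfpow, pow_pow_eq_self k hk₁ hk₂ g]
    rfl
  have hmod := Equiv.Perm.card_fixedPoints_modEq (p := 2) hf
  have hΩ : Even (Fintype.card Ω) := even_card_odd_degree M hM hev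
  have hfix : Nat.card {χ : Cfsg.IrrCharacter G // χ ∈ Cfsg.principalBlock M G ∧
      Odd (Cfsg.charDegree (χ : G → ℂ)) ∧ ∀ g : G, (χ : G → ℂ) (g ^ k) = (χ : G → ℂ) g} =
      Fintype.card (Function.fixedPoints f) := by
    rw [← Nat.card_eq_fintype_card]
    apply Nat.card_congr
    exact
      { toFun := fun x => ⟨⟨x.1, x.2.1, x.2.2.1⟩, by
          apply Subtype.ext
          apply Subtype.ext
          funext g
          exact x.2.2.2 g⟩
        invFun := fun y => ⟨y.1.1, y.1.2.1, y.1.2.2, fun g => by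
          have h1 : f y.1 = y.1 := y.2
          have h2 := congrArg (fun z : Ω => (z.1 : G → ℂ) g) h1
          exact h2⟩
        left_inv := fun x => rfl
        right_inv := fun y => rfl }
  rw [hfix]
  have h2 : Fintype.card (Function.fixedPoints f) % 2 = Fintype.card Ω % 2 := hmod.symm
  rw [Nat.even_iff, h2]
  exact Nat.even_iff.mp hΩ

end Cfsg.Agent.S4550
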