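import Cfsg.Statements.S4558
import Cfsg.Agent.H79.CharValues

set_option autoImplicit false
open Cfsg

namespace Cfsg.Agent.S4558

open Polynomial in
/-- Let χ be a character of the finite group G and g an element of p-power order for the prime p. If χ g = 0, then p divides the degree of χ. -/
theorem result {G : Type*} [Group G] [Finite G] (p : ℕ) [Fact p.Prime] (χ : G → ℂ) (hχ : Cfsg.IsCharacter G χ) (g : G) (hg : ∃ j : ℕ, orderOf g = p ^ j) (h0 : χ g = 0) : p ∣ Cfsg.charDegree χ := by
  obtain ⟨n, ρ, rfl⟩ := hχ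
  have hdeg : Cfsg.charDegree ρ.character = n := by
    simp [Cfsg.charDegree, Representation.char_one]
  rw [hdeg]
  obtain ⟨j, hj⟩ := hg
  have hp : p.Prime := Fact.out
  have hm : 0 < p ^ j := pow_pos hp.pos j
  have hgm : g ^ (p ^ j) = 1 := by rw [← hj]; exact pow_orderOf_eq_one g
  have hζ : IsPrimitiveRoot (Complex.exp (2 * Real.pi * Complex.I / (p ^ j : ℕ))) (p ^ j) :=
    Complex.isPrimitiveRoot_exp _ hm.ne'
  obtain ⟨f, -, hf1, hfk⟩ := Cfsg.Agent.H79.char_pow_eq_eval ρ g (p ^ j) hm hgm _ hζ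
  have h1 := hfk 1
  simp only [pow_one] at h1
  rw [h0] at h1
  rcases Nat.eq_zero_or_pos j with rfl | hjpos
  · -- g = 1
    have hg1 : g = 1 := by simpa using hgm
    rw [hg1, Representation.char_one] at h0
    have : n = 0 := by simpa using h0
    rw [this]; exact dvd_zero p
  · have hdvd : cyclotomic (p ^ j) ℤ ∣ f := by
      rw [cyclotomic_eq_minpoly hζ hm]
      exact minpoly.isIntegrallyClosed_dvd (hζ.isIntegral hm) h1.symm
    obtain ⟨q, hq⟩ := hdvd
    have he : (n : ℤ) = (p : ℤ) * q.eval 1 := by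
      have := congrArg (eval 1) hq
      rw [hf1, eval_mul] at this
      obtain ⟨i, rfl⟩ := Nat.exists_eq_succ_of_ne_zero hjpos.ne'
      rw [eval_one_cyclotomic_prime_pow] at this
      simpa using this
    exact Int.natCast_dvd_natCast.mp ⟨_, he⟩

end Cfsg.Agent.S4558
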