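import Cfsg.Statements.S4560
import Cfsg.Agent.H51.AnChar
import Cfsg.Agent.H51.AnElt

set_option autoImplicit false
open Cfsg

namespace Cfsg.Agent.S4560

/-- For n ≥ 7 the alternating group on n letters has an irreducible character that vanishes at some 2-element and is the restriction of an irreducible character of the symmetric group, and an irreducible character that vanishes at some element of order 3 and is the restriction of an irreducible character of the symmetric group. -/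
theorem result (n : ℕ) (hn : 7 ≤ n) : (∃ χ : Cfsg.IrrCharacter (alternatingGroup (Fin n)), (∃ x : alternatingGroup (Fin n), (∃ j : ℕ, orderOf x = 2 ^ j) ∧ (χ : alternatingGroup (Fin n) → ℂ) x = 0) ∧ ∃ ψ : Cfsg.IrrCharacter (Equiv.Perm (Fin n)), ∀ x : alternatingGroup (Fin n), (ψ : Equiv.Perm (Fin n) → ℂ) x = (χ : alternatingGroup (Fin n) → ℂ) x) ∧ (∃ χ : Cfsg.IrrCharacter (alternatingGroup (Fin n)), (∃ y : alternatingGroup (Fin n), orderOf y = 3 ∧ (χ : alternatingGroup (Fin n) → ℂ) y = 0) ∧ ∃ ψ : Cfsg.IrrCharacter (Equiv.Perm (Fin n)), ∀ x : alternatingGroup (Fin n), (ψ : Equiv.Perm (Fin n) → ℂ) x = (χ : alternatingGroup (Fin n) → ℂ) x) := by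
  classical
  have hΩ : 4 ≤ Nat.card (Fin n) := by rw [Nat.card_fin]; omega
  have h4S : MulAction.IsMultiplyPretransitive (Equiv.Perm (Fin n)) (Fin n) 4 :=
    Equiv.Perm.isMultiplyPretransitive (Fin n) 4
  have h4A : MulAction.IsMultiplyPretransitive (alternatingGroup (Fin n)) (Fin n) 4 := by
    have := alternatingGroup.isMultiplyPretransitive (Fin n)
    exact MulAction.isMultiplyPretransitive_of_le (n := Nat.card (Fin n) - 2)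
      (by rw [Nat.card_fin]; omega) (Nat.sub_le _ _)
  have hfix : ∀ x : alternatingGroup (Fin n),
      Cfsg.Agent.H51.AnCh.fixN (Fin n) x = Cfsg.Agent.H51.AnCh.fixN (Fin n) (x : Equiv.Perm (Fin n)) :=
    fun x => rfl
  have hswp : ∀ x : alternatingGroup (Fin n),
      Cfsg.Agent.H51.AnCh.swpN (Fin n) x = Cfsg.Agent.H51.AnCh.swpN (Fin n) (x : Equiv.Perm (Fin n)) :=
    fun x => rfl
  -- the three evaluation lemmas
  have ev1 : ∀ (σ : Equiv.Perm (Fin n)) (hs : Equiv.Perm.sign σ = 1),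
      Cfsg.Agent.H51.AnCh.fixN (Fin n) σ = 1 →
      (fun g : alternatingGroup (Fin n) => (Cfsg.Agent.H51.AnCh.fixN (Fin n) g : ℂ) - 1)
        ⟨σ, Equiv.Perm.mem_alternatingGroup.2 hs⟩ = 0 := by
    intro σ hs hF
    show (Cfsg.Agent.H51.AnCh.fixN (Fin n)
      (⟨σ, Equiv.Perm.mem_alternatingGroup.2 hs⟩ : alternatingGroup (Fin n)) : ℂ) - 1 = 0
    rw [hfix]
    show (Cfsg.Agent.H51.AnCh.fixN (Fin n) σ : ℂ) - 1 = 0
    rw [hF]
    norm_num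
  have ev2 : ∀ (σ : Equiv.Perm (Fin n)) (hs : Equiv.Perm.sign σ = 1),
      Cfsg.Agent.H51.AnCh.fixN (Fin n) σ = 0 → Cfsg.Agent.H51.AnCh.swpN (Fin n) σ = 0 →
      (fun g : alternatingGroup (Fin n) => ((Cfsg.Agent.H51.AnCh.fixN (Fin n) g : ℂ) ^ 2 -
        3 * Cfsg.Agent.H51.AnCh.fixN (Fin n) g + Cfsg.Agent.H51.AnCh.swpN (Fin n) g) / 2)
        ⟨σ, Equiv.Perm.mem_alternatingGroup.2 hs⟩ = 0 := by
    intro σ hs hF hD
    show ((Cfsg.Agent.H51.AnCh.fixN (Fin n)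
      (⟨σ, Equiv.Perm.mem_alternatingGroup.2 hs⟩ : alternatingGroup (Fin n)) : ℂ) ^ 2 -
      3 * Cfsg.Agent.H51.AnCh.fixN (Fin n)
        (⟨σ, Equiv.Perm.mem_alternatingGroup.2 hs⟩ : alternatingGroup (Fin n)) +
      Cfsg.Agent.H51.AnCh.swpN (Fin n)
        (⟨σ, Equiv.Perm.mem_alternatingGroup.2 hs⟩ : alternatingGroup (Fin n))) / 2 = 0
    rw [hfix, hswp]
    show ((Cfsg.Agent.H51.AnCh.fixN (Fin n) σ : ℂ) ^ 2 -
      3 * Cfsg.Agent.H51.AnCh.fixN (Fin n) σ + Cfsg.Agent.H51.AnCh.swpN (Fin n) σ) / 2 = 0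
    rw [hF, hD]
    norm_num
  have ev3 : ∀ (σ : Equiv.Perm (Fin n)) (hs : Equiv.Perm.sign σ = 1),
      (Cfsg.Agent.H51.AnCh.fixN (Fin n) σ = 1 ∨ Cfsg.Agent.H51.AnCh.fixN (Fin n) σ = 2) →
      Cfsg.Agent.H51.AnCh.swpN (Fin n) σ = 0 →
      (fun g : alternatingGroup (Fin n) => ((Cfsg.Agent.H51.AnCh.fixN (Fin n) g : ℂ) ^ 2 -
        3 * Cfsg.Agent.H51.AnCh.fixN (Fin n) g + 2 - Cfsg.Agent.H51.AnCh.swpN (Fin n) g) / 2)
        ⟨σ, Equiv.Perm.mem_alternatingGroup.2 hs⟩ = 0 := by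
    intro σ hs hF hD
    show ((Cfsg.Agent.H51.AnCh.fixN (Fin n)
      (⟨σ, Equiv.Perm.mem_alternatingGroup.2 hs⟩ : alternatingGroup (Fin n)) : ℂ) ^ 2 -
      3 * Cfsg.Agent.H51.AnCh.fixN (Fin n)
        (⟨σ, Equiv.Perm.mem_alternatingGroup.2 hs⟩ : alternatingGroup (Fin n)) + 2 -
      Cfsg.Agent.H51.AnCh.swpN (Fin n)
        (⟨σ, Equiv.Perm.mem_alternatingGroup.2 hs⟩ : alternatingGroup (Fin n))) / 2 = 0
    rw [hfix, hswp]
    show ((Cfsg.Agent.H51.AnCh.fixN (Fin n) σ : ℂ) ^ 2 -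
      3 * Cfsg.Agent.H51.AnCh.fixN (Fin n) σ + 2 - Cfsg.Agent.H51.AnCh.swpN (Fin n) σ) / 2 = 0
    rw [hD]
    rcases hF with hF | hF <;> rw [hF] <;> norm_num
  constructor
  · -- 2-elements
    rcases Nat.mod_two_eq_zero_or_one n with hpar | hpar
    · obtain ⟨σ, hs, ⟨j, hj⟩, hF, hD⟩ := Cfsg.Agent.H51.AnCh.exists_two_even hn hpar
      have h4 : n % 4 = 0 ∨ n % 4 = 2 := by omega
      rcases h4 with h4 | h4
      · exact ⟨⟨_, Cfsg.Agent.H51.AnCh.irr2 h4A hΩ⟩,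
          ⟨⟨σ, Equiv.Perm.mem_alternatingGroup.2 hs⟩,
            ⟨j, by rw [← Subgroup.orderOf_coe]; exact hj⟩, ev2 σ hs (hF.trans h4) hD⟩,
          ⟨_, Cfsg.Agent.H51.AnCh.irr2 h4S hΩ⟩, fun x => rfl⟩
      · exact ⟨⟨_, Cfsg.Agent.H51.AnCh.irr3 h4A hΩ⟩,
          ⟨⟨σ, Equiv.Perm.mem_alternatingGroup.2 hs⟩,
            ⟨j, by rw [← Subgroup.orderOf_coe]; exact hj⟩, ev3 σ hs (Or.inr (hF.trans h4)) hD⟩,
          ⟨_, Cfsg.Agent.H51.AnCh.irr3 h4S hΩ⟩, fun x => rfl⟩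
    · obtain ⟨σ, hs, ⟨j, hj⟩, hF⟩ := Cfsg.Agent.H51.AnCh.exists_two_odd hn hpar
      exact ⟨⟨_, Cfsg.Agent.H51.AnCh.irr1 h4A hΩ⟩,
        ⟨⟨σ, Equiv.Perm.mem_alternatingGroup.2 hs⟩,
          ⟨j, by rw [← Subgroup.orderOf_coe]; exact hj⟩, ev1 σ hs hF⟩,
        ⟨_, Cfsg.Agent.H51.AnCh.irr1 h4S hΩ⟩, fun x => rfl⟩
  · -- elements of order 3
    obtain ⟨σ, hs, ho, hF, hD⟩ := Cfsg.Agent.H51.AnCh.exists_order3 (n := n) (by omega)
    have h3 : n % 3 = 0 ∨ n % 3 = 1 ∨ n % 3 = 2 := by omega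
    rcases h3 with h3 | h3 | h3
    · exact ⟨⟨_, Cfsg.Agent.H51.AnCh.irr2 h4A hΩ⟩,
        ⟨⟨σ, Equiv.Perm.mem_alternatingGroup.2 hs⟩,
          by rw [← Subgroup.orderOf_coe]; exact ho, ev2 σ hs (hF.trans h3) hD⟩,
        ⟨_, Cfsg.Agent.H51.AnCh.irr2 h4S hΩ⟩, fun x => rfl⟩
    · exact ⟨⟨_, Cfsg.Agent.H51.AnCh.irr3 h4A hΩ⟩,
        ⟨⟨σ, Equiv.Perm.mem_alternatingGroup.2 hs⟩,
          by rw [← Subgroup.orderOf_coe]; exact ho, ev3 σ hs (Or.inl (hF.trans h3)) hD⟩,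
        ⟨_, Cfsg.Agent.H51.AnCh.irr3 h4S hΩ⟩, fun x => rfl⟩
    · exact ⟨⟨_, Cfsg.Agent.H51.AnCh.irr3 h4A hΩ⟩,
        ⟨⟨σ, Equiv.Perm.mem_alternatingGroup.2 hs⟩,
          by rw [← Subgroup.orderOf_coe]; exact ho, ev3 σ hs (Or.inr (hF.trans h3)) hD⟩,
        ⟨_, Cfsg.Agent.H51.AnCh.irr3 h4S hΩ⟩, fun x => rfl⟩

end Cfsg.Agent.S4560
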