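-- Statement S4566 (row 4566).
import Cfsg.Statements.S4566
import Cfsg.Agent.H79.Schur

set_option autoImplicit false
open Cfsg

namespace Cfsg.Agent.S4566

open scoped ComplexConjugate in
/-- Let N be a central subgroup of the finite group G, ψ a faithful irreducible (hence degree-one) character of N, and χ an irreducible character of G whose restriction to N contains ψ. If g ∈ G and some x ∈ G has commutator x⁻¹ g⁻¹ x g in N but different from 1, then χ g = 0. -/
theorem result {G : Type*} [Group G] [Fintype G] (N : Subgroup G) [Fintype N] (hN : N ≤ Subgroup.center G) (ψ : Cfsg.IrrCharacter ↥N) (hfaith : ∀ n : ↥N, (ψ : ↥N → ℂ) n = (ψ : ↥N → ℂ) 1 → n = 1) (χ : Cfsg.IrrCharacter G) (hover : Cfsg.classInner (fun n : ↥N => (χ : G → ℂ) n) (ψ : ↥N → ℂ) ≠ 0) (g x : G) (hcomm : x⁻¹ * g⁻¹ * x * g ∈ N) (hne : x⁻¹ * g⁻¹ * x * g ≠ 1) : (χ : G → ℂ) g = 0 := by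
  obtain ⟨χ, n, ρ, hρ, rfl⟩ := χ
  obtain ⟨ψ, k, τ, hτ, rfl⟩ := ψ
  simp only at hfaith hover ⊢
  have : ρ.IsIrreducible := hρ
  have : τ.IsIrreducible := hτ
  have hNcomm : ∀ a b : N, a * b = b * a := by
    intro a b
    apply Subtype.ext
    have := Subgroup.mem_center_iff.mp (hN a.2) b
    simpa using this.symm
  have : IsMulCommutative N := ⟨⟨hNcomm⟩⟩
  have hk : Module.finrank ℂ (Fin k → ℂ) = 1 :=
    Representation.IsIrreducible.finrank_eq_one_of_isMulCommutative τ
  obtain ⟨lam, -, hlam1, hlammul, hlamchar⟩ := Cfsg.Agent.H79.exists_central_scalar_fun ρ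
  obtain ⟨mu, -, hmu1, hmumul, hmuchar⟩ := Cfsg.Agent.H79.exists_central_scalar_fun τ
  have hcenN : ∀ z : N, z ∈ Subgroup.center N := fun z =>
    Subgroup.mem_center_iff.mpr fun w => hNcomm w z
  -- ψ = mu on N
  have hψ : ∀ z : N, τ.character z = mu z := by
    intro z
    have := hmuchar z (hcenN z) 1
    rw [mul_one, Representation.char_one, hk] at this
    simpa using this
  -- χ = n * lam on N
  have hχ : ∀ z : N, ρ.character (z : G) = lam z * ρ.character 1 := by
    intro z
    have := hlamchar z (hN z.2) 1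
    rwa [mul_one] at this
  have hχ1 : ρ.character 1 ≠ 0 := by
    intro h0
    apply hover
    simp only [Cfsg.classInner]
    have : ∀ z : N, ρ.character (z : G) * conj (τ.character z) = 0 := by
      intro z; rw [hχ z, h0]; simp
    simp [this]
  -- lam = mu on N
  have hlm : (fun z : N => lam z) = fun z : N => mu z := by
    apply Cfsg.Agent.H79.eq_of_sum_mul_conj_ne_zero
    · intro a b
      exact hlammul a (hN a.2) b (hN b.2)
    · exact hmu1
    · intro a b
      exact hmumul a (hcenN a) b (hcenN b)
    · intro hS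
      apply hover
      simp only [Cfsg.classInner]
      have : ∑ z : N, ρ.character (z : G) * conj (τ.character z) =
          ρ.character 1 * ∑ z : N, lam z * conj (mu z) := by
        rw [Finset.mul_sum]
        refine Finset.sum_congr rfl fun z _ => ?_
        rw [hχ z, hψ z]; ring
      rw [this, hS]; simp
  -- now the conjugation argument
  set z : G := x⁻¹ * g⁻¹ * x * g with hz
  have hg : g = z * (x⁻¹ * g * x) := by
    rw [(Subgroup.mem_center_iff.mp (hN hcomm) (x⁻¹ * g * x)).symm, hz]; group
  have h1 : ρ.character g = lam z * ρ.character g := by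
    conv_lhs => rw [hg]
    rw [hlamchar z (hN hcomm)]
    congr 1
    have := Representation.char_conj ρ g x⁻¹
    rwa [inv_inv] at this
  have hlz : lam z ≠ 1 := by
    intro h
    have h2 : mu (⟨z, hcomm⟩ : N) = 1 := by
      have := congrFun hlm ⟨z, hcomm⟩
      simp only at this
      rw [← this, h]
    have h3 := hfaith ⟨z, hcomm⟩ (by rw [hψ, hψ, h2, hmu1])
    apply hne
    have := congrArg Subtype.val h3
    simpa using this
  have : (1 - lam z) * ρ.character g = 0 := by
    rw [sub_mul, one_mul, ← h1, sub_self]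
  rcases mul_eq_zero.mp this with h | h
  · exact absurd (sub_eq_zero.mp h).symm hlz
  · exact h

end Cfsg.Agent.S4566
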