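-- Statement S4567 (row 4567).
import Cfsg.Statements.S4567
import Cfsg.Agent.H79.CentralOver
import Cfsg.Agent.H79.SpecialClasses
import Cfsg.Agent.S4566

set_option autoImplicit false
open Cfsg

namespace Cfsg.Agent.S4567

open scoped ComplexConjugate
open Cfsg.Agent.H79

/-- The twisted second orthogonality relation: the sum of `|χ(g)|²` over the irreducible
characters lying over `ψ` is `|C_G(g)| / |N|` for special `g` and `0` otherwise. -/
theorem sum_over_sq {G : Type*} [Group G] [Fintype G] (N : Subgroup G) [N.Normal] [Fintype N]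
    (hN : N ≤ Subgroup.center G) (ψ : Cfsg.IrrCharacter ↥N)
    (hfaith : ∀ n : ↥N, (ψ : ↥N → ℂ) n = (ψ : ↥N → ℂ) 1 → n = 1)
    [Fintype (Cfsg.IrrCharacter G)] [DecidablePred (IsSpecialMod N)]
    [DecidablePred fun χ : Cfsg.IrrCharacter G =>
      Cfsg.classInner (fun n : ↥N => (χ : G → ℂ) n) (ψ : ↥N → ℂ) ≠ 0] (g : G) :
    (Nat.card N : ℂ) * ∑ χ : Cfsg.IrrCharacter G,
        (if Cfsg.classInner (fun n : ↥N => (χ : G → ℂ) n) (ψ : ↥N → ℂ) ≠ 0 then
          (χ : G → ℂ) g * conj ((χ : G → ℂ) g) else 0) =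
      if IsSpecialMod N g then (Nat.card (Subgroup.centralizer ({g} : Set G)) : ℂ) else 0 := by
  classical
  by_cases hg : IsSpecialMod N g
  · rw [if_pos hg]
    obtain ⟨hψ1, -⟩ := irr_mul_of_comm (comm_of_le_center N hN) ψ
    -- column orthogonality twisted by ψ
    have hcol : ∀ z : N, ∑ χ : Cfsg.IrrCharacter G,
        (χ : G → ℂ) g * conj ((χ : G → ℂ) ((z : G) * g)) =
        (Nat.card {c : G // c * g * c⁻¹ = (z : G) * g} : ℂ) := by
      intro z
      rw [← Cfsg.Agent.H4.column_orthogonality g ((z : G) * g)]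
      exact (finsum_eq_sum_of_fintype _).symm
    have hfib : ∀ z : N, (Nat.card {c : G // c * g * c⁻¹ = (z : G) * g} : ℂ) =
        if z = 1 then (Nat.card (Subgroup.centralizer ({g} : Set G)) : ℂ) else 0 := by
      intro z
      split_ifs with hz
      · subst hz
        have h1 : ((1 : N) : G) * g = 1 * g * 1⁻¹ := by simp
        rw [h1, card_conj_to g 1]
      · have : IsEmpty {c : G // c * g * c⁻¹ = (z : G) * g} := by
          constructor
          rintro ⟨c, hc⟩
          apply hz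
          have hzc : ∀ y : G, y * (z : G)⁻¹ = (z : G)⁻¹ * y :=
            Subgroup.mem_center_iff.mp (hN (N.inv_mem z.2))
          have h2 : (c⁻¹)⁻¹ * g⁻¹ * c⁻¹ * g = (z : G)⁻¹ := by
            calc (c⁻¹)⁻¹ * g⁻¹ * c⁻¹ * g = (c * g * c⁻¹)⁻¹ * g := by group
              _ = ((z : G) * g)⁻¹ * g := by rw [hc]
              _ = g⁻¹ * (z : G)⁻¹ * g := by group
              _ = (z : G)⁻¹ * g⁻¹ * g := by rw [hzc g⁻¹]
              _ = (z : G)⁻¹ := by group
          have h3 : (c⁻¹)⁻¹ * g⁻¹ * c⁻¹ * g ∈ N := by rw [h2]; exact N.inv_mem z.2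
          have h4 := hg c⁻¹ h3
          have h5 : c * g * c⁻¹ = g := by
            calc c * g * c⁻¹ = c * (g * c⁻¹) := by group
              _ = c * (c⁻¹ * g) := by rw [h4]
              _ = g := by group
          rw [h5] at hc
          have h6 : (z : G) = 1 := by
            have := congrArg (· * g⁻¹) hc
            simpa using this.symm
          exact Subtype.ext h6
        rw [Nat.card_of_isEmpty, Nat.cast_zero]
    have htw : ∀ χ : Cfsg.IrrCharacter G,
        ∑ z : N, (ψ : ↥N → ℂ) z * conj ((χ : G → ℂ) ((z : G) * g)) =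
        if Cfsg.classInner (fun n : ↥N => (χ : G → ℂ) n) (ψ : ↥N → ℂ) ≠ 0 then
          (Nat.card N : ℂ) * conj ((χ : G → ℂ) g) else 0 := by
      intro χ
      rcases sum_twist N hN ψ χ with ⟨h1, -, h3⟩ | ⟨h1, h3⟩
      · rw [if_pos h1, h3 g]
      · rw [if_neg (not_not.mpr h1), h3 g]
    have hA : ∑ z : N, (ψ : ↥N → ℂ) z * ∑ χ : Cfsg.IrrCharacter G,
        (χ : G → ℂ) g * conj ((χ : G → ℂ) ((z : G) * g)) =
        (Nat.card (Subgroup.centralizer ({g} : Set G)) : ℂ) := by
      rw [Finset.sum_congr rfl (fun z _ => by rw [hcol z, hfib z])]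
      simp [hψ1]
    rw [← hA, Finset.mul_sum]
    simp_rw [Finset.mul_sum]
    rw [Finset.sum_comm]
    refine Finset.sum_congr rfl fun χ _ => ?_
    have : ∑ z : N, (ψ : ↥N → ℂ) z * ((χ : G → ℂ) g * conj ((χ : G → ℂ) ((z : G) * g))) =
        (χ : G → ℂ) g * ∑ z : N, (ψ : ↥N → ℂ) z * conj ((χ : G → ℂ) ((z : G) * g)) := by
      rw [Finset.mul_sum]
      exact Finset.sum_congr rfl fun z _ => by ring
    rw [this, htw χ]
    split_ifs <;> ring
  · rw [if_neg hg]
    have hg' : ∃ x : G, x⁻¹ * g⁻¹ * x * g ∈ N ∧ x * g ≠ g * x := by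
      by_contra h
      push Not at h
      exact hg h
    obtain ⟨x, hx, hxg⟩ := hg'
    have hne : x⁻¹ * g⁻¹ * x * g ≠ 1 := by
      intro h1
      apply hxg
      calc x * g = g * x * (x⁻¹ * g⁻¹ * x * g) := by group
        _ = g * x := by rw [h1, mul_one]
    have hzero : ∀ χ : Cfsg.IrrCharacter G,
        (if Cfsg.classInner (fun n : ↥N => (χ : G → ℂ) n) (ψ : ↥N → ℂ) ≠ 0 then
          (χ : G → ℂ) g * conj ((χ : G → ℂ) g) else 0) = 0 := by
      intro χ
      split_ifs with hover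
      · rw [Cfsg.Agent.S4566.result N hN ψ hfaith χ hover g x hx hne, zero_mul]
      · rfl
    rw [Finset.sum_congr rfl (fun χ _ => hzero χ), Finset.sum_const_zero, mul_zero]

/-- Let N be a central subgroup of the finite group G and ψ a faithful irreducible (hence degree-one) character of N. Call a coset g N special when every x ∈ G whose commutator x⁻¹ g⁻¹ x g lies in N actually commutes with g (this depends only on the coset). Then the number of irreducible characters of G whose restriction to N contains ψ equals the number of conjugacy classes of G/N consisting of special cosets. -/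
theorem result {G : Type*} [Group G] [Fintype G] (N : Subgroup G) [N.Normal] [Fintype N] (hN : N ≤ Subgroup.center G) (ψ : Cfsg.IrrCharacter ↥N) (hfaith : ∀ n : ↥N, (ψ : ↥N → ℂ) n = (ψ : ↥N → ℂ) 1 → n = 1) : Nat.card {χ : Cfsg.IrrCharacter G // Cfsg.classInner (fun n : ↥N => (χ : G → ℂ) n) (ψ : ↥N → ℂ) ≠ 0} = Nat.card {C : ConjClasses (G ⧸ N) // ∃ g : G, ConjClasses.mk (g : G ⧸ N) = C ∧ ∀ x : G, x⁻¹ * g⁻¹ * x * g ∈ N → x * g = g * x} := by
  classical
  let _ : Fintype (Cfsg.IrrCharacter G) := Cfsg.Agent.H4.fintypeIrr G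
  have hcount := sum_card_centralizer_special N hN
  set K : ℕ := Nat.card {C : ConjClasses (G ⧸ N) //
    ∃ g : G, ConjClasses.mk (g : G ⧸ N) = C ∧ IsSpecialMod N g} with hK
  change Nat.card {χ : Cfsg.IrrCharacter G //
    Cfsg.classInner (fun n : ↥N => (χ : G → ℂ) n) (ψ : ↥N → ℂ) ≠ 0} = K
  set X : ℕ := Nat.card {χ : Cfsg.IrrCharacter G //
    Cfsg.classInner (fun n : ↥N => (χ : G → ℂ) n) (ψ : ↥N → ℂ) ≠ 0} with hX
  have hGN : Nat.card G = Nat.card (G ⧸ N) * Nat.card N :=
    Subgroup.card_eq_card_quotient_mul_card_subgroup N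
  have hNpos : 0 < Nat.card N := Nat.card_pos
  have hQpos : 0 < Nat.card (G ⧸ N) := Nat.card_pos
  have hGpos : 0 < Nat.card G := Nat.card_pos
  have hG0 : (Nat.card G : ℂ) ≠ 0 := by exact_mod_cast hGpos.ne'
  -- |X| as a sum of norms
  have hXsum : (X : ℂ) = ∑ χ : Cfsg.IrrCharacter G,
      (if Cfsg.classInner (fun n : ↥N => (χ : G → ℂ) n) (ψ : ↥N → ℂ) ≠ 0 then
        Cfsg.classInner (χ : G → ℂ) (χ : G → ℂ) else 0) := by
    rw [hX, Nat.card_eq_fintype_card, Fintype.card_subtype, Finset.card_filter]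
    push_cast
    refine Finset.sum_congr rfl fun χ _ => ?_
    split_ifs
    · exact (Cfsg.Agent.H4.irr_inner_self χ).symm
    · rfl
  have hmain : (X : ℂ) * (Nat.card G : ℂ) * (Nat.card N : ℂ) =
      ∑ g : G, (if IsSpecialMod N g then
        (Nat.card (Subgroup.centralizer ({g} : Set G)) : ℂ) else 0) := by
    rw [Finset.sum_congr rfl (fun g _ => (sum_over_sq N hN ψ hfaith g).symm), ← Finset.mul_sum,
      Finset.sum_comm, hXsum]
    have : ∀ χ : Cfsg.IrrCharacter G,
        (if Cfsg.classInner (fun n : ↥N => (χ : G → ℂ) n) (ψ : ↥N → ℂ) ≠ 0 then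
          Cfsg.classInner (χ : G → ℂ) (χ : G → ℂ) else 0) =
        (Nat.card G : ℂ)⁻¹ * ∑ g : G,
          (if Cfsg.classInner (fun n : ↥N => (χ : G → ℂ) n) (ψ : ↥N → ℂ) ≠ 0 then
            (χ : G → ℂ) g * conj ((χ : G → ℂ) g) else 0) := by
      intro χ
      split_ifs
      · rfl
      · simp
    rw [Finset.sum_congr rfl (fun χ _ => this χ), ← Finset.mul_sum]
    field_simp
  have hcast : (∑ g : G, (if IsSpecialMod N g then
      (Nat.card (Subgroup.centralizer ({g} : Set G)) : ℂ) else 0)) =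
      ((∑ g : G, (if IsSpecialMod N g then
        Nat.card (Subgroup.centralizer ({g} : Set G)) else 0) : ℕ) : ℂ) := by
    push_cast
    refine Finset.sum_congr rfl fun g _ => ?_
    split_ifs <;> simp
  rw [hcast, hcount, hGN] at hmain
  have hfin : (X : ℂ) = (K : ℂ) := by
    have hN0 : (Nat.card N : ℂ) ≠ 0 := by exact_mod_cast hNpos.ne'
    have hQ0 : (Nat.card (G ⧸ N) : ℂ) ≠ 0 := by exact_mod_cast hQpos.ne'
    push_cast at hmain
    have h2 : (X : ℂ) * ((Nat.card (G ⧸ N) : ℂ) * (Nat.card N : ℂ) * (Nat.card N : ℂ)) =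
        (K : ℂ) * ((Nat.card (G ⧸ N) : ℂ) * (Nat.card N : ℂ) * (Nat.card N : ℂ)) := by
      linear_combination hmain
    exact mul_right_cancel₀ (mul_ne_zero (mul_ne_zero hQ0 hN0) hN0) h2
  exact_mod_cast hfin

end Cfsg.Agent.S4567
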