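-- Statement S4574 (row 4574).
import Cfsg.Statements.S4574
import Cfsg.Agent.H79.CharBasic
import Cfsg.Agent.H79.Schur

set_option autoImplicit false
open Cfsg

namespace Cfsg.Agent.S4574

/-- Let χ be an irreducible character of the finite group G, of degree d, and let Z(χ) be the set of elements g with |χ g| = d (the centre of χ). Then χ vanishes on at least (d ^ 2 - 1) · |Z(χ)| elements of G, with equality when every value |χ g| is 0, 1 or d. -/
theorem result {G : Type*} [Group G] [Fintype G] [DecidableEq G] (χ : G → ℂ) (hχ : Cfsg.IsIrrCharacter G χ) : (Cfsg.charDegree χ ^ 2 - 1) * (Finset.univ.filter (fun g : G => ‖χ g‖ = (Cfsg.charDegree χ : ℝ))).card ≤ (Finset.univ.filter (fun g : G => χ g = 0)).card ∧ ((∀ g : G, ‖χ g‖ = 0 ∨ ‖χ g‖ = 1 ∨ ‖χ g‖ = (Cfsg.charDegree χ : ℝ)) → (Cfsg.charDegree χ ^ 2 - 1) * (Finset.univ.filter (fun g : G => ‖χ g‖ = (Cfsg.charDegree χ : ℝ))).card = (Finset.univ.filter (fun g : G => χ g = 0)).card) := by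
  classical
  obtain ⟨m, ρ, hρ, rfl⟩ := hχ
  have : ρ.IsIrreducible := hρ
  have hdeg : Cfsg.charDegree ρ.character = m := by
    simp [Cfsg.charDegree, Representation.char_one]
  rw [hdeg]
  have hm : 1 ≤ m := by
    have := Cfsg.Agent.H79.nontrivial_of_isIrreducible ρ
    have h := Module.finrank_pos (R := ℂ) (M := Fin m → ℂ)
    have h' : 0 < m := by simpa using h
    exact h'
  set n := Fintype.card G with hn
  have hnpos : 0 < n := Fintype.card_pos
  set I := (Finset.range n).filter (fun i => i.Coprime n) with hI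
  have hIpos : 0 < I.card := by
    rw [Finset.card_pos]
    by_cases h1 : n = 1
    · exact ⟨0, by rw [hI, Finset.mem_filter, Finset.mem_range, h1]; simp⟩
    · exact ⟨1, by
        rw [hI, Finset.mem_filter, Finset.mem_range]
        exact ⟨by omega, Nat.coprime_one_left n⟩⟩
  set a : G → ℝ := fun g => ‖ρ.character g‖ ^ 2 with ha
  set c : G → ℝ := fun g => if ‖ρ.character g‖ = (m : ℝ) then (m : ℝ) ^ 2
    else if ρ.character g = 0 then 0 else 1 with hc
  set Z := Finset.univ.filter (fun g : G => ‖ρ.character g‖ = (m : ℝ)) with hZ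
  set W := Finset.univ.filter (fun g : G => ρ.character g = 0) with hW
  have hA : ∑ g : G, a g = (n : ℝ) := Cfsg.Agent.H79.sum_norm_sq_char_eq_card ρ
  -- value of the sum of c
  have hcsum : ∑ g : G, c g = ((m : ℝ) ^ 2 - 1) * Z.card - W.card + n := by
    have hcg : ∀ g : G, c g = ((m : ℝ) ^ 2 - 1) * (if ‖ρ.character g‖ = (m : ℝ) then 1 else 0)
        - (if ρ.character g = 0 then 1 else 0) + 1 := by
      intro g
      simp only [hc]
      by_cases h1 : ‖ρ.character g‖ = (m : ℝ)
      · have h2 : ρ.character g ≠ 0 := by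
          intro h0
          rw [h0, norm_zero] at h1
          have : (m : ℝ) = 0 := h1.symm
          have : m = 0 := by exact_mod_cast this
          omega
        rw [if_pos h1, if_pos h1, if_neg h2]; ring
      · by_cases h2 : ρ.character g = 0
        · rw [if_neg h1, if_neg h1, if_pos h2, if_pos h2]; ring
        · rw [if_neg h1, if_neg h1, if_neg h2, if_neg h2]; ring
    rw [Finset.sum_congr rfl fun g _ => hcg g, Finset.sum_add_distrib, Finset.sum_sub_distrib,
      ← Finset.mul_sum, Finset.sum_boole, Finset.sum_boole, Finset.sum_const, Finset.card_univ,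
      nsmul_eq_mul, mul_one]
  -- averaging over the exponents coprime to n
  have hB : ∀ i ∈ I, ∑ g : G, a (g ^ i) = ∑ g : G, a g := by
    intro i hi
    rw [hI, Finset.mem_filter] at hi
    have hcop : (Nat.card G).Coprime i := by
      rw [Nat.card_eq_fintype_card]; exact hi.2.symm
    exact Fintype.sum_equiv (powCoprime hcop) _ _ (fun g => rfl)
  have hC : ∀ g : G, (I.card : ℝ) * c g ≤ ∑ i ∈ I, a (g ^ i) := by
    intro g
    simp only [hc]
    by_cases h1 : ‖ρ.character g‖ = (m : ℝ)
    · rw [if_pos h1]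
      have h2 : ∀ i ∈ I, a (g ^ i) = (m : ℝ) ^ 2 := by
        intro i hi
        rw [hI, Finset.mem_filter] at hi
        have := Cfsg.Agent.H79.norm_sq_char_pow_of_coprime ρ g i hi.2 ((m : ℤ) ^ 2)
          (by rw [h1]; push_cast; ring)
        simp only [ha]
        rw [this]; push_cast; ring
      rw [Finset.sum_congr rfl h2, Finset.sum_const, nsmul_eq_mul]
    · rw [if_neg h1]
      by_cases h2 : ρ.character g = 0
      · rw [if_pos h2, mul_zero]
        exact Finset.sum_nonneg fun i _ => by positivity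
      · rw [if_neg h2, mul_one]
        exact Cfsg.Agent.H79.card_le_sum_norm_sq_char_pow ρ g h2
  have hmain : ∑ g : G, c g ≤ (n : ℝ) := by
    have h1 : ∑ g : G, (I.card : ℝ) * c g ≤ ∑ g : G, ∑ i ∈ I, a (g ^ i) :=
      Finset.sum_le_sum fun g _ => hC g
    rw [Finset.sum_comm, Finset.sum_congr rfl hB, Finset.sum_const, nsmul_eq_mul, hA,
      ← Finset.mul_sum] at h1
    have hIpos' : (0 : ℝ) < I.card := by exact_mod_cast hIpos
    exact le_of_mul_le_mul_left h1 hIpos'
  have hmsq : 1 ≤ m ^ 2 := Nat.one_le_pow _ _ hm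
  constructor
  · rw [hcsum] at hmain
    have h2 : ((m : ℝ) ^ 2 - 1) * Z.card ≤ W.card := by linarith
    have h3 : (((m ^ 2 - 1) * Z.card : ℕ) : ℝ) ≤ ((W.card : ℕ) : ℝ) := by
      push_cast [Nat.cast_sub hmsq]
      exact h2
    exact_mod_cast h3
  · intro hall
    have hac : ∀ g : G, a g = c g := by
      intro g
      simp only [ha, hc]
      by_cases h1 : ‖ρ.character g‖ = (m : ℝ)
      · rw [if_pos h1, h1]
      · rw [if_neg h1]
        by_cases h2 : ρ.character g = 0
        · rw [if_pos h2, h2]; simp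
        · rw [if_neg h2]
          rcases hall g with h | h | h
          · exact absurd (norm_eq_zero.mp h) h2
          · rw [h]; norm_num
          · exact absurd h h1
    have h1 : ∑ g : G, c g = (n : ℝ) := by
      rw [← hA]; exact Finset.sum_congr rfl fun g _ => (hac g).symm
    rw [hcsum] at h1
    have h2 : ((m : ℝ) ^ 2 - 1) * Z.card = W.card := by linarith
    have h3 : (((m ^ 2 - 1) * Z.card : ℕ) : ℝ) = ((W.card : ℕ) : ℝ) := by
      push_cast [Nat.cast_sub hmsq]
      exact h2
    exact_mod_cast h3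

end Cfsg.Agent.S4574
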