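-- Statement S4582 (row 4582).
import Cfsg.Statements.S4582
import Cfsg.Agent.H79.TransferLemma

set_option autoImplicit false
open Cfsg

namespace Cfsg.Agent.S4582

open scoped commutatorElement in
/-- Let N be a normal subgroup of the finite group G, P a Sylow 2-subgroup of G and Q = P ∩ N. Suppose that P/QP' and Q/Q' are elementary abelian (every square of an element of P lies in the subgroup generated by Q and the derived subgroup of P, and every square of an element of Q lies in the derived subgroup of Q), and that the commutator factor group N/N' has odd order. Then P/P' is elementary abelian. -/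
theorem result {G : Type*} [Group G] [Finite G] (N : Subgroup G) [N.Normal] (P : Sylow 2 G)
    (hP : ∀ x ∈ (P : Subgroup G), x ^ 2 ∈ ((P : Subgroup G) ⊓ N) ⊔ ⁅(P : Subgroup G), (P : Subgroup G)⁆)
    (hQ : ∀ x ∈ (P : Subgroup G) ⊓ N, x ^ 2 ∈ ⁅(P : Subgroup G) ⊓ N, (P : Subgroup G) ⊓ N⁆)
    (hodd : Odd (Nat.card (Abelianization N))) :
    ∀ x ∈ (P : Subgroup G), x ^ 2 ∈ ⁅(P : Subgroup G), (P : Subgroup G)⁆ := by
  classical
  intro x hx
  have : Fact (Nat.Prime 2) := ⟨Nat.prime_two⟩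
  set Pg : Subgroup G := (P : Subgroup G) with hPg
  set K : Subgroup G := Pg ⊔ N with hK
  have hPK : Pg ≤ K := le_sup_left
  have hNK : N ≤ K := le_sup_right
  let H : Subgroup K := Pg.subgroupOf K
  let N' : Subgroup K := N.subgroupOf K
  let e : H ≃* Pg := Subgroup.subgroupOfEquivOfLe hPK
  let ϕ : H →* Abelianization Pg := Abelianization.of.comp e.toMonoidHom
  let V : K →* Abelianization Pg := MonoidHom.transfer ϕ
  have hHN : H ⊔ N' = ⊤ := by
    rw [← Subgroup.subgroupOf_sup hPK hNK, Subgroup.subgroupOf_self]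
  -- membership in the commutator subgroup, via the abelianization
  have hcomm : ∀ y : Pg, (y : G) ∈ ⁅Pg, Pg⁆ → Abelianization.of y = 1 := by
    intro y hy
    rw [← Subgroup.map_subtype_commutator] at hy
    obtain ⟨w, hw, hwy⟩ := hy
    have : w = y := Subtype.ext hwy
    rw [← this, ← MonoidHom.mem_ker, Abelianization.ker_of]
    exact hw
  have hcomm' : ∀ y : Pg, Abelianization.of y = 1 → (y : G) ∈ ⁅Pg, Pg⁆ := by
    intro y hy
    rw [← MonoidHom.mem_ker, Abelianization.ker_of] at hy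
    rw [← Subgroup.map_subtype_commutator]
    exact ⟨y, hy, rfl⟩
  -- every element of the abelianization of P has 2-power order
  have h2pow : ∀ t : Abelianization Pg, ∃ a : ℕ, t ^ 2 ^ a = 1 := by
    intro t
    obtain ⟨y, rfl⟩ := QuotientGroup.mk_surjective t
    obtain ⟨a, ha⟩ := P.isPGroup' y
    refine ⟨a, ?_⟩
    have : (Abelianization.of y) ^ 2 ^ a = 1 := by rw [← map_pow, ha, map_one]
    exact this
  -- an element killed by an odd power is trivial
  have hoddkill : ∀ (t : Abelianization Pg) (m : ℕ), Odd m → t ^ m = 1 → t = 1 := by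
    intro t m hm ht
    obtain ⟨a, ha⟩ := h2pow t
    have h1 : orderOf t ∣ m := orderOf_dvd_of_pow_eq_one ht
    have h2 : orderOf t ∣ 2 ^ a := orderOf_dvd_of_pow_eq_one ha
    have hcop : Nat.Coprime m (2 ^ a) := (Nat.Coprime.pow_right a hm.coprime_two_right)
    have : orderOf t ∣ 1 := by
      have := Nat.dvd_gcd h1 h2
      rwa [hcop.gcd_eq_one] at this
    exact orderOf_eq_one_iff.mp (Nat.dvd_one.mp this)
  -- the transfer kills N
  have hVN : ∀ n : G, ∀ hn : n ∈ N, V ⟨n, hNK hn⟩ = 1 := by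
    intro n hn
    let f : N →* Abelianization Pg := V.comp (Subgroup.inclusion hNK)
    have hf : f ⟨n, hn⟩ = Abelianization.lift f (Abelianization.of ⟨n, hn⟩) := rfl
    have : V ⟨n, hNK hn⟩ = f ⟨n, hn⟩ := rfl
    rw [this, hf]
    apply hoddkill _ _ hodd
    rw [← map_pow, pow_card_eq_one', map_one]
  -- the transfer kills squares of elements of P
  have hle : (Pg ⊓ N) ⊔ ⁅Pg, Pg⁆ ≤ V.ker.map K.subtype := by
    apply sup_le
    · intro y hy
      exact ⟨⟨y, hNK hy.2⟩, MonoidHom.mem_ker.mpr (hVN y hy.2), rfl⟩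
    · rw [Subgroup.commutator_le]
      intro a ha b hb
      refine ⟨⁅(⟨a, hPK ha⟩ : K), ⟨b, hPK hb⟩⁆, ?_, rfl⟩
      rw [SetLike.mem_coe, MonoidHom.mem_ker, map_commutatorElement]
      exact commutatorElement_eq_one_iff_mul_comm.mpr (mul_comm _ _)
  have hVsq : V (⟨x, hPK hx⟩ ^ 2) = 1 := by
    obtain ⟨k, hk, hkx⟩ := hle (hP x hx)
    have : k = ⟨x, hPK hx⟩ ^ 2 := Subtype.ext (by simpa using hkx)
    rw [← this]; exact MonoidHom.mem_ker.mp hk
  -- the transfer formula
  let u : H := ⟨⟨x, hPK hx⟩, by rw [Subgroup.mem_subgroupOf]; exact hx⟩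
  obtain ⟨c, hc, hVu⟩ := Cfsg.Agent.H79.transfer_eq_pow_mul_of_sup_eq_top ϕ N' hHN u
  have hc2 : c ^ 2 = 1 := by
    obtain ⟨q, hq, rfl⟩ := hc
    rw [SetLike.mem_coe, Subgroup.mem_subgroupOf, Subgroup.mem_subgroupOf] at hq
    have hqP : ((q : K) : G) ∈ Pg := by
      have := q.2
      rwa [Subgroup.mem_subgroupOf] at this
    have h1 : ((q : K) : G) ^ 2 ∈ ⁅Pg, Pg⁆ :=
      Subgroup.commutator_mono inf_le_left inf_le_left (hQ _ ⟨hqP, hq⟩)
    rw [← map_pow]
    exact hcomm (e (q ^ 2)) h1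
  have hmodd : Odd H.index := by
    have h1 : H.index ∣ Pg.index := Subgroup.relIndex_dvd_index_of_le hPK
    have h2 : ¬ 2 ∣ Pg.index := P.not_dvd_index
    rw [← Nat.not_even_iff_odd, even_iff_two_dvd]
    exact fun h => h2 (h.trans h1)
  have h3 : (ϕ u ^ 2) ^ H.index = 1 := by
    have hV2 : V (u : K) ^ 2 = 1 := by rw [← map_pow]; exact hVsq
    rw [hVu, mul_pow, hc2, mul_one] at hV2
    rw [← pow_mul, mul_comm, pow_mul]; exact hV2
  have h4 : ϕ u ^ 2 = 1 := hoddkill _ _ hmodd h3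
  rw [← map_pow] at h4
  exact hcomm' (e (u ^ 2)) h4

end Cfsg.Agent.S4582
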