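import Cfsg.Statements.S4583
import Cfsg.Agent.H5.RegRes
import Cfsg.Agent.H84.PRegCount

set_option autoImplicit false
open Cfsg

namespace Cfsg.Agent.S4583

open Cfsg.Agent.H4 Cfsg.Agent.H20 Cfsg.Agent.H84 Cfsg.Agent.H5.RegRes

/-- Let N be a normal subgroup of the finite group G, p a prime, M a maximal ideal of the algebraic integers containing p, and P a Sylow p-subgroup of G. Let θ be an irreducible character of N of degree prime to p lying in the principal p-block of N, and suppose θ extends to the subgroup NP (some irreducible character of NP restricts to θ). Then some irreducible character χ of G of degree prime to p in the principal p-block of G lies over θ (θ is a constituent of the restriction of χ to N). -/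
theorem result {G : Type*} [Group G] [Finite G] (N : Subgroup G) [N.Normal] (p : ℕ) [Fact p.Prime] (M : Ideal Cfsg.AlgInt) (hM : Cfsg.IsPModular p M) (P : Sylow p G)
    (θ : Cfsg.IrrCharacter N) (hθ : θ ∈ Cfsg.principalBlock M N) (hdeg : ¬ p ∣ Cfsg.charDegree (θ : N → ℂ))
    (hext : ∃ η : Cfsg.IrrCharacter ↥(N ⊔ (P : Subgroup G)), ∀ n : N, (η : ↥(N ⊔ (P : Subgroup G)) → ℂ) (Subgroup.inclusion le_sup_left n) = (θ : N → ℂ) n) :
    ∃ χ : Cfsg.IrrCharacter G, χ ∈ Cfsg.principalBlock M G ∧ ¬ p ∣ Cfsg.charDegree (χ : G → ℂ) ∧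
      haveI := Fintype.ofFinite N; Cfsg.classInner (fun n : N => (χ : G → ℂ) n) (θ : N → ℂ) ≠ 0 := by
  classical
  haveI : Fintype G := Fintype.ofFinite G
  letI : Fintype N := Fintype.ofFinite N
  letI : Fintype ↥(N ⊔ (P : Subgroup G)) := Fintype.ofFinite _
  obtain ⟨η, hη⟩ := hext
  obtain ⟨d, hd0, hd⟩ := irr_one_eq_natCast θ
  have hηd : η.1 1 = d := by
    rw [← hd]
    have := hη 1
    rwa [map_one] at this
  have hreg : regSum p η.1 = regSum p θ.1 := regSum_sup_eq N P η.1 θ.1 hη
  have hθB := regSum_principal hM θ hθ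
  have hidx : ¬ p ∣ (N ⊔ (P : Subgroup G)).index := fun h =>
    P.not_dvd_index (dvd_trans h (Subgroup.index_dvd_of_le le_sup_right))
  have hpd : ¬ p ∣ d := by rwa [charDegree_of_natCast hd] at hdeg
  obtain ⟨χ, hχB, hχd, hχm⟩ := exists_principal_over_pPrime hM (N ⊔ (P : Subgroup G)) hidx η d
    (Nat.card {g : N // ¬ p ∣ orderOf g}) hηd hpd (not_dvd_card_pRegular p N)
    (by rw [hreg, hηd, ← hd]; exact hθB)
  refine ⟨χ, hχB, hχd, ?_⟩
  exact inner_res_ne_zero N (N ⊔ (P : Subgroup G)) le_sup_left χ.1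
    (isCharacter_of_isIrrCharacter χ.2) η θ.1 θ.2 hη hχm

end Cfsg.Agent.S4583
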