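-- Statement S4584 (row 4584).
import Cfsg.Statements.S4584
import Cfsg.Agent.H79.CommLemma
import Cfsg.Agent.H79.PFour

set_option autoImplicit false
open Cfsg

namespace Cfsg.Agent.S4584

open Subgroup in
/-- If the centre has index `p ^ 2` in a group of order `p ^ 4`, the derived subgroup has
order `p`. -/
theorem card_commutator_of_index_center {P : Type*} [Group P] [Finite P] (p : ℕ) (hp : p.Prime)
    (hP : Nat.card P = p ^ 4) (hZ : (center P).index = p ^ 2) :
    Nat.card (commutator P) = p := by
  classical
  have hp0 : 0 < p := hp.pos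
  have hZcard : Nat.card (center P) = p ^ 2 := by
    have h := Subgroup.card_mul_index (center P)
    rw [hZ, hP] at h
    have : Nat.card (center P) * p ^ 2 = p ^ 2 * p ^ 2 := by rw [h]; ring
    exact Nat.eq_of_mul_eq_mul_right (pow_pos hp0 2) this
  -- P / Z is commutative, so P' ≤ Z
  have hcomm_le : commutator P ≤ center P := by
    have : Fact p.Prime := ⟨hp⟩
    have hq : Nat.card (P ⧸ center P) = p ^ 2 := hZ
    have := IsPGroup.isMulCommutative_of_card_eq_prime_sq hq
    exact Subgroup.Normal.quotient_commutative_iff_commutator_le.mp this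
  obtain ⟨x, hx⟩ : ∃ x : P, x ∉ center P := by
    by_contra h
    push Not at h
    have : center P = ⊤ := (Subgroup.eq_top_iff' _).mpr h
    rw [this, Subgroup.index_top] at hZ
    have : 1 < p ^ 2 := Nat.one_lt_pow (by norm_num) hp.one_lt
    omega
  set A : Subgroup P := center P ⊔ zpowers x with hA
  have hAcomm : ∀ a ∈ A, ∀ b ∈ A, a * b = b * a :=
    Cfsg.Agent.H79.comm_of_mem_center_sup_zpowers x
  have hZA : center P ≤ A := le_sup_left
  have hxA : x ∈ A := mem_sup_right (mem_zpowers x)
  have hAnormal : A.Normal := Cfsg.Agent.H79.normal_of_commutator_le A (hcomm_le.trans hZA)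
  have hZltA : center P < A := lt_of_le_of_ne hZA (fun h => hx (h ▸ hxA))
  have hAne : A ≠ ⊤ := by
    intro hAtop
    apply hx
    rw [Subgroup.mem_center_iff]
    intro g
    have hg : g ∈ A := hAtop ▸ mem_top g
    exact hAcomm g hg x hxA
  have hAcard : Nat.card A = p ^ 3 := by
    have h1 := Cfsg.Agent.H79.card_mul_le_of_lt hp hP hZltA
    have h2 := Cfsg.Agent.H79.card_mul_le_of_lt hp hP (lt_top_iff_ne_top.mpr hAne)
    rw [Subgroup.card_top, hP] at h2
    rw [hZcard] at h1
    have h3 : Nat.card A ≤ p ^ 3 := by
      have : Nat.card A * p ≤ p ^ 3 * p := by rw [← pow_succ]; exact h2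
      exact Nat.le_of_mul_le_mul_right this hp0
    have h4 : p ^ 3 ≤ Nat.card A := by rw [pow_succ]; exact h1
    exact le_antisymm h3 h4
  have hAindex : A.index = p := by
    have h := Subgroup.card_mul_index A
    rw [hAcard, hP] at h
    have : p ^ 3 * A.index = p ^ 3 * p := by rw [h]; ring
    exact Nat.eq_of_mul_eq_mul_left (pow_pos hp0 3) this
  obtain ⟨y, hy⟩ : ∃ y : P, y ∉ A := by
    by_contra h
    push Not at h
    exact hAne ((Subgroup.eq_top_iff' _).mpr h)
  have hsup : A ⊔ zpowers y = ⊤ :=
    Cfsg.Agent.H79.sup_zpowers_eq_top_of_index_prime A hp hAindex y hy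
  have hfA : ∀ a : A, y * a * y⁻¹ * (a : P)⁻¹ ∈ A := fun a =>
    A.mul_mem (hAnormal.conj_mem (a : P) a.2 y) (A.inv_mem a.2)
  let φ : A →* P :=
    { toFun := fun a => y * a * y⁻¹ * (a : P)⁻¹
      map_one' := by simp
      map_mul' := by
        intro a b
        have h1 := hAcomm _ (hfA b) _ (A.inv_mem a.2)
        push_cast
        calc y * (a * b) * y⁻¹ * ((a : P) * b)⁻¹
            = y * a * y⁻¹ * ((y * b * y⁻¹ * (b : P)⁻¹) * (a : P)⁻¹) := by group
          _ = y * a * y⁻¹ * ((a : P)⁻¹ * (y * b * y⁻¹ * (b : P)⁻¹)) := by rw [h1]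
          _ = y * a * y⁻¹ * (a : P)⁻¹ * (y * b * y⁻¹ * (b : P)⁻¹) := by group }
  have hφ : ∀ a : A, φ a = y * a * y⁻¹ * (a : P)⁻¹ := fun a => rfl
  have hrange : φ.range = commutator P := by
    apply le_antisymm
    · rintro _ ⟨a, rfl⟩
      rw [hφ, commutator_def]
      exact Subgroup.commutator_mem_commutator (mem_top y) (mem_top (a : P))
    · apply Cfsg.Agent.H79.mem_commutator_iff_of_abelian_normal A hAcomm y hsup
      intro a ha
      exact ⟨⟨a, ha⟩, rfl⟩
  have hker : φ.ker = (center P).subgroupOf A := by
    ext a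
    rw [MonoidHom.mem_ker, hφ, Subgroup.mem_subgroupOf, Subgroup.mem_center_iff]
    constructor
    · intro h g
      have hya : y * a = a * y := by
        have := congrArg (· * ((a : P) * y)) h
        simpa [mul_assoc] using this
      have hle : A ⊔ zpowers y ≤ centralizer {(a : P)} := by
        apply sup_le
        · intro b hb
          rw [mem_centralizer_singleton_iff]
          exact hAcomm b hb a a.2
        · rw [zpowers_le, mem_centralizer_singleton_iff]
          exact hya
      have hg : g ∈ centralizer {(a : P)} := hle (hsup ▸ mem_top g)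
      exact mem_centralizer_singleton_iff.mp hg
    · intro h
      rw [h y]
      group
  have h1 : Nat.card φ.ker * Nat.card φ.range = Nat.card A := by
    rw [← Subgroup.index_ker]; exact Subgroup.card_mul_index φ.ker
  have h2 : Nat.card φ.ker = p ^ 2 := by
    rw [hker, ← hZcard]
    exact Nat.card_congr (Subgroup.subgroupOfEquivOfLe hZA).toEquiv
  rw [hrange, h2, hAcard] at h1
  have : p ^ 2 * Nat.card (commutator P) = p ^ 2 * p := by rw [h1]; ring
  exact Nat.eq_of_mul_eq_mul_left (pow_pos hp0 2) this

open Subgroup in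
/-- If the derived subgroup has order `p` in a group of order `p ^ 4`, the centre does not
have order `p`. -/
theorem card_center_ne_of_card_commutator {P : Type*} [Group P] [Finite P] (p : ℕ) (hp : p.Prime)
    (hP : Nat.card P = p ^ 4) (hc : Nat.card (commutator P) = p) :
    Nat.card (center P) ≠ p := by
  classical
  intro hZ
  have hp0 : 0 < p := hp.pos
  have hcent : ∀ u : P, p ^ 3 ≤ Nat.card (centralizer {u}) := by
    intro u
    have h1 := Cfsg.Agent.H79.index_centralizer_le_card_commutator u
    rw [hc] at h1
    have h2 := Subgroup.card_mul_index (centralizer {u})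
    rw [hP] at h2
    have h3 : p ^ 3 * p ≤ Nat.card (centralizer {u}) * p := by
      calc p ^ 3 * p = p ^ 4 := by ring
        _ = Nat.card (centralizer {u}) * (centralizer {u}).index := h2.symm
        _ ≤ Nat.card (centralizer {u}) * p := Nat.mul_le_mul_left _ h1
    exact Nat.le_of_mul_le_mul_right h3 hp0
  have hZne : center P ≠ ⊤ := by
    intro h
    have h2 : Nat.card (center P) = p ^ 4 := by rw [h, Subgroup.card_top, hP]
    rw [hZ] at h2
    have : p ^ 1 = p ^ 4 := by rw [pow_one]; exact h2
    have := Nat.pow_right_injective hp.two_le this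
    omega
  obtain ⟨x, hx⟩ : ∃ x : P, x ∉ center P := by
    by_contra h
    push Not at h
    exact hZne ((Subgroup.eq_top_iff' _).mpr h)
  have hCx : centralizer {x} ≠ ⊤ := by
    intro h
    rw [centralizer_eq_top_iff_subset] at h
    exact hx (h rfl)
  obtain ⟨w, hw⟩ : ∃ w : P, w ∉ centralizer {x} := by
    by_contra h
    push Not at h
    exact hCx ((Subgroup.eq_top_iff' _).mpr h)
  set D : Subgroup P := centralizer {x} ⊓ centralizer {w} with hD
  have hDcard : p ^ 2 ≤ Nat.card D := by
    have h1 : D.index ≤ p * p := by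
      refine Subgroup.index_inf_le.trans ?_
      have hx1 := Cfsg.Agent.H79.index_centralizer_le_card_commutator x
      have hw1 := Cfsg.Agent.H79.index_centralizer_le_card_commutator w
      rw [hc] at hx1 hw1
      exact Nat.mul_le_mul hx1 hw1
    have h2 := Subgroup.card_mul_index D
    rw [hP] at h2
    have h3 : p ^ 2 * (p * p) ≤ Nat.card D * (p * p) := by
      calc p ^ 2 * (p * p) = p ^ 4 := by ring
        _ = Nat.card D * D.index := h2.symm
        _ ≤ Nat.card D * (p * p) := Nat.mul_le_mul_left _ h1
    exact Nat.le_of_mul_le_mul_right h3 (Nat.mul_pos hp0 hp0)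
  obtain ⟨u, huD, huZ⟩ : ∃ u ∈ D, u ∉ center P := by
    by_contra h
    push Not at h
    have hle : D ≤ center P := h
    have := Subgroup.card_le_of_le hle
    rw [hZ] at this
    have h2 : p ^ 2 ≤ p ^ 1 := by rw [pow_one]; exact hDcard.trans this
    have := (Nat.pow_le_pow_iff_right hp.one_lt).mp h2
    omega
  have hux : u * x = x * u := mem_centralizer_singleton_iff.mp huD.1
  have huw : u * w = w * u := mem_centralizer_singleton_iff.mp huD.2
  set T : Subgroup P := center P ⊔ zpowers u with hT
  set S : Subgroup P := T ⊔ zpowers x with hS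
  set M : Subgroup P := centralizer {u} with hM
  have hZT : center P < T := by
    refine lt_of_le_of_ne le_sup_left (fun h => huZ ?_)
    rw [h]
    exact mem_sup_right (mem_zpowers u)
  have hTw : T ≤ centralizer {w} := by
    apply sup_le (center_le_centralizer _)
    rw [zpowers_le, mem_centralizer_singleton_iff]
    exact huw
  have hxT : x ∉ T := by
    intro h
    have := mem_centralizer_singleton_iff.mp (hTw h)
    exact hw (mem_centralizer_singleton_iff.mpr this.symm)
  have hTS : T < S := by
    refine lt_of_le_of_ne le_sup_left (fun h => hxT ?_)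
    rw [h]
    exact mem_sup_right (mem_zpowers x)
  have hSM : S ≤ M := by
    refine sup_le (sup_le (center_le_centralizer _) ?_) ?_
    · rw [zpowers_le, mem_centralizer_singleton_iff]
    · rw [zpowers_le, mem_centralizer_singleton_iff]
      exact hux.symm
  have hSx : S ≤ centralizer {x} := by
    refine sup_le (sup_le (center_le_centralizer _) ?_) ?_
    · rw [zpowers_le, mem_centralizer_singleton_iff]
      exact hux
    · rw [zpowers_le, mem_centralizer_singleton_iff]
  have hMne : M ≠ ⊤ := by
    intro h
    rw [hM, centralizer_eq_top_iff_subset] at h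
    exact huZ (h rfl)
  have hTcard := Cfsg.Agent.H79.card_mul_le_of_lt hp hP hZT
  have hScard := Cfsg.Agent.H79.card_mul_le_of_lt hp hP hTS
  have hMcard := Cfsg.Agent.H79.card_mul_le_of_lt hp hP (lt_top_iff_ne_top.mpr hMne)
  rw [Subgroup.card_top, hP] at hMcard
  rw [hZ] at hTcard
  have hSM' : Nat.card M ≤ Nat.card S := by
    have h1 : Nat.card M * p ≤ Nat.card S * p := by
      calc Nat.card M * p ≤ p ^ 4 := hMcard
        _ = p * p * p * p := by ring
        _ ≤ Nat.card T * p * p := Nat.mul_le_mul_right _ (Nat.mul_le_mul_right _ hTcard)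
        _ ≤ Nat.card S * p := Nat.mul_le_mul_right _ hScard
    exact Nat.le_of_mul_le_mul_right h1 hp0
  have hSeq : S = M := Subgroup.eq_of_le_of_card_ge hSM hSM'
  have hwM : w ∈ M := mem_centralizer_singleton_iff.mpr huw.symm
  exact hw (hSx (hSeq ▸ hwM))

/-- Let p be a prime and P a group of order p^4. Then the derived subgroup P' has order p if and only if the centre Z(P) has index p^2 in P. -/
theorem result {P : Type*} [Group P] [Finite P] (p : ℕ) [Fact p.Prime] (hP : Nat.card P = p ^ 4) :
    Nat.card (commutator P) = p ↔ (Subgroup.center P).index = p ^ 2 := by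
  have hp : p.Prime := Fact.out
  have hp0 : 0 < p := hp.pos
  constructor
  · intro hc
    obtain ⟨k, hk0, hk⟩ := IsPGroup.card_center_eq_prime_pow hP (by norm_num : 0 < 4)
    have hne1 : Nat.card (Subgroup.center P) ≠ p := card_center_ne_of_card_commutator p hp hP hc
    have hmul := Subgroup.card_mul_index (Subgroup.center P)
    rw [hk, hP] at hmul
    have hZne : Subgroup.center P ≠ ⊤ := by
      intro h
      have h2 := (commutator_eq_bot_iff_center_eq_top P).mpr h
      rw [h2, Subgroup.card_bot] at hc
      exact hp.one_lt.ne hc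
    have hk4 : k ≤ 4 := by
      have h1 : p ^ k ∣ p ^ 4 := Dvd.intro _ hmul
      exact (Nat.pow_dvd_pow_iff_le_right hp.one_lt).mp h1
    have hk1 : k ≠ 1 := by
      rintro rfl
      exact hne1 (by rw [hk, pow_one])
    have hk4' : k ≠ 4 := by
      rintro rfl
      apply hZne
      apply Subgroup.eq_top_of_card_eq
      rw [hk, hP]
    have hk3 : k ≠ 3 := by
      rintro rfl
      have hidx : (Subgroup.center P).index = p := by
        have : p ^ 3 * (Subgroup.center P).index = p ^ 3 * p := by rw [hmul]; ring
        exact Nat.eq_of_mul_eq_mul_left (pow_pos hp0 3) this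
      have hq : Nat.card (P ⧸ Subgroup.center P) = p := hidx
      have : IsCyclic (P ⧸ Subgroup.center P) := isCyclic_of_prime_card hq
      have hcomm := isMulCommutative_of_isCyclic_quotient_center_self P
      exact hZne (Subgroup.center_eq_top_iff.mpr hcomm)
    have hk2 : k = 2 := by omega
    subst hk2
    have : p ^ 2 * (Subgroup.center P).index = p ^ 2 * p ^ 2 := by rw [hmul]; ring
    exact Nat.eq_of_mul_eq_mul_left (pow_pos hp0 2) this
  · intro hZ
    exact card_commutator_of_index_center p hp hP hZ

end Cfsg.Agent.S4584
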