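-- Statement S4585 (row 4585).
import Cfsg.Statements.S4585
import Cfsg.Agent.H79.PFour
import Cfsg.Agent.S4584

set_option autoImplicit false
open Cfsg

namespace Cfsg.Agent.S4585

open Subgroup
open scoped commutatorElement

/-- If the abelianization is cyclic, the derived subgroup equals the next term of the lower
central series. -/
theorem commutator_le_of_isCyclic_quotient {G : Type*} [Group G]
    (h : IsCyclic (G ⧸ commutator G)) :
    commutator G ≤ (⊤ : Subgroup G).lowerCentralSeries 2 := by
  set N : Subgroup G := (⊤ : Subgroup G).lowerCentralSeries 2 with hN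
  have hNle : N ≤ commutator G := Subgroup.lowerCentralSeries_antitone _ (by norm_num : 1 ≤ 2)
  have hNnormal : N.Normal := Subgroup.normal_of_characteristic _
  let f : G ⧸ N →* G ⧸ commutator G :=
    QuotientGroup.map N (commutator G) (MonoidHom.id G) hNle
  have hf : f.ker ≤ center (G ⧸ N) := by
    intro q hq
    induction q using QuotientGroup.induction_on with | _ a => ?_
    rw [MonoidHom.mem_ker] at hq
    have ha : a ∈ commutator G := by
      have : f (QuotientGroup.mk a) = QuotientGroup.mk a := rfl
      rw [this] at hq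
      exact (QuotientGroup.eq_one_iff a).mp hq
    rw [Subgroup.mem_center_iff]
    intro r
    induction r using QuotientGroup.induction_on with | _ b => ?_
    rw [← QuotientGroup.mk_mul, ← QuotientGroup.mk_mul]
    apply QuotientGroup.eq.mpr
    have h1 : (b * a)⁻¹ * (a * b) = ⁅a⁻¹, b⁻¹⁆ := by rw [commutatorElement_def]; group
    rw [h1]
    exact Subgroup.commutator_mem_commutator ((commutator G).inv_mem ha) (mem_top _)
  have : IsMulCommutative (G ⧸ N) := MonoidHom.isMulCommutative_of_isCyclic_of_ker_le_center f hf
  exact Subgroup.Normal.quotient_commutative_iff_commutator_le.mp this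

/-- Let p be a prime and P a group of order p^4. Then P' has index p^2 in P if and only if P has maximal nilpotency class, that is, nilpotency class exactly 3. -/
theorem result {P : Type*} [Group P] [Finite P] (p : ℕ) [Fact p.Prime] (hP : Nat.card P = p ^ 4) :
    (commutator P).index = p ^ 2 ↔ Group.nilpotencyClass P = 3 := by
  have hp : p.Prime := Fact.out
  have hp0 : 0 < p := hp.pos
  have hPp : IsPGroup p P := IsPGroup.of_card hP
  have hnil : Group.IsNilpotent P := hPp.isNilpotent
  have hγ1 : (⊤ : Subgroup P).lowerCentralSeries 1 = commutator P := rfl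
  have hclass : Group.nilpotencyClass P = 3 ↔
      (⊤ : Subgroup P).lowerCentralSeries 3 = ⊥ ∧ (⊤ : Subgroup P).lowerCentralSeries 2 ≠ ⊥ := by
    rw [Ne, Subgroup.lowerCentralSeries_eq_bot_iff_nilpotencyClass_le,
      Subgroup.lowerCentralSeries_eq_bot_iff_nilpotencyClass_le]
    omega
  have hstrict : ∀ n : ℕ, (⊤ : Subgroup P).lowerCentralSeries n ≠ ⊥ →
      (⊤ : Subgroup P).lowerCentralSeries (n + 1) < (⊤ : Subgroup P).lowerCentralSeries n := by
    intro n hn
    refine lt_of_le_of_ne (Subgroup.lowerCentralSeries_antitone _ (Nat.le_succ n)) (fun h => hn ?_)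
    exact Cfsg.Agent.H79.lowerCentralSeries_eq_bot_of_succ_eq n h
  have hmul := Subgroup.card_mul_index (commutator P)
  rw [hP] at hmul
  rw [hclass]
  constructor
  · intro hidx
    have hc : Nat.card (commutator P) = p ^ 2 := by
      rw [hidx] at hmul
      have : Nat.card (commutator P) * p ^ 2 = p ^ 2 * p ^ 2 := by rw [hmul]; ring
      exact Nat.eq_of_mul_eq_mul_right (pow_pos hp0 2) this
    have hcne : commutator P ≠ ⊥ := by
      intro h
      rw [h, Subgroup.card_bot] at hc
      have : 1 < p ^ 2 := Nat.one_lt_pow (by norm_num) hp.one_lt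
      omega
    have h2 : (⊤ : Subgroup P).lowerCentralSeries 2 ≠ ⊥ := by
      intro h
      have hle : commutator P ≤ center P := by
        have h' : ⁅commutator P, (⊤ : Subgroup P)⁆ = ⊥ := h
        rw [Subgroup.commutator_eq_bot_iff_le_centralizer] at h'
        rwa [Subgroup.coe_top, Subgroup.centralizer_univ] at h'
      have hZne : center P ≠ ⊤ := fun hZ =>
        hcne ((commutator_eq_bot_iff_center_eq_top P).mpr hZ)
      obtain ⟨k, hk0, hk⟩ := IsPGroup.card_center_eq_prime_pow hP (by norm_num : 0 < 4)
      have hmulZ := Subgroup.card_mul_index (center P)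
      rw [hk, hP] at hmulZ
      have hk4 : k ≤ 4 := by
        have h1 : p ^ k ∣ p ^ 4 := Dvd.intro _ hmulZ
        exact (Nat.pow_dvd_pow_iff_le_right hp.one_lt).mp h1
      have hk2 : 2 ≤ k := by
        have := Subgroup.card_le_of_le hle
        rw [hc, hk] at this
        exact (Nat.pow_le_pow_iff_right hp.one_lt).mp this
      have hk4' : k ≠ 4 := by
        rintro rfl
        apply hZne
        apply Subgroup.eq_top_of_card_eq
        rw [hk, hP]
      have hk3 : k ≠ 3 := by
        rintro rfl
        have hidx : (center P).index = p := by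
          have : p ^ 3 * (center P).index = p ^ 3 * p := by rw [hmulZ]; ring
          exact Nat.eq_of_mul_eq_mul_left (pow_pos hp0 3) this
        have hq : Nat.card (P ⧸ center P) = p := hidx
        have : IsCyclic (P ⧸ center P) := isCyclic_of_prime_card hq
        have hcomm := isMulCommutative_of_isCyclic_quotient_center_self P
        exact hZne (Subgroup.center_eq_top_iff.mpr hcomm)
      have hk2' : k = 2 := by omega
      subst hk2'
      have hZidx : (center P).index = p ^ 2 := by
        have : p ^ 2 * (center P).index = p ^ 2 * p ^ 2 := by rw [hmulZ]; ring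
        exact Nat.eq_of_mul_eq_mul_left (pow_pos hp0 2) this
      have hc' := (Cfsg.Agent.S4584.result p hP).mpr hZidx
      rw [hc] at hc'
      have : p ^ 2 = p ^ 1 := by rw [pow_one]; exact hc'
      have := Nat.pow_right_injective hp.two_le this
      omega
    refine ⟨?_, h2⟩
    by_contra h3
    have h32 := Cfsg.Agent.H79.card_mul_le_of_lt hp hP (hstrict 2 h2)
    have h21 := Cfsg.Agent.H79.card_mul_le_of_lt hp hP (hstrict 1 (by rw [hγ1]; exact hcne))
    rw [hγ1, hc] at h21
    have h5 : Nat.card ((⊤ : Subgroup P).lowerCentralSeries 3) * (p * p) ≤ 1 * (p * p) := by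
      calc Nat.card ((⊤ : Subgroup P).lowerCentralSeries 3) * (p * p)
          = Nat.card ((⊤ : Subgroup P).lowerCentralSeries 3) * p * p := by ring
        _ ≤ Nat.card ((⊤ : Subgroup P).lowerCentralSeries 2) * p := Nat.mul_le_mul_right _ h32
        _ ≤ p ^ 2 := h21
        _ = 1 * (p * p) := by ring
    have h6 := Nat.le_of_mul_le_mul_right h5 (Nat.mul_pos hp0 hp0)
    exact h3 (Subgroup.eq_bot_of_card_le _ h6)
  · rintro ⟨h3, h2⟩
    have h1ne : commutator P ≠ ⊥ := by
      intro h
      apply h2
      have hle : (⊤ : Subgroup P).lowerCentralSeries 2 ≤ (⊤ : Subgroup P).lowerCentralSeries 1 :=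
        Subgroup.lowerCentralSeries_antitone _ (by norm_num)
      rw [hγ1, h] at hle
      exact eq_bot_iff.mpr hle
    have hb2 : (⊥ : Subgroup P) < (⊤ : Subgroup P).lowerCentralSeries 2 := bot_lt_iff_ne_bot.mpr h2
    have h21 := hstrict 1 (by rw [hγ1]; exact h1ne)
    have h10 : (⊤ : Subgroup P).lowerCentralSeries 1 < ⊤ := by
      have := hstrict 0 (by
        rw [Subgroup.lowerCentralSeries_zero]
        intro h
        have h4 : Nat.card (⊤ : Subgroup P) = 1 := by rw [h, Subgroup.card_bot]
        rw [Subgroup.card_top, hP] at h4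
        have : 1 < p ^ 4 := Nat.one_lt_pow (by norm_num) hp.one_lt
        omega)
      simpa using this
    have c2 := Cfsg.Agent.H79.card_mul_le_of_lt hp hP hb2
    have c1 := Cfsg.Agent.H79.card_mul_le_of_lt hp hP h21
    have c0 := Cfsg.Agent.H79.card_mul_le_of_lt hp hP h10
    rw [Subgroup.card_bot, one_mul] at c2
    rw [hγ1] at c1 c0
    rw [Subgroup.card_top, hP] at c0
    obtain ⟨j, hj4, hj⟩ := (Nat.dvd_prime_pow hp).mp (Dvd.intro _ hmul)
    rw [hj] at c1 c0 hmul
    have hj2 : 2 ≤ j := by
      have : p ^ 2 ≤ p ^ j := by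
        calc p ^ 2 = p * p := by ring
          _ ≤ Nat.card ((⊤ : Subgroup P).lowerCentralSeries 2) * p := Nat.mul_le_mul_right _ c2
          _ ≤ p ^ j := c1
      exact (Nat.pow_le_pow_iff_right hp.one_lt).mp this
    have hj3 : j ≤ 3 := by
      have : p ^ (j + 1) ≤ p ^ 4 := by rw [pow_succ]; exact c0
      have := (Nat.pow_le_pow_iff_right hp.one_lt).mp this
      omega
    have hjne3 : j ≠ 3 := by
      rintro rfl
      have hidx : (commutator P).index = p := by
        have : p ^ 3 * (commutator P).index = p ^ 3 * p := by rw [hmul]; ring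
        exact Nat.eq_of_mul_eq_mul_left (pow_pos hp0 3) this
      have hq : Nat.card (P ⧸ commutator P) = p := hidx
      have hcyc : IsCyclic (P ⧸ commutator P) := isCyclic_of_prime_card hq
      have hle := commutator_le_of_isCyclic_quotient hcyc
      rw [← hγ1] at hle
      exact absurd hle (not_le_of_gt h21)
    have hj2' : j = 2 := by omega
    subst hj2'
    have : p ^ 2 * (commutator P).index = p ^ 2 * p ^ 2 := by rw [hmul]; ring
    exact Nat.eq_of_mul_eq_mul_left (pow_pos hp0 2) this

end Cfsg.Agent.S4585
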