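-- Statement S4586 (row 4586).
import Cfsg.Statements.S4586
import Cfsg.Agent.H79.CommLemma

set_option autoImplicit false
open Cfsg

namespace Cfsg.Agent.S4586

open scoped commutatorElement in
/-- The counting identity behind the statement: `[P : P'] * #N' = p * c(x)` for every `x ∉ N`. -/
theorem key {P : Type*} [Group P] [Finite P] (p : ℕ) (hp : p.Prime) (N : Subgroup P)
    [N.Normal] (hN : N.index = p) (x : P) (hx : x ∉ N) :
    (commutator P).index * Nat.card (commutator N) =
      p * Nat.card {n : N // x * n * x⁻¹ * (n : P)⁻¹ ∈ (commutator N).map N.subtype} := by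
  classical
  let N2 : Subgroup P := ⁅N, N⁆
  have : N2.Normal := Subgroup.commutator_normal N N
  let π : P →* P ⧸ N2 := QuotientGroup.mk' N2
  have hπsurj : Function.Surjective π := QuotientGroup.mk'_surjective N2
  let A : Subgroup (P ⧸ N2) := N.map π
  have : A.Normal := Subgroup.Normal.map inferInstance π hπsurj
  have hπeq : ∀ a b : P, a * b⁻¹ ∈ N2 → π a = π b := by
    intro a b hab
    have h1 : π (a * b⁻¹) = 1 := (QuotientGroup.eq_one_iff _).mpr hab
    rw [map_mul, map_inv, mul_inv_eq_one] at h1
    exact h1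
  have hAcomm : ∀ a ∈ A, ∀ b ∈ A, a * b = b * a := by
    rintro _ ⟨a, ha, rfl⟩ _ ⟨b, hb, rfl⟩
    rw [← map_mul, ← map_mul]
    apply hπeq
    have : a * b * (b * a)⁻¹ = ⁅a, b⁆ := by rw [commutatorElement_def]; group
    rw [this]
    exact Subgroup.commutator_mem_commutator ha hb
  have hsup : A ⊔ Subgroup.zpowers (π x) = ⊤ := by
    have h := Cfsg.Agent.H79.sup_zpowers_eq_top_of_index_prime N hp hN x hx
    have h2 := congrArg (Subgroup.map π) h
    rw [Subgroup.map_sup, Subgroup.map_top_of_surjective π hπsurj, MonoidHom.map_zpowers] at h2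
    exact h2
  have hfN : ∀ n : N, x * n * x⁻¹ * (n : P)⁻¹ ∈ N := fun n =>
    N.mul_mem (Subgroup.Normal.conj_mem (inferInstance : N.Normal) (n : P) n.2 x) (N.inv_mem n.2)
  let φ : N →* P ⧸ N2 :=
    { toFun := fun n => π (x * n * x⁻¹ * (n : P)⁻¹)
      map_one' := by simp
      map_mul' := by
        intro n₁ n₂
        rw [← map_mul]
        apply hπeq
        have : x * ((n₁ * n₂ : N) : P) * x⁻¹ * ((n₁ * n₂ : N) : P)⁻¹ *
            (x * n₁ * x⁻¹ * (n₁ : P)⁻¹ * (x * n₂ * x⁻¹ * (n₂ : P)⁻¹))⁻¹ =
            (x * n₁ * x⁻¹ * (n₁ : P)⁻¹) * ⁅(n₁ : P), x * n₂ * x⁻¹ * (n₂ : P)⁻¹⁆ *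
              (x * n₁ * x⁻¹ * (n₁ : P)⁻¹)⁻¹ := by
          rw [commutatorElement_def]
          push_cast
          group
        rw [this]
        exact Subgroup.Normal.conj_mem inferInstance _
          (Subgroup.commutator_mem_commutator n₁.2 (hfN n₂)) _ }
  have hφ : ∀ n : N, φ n = π (x * n * x⁻¹ * (n : P)⁻¹) := fun n => rfl
  -- range of φ is the commutator subgroup of the quotient
  have hrange : φ.range = commutator (P ⧸ N2) := by
    apply le_antisymm
    · rintro _ ⟨n, rfl⟩
      rw [hφ, commutator_def]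
      have : x * n * x⁻¹ * (n : P)⁻¹ = ⁅x, (n : P)⁆ := by rw [commutatorElement_def]
      rw [this, map_commutatorElement]
      exact Subgroup.commutator_mem_commutator (Subgroup.mem_top _) (Subgroup.mem_top _)
    · apply Cfsg.Agent.H79.mem_commutator_iff_of_abelian_normal A hAcomm (π x) hsup
      rintro _ ⟨n, hn, rfl⟩
      refine ⟨⟨n, hn⟩, ?_⟩
      rw [hφ]
      simp
  have h1 : Nat.card φ.ker * Nat.card φ.range = Nat.card N := by
    rw [← Subgroup.index_ker]; exact Subgroup.card_mul_index φ.ker
  have hN2 : (commutator N).map N.subtype = N2 := Subgroup.map_subtype_commutator N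
  have h2 : Nat.card φ.ker =
      Nat.card {n : N // x * n * x⁻¹ * (n : P)⁻¹ ∈ (commutator N).map N.subtype} := by
    apply Nat.card_congr
    apply Equiv.subtypeEquivRight
    intro n
    rw [MonoidHom.mem_ker, hφ, hN2]
    exact QuotientGroup.eq_one_iff _
  have hN2le : N2 ≤ commutator P := by
    rw [commutator_def]; exact Subgroup.commutator_mono le_top le_top
  have hcommQ : commutator (P ⧸ N2) = (commutator P).map π := by
    rw [map_commutator_eq, commutator_def, MonoidHom.range_eq_top.mpr hπsurj]
  have h3 : (commutator (P ⧸ N2)).index = (commutator P).index := by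
    rw [hcommQ]
    apply Subgroup.index_map_eq _ hπsurj
    rw [QuotientGroup.ker_mk']
    exact hN2le
  have h4 : Nat.card P = Nat.card (P ⧸ N2) * Nat.card N2 :=
    Subgroup.card_eq_card_quotient_mul_card_subgroup N2
  have h5 : Nat.card N2 = Nat.card (commutator N) := by
    rw [← hN2]
    exact Subgroup.card_map_of_injective N.subtype_injective
  have h6 : Nat.card N * p = Nat.card P := by rw [← hN]; exact Subgroup.card_mul_index N
  have h7 : Nat.card (commutator (P ⧸ N2)) * (commutator (P ⧸ N2)).index = Nat.card (P ⧸ N2) :=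
    Subgroup.card_mul_index _
  have hq : 0 < Nat.card (commutator (P ⧸ N2)) := Nat.card_pos
  rw [hrange] at h1
  rw [h3] at h7
  rw [← h2, ← h5]
  apply Nat.eq_of_mul_eq_mul_right hq
  calc (commutator P).index * Nat.card N2 * Nat.card (commutator (P ⧸ N2))
      = (Nat.card (commutator (P ⧸ N2)) * (commutator P).index) * Nat.card N2 := by ring
    _ = Nat.card P := by rw [h7, ← h4]
    _ = Nat.card N * p := h6.symm
    _ = p * Nat.card φ.ker * Nat.card (commutator (P ⧸ N2)) := by rw [← h1]; ring

/-- Let p be a prime, P a finite p-group and N a normal subgroup of P of index p. For x ∈ P write c(x) for the number of elements n of N whose commutator x n x⁻¹ n⁻¹ lies in the derived subgroup N' (so c(x)/#N' is the order of the centralizer of x acting on N/N'). Then [P : P'] = p² if and only if c(x) = p·#N' for every x ∈ P outside N, and also if and only if c(x) = p·#N' for some x ∈ P outside N. -/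
theorem result {P : Type*} [Group P] [Finite P] (p : ℕ) [Fact p.Prime] (hP : IsPGroup p P) (N : Subgroup P) [N.Normal] (hN : N.index = p) :
    ((commutator P).index = p ^ 2 ↔ ∀ x : P, x ∉ N →
        Nat.card {n : N // x * n * x⁻¹ * (n : P)⁻¹ ∈ (commutator N).map N.subtype} = p * Nat.card (commutator N)) ∧
    ((commutator P).index = p ^ 2 ↔ ∃ x : P, x ∉ N ∧
        Nat.card {n : N // x * n * x⁻¹ * (n : P)⁻¹ ∈ (commutator N).map N.subtype} = p * Nat.card (commutator N)) := by
  have hp : p.Prime := Fact.out
  obtain ⟨x₀, hx₀⟩ : ∃ x : P, x ∉ N := by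
    by_contra h
    push Not at h
    have : N = ⊤ := (Subgroup.eq_top_iff' N).mpr h
    rw [this, Subgroup.index_top] at hN
    exact hp.one_lt.ne hN
  have hcpos : 0 < Nat.card (commutator N) := Nat.card_pos
  have hiff : ∀ x : P, x ∉ N → ((commutator P).index = p ^ 2 ↔
      Nat.card {n : N // x * n * x⁻¹ * (n : P)⁻¹ ∈ (commutator N).map N.subtype} =
        p * Nat.card (commutator N)) := by
    intro x hx
    have k := key p hp N hN x hx
    constructor
    · intro h
      rw [h] at k
      have h2 : p * (p * Nat.card (commutator N)) = p * Nat.card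
          {n : N // x * n * x⁻¹ * (n : P)⁻¹ ∈ (commutator N).map N.subtype} := by
        rw [← k]; ring
      exact (Nat.eq_of_mul_eq_mul_left hp.pos h2).symm
    · intro h
      rw [h] at k
      have h2 : (commutator P).index * Nat.card (commutator N) =
          p ^ 2 * Nat.card (commutator N) := by rw [k]; ring
      exact Nat.eq_of_mul_eq_mul_right hcpos h2
  exact ⟨⟨fun h x hx => (hiff x hx).mp h, fun h => (hiff x₀ hx₀).mpr (h x₀ hx₀)⟩,
    ⟨fun h => ⟨x₀, hx₀, (hiff x₀ hx₀).mp h⟩, fun ⟨x, hx, h⟩ => (hiff x hx).mpr h⟩⟩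

end Cfsg.Agent.S4586
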