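import Cfsg.Statements.S4588
import Cfsg.Agent.S0923
import Cfsg.Agent.S0919
import Cfsg.Agent.H84.ThirdMain
import Cfsg.Agent.H84.K0D

set_option autoImplicit false
open Cfsg

namespace Cfsg.Agent.S4588

/-- Let G be a finite group, p a prime and M a maximal ideal of the algebraic integers containing p. If some p-element x of G (possibly x = 1) has centralizer whose order has p-part at most p², then the principal p-block of G contains at most p² irreducible characters of degree prime to p. -/
theorem result {G : Type*} [Group G] [Finite G] (p : ℕ) [Fact p.Prime] (M : Ideal Cfsg.AlgInt) (hM : Cfsg.IsPModular p M)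
    (hx : ∃ x : G, (∃ k : ℕ, orderOf x = p ^ k) ∧ (Nat.card (Subgroup.centralizer ({x} : Set G))).factorization p ≤ 2) :
    Nat.card {χ : Cfsg.IrrCharacter G // χ ∈ Cfsg.principalBlock M G ∧ ¬ p ∣ Cfsg.charDegree (χ : G → ℂ)} ≤ p ^ 2 := by
  classical
  letI : Fintype G := Fintype.ofFinite G
  have hp : p.Prime := Fact.out
  have h2 : Cfsg.Agent.H84.SecondMain p M G := fun x hx B hB χ hχ b hb hnot y hy =>
    Cfsg.Agent.S0923.result p M hM x hx B hB χ hχ b hb hnot y hy
  -- the principal block of the centralizer of a `p`-element induces the principal block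
  have hindall : ∀ y : G, (∃ k : ℕ, orderOf y = p ^ k) →
      Cfsg.IsInducedBlock M (Subgroup.centralizer ({y} : Set G))
        (Cfsg.principalBlock M ↥(Subgroup.centralizer ({y} : Set G)))
        (Cfsg.principalBlock M G) := by
    intro y hy
    have hdef : Cfsg.InducedBlockDefined M (Subgroup.centralizer ({y} : Set G))
        (Cfsg.principalBlock M ↥(Subgroup.centralizer ({y} : Set G))) := by
      refine Cfsg.Agent.S0919.result p M hM (Subgroup.zpowers y)
        (Subgroup.centralizer ({y} : Set G)) ?_ ?_ ?_ ?_ _
        (Cfsg.Agent.H80.isPBlock_principalBlock M _)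
      · obtain ⟨k, hk⟩ := hy
        exact IsPGroup.of_card (n := k) (by rw [Nat.card_zpowers, hk])
      · rw [Subgroup.zpowers_le]
        exact Subgroup.mem_centralizer_iff.mpr (fun h hh => by
          rw [Set.mem_singleton_iff] at hh
          rw [hh])
      · exact Subgroup.centralizer_le (by
          intro h hh
          rw [Set.mem_singleton_iff] at hh
          rw [hh]
          exact Subgroup.mem_zpowers y)
      · intro g hg
        have hc : g ∈ Subgroup.centralizer ((Subgroup.zpowers y : Subgroup G) : Set G) := by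
          rw [Subgroup.mem_centralizer_iff]
          intro h hh
          obtain ⟨k, rfl⟩ := Subgroup.mem_zpowers_iff.mp hh
          have h1 : Commute y g := Subgroup.mem_centralizer_iff.mp hg y rfl
          exact h1.zpow_left k
        exact Subgroup.centralizer_le_normalizer _ hc
    exact (Cfsg.Agent.H84.third_main p hM _ _ hdef).mpr rfl
  -- a suitable `p`-element
  obtain ⟨x, ⟨k, hxk⟩, hxC⟩ := hx
  have hGpos : Nat.card G ≠ 0 := Nat.card_pos.ne'
  have hfacle : ∀ K : Subgroup G, (Nat.card K).factorization p ≤ (Nat.card G).factorization p :=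
    fun K => (Nat.factorization_le_iff_dvd Nat.card_pos.ne' hGpos).mpr
      (Subgroup.card_subgroup_dvd_card K) p
  have key : ∃ (x : G) (k : ℕ), orderOf x = p ^ k ∧
      (Nat.card (Subgroup.centralizer ({x} : Set G))).factorization p ≤ 2 ∧
      (Nat.card (Subgroup.centralizer ({x} : Set G))).factorization p ≤ k + 1 ∧
      (1 ≤ k ∨ (Nat.card (Subgroup.centralizer ({x} : Set G))).factorization p = 0) := by
    by_cases hk0 : k = 0
    · have hx1 : x = 1 := by
        rw [hk0, pow_zero] at hxk
        exact orderOf_eq_one_iff.mp hxk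
      have hCG : Nat.card (Subgroup.centralizer ({x} : Set G)) = Nat.card G := by
        have htop : Subgroup.centralizer ({x} : Set G) = ⊤ := by
          ext g
          rw [Subgroup.mem_centralizer_singleton_iff, hx1]
          simp
        rw [htop, Subgroup.card_top]
      rw [hCG] at hxC
      by_cases hdvd : p ∣ Nat.card G
      · obtain ⟨u, hu⟩ := exists_prime_orderOf_dvd_card' p hdvd
        exact ⟨u, 1, by rw [hu, pow_one], (hfacle _).trans hxC, (hfacle _).trans hxC,
          Or.inl le_rfl⟩
      · have h0 : (Nat.card G).factorization p = 0 := Nat.factorization_eq_zero_of_not_dvd hdvd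
        have h1 : (Nat.card (Subgroup.centralizer ({x} : Set G))).factorization p = 0 := by
          rw [hCG]
          exact h0
        exact ⟨x, k, hxk, by omega, by omega, Or.inr h1⟩
    · exact ⟨x, k, hxk, hxC, by omega, Or.inl (by omega)⟩
  obtain ⟨x, k, hxk, hC2, hCk, hk1⟩ := key
  letI : Fintype (Subgroup.centralizer ({x} : Set G)) := Fintype.ofFinite _
  have hxCc : ∀ c ∈ Subgroup.centralizer ({x} : Set G), x * c = c * x := fun c hc =>
    (Subgroup.mem_centralizer_singleton_iff.mp hc).symm
  have hCx : ∀ g : G, g * x = x * g → g ∈ Subgroup.centralizer ({x} : Set G) := fun g hg =>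
    Subgroup.mem_centralizer_singleton_iff.mpr hg
  have hmain := Cfsg.Agent.H84.card_le_sq_of_small_centralizer hM h2 x k hxk _ hxCc hCx hC2 hCk
    hk1 (hindall x ⟨k, hxk⟩)
    (Cfsg.Agent.H84.irrFinset {χ : Cfsg.IrrCharacter G | χ ∈ Cfsg.principalBlock M G ∧
      ¬ p ∣ Cfsg.charDegree (χ : G → ℂ)})
    (fun χ hχ => Cfsg.Agent.H84.mem_irrFinset.mp hχ)
  rw [Cfsg.Agent.H84.card_irrFinset] at hmain
  exact hmain

end Cfsg.Agent.S4588
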