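import Cfsg.Statements.S4602
import Cfsg.Agent.H80.PSolvable

set_option autoImplicit false
set_option linter.style.haveILetI false
set_option linter.unusedVariables false
open Cfsg

namespace Cfsg.Agent.S4602

open Cfsg.Agent.H80

/-- In a finite `p`-solvable group, a Sylow `q`-subgroup (`q ≠ p`) normalized by a Sylow
`p`-subgroup lies in `O_{p'}(G)`. -/
theorem sylow_le_pPrimeCore {G : Type*} [Group G] [Finite G] (p q : ℕ) [Fact p.Prime] [Fact q.Prime]
    (hpq : p ≠ q) (hsolv : Cfsg.IsPSolvable p G) (P : Sylow p G) (Q : Subgroup G) (hQ : IsPGroup q Q)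
    (hPQ : (P : Subgroup G) ≤ Subgroup.normalizer (Q : Set G)) :
    Q ≤ Cfsg.pPrimeCore p G := by
  set K := Cfsg.pPrimeCore p G with hK
  have hcore' : pPrimeCore p (G ⧸ K) = ⊥ := pPrimeCore_quotient_eq_bot p
  have hsolv' : IsPSolvable p (G ⧸ K) := isPSolvable_quotient p K hsolv
  have hHH := centralizer_pCore_le p hsolv' hcore'
  set U := pCore p (G ⧸ K) with hU
  have hUp : IsPGroup p U := pCore_isPGroup p (G ⧸ K)
  have hUn : U.Normal := inferInstance
  let Pbar : Sylow p (G ⧸ K) := P.mapSurjective (QuotientGroup.mk'_surjective K)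
  have hUP : U ≤ (P : Subgroup G).map (QuotientGroup.mk' K) := by
    have := hUp.le_sylow_of_normal Pbar
    rwa [Sylow.coe_mapSurjective] at this
  set Qbar := Q.map (QuotientGroup.mk' K) with hQbar
  have hQbarq : IsPGroup q Qbar := hQ.map _
  have hPn : (P : Subgroup G).map (QuotientGroup.mk' K) ≤ Subgroup.normalizer (Qbar : Set (G ⧸ K)) :=
    (Subgroup.map_mono hPQ).trans (Subgroup.le_normalizer_map _)
  have hdisj : U ⊓ Qbar = ⊥ :=
    disjoint_iff.mp (IsPGroup.disjoint_of_ne p q hpq U Qbar hUp hQbarq)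
  have hcent : Qbar ≤ Subgroup.centralizer (U : Set (G ⧸ K)) := by
    intro y hy
    rw [Subgroup.mem_centralizer_iff]
    intro u hu
    have hun := Subgroup.mem_normalizer_iff.mp (hPn (hUP hu))
    have m1 : u * y * u⁻¹ * y⁻¹ ∈ Qbar := Qbar.mul_mem ((hun y).mp hy) (Qbar.inv_mem hy)
    have m2 : u * y * u⁻¹ * y⁻¹ ∈ U := by
      have : u * y * u⁻¹ * y⁻¹ = u * (y * u⁻¹ * y⁻¹) := by group
      rw [this]
      exact U.mul_mem hu (hUn.conj_mem _ (U.inv_mem hu) y)
    have m : u * y * u⁻¹ * y⁻¹ ∈ U ⊓ Qbar := ⟨m2, m1⟩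
    rw [hdisj, Subgroup.mem_bot] at m
    have : u * y = (u * y * u⁻¹ * y⁻¹) * (y * u) := by group
    rw [this, m, one_mul]
  have hQbar_bot : Qbar = ⊥ := by
    rw [eq_bot_iff, ← hdisj]
    exact le_inf (hcent.trans hHH) le_rfl
  intro x hx
  have h1 : (QuotientGroup.mk' K) x ∈ Qbar := Subgroup.mem_map_of_mem _ hx
  rw [hQbar_bot, Subgroup.mem_bot] at h1
  have h2 : x ∈ (QuotientGroup.mk' K).ker := h1
  rwa [QuotientGroup.ker_mk'] at h2

theorem result {G : Type*} [Group G] [Finite G] (p q : ℕ) [Fact p.Prime] [Fact q.Prime] (hpq : p ≠ q) (hsolv : Cfsg.IsPSolvable p G) :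
    (∃ (P : Sylow p G) (Q : Sylow q G), (P : Subgroup G) ≤ Subgroup.normalizer ((Q : Subgroup G) : Set G)) ↔ ¬ q ∣ (Cfsg.pPrimeCore p G).index := by
  constructor
  · rintro ⟨P, Q, hPQ⟩
    have hQK := sylow_le_pPrimeCore p q hpq hsolv P (Q : Subgroup G) Q.isPGroup' hPQ
    intro hdvd
    exact Q.not_dvd_index (hdvd.trans (Subgroup.index_dvd_of_le hQK))
  · intro hq
    set K := Cfsg.pPrimeCore p G with hK
    obtain ⟨Q₀⟩ : Nonempty (Sylow q K) := inferInstance
    obtain ⟨Q, hQ⟩ := exists_sylow_of_sylow_subgroup q K hq Q₀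
    have hfr : Subgroup.normalizer (((Q₀ : Subgroup K).map K.subtype : Subgroup G) : Set G) ⊔ K = ⊤ :=
      Sylow.normalizer_sup_eq_top Q₀
    rw [← hQ] at hfr
    have hidx : ¬ p ∣ (Subgroup.normalizer ((Q : Subgroup G) : Set G)).index := by
      intro hdvd
      have h1 := hdvd.trans (index_dvd_card_of_sup_eq_top _ K hfr)
      have h2 : (Nat.card K).Coprime p := pPrimeCore_coprime p G
      exact (Nat.Prime.coprime_iff_not_dvd Fact.out).mp h2.symm h1
    obtain ⟨P₀⟩ : Nonempty (Sylow p (Subgroup.normalizer ((Q : Subgroup G) : Set G))) := inferInstance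
    obtain ⟨P, hP⟩ := exists_sylow_of_sylow_subgroup p _ hidx P₀
    refine ⟨P, Q, ?_⟩
    rw [hP]
    exact Subgroup.map_subtype_le _

end Cfsg.Agent.S4602
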