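import Cfsg.Statements.S4601
import Cfsg.Agent.H80.SylowNorm
import Cfsg.Agent.S4602

set_option autoImplicit false
set_option linter.style.haveILetI false
set_option linter.unusedVariables false
open Cfsg
open scoped Pointwise

namespace Cfsg.Agent.S4601

open Cfsg.Agent.H80

universe u

/-- The class-size hypothesis: no `q`-element has class size divisible by `p`. -/
def Hyp (G : Type*) [Group G] (p q : ℕ) : Prop :=
  ∀ y : G, (∃ k : ℕ, orderOf y = q ^ k) → ¬ p ∣ (Subgroup.centralizer ({y} : Set G)).index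

theorem orderOf_of_mem_sylow {G : Type*} [Group G] (q : ℕ) [Fact q.Prime] (Q : Sylow q G) (y : G)
    (hy : y ∈ (Q : Subgroup G)) : ∃ j : ℕ, orderOf y = q ^ j := by
  obtain ⟨k, hk⟩ := Q.isPGroup' ⟨y, hy⟩
  have h1 : y ^ q ^ k = 1 := by
    have := congrArg Subtype.val hk
    simpa using this
  obtain ⟨j, _, hj⟩ := (Nat.dvd_prime_pow Fact.out).mp (orderOf_dvd_of_pow_eq_one h1)
  exact ⟨j, hj⟩

theorem hyp_quotient {G : Type*} [Group G] [Finite G] (p q : ℕ) [Fact q.Prime] (N : Subgroup G)
    [N.Normal] (h : Hyp G p q) : Hyp (G ⧸ N) p q := by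
  intro yb ⟨k, hk⟩
  have hz : IsPGroup q (Subgroup.zpowers yb) := IsPGroup.of_card (n := k) (by rw [Nat.card_zpowers, hk])
  obtain ⟨Qb, hQb⟩ := hz.exists_le_sylow
  obtain ⟨Q, hQ⟩ := Sylow.mapSurjective_surjective (QuotientGroup.mk'_surjective N) q Qb
  have hyb : yb ∈ (Qb : Subgroup (G ⧸ N)) := hQb (Subgroup.mem_zpowers yb)
  rw [← hQ, Sylow.coe_mapSurjective] at hyb
  obtain ⟨y, hy, rfl⟩ := hyb
  have h1 := h y (orderOf_of_mem_sylow q Q y hy)
  intro hdvd
  apply h1
  have h2 : (Subgroup.centralizer ({y} : Set G)).map (QuotientGroup.mk' N) ≤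
      Subgroup.centralizer ({(QuotientGroup.mk' N) y} : Set (G ⧸ N)) := by
    rintro _ ⟨x, hx, rfl⟩
    rw [Subgroup.mem_centralizer_iff]
    intro h hh
    rw [Set.mem_singleton_iff] at hh
    subst hh
    have := Subgroup.mem_centralizer_iff.mp hx y rfl
    rw [← map_mul, ← map_mul, this]
  exact (hdvd.trans (Subgroup.index_dvd_of_le h2)).trans
    (Subgroup.index_map_dvd _ (QuotientGroup.mk'_surjective N))

theorem exists_sylow_le_centralizer {G : Type*} [Group G] [Finite G] (p : ℕ) [Fact p.Prime] (y : G)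
    (h : ¬ p ∣ (Subgroup.centralizer ({y} : Set G)).index) :
    ∃ P : Sylow p G, (P : Subgroup G) ≤ Subgroup.centralizer ({y} : Set G) := by
  obtain ⟨P₀⟩ : Nonempty (Sylow p (Subgroup.centralizer ({y} : Set G))) := inferInstance
  obtain ⟨P, hP⟩ := exists_sylow_of_sylow_subgroup p _ h P₀
  exact ⟨P, by rw [hP]; exact Subgroup.map_subtype_le _⟩

theorem lift_normalizing {G : Type*} [Group G] [Finite G] (p q : ℕ) [Fact p.Prime] [Fact q.Prime]
    (N : Subgroup G) [N.Normal] (Pb : Sylow p (G ⧸ N)) (Qb : Sylow q (G ⧸ N))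
    (h : (Pb : Subgroup (G ⧸ N)) ≤ Subgroup.normalizer ((Qb : Subgroup (G ⧸ N)) : Set (G ⧸ N))) :
    ∃ (P : Sylow p G) (Q : Sylow q G),
      (P : Subgroup G) ≤ Subgroup.normalizer ((((Q : Subgroup G) ⊔ N : Subgroup G)) : Set G) := by
  obtain ⟨P, hP⟩ := Sylow.mapSurjective_surjective (QuotientGroup.mk'_surjective N) p Pb
  obtain ⟨Q, hQ⟩ := Sylow.mapSurjective_surjective (QuotientGroup.mk'_surjective N) q Qb
  refine ⟨P, Q, ?_⟩
  intro x hx
  have h1 : (QuotientGroup.mk' N) x ∈ (Pb : Subgroup (G ⧸ N)) := by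
    rw [← hP, Sylow.coe_mapSurjective]; exact Subgroup.mem_map_of_mem _ hx
  have h2 := h h1
  rw [← hQ, Sylow.coe_mapSurjective] at h2
  have h3 : x ∈ (Subgroup.normalizer (((Q : Subgroup G).map (QuotientGroup.mk' N) : Subgroup (G ⧸ N)) : Set (G ⧸ N))).comap (QuotientGroup.mk' N) := h2
  have h4 := Subgroup.le_normalizer_comap (QuotientGroup.mk' N) h3
  rwa [Subgroup.comap_map_eq, QuotientGroup.ker_mk'] at h4

theorem card_quotient_lt {G : Type*} [Group G] [Finite G] (N : Subgroup G) [N.Normal] (hN : N ≠ ⊥) :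
    Nat.card (G ⧸ N) < Nat.card G := by
  have h1 := Subgroup.index_mul_card N
  rw [Subgroup.index_eq_card] at h1
  have h2 : Nat.card N ≠ 1 := fun h => hN (Subgroup.card_eq_one.mp h)
  have h3 : 0 < Nat.card N := Nat.card_pos
  have h4 : 0 < Nat.card (G ⧸ N) := Nat.card_pos
  have h5 : 2 ≤ Nat.card N := by omega
  nlinarith

/-- A finite `q`-solvable group with `O_q = O_{q'} = 1` is trivial. -/
theorem top_eq_bot_of_cores {G : Type*} [Group G] [Finite G] (q : ℕ) [Fact q.Prime]
    (hsolv : IsPSolvable q G) (h1 : pCore q G = ⊥) (h2 : pPrimeCore q G = ⊥) :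
    (⊤ : Subgroup G) = ⊥ := by
  obtain ⟨n, Hs, h0, hlast, hmono, hnorm, hfac⟩ := hsolv
  have key : ∀ i : Fin (n + 1), Hs i = ⊥ := by
    intro i
    induction i using Fin.induction with
    | zero => exact h0
    | succ i ih =>
      have hf := hfac i
      rw [ih, Subgroup.relIndex_bot_left] at hf
      rcases hf with ⟨m, hm⟩ | hcop
      · have := le_pCore q (Hs i.succ) (hnorm _) (IsPGroup.of_card hm)
        rw [h1] at this
        exact eq_bot_iff.mpr this
      · have := le_pPrimeCore q (Hs i.succ) (hnorm _) hcop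
        rw [h2] at this
        exact eq_bot_iff.mpr this
  rw [← hlast]; exact key _

theorem map_subtype_conj_smul {G : Type*} [Group G] (K : Subgroup G) (k : K) (A : Subgroup K) :
    (MulAut.conj k • A).map K.subtype = MulAut.conj (k : G) • A.map K.subtype := by
  ext x
  rw [mem_conj_smul_iff]
  constructor
  · rintro ⟨a, ha, rfl⟩
    have ha' : a ∈ MulAut.conj k • A := ha
    rw [mem_conj_smul_iff] at ha'
    exact ⟨k⁻¹ * a * k, ha', rfl⟩
  · rintro ⟨a, ha, hax⟩
    refine ⟨k * a * k⁻¹, ?_, ?_⟩
    · rw [SetLike.mem_coe, mem_conj_smul_iff]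
      have : k⁻¹ * (k * a * k⁻¹) * k = a := by group
      rw [this]; exact ha
    · simp only [Subgroup.coe_subtype, Subgroup.coe_mul, Subgroup.coe_inv] at hax ⊢
      rw [hax]; group

/-- For `K` normal, `P ⊓ K` is a Sylow `p`-subgroup of `K`. -/
theorem exists_sylow_inf_normal {G : Type*} [Group G] [Finite G] (p : ℕ) [Fact p.Prime]
    (P : Sylow p G) (K : Subgroup G) [K.Normal] :
    ∃ S : Sylow p K, (S : Subgroup K).map K.subtype = (P : Subgroup G) ⊓ K := by
  have hp : p.Prime := Fact.out
  have h1 : IsPGroup p (((P : Subgroup G) ⊓ K).subgroupOf K) :=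
    (P.isPGroup'.to_le inf_le_left).comap_subtype
  have h2 : ¬ p ∣ (((P : Subgroup G) ⊓ K).subgroupOf K).index := by
    intro hdvd
    have e : (((P : Subgroup G) ⊓ K).subgroupOf K).index = ((P : Subgroup G) ⊓ K).relIndex K := rfl
    rw [e, ← relIndex_sup_eq_inf_relIndex] at hdvd
    have h3 := Subgroup.relIndex_mul_index (H := (P : Subgroup G)) (K := (P : Subgroup G) ⊔ K) le_sup_left
    exact P.not_dvd_index (h3 ▸ Dvd.dvd.mul_right hdvd _)
  refine ⟨h1.toSylow h2, ?_⟩
  rw [IsPGroup.toSylow_coe, Subgroup.map_subgroupOf_eq_of_le inf_le_right]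

/-- The `q`-solvable case, by induction on the group order. -/
theorem qsolv_case (p q : ℕ) [Fact p.Prime] [Fact q.Prime] (hpq : p ≠ q) :
    ∀ (n : ℕ) (G : Type u) [Group G] [Finite G], Nat.card G = n → IsPSolvable q G → Hyp G p q →
      ∃ (P : Sylow p G) (Q : Sylow q G),
        (P : Subgroup G) ≤ Subgroup.normalizer ((Q : Subgroup G) : Set G) := by
  have hp : p.Prime := Fact.out
  have hq : q.Prime := Fact.out
  intro n
  induction n using Nat.strong_induction_on with
  | _ n ih =>
    intro G _ _ hn hsolv hyp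
    by_cases hOq : pCore q G = ⊥
    · by_cases hqd : q ∣ Nat.card G
      · -- K = O_{q'}(G) is nontrivial
        set K := pPrimeCore q G with hKdef
        have hK1 : K ≠ ⊥ := by
          intro hK0
          have h1 := top_eq_bot_of_cores q hsolv hOq hK0
          have h2 : Nat.card G = 1 := by
            rw [← Subgroup.card_top (G := G), h1]; simp
          rw [h2] at hqd
          exact hq.one_lt.ne' (Nat.dvd_one.mp hqd)
        have hKc : (Nat.card K).Coprime q := pPrimeCore_coprime q G
        have hlt : Nat.card (G ⧸ K) < n := hn ▸ card_quotient_lt K hK1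
        obtain ⟨Pb, Qb, hPQb⟩ := ih _ hlt (G ⧸ K) rfl (isPSolvable_quotient q K hsolv)
          (hyp_quotient p q K hyp)
        obtain ⟨P, Q, hPX⟩ := lift_normalizing p q K Pb Qb hPQb
        set X : Subgroup G := (Q : Subgroup G) ⊔ K with hX
        -- Claim 1: a Sylow p-subgroup of K centralized by Q
        obtain ⟨S, hS⟩ := exists_sylow_normalized p q K hKc (Q : Subgroup G) Q.isPGroup'
        set S' : Subgroup G := (S : Subgroup K).map K.subtype with hS'
        have hcent : ∀ u ∈ (Q : Subgroup G), u ∈ Subgroup.centralizer (S' : Set G) := by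
          intro u hu
          have hord := orderOf_of_mem_sylow q Q u hu
          obtain ⟨Pu, hPu⟩ := exists_sylow_le_centralizer p u (hyp u hord)
          obtain ⟨Su, hSu⟩ := exists_sylow_inf_normal p Pu K
          obtain ⟨k, hk⟩ := MulAction.exists_smul_eq K Su S
          have hT : S' = MulAut.conj (k : G) • ((Pu : Subgroup G) ⊓ K) := by
            rw [hS', ← hk, Sylow.coe_subgroup_smul, map_subtype_conj_smul, hSu]
          apply centralizes_of_normalizes q K hKc S' ((Pu : Subgroup G) ⊓ K) (k : G) k.2 hT u hord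
            (hS hu)
          rw [Subgroup.mem_centralizer_iff]
          intro t ht
          have := Subgroup.mem_centralizer_iff.mp (hPu ht.1) u rfl
          exact this.symm
        -- final index computation
        set M : Subgroup G := Subgroup.normalizer ((Q : Subgroup G) : Set G) ⊓
          Subgroup.normalizer (X : Set G) with hM
        have hQM : (Q : Subgroup G) ≤ M :=
          le_inf Subgroup.le_normalizer (le_sup_left.trans Subgroup.le_normalizer)
        have hNX := normalizer_le_sup_of_sylow q X Q le_sup_left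
        have hXM : X ⊔ M = M ⊔ K := by
          rw [hX]
          apply le_antisymm
          · exact sup_le (sup_le (hQM.trans le_sup_left) le_sup_right) le_sup_left
          · exact sup_le le_sup_right (le_sup_right.trans le_sup_left)
        rw [hXM] at hNX
        have hPMK : (P : Subgroup G) ≤ M ⊔ K := hPX.trans hNX
        have hS'K : S' ≤ K := Subgroup.map_subtype_le _
        have hS'M : S' ≤ M := by
          refine le_inf ?_ (hS'K.trans (le_sup_right.trans Subgroup.le_normalizer))
          refine le_trans ?_ (Subgroup.centralizer_le_normalizer _)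
          intro s hs
          rw [Subgroup.mem_centralizer_iff]
          intro u hu
          exact (Subgroup.mem_centralizer_iff.mp (hcent u hu) s hs).symm
        have h1 : ¬ p ∣ M.relIndex (M ⊔ K) := by
          rw [relIndex_sup_eq_inf_relIndex]
          intro hdvd
          have h2 := hdvd.trans (Subgroup.relIndex_dvd_of_le_left K (le_inf hS'M hS'K))
          have e : S'.relIndex K = (S : Subgroup K).index := by
            rw [Subgroup.relIndex, hS', Subgroup.subgroupOf,
              Subgroup.comap_map_eq_self_of_injective K.subtype_injective]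
          rw [e] at h2
          exact S.not_dvd_index h2
        have h2 : ¬ p ∣ (M ⊔ K).index := fun hdvd =>
          P.not_dvd_index (hdvd.trans (Subgroup.index_dvd_of_le hPMK))
        have h3 : ¬ p ∣ M.index := by
          rw [← Subgroup.relIndex_mul_index (H := M) (K := M ⊔ K) le_sup_left]
          intro hdvd
          rcases (Nat.Prime.dvd_mul hp).mp hdvd with h | h
          · exact h1 h
          · exact h2 h
        have h4 : ¬ p ∣ (Subgroup.normalizer ((Q : Subgroup G) : Set G)).index := fun hdvd =>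
          h3 (hdvd.trans (Subgroup.index_dvd_of_le inf_le_left))
        obtain ⟨P₀⟩ : Nonempty (Sylow p (Subgroup.normalizer ((Q : Subgroup G) : Set G))) := inferInstance
        obtain ⟨P', hP'⟩ := exists_sylow_of_sylow_subgroup p _ h4 P₀
        exact ⟨P', Q, by rw [hP']; exact Subgroup.map_subtype_le _⟩
      · -- the Sylow q-subgroup is trivial
        obtain ⟨P⟩ : Nonempty (Sylow p G) := inferInstance
        obtain ⟨Q⟩ : Nonempty (Sylow q G) := inferInstance
        refine ⟨P, Q, ?_⟩
        have h1 : Nat.card (Q : Subgroup G) = 1 := by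
          rw [Sylow.card_eq_multiplicity, Nat.factorization_eq_zero_of_not_dvd hqd, pow_zero]
        rw [Subgroup.card_eq_one.mp h1, Subgroup.normalizer_eq_top]
        exact le_top
    · -- pass to G / O_q(G)
      set N := pCore q G with hNdef
      have hlt : Nat.card (G ⧸ N) < n := hn ▸ card_quotient_lt N hOq
      obtain ⟨Pb, Qb, hPQb⟩ := ih _ hlt (G ⧸ N) rfl (isPSolvable_quotient q N hsolv)
        (hyp_quotient p q N hyp)
      obtain ⟨P, Q, hPX⟩ := lift_normalizing p q N Pb Qb hPQb
      have hNQ : N ≤ (Q : Subgroup G) := (pCore_isPGroup q G).le_sylow_of_normal Q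
      rw [sup_eq_left.mpr hNQ] at hPX
      exact ⟨P, Q, hPX⟩

theorem result {G : Type*} [Group G] [Finite G] (p q : ℕ) [Fact p.Prime] [Fact q.Prime] (hsolv : Cfsg.IsPSolvable p G ∨ Cfsg.IsPSolvable q G)
    (h : ∀ y : G, (∃ k : ℕ, orderOf y = q ^ k) → ¬ p ∣ (Subgroup.centralizer ({y} : Set G)).index) :
    ∃ (P : Sylow p G) (Q : Sylow q G), (P : Subgroup G) ≤ Subgroup.normalizer ((Q : Subgroup G) : Set G) := by
  by_cases hpq : p = q
  · subst hpq
    obtain ⟨P⟩ : Nonempty (Sylow p G) := inferInstance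
    exact ⟨P, P, Subgroup.le_normalizer⟩
  rcases hsolv with hs | hs
  · -- p-solvable: Sylow q-subgroups lie in O_{p'}(G)
    apply (Cfsg.Agent.S4602.result p q hpq hs).mpr
    obtain ⟨Q⟩ : Nonempty (Sylow q G) := inferInstance
    set K := Cfsg.pPrimeCore p G with hK
    have hcore' : pPrimeCore p (G ⧸ K) = ⊥ := pPrimeCore_quotient_eq_bot p
    have hsolv' : IsPSolvable p (G ⧸ K) := isPSolvable_quotient p K hs
    have hHH := centralizer_pCore_le p hsolv' hcore'
    have hUp : IsPGroup p (pCore p (G ⧸ K)) := pCore_isPGroup p (G ⧸ K)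
    have hQK : (Q : Subgroup G) ≤ K := by
      intro u hu
      have hord := orderOf_of_mem_sylow q Q u hu
      obtain ⟨Pu, hPu⟩ := exists_sylow_le_centralizer p u (h u hord)
      let Pbar : Sylow p (G ⧸ K) := Pu.mapSurjective (QuotientGroup.mk'_surjective K)
      have hUP : pCore p (G ⧸ K) ≤ (Pu : Subgroup G).map (QuotientGroup.mk' K) := by
        have := hUp.le_sylow_of_normal Pbar
        rwa [Sylow.coe_mapSurjective] at this
      have h1 : (QuotientGroup.mk' K) u ∈ Subgroup.centralizer ((pCore p (G ⧸ K) : Subgroup (G ⧸ K)) : Set (G ⧸ K)) := by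
        rw [Subgroup.mem_centralizer_iff]
        intro v hv
        obtain ⟨x, hx, rfl⟩ := hUP hv
        have := Subgroup.mem_centralizer_iff.mp (hPu hx) u rfl
        rw [← map_mul, ← map_mul, this]
      have h2 : (QuotientGroup.mk' K) u ∈ pCore p (G ⧸ K) := hHH h1
      have h3 : (QuotientGroup.mk' K) u ∈ (Q : Subgroup G).map (QuotientGroup.mk' K) :=
        Subgroup.mem_map_of_mem _ hu
      have hdisj : pCore p (G ⧸ K) ⊓ (Q : Subgroup G).map (QuotientGroup.mk' K) = ⊥ :=
        disjoint_iff.mp (IsPGroup.disjoint_of_ne p q hpq _ _ hUp (Q.isPGroup'.map _))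
      have h4 : (QuotientGroup.mk' K) u ∈ pCore p (G ⧸ K) ⊓ (Q : Subgroup G).map (QuotientGroup.mk' K) :=
        ⟨h2, h3⟩
      rw [hdisj, Subgroup.mem_bot] at h4
      have h5 : u ∈ (QuotientGroup.mk' K).ker := h4
      rwa [QuotientGroup.ker_mk'] at h5
    intro hdvd
    exact Q.not_dvd_index (hdvd.trans (Subgroup.index_dvd_of_le hQK))
  · exact qsolv_case p q hpq (Nat.card G) G rfl hs h

end Cfsg.Agent.S4601
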