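import Cfsg.Statements.S4604
import Cfsg.Agent.H4.PSection2

set_option autoImplicit false
open Cfsg

namespace Cfsg.Agent.S4604

/-- Let G be a finite group, p a prime and p^a the p-part of the order of G. Let x, y ∈ G and let x′, y′ be their p-regular parts: x′ has order prime to p, commutes with x·x′⁻¹, and x·x′⁻¹ has p-power order (likewise for y). Then x′ and y′ are conjugate in G if and only if for every irreducible character χ of G the algebraic integer χ(x)^(p^a) − χ(y)^(p^a) is p times an algebraic integer. -/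
theorem result {G : Type*} [Group G] [Finite G] (p : ℕ) [Fact p.Prime] (x y x' y' : G)
    (hx : (∃ k : ℕ, orderOf (x * x'⁻¹) = p ^ k) ∧ Commute (x * x'⁻¹) x' ∧ ¬ p ∣ orderOf x')
    (hy : (∃ k : ℕ, orderOf (y * y'⁻¹) = p ^ k) ∧ Commute (y * y'⁻¹) y' ∧ ¬ p ∣ orderOf y') :
    IsConj x' y' ↔ ∀ χ : Cfsg.IrrCharacter G, ∃ γ : Cfsg.AlgInt,
      (χ : G → ℂ) x ^ (p ^ (Nat.card G).factorization p) - (χ : G → ℂ) y ^ (p ^ (Nat.card G).factorization p) = (p : ℂ) * (γ : ℂ) := by
  have ha : Cfsg.IsPPart p x (x * x'⁻¹) := ⟨x', by group, hx.2.1, hx.1, hx.2.2⟩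
  have hb : Cfsg.IsPPart p y (y * y'⁻¹) := ⟨y', by group, hy.2.1, hy.1, hy.2.2⟩
  have h := Cfsg.Agent.H4.isConj_pRegular_iff_pow p (Fact.out) x y _ _ ha hb
  have e1 : (x * x'⁻¹)⁻¹ * x = x' := by group
  have e2 : (y * y'⁻¹)⁻¹ * y = y' := by group
  rw [e1, e2] at h
  exact h

end Cfsg.Agent.S4604
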