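import Cfsg.Statements.S4607
import Cfsg.Agent.H81.Brandt2

set_option autoImplicit false
set_option linter.style.haveILetI false
open Cfsg

namespace Cfsg.Agent.S4607

/-- Let G be a finite group, p a prime, M a maximal ideal of the algebraic integers containing p, and B a p-block of G with defect group D. Then B contains exactly two irreducible characters if and only if D has order 2. -/
theorem result {G : Type*} [Group G] [Finite G] (p : ℕ) [Fact p.Prime] (M : Ideal Cfsg.AlgInt) (hM : Cfsg.IsPModular p M) (B : Set (Cfsg.IrrCharacter G)) (hB : Cfsg.IsPBlock M B) (D : Subgroup G) (hD : Cfsg.IsDefectGroup p M B D) : Nat.card B = 2 ↔ Nat.card D = 2 := by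
  classical
  letI : Fintype G := Fintype.ofFinite G
  have hMp := Cfsg.Agent.H20.isPrime_of_isPModular hM
  obtain ⟨χ₀, rfl⟩ := hB
  constructor
  · intro h
    rw [Nat.card_coe_set_eq] at h
    obtain ⟨χ₁, χ₂, hne, hpair⟩ := Set.ncard_eq_two.mp h
    have h1 : χ₁ ∈ blockOf M (χ₀ : G → ℂ) := by rw [hpair]; simp
    have hB1 : blockOf M (χ₁ : G → ℂ) = {χ₁, χ₂} := by
      rw [Cfsg.Agent.H80.blockOf_eq_of_mem hMp h1, hpair]
    rw [← Cfsg.Agent.H80.blockOf_eq_of_mem hMp h1] at hD
    exact Cfsg.Agent.H81.Brandt.card_defect_of_pair hM χ₁ χ₂ hne hB1 D hD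
  · intro h
    have hp2 : p = 2 := by
      have hc := Cfsg.Agent.H20.card_defectGroup hM χ₀ D hD
      rw [h] at hc
      have hp : p.Prime := Fact.out
      have h3 : p ∣ 2 := by
        rw [hc]
        apply dvd_pow_self
        intro h0
        rw [h0, pow_zero] at hc
        omega
      exact (Nat.prime_dvd_prime_iff_eq hp Nat.prime_two).mp h3
    subst hp2
    exact Cfsg.Agent.H81.Brandt.card_block_of_defect_two hM χ₀ D hD h

end Cfsg.Agent.S4607
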