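import Cfsg.Statements.S4619

set_option autoImplicit false
open scoped Pointwise
open Cfsg

namespace Cfsg.Agent.S4619

theorem result {G : Type*} [Group G] [Finite G] (p : ℕ) [Fact p.Prime] (P : Sylow p G) (hTI : (∀ g : G, g ∉ Subgroup.normalizer ((P : Subgroup G) : Set G) → (P : Subgroup G) ⊓ (MulAut.conj g • (P : Subgroup G)) = ⊥)) (Q : Subgroup G) (hQ : Q ≤ (P : Subgroup G)) (hQ1 : Q ≠ ⊥) :
    Subgroup.normalizer (Q : Set G) ≤ Subgroup.normalizer ((P : Subgroup G) : Set G) ∧
      ∀ g : G, MulAut.conj g • Q ≤ (P : Subgroup G) → g ∈ Subgroup.normalizer ((P : Subgroup G) : Set G) := by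
  have key : ∀ g : G, MulAut.conj g • Q ≤ (P : Subgroup G) → g ∈ Subgroup.normalizer ((P : Subgroup G) : Set G) := by
    intro g hg
    by_contra hgn
    have hgn' : g⁻¹ ∉ Subgroup.normalizer ((P : Subgroup G) : Set G) := fun h => hgn (by simpa using inv_mem h)
    have h1 := hTI g⁻¹ hgn'
    apply hQ1
    rw [eq_bot_iff, ← h1]
    refine le_inf hQ ?_
    intro x hx
    rw [Subgroup.mem_pointwise_smul_iff_inv_smul_mem]
    apply hg
    rw [Subgroup.mem_pointwise_smul_iff_inv_smul_mem]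
    have e : (MulAut.conj g)⁻¹ • (MulAut.conj g⁻¹)⁻¹ • x = x := by
      simp only [MulAut.smul_def, map_inv, inv_inv, MulAut.conj_apply, MulAut.conj_inv_apply]
      group
    rw [e]; exact hx
  refine ⟨?_, key⟩
  intro g hg
  apply key
  intro x hx
  rw [Subgroup.mem_pointwise_smul_iff_inv_smul_mem] at hx
  have h2 := (Subgroup.mem_normalizer_iff.mp hg ((MulAut.conj g)⁻¹ • x)).mp hx
  have e : g * ((MulAut.conj g)⁻¹ • x) * g⁻¹ = x := by
    simp only [MulAut.smul_def, MulAut.conj_inv_apply]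
    group
  rw [e] at h2
  exact hQ h2

end Cfsg.Agent.S4619
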