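import Cfsg.Statements.S4620
import Cfsg.Agent.H80.GroupBasic
import Cfsg.Agent.S4619

set_option autoImplicit false
set_option linter.style.haveILetI false
set_option linter.unusedVariables false
open scoped Pointwise
open Cfsg

namespace Cfsg.Agent.S4620

open Cfsg.Agent.H80

variable {H : Type*} [Group H]

/-- The TI property: every Sylow `p`-subgroup meets its other conjugates trivially. -/
def TI (p : ℕ) (P : Subgroup H) : Prop :=
  ∀ g : H, g ∉ Subgroup.normalizer (P : Set H) → P ⊓ (MulAut.conj g • P) = ⊥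

/-- TI for one Sylow subgroup implies TI for every Sylow subgroup. -/
theorem ti_conj (p : ℕ) (P : Subgroup H) (hTI : TI p P) (a : H) : TI p (MulAut.conj a • P) := by
  intro g hg
  have h1 : a⁻¹ * g * a ∉ Subgroup.normalizer (P : Set H) := by
    intro hmem
    apply hg
    rw [Subgroup.mem_normalizer_iff] at hmem ⊢
    intro x
    rw [mem_conj_smul_iff, mem_conj_smul_iff, hmem (a⁻¹ * x * a)]
    have : a⁻¹ * g * a * (a⁻¹ * x * a) * (a⁻¹ * g * a)⁻¹ = a⁻¹ * (g * x * g⁻¹) * a := by group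
    rw [this]
  have h2 := hTI _ h1
  rw [eq_bot_iff]
  intro x hx
  have hx1 : a⁻¹ * x * a ∈ P := (mem_conj_smul_iff a x P).mp hx.1
  have hx2 : a⁻¹ * x * a ∈ MulAut.conj (a⁻¹ * g * a) • P := by
    rw [mem_conj_smul_iff]
    have hx2' := (mem_conj_smul_iff g x _).mp hx.2
    have hx3 := (mem_conj_smul_iff a _ P).mp hx2'
    have : (a⁻¹ * g * a)⁻¹ * (a⁻¹ * x * a) * (a⁻¹ * g * a) = a⁻¹ * (g⁻¹ * x * g) * a := by group
    rw [this]; exact hx3
  have h3 : a⁻¹ * x * a ∈ P ⊓ MulAut.conj (a⁻¹ * g * a) • P := ⟨hx1, hx2⟩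
  rw [h2, Subgroup.mem_bot] at h3
  rw [Subgroup.mem_bot]
  have : a * (a⁻¹ * x * a) * a⁻¹ = 1 := by rw [h3]; group
  simpa [mul_assoc] using this

theorem result {H : Type*} [Group H] [Finite H] (p : ℕ) [Fact p.Prime] (hOp : Cfsg.pCore p H = ⊥) (hOp' : Cfsg.pPrimeCore p H = ⊥) (P : Sylow p H) (hP1 : (P : Subgroup H) ≠ ⊥)
    (hTI : ∀ g : H, g ∉ Subgroup.normalizer ((P : Subgroup H) : Set H) → (P : Subgroup H) ⊓ (MulAut.conj g • (P : Subgroup H)) = ⊥) :
    ∃ N : Subgroup H, N.Normal ∧ N ≠ ⊥ ∧ (∀ K : Subgroup H, K.Normal → K ≠ ⊥ → N ≤ K) ∧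
      IsSimpleGroup N ∧ ¬ IsMulCommutative N ∧ Subgroup.centralizer (N : Set H) = ⊥ ∧
      ∀ Q : Sylow p N, (Q : Subgroup N) ≠ ⊥ ∧
        ∀ n : N, n ∉ Subgroup.normalizer ((Q : Subgroup N) : Set N) → (Q : Subgroup N) ⊓ (MulAut.conj n • (Q : Subgroup N)) = ⊥ := by
  classical
  have hp : p.Prime := Fact.out
  -- (A) nontrivial normal subgroups have order divisible by p
  have hA : ∀ K : Subgroup H, K.Normal → K ≠ ⊥ → p ∣ Nat.card K := by
    intro K hK hK1
    by_contra hnd
    apply hK1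
    rw [eq_bot_iff, ← hOp']
    exact le_pPrimeCore p K hK ((Nat.Prime.coprime_iff_not_dvd hp).mpr hnd).symm
  -- (B)
  have hB : ∀ K : Subgroup H, K.Normal → K ≠ ⊥ → (P : Subgroup H) ⊓ K ≠ ⊥ := by
    intro K hK hK1
    haveI := hK
    exact sylow_inf_normal_ne_bot p P K (hA K hK hK1)
  -- (C) anything centralizing a nontrivial subgroup of P normalizes P
  have hC : ∀ (Q : Subgroup H), Q ≤ (P : Subgroup H) → Q ≠ ⊥ → ∀ k : H, (∀ q ∈ Q, k * q = q * k) →
      k ∈ Subgroup.normalizer ((P : Subgroup H) : Set H) := by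
    intro Q hQ hQ1 k hk
    apply (Cfsg.Agent.S4619.result p P hTI Q hQ hQ1).1
    rw [Subgroup.mem_normalizer_iff]
    intro q
    constructor
    · intro hq
      rw [hk q hq]; simpa using hq
    · intro hq
      have := hk _ hq
      have e : k * q * k⁻¹ = q := by
        have h2 : k * (k * q * k⁻¹) = (k * q * k⁻¹) * k := this
        have h3 : k * q * k⁻¹ * k = k * q := by group
        rw [h3] at h2
        have h4 := mul_left_cancel h2
        exact h4
      rw [e] at hq; exact hq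
  -- (D) no nontrivial normal subgroup normalizes P
  have hD : ∀ K : Subgroup H, K.Normal → K ≠ ⊥ →
      ¬ K ≤ Subgroup.normalizer ((P : Subgroup H) : Set H) := by
    intro K hK hK1 hle
    have hn : ((P : Subgroup H) ⊓ K).Normal := by
      constructor
      intro n hn g
      refine ⟨?_, hK.conj_mem n hn.2 g⟩
      have h1 : IsPGroup p (MulAut.conj g • ((P : Subgroup H) ⊓ K) : Subgroup H) :=
        isPGroup_conj_smul g _ (P.isPGroup'.to_le inf_le_left)
      have h2 : (MulAut.conj g • ((P : Subgroup H) ⊓ K) : Subgroup H) ≤ K := by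
        intro x hx
        rw [mem_conj_smul_iff] at hx
        have := hK.conj_mem _ hx.2 g
        simpa [mul_assoc] using this
      exact le_sylow_of_le_normalizer P _ h1 (h2.trans hle) (conj_mem_conj_smul g n _ hn)
    have h3 : (P : Subgroup H) ⊓ K ≤ pCore p H := le_pCore p _ hn (P.isPGroup'.to_le inf_le_left)
    rw [hOp] at h3
    exact hB K hK hK1 (eq_bot_iff.mpr h3)
  -- a minimal normal subgroup
  have htop : (⊤ : Subgroup H) ≠ ⊥ := by
    intro h
    apply hP1
    rw [eq_bot_iff, ← h]; exact le_top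
  obtain ⟨N, ⟨hNn, hN1⟩, hNmin⟩ := exists_min_card {K : Subgroup H | K.Normal ∧ K ≠ ⊥}
    ⟨⊤, inferInstance, htop⟩
  haveI := hNn
  -- (F) centralizer of N is trivial
  have hF : Subgroup.centralizer (N : Set H) = ⊥ := by
    by_contra hne
    have hCn : (Subgroup.centralizer (N : Set H)).Normal := inferInstance
    apply hD _ hCn hne
    intro c hc
    apply hC ((P : Subgroup H) ⊓ N) inf_le_left (hB N hNn hN1) c
    intro q hq
    exact (Subgroup.mem_centralizer_iff.mp hc q hq.2).symm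
  -- (E) N is the unique minimal normal subgroup
  have hE : ∀ K : Subgroup H, K.Normal → K ≠ ⊥ → N ≤ K := by
    intro K hK hK1
    haveI := hK
    by_cases h : N ⊓ K = ⊥
    · exfalso
      apply hK1
      rw [eq_bot_iff, ← hF]
      intro k hk
      rw [Subgroup.mem_centralizer_iff]
      intro n hn
      exact Subgroup.commute_of_normal_of_disjoint N K hNn hK (disjoint_iff.mpr h) n k hn hk
    · have h1 : (N ⊓ K).Normal := inferInstance
      have h2 := hNmin (N ⊓ K) ⟨h1, h⟩
      have h3 : N ⊓ K = N := Subgroup.eq_of_le_of_card_ge inf_le_left h2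
      rw [← h3]; exact inf_le_right
  -- (G) N is not commutative
  have hG : ¬ IsMulCommutative N := by
    intro hcomm
    apply hN1
    rw [eq_bot_iff, ← hF]
    intro n hn
    rw [Subgroup.mem_centralizer_iff]
    intro m hm
    have := hcomm.is_comm.comm (⟨m, hm⟩ : N) ⟨n, hn⟩
    exact congrArg Subtype.val this
  -- (H) N is simple
  have hH : IsSimpleGroup N := by
    haveI : Nontrivial N := (Subgroup.nontrivial_iff_ne_bot N).mpr hN1
    refine ⟨fun K₀ hK₀ => ?_⟩
    by_contra hcon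
    push Not at hcon
    obtain ⟨hK₀bot, hK₀top⟩ := hcon
    let S₂ : Set (Subgroup H) := {T | T ≠ ⊥ ∧ T ≤ N ∧ N ≤ Subgroup.normalizer (T : Set H)}
    have hK₀mem : K₀.map N.subtype ∈ S₂ := by
      refine ⟨?_, Subgroup.map_subtype_le K₀, ?_⟩
      · rw [Ne, Subgroup.map_eq_bot_iff_of_injective _ N.subtype_injective]
        exact hK₀bot
      · intro n hn
        rw [Subgroup.mem_normalizer_iff]
        intro x
        constructor
        · rintro ⟨y, hy, rfl⟩
          exact ⟨⟨n, hn⟩ * y * ⟨n, hn⟩⁻¹, hK₀.conj_mem y hy ⟨n, hn⟩, rfl⟩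
        · rintro ⟨y, hy, hyx⟩
          refine ⟨⟨n, hn⟩⁻¹ * y * ⟨n, hn⟩, ?_, ?_⟩
          · have := hK₀.conj_mem y hy ⟨n, hn⟩⁻¹
            simpa using this
          · simp only [Subgroup.coe_subtype, Subgroup.coe_mul, Subgroup.coe_inv] at hyx ⊢
            rw [hyx]; group
    obtain ⟨K', hK'mem, hK'min⟩ := exists_min_card S₂ ⟨_, hK₀mem⟩
    obtain ⟨hK'1, hK'le, hK'n⟩ := hK'mem
    have hK'lt : Nat.card K' < Nat.card N := by
      have h1 := hK'min _ hK₀mem
      have h2 : Nat.card (K₀.map N.subtype) = Nat.card K₀ :=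
        Subgroup.card_map_of_injective N.subtype_injective
      have h3 : Nat.card K₀ < Nat.card N := by
        by_contra hge
        push Not at hge
        exact hK₀top (Subgroup.eq_top_of_le_card K₀ hge)
      omega
    -- conjugates of K' are again minimal members of S₂
    have hconj : ∀ h : H, (MulAut.conj h • K' : Subgroup H) ∈ S₂ := fun h =>
      ⟨conj_smul_ne_bot h K' hK'1, conj_smul_le_normal N h K' hK'le,
        normal_le_normalizer_conj_smul N h K' hK'n⟩
    -- (1) distinct minimal members commute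
    have hcomm : ∀ T₁ T₂ : Subgroup H, T₁ ∈ S₂ → T₂ ∈ S₂ → Nat.card T₁ = Nat.card K' →
        Nat.card T₂ = Nat.card K' → T₁ ≠ T₂ → ∀ a ∈ T₁, ∀ b ∈ T₂, a * b = b * a := by
      intro T₁ T₂ hT₁ hT₂ c₁ c₂ hne a ha b hb
      have hinf : T₁ ⊓ T₂ = ⊥ := by
        by_contra hne'
        have hmem : T₁ ⊓ T₂ ∈ S₂ := by
          refine ⟨hne', inf_le_left.trans hT₁.2.1, ?_⟩
          intro n hn
          have h1 := Subgroup.mem_normalizer_iff.mp (hT₁.2.2 hn)
          have h2 := Subgroup.mem_normalizer_iff.mp (hT₂.2.2 hn)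
          rw [Subgroup.mem_normalizer_iff]
          intro x
          rw [Subgroup.mem_inf, Subgroup.mem_inf, h1 x, h2 x]
        have h3 := hK'min _ hmem
        have e1 : T₁ ⊓ T₂ = T₁ := Subgroup.eq_of_le_of_card_ge inf_le_left (by rw [c₁]; exact h3)
        have e2 : T₁ ⊓ T₂ = T₂ := Subgroup.eq_of_le_of_card_ge inf_le_right (by rw [c₂]; exact h3)
        exact hne (e1.symm.trans e2)
      have ha' := Subgroup.mem_normalizer_iff.mp (hT₂.2.2 (hT₁.2.1 ha))
      have hb' := Subgroup.mem_normalizer_iff.mp (hT₁.2.2 (hT₂.2.1 hb))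
      have m2 : a * b * a⁻¹ * b⁻¹ ∈ T₂ := T₂.mul_mem ((ha' b).mp hb) (T₂.inv_mem hb)
      have m1 : a * b * a⁻¹ * b⁻¹ ∈ T₁ := by
        have : a * b * a⁻¹ * b⁻¹ = a * (b * a⁻¹ * b⁻¹) := by group
        rw [this]
        exact T₁.mul_mem ha ((hb' a⁻¹).mp (T₁.inv_mem ha))
      have m : a * b * a⁻¹ * b⁻¹ ∈ T₁ ⊓ T₂ := ⟨m1, m2⟩
      rw [hinf, Subgroup.mem_bot] at m
      have : a * b = (a * b * a⁻¹ * b⁻¹) * (b * a) := by group
      rw [this, m, one_mul]
    -- (2) p divides |K'|
    have hpK' : p ∣ Nat.card K' := by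
      by_contra hnd
      exact hK'1 (subnormal_coprime_eq_bot p hOp' N K' hK'le hK'n
        ((Nat.Prime.coprime_iff_not_dvd hp).mpr hnd).symm)
    -- (3) some conjugate differs from K'
    have hex : ∃ h₀ : H, MulAut.conj h₀ • K' ≠ K' := by
      by_contra hall
      push Not at hall
      have hKn : K'.Normal := by
        constructor
        intro n hn g
        have := conj_mem_conj_smul g n K' hn
        rwa [hall g] at this
      have := Subgroup.card_le_of_le (hE K' hKn hK'1)
      omega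
    obtain ⟨h₀, hh₀⟩ := hex
    -- (α)
    obtain ⟨g, hg⟩ := exists_conj_inf_sylow_ne_bot p P K' hpK'
    -- (β)
    have hβ : ∀ h : H, MulAut.conj h • K' ≠ MulAut.conj g • K' →
        MulAut.conj h • K' ≤ Subgroup.normalizer ((P : Subgroup H) : Set H) := by
      intro h hne k hk
      apply hC ((P : Subgroup H) ⊓ MulAut.conj g • K') inf_le_left hg k
      intro q hq
      exact hcomm _ _ (hconj h) (hconj g) (card_conj_smul h K') (card_conj_smul g K') hne k hk q hq.2
    -- (γ)
    have hne1 : MulAut.conj (g * h₀) • K' ≠ MulAut.conj g • K' := by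
      intro h
      apply hh₀
      rw [map_mul, mul_smul] at h
      exact smul_left_cancel _ h
    have hK₁ := hβ (g * h₀) hne1
    have hγ : MulAut.conj g • K' ≤ Subgroup.normalizer ((P : Subgroup H) : Set H) := by
      obtain ⟨x, hxK, hx⟩ := exists_orderOf_eq_of_dvd_card p (MulAut.conj (g * h₀) • K')
        (by rw [card_conj_smul]; exact hpK')
      have hxP : x ∈ (P : Subgroup H) := by
        apply le_sylow_of_le_normalizer P (Subgroup.zpowers x) (isPGroup_zpowers_of_orderOf p x hx)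
          ((Subgroup.zpowers_le.mpr hxK).trans hK₁)
        exact Subgroup.mem_zpowers x
      have hne2 : (P : Subgroup H) ⊓ MulAut.conj (g * h₀) • K' ≠ ⊥ := by
        intro hbot
        have : x ∈ (P : Subgroup H) ⊓ MulAut.conj (g * h₀) • K' := ⟨hxP, hxK⟩
        rw [hbot, Subgroup.mem_bot] at this
        rw [this, orderOf_one] at hx
        exact hp.one_lt.ne hx
      intro k hk
      apply hC ((P : Subgroup H) ⊓ MulAut.conj (g * h₀) • K') inf_le_left hne2 k
      intro q hq
      exact hcomm _ _ (hconj g) (hconj (g * h₀)) (card_conj_smul g K') (card_conj_smul (g * h₀) K')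
        hne1.symm k hk q hq.2
    -- (δ)
    have hall : ∀ h : H, MulAut.conj h • K' ≤ Subgroup.normalizer ((P : Subgroup H) : Set H) := by
      intro h
      by_cases he : MulAut.conj h • K' = MulAut.conj g • K'
      · rw [he]; exact hγ
      · exact hβ h he
    have hncl : Subgroup.normalClosure (K' : Set H) ≤ Subgroup.normalizer ((P : Subgroup H) : Set H) := by
      rw [Subgroup.normalClosure, Subgroup.closure_le]
      intro x hx
      rw [Group.mem_conjugatesOfSet_iff] at hx
      obtain ⟨b, hb, hbx⟩ := hx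
      rw [isConj_iff] at hbx
      obtain ⟨c, rfl⟩ := hbx
      exact hall c (conj_mem_conj_smul c b K' hb)
    have hncl1 : Subgroup.normalClosure (K' : Set H) ≠ ⊥ := by
      intro h
      apply hK'1
      rw [eq_bot_iff, ← h]
      exact Subgroup.le_normalClosure
    exact hD N hNn hN1 ((hE _ Subgroup.normalClosure_normal hncl1).trans hncl)
  -- (I) Sylow subgroups of N are TI
  refine ⟨N, hNn, hN1, hE, hH, hG, hF, ?_⟩
  intro Q
  refine ⟨Sylow.ne_bot_of_dvd_card Q (hA N hNn hN1), ?_⟩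
  intro n hn
  have hQ' : IsPGroup p ((Q : Subgroup N).map N.subtype) := Q.isPGroup'.map N.subtype
  obtain ⟨P₁, hP₁⟩ := hQ'.exists_le_sylow
  obtain ⟨a, ha⟩ := MulAction.exists_smul_eq H P P₁
  have hP₁eq : (P₁ : Subgroup H) = MulAut.conj a • (P : Subgroup H) := by
    rw [← ha, Sylow.coe_subgroup_smul]
  have hTI₁ : TI p (P₁ : Subgroup H) := by
    rw [hP₁eq]; exact ti_conj p _ hTI a
  have hQmem : ∀ x : N, x ∈ (Q : Subgroup N) ↔ (x : H) ∈ (P₁ : Subgroup H) := by
    intro x
    constructor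
    · intro hx
      exact hP₁ ⟨x, hx, rfl⟩
    · intro hx
      have h1 : IsPGroup p ((P₁ : Subgroup H).subgroupOf N) := P₁.isPGroup'.comap_subtype
      have h2 : (Q : Subgroup N) ≤ (P₁ : Subgroup H).subgroupOf N := by
        intro y hy
        exact hP₁ ⟨y, hy, rfl⟩
      have h3 := Q.is_maximal' h1 h2
      rw [← h3]
      exact hx
  have hn' : (n : H) ∉ Subgroup.normalizer ((P₁ : Subgroup H) : Set H) := by
    intro hmem
    apply hn
    rw [Subgroup.mem_normalizer_iff] at hmem ⊢
    intro x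
    rw [hQmem, hQmem, hmem (x : H)]
    rfl
  have h4 := hTI₁ (n : H) hn'
  rw [eq_bot_iff]
  intro x hx
  have hx1 : (x : H) ∈ (P₁ : Subgroup H) := (hQmem x).mp hx.1
  have hx2 : (x : H) ∈ MulAut.conj (n : H) • (P₁ : Subgroup H) := by
    rw [mem_conj_smul_iff]
    have := (mem_conj_smul_iff n x (Q : Subgroup N)).mp hx.2
    exact (hQmem _).mp this
  have hx3 : (x : H) ∈ (P₁ : Subgroup H) ⊓ MulAut.conj (n : H) • (P₁ : Subgroup H) := ⟨hx1, hx2⟩
  rw [h4, Subgroup.mem_bot] at hx3
  rw [Subgroup.mem_bot]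
  exact Subtype.ext hx3

end Cfsg.Agent.S4620
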