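import Cfsg.Statements.S4700
import Cfsg.Agent.H21.BRMaster
import Cfsg.Agent.H21.BRQDeg
import Cfsg.Agent.H57.BRQRSimple2
import Cfsg.Agent.H57.BRQQuot
import Cfsg.Agent.H40.BRQArith2
import Cfsg.Agent.H40.BRQCore
import Cfsg.Agent.H24.BRQFaith
import Cfsg.Agent.H20.BRQNdf
import Cfsg.Agent.H20.BRQE2
import Cfsg.Agent.H67.BRCpFalse
import Cfsg.Agent.H23.BRPerf
import Cfsg.Agent.H65.Ord5Kill
import Cfsg.Agent.H78.DefectZero
import Cfsg.Agent.H81.BlockDeg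

set_option autoImplicit false
open Cfsg

namespace Cfsg.Agent.S4700

/-- Let G be a finite perfect group and p a prime such that a Sylow p-subgroup of G has order p, and write the number of Sylow p-subgroups as 1 + np. Let H = O_p'(G). Then either p > 3 and G/H is isomorphic to PSL(2, p); or p = 2^m + 1 > 3 and G/H is isomorphic to SL(2, 2^m); or n = (hup + u^2 + u + h)/(u + 1) for some positive integers h and u. -/
theorem result {G : Type*} [Group G] [Finite G] (hperf : commutator G = ⊤) (p : ℕ) [Fact p.Prime] (P : Sylow p G) (hP : Nat.card P = p) (n : ℕ) (hn : Nat.card (Sylow p G) = 1 + n * p) : (∃ (F : Type) (_ : Field F) (_ : Fintype F), Fintype.card F = p ∧ 3 < p ∧ Nonempty (G ⧸ Cfsg.pPrimeCore p G ≃* Matrix.ProjectiveSpecialLinearGroup (Fin 2) F)) ∨ (∃ (m : ℕ) (F : Type) (_ : Field F) (_ : Fintype F), Fintype.card F = 2 ^ m ∧ p = 2 ^ m + 1 ∧ 3 < p ∧ Nonempty (G ⧸ Cfsg.pPrimeCore p G ≃*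 Matrix.SpecialLinearGroup (Fin 2) F)) ∨ (∃ h u : ℕ, 0 < h ∧ 0 < u ∧ n * (u + 1) = h * u * p + u ^ 2 + u + h) := by
  classical
  have hp : p.Prime := Fact.out
  by_cases hND : Cfsg.Agent.H21.BR.ND p n
  swap
  · right; right
    exact Cfsg.Agent.H20.BRQ.not_nd_form p n hp hND
  -- the quotient by the `p'`-core
  obtain ⟨hKp, hcore⟩ := Cfsg.Agent.H40.BRQ.pPrimeCore_facts (G := G) p
  obtain ⟨Q, hQc, hQdvd⟩ :=
    Cfsg.Agent.H57.BRQ.quot_sylow p (Cfsg.pPrimeCore p G) hKp P hP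
  have hperfQ := Cfsg.Agent.H23.BR.perfect_quot hperf (Cfsg.pPrimeCore p G)
  have hp2Q : ¬ p ^ 2 ∣ Nat.card (G ⧸ Cfsg.pPrimeCore p G) := by
    intro h
    have h1 := Sylow.card_eq_multiplicity Q
    rw [hQc] at h1
    have hfac : (Nat.card (G ⧸ Cfsg.pPrimeCore p G)).factorization p = 1 := by
      have h3 : p ^ 1 = p ^ (Nat.card (G ⧸ Cfsg.pPrimeCore p G)).factorization p := by
        rw [pow_one]; exact h1
      exact (Nat.pow_right_injective hp.two_le h3).symm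
    have h2le : 2 ≤ (Nat.card (G ⧸ Cfsg.pPrimeCore p G)).factorization p :=
      (hp.pow_dvd_iff_le_factorization (Nat.card_pos.ne')).mp h
    omega
  have hne1 : Nat.card (Sylow p (G ⧸ Cfsg.pPrimeCore p G)) ≠ 1 := by
    intro h1
    have hnorm : (Q : Subgroup (G ⧸ Cfsg.pPrimeCore p G)).Normal := by
      rw [← Subgroup.normalizer_eq_top_iff, ← Subgroup.index_eq_one]
      rw [Q.card_eq_index_normalizer] at h1
      exact h1
    exact Cfsg.Agent.H67.BR.normal_sylow_false p hperfQ hp2Q Q hnorm hQc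
  rw [hn] at hQdvd
  have hmod := card_sylow_modEq_one p (G ⧸ Cfsg.pPrimeCore p G)
  have hmod' : Nat.card (Sylow p (G ⧸ Cfsg.pPrimeCore p G)) % p = 1 := by
    have h3 : Nat.card (Sylow p (G ⧸ Cfsg.pPrimeCore p G)) % p = 1 % p := hmod
    rwa [Nat.mod_eq_of_lt hp.one_lt] at h3
  have hnQ : Nat.card (Sylow p (G ⧸ Cfsg.pPrimeCore p G)) = 1 + n * p := by
    rcases hND _ (Dvd.dvd.mul_left hQdvd _) hmod' with h1 | h1
    · exact absurd h1 hne1
    · exact le_antisymm (Nat.le_of_dvd (by omega) hQdvd) h1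
  have hn1 : 1 ≤ n := by
    by_contra h
    have h0 : n = 0 := by omega
    rw [h0, zero_mul, add_zero] at hnQ
    exact hne1 hnQ
  obtain ⟨he1, hedvd⟩ := Cfsg.Agent.H20.BRQ.perfect_relIndex hperfQ p Q hQc
  generalize he : (Subgroup.centralizer
    ((Q : Subgroup (G ⧸ Cfsg.pPrimeCore p G)) : Set (G ⧸ Cfsg.pPrimeCore p G))).relIndex
      (Subgroup.normalizer
    ((Q : Subgroup (G ⧸ Cfsg.pPrimeCore p G)) : Set (G ⧸ Cfsg.pPrimeCore p G))) = e
    at he1 hedvd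
  have hp2 : p ≠ 2 := by
    rintro rfl
    exact he1 (Nat.dvd_one.1 hedvd)
  have hp3 : 3 ≤ p := by
    have := hp.two_le
    omega
  have he0 : 0 < e := Nat.pos_of_dvd_of_pos hedvd (by omega)
  have he2 : 2 ≤ e := by omega
  obtain ⟨M, hM⟩ := Cfsg.Agent.H78.exists_isPModular p hp
  obtain ⟨X, Y, δ, ε, hB, hdisj, hcX, hcY, hδ, hdX, hvX, hε, hdY, hYeq, hrel, hsumY, hdvdX,
    hdvdY⟩ := Cfsg.Agent.H21.BRQ.b0_degrees p hp2 M hM Q hQc e he hedvd n hnQ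
  obtain ⟨t, ht⟩ := hedvd
  have hYc : Y.card = t := by
    have h1 : Y.card * e = t * e := by rw [hcY, ht, mul_comm]
    exact Nat.eq_of_mul_eq_mul_right he0 h1
  have h0B : Cfsg.Agent.H21.BR.one (G ⧸ Cfsg.pPrimeCore p G) ∈
      principalBlock M (G ⧸ Cfsg.pPrimeCore p G) :=
    Cfsg.Agent.H81.mem_blockOf_self hM (Cfsg.Agent.H21.BR.one (G ⧸ Cfsg.pPrimeCore p G))
  have hval1 : ∀ ζ : IrrCharacter (G ⧸ Cfsg.pPrimeCore p G),
      (ζ : G ⧸ Cfsg.pPrimeCore p G → ℂ) 1 =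
        (charDegree (ζ : G ⧸ Cfsg.pPrimeCore p G → ℂ) : ℂ) :=
    fun ζ => (Cfsg.Agent.H81.irr_charDegree ζ).1
  have hone : ∀ ψ : IrrCharacter (G ⧸ Cfsg.pPrimeCore p G), ψ ∈ X ∨ ψ ∈ Y →
      charDegree (ψ : G ⧸ Cfsg.pPrimeCore p G → ℂ) = 1 →
        ψ = Cfsg.Agent.H21.BR.one (G ⧸ Cfsg.pPrimeCore p G) := by
    intro ψ _ h1
    have h2 := Cfsg.Agent.H65.Ord5.linear_trivial hperfQ ψ (by rw [hval1, h1]; norm_num)
    rw [h2]
    rfl
  have hmin := Cfsg.Agent.H40.BRQ.exists_minus_degree p e t n hp hp2 ht.symm he2 hn1 hND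
    X Y (Cfsg.Agent.H21.BR.one (G ⧸ Cfsg.pPrimeCore p G))
    (fun ψ => charDegree (ψ : G ⧸ Cfsg.pPrimeCore p G → ℂ)) δ ε hdisj hcX hYc
    ((hB _).1 h0B) (Cfsg.Agent.H21.BR.charDegree_one' _) hone hδ hdX hε hdY hYeq hrel
    hdvdX hdvdY
  obtain ⟨χ, hχB, hχdeg, hχval⟩ : ∃ χ : IrrCharacter (G ⧸ Cfsg.pPrimeCore p G),
      χ ∈ principalBlock M (G ⧸ Cfsg.pPrimeCore p G) ∧
      charDegree (χ : G ⧸ Cfsg.pPrimeCore p G → ℂ) = p - 1 ∧
      ∀ x ∈ (Q : Subgroup (G ⧸ Cfsg.pPrimeCore p G)), x ≠ 1 →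
        (χ : G ⧸ Cfsg.pPrimeCore p G → ℂ) x = -1 := by
    rcases hmin with ⟨χ, hχ, hδχ, hdeg⟩ | ⟨ht1, hε1, θ, hθ, hdeg⟩
    · refine ⟨χ, (hB χ).2 (Or.inl hχ), hdeg, fun x hx hx1 => ?_⟩
      rw [hvX χ hχ x hx hx1, hδχ]
      norm_num
    · refine ⟨θ, (hB θ).2 (Or.inr hθ), hdeg, fun x hx hx1 => ?_⟩
      have hY1 : Y = {θ} := by
        rw [ht1] at hYc
        obtain ⟨a, ha⟩ := Finset.card_eq_one.1 hYc
        rw [ha] at hθ ⊢
        rw [Finset.mem_singleton.1 hθ]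
      have h1 := hsumY x hx hx1
      rw [hY1, Finset.sum_singleton, hε1] at h1
      rw [h1]
      norm_num
  have hCQ := Cfsg.Agent.H24.BRQ.centralizer_eq_of_minus_char hperfQ p M hM Q hQc hcore χ
    hχB (by omega) (fun x hx hx1 => by
      rw [hχval x hx hx1, hval1, hχdeg]
      intro h1
      have h2 : ((p - 1 : ℕ) : ℂ) = ((p : ℕ) : ℂ) - 1 := by
        rw [Nat.cast_sub hp.one_le]; norm_num
      rw [h2] at h1
      have h3 : ((p : ℕ) : ℂ) = 0 := by linear_combination -h1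
      have h4 : p = 0 := by exact_mod_cast h3
      omega)
  haveI : IsSimpleGroup (G ⧸ Cfsg.pPrimeCore p G) :=
    Cfsg.Agent.H57.BRQ.simple_of_perfect_core_free hperfQ p Q hQc hCQ hcore
  have hG : ¬ IsCyclic (G ⧸ Cfsg.pPrimeCore p G) := by
    intro hcyc
    have hcomm : ∀ a b : G ⧸ Cfsg.pPrimeCore p G, a * b = b * a := fun a b => by
      obtain ⟨g, hg⟩ := hcyc.exists_generator
      obtain ⟨i, rfl⟩ := Subgroup.mem_zpowers_iff.1 (hg a)
      obtain ⟨j, rfl⟩ := Subgroup.mem_zpowers_iff.1 (hg b)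
      rw [← zpow_add, ← zpow_add, add_comm]
    have h1 : commutator (G ⧸ Cfsg.pPrimeCore p G) = ⊥ := by
      rw [commutator_def, Subgroup.commutator_eq_bot_iff_le_centralizer]
      intro a _
      rw [Subgroup.mem_centralizer_iff]
      intro b _
      exact hcomm b a
    rw [hperfQ] at h1
    have h2 : (Q : Subgroup (G ⧸ Cfsg.pPrimeCore p G)) = ⊥ := by
      rw [eq_bot_iff, ← h1]
      exact le_top
    rw [h2, Subgroup.card_bot] at hQc
    omega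
  rcases Cfsg.Agent.H21.BR.master hG p Q hQc hCQ n hnQ hND with h | h
  · exact Or.inl h
  · exact Or.inr (Or.inl h)

end Cfsg.Agent.S4700
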