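import Cfsg.Statements.S4705
import Cfsg.Agent.H26.P2Main
import Cfsg.Agent.H82.P2Lib
import Cfsg.Agent.H5.P2Tw
import Cfsg.Agent.H8.P2Scal
import Cfsg.Agent.H65.P2ZReg
import Cfsg.Agent.H65.P2ExS
import Cfsg.Agent.H5.P2Sing
import Cfsg.Agent.H54.P2Xi
import Cfsg.Agent.H36.P2Inj
import Cfsg.Agent.H40.P2Sum
import Cfsg.Agent.H36.P2Decomp
import Cfsg.Agent.H3.P2Key
import Cfsg.Agent.H8.P2Odd
import Cfsg.Agent.H39.P2Two
import Cfsg.Agent.H98.P2Mix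
import Cfsg.Agent.H8.P2PW
import Cfsg.Agent.H5.P2Mom
import Cfsg.Agent.H73.P2QCent
import Cfsg.Agent.H60.P2QExp
import Cfsg.Agent.H65.P2QAb
import Cfsg.Agent.H73.P2QEven
import Cfsg.Agent.H60.P2QNC
import Cfsg.Agent.H73.P2QNN
import Cfsg.Agent.H65.P2QProd
import Cfsg.Agent.H73.P2SLInv
import Cfsg.Agent.H60.P2PQ
import Cfsg.Agent.H15.P2Det
import Cfsg.Agent.H56.P2Trf
import Cfsg.Agent.H15.P2SylR
import Cfsg.Agent.H40.P2Split

set_option autoImplicit false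
open Cfsg

namespace Cfsg.Agent.S4705

/-- Let G be a finite group with centre Z and p > 5 a prime such that a Sylow p-subgroup of G has order p and is not normal. If G has a faithful irreducible character of degree p − 2, then p = 2^a + 1 for some a and G is isomorphic to the direct product of SL(2, 2^a) with Z. -/
theorem result {G : Type*} [Group G] [Finite G] (p : ℕ) [Fact p.Prime] (hp : 5 < p) (P : Sylow p G) (hP : Nat.card P = p) (hnn : ¬ (P : Subgroup G).Normal) (ζ : G → ℂ) (hζ : Cfsg.IsIrrCharacter G ζ) (hfaith : ∀ g : G, ζ g = ζ 1 → g = 1) (hdeg : Cfsg.charDegree ζ = p - 2) : ∃ (a : ℕ) (F : Type) (_ : Field F) (_ : Fintype F), p = 2 ^ a + 1 ∧ Fintype.card F = 2 ^ a ∧ Nonempty (G ≃* Matrix.SpecialLinearGroup (Fin 2) F × Subgroup.center G) :=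
  Cfsg.Agent.H26.P2.main
    Cfsg.Agent.H82.P2.lib
    Cfsg.Agent.H5.P2.tw
    Cfsg.Agent.H8.P2.scal
    Cfsg.Agent.H65.P2.zReg
    Cfsg.Agent.H65.P2.exS
    (Cfsg.Agent.H3.P2.key Cfsg.Agent.H5.P2.sing Cfsg.Agent.H54.P2.xi Cfsg.Agent.H36.P2.inj
      Cfsg.Agent.H40.P2.sum Cfsg.Agent.H36.P2.decomp)
    Cfsg.Agent.H8.P2.odd
    Cfsg.Agent.H39.P2.two
    Cfsg.Agent.H98.P2.mix
    Cfsg.Agent.H8.P2.pw
    Cfsg.Agent.H5.P2.sing
    Cfsg.Agent.H5.P2.mom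
    Cfsg.Agent.H73.P2.qCent
    Cfsg.Agent.H60.P2.qExp
    Cfsg.Agent.H65.P2.qAb
    Cfsg.Agent.H73.P2.qEven
    Cfsg.Agent.H60.P2.qNC
    Cfsg.Agent.H73.P2.qNN
    Cfsg.Agent.H65.P2.qProd
    (Cfsg.Agent.H60.P2.pq Cfsg.Agent.H73.P2.slInv)
    (Cfsg.Agent.H40.P2.split Cfsg.Agent.H15.P2.det Cfsg.Agent.H56.P2.trf Cfsg.Agent.H15.P2.sylR)
    p hp P hP hnn ζ hζ hfaith hdeg

end Cfsg.Agent.S4705
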