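import Cfsg.Statements.S4706
import Cfsg.Agent.H74.PDPieces
import Cfsg.Agent.H19.TwoTrans
import Cfsg.Agent.S0676
import Cfsg.Agent.S1013
import Cfsg.Agent.S4702

set_option autoImplicit false
open Cfsg

namespace Cfsg.Agent.S4706

open Cfsg.Agent.H74

theorem core {α : Type*} [Fintype α] [DecidableEq α] {p : ℕ} [Fact p.Prime] (hp : 2 < p)
    (hα : Fintype.card α = p) (G : Subgroup (Equiv.Perm α)) (P : Sylow p G)
    (hN : Nat.card (Subgroup.normalizer ((P : Subgroup G) : Set G)) = 2 * p)
    (hnorm : ¬ (P : Subgroup G).Normal) :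
    MulAction.IsMultiplyPretransitive G α 3 ∧
      ∀ g : G, 3 ≤ Nat.card (MulAction.fixedBy α g) → g = 1 := by
  classical
  have hpp : p.Prime := Fact.out
  letI : Fintype G := Fintype.ofFinite G
  have hPcard := PD.card_sylow_of_normalizer hp P hN
  have hdvd : p ∣ Nat.card G := by
    rw [← hPcard]; exact Subgroup.card_subgroup_dvd_card _
  haveI htr : MulAction.IsPretransitive G α := PD.pretransitive_of_dvd hα G hdvd
  -- more than one Sylow subgroup
  have hn : 1 < Nat.card (Sylow p G) := by
    by_contra hcon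
    have h1 : Nat.card (Sylow p G) ≤ 1 := by omega
    haveI : Subsingleton (Sylow p G) := (Finite.card_le_one_iff_subsingleton).mp h1
    exact hnorm (Sylow.normal_of_subsingleton P)
  have hle : (P : Subgroup G) ≤ Subgroup.normalizer ((P : Subgroup G) : Set G) :=
    Subgroup.le_normalizer
  have hidx : ((P : Subgroup G).subgroupOf
      (Subgroup.normalizer ((P : Subgroup G) : Set G))).index = 2 := by
    have h1 := Subgroup.card_mul_index ((P : Subgroup G).subgroupOf
      (Subgroup.normalizer ((P : Subgroup G) : Set G)))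
    have h2 : Nat.card ((P : Subgroup G).subgroupOf
        (Subgroup.normalizer ((P : Subgroup G) : Set G))) = p :=
      (Nat.card_congr (Subgroup.subgroupOfEquivOfLe hle).toEquiv).trans hPcard
    rw [h2, hN] at h1
    have hp0 : 0 < p := hpp.pos
    nlinarith
  have ht : (((P : Subgroup G).subgroupOf
      (Subgroup.normalizer ((P : Subgroup G) : Set G))).index).Prime := by
    rw [hidx]; exact Nat.prime_two
  haveI hsimple : IsSimpleGroup G := Cfsg.Agent.S1013.result hα G P hn ht
  have hns : ¬ Group.IsSolvable G := by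
    intro hs
    have hcomm := IsSimpleGroup.comm_iff_isSolvable.mpr hs
    exact hnorm ⟨fun n hn g => by rw [hcomm g n, mul_inv_cancel_right]; exact hn⟩
  have heven : Even (Nat.card (Subgroup.normalizer ((P : Subgroup G) : Set G))) := by
    rw [hN]; exact even_two_mul p
  have h3 : MulAction.IsMultiplyPretransitive G α 3 :=
    Cfsg.Agent.S0676.result hα G hns P heven
  refine ⟨h3, ?_⟩
  have hcardα : Nat.card α = p := by rw [Nat.card_eq_fintype_card, hα]
  have h2 : MulAction.IsMultiplyPretransitive G α 2 :=
    MulAction.isMultiplyPretransitive_of_le (n := 3) (by norm_num) (by rw [hcardα]; omega)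
  haveI : Nonempty α := by
    rw [← Fintype.card_pos_iff, hα]; exact hpp.pos
  obtain ⟨a, b, hab⟩ : ∃ a b : α, a ≠ b := by
    have : 1 < Fintype.card α := by rw [hα]; omega
    exact Fintype.exists_pair_of_one_lt_card this
  have hC := PD.centralizer_sylow_eq hα G P hPcard
  have hcount := PD.sing_count P hPcard hC hN
  have hcardG : Nat.card G = Fintype.card G := Nat.card_eq_fintype_card
  rw [hcardG] at hcount
  have hm1 : ∑ g : G, Nat.card (MulAction.fixedBy α g) = Fintype.card G := by
    rw [← hcardG]; exact Cfsg.Agent.H19.sum_card_fixedBy_of_pretransitive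
  have hm2 : ∑ g : G, Nat.card (MulAction.fixedBy α g) ^ 2 = 2 * Fintype.card G := by
    rw [← hcardG]; exact Cfsg.Agent.H19.sum_card_fixedBy_sq_of_two_pretransitive h2 hab
  have hm3 : ∑ g : G, Nat.card (MulAction.fixedBy α g) ^ 3 = 5 * Fintype.card G := by
    rw [← hcardG]; exact PD.sum_fixedBy_cube h3 (by rw [hcardα]; omega)
  have hf : ∀ g : G, Nat.card (MulAction.fixedBy α g) ≤ p := by
    intro g
    rw [← hcardα]
    exact Finite.card_subtype_le _
  intro g hg
  have hfix := PD.fix_arith p (by omega) (fun g : G => Nat.card (MulAction.fixedBy α g))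
    (Finset.univ.filter (fun g : G => p ∣ orderOf g)) hf
    (fun g hg => PD.fixedBy_empty_of_dvd hα G g (Finset.mem_filter.mp hg).2)
    hm1 hm2 hm3 hcount g hg
  -- all points fixed
  have hall : MulAction.fixedBy α g = Set.univ := by
    apply Set.eq_univ_of_forall
    by_contra hcon
    push Not at hcon
    obtain ⟨x, hx⟩ := hcon
    have hlt : Nat.card (MulAction.fixedBy α g) < Nat.card α := by
      rw [Nat.card_coe_set_eq]
      calc (MulAction.fixedBy α g).ncard < (Set.univ : Set α).ncard :=
            Set.ncard_lt_ncard (Set.ssubset_univ_iff.mpr (fun h => hx (h ▸ Set.mem_univ x)))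
              Set.finite_univ
        _ = Nat.card α := Set.ncard_univ α
    rw [hcardα] at hlt
    omega
  apply Subtype.ext
  apply Equiv.Perm.ext
  intro x
  have hx : x ∈ MulAction.fixedBy α g := by rw [hall]; exact Set.mem_univ x
  exact hx

/-- Let p > 2 be a prime and G a permutation group on p letters whose Sylow p-subgroup P has normalizer of order 2p. Then either P is normal in G, or p − 1 = 2^a for some a and G is isomorphic to SL(2, 2^a). -/
theorem result {α : Type*} [Fintype α] [DecidableEq α] {p : ℕ} [Fact p.Prime] (hp : 2 < p) (hα : Fintype.card α = p) (G : Subgroup (Equiv.Perm α)) (P : Sylow p G) (hN : Nat.card (Subgroup.normalizer ((P : Subgroup G) : Set G)) = 2 * p) : (P : Subgroup G).Normal ∨ ∃ (a : ℕ) (F : Type) (_ : Field F) (_ : Fintype F), p = 2 ^ a + 1 ∧ Fintype.card F = 2 ^ a ∧ Nonempty (G ≃* Matrix.SpecialLinearGroup (Fin 2) F) := by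
  classical
  have hpp : p.Prime := Fact.out
  by_cases hnorm : (P : Subgroup G).Normal
  · exact Or.inl hnorm
  right
  obtain ⟨h3, hfix⟩ := core hp hα G P hN hnorm
  have hodd : Odd (Fintype.card α) := by
    rw [hα]; exact hpp.odd_of_ne_two (by omega)
  obtain ⟨a, -, ha, F, iF, iF', hF, hiso⟩ :=
    Cfsg.Agent.S4702.result (by rw [hα]; omega) hodd G h3 hfix
  exact ⟨a, F, iF, iF', by rw [← hα, ha], hF, hiso⟩

end Cfsg.Agent.S4706
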