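import Cfsg.Statements.S4736
import Cfsg.Agent.S4611
import Cfsg.Agent.Lib.ItoConv
import Cfsg.Agent.H80.Block
import Cfsg.Agent.H80.PSolvable
import Cfsg.Agent.H80.GroupBasic
import Cfsg.Agent.H82.Irr
import Cfsg.Agent.H1.PCore
import Cfsg.Agent.H20.LocalRing

set_option autoImplicit false
open Cfsg

namespace Cfsg.Agent.S4736

set_option linter.style.haveILetI false

/-- In the principal block, height zero means degree prime to `p`. -/
theorem height_zero_iff {G : Type*} [Group G] [Finite G] (p : ℕ) [Fact p.Prime]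
    (M : Ideal Cfsg.AlgInt) (hM : Cfsg.IsPModular p M) (χ : Cfsg.IrrCharacter G) :
    Cfsg.blockHeight p (Cfsg.principalBlock M G) (χ : G → ℂ) = 0 ↔
      ¬ p ∣ Cfsg.charDegree (χ : G → ℂ) := by
  have hMp := Cfsg.Agent.H20.isPrime_of_isPModular hM
  have h0 : sInf ((fun ψ : Cfsg.IrrCharacter G => (Cfsg.charDegree (ψ : G → ℂ)).factorization p) ''
      Cfsg.principalBlock M G) = 0 := by
    apply Nat.sInf_eq_zero.mpr
    left
    refine ⟨Cfsg.Agent.H80.trivChar G, Cfsg.Agent.H80.trivChar_mem_principalBlock hMp, ?_⟩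
    have h1 : Cfsg.charDegree ((Cfsg.Agent.H80.trivChar G : Cfsg.IrrCharacter G) : G → ℂ) = 1 := by
      unfold Cfsg.charDegree
      simp [Cfsg.Agent.H80.trivChar_apply]
    show (Cfsg.charDegree ((Cfsg.Agent.H80.trivChar G : Cfsg.IrrCharacter G) : G → ℂ)).factorization p
      = 0
    rw [h1]
    simp
  unfold Cfsg.blockHeight
  rw [h0, Nat.sub_zero, Nat.factorization_eq_zero_iff]
  constructor
  · rintro (h | h | h)
    · exact absurd Fact.out h
    · exact h
    · exact absurd h (Cfsg.Agent.H82.charDegree_pos χ).ne'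
  · intro h
    exact Or.inr (Or.inl h)

/-- Let p be a prime, M a maximal ideal of the algebraic integers containing p, and G a finite p-solvable group with Sylow p-subgroup P. Then P is abelian if and only if every irreducible character in the principal p-block of G has height zero. -/
theorem result {G : Type*} [Group G] [Finite G] (p : ℕ) [Fact p.Prime] (M : Ideal Cfsg.AlgInt) (hM : Cfsg.IsPModular p M) (hsolv : Cfsg.IsPSolvable p G) (P : Sylow p G) : IsMulCommutative P ↔ ∀ χ ∈ Cfsg.principalBlock M G, Cfsg.blockHeight p (Cfsg.principalBlock M G) (χ : G → ℂ) = 0 := by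
  classical
  haveI : Fintype G := Fintype.ofFinite G
  have hp : p.Prime := Fact.out
  haveI hKn : (Cfsg.pPrimeCore p G).Normal := Cfsg.Agent.H80.pPrimeCore_normal p G
  have hKc : (Nat.card (Cfsg.pPrimeCore p G)).Coprime p := Cfsg.Agent.H80.pPrimeCore_coprime p G
  have hsolvQ := Cfsg.Agent.H80.isPSolvable_quotient p (Cfsg.pPrimeCore p G) hsolv
  have hcoreQ : Cfsg.pPrimeCore p (G ⧸ Cfsg.pPrimeCore p G) = ⊥ :=
    Cfsg.Agent.H80.pPrimeCore_quotient_eq_bot p
  constructor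
  · intro hab χ hχ
    rw [height_zero_iff p M hM]
    have hker := Cfsg.Agent.S4611.ker_of_mem_principalBlock p hM (Cfsg.pPrimeCore p G) hKc χ hχ
    obtain ⟨χ', hχ'⟩ := Cfsg.Agent.H82.exists_deflate (Cfsg.pPrimeCore p G) χ hker
    rw [← hχ', Cfsg.Agent.H82.charDegree_inflate]
    have hPP : Cfsg.Agent.ItoConv.PPrimeDeg p (G ⧸ Cfsg.pPrimeCore p G) := by
      obtain ⟨Q, hQ⟩ : ∃ Q : Sylow p (G ⧸ Cfsg.pPrimeCore p G),
          Q = P.mapSurjective (QuotientGroup.mk'_surjective (Cfsg.pPrimeCore p G)) := ⟨_, rfl⟩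
      have hQab : ∀ a ∈ (Q : Subgroup (G ⧸ Cfsg.pPrimeCore p G)),
          ∀ b ∈ (Q : Subgroup (G ⧸ Cfsg.pPrimeCore p G)), a * b = b * a := by
        intro a ha b hb
        rw [hQ, Sylow.coe_mapSurjective] at ha hb
        obtain ⟨x, hx, rfl⟩ := ha
        obtain ⟨y, hy, rfl⟩ := hb
        rw [← map_mul, ← map_mul]
        congr 1
        have := hab.is_comm.comm (⟨x, hx⟩ : P) ⟨y, hy⟩
        exact congrArg Subtype.val this
      have hle : Cfsg.pCore p (G ⧸ Cfsg.pPrimeCore p G) ≤ Q := Cfsg.Agent.H1.pCore_le_sylow p Q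
      have hQle : (Q : Subgroup (G ⧸ Cfsg.pPrimeCore p G)) ≤
          Cfsg.pCore p (G ⧸ Cfsg.pPrimeCore p G) := by
        refine le_trans ?_ (Cfsg.Agent.H80.centralizer_pCore_le p hsolvQ hcoreQ)
        intro a ha
        rw [Subgroup.mem_centralizer_iff]
        intro b hb
        exact hQab b (hle hb) a ha
      have heq : Cfsg.pCore p (G ⧸ Cfsg.pPrimeCore p G) = Q := le_antisymm hle hQle
      haveI : (Cfsg.pCore p (G ⧸ Cfsg.pPrimeCore p G)).Normal := Cfsg.Agent.H80.pCore_normal p _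
      refine Cfsg.Agent.ItoConv.pPrimeDeg_of_normal_abelian
        (Cfsg.pCore p (G ⧸ Cfsg.pPrimeCore p G))
        (fun a ha b hb => hQab a (hle ha) b (hle hb)) ?_
      rw [heq]
      exact Q.not_dvd_index
    exact hPP χ'
  · intro h
    have hPP : Cfsg.Agent.ItoConv.PPrimeDeg p (G ⧸ Cfsg.pPrimeCore p G) := by
      intro χ'
      have hmem := Cfsg.Agent.S4611.mem_principalBlock_of_ker p hM hsolv
        (Cfsg.Agent.H82.inflate (Cfsg.pPrimeCore p G) χ')
        (fun k hk => Cfsg.Agent.H82.inflate_mem (Cfsg.pPrimeCore p G) χ' k hk)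
      have h1 := h _ hmem
      rw [height_zero_iff p M hM, Cfsg.Agent.H82.charDegree_inflate] at h1
      exact h1
    obtain ⟨Pb, hPbn, hPbp, hPbidx, hPbab⟩ := Cfsg.Agent.ItoConv.exists_normal_abelian_sylow p
      (Nat.card (G ⧸ Cfsg.pPrimeCore p G)) (G ⧸ Cfsg.pPrimeCore p G) rfl hsolvQ hPP
    haveI := hPbn
    have himg : ∀ x ∈ (P : Subgroup G), (QuotientGroup.mk x : G ⧸ Cfsg.pPrimeCore p G) ∈ Pb := by
      intro x hx
      rw [← QuotientGroup.eq_one_iff]
      have h1 : orderOf (QuotientGroup.mk (QuotientGroup.mk x : G ⧸ Cfsg.pPrimeCore p G) :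
          (G ⧸ Cfsg.pPrimeCore p G) ⧸ Pb) ∣ Pb.index := by
        rw [Subgroup.index_eq_card]
        exact orderOf_dvd_natCard _
      obtain ⟨k, hk⟩ := P.isPGroup' ⟨x, hx⟩
      have hk' : x ^ p ^ k = 1 := congrArg Subtype.val hk
      have h2 : orderOf (QuotientGroup.mk (QuotientGroup.mk x : G ⧸ Cfsg.pPrimeCore p G) :
          (G ⧸ Cfsg.pPrimeCore p G) ⧸ Pb) ∣ p ^ k := by
        apply orderOf_dvd_of_pow_eq_one
        rw [← QuotientGroup.mk_pow, ← QuotientGroup.mk_pow, hk']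
        rfl
      have h3 : (p ^ k).Coprime Pb.index :=
        Nat.Coprime.pow_left k ((Nat.Prime.coprime_iff_not_dvd hp).mpr hPbidx)
      have h4 := Nat.eq_one_of_dvd_coprimes h3 h2 h1
      exact orderOf_eq_one_iff.mp h4
    refine ⟨⟨fun a b => ?_⟩⟩
    apply Subtype.ext
    have hc : a.1 * b.1 * a.1⁻¹ * b.1⁻¹ ∈ Cfsg.pPrimeCore p G := by
      rw [← QuotientGroup.eq_one_iff]
      have h1 := hPbab _ (himg a.1 a.2) _ (himg b.1 b.2)
      simp only [QuotientGroup.mk_mul, QuotientGroup.mk_inv]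
      rw [h1]
      group
    have hcP : a.1 * b.1 * a.1⁻¹ * b.1⁻¹ ∈ (P : Subgroup G) :=
      Subgroup.mul_mem _ (Subgroup.mul_mem _ (Subgroup.mul_mem _ a.2 b.2) (Subgroup.inv_mem _ a.2))
        (Subgroup.inv_mem _ b.2)
    have h1 : a.1 * b.1 * a.1⁻¹ * b.1⁻¹ = 1 := by
      obtain ⟨k, hk⟩ := P.isPGroup' ⟨_, hcP⟩
      have hk' : (a.1 * b.1 * a.1⁻¹ * b.1⁻¹) ^ p ^ k = 1 := congrArg Subtype.val hk
      have h2 : orderOf (a.1 * b.1 * a.1⁻¹ * b.1⁻¹) ∣ p ^ k := orderOf_dvd_of_pow_eq_one hk'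
      have h3 : orderOf (a.1 * b.1 * a.1⁻¹ * b.1⁻¹) ∣ Nat.card (Cfsg.pPrimeCore p G) := by
        have := orderOf_dvd_natCard (⟨_, hc⟩ : Cfsg.pPrimeCore p G)
        rwa [Subgroup.orderOf_mk] at this
      have h4 : (p ^ k).Coprime (Nat.card (Cfsg.pPrimeCore p G)) :=
        Nat.Coprime.pow_left k hKc.symm
      exact orderOf_eq_one_iff.mp (Nat.eq_one_of_dvd_coprimes h4 h2 h3)
    show a.1 * b.1 = b.1 * a.1
    calc a.1 * b.1 = (a.1 * b.1 * a.1⁻¹ * b.1⁻¹) * b.1 * a.1 := by group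
      _ = b.1 * a.1 := by rw [h1, one_mul]

end Cfsg.Agent.S4736
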