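import Cfsg.Statements.S4742
import Cfsg.Agent.H81.Reg

set_option autoImplicit false
set_option linter.style.haveILetI false
open Cfsg

namespace Cfsg.Agent.S4742

/-- Let p ≠ q be primes dividing the order of the finite group G, and suppose the centralizer of every non-identity p-element of G has order prime to q. Then either G has an irreducible character of p-defect zero, or for every non-identity q-element z of G there are conjugates g, h of z such that g h⁻¹ is a non-identity p-element. -/
theorem result {G : Type*} [Group G] [Finite G] (p q : ℕ) [Fact p.Prime] [Fact q.Prime] (hppq : p ≠ q) (hpG : p ∣ Nat.card G) (hqG : q ∣ Nat.card G) (hC : ∀ g : G, g ≠ 1 → (∃ k : ℕ, orderOf g = p ^ k) → ¬ q ∣ Nat.card ↥(Subgroup.centralizer ({g} : Set G))) : (∃ χ : Cfsg.IrrCharacter G, (Cfsg.charDegree (χ : G → ℂ)).factorization p = (Nat.card G).factorization p) ∨ ∀ z : G, z ≠ 1 → (∃ k : ℕ, orderOf z = q ^ k) → ∃ g h : G, IsConj z g ∧ IsConj z h ∧ g * h⁻¹ ≠ 1 ∧ ∃ k : ℕ, orderOf (g * h⁻¹) = p ^ k :=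 by
  classical
  have hp : p.Prime := Fact.out
  have hq : q.Prime := Fact.out
  by_contra hcon
  push Not at hcon
  obtain ⟨hnodef, z, hz1, ⟨kz, hkz⟩, hz⟩ := hcon
  haveI : Finite (IrrCharacter G) := Cfsg.Agent.H80.irr_finite G
  haveI : Fintype (IrrCharacter G) := Fintype.ofFinite _
  obtain ⟨P⟩ : Nonempty (Sylow p G) := inferInstance
  set a := (Nat.card G).factorization p with ha
  have hPcard : Nat.card (P : Subgroup G) = p ^ a := P.card_eq_multiplicity
  have ha1 : 1 ≤ a := by
    rw [ha]
    exact (hp.factorization_pos_of_dvd Nat.card_pos.ne' hpG)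
  -- no non-identity element of P is a product of a conjugate of z and a conjugate of z⁻¹
  have hno : ∀ y ∈ (P : Subgroup G), y ≠ 1 → ∀ a b : G, a * z * a⁻¹ * (b * z⁻¹ * b⁻¹) ≠ y := by
    intro y hyP hy1 a b hab
    have hconj1 : IsConj z (a * z * a⁻¹) := isConj_iff.mpr ⟨a, rfl⟩
    have hconj2 : IsConj z (b * z * b⁻¹) := isConj_iff.mpr ⟨b, rfl⟩
    have heq : a * z * a⁻¹ * (b * z * b⁻¹)⁻¹ = y := by
      rw [← hab]; group
    have hyord : ∃ k : ℕ, orderOf y = p ^ k := by
      obtain ⟨k, hk⟩ := P.isPGroup' ⟨y, hyP⟩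
      have h1 : y ^ p ^ k = 1 := by
        have := congrArg Subtype.val hk
        simpa using this
      have h2 : orderOf y ∣ p ^ k := orderOf_dvd_of_pow_eq_one h1
      obtain ⟨j, -, hj⟩ := (Nat.dvd_prime_pow hp).mp h2
      exact ⟨j, hj⟩
    obtain ⟨k, hk⟩ := hyord
    exact hz _ _ hconj1 hconj2 (by rw [heq]; exact hy1) k (by rw [heq]; exact hk)
  obtain ⟨m, hm⟩ := Cfsg.Agent.H81.key_identity (Cfsg.Agent.H81.regIdentity G) z (P : Subgroup G) hno
  rw [finsum_eq_sum_of_fintype] at hm
  -- p does not divide |C(z)|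
  have hpC : ¬ p ∣ Nat.card (Subgroup.centralizer ({z} : Set G)) := by
    intro hdvd
    obtain ⟨y, hy⟩ := exists_prime_orderOf_dvd_card' p hdvd
    have hy' : orderOf (y : G) = p := by rw [Subgroup.orderOf_coe]; exact hy
    have hy1 : (y : G) ≠ 1 := by
      intro h1
      rw [h1, orderOf_one] at hy'
      exact hp.one_lt.ne hy'
    have hnq := hC (y : G) hy1 ⟨1, by rw [hy', pow_one]⟩
    apply hnq
    have hzmem : z ∈ Subgroup.centralizer ({(y : G)} : Set G) := by
      rw [Subgroup.mem_centralizer_singleton_iff]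
      have := y.2
      rw [Subgroup.mem_centralizer_singleton_iff] at this
      exact this.symm
    have hord : orderOf (⟨z, hzmem⟩ : Subgroup.centralizer ({(y : G)} : Set G)) = q ^ kz := by
      rw [← Subgroup.orderOf_coe]; exact hkz
    have hkz0 : kz ≠ 0 := by
      rintro rfl
      rw [pow_zero, orderOf_eq_one_iff] at hkz
      exact hz1 hkz
    have h1 : q ∣ orderOf (⟨z, hzmem⟩ : Subgroup.centralizer ({(y : G)} : Set G)) := by
      rw [hord]; exact dvd_pow_self q hkz0
    exact h1.trans (orderOf_dvd_natCard _)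
  have hfac := Cfsg.Agent.H81.factorization_le_of_sum p hp
    (Nat.card (Subgroup.centralizer ({z} : Set G))) (Nat.card (P : Subgroup G)) (a - 1)
    Nat.card_pos.ne'
    (fun χ : IrrCharacter G => (χ : G → ℂ) z * (χ : G → ℂ) z⁻¹ * (m χ : ℂ))
    (fun χ : IrrCharacter G => Cfsg.charDegree (χ : G → ℂ))
    (fun χ => ((Cfsg.Agent.H81.irr_isIntegral χ z).mul
      (Cfsg.Agent.H81.irr_isIntegral χ z⁻¹)).mul isIntegral_algebraMap)
    (fun χ => (Cfsg.Agent.H81.irr_charDegree χ).2)
    (fun χ => by
      have h1 : (Cfsg.charDegree (χ : G → ℂ)).factorization p ≤ a :=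
        (Nat.factorization_le_iff_dvd (Cfsg.Agent.H81.irr_charDegree χ).2.ne'
          Nat.card_pos.ne').mpr (Cfsg.Agent.H81.irr_charDegree_dvd χ) p
      have h2 := hnodef χ
      omega)
    (by
      rw [hm]
      congr 1
      apply Finset.sum_congr rfl
      intro χ _
      rw [(Cfsg.Agent.H81.irr_charDegree χ).1])
  rw [hPcard, hp.factorization_pow, Finsupp.single_eq_same,
    Nat.factorization_eq_zero_of_not_dvd hpC] at hfac
  omega

end Cfsg.Agent.S4742
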