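import Cfsg.Statements.S4743
import Cfsg.Agent.S4742
import Cfsg.Agent.Helper55.DefZeroPSolv

set_option autoImplicit false
open Cfsg

namespace Cfsg.Agent.S4743

/-- Let p ≠ q be primes dividing the order of the finite group G, suppose the centralizer of every non-identity p-element has order prime to q, and suppose G is p-solvable or q-solvable. Then G has an irreducible character of p-defect zero or an irreducible character of q-defect zero. -/
theorem result {G : Type*} [Group G] [Finite G] (p q : ℕ) [Fact p.Prime] [Fact q.Prime] (hppq : p ≠ q) (hpG : p ∣ Nat.card G) (hqG : q ∣ Nat.card G) (hC : ∀ g : G, g ≠ 1 → (∃ k : ℕ, orderOf g = p ^ k) → ¬ q ∣ Nat.card ↥(Subgroup.centralizer ({g} : Set G))) (hsolv : Cfsg.IsPSolvable p G ∨ Cfsg.IsPSolvable q G) : (∃ χ : Cfsg.IrrCharacter G, (Cfsg.charDegree (χ : G → ℂ)).factorization p = (Nat.card G).factorization p) ∨ (∃ χ : Cfsg.IrrCharacter G, (Cfsg.charDegree (χ : G → ℂ)).factorization q = (Nat.card G).factorization q) := by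
  classical
  have hp : p.Prime := Fact.out
  have hq : q.Prime := Fact.out
  by_contra hcon
  push Not at hcon
  obtain ⟨hnp, hnq⟩ := hcon
  have hC' : ∀ g : G, g ≠ 1 → (∃ k : ℕ, orderOf g = q ^ k) →
      ¬ p ∣ Nat.card ↥(Subgroup.centralizer ({g} : Set G)) := by
    rintro z hz1 ⟨kz, hkz⟩ hdvd
    obtain ⟨y, hy⟩ := exists_prime_orderOf_dvd_card' p hdvd
    have hy' : orderOf (y : G) = p := by rw [Subgroup.orderOf_coe]; exact hy
    have hy1 : (y : G) ≠ 1 := by
      intro h1
      rw [h1, orderOf_one] at hy'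
      exact hp.one_lt.ne hy'
    apply hC (y : G) hy1 ⟨1, by rw [hy', pow_one]⟩
    have hzmem : z ∈ Subgroup.centralizer ({(y : G)} : Set G) := by
      rw [Subgroup.mem_centralizer_singleton_iff]
      have := y.2
      rw [Subgroup.mem_centralizer_singleton_iff] at this
      exact this.symm
    have hord : orderOf (⟨z, hzmem⟩ : Subgroup.centralizer ({(y : G)} : Set G)) = q ^ kz := by
      rw [← Subgroup.orderOf_coe]; exact hkz
    have hkz0 : kz ≠ 0 := by
      rintro rfl
      rw [pow_zero, orderOf_eq_one_iff] at hkz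
      exact hz1 hkz
    have h1 : q ∣ orderOf (⟨z, hzmem⟩ : Subgroup.centralizer ({(y : G)} : Set G)) := by
      rw [hord]; exact dvd_pow_self q hkz0
    exact h1.trans (orderOf_dvd_natCard _)
  have h1 : Cfsg.Agent.Helper55.ConjDiff p q G := by
    rcases Cfsg.Agent.S4742.result p q hppq hpG hqG hC with h | h
    · obtain ⟨χ, hχ⟩ := h
      exact absurd hχ (hnp χ)
    · exact h
  have h2 : Cfsg.Agent.Helper55.ConjDiff q p G := by
    rcases Cfsg.Agent.S4742.result q p (Ne.symm hppq) hqG hpG hC' with h | h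
    · obtain ⟨χ, hχ⟩ := h
      exact absurd hχ (hnq χ)
    · exact h
  rcases hsolv with hs | hs
  · exact Cfsg.Agent.Helper55.psolvable_conjDiff_false hp hq hppq hpG hs h1 h2
  · exact Cfsg.Agent.Helper55.psolvable_conjDiff_false hq hp (Ne.symm hppq) hqG hs h2 h1

end Cfsg.Agent.S4743
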