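import Cfsg.Statements.S4744
import Cfsg.Agent.H81.InvChar

set_option autoImplicit false
set_option linter.style.haveILetI false
open Cfsg

namespace Cfsg.Agent.S4744

/-- Let p be an odd prime and G a finite group of even order divisible by p in which the centralizer of every non-identity p-element has odd order. Then either G has an irreducible character of p-defect zero, or the normalizer of every Sylow p-subgroup P of G has even order and P is abelian. -/
theorem result {G : Type*} [Group G] [Finite G] (p : ℕ) [Fact p.Prime] (hp2 : p ≠ 2) (hpG : p ∣ Nat.card G) (h2G : 2 ∣ Nat.card G) (hC : ∀ g : G, g ≠ 1 → (∃ k : ℕ, orderOf g = p ^ k) → Odd (Nat.card ↥(Subgroup.centralizer ({g} : Set G)))) : (∃ χ : Cfsg.IrrCharacter G, (Cfsg.charDegree (χ : G → ℂ)).factorization p = (Nat.card G).factorization p) ∨ ∀ P : Sylow p G, Even (Nat.card ↥(Subgroup.normalizer ((P : Subgroup G) : Set G))) ∧ IsMulCommutative ↥(P : Subgroup G) := by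
  classical
  by_cases hex : ∃ χ : Cfsg.IrrCharacter G, (Cfsg.charDegree (χ : G → ℂ)).factorization p = (Nat.card G).factorization p
  · exact Or.inl hex
  right
  push Not at hex
  obtain ⟨t, ht⟩ := exists_prime_orderOf_dvd_card' 2 h2G
  have ht1 : t ≠ 1 := by
    rintro rfl
    rw [orderOf_one] at ht
    omega
  have ht2 : t * t = 1 := by
    rw [← pow_two, ← ht]
    exact pow_orderOf_eq_one t
  intro P
  obtain ⟨g, hg⟩ := Cfsg.Agent.H81.exists_conj_inverting_sylow p hpG hC hex t ht1 ht2 P
  have hs1 : g * t * g⁻¹ ≠ 1 := by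
    intro h
    apply ht1
    have : t = g⁻¹ * (g * t * g⁻¹) * g := by group
    rw [this, h]; group
  have hs2 : (g * t * g⁻¹) * (g * t * g⁻¹) = 1 := by
    have : (g * t * g⁻¹) * (g * t * g⁻¹) = g * (t * t) * g⁻¹ := by group
    rw [this, ht2]; group
  constructor
  · have hmem := Cfsg.Agent.H81.mem_normalizer_of_inverts (P : Subgroup G) _ hs2 hg
    have ho : orderOf (g * t * g⁻¹) = 2 := orderOf_eq_prime (by rw [pow_two]; exact hs2) hs1
    have h1 := orderOf_dvd_natCard
      (⟨g * t * g⁻¹, hmem⟩ : Subgroup.normalizer ((P : Subgroup G) : Set G))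
    rw [← Subgroup.orderOf_coe, ho] at h1
    exact even_iff_two_dvd.mpr h1
  · exact Cfsg.Agent.H81.isMulCommutative_of_inverts (P : Subgroup G) _ hg

end Cfsg.Agent.S4744
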