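import Cfsg.Statements.S4746
import Cfsg.Agent.H81.InvChar

set_option autoImplicit false
set_option linter.style.haveILetI false
open Cfsg

namespace Cfsg.Agent.S4746

/-- Let p be an odd prime and G a finite group of even order divisible by p in which the centralizer of every non-identity p-element has odd order. Then G has an irreducible character of p-defect zero or an irreducible character of even degree. -/
theorem result {G : Type*} [Group G] [Finite G] (p : ℕ) [Fact p.Prime] (hp2 : p ≠ 2) (hpG : p ∣ Nat.card G) (h2G : 2 ∣ Nat.card G) (hC : ∀ g : G, g ≠ 1 → (∃ k : ℕ, orderOf g = p ^ k) → Odd (Nat.card ↥(Subgroup.centralizer ({g} : Set G)))) : (∃ χ : Cfsg.IrrCharacter G, (Cfsg.charDegree (χ : G → ℂ)).factorization p = (Nat.card G).factorization p) ∨ ∃ χ : Cfsg.IrrCharacter G, Even (Cfsg.charDegree (χ : G → ℂ)) := by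
  classical
  by_cases hex : ∃ χ : Cfsg.IrrCharacter G, (Cfsg.charDegree (χ : G → ℂ)).factorization p = (Nat.card G).factorization p
  · exact Or.inl hex
  right
  push Not at hex
  by_contra hne
  push Not at hne
  have hodd : ∀ χ : Cfsg.IrrCharacter G, Odd (Cfsg.charDegree (χ : G → ℂ)) :=
    fun χ => Nat.not_even_iff_odd.mp (hne χ)
  obtain ⟨t, ht⟩ := exists_prime_orderOf_dvd_card' 2 h2G
  have ht1 : t ≠ 1 := by
    rintro rfl
    rw [orderOf_one] at ht
    omega
  have ht2 : t * t = 1 := by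
    rw [← pow_two, ← ht]
    exact pow_orderOf_eq_one t
  obtain ⟨P⟩ : Nonempty (Sylow p G) := inferInstance
  obtain ⟨g, hg⟩ := Cfsg.Agent.H81.exists_conj_inverting_sylow p hpG hC hex t ht1 ht2 P
  have hPne : (P : Subgroup G) ≠ ⊥ := P.ne_bot_of_dvd_card hpG
  obtain ⟨u, hu⟩ := (Subgroup.ne_bot_iff_exists_ne_one).mp hPne
  have hu1 : (u : G) ≠ 1 := fun h => hu (Subtype.ext h)
  have hreal : IsConj (u : G) (u : G)⁻¹ := isConj_iff.mpr ⟨g * t * g⁻¹, hg u u.2⟩
  have h2 := Cfsg.Agent.H81.even_card_centralizer_of_odd_degrees hodd (u : G) hu1 hreal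
  have h3 := hC (u : G) hu1 (Cfsg.Agent.H81.orderOf_pow_of_mem_sylow P u.2)
  exact (Nat.not_even_iff_odd.mpr h3) (even_iff_two_dvd.mpr h2)

end Cfsg.Agent.S4746
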