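import Cfsg.Statements.S4754
import Cfsg.Agent.H82.Irr
import Cfsg.Agent.S0136

set_option autoImplicit false
open Cfsg

namespace Cfsg.Agent.S4754

/-- For elements x, y of a finite group G, the conjugacy class of x y equals the set of all products of a conjugate of x with a conjugate of y if and only if χ(1) χ(a x a⁻¹ b y b⁻¹) = χ(x) χ(y) for all a, b ∈ G and every irreducible character χ. -/
theorem result {G : Type*} [Group G] [Finite G] (x y : G) : (∀ z : G, IsConj (x * y) z ↔ ∃ a b : G, z = a * x * a⁻¹ * (b * y * b⁻¹)) ↔ ∀ (a b : G) (χ : Cfsg.IrrCharacter G), (χ : G → ℂ) 1 * (χ : G → ℂ) (a * x * a⁻¹ * (b * y * b⁻¹)) = (χ : G → ℂ) x * (χ : G → ℂ) y := by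
  classical
  have := Fintype.ofFinite G
  have hG : (Nat.card G : ℂ) ≠ 0 := by
    have : 0 < Nat.card G := Nat.card_pos
    exact_mod_cast this.ne'
  constructor
  · intro h a b χ
    have hall : ∀ a b : G, χ.1 (a * x * a⁻¹ * (b * y * b⁻¹)) = χ.1 (x * y) := by
      intro a b
      exact (Cfsg.Agent.H82.irr_isConj χ ((h _).mpr ⟨a, b, rfl⟩)).symm
    have hsum := Cfsg.Agent.H82.irr_sum_sum χ x y
    simp only [hall] at hsum
    rw [hall a b]
    have h1 := Cfsg.Agent.H82.irr_one_ne_zero χ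
    simp only [Finset.sum_const, Finset.card_univ, nsmul_eq_mul, ← Nat.card_eq_fintype_card] at hsum
    have h2 : (Nat.card G : ℂ) ^ 2 * (χ.1 1 * χ.1 (x * y)) = (Nat.card G : ℂ) ^ 2 * (χ.1 x * χ.1 y) := by
      have h3 : (Nat.card G : ℂ) ^ 2 * χ.1 (x * y) = (Nat.card G : ℂ) ^ 2 * χ.1 x * χ.1 y / χ.1 1 := by
        rw [← hsum]; ring
      rw [eq_div_iff h1] at h3
      linear_combination h3
    exact mul_left_cancel₀ (pow_ne_zero 2 hG) h2
  · intro h z
    constructor
    · intro hz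
      obtain ⟨c, hc⟩ := isConj_iff.mp hz
      refine ⟨c, c, ?_⟩
      rw [← hc]; group
    · rintro ⟨a, b, rfl⟩
      rw [Cfsg.Agent.S0136.result]
      intro χ
      have h1 := h a b χ
      have h2 := h 1 1 χ
      simp only [one_mul, inv_one, mul_one] at h2
      exact mul_left_cancel₀ (Cfsg.Agent.H82.irr_one_ne_zero χ) (h2.trans h1.symm)

end Cfsg.Agent.S4754
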