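import Cfsg.Statements.S4755
import Cfsg.Agent.H82.Irr
import Cfsg.Agent.H82.Grp
import Cfsg.Agent.H82.Fin
import Cfsg.Agent.S0136
import Cfsg.Agent.S0145
import Cfsg.Agent.S0154

set_option autoImplicit false
open Cfsg

namespace Cfsg.Agent.S4755

open scoped commutatorElement in
open Cfsg.Agent.H82 in
/-- Let x, y be non-identity elements of the finite group G such that χ(x' y') = χ(x') χ(y') for all conjugates x' of x, y' of y and every irreducible character χ. Then the conjugacy class of x y is the set of all products of a conjugate of x with a conjugate of y; every irreducible character of degree greater than 1 vanishes at x y; and the conjugacy class of x y is the coset of the commutator subgroup containing x y. -/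
theorem result {G : Type*} [Group G] [Finite G] (x y : G) (hx : x ≠ 1) (hy : y ≠ 1) (h : ∀ (a b : G) (χ : Cfsg.IrrCharacter G), (χ : G → ℂ) (a * x * a⁻¹ * (b * y * b⁻¹)) = (χ : G → ℂ) (a * x * a⁻¹) * (χ : G → ℂ) (b * y * b⁻¹)) : (∀ z : G, IsConj (x * y) z ↔ ∃ a b : G, z = a * x * a⁻¹ * (b * y * b⁻¹)) ∧ (∀ χ : Cfsg.IrrCharacter G, (χ : G → ℂ) 1 ≠ 1 → (χ : G → ℂ) (x * y) = 0) ∧ (∀ z : G, IsConj (x * y) z ↔ (x * y)⁻¹ * z ∈ commutator G) := by
  classical
  have := Fintype.ofFinite G
  have hG : (Nat.card G : ℂ) ≠ 0 := by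
    have : 0 < Nat.card G := Nat.card_pos
    exact_mod_cast this.ne'
  have h1 : ∀ (a b : G) (χ : Cfsg.IrrCharacter G),
      χ.1 (a * x * a⁻¹ * (b * y * b⁻¹)) = χ.1 x * χ.1 y := by
    intro a b χ
    rw [h a b χ, irr_conj, irr_conj]
  have h2 : ∀ χ : Cfsg.IrrCharacter G, χ.1 1 = 1 ∨ χ.1 x * χ.1 y = 0 := by
    intro χ
    have hsum := irr_sum_sum χ x y
    simp only [h1] at hsum
    simp only [Finset.sum_const, Finset.card_univ, nsmul_eq_mul, ← Nat.card_eq_fintype_card]
      at hsum
    have hne := irr_one_ne_zero χ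
    by_cases hxy : χ.1 x * χ.1 y = 0
    · right; exact hxy
    · left
      rw [eq_div_iff hne] at hsum
      have h5 : (Nat.card G : ℂ) ^ 2 * (χ.1 x * χ.1 y) * χ.1 1 =
          (Nat.card G : ℂ) ^ 2 * (χ.1 x * χ.1 y) * 1 := by linear_combination hsum
      exact mul_left_cancel₀ (mul_ne_zero (pow_ne_zero 2 hG) hxy) h5
  have h3 : ∀ χ : Cfsg.IrrCharacter G, χ.1 (x * y) = χ.1 x * χ.1 y := by
    intro χ
    have := h1 1 1 χ
    simpa using this
  have hpart2 : ∀ χ : Cfsg.IrrCharacter G, χ.1 1 ≠ 1 → χ.1 (x * y) = 0 := by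
    intro χ hχ
    rw [h3]
    exact (h2 χ).resolve_left hχ
  have hconj_comm : ∀ z : G, IsConj (x * y) z → (x * y)⁻¹ * z ∈ commutator G := by
    intro z hz
    obtain ⟨c, hc⟩ := isConj_iff.mp hz
    have : (x * y)⁻¹ * z = ⁅(x * y)⁻¹, c⁆ := by
      rw [← hc, commutatorElement_def]; group
    rw [this, commutator_def]
    exact Subgroup.commutator_mem_commutator (Subgroup.mem_top _) (Subgroup.mem_top _)
  refine ⟨?_, hpart2, ?_⟩
  · intro z
    constructor
    · intro hz
      obtain ⟨c, hc⟩ := isConj_iff.mp hz
      refine ⟨c, c, ?_⟩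
      rw [← hc]; group
    · rintro ⟨a, b, rfl⟩
      rw [Cfsg.Agent.S0136.result]
      intro χ
      rw [h3, h1]
  · -- the class of `x * y` is the coset of the commutator subgroup
    have hfin : Finite (Cfsg.IrrCharacter G) := irr_finite G
    have := Fintype.ofFinite (Cfsg.IrrCharacter G)
    have hterm : ∀ χ : Cfsg.IrrCharacter G,
        χ.1 (x * y) * (starRingEnd ℂ) (χ.1 (x * y)) = if χ.1 1 = 1 then (1 : ℂ) else 0 := by
      intro χ
      by_cases hχ : χ.1 1 = 1
      · rw [if_pos hχ, ← irr_inv, ← irr_linear_mul χ hχ, mul_inv_cancel, hχ]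
      · rw [if_neg hχ, hpart2 χ hχ, zero_mul]
    have hcent : (Nat.card (Subgroup.centralizer ({x * y} : Set G)) : ℂ) =
        ((commutator G).index : ℂ) := by
      have h145 := (Cfsg.Agent.S0145.result (x * y) (x * y)).1 (IsConj.refl _)
      rw [← h145, finsum_eq_sum_of_fintype]
      simp only [hterm]
      rw [Finset.sum_boole, ← Cfsg.Agent.S0154.result, Nat.card_eq_fintype_card,
        Fintype.card_subtype]
    have hcent' : Nat.card (Subgroup.centralizer ({x * y} : Set G)) = (commutator G).index := by
      exact_mod_cast hcent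
    have hidx : (Subgroup.centralizer ({x * y} : Set G)).index = Nat.card (commutator G) := by
      have e1 := Subgroup.card_mul_index (Subgroup.centralizer ({x * y} : Set G))
      have e2 := Subgroup.card_mul_index (commutator G)
      rw [hcent'] at e1
      have hpos : 0 < (commutator G).index := Nat.pos_of_ne_zero Subgroup.index_ne_zero_of_finite
      have : (commutator G).index * (Subgroup.centralizer ({x * y} : Set G)).index =
          (commutator G).index * Nat.card (commutator G) := by
        rw [e1, mul_comm, e2]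
      exact Nat.eq_of_mul_eq_mul_left hpos this
    have hCS : {z : G | IsConj (x * y) z} ⊆ {z : G | (x * y)⁻¹ * z ∈ commutator G} :=
      fun z hz => hconj_comm z hz
    have hS : {z : G | (x * y)⁻¹ * z ∈ commutator G}.ncard = Nat.card (commutator G) := by
      have : {z : G | (x * y)⁻¹ * z ∈ commutator G} =
          (fun w => (x * y) * w) '' ((commutator G : Subgroup G) : Set G) := by
        ext z
        constructor
        · intro hz
          exact ⟨(x * y)⁻¹ * z, hz, by group⟩
        · rintro ⟨w, hw, rfl⟩
          have e : (x * y)⁻¹ * (x * y * w) = w := by group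
          change (x * y)⁻¹ * (x * y * w) ∈ commutator G
          rw [e]
          exact hw
      rw [this, Set.ncard_image_of_injective _ (mul_right_injective (x * y))]
      exact (Nat.card_coe_set_eq _).symm
    have hEq : {z : G | IsConj (x * y) z} = {z : G | (x * y)⁻¹ * z ∈ commutator G} := by
      apply Set.eq_of_subset_of_ncard_le hCS _ (Set.toFinite _)
      rw [hS, ncard_conj_class, hidx]
    intro z
    constructor
    · exact hconj_comm z
    · intro hz
      have : z ∈ {z : G | (x * y)⁻¹ * z ∈ commutator G} := hz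
      rw [← hEq] at this
      exact this

end Cfsg.Agent.S4755
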