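import Cfsg.Statements.S4757
import Cfsg.Agent.H82.Triv
import Cfsg.Agent.H82.Fin
import Cfsg.Agent.H82.Invol
import Cfsg.Agent.H14.Cores
import Cfsg.Agent.S0145
import Cfsg.Agent.S0154

set_option autoImplicit false
open Cfsg

namespace Cfsg.Agent.S4757

open Cfsg.Agent.H82

/-- The character-theoretic core: consequences of the hypothesis. -/
theorem key {G : Type*} [Group G] [Finite G] (u : G) (hu : u ≠ 1) (c : ℂ)
    (hyp : ∀ χ : Cfsg.IrrCharacter G, χ ≠ trivChar G →
      (χ.1 1 - χ.1 u = c ∨ χ.1 u = 0)) :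
    (c = 2 → commutator G ≠ ⊤) ∧
    (commutator G ≠ ⊤ → c = 2 ∧ (commutator G).index = 2 ∧ u ∉ commutator G ∧
      Nat.card (Subgroup.centralizer ({u} : Set G)) = 2) := by
  classical
  have hfin : Finite (Cfsg.IrrCharacter G) := irr_finite G
  have := Fintype.ofFinite (Cfsg.IrrCharacter G)
  set T := trivChar G with hT
  have hT1 : ∀ g, T.1 g = 1 := fun g => trivChar_apply g
  have hTdeg : Cfsg.charDegree T.1 = 1 := charDegree_trivChar
  have hF1 : ∑ χ : Cfsg.IrrCharacter G, (Cfsg.charDegree χ.1 : ℝ) * (χ.1 u).re = 0 := by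
    have h := (Cfsg.Agent.S0145.result (1 : G) u).2 (fun hc => hu (isConj_one_right.mp hc))
    rw [finsum_eq_sum_of_fintype] at h
    have h2 := congrArg Complex.re h
    rw [Complex.re_sum] at h2
    simp only [Complex.zero_re] at h2
    rw [← h2]
    refine Finset.sum_congr rfl fun χ _ => ?_
    rw [irr_one_eq_charDegree]
    simp
  have hF2 : ∑ χ : Cfsg.IrrCharacter G, χ.1 u * (starRingEnd ℂ) (χ.1 u) =
      (Nat.card (Subgroup.centralizer ({u} : Set G)) : ℂ) := by
    have h := (Cfsg.Agent.S0145.result u u).1 (IsConj.refl u)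
    rwa [finsum_eq_sum_of_fintype] at h
  have hF3 : Nat.card {χ : Cfsg.IrrCharacter G // χ.1 1 = 1} = (commutator G).index :=
    Cfsg.Agent.S0154.result
  have hA : (∀ χ : Cfsg.IrrCharacter G, χ ≠ T → 0 ≤ (χ.1 u).re) → False := by
    intro h
    have hsplit : (Cfsg.charDegree T.1 : ℝ) * (T.1 u).re +
        ∑ χ ∈ Finset.univ.erase T, (Cfsg.charDegree χ.1 : ℝ) * (χ.1 u).re =
        ∑ χ : Cfsg.IrrCharacter G, (Cfsg.charDegree χ.1 : ℝ) * (χ.1 u).re :=
      Finset.add_sum_erase Finset.univ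
        (fun χ : Cfsg.IrrCharacter G => (Cfsg.charDegree χ.1 : ℝ) * (χ.1 u).re) (Finset.mem_univ T)
    have hnn : 0 ≤ ∑ χ ∈ Finset.univ.erase T, (Cfsg.charDegree χ.1 : ℝ) * (χ.1 u).re := by
      apply Finset.sum_nonneg
      intro χ hχ
      exact mul_nonneg (Nat.cast_nonneg _) (h χ (Finset.ne_of_mem_erase hχ))
    have hfT : (Cfsg.charDegree T.1 : ℝ) * (T.1 u).re = 1 := by
      rw [hTdeg, hT1]; simp
    rw [hF1, hfT] at hsplit
    linarith
  have hdeg2 : ∀ χ : Cfsg.IrrCharacter G, χ.1 1 ≠ 1 → 2 ≤ Cfsg.charDegree χ.1 := by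
    intro χ h
    have hpos := charDegree_pos χ
    have h1 : Cfsg.charDegree χ.1 ≠ 1 := by
      intro h1; apply h; rw [irr_one_eq_charDegree, h1]; simp
    omega
  have hc0 : c ≠ 0 := by
    intro hc
    apply hA
    intro χ hχ
    rcases hyp χ hχ with h | h
    · have : χ.1 u = χ.1 1 := by rw [hc] at h; exact (sub_eq_zero.mp h).symm
      rw [this, irr_one_eq_charDegree]; simp
    · rw [h]; simp
  have hlin : ∀ χ : Cfsg.IrrCharacter G, χ.1 1 = 1 → χ ≠ T → χ.1 u = 1 - c := by
    intro χ h1 hχ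
    rcases hyp χ hχ with h | h
    · rw [h1] at h; rw [← h]; ring
    · exact absurd h (irr_linear_ne_zero χ h1 u)
  have hsq : ∀ χ : Cfsg.IrrCharacter G, χ.1 1 = 1 → χ ≠ T →
      (∀ g, χ.1 g * χ.1 g = 1) ∧ χ.1 u = -1 ∧ c = 2 := by
    intro χ h1 hχ
    have hχ2v : ∀ g, (linChar (irrLinearHom χ h1 * irrLinearHom χ h1)).1 g = χ.1 g * χ.1 g := by
      intro g
      rw [linChar_apply, MonoidHom.mul_apply, Units.val_mul, irrLinearHom_apply]
    have hu1 := hlin χ h1 hχ
    by_cases h2 : linChar (irrLinearHom χ h1 * irrLinearHom χ h1) = T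
    · have hall : ∀ g, χ.1 g * χ.1 g = 1 := by
        intro g; rw [← hχ2v, h2, hT1]
      have hu2 := hall u
      have hne1 : χ.1 u ≠ 1 := by
        rw [hu1]; intro h; apply hc0; linear_combination -h
      have hm1 : χ.1 u = -1 := by
        have : (χ.1 u - 1) * (χ.1 u + 1) = 0 := by linear_combination hu2
        rcases mul_eq_zero.mp this with h | h
        · exact absurd (sub_eq_zero.mp h) hne1
        · exact eq_neg_of_add_eq_zero_left h
      refine ⟨hall, hm1, ?_⟩
      rw [hm1] at hu1; linear_combination hu1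
    · exfalso
      have h3 := hlin _ (linChar_one _) h2
      rw [hχ2v, hu1] at h3
      have : (1 - c) * (-c) = 0 := by linear_combination h3
      rcases mul_eq_zero.mp this with h | h
      · exact irr_linear_ne_zero χ h1 u (hu1.trans h)
      · exact hc0 (neg_eq_zero.mp h)
  have huniq : ∀ χ ψ : Cfsg.IrrCharacter G, χ.1 1 = 1 → χ ≠ T → ψ.1 1 = 1 → ψ ≠ T → χ = ψ := by
    intro χ ψ h1 hχ h1' hψ
    obtain ⟨-, hχu, hc2⟩ := hsq χ h1 hχ
    obtain ⟨hψsq, hψu, -⟩ := hsq ψ h1' hψ
    have hv : ∀ g, (linChar (irrLinearHom χ h1 * irrLinearHom ψ h1')).1 g = χ.1 g * ψ.1 g := by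
      intro g
      rw [linChar_apply, MonoidHom.mul_apply, Units.val_mul, irrLinearHom_apply,
        irrLinearHom_apply]
    have hT' : linChar (irrLinearHom χ h1 * irrLinearHom ψ h1') = T := by
      by_contra hne
      have h3 := hlin _ (linChar_one _) hne
      rw [hv, hχu, hψu, hc2] at h3
      norm_num at h3
    apply Subtype.ext
    funext g
    have h4 : χ.1 g * ψ.1 g = 1 := by rw [← hv, hT', hT1]
    have h5 := hψsq g
    have hne := irr_linear_ne_zero ψ h1' g
    exact mul_right_cancel₀ hne (h4.trans h5.symm)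
  refine ⟨?_, ?_⟩
  · intro hc2 htop
    apply hA
    intro χ hχ
    have hnl : χ.1 1 ≠ 1 := by
      intro h1
      rw [htop, Subgroup.index_top] at hF3
      have hsub : Subsingleton {χ : Cfsg.IrrCharacter G // χ.1 1 = 1} :=
        (Nat.card_eq_one_iff_unique.mp hF3).1
      have := Subsingleton.elim (⟨χ, h1⟩ : {χ : Cfsg.IrrCharacter G // χ.1 1 = 1}) ⟨T, hT1 1⟩
      exact hχ (congrArg Subtype.val this)
    have hd := hdeg2 χ hnl
    rcases hyp χ hχ with h | h
    · have h' : χ.1 u = χ.1 1 - 2 := by rw [hc2] at h; linear_combination -h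
      rw [h', irr_one_eq_charDegree]
      have hd' : (2 : ℝ) ≤ (Cfsg.charDegree χ.1 : ℝ) := by exact_mod_cast hd
      simp
      linarith
    · rw [h]; simp
  · intro hne
    have hex : ∃ χ : Cfsg.IrrCharacter G, χ.1 1 = 1 ∧ χ ≠ T := by
      by_contra hcon
      push Not at hcon
      apply hne
      rw [← Subgroup.index_eq_one, ← hF3, Nat.card_eq_one_iff_unique]
      refine ⟨⟨fun a b => ?_⟩, ⟨⟨T, hT1 1⟩⟩⟩
      apply Subtype.ext
      rw [hcon a.1 a.2, hcon b.1 b.2]
    obtain ⟨lam, hl1, hlT⟩ := hex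
    obtain ⟨hlsq, hlu, hc2⟩ := hsq lam hl1 hlT
    have hother : ∀ χ : Cfsg.IrrCharacter G, χ ≠ T → χ ≠ lam → χ.1 1 ≠ 1 :=
      fun χ h1 h2 h3 => h2 (huniq χ lam h3 h1 hl1 hlT)
    have hTl : T ≠ lam := fun h => hlT h.symm
    have hmem : lam ∈ Finset.univ.erase T := Finset.mem_erase.mpr ⟨hlT, Finset.mem_univ _⟩
    have hs1 : (Cfsg.charDegree T.1 : ℝ) * (T.1 u).re +
        ∑ χ ∈ Finset.univ.erase T, (Cfsg.charDegree χ.1 : ℝ) * (χ.1 u).re =
        ∑ χ : Cfsg.IrrCharacter G, (Cfsg.charDegree χ.1 : ℝ) * (χ.1 u).re :=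
      Finset.add_sum_erase Finset.univ
        (fun χ : Cfsg.IrrCharacter G => (Cfsg.charDegree χ.1 : ℝ) * (χ.1 u).re) (Finset.mem_univ T)
    have hs2 : (Cfsg.charDegree lam.1 : ℝ) * (lam.1 u).re +
        ∑ χ ∈ (Finset.univ.erase T).erase lam, (Cfsg.charDegree χ.1 : ℝ) * (χ.1 u).re =
        ∑ χ ∈ Finset.univ.erase T, (Cfsg.charDegree χ.1 : ℝ) * (χ.1 u).re :=
      Finset.add_sum_erase (Finset.univ.erase T)
        (fun χ : Cfsg.IrrCharacter G => (Cfsg.charDegree χ.1 : ℝ) * (χ.1 u).re) hmem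
    have hrest_nonneg : ∀ χ ∈ (Finset.univ.erase T).erase lam,
        0 ≤ (Cfsg.charDegree χ.1 : ℝ) * (χ.1 u).re := by
      intro χ hχ
      have hχl : χ ≠ lam := Finset.ne_of_mem_erase hχ
      have hχT : χ ≠ T := Finset.ne_of_mem_erase (Finset.mem_of_mem_erase hχ)
      have hd := hdeg2 χ (hother χ hχT hχl)
      apply mul_nonneg (Nat.cast_nonneg _)
      rcases hyp χ hχT with h | h
      · have h' : χ.1 u = χ.1 1 - 2 := by rw [hc2] at h; linear_combination -h
        rw [h', irr_one_eq_charDegree]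
        have hd' : (2 : ℝ) ≤ (Cfsg.charDegree χ.1 : ℝ) := by exact_mod_cast hd
        simp
        linarith
      · rw [h]; simp
    have hdl : Cfsg.charDegree lam.1 = 1 := by
      have := irr_one_eq_charDegree lam
      rw [hl1] at this
      exact_mod_cast this.symm
    have hrest0 : ∑ χ ∈ (Finset.univ.erase T).erase lam,
        (Cfsg.charDegree χ.1 : ℝ) * (χ.1 u).re = 0 := by
      have hfT : (Cfsg.charDegree T.1 : ℝ) * (T.1 u).re = 1 := by
        rw [hTdeg, hT1]; simp
      have hfl : (Cfsg.charDegree lam.1 : ℝ) * (lam.1 u).re = -1 := by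
        rw [hdl, hlu]; simp
      rw [hF1, hfT] at hs1
      rw [hfl] at hs2
      linarith
    have hvanish : ∀ χ : Cfsg.IrrCharacter G, χ ≠ T → χ ≠ lam → χ.1 u = 0 := by
      intro χ hχT hχl
      have hmem' : χ ∈ (Finset.univ.erase T).erase lam :=
        Finset.mem_erase.mpr ⟨hχl, Finset.mem_erase.mpr ⟨hχT, Finset.mem_univ _⟩⟩
      have h0 := (Finset.sum_eq_zero_iff_of_nonneg hrest_nonneg).mp hrest0 χ hmem'
      have hd := hdeg2 χ (hother χ hχT hχl)
      rcases hyp χ hχT with h | h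
      · have hu' : χ.1 u = χ.1 1 - 2 := by rw [hc2] at h; linear_combination -h
        rw [hu', irr_one_eq_charDegree] at h0 ⊢
        have hre : (((Cfsg.charDegree χ.1 : ℂ) - 2).re) = (Cfsg.charDegree χ.1 : ℝ) - 2 := by simp
        rw [hre] at h0
        have hd' : (2 : ℝ) ≤ (Cfsg.charDegree χ.1 : ℝ) := by exact_mod_cast hd
        have hdpos : (Cfsg.charDegree χ.1 : ℝ) ≠ 0 := by linarith
        have h1 : (Cfsg.charDegree χ.1 : ℝ) - 2 = 0 := (mul_eq_zero.mp h0).resolve_left hdpos
        have h2 : (Cfsg.charDegree χ.1 : ℝ) = 2 := by linarith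
        have h3 : Cfsg.charDegree χ.1 = 2 := by exact_mod_cast h2
        rw [h3]; norm_num
      · exact h
    have hcard : Nat.card (Subgroup.centralizer ({u} : Set G)) = 2 := by
      have hs1' : T.1 u * (starRingEnd ℂ) (T.1 u) +
          ∑ χ ∈ Finset.univ.erase T, χ.1 u * (starRingEnd ℂ) (χ.1 u) =
          ∑ χ : Cfsg.IrrCharacter G, χ.1 u * (starRingEnd ℂ) (χ.1 u) :=
        Finset.add_sum_erase Finset.univ
          (fun χ : Cfsg.IrrCharacter G => χ.1 u * (starRingEnd ℂ) (χ.1 u)) (Finset.mem_univ T)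
      have hs2' : lam.1 u * (starRingEnd ℂ) (lam.1 u) +
          ∑ χ ∈ (Finset.univ.erase T).erase lam, χ.1 u * (starRingEnd ℂ) (χ.1 u) =
          ∑ χ ∈ Finset.univ.erase T, χ.1 u * (starRingEnd ℂ) (χ.1 u) :=
        Finset.add_sum_erase (Finset.univ.erase T)
          (fun χ : Cfsg.IrrCharacter G => χ.1 u * (starRingEnd ℂ) (χ.1 u)) hmem
      have hz : ∑ χ ∈ (Finset.univ.erase T).erase lam,
          χ.1 u * (starRingEnd ℂ) (χ.1 u) = 0 := by
        apply Finset.sum_eq_zero
        intro χ hχ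
        rw [hvanish χ (Finset.ne_of_mem_erase (Finset.mem_of_mem_erase hχ))
          (Finset.ne_of_mem_erase hχ)]
        simp
      have hgT : T.1 u * (starRingEnd ℂ) (T.1 u) = 1 := by rw [hT1]; simp
      have hgl : lam.1 u * (starRingEnd ℂ) (lam.1 u) = 1 := by rw [hlu]; simp
      have h2 : (Nat.card (Subgroup.centralizer ({u} : Set G)) : ℂ) = 2 := by
        rw [← hF2, ← hs1', ← hs2', hz, hgT, hgl]; norm_num
      exact_mod_cast h2
    have hidx : (commutator G).index = 2 := by
      rw [← hF3]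
      have h2 : Fintype.card {χ : Cfsg.IrrCharacter G // χ.1 1 = 1} = 2 := by
        rw [Fintype.card_subtype]
        have : Finset.univ.filter (fun χ : Cfsg.IrrCharacter G => χ.1 1 = 1) = {T, lam} := by
          ext χ
          simp only [Finset.mem_filter, Finset.mem_univ, true_and, Finset.mem_insert,
            Finset.mem_singleton]
          constructor
          · intro h1
            by_cases hχT : χ = T
            · left; exact hχT
            · right; exact huniq χ lam h1 hχT hl1 hlT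
          · rintro (rfl | rfl)
            · exact hT1 1
            · exact hl1
        rw [this, Finset.card_pair hTl]
      rw [Nat.card_eq_fintype_card, h2]
    have hunot : u ∉ commutator G := by
      intro hmem
      have hker := Abelianization.commutator_subset_ker (irrLinearHom lam hl1) hmem
      rw [MonoidHom.mem_ker] at hker
      have h1 : lam.1 u = 1 := by rw [← irrLinearHom_apply lam hl1 u, hker]; rfl
      rw [hlu] at h1
      norm_num at h1
    exact ⟨hc2, hidx, hunot, hcard⟩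

/-- Let u ≠ 1 be an element of the finite group G and c a complex number such that every non-principal irreducible character χ satisfies χ(1) − χ(u) = c or χ(u) = 0. Then the following are equivalent: (a) u has order 2, G is generated by u together with O(G), the largest normal subgroup of G of odd order, and the centralizer of u is {1, u}; (b) G is not perfect; (c) c = 2. -/
theorem result {G : Type*} [Group G] [Finite G] (u : G) (hu : u ≠ 1) (c : ℂ) (hyp : ∀ χ : Cfsg.IrrCharacter G, (χ : G → ℂ) ≠ (fun _ => (1 : ℂ)) → ((χ : G → ℂ) 1 - (χ : G → ℂ) u = c ∨ (χ : G → ℂ) u = 0)) : ((orderOf u = 2 ∧ Subgroup.zpowers u ⊔ Cfsg.oddCore G = ⊤ ∧ Subgroup.centralizer ({u} : Set G) = Subgroup.zpowers u) ↔ commutator G ≠ ⊤) ∧ (commutator G ≠ ⊤ ↔ c = 2) := by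
  classical
  have hyp' : ∀ χ : Cfsg.IrrCharacter G, χ ≠ trivChar G →
      (χ.1 1 - χ.1 u = c ∨ χ.1 u = 0) := by
    intro χ hχ
    apply hyp χ
    intro h
    apply hχ
    apply Subtype.ext
    rw [h]
    funext g
    exact (trivChar_apply g).symm
  obtain ⟨hk1, hk2⟩ := key u hu c hyp'
  refine ⟨⟨?_, ?_⟩, ⟨fun h => (hk2 h).1, hk1⟩⟩
  · rintro ⟨h2, hsup, -⟩
    have hOn : (Cfsg.oddCore G).Normal := Cfsg.Agent.H14.pPrimeCore_normal 2 G
    have hOodd : (Nat.card (Cfsg.oddCore G)).Coprime 2 := Cfsg.Agent.H14.pPrimeCore_coprime 2 G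
    have hle := commutator_le_of_zpowers_sup_eq_top (Cfsg.oddCore G) u hsup
    intro htop
    rw [htop, top_le_iff] at hle
    have hdvd : 2 ∣ Nat.card (Cfsg.oddCore G) := by
      rw [hle, Subgroup.card_top, ← h2]
      exact orderOf_dvd_natCard u
    have := Nat.Coprime.eq_one_of_dvd hOodd.symm hdvd
    omega
  · intro hne
    obtain ⟨hc2, hidx, hunot, hcard⟩ := hk2 hne
    obtain ⟨ho, hC⟩ := centralizer_eq_zpowers_of_card_two u hu hcard
    refine ⟨ho, ?_, hC⟩
    have hodd : ¬ 2 ∣ Nat.card (commutator G) :=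
      not_two_dvd_card_of_index_two (commutator G) u ho hunot hC
    have hcop : (Nat.card (commutator G)).Coprime 2 :=
      (Nat.prime_two.coprime_iff_not_dvd.mpr hodd).symm
    have hle : commutator G ≤ Cfsg.oddCore G := Cfsg.Agent.H14.le_pPrimeCore inferInstance hcop
    have htop := zpowers_sup_eq_top_of_index_two (commutator G) hidx u hunot
    rw [eq_top_iff, ← htop]
    exact sup_le_sup_left hle _

end Cfsg.Agent.S4757
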