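import Cfsg.Statements.S4774
import Cfsg.Agent.H44.PSL2Deg

set_option autoImplicit false
open Cfsg

namespace Cfsg.Agent.S4774

/-- Let F be a finite field of odd characteristic t with q > 5 elements and let S be isomorphic to PSL(2,F) or to SL(2,F). Then the vertices of the character degree graph of S are the primes dividing q(q²−1); the prime t is adjacent to no vertex; two distinct primes dividing q² − 1 are adjacent exactly when one of them is 2, or both divide q + 1, or both divide q − 1. -/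
theorem result (F : Type*) [Field F] [Fintype F] (t : ℕ) [Fact t.Prime] [CharP F t] (ht : t ≠ 2) (q : ℕ) (hq : Fintype.card F = q) (h5 : 5 < q) {S : Type*} [Group S] [Finite S] (hS : Nonempty (S ≃* Matrix.ProjectiveSpecialLinearGroup (Fin 2) F) ∨ Nonempty (S ≃* Matrix.SpecialLinearGroup (Fin 2) F)) : Cfsg.degreePrimes S = {r : ℕ | r.Prime ∧ r ∣ q * (q ^ 2 - 1)} ∧ ∀ r s : ℕ, (Cfsg.degreeGraph S).Adj r s ↔ (r ≠ s ∧ r.Prime ∧ s.Prime ∧ r ∣ q ^ 2 - 1 ∧ s ∣ q ^ 2 - 1 ∧ (r = 2 ∨ s = 2 ∨ (r ∣ q + 1 ∧ s ∣ q + 1) ∨ (r ∣ q - 1 ∧ s ∣ q - 1))) := by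
  classical
  letI : Fintype (Matrix.SpecialLinearGroup (Fin 2) F) := Fintype.ofFinite _
  letI : Fintype (MulChar F ℂ) := Fintype.ofFinite _
  letI : Fintype (Cfsg.IrrCharacter (Matrix.SpecialLinearGroup (Fin 2) F)) := Cfsg.Agent.H4.fintypeIrr _
  subst hq
  obtain ⟨n, htp, hn⟩ := FiniteField.card F t
  have hodd : Odd (Fintype.card F) := by
    rw [hn]
    exact Odd.pow (htp.odd_of_ne_two ht)
  obtain ⟨hsub, h1, h2, h3⟩ := Cfsg.Agent.H44.charDegrees_facts hS (by omega) (by omega)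
  refine ⟨Cfsg.Agent.H44.degreePrimes_eq _ (by omega) hsub h1 h2 h3, fun r s => ?_⟩
  rw [Cfsg.Agent.H44.degreeGraph_adj_iff _ t htp ⟨n, hn⟩ hsub h2 h3]
  constructor
  · rintro ⟨hne, hr, hs, h⟩
    have h4 := (Cfsg.Agent.H44.adj_rhs_odd _ hodd r s hne hr hs).mp h
    exact ⟨hne, hr, hs, h4.1, h4.2.1, h4.2.2⟩
  · rintro ⟨hne, hr, hs, h4, h5, h6⟩
    exact ⟨hne, hr, hs, (Cfsg.Agent.H44.adj_rhs_odd _ hodd r s hne hr hs).mpr ⟨h4, h5, h6⟩⟩

end Cfsg.Agent.S4774
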