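import Cfsg.Statements.S4784
import Cfsg.Agent.H82.PermChar

set_option autoImplicit false
open Cfsg
open Cfsg.Agent

namespace Cfsg.Agent.S4784

/-- Let H be a subgroup of the finite group G and consider the permutation character of G on the cosets of H (the function induced from the principal character of H). Then exactly one irreducible constituent of it is real-valued with Frobenius–Schur indicator +1 (namely the principal character) if and only if the normal core of H has odd index in G. -/
theorem result {G : Type*} [Group G] [Fintype G] (H : Subgroup G) : Nat.card {χ : Cfsg.IrrCharacter G // Cfsg.classInner (Cfsg.indFun H (fun _ : H => (1 : ℂ))) (χ : G → ℂ) ≠ 0 ∧ (∀ g : G, (starRingEnd ℂ) ((χ : G → ℂ) g) = (χ : G → ℂ) g) ∧ (Nat.card G : ℂ)⁻¹ * ∑ g : G, (χ : G → ℂ) (g * g) = 1} = 1 ↔ Odd H.normalCore.index := by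
  classical
  have htriv : Cfsg.classInner (Cfsg.indFun H (fun _ : H => (1 : ℂ))) (H78.trivIrr G).1 ≠ 0 ∧
      (∀ g : G, (starRingEnd ℂ) ((H78.trivIrr G).1 g) = (H78.trivIrr G).1 g) ∧
      (Nat.card G : ℂ)⁻¹ * ∑ g : G, (H78.trivIrr G).1 (g * g) = 1 := by
    refine ⟨?_, ?_, ?_⟩
    · rw [H82.classInner_permChar_triv]
      exact one_ne_zero
    · intro g
      rw [H78.trivIrr_apply, map_one]
    · exact H78.indicator_trivIrr
  rw [Nat.card_eq_one_iff_unique]
  constructor
  · rintro ⟨hsub, -⟩
    refine H82.odd_index_of_unique H fun χ h1 h2 => ?_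
    have hreal : ∀ g : G, (starRingEnd ℂ) (χ.1 g) = χ.1 g := by
      intro g
      by_contra hg
      have him : (χ.1 g).im ≠ 0 := fun him => hg (Complex.conj_eq_iff_im.mpr him)
      have h0 := H78.irr_indicator_eq_zero_of_not_real χ g him
      rw [h0] at h2
      exact zero_ne_one h2
    have := hsub.elim ⟨χ, h1, hreal, h2⟩ ⟨H78.trivIrr G, htriv⟩
    exact congrArg Subtype.val this
  · intro hodd
    refine ⟨⟨fun a b => ?_⟩, ⟨⟨H78.trivIrr G, htriv⟩⟩⟩
    have ha := H82.eq_triv_of_odd H hodd a.1 a.2.1 a.2.2.2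
    have hb := H82.eq_triv_of_odd H hodd b.1 b.2.1 b.2.2.2
    exact Subtype.ext (ha.trans hb.symm)

end Cfsg.Agent.S4784
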