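import Cfsg.Statements.S4797
import Cfsg.Agent.H82.Perfect

set_option autoImplicit false
open Cfsg

namespace Cfsg.Agent.S4797

/-- The codegree of an irreducible complex character χ of a finite group G is [G : ker χ] / χ(1), where ker χ is the set of elements at which χ takes the value χ(1). A non-trivial finite group is perfect if and only if no irreducible complex character of it has prime codegree. -/
theorem result {G : Type*} [Group G] [Finite G] [Nontrivial G] : commutator G = ⊤ ↔ ∀ χ : Cfsg.IrrCharacter G, ¬ ((Nat.card G / (Nat.card {g : G // (χ : G → ℂ) g = (χ : G → ℂ) 1} * Cfsg.charDegree (χ : G → ℂ)))).Prime := by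
  constructor
  · intro hG χ
    exact Cfsg.Agent.H82.not_prime_codeg_of_perfect hG χ
  · intro h
    by_contra hne
    obtain ⟨χ, hχ⟩ := Cfsg.Agent.H82.exists_prime_codeg hne
    exact h χ hχ

end Cfsg.Agent.S4797
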