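import Cfsg.Statements.S4801
import Cfsg.Agent.H82.Codeg
import Cfsg.Agent.H82.SumSq

set_option autoImplicit false
open Cfsg

namespace Cfsg.Agent.S4801

open Cfsg.Agent.H82 in
/-- The codegree of an irreducible complex character χ of a finite group G is [G : ker χ] / χ(1), where ker χ is the set of elements at which χ takes the value χ(1). Let S be a finite simple group and G a finite group such that every codegree of an irreducible character of S is a codegree of an irreducible character of G. Then the order of S divides the order of G. -/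
theorem result {S : Type*} [Group S] [Finite S] (hS : IsSimpleGroup S) {G : Type*} [Group G] [Finite G] (hsub : ∀ χ : Cfsg.IrrCharacter S, ∃ ψ : Cfsg.IrrCharacter G, (Nat.card S / (Nat.card {g : S // (χ : S → ℂ) g = (χ : S → ℂ) 1} * Cfsg.charDegree (χ : S → ℂ))) = (Nat.card G / (Nat.card {g : G // (ψ : G → ℂ) g = (ψ : G → ℂ) 1} * Cfsg.charDegree (ψ : G → ℂ)))) : Nat.card S ∣ Nat.card G := by
  classical
  have hfin : Finite (Cfsg.IrrCharacter S) := irr_finite S
  have := Fintype.ofFinite (Cfsg.IrrCharacter S)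
  have hS0 : Nat.card S ≠ 0 := Nat.card_pos.ne'
  have hG0 : Nat.card G ≠ 0 := Nat.card_pos.ne'
  rw [← Nat.factorization_le_iff_dvd hS0 hG0]
  intro p
  by_cases hp : p.Prime
  swap
  · simp [Nat.factorization_eq_zero_of_not_prime _ hp]
  by_cases hpS : p ∣ Nat.card S
  swap
  · rw [Nat.factorization_eq_zero_of_not_dvd hpS]; exact Nat.zero_le _
  have hex : ∃ χ : Cfsg.IrrCharacter S, irrKer χ = ⊥ ∧ ¬ p ∣ Cfsg.charDegree χ.1 := by
    by_contra hcon
    push Not at hcon
    have hsum := sum_sq_nat S
    have hsplit := Finset.add_sum_erase Finset.univ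
      (fun χ : Cfsg.IrrCharacter S => (Cfsg.charDegree χ.1) ^ 2) (Finset.mem_univ (trivChar S))
    have hdvd : p ∣ ∑ χ ∈ Finset.univ.erase (trivChar S), (Cfsg.charDegree χ.1) ^ 2 := by
      apply Finset.dvd_sum
      intro χ hχ
      have hne : χ ≠ trivChar S := Finset.ne_of_mem_erase hχ
      have hker : irrKer χ = ⊥ := by
        rcases (irrKer_normal χ).eq_bot_or_eq_top with h | h
        · exact h
        · exact absurd (irr_eq_trivChar_of_irrKer_eq_top χ h) hne
      exact dvd_pow (hcon χ hker) two_ne_zero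
    have h1 : Nat.card S = 1 + ∑ χ ∈ Finset.univ.erase (trivChar S), (Cfsg.charDegree χ.1) ^ 2 := by
      rw [← hsum, ← hsplit, charDegree_trivChar]; simp
    rw [h1] at hpS
    have : p ∣ 1 := (Nat.dvd_add_left hdvd).mp hpS
    exact hp.one_lt.ne' (Nat.dvd_one.mp this)
  obtain ⟨χ, hker, hpdeg⟩ := hex
  obtain ⟨ψ, hψ⟩ := hsub χ
  change codeg χ = codeg ψ at hψ
  have h1 : codeg χ * Cfsg.charDegree χ.1 = Nat.card S := by
    rw [codeg_mul_charDegree, hker, Subgroup.index_bot]
  have h2 : (Nat.card S).factorization p = (codeg χ).factorization p := by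
    rw [← h1, Nat.factorization_mul (codeg_pos χ).ne' (charDegree_pos χ).ne']
    simp [Nat.factorization_eq_zero_of_not_dvd hpdeg]
  rw [h2, hψ]
  exact (Nat.factorization_le_iff_dvd (codeg_pos ψ).ne' hG0).mpr (codeg_dvd_card ψ) p

end Cfsg.Agent.S4801
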