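import Cfsg.Statements.S4802
-- import your own Cfsg.Agent.* helpers here
import Cfsg.Agent.H82.Normal
import Cfsg.Agent.H82.Fin
import Cfsg.Agent.S0136
import Cfsg.Agent.S0145

set_option autoImplicit false
open Cfsg

namespace Cfsg.Agent.S4802

open Cfsg.Agent.H82 in
/-- Let N < M be normal subgroups of the finite group G and g ∈ M ∖ N. Then the conjugacy class of g is exactly M ∖ N if and only if every irreducible complex character of G whose kernel contains N takes the same value at all elements of M ∖ N, and every irreducible complex character of G whose kernel does not contain N vanishes at g. -/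
theorem result {G : Type*} [Group G] [Finite G] (N M : Subgroup G) [N.Normal] [M.Normal] (hNM : N < M) (g : G) (hgM : g ∈ M) (hgN : g ∉ N) : {h : G | IsConj g h} = (M : Set G) \ (N : Set G) ↔ ((∀ χ : Cfsg.IrrCharacter G, (∀ x ∈ N, (χ : G → ℂ) x = (χ : G → ℂ) 1) → ∀ x ∈ M, x ∉ N → ∀ y ∈ M, y ∉ N → (χ : G → ℂ) x = (χ : G → ℂ) y) ∧ (∀ χ : Cfsg.IrrCharacter G, (∃ x ∈ N, (χ : G → ℂ) x ≠ (χ : G → ℂ) 1) → (χ : G → ℂ) g = 0)) := by
  classical
  have := Fintype.ofFinite G
  have hsub : {h : G | IsConj g h} ⊆ (M : Set G) \ (N : Set G) := by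
    intro h hh
    obtain ⟨c, hc⟩ := isConj_iff.mp hh
    refine ⟨?_, ?_⟩
    · rw [← hc]; exact Subgroup.Normal.conj_mem inferInstance g hgM c
    · intro hN
      apply hgN
      have := Subgroup.Normal.conj_mem (inferInstance : N.Normal) h hN c⁻¹
      rw [← hc] at this
      simpa [mul_assoc] using this
  constructor
  · intro hcl
    have hconj : ∀ x ∈ M, x ∉ N → IsConj g x := fun x hxM hxN => by
      have : x ∈ (M : Set G) \ (N : Set G) := ⟨hxM, hxN⟩
      rw [← hcl] at this; exact this
    refine ⟨fun χ _ x hxM hxN y hyM hyN => ?_, fun χ hχ => ?_⟩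
    · rw [← irr_isConj χ (hconj x hxM hxN), ← irr_isConj χ (hconj y hyM hyN)]
    · have hM0 : ∑ n ∈ Finset.univ.filter (· ∈ M), χ.1 n = 0 := by
        apply irr_sum_normal_eq_zero χ M
        obtain ⟨x, hx, hx1⟩ := hχ
        exact ⟨x, hNM.le hx, hx1⟩
      have hN0 : ∑ n ∈ Finset.univ.filter (· ∈ N), χ.1 n = 0 := irr_sum_normal_eq_zero χ N hχ
      have hsubset : Finset.univ.filter (· ∈ N) ⊆ Finset.univ.filter (· ∈ M) := by
        intro n hn
        simp only [Finset.mem_filter, Finset.mem_univ, true_and] at hn ⊢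
        exact hNM.le hn
      have hsd := Finset.sum_sdiff hsubset (f := fun n => χ.1 n)
      rw [hM0, hN0, add_zero] at hsd
      have hconst : ∀ n ∈ Finset.univ.filter (· ∈ M) \ Finset.univ.filter (· ∈ N),
          χ.1 n = χ.1 g := by
        intro n hn
        simp only [Finset.mem_sdiff, Finset.mem_filter, Finset.mem_univ, true_and] at hn
        exact (irr_isConj χ (hconj n hn.1 hn.2)).symm
      rw [Finset.sum_congr rfl hconst, Finset.sum_const, nsmul_eq_mul] at hsd
      have hcard : ((Finset.univ.filter (· ∈ M) \ Finset.univ.filter (· ∈ N)).card : ℂ) ≠ 0 := by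
        have : g ∈ Finset.univ.filter (· ∈ M) \ Finset.univ.filter (· ∈ N) := by
          simp [hgM, hgN]
        exact_mod_cast (Finset.card_pos.mpr ⟨g, this⟩).ne'
      exact (mul_eq_zero.mp hsd).resolve_left hcard
  · rintro ⟨hA, hB⟩
    apply Set.Subset.antisymm hsub
    rintro h ⟨hhM, hhN⟩
    have hbar : IsConj (QuotientGroup.mk g : G ⧸ N) (QuotientGroup.mk h) := by
      rw [Cfsg.Agent.S0136.result]
      intro χ'
      have := hA (inflate N χ') (inflate_mem N χ') g hgM hgN h hhM hhN
      simpa [inflate_apply] using this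
    by_contra hnc
    have hnc' : ¬ IsConj h g := fun hc => hnc hc.symm
    have hfin : Finite (Cfsg.IrrCharacter G) := irr_finite G
    have := Fintype.ofFinite (Cfsg.IrrCharacter G)
    have hfin' : Finite (Cfsg.IrrCharacter (G ⧸ N)) := irr_finite (G ⧸ N)
    have := Fintype.ofFinite (Cfsg.IrrCharacter (G ⧸ N))
    have h1 := (Cfsg.Agent.S0145.result h g).2 hnc'
    rw [finsum_eq_sum_of_fintype] at h1
    have h2 : ∑ χ : Cfsg.IrrCharacter G, χ.1 h * (starRingEnd ℂ) (χ.1 g) =
        ∑ χ ∈ Finset.univ.filter (fun χ : Cfsg.IrrCharacter G => N ≤ irrKer χ),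
          χ.1 h * (starRingEnd ℂ) (χ.1 g) := by
      rw [Finset.sum_filter]
      refine Finset.sum_congr rfl fun χ _ => ?_
      split_ifs with hk
      · rfl
      · have : ∃ x ∈ N, χ.1 x ≠ χ.1 1 := by
          by_contra hcon
          push Not at hcon
          exact hk hcon
        rw [hB χ this]; simp
    rw [h2, sum_ker_eq_sum_quot N] at h1
    have h3 := (Cfsg.Agent.S0145.result (QuotientGroup.mk h : G ⧸ N) (QuotientGroup.mk g)).1
      hbar.symm
    rw [finsum_eq_sum_of_fintype] at h3
    simp only [inflate_apply] at h1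
    rw [h1] at h3
    have hpos : (Nat.card (Subgroup.centralizer ({(QuotientGroup.mk h : G ⧸ N)} : Set (G ⧸ N))) : ℂ)
        ≠ 0 := by
      exact_mod_cast Nat.card_pos.ne'
    exact hpos h3.symm

end Cfsg.Agent.S4802
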