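import Cfsg.Statements.S4808
import Cfsg.Agent.H82.Codeg
import Cfsg.Agent.H82.SumSq
import Cfsg.Agent.H82.Grp
import Cfsg.Agent.S0145

set_option autoImplicit false
open Cfsg

namespace Cfsg.Agent.S4808

open Cfsg.Agent.H82 in
/-- The codegree of an irreducible complex character χ of a finite group G is [G : ker χ] / χ(1), where ker χ is the set of elements at which χ takes the value χ(1). A prime divides the order of G if and only if it divides the codegree of some irreducible complex character of G. -/
theorem result {G : Type*} [Group G] [Finite G] (p : ℕ) (hp : p.Prime) : p ∣ Nat.card G ↔ ∃ χ : Cfsg.IrrCharacter G, p ∣ (Nat.card G / (Nat.card {g : G // (χ : G → ℂ) g = (χ : G → ℂ) 1} * Cfsg.charDegree (χ : G → ℂ))) := by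
  classical
  constructor
  · intro hpG
    by_contra hcon
    push Not at hcon
    have hcon' : ∀ χ : Cfsg.IrrCharacter G, ¬ p ∣ codeg χ := hcon
    obtain ⟨O, hOn, hOidx, hOmin⟩ := exists_min_normal_index_not_dvd (G := G) p hp
    have hpO : p ∣ Nat.card O := by
      have h1 := Subgroup.card_mul_index O
      rw [← h1] at hpG
      exact (hp.dvd_mul.mp hpG).resolve_right hOidx
    have hpf : Fact p.Prime := ⟨hp⟩
    obtain ⟨x, hx⟩ := exists_prime_orderOf_dvd_card' p hpO
    have hx1 : (x : G) ≠ 1 := by
      intro h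
      have : x = 1 := Subtype.ext h
      rw [this, orderOf_one] at hx
      exact hp.one_lt.ne hx
    have hdich : ∀ χ : Cfsg.IrrCharacter G, O ≤ irrKer χ ∨ p ∣ Cfsg.charDegree χ.1 := by
      intro χ
      by_cases hd : p ∣ Cfsg.charDegree χ.1
      · right; exact hd
      · left
        apply hOmin _ (irrKer_normal χ)
        rw [← codeg_mul_charDegree]
        intro h
        rcases hp.dvd_mul.mp h with h | h
        · exact hcon' χ h
        · exact hd h
    have hfin : Finite (Cfsg.IrrCharacter G) := irr_finite G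
    have := Fintype.ofFinite (Cfsg.IrrCharacter G)
    have h145 := (Cfsg.Agent.S0145.result (1 : G) (x : G)).2 (fun hc => hx1 (isConj_one_right.mp hc))
    rw [finsum_eq_sum_of_fintype] at h145
    rw [← Finset.sum_filter_add_sum_filter_not Finset.univ
      (fun χ : Cfsg.IrrCharacter G => O ≤ irrKer χ)] at h145
    have hA : ∑ χ ∈ Finset.univ.filter (fun χ : Cfsg.IrrCharacter G => O ≤ irrKer χ),
        χ.1 1 * (starRingEnd ℂ) (χ.1 x) = (O.index : ℂ) := by
      rw [← sum_sq_ker_nat G O]
      push_cast
      refine Finset.sum_congr rfl fun χ hχ => ?_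
      have hle : O ≤ irrKer χ := (Finset.mem_filter.mp hχ).2
      have hxk : χ.1 x = χ.1 1 := hle x.2
      rw [hxk, irr_one_eq_charDegree]
      simp [sq]
    have hB : ∃ z : ℂ, IsIntegral ℤ z ∧
        ∑ χ ∈ Finset.univ.filter (fun χ : Cfsg.IrrCharacter G => ¬ O ≤ irrKer χ),
          χ.1 1 * (starRingEnd ℂ) (χ.1 x) = p * z := by
      refine ⟨∑ χ ∈ Finset.univ.filter (fun χ : Cfsg.IrrCharacter G => ¬ O ≤ irrKer χ),
        ((Cfsg.charDegree χ.1 / p : ℕ) : ℂ) * (starRingEnd ℂ) (χ.1 x), ?_, ?_⟩
      · refine IsIntegral.sum _ fun χ _ => ?_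
        refine IsIntegral.mul (isIntegral_natCast _) ?_
        rw [← irr_inv]
        exact irr_isIntegral χ _
      · rw [Finset.mul_sum]
        refine Finset.sum_congr rfl fun χ hχ => ?_
        have hnle : ¬ O ≤ irrKer χ := (Finset.mem_filter.mp hχ).2
        have hd : p ∣ Cfsg.charDegree χ.1 := (hdich χ).resolve_left hnle
        rw [irr_one_eq_charDegree, ← mul_assoc]
        congr 1
        exact_mod_cast (Nat.mul_div_cancel' hd).symm
    obtain ⟨z, hz, hBz⟩ := hB
    rw [hA, hBz] at h145
    have : p ∣ O.index :=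
      nat_dvd_of_isIntegral hp.ne_zero (-z) hz.neg (by linear_combination h145)
    exact hOidx this
  · rintro ⟨χ, hχ⟩
    exact dvd_trans hχ (codeg_dvd_card χ)

end Cfsg.Agent.S4808
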