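import Cfsg.Statements.S4812
import Cfsg.Agent.H44.PSL2Deg

set_option autoImplicit false
open Cfsg

namespace Cfsg.Agent.S4812

/-- Let F be a finite field of characteristic 2 with q ≥ 4 elements and let S be isomorphic to PSL(2,F) or to SL(2,F). Then the vertices of the character degree graph of S are the primes dividing q(q²−1), and two distinct primes are adjacent exactly when both divide q + 1 or both divide q − 1; so the graph has the three connected components {2}, the primes dividing q + 1 and the primes dividing q − 1, each complete. -/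
theorem result (F : Type*) [Field F] [Fintype F] [CharP F 2] (q : ℕ) (hq : Fintype.card F = q) (h4 : 4 ≤ q) {S : Type*} [Group S] [Finite S] (hS : Nonempty (S ≃* Matrix.ProjectiveSpecialLinearGroup (Fin 2) F) ∨ Nonempty (S ≃* Matrix.SpecialLinearGroup (Fin 2) F)) : Cfsg.degreePrimes S = {r : ℕ | r.Prime ∧ r ∣ q * (q ^ 2 - 1)} ∧ ∀ r s : ℕ, (Cfsg.degreeGraph S).Adj r s ↔ (r ≠ s ∧ r.Prime ∧ s.Prime ∧ ((r ∣ q + 1 ∧ s ∣ q + 1) ∨ (r ∣ q - 1 ∧ s ∣ q - 1))) := by
  classical
  letI : Fintype (Matrix.SpecialLinearGroup (Fin 2) F) := Fintype.ofFinite _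
  letI : Fintype (MulChar F ℂ) := Fintype.ofFinite _
  letI : Fintype (Cfsg.IrrCharacter (Matrix.SpecialLinearGroup (Fin 2) F)) := Cfsg.Agent.H4.fintypeIrr _
  subst hq
  obtain ⟨n, htp, hn⟩ := FiniteField.card F 2
  have heven : Fintype.card F % 2 = 0 :=
    FiniteField.even_card_of_char_two (Cfsg.Agent.H44.ringChar_eq_two_of_charP (F := F))
  obtain ⟨hsub, h1, h2, h3⟩ := Cfsg.Agent.H44.charDegrees_facts hS h4 (by omega)
  refine ⟨Cfsg.Agent.H44.degreePrimes_eq _ (by omega) hsub h1 h2 h3, fun r s => ?_⟩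
  rw [Cfsg.Agent.H44.degreeGraph_adj_iff _ 2 htp ⟨n, hn⟩ hsub h2 h3]
  constructor
  · rintro ⟨hne, hr, hs, h⟩
    exact ⟨hne, hr, hs, (Cfsg.Agent.H44.adj_rhs_even _ r s hne hr hs).mp h⟩
  · rintro ⟨hne, hr, hs, h⟩
    exact ⟨hne, hr, hs, (Cfsg.Agent.H44.adj_rhs_even _ r s hne hr hs).mpr h⟩

end Cfsg.Agent.S4812
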