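import Cfsg.Statements.S4814
import Cfsg.Agent.S0152
import Cfsg.Agent.H83.Basic

set_option autoImplicit false
open Cfsg

namespace Cfsg.Agent.S4814

open Cfsg.Agent.H83
open scoped ComplexConjugate

/-- `∑_{a,b} χ([a,b] h) = (|G|/χ(1))² χ(h)`. -/
theorem sum_comm_mul {G : Type*} [Group G] [Fintype G] {χ : G → ℂ} (hχ : IsIrrCharacter G χ)
    (h : G) :
    ∑ a : G, ∑ b : G, χ (a * b * a⁻¹ * b⁻¹ * h) =
      ((Nat.card G : ℂ) / χ 1) ^ 2 * χ h := by
  rw [Finset.sum_comm]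
  have h1 : ∀ b : G, ∑ a : G, χ (a * b * a⁻¹ * b⁻¹ * h) =
      (Nat.card G : ℂ) / χ 1 * (χ b * χ (b⁻¹ * h)) := by
    intro b
    have := irr_sum_conj_mul hχ b (b⁻¹ * h)
    simp only [← mul_assoc] at this
    rw [this]; ring
  simp only [h1]
  rw [← Finset.mul_sum, irr_convolution hχ h]
  ring

/-- Let G be a finite group such that the sum, over the irreducible complex characters χ of G, of 1/χ(1)² is less than 2. Then every element of G is a product of two commutators. -/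
theorem result {G : Type*} [Group G] [Finite G]
    (h : ∑ᶠ χ : Cfsg.IrrCharacter G, 1 / ‖(χ : G → ℂ) 1‖ ^ 2 < (2 : ℝ)) (g : G) :
    ∃ a b c d : G, (a * b * a⁻¹ * b⁻¹) * (c * d * c⁻¹ * d⁻¹) = g := by
  classical
  have := Fintype.ofFinite G
  have := Fintype.ofFinite (IrrCharacter G)
  have hcard : (Nat.card G : ℂ) ≠ 0 := by
    exact_mod_cast (Nat.card_pos (α := G)).ne'
  -- the counting function
  set F : G → ℂ := fun z => ∑ a : G, ∑ b : G, ∑ c : G, ∑ d : G,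
    if (a * b * a⁻¹ * b⁻¹) * (c * d * c⁻¹ * d⁻¹) = z then (1 : ℂ) else 0 with hF
  have hFclass : IsClassFunction G F := by
    intro z k
    simp only [hF]
    rw [← Equiv.sum_comp (MulAut.conj k).toEquiv]
    refine Finset.sum_congr rfl fun a _ => ?_
    rw [← Equiv.sum_comp (MulAut.conj k).toEquiv]
    refine Finset.sum_congr rfl fun b _ => ?_
    rw [← Equiv.sum_comp (MulAut.conj k).toEquiv]
    refine Finset.sum_congr rfl fun c _ => ?_
    rw [← Equiv.sum_comp (MulAut.conj k).toEquiv]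
    refine Finset.sum_congr rfl fun d _ => ?_
    simp only [MulEquiv.toEquiv_eq_coe, EquivLike.coe_coe, MulAut.conj_apply]
    refine if_congr ?_ rfl rfl
    have : k * a * k⁻¹ * (k * b * k⁻¹) * (k * a * k⁻¹)⁻¹ * (k * b * k⁻¹)⁻¹ *
        (k * c * k⁻¹ * (k * d * k⁻¹) * (k * c * k⁻¹)⁻¹ * (k * d * k⁻¹)⁻¹) =
        k * ((a * b * a⁻¹ * b⁻¹) * (c * d * c⁻¹ * d⁻¹)) * k⁻¹ := by group
    rw [this]
    simp
  have hinner : ∀ χ : IrrCharacter G, classInner F (χ : G → ℂ) =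
      (Nat.card G : ℂ) ^ 3 / (χ : G → ℂ) 1 ^ 3 := by
    intro χ
    have hχ := χ.2
    have hχ1 := IsIrrCharacter.one_ne_zero hχ
    have h1 : ∑ z : G, F z * conj ((χ : G → ℂ) z) =
        ∑ a : G, ∑ b : G, ∑ c : G, ∑ d : G,
          (χ : G → ℂ) (d * c * d⁻¹ * c⁻¹ * (b * a * b⁻¹ * a⁻¹)) := by
      simp only [hF, Finset.sum_mul]
      rw [Finset.sum_comm]
      refine Finset.sum_congr rfl fun a _ => ?_
      rw [Finset.sum_comm]
      refine Finset.sum_congr rfl fun b _ => ?_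
      rw [Finset.sum_comm]
      refine Finset.sum_congr rfl fun c _ => ?_
      rw [Finset.sum_comm]
      refine Finset.sum_congr rfl fun d _ => ?_
      simp only [ite_mul, one_mul, zero_mul]
      rw [Finset.sum_ite_eq Finset.univ _, if_pos (Finset.mem_univ _)]
      rw [IsIrrCharacter.conj_eq_inv hχ]
      congr 1
      group
    have h2 : ∑ a : G, ∑ b : G, ∑ c : G, ∑ d : G,
          (χ : G → ℂ) (d * c * d⁻¹ * c⁻¹ * (b * a * b⁻¹ * a⁻¹)) =
        (Nat.card G : ℂ) ^ 4 / (χ : G → ℂ) 1 ^ 3 := by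
      have h3 : ∀ a b : G, ∑ c : G, ∑ d : G,
          (χ : G → ℂ) (d * c * d⁻¹ * c⁻¹ * (b * a * b⁻¹ * a⁻¹)) =
          ((Nat.card G : ℂ) / (χ : G → ℂ) 1) ^ 2 * (χ : G → ℂ) (b * a * b⁻¹ * a⁻¹) := by
        intro a b
        rw [Finset.sum_comm]
        exact sum_comm_mul hχ _
      simp only [h3]
      simp only [← Finset.mul_sum]
      have h4 : ∑ a : G, ∑ b : G, (χ : G → ℂ) (b * a * b⁻¹ * a⁻¹) =
          ((Nat.card G : ℂ) / (χ : G → ℂ) 1) ^ 2 * (χ : G → ℂ) 1 := by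
        rw [Finset.sum_comm]
        have := sum_comm_mul hχ (1 : G)
        simpa using this
      rw [h4]
      field_simp
    rw [classInner, h1, h2]
    field_simp
  have hexp := Cfsg.Agent.S0152.result F hFclass
  have hz := congrFun hexp g
  rw [finsum_eq_sum_of_fintype, Finset.sum_apply] at hz
  -- it suffices to show `F g ≠ 0`
  suffices hne : F g ≠ 0 by
    by_contra hcon
    push Not at hcon
    apply hne
    simp only [hF]
    refine Finset.sum_eq_zero fun a _ => Finset.sum_eq_zero fun b _ =>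
      Finset.sum_eq_zero fun c _ => Finset.sum_eq_zero fun d _ => ?_
    rw [if_neg (hcon a b c d)]
  -- rewrite the expansion
  have hz2 : F g = (Nat.card G : ℂ) ^ 3 *
      ∑ χ : IrrCharacter G, (χ : G → ℂ) g / (χ : G → ℂ) 1 ^ 3 := by
    rw [hz, Finset.mul_sum]
    refine Finset.sum_congr rfl fun χ _ => ?_
    rw [Pi.smul_apply, hinner, smul_eq_mul]
    ring
  rw [hz2]
  refine mul_ne_zero (pow_ne_zero _ hcard) ?_
  -- split off the trivial character
  have hsplit : ∑ χ : IrrCharacter G, (χ : G → ℂ) g / (χ : G → ℂ) 1 ^ 3 =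
      1 + ∑ χ ∈ Finset.univ.erase (trivChar G), (χ : G → ℂ) g / (χ : G → ℂ) 1 ^ 3 := by
    rw [← Finset.add_sum_erase _ _ (Finset.mem_univ (trivChar G))]
    simp [trivChar_apply]
  have hsplit2 : ∑ᶠ χ : Cfsg.IrrCharacter G, 1 / ‖(χ : G → ℂ) 1‖ ^ 2 =
      1 + ∑ χ ∈ Finset.univ.erase (trivChar G), 1 / ‖(χ : G → ℂ) 1‖ ^ 2 := by
    rw [finsum_eq_sum_of_fintype, ← Finset.add_sum_erase _ _ (Finset.mem_univ (trivChar G))]
    simp [trivChar_apply]
  have hbound : ‖∑ χ ∈ Finset.univ.erase (trivChar G), (χ : G → ℂ) g / (χ : G → ℂ) 1 ^ 3‖ ≤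
      ∑ χ ∈ Finset.univ.erase (trivChar G), 1 / ‖(χ : G → ℂ) 1‖ ^ 2 := by
    refine (norm_sum_le _ _).trans (Finset.sum_le_sum fun χ _ => ?_)
    have hχ := χ.2
    have hχ1 : 0 < ‖(χ : G → ℂ) 1‖ := norm_pos_iff.mpr (IsIrrCharacter.one_ne_zero hχ)
    rw [norm_div, norm_pow, div_le_div_iff₀ (pow_pos hχ1 3) (pow_pos hχ1 2)]
    have := IsIrrCharacter.norm_le hχ g
    nlinarith [norm_nonneg ((χ : G → ℂ) g), pow_pos hχ1 2]
  rw [hsplit]
  intro h0
  have h5 : ∑ χ ∈ Finset.univ.erase (trivChar G), (χ : G → ℂ) g / (χ : G → ℂ) 1 ^ 3 = -1 := by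
    linear_combination h0
  rw [h5, norm_neg, norm_one] at hbound
  rw [hsplit2] at h
  linarith

end Cfsg.Agent.S4814
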