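import Cfsg.Statements.S4825
import Cfsg.Agent.H80.OverTheta

set_option autoImplicit false
open Cfsg Cfsg.Agent.H80 Cfsg.Agent.H20 Cfsg.Agent.H4

namespace Cfsg.Agent.S4825

/-- Let p be a prime, G a finite group with Sylow p-subgroup P, M a maximal ideal of the algebraic integers containing p, and B a p-block of G with defect group P. Let N be a normal subgroup of G not containing P and θ an irreducible character of N. Then the number of irreducible characters in B of degree prime to p lying over θ (having θ as a constituent on restriction to N) is either 0 or at least 2, and when p ≤ 3 it is divisible by p. -/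
theorem result {G : Type*} [Group G] [Fintype G] (p : ℕ) [Fact p.Prime] (P : Sylow p G) (M : Ideal Cfsg.AlgInt) (hM : Cfsg.IsPModular p M) (B : Set (Cfsg.IrrCharacter G)) (hB : Cfsg.IsPBlock M B) (hBP : Cfsg.IsDefectGroup p M B P) (N : Subgroup G) [N.Normal] [Fintype N] (hPN : ¬ (P : Subgroup G) ≤ N) (θ : Cfsg.IrrCharacter N) :
    (Nat.card {χ : Cfsg.IrrCharacter G // χ ∈ B ∧ ¬ p ∣ Cfsg.charDegree (χ : G → ℂ) ∧ Cfsg.classInner (fun n : N => (χ : G → ℂ) n) (θ : N → ℂ) ≠ 0} = 0 ∨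
      2 ≤ Nat.card {χ : Cfsg.IrrCharacter G // χ ∈ B ∧ ¬ p ∣ Cfsg.charDegree (χ : G → ℂ) ∧ Cfsg.classInner (fun n : N => (χ : G → ℂ) n) (θ : N → ℂ) ≠ 0}) ∧
    (p ≤ 3 → p ∣ Nat.card {χ : Cfsg.IrrCharacter G // χ ∈ B ∧ ¬ p ∣ Cfsg.charDegree (χ : G → ℂ) ∧ Cfsg.classInner (fun n : N => (χ : G → ℂ) n) (θ : N → ℂ) ≠ 0}) := by
  classical
  let _ : Fintype (IrrCharacter G) := fintypeIrr G
  have hp : p.Prime := hM.1
  obtain ⟨x, hxP, hxN⟩ : ∃ x ∈ (P : Subgroup G), x ∉ N := by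
    by_contra h
    push Not at h
    exact hPN h
  have hxord : ∃ k : ℕ, orderOf x = p ^ k := by
    obtain ⟨k, hk⟩ := (IsPGroup.iff_orderOf.mp P.isPGroup') ⟨x, hxP⟩
    exact ⟨k, by rw [← hk, ← Subgroup.orderOf_coe]⟩
  obtain ⟨e, s, he, hdeg, hdvd⟩ := exists_mult_dvd_sum hM N θ x hxord hxN B hB
  obtain ⟨S, hS⟩ : ∃ S : Finset (IrrCharacter G), S = Finset.univ.filter
      (fun χ : IrrCharacter G => χ ∈ B ∧ ¬ p ∣ Cfsg.charDegree (χ : G → ℂ) ∧ e χ ≠ 0) := ⟨_, rfl⟩
  have hmem : ∀ χ : IrrCharacter G, χ ∈ S ↔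
      (χ ∈ B ∧ ¬ p ∣ Cfsg.charDegree (χ : G → ℂ) ∧ e χ ≠ 0) := by
    intro χ
    rw [hS, Finset.mem_filter]
    simp
  have hcard : Nat.card {χ : Cfsg.IrrCharacter G // χ ∈ B ∧ ¬ p ∣ Cfsg.charDegree (χ : G → ℂ) ∧
      Cfsg.classInner (fun n : N => (χ : G → ℂ) n) (θ : N → ℂ) ≠ 0} = S.card := by
    rw [Nat.card_eq_fintype_card, Fintype.card_subtype, hS]
    congr 1
    ext χ
    simp only [Finset.mem_filter, Finset.mem_univ, true_and]
    rw [he]
    simp
  rw [hcard]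
  -- the congruence for the sum of squares
  obtain ⟨T, hT⟩ : ∃ T : Finset (IrrCharacter G), T = Finset.univ.filter
      (fun χ : IrrCharacter G => χ ∈ B ∧ e χ ≠ 0) := ⟨_, rfl⟩
  have h1 : p ∣ ∑ χ ∈ T, Cfsg.charDegree (χ : G → ℂ) ^ 2 := by
    have h2 : ∑ χ ∈ T, Cfsg.charDegree (χ : G → ℂ) ^ 2
        = s * ∑ χ ∈ Finset.univ.filter (fun χ : IrrCharacter G => χ ∈ B),
          e χ * Cfsg.charDegree (χ : G → ℂ) := by
      have h3 : T = (Finset.univ.filter (fun χ : IrrCharacter G => χ ∈ B)).filter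
          (fun χ => e χ ≠ 0) := by
        rw [hT, Finset.filter_filter]
      rw [h3, Finset.sum_filter, Finset.mul_sum]
      apply Finset.sum_congr rfl
      intro χ _
      by_cases hχ : e χ = 0
      · rw [if_neg (not_not.mpr hχ), hχ, zero_mul, mul_zero]
      · rw [if_pos hχ]
        have h4 := hdeg χ hχ
        nth_rewrite 1 [h4]
        rw [h4]
        ring
    rw [h2]
    exact Dvd.dvd.mul_left hdvd s
  have key : p ∣ ∑ χ ∈ S, Cfsg.charDegree (χ : G → ℂ) ^ 2 := by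
    have h5 := Finset.sum_filter_add_sum_filter_not T
      (fun χ : IrrCharacter G => ¬ p ∣ Cfsg.charDegree (χ : G → ℂ))
      (fun χ => Cfsg.charDegree (χ : G → ℂ) ^ 2)
    have h6 : T.filter (fun χ : IrrCharacter G => ¬ p ∣ Cfsg.charDegree (χ : G → ℂ)) = S := by
      ext χ
      rw [hmem, hT]
      simp only [Finset.mem_filter, Finset.mem_univ, true_and]
      tauto
    rw [h6] at h5
    rw [← h5] at h1
    have h7 : p ∣ ∑ χ ∈ T.filter (fun χ : IrrCharacter G =>
        ¬ ¬ p ∣ Cfsg.charDegree (χ : G → ℂ)), Cfsg.charDegree (χ : G → ℂ) ^ 2 := by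
      apply Finset.dvd_sum
      intro χ hχ
      rw [Finset.mem_filter] at hχ
      exact Dvd.dvd.pow (not_not.mp hχ.2) (by norm_num)
    exact (Nat.dvd_add_left h7).mp h1
  constructor
  · by_contra hcon
    push Not at hcon
    have hc1 : S.card = 1 := by omega
    obtain ⟨χ, hχ⟩ := Finset.card_eq_one.mp hc1
    rw [hχ, Finset.sum_singleton] at key
    have hχS : χ ∈ S := by rw [hχ]; exact Finset.mem_singleton_self χ
    exact ((hmem χ).mp hχS).2.1 (hp.dvd_of_dvd_pow key)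
  · intro hp3
    have hsq : ∀ χ ∈ S, Cfsg.charDegree (χ : G → ℂ) ^ 2 % p = 1 := by
      intro χ hχ
      have hnd := ((hmem χ).mp hχ).2.1
      have h2le := hp.two_le
      rw [Nat.pow_mod]
      rw [Nat.dvd_iff_mod_eq_zero] at hnd
      have hlt := Nat.mod_lt (Cfsg.charDegree (χ : G → ℂ)) hp.pos
      interval_cases p
      · have : Cfsg.charDegree (χ : G → ℂ) % 2 = 1 := by omega
        rw [this]
      · have : Cfsg.charDegree (χ : G → ℂ) % 3 = 1 ∨ Cfsg.charDegree (χ : G → ℂ) % 3 = 2 := by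
          omega
        rcases this with h | h <;> rw [h]
    have h8 : (∑ χ ∈ S, Cfsg.charDegree (χ : G → ℂ) ^ 2) % p = S.card % p := by
      rw [Finset.sum_nat_mod, Finset.sum_congr rfl hsq, Finset.sum_const, smul_eq_mul, mul_one]
    rw [Nat.dvd_iff_mod_eq_zero] at key ⊢
    rw [← h8]
    exact key

end Cfsg.Agent.S4825
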