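import Cfsg.Statements.S4828
import Cfsg.Agent.H80.MaxChar

set_option autoImplicit false
open Cfsg Cfsg.Agent.H80 Cfsg.Agent.H20 Cfsg.Agent.H4

namespace Cfsg.Agent.S4828

/-- Let p be a prime, M a maximal ideal of the algebraic integers containing p, and (Q, e) a Brauer pair of the finite group G (Q a p-subgroup, e a block of C_G(Q)). Then (Q, e) is a maximal Brauer pair of some block of G if and only if e contains an irreducible character θ such that θ takes the value θ(1) at every element of Z(Q) = Q ∩ C_G(Q), the p-part of θ(1) times the p-part of the order of Z(Q) equals the p-part of the order of C_G(Q) (θ has defect zero as a character of C_G(Q)/Z(Q)), and every element of N_G(Q) of p-power order that stabilizes e lies in Q·C_G(Q) (the stabilizer of e in N_G(Q) has index prime to p over Q·C_G(Q)). -/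
theorem result {G : Type*} [Group G] [Finite G] (p : ℕ) [Fact p.Prime] (M : Ideal Cfsg.AlgInt) (hM : Cfsg.IsPModular p M) (Q : Subgroup G) (e : Set (Cfsg.IrrCharacter (Subgroup.centralizer (Q : Set G)))) (he : Cfsg.IsBrauerPair p M Q e) :
    (∃ B : Set (Cfsg.IrrCharacter G), Cfsg.IsMaximalBrauerPair p M B Q e) ↔
      ∃ θ ∈ e, (∀ z : Subgroup.centralizer (Q : Set G), (z : G) ∈ Q → (θ : Subgroup.centralizer (Q : Set G) → ℂ) z = (θ : Subgroup.centralizer (Q : Set G) → ℂ) 1) ∧
        (Cfsg.charDegree (θ : Subgroup.centralizer (Q : Set G) → ℂ)).factorization p + (Nat.card ↥(Q ⊓ Subgroup.centralizer (Q : Set G))).factorization p = (Nat.card (Subgroup.centralizer (Q : Set G))).factorization p ∧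
        (∀ g : G, g ∈ Subgroup.normalizer (Q : Set G) → Cfsg.StabilizesBlock (Subgroup.centralizer (Q : Set G)) e g → (∃ k : ℕ, orderOf g = p ^ k) → g ∈ Q ⊔ Subgroup.centralizer (Q : Set G)) := by
  classical
  haveI : Fintype G := Fintype.ofFinite G
  have hMp := isPrime_of_isPModular hM
  constructor
  · rintro ⟨B, hmax⟩
    obtain ⟨θ, hθ, h1, h2⟩ := exists_char_of_maximal p hM hmax
    refine ⟨θ, hθ, h1, h2, ?_⟩
    intro g hg hst hord
    obtain ⟨T, hT⟩ := exists_stabilizer' hMp Q he.2
    have hgT : g ∈ T := (hT g).mpr ⟨hg, hst⟩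
    have hle : Subgroup.zpowers g ≤ T := (Subgroup.zpowers_le).mpr hgT
    obtain ⟨k, hk⟩ := hord
    have hS : IsPGroup p (Subgroup.zpowers g) := IsPGroup.of_card (n := k) (by
      rw [Nat.card_zpowers, hk])
    exact le_sup_centralizer_of_maximal p hM hmax (Subgroup.zpowers g) hS
      (fun s hs => ((hT s).mp (hle hs)).1) (fun s hs => ((hT s).mp (hle hs)).2)
      (Subgroup.mem_zpowers g)
  · rintro ⟨θ, hθ, -, h2, h3⟩
    obtain ⟨B, hB, -⟩ := Cfsg.Agent.S4657.result p M hM Q e he
    exact ⟨B, isMaximal_of_char p hM hB θ hθ h2 h3⟩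

end Cfsg.Agent.S4828
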