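import Cfsg.Statements.S4836
import Cfsg.Agent.H83.Gagola

set_option autoImplicit false
open Cfsg

namespace Cfsg.Agent.S4836

open Cfsg.Agent.H83

/-- A character nonzero on exactly two classes (with `2 < |G|`) is faithful. -/
theorem faithful {G : Type*} [Group G] [Finite G] (hG : 2 < Nat.card G) (χ : Cfsg.IrrCharacter G) (hχ : Nat.card {C : ConjClasses G // ∃ g ∈ C.carrier, (χ : G → ℂ) g ≠ 0} = 2) :
    ∀ g : G, (χ : G → ℂ) g = (χ : G → ℂ) 1 → g = 1 := by
  obtain ⟨N, g₀, k, hNn, hg₀1, hg₀N, hmem, hconj, hker, hk0, hkz, hE1, hE3⟩ :=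
    gagola_subgroup hG χ hχ
  intro g hg
  by_contra hg1
  have hχ1 := IsIrrCharacter.one_ne_zero χ.2
  have hgN : g ∈ N := (hmem g).mpr (by rw [hg]; exact hχ1)
  obtain ⟨u, rfl⟩ := isConj_iff.mp (hconj g hgN hg1)
  rw [IsIrrCharacter.conj_mul_comm χ.2] at hg
  rw [hg] at hE1
  have h1 : (χ : G → ℂ) 1 * (1 + (k : ℂ)) = 0 := by linear_combination hE1
  have h2 : (1 + (k : ℂ)) ≠ 0 := by
    have : ((1 + k : ℕ) : ℂ) ≠ 0 := by exact_mod_cast (by omega : 1 + k ≠ 0)
    simpa using this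
  exact (mul_ne_zero hχ1 h2) h1

/-- Let G be a finite group of order greater than 2 with an irreducible character χ that is nonzero on exactly two conjugacy classes. Then χ is faithful (it takes the value χ(1) only at the identity), it is the only faithful irreducible character of G, and it is the only irreducible character of G that is nonzero on exactly two conjugacy classes. -/
theorem result {G : Type*} [Group G] [Finite G] (hG : 2 < Nat.card G) (χ : Cfsg.IrrCharacter G) (hχ : Nat.card {C : ConjClasses G // ∃ g ∈ C.carrier, (χ : G → ℂ) g ≠ 0} = 2) :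
    (∀ g : G, (χ : G → ℂ) g = (χ : G → ℂ) 1 → g = 1) ∧
      (∀ ψ : Cfsg.IrrCharacter G, (∀ g : G, (ψ : G → ℂ) g = (ψ : G → ℂ) 1 → g = 1) → ψ = χ) ∧
      (∀ ψ : Cfsg.IrrCharacter G, Nat.card {C : ConjClasses G // ∃ g ∈ C.carrier, (ψ : G → ℂ) g ≠ 0} = 2 → ψ = χ) := by
  have huniq : ∀ ψ : Cfsg.IrrCharacter G,
      (∀ g : G, (ψ : G → ℂ) g = (ψ : G → ℂ) 1 → g = 1) → ψ = χ := by
    obtain ⟨N, g₀, k, hNn, hg₀1, hg₀N, hmem, hconj, hker, hk0, hkz, hE1, hE3⟩ :=
      gagola_subgroup hG χ hχ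
    intro ψ hψ
    by_contra hne
    exact hg₀1 (hψ g₀ (hker ψ hne g₀ hg₀N))
  exact ⟨faithful hG χ hχ, huniq, fun ψ hψ => huniq ψ (faithful hG ψ hψ)⟩

end Cfsg.Agent.S4836
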