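import Cfsg.Statements.S4840
import Cfsg.Agent.H59.GagMain
import Cfsg.Agent.H59.GagAux
import Cfsg.Agent.H84.GagSemi
import Cfsg.Agent.H84.GagMatSL
import Cfsg.Agent.H34.GagArith
import Cfsg.Agent.H34.GagInvol
import Cfsg.Agent.H34.GagOrb
import Cfsg.Agent.H82.GagFree
import Cfsg.Agent.H82.GagE81A
import Cfsg.Agent.H82.GagE81B
import Cfsg.Agent.H27.GagPFix
import Cfsg.Agent.H12.GagBasis
import Cfsg.Agent.H12.GagSLFin5
import Cfsg.Agent.H67.GagNpc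
import Cfsg.Agent.H67.GagCent
import Cfsg.Agent.H67.GagLin0
import Cfsg.Agent.H24.GagSLFin3

set_option autoImplicit false
open Cfsg

namespace Cfsg.Agent.S4840

/-- Let G be a finite solvable group of order greater than 2 with an irreducible character nonzero on exactly two conjugacy classes. Then there is exactly one prime p with O_p(G) ≠ 1, and the quotient G/O_p(G) has a normal p-complement and commutative Sylow p-subgroups. -/
theorem result {G : Type*} [Group G] [Finite G] [hs : Group.IsSolvable G] (hG : 2 < Nat.card G) (χ : Cfsg.IrrCharacter G) (hχ : Nat.card {C : ConjClasses G // ∃ g ∈ C.carrier, (χ : G → ℂ) g ≠ 0} = 2) :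
    ∃ p : ℕ, p.Prime ∧ (∀ q : ℕ, q.Prime → (Cfsg.pCore q G ≠ ⊥ ↔ q = p)) ∧
      Cfsg.HasNormalPComplement p (G ⧸ Cfsg.pCore p G) ∧ ∀ Q : Sylow p (G ⧸ Cfsg.pCore p G), IsMulCommutative (Q : Subgroup (G ⧸ Cfsg.pCore p G)) := by
  exact Cfsg.Agent.H59.Gag.s4840_of Cfsg.Agent.H59.Gag.cores Cfsg.Agent.H67.Gag.cent
    Cfsg.Agent.H67.Gag.lin0 Cfsg.Agent.H59.Gag.linq
    (Cfsg.Agent.H59.Gag.gt_of Cfsg.Agent.H67.Gag.npc Cfsg.Agent.H84.Gag.semi
      Cfsg.Agent.H34.Gag.arith Cfsg.Agent.H12.Gag.basis Cfsg.Agent.H84.Gag.matsl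
      Cfsg.Agent.H12.Gag.slfin5 (Cfsg.Agent.H24.Gag.slfin3_of Cfsg.Agent.H67.Gag.npc)
      (Cfsg.Agent.H82.Gag.e81a_of Cfsg.Agent.H27.Gag.pfix Cfsg.Agent.H82.Gag.free)
      (Cfsg.Agent.H82.Gag.e81b_of (Cfsg.Agent.H27.Gag.nop_of Cfsg.Agent.H27.Gag.pfix)
        Cfsg.Agent.H82.Gag.free Cfsg.Agent.H34.Gag.invol Cfsg.Agent.H34.Gag.orb))
    hG χ hχ

end Cfsg.Agent.S4840
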