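import Cfsg.Statements.S4856
import Cfsg.Agent.S0152
import Cfsg.Agent.H83.Basic

set_option autoImplicit false
open Cfsg

namespace Cfsg.Agent.S4856

open Cfsg.Agent.H83
open scoped ComplexConjugate

/-- For an element z of a finite group G, the number of pairs (x, y) of elements with x y x⁻¹ y⁻¹ = z equals the order of G times the sum over the irreducible characters χ of χ(z)/χ(1). -/
theorem result {G : Type*} [Group G] [Finite G] (z : G) : (Nat.card {xy : G × G // xy.1 * xy.2 * xy.1⁻¹ * xy.2⁻¹ = z} : ℂ) = (Nat.card G : ℂ) * ∑ᶠ χ : Cfsg.IrrCharacter G, (χ : G → ℂ) z / (χ : G → ℂ) 1 := by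
  classical
  have := Fintype.ofFinite G
  have := Fintype.ofFinite (IrrCharacter G)
  have hcard : (Nat.card G : ℂ) ≠ 0 := by
    exact_mod_cast (Nat.card_pos (α := G)).ne'
  set N : G → ℂ := fun z => (Nat.card {xy : G × G // xy.1 * xy.2 * xy.1⁻¹ * xy.2⁻¹ = z} : ℂ)
    with hN
  have hNsum : ∀ z, N z = ∑ x : G, ∑ y : G, if x * y * x⁻¹ * y⁻¹ = z then (1 : ℂ) else 0 := by
    intro z
    simp only [hN]
    rw [Nat.card_eq_fintype_card, Fintype.card_subtype, Finset.card_filter]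
    push_cast
    rw [Fintype.sum_prod_type]
  have hNclass : IsClassFunction G N := by
    intro g h
    rw [hNsum, hNsum]
    rw [← Equiv.sum_comp (MulAut.conj h).toEquiv]
    refine Finset.sum_congr rfl fun x _ => ?_
    rw [← Equiv.sum_comp (MulAut.conj h).toEquiv]
    refine Finset.sum_congr rfl fun y _ => ?_
    simp only [MulEquiv.toEquiv_eq_coe, EquivLike.coe_coe, MulAut.conj_apply]
    have : h * x * h⁻¹ * (h * y * h⁻¹) * (h * x * h⁻¹)⁻¹ * (h * y * h⁻¹)⁻¹ =
        h * (x * y * x⁻¹ * y⁻¹) * h⁻¹ := by group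
    refine if_congr ?_ rfl rfl
    rw [this]
    simp
  have hinner : ∀ χ : IrrCharacter G, classInner N (χ : G → ℂ) =
      (Nat.card G : ℂ) / (χ : G → ℂ) 1 := by
    intro χ
    have hχ := χ.2
    have h1 : ∑ g : G, N g * conj ((χ : G → ℂ) g) =
        ∑ x : G, ∑ y : G, (χ : G → ℂ) (y * x * y⁻¹ * x⁻¹) := by
      simp only [hNsum, Finset.sum_mul]
      rw [Finset.sum_comm]
      refine Finset.sum_congr rfl fun x _ => ?_
      rw [Finset.sum_comm]
      refine Finset.sum_congr rfl fun y _ => ?_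
      simp only [ite_mul, one_mul, zero_mul]
      rw [Finset.sum_ite_eq Finset.univ (x * y * x⁻¹ * y⁻¹), if_pos (Finset.mem_univ _)]
      rw [IsIrrCharacter.conj_eq_inv hχ]
      congr 1
      group
    have h2 : ∀ x : G, ∑ y : G, (χ : G → ℂ) (y * x * y⁻¹ * x⁻¹) =
        (Nat.card G : ℂ) * (χ : G → ℂ) x * (χ : G → ℂ) x⁻¹ / (χ : G → ℂ) 1 := fun x =>
      irr_sum_conj_mul hχ x x⁻¹
    have h3 : ∀ x : G, (Nat.card G : ℂ) * (χ : G → ℂ) x * (χ : G → ℂ) x⁻¹ / (χ : G → ℂ) 1 =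
        ((χ : G → ℂ) x * (χ : G → ℂ) x⁻¹) * ((Nat.card G : ℂ) / (χ : G → ℂ) 1) := by
      intro x; ring
    rw [classInner, h1]
    simp only [h2, h3]
    rw [← Finset.sum_mul, irr_sum_mul_inv_self hχ, ← mul_assoc, inv_mul_cancel₀ hcard, one_mul]
  have hexp := Cfsg.Agent.S0152.result N hNclass
  have hz := congrFun hexp z
  rw [finsum_eq_sum_of_fintype] at hz
  rw [finsum_eq_sum_of_fintype, Finset.mul_sum]
  show N z = _
  rw [hz, Finset.sum_apply]
  refine Finset.sum_congr rfl fun χ _ => ?_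
  rw [Pi.smul_apply, hinner, smul_eq_mul]
  ring

end Cfsg.Agent.S4856
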