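import Cfsg.Statements.S4873
import Cfsg.Agent.H83.OddIndex

set_option autoImplicit false
open Cfsg

namespace Cfsg.Agent.S4873

/-- Let N be a normal subgroup of odd index in the finite group G. Then every irreducible complex character of N with Frobenius–Schur indicator +1 lies under exactly one irreducible character of G with Frobenius–Schur indicator +1. -/
theorem result {G : Type*} [Group G] [Finite G] (N : Subgroup G) [N.Normal] (hodd : Odd N.index) (φ : Cfsg.IrrCharacter ↥N) (hφ : (Nat.card ↥N : ℂ)⁻¹ * ∑ᶠ g : ↥N, (φ : ↥N → ℂ) (g * g) = 1) : ∃! χ : Cfsg.IrrCharacter G, (Nat.card G : ℂ)⁻¹ * ∑ᶠ g : G, (χ : G → ℂ) (g * g) = 1 ∧ (∑ᶠ n : ↥N, (χ : G → ℂ) n * (starRingEnd ℂ) ((φ : ↥N → ℂ) n)) ≠ 0 := by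
  classical
  have : Fintype G := Fintype.ofFinite G
  have : Fintype N := Fintype.ofFinite N
  have hφ' : Cfsg.Agent.H78.indicator φ.1 = 1 := by
    unfold Cfsg.Agent.H78.indicator
    rw [← finsum_eq_sum_of_fintype]
    exact hφ
  obtain ⟨χ₀, ⟨h1, h2⟩, h3⟩ := Cfsg.Agent.H83.exists_unique_indicator_one N hodd φ hφ'
  have key : ∀ χ : Cfsg.IrrCharacter G,
      (∑ᶠ n : ↥N, (χ : G → ℂ) n * (starRingEnd ℂ) ((φ : ↥N → ℂ) n)) ≠ 0 ↔
        Cfsg.classInner (fun n : N => χ.1 n) φ.1 ≠ 0 := by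
    intro χ
    unfold Cfsg.classInner
    rw [finsum_eq_sum_of_fintype]
    have hc : (Nat.card N : ℂ)⁻¹ ≠ 0 := by
      apply inv_ne_zero
      exact_mod_cast Nat.card_pos.ne'
    constructor
    · intro h
      exact mul_ne_zero hc h
    · intro h
      exact right_ne_zero_of_mul h
  have key2 : ∀ χ : Cfsg.IrrCharacter G,
      (Nat.card G : ℂ)⁻¹ * ∑ᶠ g : G, (χ : G → ℂ) (g * g) = Cfsg.Agent.H78.indicator χ.1 := by
    intro χ
    unfold Cfsg.Agent.H78.indicator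
    rw [finsum_eq_sum_of_fintype]
  refine ⟨χ₀, ⟨by rw [key2]; exact h1, (key χ₀).mpr h2⟩, ?_⟩
  rintro χ ⟨hν, hm⟩
  exact h3 χ ⟨by rw [← key2]; exact hν, (key χ).mp hm⟩

end Cfsg.Agent.S4873
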