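import Cfsg.Statements.S4911
import Cfsg.Agent.H4.GlaubCls

set_option autoImplicit false
open Cfsg

namespace Cfsg.Agent.S4911

/-- Let P and K be subgroups of a finite group with P a p-group normalizing K and K of order prime to p. Then the number of P-invariant real-valued irreducible complex characters of K equals the number of conjugacy classes of K that are real (closed under inversion) and P-invariant. Moreover, if every real-valued irreducible character of K is P-invariant, then every real element of K (one conjugate in K to its inverse) is conjugate in K to an element centralized by P. -/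
theorem result {G : Type*} [Group G] [Finite G] (p : ℕ) [Fact p.Prime] (P K : Subgroup G) (hP : IsPGroup p ↥P) (hK : ¬ p ∣ Nat.card ↥K) (hPK : P ≤ Subgroup.normalizer (K : Set G)) : Nat.card {θ : Cfsg.IrrCharacter ↥K // (∀ k : ↥K, ((θ : ↥K → ℂ) k).im = 0) ∧ (∀ x ∈ P, ∀ k k' : ↥K, (k' : G) = x * (k : G) * x⁻¹ → (θ : ↥K → ℂ) k' = (θ : ↥K → ℂ) k)} = Nat.card {c : ConjClasses ↥K // (∀ k : ↥K, ConjClasses.mk k = c → IsConj k k⁻¹) ∧ ∀ k : ↥K, ConjClasses.mk k = c → ∀ x ∈ P, ∀ k' : ↥K, (k' : G) = x * (k : G) * x⁻¹ → ConjClasses.mk k' = c} ∧ ((∀ θ : Cfsg.IrrCharacter ↥K, (∀ k : ↥K, ((θ : ↥K → ℂ) k).im = 0) → (∀ x ∈ P, ∀ k k' : ↥K, (k' : G) = x * (k : G) * x⁻¹ → (θ : ↥K → ℂ) k' = (θ : ↥K → ℂ) k)) → ∀ k : ↥K, IsConj k k⁻¹ → ∃ k' : ↥K, IsConj k k' ∧ ∀ x ∈ P, x * (k' : G) * x⁻¹ = (k' : G)) := by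
  classical
  haveI : Fintype K := Fintype.ofFinite K
  have hp : p.Prime := Fact.out
  have hnorm : ∀ x ∈ P, ∀ k ∈ K, x * k * x⁻¹ ∈ K := fun x hx k hk =>
    (Subgroup.mem_normalizer_iff.mp (hPK hx) k).mp hk
  letI : MulDistribMulAction P K := Cfsg.Agent.H4.conjAct K P hnorm
  have hinv : ∀ θ : K → ℂ, (∀ x ∈ P, ∀ k k' : K, (k' : G) = x * (k : G) * x⁻¹ → θ k' = θ k) ↔
      (∀ (x : P) (k : K), θ (x • k) = θ k) :=
    fun θ => Cfsg.Agent.H4.conjAct_inv_iff K P hnorm θ
  have hcls : ∀ c : ConjClasses K, (∀ k : K, ConjClasses.mk k = c → ∀ x ∈ P, ∀ k' : K,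
      (k' : G) = x * (k : G) * x⁻¹ → ConjClasses.mk k' = c) ↔
      (∀ (x : P) (k : K), ConjClasses.mk k = c → ConjClasses.mk (x • k) = c) := by
    intro c
    constructor
    · intro h x k hk
      exact h k hk x x.2 (x • k) rfl
    · intro h k hk x hx k' hk'
      have : k' = (⟨x, hx⟩ : P) • k := Subtype.ext hk'
      rw [this]
      exact h _ k hk
  constructor
  · rw [Nat.card_congr (Equiv.subtypeEquivRight
        (fun θ : Cfsg.IrrCharacter K => and_congr Iff.rfl (hinv θ.1))),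
      Nat.card_congr (Equiv.subtypeEquivRight
        (fun c : ConjClasses K => and_congr Iff.rfl (hcls c)))]
    exact Cfsg.Agent.H4.card_real_inv_irr_eq hp hP hK
  · intro hall k hk
    obtain ⟨k', hkk', hfix⟩ := Cfsg.Agent.H4.exists_fixed_conj_of_real hp hP hK
      (fun θ hθ => (hinv θ.1).mp (hall θ hθ)) k hk
    refine ⟨k', hkk', fun x hx => ?_⟩
    exact congrArg Subtype.val (hfix ⟨x, hx⟩)

end Cfsg.Agent.S4911
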