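import Cfsg.Statements.S4914
import Cfsg.Agent.H4.RelD

set_option autoImplicit false
open Cfsg

namespace Cfsg.Agent.S4914

/-- Let P and K be subgroups of a finite group G with P a p-group normalizing K, and suppose K has a normal Sylow p-subgroup Q. Let C be the subgroup of those k ∈ K whose commutator with every element of P lies in Q (so that C/Q is the fixed-point subgroup of P on K/Q). Then there is a bijection f from the P-invariant irreducible complex characters of K onto the P-invariant irreducible complex characters of C such that, for every P-invariant irreducible character χ of K, the multiplicity of f(χ) in the restriction of χ to C is a natural number congruent to 1 or to −1 modulo p, every other P-invariant irreducible character of C occurs in that restriction with multiplicity divisible by p, and the degrees of χ and f(χ) are congruent modulo p up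 to sign. -/
theorem result {G : Type*} [Group G] [Finite G] (p : ℕ) [Fact p.Prime] (P K Q C : Subgroup G) (hP : IsPGroup p ↥P) (hPK : P ≤ Subgroup.normalizer (K : Set G)) (hQK : Q ≤ K) (hQn : ∀ k ∈ K, ∀ q ∈ Q, k * q * k⁻¹ ∈ Q) (hQp : ∃ a : ℕ, Nat.card ↥Q = p ^ a) (hQsyl : ¬ p ∣ Q.relIndex K) (hCK : C ≤ K) (hC : ∀ k : G, k ∈ C ↔ (k ∈ K ∧ ∀ x ∈ P, x * k * x⁻¹ * k⁻¹ ∈ Q)) : ∃ f : {χ : Cfsg.IrrCharacter ↥K // (∀ x ∈ P, ∀ k k' : ↥K, (k' : G) = x * (k : G) * x⁻¹ → (χ : ↥K → ℂ) k' = (χ : ↥K → ℂ) k)} → {ξ : Cfsg.IrrCharacter ↥C // (∀ x ∈ P, ∀ k k' : ↥C, (k' : G) = x * (k : G) * x⁻¹ → (ξ : ↥C → ℂ) k' = (ξ : ↥C → ℂ) k)}, Function.Bijective f ∧ ∀ χ, (∀ ξ : {ξ : Cfsg.IrrCharacter ↥C // (∀ x ∈ P, ∀ k k' : ↥C, (k' : G) = x * (k : G) * x⁻¹ → (ξ : ↥C → ℂ) k' = (ξ : ↥C → ℂ) k)}, ∃ m : ℕ, (Nat.card ↥C : ℂ)⁻¹ * ∑ᶠ c : ↥C, (χ.1 : ↥K → ℂ) (Subgroup.inclusion hCK c) * (starRingEnd ℂ) ((ξ.1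 : ↥C → ℂ) c) = (m : ℂ) ∧ (ξ = f χ → ((m : ZMod p) = 1 ∨ (m : ZMod p) = -1)) ∧ (ξ ≠ f χ → p ∣ m)) ∧ ((Cfsg.charDegree ((f χ).1 : ↥C → ℂ) : ZMod p) = (Cfsg.charDegree (χ.1 : ↥K → ℂ) : ZMod p) ∨ (Cfsg.charDegree ((f χ).1 : ↥C → ℂ) : ZMod p) = -(Cfsg.charDegree (χ.1 : ↥K → ℂ) : ZMod p)) := by
  classical
  have hp : p.Prime := Fact.out
  letI : Fintype G := Fintype.ofFinite G
  letI : Fintype ↥K := Fintype.ofFinite _
  letI : Fintype ↥C := Fintype.ofFinite _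
  have hnK : ∀ s ∈ P, ∀ g ∈ K, s * g * s⁻¹ ∈ K := fun s hs g hg =>
    (Subgroup.mem_normalizer_iff.mp (hPK hs) g).mp hg
  letI actK : MulDistribMulAction P K := Cfsg.Agent.H4.conjAct K P hnK
  obtain ⟨M, hMdef⟩ : ∃ M : Subgroup K, M = Q.subgroupOf K := ⟨_, rfl⟩
  have hmemM : ∀ k : K, k ∈ M ↔ (k : G) ∈ Q := fun k => by
    rw [hMdef]
    exact Subgroup.mem_subgroupOf
  haveI hMn : M.Normal := ⟨fun m hm k => by
    rw [hmemM] at hm ⊢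
    exact hQn k k.2 m hm⟩
  have hMp : IsPGroup p M := by
    obtain ⟨a, ha⟩ := hQp
    apply IsPGroup.of_card (n := a)
    rw [hMdef, Nat.card_congr (Subgroup.subgroupOfEquivOfLe hQK).toEquiv, ha]
  have hidx : ¬ p ∣ M.index := by
    rw [hMdef]
    exact hQsyl
  have hMs : Cfsg.Agent.H4.Stable P M := by
    intro s x hx
    let S : Sylow p K := hMp.toSylow hidx
    have hSM : (S : Subgroup K) = M := rfl
    haveI : (S : Subgroup K).Normal := hSM ▸ hMn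
    have hchar : (S : Subgroup K).Characteristic := Sylow.characteristic_of_normal S inferInstance
    rw [hSM] at hchar
    have h1 := Subgroup.characteristic_iff_map_le.mp hchar (MulDistribMulAction.toMulEquiv K s)
    exact h1 ⟨x, hx, rfl⟩
  have hnQ : ∀ s ∈ P, ∀ q ∈ Q, s * q * s⁻¹ ∈ Q := by
    intro s hs q hq
    have h1 := hMs ⟨s, hs⟩ ⟨q, hQK hq⟩ ((hmemM _).mpr hq)
    exact (hmemM _).mp h1
  have hnC : ∀ s ∈ P, ∀ c ∈ C, s * c * s⁻¹ ∈ C := by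
    intro s hs c hc
    obtain ⟨hcK, hcQ⟩ := (hC c).mp hc
    refine (hC _).mpr ⟨hnK s hs c hcK, fun x hx => ?_⟩
    have h1 := hcQ (x * s) (P.mul_mem hx hs)
    have h2 := hcQ s hs
    have h3 : x * (s * c * s⁻¹) * x⁻¹ * (s * c * s⁻¹)⁻¹ =
        ((x * s) * c * (x * s)⁻¹ * c⁻¹) * (s * c * s⁻¹ * c⁻¹)⁻¹ := by group
    rw [h3]
    exact Q.mul_mem h1 (Q.inv_mem h2)
  letI actC : MulDistribMulAction P C := Cfsg.Agent.H4.conjAct C P hnC
  obtain ⟨i, hidef⟩ : ∃ i : C →* K, i = Subgroup.inclusion hCK := ⟨_, rfl⟩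
  have hicoe : ∀ c : C, ((i c : K) : G) = (c : G) := fun c => by rw [hidef]; rfl
  have hi : Function.Injective i := by
    rw [hidef]
    exact Subgroup.inclusion_injective hCK
  have hie : ∀ (s : P) (y : C), i (s • y) = s • i y := by
    intro s y
    apply Subtype.ext
    rw [hicoe]
    show (s : G) * (y : G) * (s : G)⁻¹ = (s : G) * ((i y : K) : G) * (s : G)⁻¹
    rw [hicoe]
  have hQC : Q ≤ C := by
    intro q hq
    refine (hC q).mpr ⟨hQK hq, fun x hx => ?_⟩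
    exact Q.mul_mem (hnQ x hx q hq) (Q.inv_mem hq)
  have hMi : ∀ m ∈ M, ∃ y, i y = m := by
    intro m hm
    refine ⟨⟨(m : G), hQC ((hmemM m).mp hm)⟩, ?_⟩
    apply Subtype.ext
    rw [hicoe]
  have hCfix : ∀ x : K, (∃ y, i y = x) ↔ ∀ s : P, (s • x) * x⁻¹ ∈ M := by
    intro x
    constructor
    · rintro ⟨y, rfl⟩ s
      rw [hmemM]
      have h1 := ((hC (y : G)).mp y.2).2 s s.2
      show (s : G) * ((i y : K) : G) * (s : G)⁻¹ * ((i y : K) : G)⁻¹ ∈ Q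
      rw [hicoe]
      exact h1
    · intro h
      have hxC : (x : G) ∈ C := by
        refine (hC _).mpr ⟨x.2, fun s hs => ?_⟩
        have h1 := h ⟨s, hs⟩
        rw [hmemM] at h1
        exact h1
      refine ⟨⟨(x : G), hxC⟩, ?_⟩
      apply Subtype.ext
      rw [hicoe]
  letI : Fintype M := Fintype.ofFinite _
  letI : Fintype (M.comap i) := Fintype.ofFinite _
  obtain ⟨R1, R3, R4⟩ := Cfsg.Agent.H4.rel_glauberman i M hp hP hMp hidx hi hie hMs hMi hCfix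
  have invK : ∀ χ : K → ℂ, (∀ x ∈ P, ∀ k k' : ↥K, (k' : G) = x * (k : G) * x⁻¹ → χ k' = χ k) ↔
      (∀ (s : P) (g : K), χ (s • g) = χ g) := fun χ => Cfsg.Agent.H4.conjAct_inv_iff K P hnK χ
  have invC : ∀ ξ : C → ℂ, (∀ x ∈ P, ∀ k k' : ↥C, (k' : G) = x * (k : G) * x⁻¹ → ξ k' = ξ k) ↔
      (∀ (s : P) (g : C), ξ (s • g) = ξ g) := fun ξ => Cfsg.Agent.H4.conjAct_inv_iff C P hnC ξ
  have R1' : ∀ χ : {χ : Cfsg.IrrCharacter ↥K // (∀ x ∈ P, ∀ k k' : ↥K, (k' : G) = x * (k : G) * x⁻¹ → (χ : ↥K → ℂ) k' = (χ : ↥K → ℂ) k)},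
      ∃ ξ : {ξ : Cfsg.IrrCharacter ↥C // (∀ x ∈ P, ∀ k k' : ↥C, (k' : G) = x * (k : G) * x⁻¹ → (ξ : ↥C → ℂ) k' = (ξ : ↥C → ℂ) k)},
        ∃ m : ℕ, classInner (fun y : C => χ.1.1 (i y)) ξ.1.1 = (m : ℂ) ∧ ¬ p ∣ m ∧
          ((m : ℤ) ≡ 1 [ZMOD p] ∨ (m : ℤ) ≡ -1 [ZMOD p]) ∧
          ∀ ξ₂ : {ξ : Cfsg.IrrCharacter ↥C // (∀ x ∈ P, ∀ k k' : ↥C, (k' : G) = x * (k : G) * x⁻¹ → (ξ : ↥C → ℂ) k' = (ξ : ↥C → ℂ) k)},
            ∀ m₂ : ℕ, classInner (fun y : C => χ.1.1 (i y)) ξ₂.1.1 = (m₂ : ℂ) → ¬ p ∣ m₂ →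
              ξ₂ = ξ := by
    intro χ
    obtain ⟨ξ, hξ, m, hm, hpm, hmod, huniq⟩ := R1 χ.1 ((invK χ.1.1).mp χ.2)
    refine ⟨⟨ξ, (invC ξ.1).mpr hξ⟩, m, hm, hpm, hmod, ?_⟩
    intro ξ₂ m₂ hm₂ hpm₂
    exact Subtype.ext (huniq ξ₂.1 ((invC ξ₂.1.1).mp ξ₂.2) m₂ hm₂ hpm₂)
  choose f m₀ hm₀ hpm₀ hmod₀ huniq₀ using R1'
  have hinner : ∀ (χ : K → ℂ) (ξ : C → ℂ),
      (Nat.card ↥C : ℂ)⁻¹ * ∑ᶠ c : ↥C, χ (Subgroup.inclusion hCK c) * (starRingEnd ℂ) (ξ c) =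
        classInner (fun y : C => χ (i y)) ξ := by
    intro χ ξ
    unfold classInner
    rw [finsum_eq_sum_of_fintype, hidef]
  have hZ : ∀ χ, ((m₀ χ : ℕ) : ZMod p) = 1 ∨ ((m₀ χ : ℕ) : ZMod p) = -1 := by
    intro χ
    rcases hmod₀ χ with h | h
    · left
      have := (ZMod.intCast_eq_intCast_iff _ _ p).mpr h
      simpa using this
    · right
      have := (ZMod.intCast_eq_intCast_iff _ _ p).mpr h
      simpa using this
  refine ⟨f, ⟨?_, ?_⟩, fun χ => ⟨fun ξ => ?_, ?_⟩⟩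
  · intro χ χ' h
    apply Subtype.ext
    refine R3 χ.1 χ'.1 ((invK χ.1.1).mp χ.2) ((invK χ'.1.1).mp χ'.2) (f χ).1
      ((invC (f χ).1.1).mp (f χ).2) (m₀ χ) (m₀ χ') (hm₀ χ) (hpm₀ χ) ?_ (hpm₀ χ')
    rw [h]
    exact hm₀ χ'
  · intro ξ
    obtain ⟨χ, hχ, m, hm, hpm⟩ := R4 ξ.1 ((invC ξ.1.1).mp ξ.2)
    exact ⟨⟨χ, (invK χ.1).mpr hχ⟩, (huniq₀ ⟨χ, (invK χ.1).mpr hχ⟩ ξ m hm hpm).symm⟩
  · obtain ⟨m, hm⟩ := Cfsg.Agent.H4.classInner_isCharacter_nat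
      (Cfsg.Agent.H4.isCharacter_comp i (Cfsg.Agent.H4.isCharacter_of_isIrrCharacter χ.1.2))
      (Cfsg.Agent.H4.isCharacter_of_isIrrCharacter ξ.1.2)
    refine ⟨m, ?_, ?_, ?_⟩
    · rw [hinner]
      exact hm
    · intro hξ
      have h1 : m = m₀ χ := by
        have h2 := hm₀ χ
        rw [← hξ, hm] at h2
        exact_mod_cast h2
      rw [h1]
      exact hZ χ
    · intro hξ
      by_contra hpm
      exact hξ (huniq₀ χ ξ m hm hpm)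
  · have hd := Cfsg.Agent.H4.deg_congr i hp hP hie
      (Cfsg.Agent.H4.isCharacter_of_isIrrCharacter χ.1.2) ((invK χ.1.1).mp χ.2) (f χ).1
      ((invC (f χ).1.1).mp (f χ).2) (m₀ χ) (hm₀ χ) (by
        intro ξ hξ hne m hm
        by_contra hpm
        apply hne
        have := huniq₀ χ ⟨ξ, (invC ξ.1).mpr hξ⟩ m hm hpm
        exact congrArg Subtype.val this)
    rw [Cfsg.Agent.H82.irr_one_eq_charDegree, Cfsg.Agent.H82.irr_one_eq_charDegree] at hd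
    have hd' : (p : ℤ) ∣ ((Cfsg.charDegree (χ.1 : ↥K → ℂ) : ℤ) -
        (m₀ χ : ℤ) * (Cfsg.charDegree ((f χ).1 : ↥C → ℂ) : ℤ)) := by
      apply Cfsg.Agent.H4.PDiv.dvd_int hp.pos
      push_cast
      exact hd
    have hz := (ZMod.intCast_zmod_eq_zero_iff_dvd _ p).mpr hd'
    push_cast at hz
    have hz' : (Cfsg.charDegree (χ.1 : ↥K → ℂ) : ZMod p) =
        (m₀ χ : ZMod p) * (Cfsg.charDegree ((f χ).1 : ↥C → ℂ) : ZMod p) := sub_eq_zero.mp hz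
    rcases hZ χ with h | h
    · left
      rw [hz', h, one_mul]
    · right
      rw [hz', h]
      ring

end Cfsg.Agent.S4914
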