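-- Statement S4916: trivial character is the only p'-degree character of the principal block iff p ∤ |G|.
import Mathlib
import Cfsg.Statements.S4916
import Cfsg.Agent.H20.BlockIdem
import Cfsg.Agent.H82.Triv

set_option autoImplicit false
open Cfsg

namespace Cfsg.Agent.S4916

open scoped ComplexConjugate
open Cfsg.Agent.H20

/-- Let G be a finite group, p a prime and M a maximal ideal of the algebraic integers containing p. Then the principal character is the only irreducible character of degree prime to p in the principal p-block of G if and only if p does not divide the order of G. -/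
theorem result {G : Type*} [Group G] [Finite G] (p : ℕ) [Fact p.Prime] (M : Ideal Cfsg.AlgInt) (hM : Cfsg.IsPModular p M) : (∀ χ : Cfsg.IrrCharacter G, χ ∈ Cfsg.principalBlock M G → ¬ p ∣ Cfsg.charDegree (χ : G → ℂ) → (χ : G → ℂ) = fun _ => (1 : ℂ)) ↔ ¬ p ∣ Nat.card G := by
  classical
  have _ : Fintype G := Fintype.ofFinite G
  have hMp : M.IsPrime := isPrime_of_isPModular hM
  have hp : p.Prime := Fact.out
  have htriv : ((Cfsg.Agent.H82.trivChar G : Cfsg.IrrCharacter G) : G → ℂ) = fun _ => (1 : ℂ) :=
    funext (fun g => Cfsg.Agent.H82.trivChar_apply g)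
  have hblock : Cfsg.principalBlock M G =
      Cfsg.blockOf M ((Cfsg.Agent.H82.trivChar G : Cfsg.IrrCharacter G) : G → ℂ) := by
    unfold Cfsg.principalBlock
    rw [htriv]
  constructor
  · -- if the trivial character is alone of p'-degree, then p ∤ |G|
    intro H hdvd
    have hloc := blockCoeff_memLocalRing hMp (Cfsg.Agent.H82.trivChar G) (1 : G)
    rw [← hblock, blockCoeff_eq] at hloc
    -- the sum is `1 + p m`
    let F : Cfsg.IrrCharacter G → ℕ := fun χ =>
      if χ ∈ Cfsg.principalBlock M G then Cfsg.charDegree (χ : G → ℂ) ^ 2 else 0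
    have hF : ∀ χ : Cfsg.IrrCharacter G,
        (if χ ∈ Cfsg.principalBlock M G then (χ : G → ℂ) 1 * conj ((χ : G → ℂ) 1) else 0) =
          ((F χ : ℕ) : ℂ) := by
      intro χ
      simp only [F]
      split_ifs with h
      · rw [Cfsg.Agent.H82.irr_one_eq_charDegree, Complex.conj_natCast]
        push_cast; ring
      · simp
    have htrivmem : Cfsg.Agent.H82.trivChar G ∈ Cfsg.principalBlock M G := by
      rw [hblock]
      intro g
      rw [sub_self]
      exact memLocalIdeal_zero hMp
    have hFtriv : F (Cfsg.Agent.H82.trivChar G) = 1 := by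
      simp only [F]
      rw [if_pos htrivmem, Cfsg.Agent.H82.charDegree_trivChar, one_pow]
    have hFdvd : ∀ χ : Cfsg.IrrCharacter G, χ ≠ Cfsg.Agent.H82.trivChar G → p ∣ F χ := by
      intro χ hχ
      simp only [F]
      split_ifs with h
      · have hd : p ∣ Cfsg.charDegree (χ : G → ℂ) := by
          by_contra hnd
          exact hχ (Subtype.ext ((H χ h hnd).trans htriv.symm))
        exact dvd_pow hd (by norm_num)
      · exact dvd_zero p
    letI := Cfsg.Agent.H4.fintypeIrr G
    rw [Finset.sum_congr rfl (fun χ _ => hF χ), ← Nat.cast_sum,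
      ← Finset.add_sum_erase Finset.univ F (Finset.mem_univ (Cfsg.Agent.H82.trivChar G)),
      hFtriv] at hloc
    obtain ⟨m, hm⟩ : p ∣ ∑ χ ∈ Finset.univ.erase (Cfsg.Agent.H82.trivChar G), F χ :=
      Finset.dvd_sum (fun χ hχ => hFdvd χ (Finset.ne_of_mem_erase hχ))
    rw [hm] at hloc
    have hG : MemLocalIdeal M ((Nat.card G : ℕ) : ℂ) := (memLocalIdeal_natCast_iff hM _).mpr hdvd
    have h1 := memLocalIdeal_mul_right hMp hG hloc
    have hGne : ((Nat.card G : ℕ) : ℂ) ≠ 0 := by
      exact_mod_cast (Nat.card_pos (α := G)).ne'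
    rw [← mul_assoc, mul_inv_cancel₀ hGne, one_mul] at h1
    have h2 := (memLocalIdeal_natCast_iff hM _).mp h1
    have h3 : p ∣ 1 := (Nat.dvd_add_left (dvd_mul_right p m)).mp h2
    exact hp.one_lt.ne' (Nat.dvd_one.mp h3)
  · -- if p ∤ |G| then the principal block is {1}
    intro hnd χ hχ _
    by_contra hne
    have hne' : χ ≠ Cfsg.Agent.H82.trivChar G := fun h => hne (h ▸ htriv)
    have hinner := Cfsg.Agent.H4.irr_inner_ne hne'
    unfold Cfsg.classInner at hinner
    have hGne : ((Nat.card G : ℕ) : ℂ) ≠ 0 := by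
      exact_mod_cast (Nat.card_pos (α := G)).ne'
    have hsum : ∑ g : G, (χ : G → ℂ) g = 0 := by
      have h0 := (mul_eq_zero.mp hinner).resolve_left (inv_ne_zero hGne)
      rw [← h0]
      refine Finset.sum_congr rfl (fun g _ => ?_)
      rw [Cfsg.Agent.H82.trivChar_apply, map_one, mul_one]
    have hχ1 : (χ : G → ℂ) 1 ≠ 0 := Cfsg.Agent.H82.irr_one_ne_zero χ
    -- termwise: `1 - χ g / χ 1` lies in the local ideal
    have hterm : ∀ g : G, MemLocalIdeal M (1 - (χ : G → ℂ) g / (χ : G → ℂ) 1) := by
      intro g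
      have hg := hχ g
      unfold Cfsg.centralChar at hg
      have hidx : ¬ p ∣ (Subgroup.centralizer ({g} : Set G)).index := fun h =>
        hnd (h.trans (Subgroup.index_dvd_card _))
      have hinv := memLocalRing_inv_natCast hM hidx
      have h1 := memLocalIdeal_mul_left hMp hinv hg
      have hidxne : ((Subgroup.centralizer ({g} : Set G)).index : ℂ) ≠ 0 := by
        have : (Subgroup.centralizer ({g} : Set G)).index ≠ 0 := Subgroup.index_ne_zero_of_finite
        exact_mod_cast this
      have heq : ((Subgroup.centralizer ({g} : Set G)).index : ℂ)⁻¹ *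
          (((Subgroup.centralizer ({g} : Set G)).index : ℂ) * 1 / 1 -
            ((Subgroup.centralizer ({g} : Set G)).index : ℂ) * (χ : G → ℂ) g / (χ : G → ℂ) 1) =
          1 - (χ : G → ℂ) g / (χ : G → ℂ) 1 := by
        field_simp
      rw [heq] at h1
      exact h1
    have htot := memLocalIdeal_sum hMp Finset.univ
      (fun g : G => 1 - (χ : G → ℂ) g / (χ : G → ℂ) 1) (fun g _ => hterm g)
    rw [Finset.sum_sub_distrib, ← Finset.sum_div, hsum, zero_div, sub_zero, Finset.sum_const,
      Finset.card_univ, nsmul_eq_mul, mul_one, ← Nat.card_eq_fintype_card] at htot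
    exact hnd ((memLocalIdeal_natCast_iff hM _).mp htot)

end Cfsg.Agent.S4916
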