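-- Statement S4969: sum of normalized character values above a degree bound (Cauchy–Schwarz).
import Mathlib
import Cfsg.Statements.S4969
import Cfsg.Agent.S0133
import Cfsg.Agent.S0145

set_option autoImplicit false
open Cfsg

namespace Cfsg.Agent.S4969

open scoped ComplexConjugate

/-- Let G be a finite group with k conjugacy classes, g ∈ G, and N > 0. Then the sum over the irreducible complex characters χ of G with χ(1) ≥ N of |χ(g)|/χ(1) is at most √(k · #C_G(g)) / N. -/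
theorem result {G : Type*} [Group G] [Finite G] (g : G) (N : ℝ) (hN : 0 < N) :
    ∑ᶠ χ : Cfsg.IrrCharacter G, (if N ≤ ‖(χ : G → ℂ) 1‖ then ‖(χ : G → ℂ) g‖ / ‖(χ : G → ℂ) 1‖ else 0) ≤
      Real.sqrt ((Nat.card (ConjClasses G) : ℝ) * (Nat.card ↥(Subgroup.centralizer ({g} : Set G)) : ℝ)) / N := by
  classical
  haveI : Finite (Cfsg.IrrCharacter G) := Cfsg.Agent.H4.finite_irr G
  haveI : Fintype (Cfsg.IrrCharacter G) := Fintype.ofFinite _
  rw [finsum_eq_sum_of_fintype]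
  -- second orthogonality at `g`
  have horth := (Cfsg.Agent.S0145.result g g).1 (IsConj.refl g)
  rw [finsum_eq_sum_of_fintype] at horth
  have hsq : ∑ χ : Cfsg.IrrCharacter G, ‖(χ : G → ℂ) g‖ ^ 2 =
      (Nat.card ↥(Subgroup.centralizer ({g} : Set G)) : ℝ) := by
    have h1 : ((∑ χ : Cfsg.IrrCharacter G, ‖(χ : G → ℂ) g‖ ^ 2 : ℝ) : ℂ) =
        ((Nat.card ↥(Subgroup.centralizer ({g} : Set G)) : ℝ) : ℂ) := by
      rw [Complex.ofReal_sum, Complex.ofReal_natCast, ← horth]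
      refine Finset.sum_congr rfl (fun χ _ => ?_)
      rw [Complex.mul_conj, Complex.normSq_eq_norm_sq]
    exact_mod_cast h1
  have hk : (Fintype.card (Cfsg.IrrCharacter G) : ℝ) = (Nat.card (ConjClasses G) : ℝ) := by
    rw [← Cfsg.Agent.S0133.result, Nat.card_eq_fintype_card]
  -- termwise bound
  have hterm : ∀ χ : Cfsg.IrrCharacter G,
      (if N ≤ ‖(χ : G → ℂ) 1‖ then ‖(χ : G → ℂ) g‖ / ‖(χ : G → ℂ) 1‖ else 0) ≤
        ‖(χ : G → ℂ) g‖ / N := by
    intro χ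
    split_ifs with h
    · exact div_le_div_of_nonneg_left (norm_nonneg _) hN h
    · exact div_nonneg (norm_nonneg _) hN.le
  have hCS : (∑ χ : Cfsg.IrrCharacter G, ‖(χ : G → ℂ) g‖) ^ 2 ≤
      (Nat.card (ConjClasses G) : ℝ) * (Nat.card ↥(Subgroup.centralizer ({g} : Set G)) : ℝ) := by
    have h2 := Finset.sum_mul_sq_le_sq_mul_sq (Finset.univ : Finset (Cfsg.IrrCharacter G))
      (fun _ => (1 : ℝ)) (fun χ => ‖(χ : G → ℂ) g‖)
    simp only [one_mul, one_pow, Finset.sum_const, Finset.card_univ, nsmul_eq_mul, mul_one] at h2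
    rw [hsq, hk] at h2
    exact h2
  have hsum : ∑ χ : Cfsg.IrrCharacter G, ‖(χ : G → ℂ) g‖ ≤
      Real.sqrt ((Nat.card (ConjClasses G) : ℝ) *
        (Nat.card ↥(Subgroup.centralizer ({g} : Set G)) : ℝ)) :=
    Real.le_sqrt_of_sq_le hCS
  calc ∑ χ : Cfsg.IrrCharacter G,
        (if N ≤ ‖(χ : G → ℂ) 1‖ then ‖(χ : G → ℂ) g‖ / ‖(χ : G → ℂ) 1‖ else 0)
      ≤ ∑ χ : Cfsg.IrrCharacter G, ‖(χ : G → ℂ) g‖ / N := Finset.sum_le_sum (fun χ _ => hterm χ)
    _ = (∑ χ : Cfsg.IrrCharacter G, ‖(χ : G → ℂ) g‖) / N := by rw [Finset.sum_div]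
    _ ≤ _ := div_le_div_of_nonneg_right hsum hN.le

end Cfsg.Agent.S4969
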