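import Cfsg.Statements.S4989
import Cfsg.Agent.H82.Zeros
import Cfsg.Agent.H82.Irr

set_option autoImplicit false
open Cfsg

namespace Cfsg.Agent.S4989

open Cfsg.Agent.H82 Cfsg.Agent.H4

/-- Let H be a subgroup of the finite group G and χ an irreducible complex character of G. Then the inner product of the restriction of χ to H with itself, (1/#H)·Σ_{h ∈ H} |χ(h)|², is at most 1 + #(Z ∖ H)/#H, where Z is the set of zeros of χ in G. -/
theorem result {G : Type*} [Group G] [Finite G] (H : Subgroup G) (χ : Cfsg.IrrCharacter G) : (Nat.card ↥H : ℝ)⁻¹ * ∑ᶠ h : ↥H, ‖(χ : G → ℂ) h‖ ^ 2 ≤ 1 + (Set.ncard ({x : G | (χ : G → ℂ) x = 0} \ (H : Set G)) : ℝ) / (Nat.card ↥H : ℝ) := by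
  classical
  haveI := Fintype.ofFinite G
  haveI : NeZero (Nat.card G) := ⟨Nat.card_pos.ne'⟩
  set S : Finset G := Finset.univ.filter (fun g => g ∉ H ∧ χ.1 g ≠ 0) with hS
  set Z : Finset G := Finset.univ.filter (fun g => g ∉ H ∧ ¬ χ.1 g ≠ 0) with hZ
  set HH : Finset G := Finset.univ.filter (fun g => g ∈ H) with hHH
  have hnorm : ∑ g : G, ‖χ.1 g‖ ^ 2 = (Nat.card G : ℝ) := by
    have h2 := irr_norm_sq χ
    have h3 : ∀ g, χ.1 g * (starRingEnd ℂ) (χ.1 g) = ((‖χ.1 g‖ ^ 2 : ℝ) : ℂ) := by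
      intro g
      rw [Complex.mul_conj, Complex.normSq_eq_norm_sq]
    simp only [h3] at h2
    exact_mod_cast h2
  have hsplit : ∑ g : G, ‖χ.1 g‖ ^ 2 = ∑ g ∈ HH, ‖χ.1 g‖ ^ 2 + ∑ g ∈ S, ‖χ.1 g‖ ^ 2 := by
    rw [← Finset.sum_filter_add_sum_filter_not Finset.univ (fun g => g ∈ H)]
    congr 1
    rw [← Finset.sum_filter_add_sum_filter_not (Finset.univ.filter (fun g => ¬ g ∈ H))
      (fun g => χ.1 g ≠ 0)]
    rw [Finset.filter_filter, Finset.filter_filter]
    have h0 : ∑ g ∈ Finset.univ.filter (fun g => g ∉ H ∧ ¬ χ.1 g ≠ 0), ‖χ.1 g‖ ^ 2 = 0 := by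
      apply Finset.sum_eq_zero
      intro g hg
      simp only [Finset.mem_filter, Finset.mem_univ, true_and, not_not] at hg
      simp [hg.2]
    rw [h0, add_zero]
  have hcard : Nat.card G = HH.card + S.card + Z.card := by
    rw [Nat.card_eq_fintype_card, ← Finset.card_univ,
      ← Finset.card_filter_add_card_filter_not (s := Finset.univ) (fun g : G => g ∈ H), add_assoc]
    congr 1
    rw [← Finset.card_filter_add_card_filter_not (s := Finset.univ.filter (fun g => ¬ g ∈ H))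
      (fun g => χ.1 g ≠ 0), Finset.filter_filter, Finset.filter_filter]
  have hSle : (S.card : ℝ) ≤ ∑ g ∈ S, ‖χ.1 g‖ ^ 2 := by
    apply card_le_sum_norm_pow (isCharacter_of_isIrrCharacter χ.2) 2 S
    · intro g hg u
      simp only [hS, Finset.mem_filter, Finset.mem_univ, true_and] at hg ⊢
      exact ⟨fun h => hg.1 (mem_of_pow_unit_mem H u h),
        char_pow_unit_ne_zero (isCharacter_of_isIrrCharacter χ.2) hg.2 u⟩
    · intro g hg
      simp only [hS, Finset.mem_filter, Finset.mem_univ, true_and] at hg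
      exact hg.2
  have hHcard : Nat.card H = HH.card := by
    rw [Nat.card_eq_fintype_card, hHH]
    exact Fintype.card_subtype _
  have hZcard : Set.ncard ({x : G | (χ : G → ℂ) x = 0} \ (H : Set G)) = Z.card := by
    rw [← Set.ncard_coe_finset]
    congr 1
    ext g
    simp only [hZ, Set.mem_diff, Set.mem_setOf_eq, SetLike.mem_coe, Finset.coe_filter,
      Finset.mem_univ, true_and, not_not]
    tauto
  have hfin : ∑ᶠ h : ↥H, ‖(χ : G → ℂ) h‖ ^ 2 = ∑ g ∈ HH, ‖χ.1 g‖ ^ 2 := by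
    rw [finsum_eq_sum_of_fintype]
    exact (Finset.sum_subtype HH (fun g => by simp [hHH]) (fun g => ‖χ.1 g‖ ^ 2)).symm
  rw [hfin, hZcard, hHcard]
  have hpos : (0 : ℝ) < HH.card := by
    rw [← hHcard]; exact_mod_cast Nat.card_pos
  have hmain : ∑ g ∈ HH, ‖χ.1 g‖ ^ 2 ≤ (HH.card : ℝ) + Z.card := by
    have h1 : (Nat.card G : ℝ) = (HH.card : ℝ) + S.card + Z.card := by exact_mod_cast hcard
    linarith
  rw [inv_mul_eq_div, div_le_iff₀ hpos, add_mul, one_mul, div_mul_cancel₀ _ hpos.ne']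
  exact hmain

end Cfsg.Agent.S4989
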