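import Cfsg.Statements.S5001
import Cfsg.Agent.H79.DefectDegree
import Cfsg.Agent.H79.CentralOver
import Cfsg.Agent.H82.Irr

set_option autoImplicit false
open Cfsg

namespace Cfsg.Agent.S5001

open Cfsg.Agent.H20 Cfsg.Agent.H4 Cfsg.Agent.H79
open scoped ComplexConjugate

/-- The statement for a block given by a member `χ₀`, a defect class `g`, and a `p`-subgroup `D`
centralizing `g` of the order of a Sylow `p`-subgroup of the centralizer of `g`. -/
theorem height_zero_extends {G : Type*} [Group G] [Finite G] (p : ℕ) (M : Ideal Cfsg.AlgInt)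
    (hM : Cfsg.IsPModular p M) (χ₀ : IrrCharacter G) (g : G)
    (hg : IsDefectClass M (blockOf M (χ₀ : G → ℂ)) g) (D : Subgroup G) (hDp : IsPGroup p D)
    (hDc : ∀ u ∈ D, u * g = g * u)
    (hcard : Nat.card D = p ^ (Nat.card (Subgroup.centralizer ({g} : Set G))).factorization p)
    (Z : Subgroup G) (hZc : Z ≤ Subgroup.center G) (hZD : Z ≤ D) (lam : ↥Z →* ℂˣ)
    (χ : Cfsg.IrrCharacter G) (hχ : χ ∈ blockOf M (χ₀ : G → ℂ))
    (hover : ∀ z : ↥Z, (χ : G → ℂ) z = (χ : G → ℂ) 1 * (lam z : ℂ))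
    (h0 : Cfsg.blockHeight p (blockOf M (χ₀ : G → ℂ)) (χ : G → ℂ) = 0) :
    ∃ μ : ↥D →* ℂˣ, ∀ z : ↥Z, μ ⟨(z : G), hZD z.2⟩ = lam z := by
  classical
  have hp : p.Prime := hM.1
  have hMp := isPrime_of_isPModular hM
  have hfD : Fintype D := Fintype.ofFinite D
  obtain ⟨ψ, hψB, hψnd⟩ := exists_degree_not_dvd_of_defectClass hM χ₀ g hg D hDp hDc hcard
  obtain ⟨c, hcdef⟩ : ∃ c : ℕ,
      c = (Subgroup.centralizer ({g} : Set G)).index.factorization p := ⟨_, rfl⟩
  rw [← hcdef] at hψnd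
  have hψpos := Cfsg.Agent.H82.charDegree_pos ψ
  have hχpos := Cfsg.Agent.H82.charDegree_pos χ
  have hψle : (charDegree (ψ : G → ℂ)).factorization p ≤ c := by
    by_contra hlt
    push Not at hlt
    exact hψnd ((hp.pow_dvd_iff_le_factorization hψpos.ne').mpr hlt)
  have hχle : (charDegree (χ : G → ℂ)).factorization p ≤ c := by
    unfold blockHeight at h0
    have h1 : sInf ((fun ψ : IrrCharacter G => (charDegree (ψ : G → ℂ)).factorization p) ''
        blockOf M (χ₀ : G → ℂ)) ≤ (charDegree (ψ : G → ℂ)).factorization p :=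
      Nat.sInf_le (Set.mem_image_of_mem _ hψB)
    omega
  -- the restriction of `χ` to `D` has a linear constituent
  have hlin : ∃ μ' : IrrCharacter ↥D, μ'.1 1 = 1 ∧
      classInner (fun u : D => (χ : G → ℂ) u) μ'.1 ≠ 0 := by
    by_contra hno
    push Not at hno
    have hV := char_div_p_memLocalRing_of_no_linear hM D hDp g hDc
      (isCharacter_of_isIrrCharacter χ.2) hno
    apply hg.2.2 χ hχ
    obtain ⟨ν, hν⟩ : ∃ ν : ℕ, ν = (charDegree (χ : G → ℂ)).factorization p := ⟨_, rfl⟩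
    rw [← hν] at hχle
    obtain ⟨m', hm'⟩ : ∃ m' : ℕ, m' = charDegree (χ : G → ℂ) / p ^ ν := ⟨_, rfl⟩
    obtain ⟨k', hk'⟩ : ∃ k' : ℕ,
        k' = (Subgroup.centralizer ({g} : Set G)).index / p ^ c := ⟨_, rfl⟩
    have hIne : (Subgroup.centralizer ({g} : Set G)).index ≠ 0 :=
      Subgroup.index_ne_zero_of_finite
    have hm'p : ¬ p ∣ m' := by rw [hm', hν]; exact Nat.not_dvd_ordCompl hp hχpos.ne'
    have hdeg : charDegree (χ : G → ℂ) = p ^ ν * m' := by
      rw [hm', hν, Nat.ordProj_mul_ordCompl_eq_self]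
    have hidx : (Subgroup.centralizer ({g} : Set G)).index = p ^ c * k' := by
      rw [hk', hcdef, Nat.ordProj_mul_ordCompl_eq_self]
    obtain ⟨e, he⟩ : ∃ e : ℕ, c = ν + e := ⟨c - ν, by omega⟩
    have hm0 : (m' : ℂ) ≠ 0 := by
      have : m' ≠ 0 := fun h0 => hm'p (by rw [h0]; exact dvd_zero p)
      exact_mod_cast this
    have hp0 : (p : ℂ) ≠ 0 := by exact_mod_cast hp.ne_zero
    have h1 : centralChar (χ : G → ℂ) g = (p : ℂ) * ((((p ^ e * k' : ℕ) : ℂ) * (m' : ℂ)⁻¹)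
        * ((χ : G → ℂ) g / (p : ℂ))) := by
      unfold centralChar
      rw [Cfsg.Agent.H82.irr_one_eq_charDegree χ, hdeg, hidx, he]
      push_cast
      field_simp
      ring
    rw [h1]
    exact memLocalIdeal_mul_right hMp (memLocalIdeal_natCast_self hM)
      (memLocalRing_mul hMp (memLocalRing_mul hMp (memLocalRing_natCast hMp _)
        (memLocalRing_inv_natCast hM hm'p)) hV)
  obtain ⟨μ', hμ1, hμne⟩ := hlin
  refine ⟨Cfsg.Agent.H82.irrLinearHom μ' hμ1, ?_⟩
  intro z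
  apply Units.ext
  rw [Cfsg.Agent.H82.irrLinearHom_apply]
  obtain ⟨lam', -, -, hlamχ⟩ := irr_central_fun χ
  have hχ1 : (χ : G → ℂ) 1 ≠ 0 := Cfsg.Agent.H4.irr_one_ne_zero χ
  have hzc : (z : G) ∈ Subgroup.center G := hZc z.2
  have hlam' : lam' (z : G) = (lam z : ℂ) := by
    have h1 := hlamχ (z : G) hzc 1
    rw [mul_one, hover z] at h1
    exact mul_right_cancel₀ hχ1 (by rw [← h1, mul_comm])
  have hS : ∑ u : D, (χ : G → ℂ) u * conj (μ'.1 u)
      = (lam z : ℂ) * conj (μ'.1 ⟨(z : G), hZD z.2⟩) * ∑ u : D, (χ : G → ℂ) u * conj (μ'.1 u) := by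
    rw [Finset.mul_sum]
    conv_lhs => rw [← Equiv.sum_comp (Equiv.mulLeft (⟨(z : G), hZD z.2⟩ : D))
      (fun u : D => (χ : G → ℂ) u * conj (μ'.1 u))]
    apply Finset.sum_congr rfl
    intro u _
    simp only [Equiv.coe_mulLeft]
    rw [Cfsg.Agent.H82.irr_linear_mul μ' hμ1, map_mul]
    have h1 : ((⟨(z : G), hZD z.2⟩ * u : D) : G) = (z : G) * (u : G) := rfl
    rw [h1, hlamχ (z : G) hzc u, hlam']
    ring
  have hSne : ∑ u : D, (χ : G → ℂ) u * conj (μ'.1 u) ≠ 0 := by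
    intro h
    apply hμne
    unfold classInner
    rw [h, mul_zero]
  have h2 : (lam z : ℂ) * conj (μ'.1 ⟨(z : G), hZD z.2⟩) = 1 := by
    have h3 : ((lam z : ℂ) * conj (μ'.1 ⟨(z : G), hZD z.2⟩) - 1)
        * ∑ u : D, (χ : G → ℂ) u * conj (μ'.1 u) = 0 := by
      rw [sub_mul, one_mul, ← hS, sub_self]
    rcases mul_eq_zero.mp h3 with h4 | h4
    · exact sub_eq_zero.mp h4
    · exact absurd h4 hSne
  have h5 : μ'.1 ⟨(z : G), hZD z.2⟩ * conj (μ'.1 ⟨(z : G), hZD z.2⟩) = 1 := by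
    rw [irr_conj μ' _, ← Cfsg.Agent.H82.irr_linear_mul μ' hμ1, mul_inv_cancel, hμ1]
  have h6 : conj (μ'.1 ⟨(z : G), hZD z.2⟩) ≠ 0 := by
    intro h
    rw [h, mul_zero] at h5
    exact zero_ne_one h5
  exact mul_right_cancel₀ h6 (h5.trans h2.symm)

/-- Let p be a prime, G a finite group and B a p-block of G (relative to a maximal ideal M of the algebraic integers containing p) with defect group D. Let Z be a central p-subgroup of G contained in D and λ a linear character of Z (a homomorphism to the nonzero complex numbers). Say an irreducible character χ of G lies over λ when χ(z) = χ(1)λ(z) for all z ∈ Z. If some irreducible character in B lying over λ has height zero, then λ extends to a linear character of D. -/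
theorem result {G : Type*} [Group G] [Finite G] (p : ℕ) [Fact p.Prime] (M : Ideal Cfsg.AlgInt) (hM : Cfsg.IsPModular p M) (B : Set (Cfsg.IrrCharacter G)) (hB : Cfsg.IsPBlock M B) (D : Subgroup G) (hD : Cfsg.IsDefectGroup p M B D) (Z : Subgroup G) (hZc : Z ≤ Subgroup.center G) (hZp : IsPGroup p ↥Z) (hZD : Z ≤ D) (lam : ↥Z →* ℂˣ) (χ : Cfsg.IrrCharacter G) (hχ : χ ∈ B) (hover : (∀ z : ↥Z, (χ : G → ℂ) z = (χ : G → ℂ) 1 * (lam z : ℂ))) (h0 : Cfsg.blockHeight p B (χ : G → ℂ) = 0) : (∃ μ : ↥D →* ℂˣ, ∀ z : ↥Z, μ ⟨(z : G), hZD z.2⟩ = lam z) := by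
  obtain ⟨χ₀, rfl⟩ := hB
  obtain ⟨g, hg, P, rfl⟩ := hD
  refine height_zero_extends p M hM χ₀ g hg _ ?_ ?_ ?_ Z hZc hZD lam χ hχ hover h0
  · exact P.isPGroup'.map _
  · intro u hu
    obtain ⟨x, -, rfl⟩ := Subgroup.mem_map.mp hu
    exact (Subgroup.mem_centralizer_iff.mp x.2 g (Set.mem_singleton g)).symm
  · rw [Subgroup.card_map_of_injective (Subgroup.subtype_injective _), Sylow.card_eq_multiplicity]

end Cfsg.Agent.S5001
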