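-- Statement S5080: essential subgroups are radical.
import Cfsg.Statements.S5080
import Cfsg.Agent.H86.FusAut
import Cfsg.Agent.H86.GrpLemmas

set_option autoImplicit false
open Cfsg

namespace Cfsg.Agent.S5080

open Cfsg.Agent.H86 Cfsg.FusionSystem

/-- In a saturated fusion system over a finite p-group, every essential subgroup is radical (it is centric and fully normalized by definition, so it is centric-radical and fully normalized). -/
theorem result {Ω : Type*} [Group Ω] {S : Subgroup Ω} [Finite S] (p : ℕ) [Fact p.Prime] (hS : IsPGroup p S) (F : Cfsg.FusionSystem S) (hF : F.IsSaturated p) (P : Subgroup Ω) (hP : F.IsEssential p P) : F.IsRadical p P := by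
  obtain ⟨hcen, hfn, hnorm, E, hE⟩ := hP
  have hPS : P ≤ S := hcen.1
  have : Finite P := finite_of_le hPS
  refine ⟨hPS, ?_⟩
  have hInn : Inn P ≤ F.autGroup P := inn_le_autGroup F hPS
  have hPp : IsPGroup p P := hS.to_le hPS
  have hInnp : IsPGroup p (Inn P) :=
    hPp.of_surjective (MulAut.conj : P →* MulAut P).rangeRestrict (MonoidHom.rangeRestrict_surjective _)
  have hNp : IsPGroup p ((Inn P).subgroupOf (F.autGroup P)) := hInnp.comap_subtype
  have h1 : (Inn P).subgroupOf (F.autGroup P) ≤ pCore p (F.autGroup P) := le_pCore hnorm hNp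
  have hbot : pCore p (F.autGroup P ⧸ (Inn P).subgroupOf (F.autGroup P)) = ⊥ :=
    pCore_eq_bot_of_stronglyPEmbedded hE
  have h2 : pCore p (F.autGroup P) ≤ (Inn P).subgroupOf (F.autGroup P) := by
    have hn : ((pCore p (F.autGroup P)).map (QuotientGroup.mk' ((Inn P).subgroupOf (F.autGroup P)))).Normal :=
      Subgroup.Normal.map (pCore_normal p _) _ (QuotientGroup.mk'_surjective _)
    have hp' : IsPGroup p ((pCore p (F.autGroup P)).map (QuotientGroup.mk' ((Inn P).subgroupOf (F.autGroup P)))) :=
      (pCore_isPGroup p _).map _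
    have h3 := le_pCore hn hp'
    rw [hbot] at h3
    intro x hx
    have hx' := h3 (Subgroup.mem_map_of_mem _ hx)
    rw [Subgroup.mem_bot] at hx'
    exact (QuotientGroup.eq_one_iff x).1 hx'
  have h3 : pCore p (F.autGroup P) = (Inn P).subgroupOf (F.autGroup P) := le_antisymm h2 h1
  rw [h3]
  exact Subgroup.map_subgroupOf_eq_of_le hInn

end Cfsg.Agent.S5080
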