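-- Statement S5083: a saturated fusion system all of whose automorphism groups are p-groups is inner.
import Cfsg.Statements.S5083
import Cfsg.Agent.H86.FusAlperin

set_option autoImplicit false
open Cfsg

namespace Cfsg.Agent.S5083

open Cfsg.Agent.H86 Cfsg.FusionSystem

/-- If F is a saturated fusion system over a finite p-group S in which Aut_F(P) is a p-group for every P ≤ S, then F is the inner fusion system of S (all its maps are conjugations by elements of S). -/
theorem result {Ω : Type*} [Group Ω] {S : Subgroup Ω} [Finite S] (p : ℕ) [Fact p.Prime] (hS : IsPGroup p S) (F : Cfsg.FusionSystem S) (hF : F.IsSaturated p) (h : ∀ P : Subgroup Ω, P ≤ S → IsPGroup p (F.autGroup P)) : F = Cfsg.innerFusionSystem S := by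
  have hle : ∀ (P : Subgroup Ω) (f : Ω → Ω), Mor F P f → Mor (innerFusionSystem S) P f := by
    refine alperin hS hF (innerFusionSystem S) ?_
    rintro P (rfl | hess)
    · -- `P = S`
      obtain ⟨Q, hPQ, hQa, -⟩ := hF P le_rfl
      have hQP : Q = P := Subgroup.eq_of_le_of_card_ge hQa.1 (le_of_eq (isConj_card hPQ).symm)
      subst hQP
      obtain ⟨R, hR⟩ := hQa.2
      have hRtop := sylow_eq_top_of_isPGroup (h Q le_rfl) R
      intro α hα
      have h1 : (⟨α, hα⟩ : F.autGroup Q) ∈ (R : Subgroup (F.autGroup Q)) := by
        rw [hRtop]; exact Subgroup.mem_top _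
      rw [hR] at h1
      obtain ⟨g, hg, H⟩ := (mem_autInducedBy_iff Q Q α).1 (Subgroup.mem_subgroupOf.1 h1)
      rw [mem_autGroup_iff le_rfl]
      exact (Mor.conj (innerFusionSystem Q) le_rfl hg).congr (fun x hx => by rw [autFun_of_mem α hx, H])
    · -- essential subgroups do not exist
      obtain ⟨hcen, -, hn, Y, hY⟩ := hess
      have : Finite P := finite_of_le hcen.1
      exact absurd hY (not_stronglyPEmbedded_of_isPGroup ((h P hcen.1).to_quotient _) Y)
  apply fusionSystem_ext
  intro P
  apply Set.eq_of_subset_of_subset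
  · exact fusionSystem_le_iff.2 hle P
  · rintro φ ⟨hP, g, hg, H⟩
    have : φ = conjHom P g := by
      ext x
      exact H x
    rw [this]
    exact F.conj_mem hP hg

end Cfsg.Agent.S5083
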