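import Cfsg.Statements.S5124
import Cfsg.Agent.H87.Hyp

set_option autoImplicit false
open Cfsg

namespace Cfsg.Agent.S5124

/-- In a saturated fusion system over a finite p-group S the hyperfocal subgroup is strongly closed in the system. -/
theorem result {Ω : Type*} [Group Ω] {S : Subgroup Ω} [Finite S] (p : ℕ) [Fact p.Prime] (hS : IsPGroup p S) (F : Cfsg.FusionSystem S) (hF : F.IsSaturated p) : F.StronglyClosed (F.hyperfocalSubgroup p) := by
  open Cfsg.Agent.H86 Cfsg.Agent.H87 in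
  refine ⟨hyperfocal_le F p, ?_⟩
  intro R hR φ hφ x
  obtain ⟨s, hs, hsx⟩ := mor_mod_hyperfocal hS hF (mor_extFun hφ)
  have h1 := hsx x x.2
  rw [extFun_apply] at h1
  have h2 : φ x = (s * (x : Ω) * s⁻¹) * ((s * (x : Ω) * s⁻¹)⁻¹ * φ x) := by group
  rw [h2]
  exact Subgroup.mul_mem _ (hyperfocal_conj_mem F p hs _ (hR x.2)) h1

end Cfsg.Agent.S5124
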