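import Cfsg.Statements.S5134
import Cfsg.Agent.H88.Puig
import Cfsg.Agent.H88.Abelian

set_option autoImplicit false
open Cfsg Cfsg.FusionSystem Cfsg.Agent.H86 Cfsg.Agent.H88

namespace Cfsg.Agent.S5134

/-- Let F be a saturated fusion system over a finite p-group S, S₀ a subgroup strongly closed in F, and E the factor system of F modulo S₀ read through θ (a homomorphism on S with kernel S₀ and image the group of E). Then θ is a surjective morphism of fusion systems from F onto E: in particular every map of F, and not only the maps whose source contains S₀, induces along θ a map of E. -/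
theorem result {Ω : Type*} [Group Ω] {S : Subgroup Ω} [Finite S] (p : ℕ) [Fact p.Prime] (hS : IsPGroup p S) (F : Cfsg.FusionSystem S) (hF : F.IsSaturated p) (S₀ : Subgroup Ω) (hS₀ : F.StronglyClosed S₀) {Ω' : Type*} [Group Ω'] {S' : Subgroup Ω'} (θ : S →* Ω') (E : Cfsg.FusionSystem S') (hE : F.IsFactorSystem S₀ θ E) : F.IsSurjectiveMorphism E θ := by
  obtain ⟨hS₀S, hker, hrange, hiff⟩ := id hE
  refine ⟨⟨fun s => ?_, fun P φ hφ => ?_⟩, hrange, fun P' hP' φ' hφ' => ((hiff P' φ').1 hφ').2⟩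
  · rw [← hrange]; exact ⟨s, rfl⟩
  · have hPS : P ≤ S := (F.le_of_mem hφ).1
    obtain ⟨f', hf', hff'⟩ := exists_extension_mod hS hF hS₀ (mor_extFun hφ)
    have hf'S₀ : ∀ x ∈ S₀, f' x ∈ S₀ := fun x hx =>
      map_mem_stronglyClosed hS₀ hf' (Subgroup.mem_sup_right hx) hx
    obtain ⟨g, hg, hgθ⟩ := factor_induced hE hf' le_sup_right hf'S₀
    have hle : imageAlong θ P ≤ imageAlong θ (P ⊔ S₀) := by
      rintro _ ⟨s, hs, rfl⟩
      exact ⟨s, Subgroup.mem_subgroupOf.2 (Subgroup.mem_sup_left (Subgroup.mem_subgroupOf.1 hs)), rfl⟩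
    obtain ⟨φ', hφ', hφ'g⟩ := hg.restrict hle
    refine ⟨φ', hφ', hPS, fun x => (F.le_of_mem hφ).2 x,
      fun x => ⟨⟨x, hPS x.2⟩, Subgroup.mem_subgroupOf.2 x.2, rfl⟩, fun x => ?_⟩
    rw [hφ'g]
    show g (θ ⟨(x : Ω), hPS x.2⟩) = θ ⟨φ x, _⟩
    rw [hgθ (x : Ω) (Subgroup.mem_sup_left x.2), theta_eq_iff S₀ θ hker]
    have h1 := hff' x x.2
    rw [extFun_apply] at h1
    have h2 := S₀.inv_mem h1
    simpa [mul_inv_rev] using h2

end Cfsg.Agent.S5134
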