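import Cfsg.Statements.S5135
import Cfsg.Agent.H87.Syl

set_option autoImplicit false
open Cfsg

namespace Cfsg.Agent.S5135

/-- Let G be a finite group, S a Sylow p-subgroup and H a normal subgroup of G. Then the fusion system of G/H on the image SH/H of S is the factor system of the fusion system of G on S modulo S ∩ H, read through the quotient map restricted to S: for each subgroup P' of SH/H, the conjugation maps by elements of G/H defined on P' with values in SH/H are exactly the homomorphisms induced by the conjugation maps by elements of G defined on the full preimage of P' in S with values in S. -/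
theorem result {G : Type*} [Group G] [Finite G] (p : ℕ) [Fact p.Prime] (S : Sylow p G) (H : Subgroup G) [H.Normal] : (Cfsg.groupFusionSystem (S : Subgroup G)).IsFactorSystem ((S : Subgroup G) ⊓ H) ((QuotientGroup.mk' H).comp (S : Subgroup G).subtype) (Cfsg.groupFusionSystem ((S : Subgroup G).map (QuotientGroup.mk' H))) := by
  open Cfsg.Agent.H87 Cfsg.FusionSystem in
  refine ⟨inf_le_left, ?_, ?_, ?_⟩
  · intro s
    show (QuotientGroup.mk' H) (s : G) = 1 ↔ _
    rw [QuotientGroup.mk'_apply, QuotientGroup.eq_one_iff]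
    exact ⟨fun h => ⟨s.2, h⟩, fun h => h.2⟩
  · rw [← MonoidHom.map_range, Subgroup.range_subtype]
  · intro P' φ'
    set θ := (QuotientGroup.mk' H).comp (S : Subgroup G).subtype with hθ
    have hmemP : ∀ x : G, x ∈ preimageAlong θ P' ↔ x ∈ (S : Subgroup G) ∧ (QuotientGroup.mk' H) x ∈ P' := by
      intro x
      constructor
      · rintro ⟨y, hy, rfl⟩
        exact ⟨y.2, hy⟩
      · rintro ⟨hx, hx'⟩
        exact ⟨⟨x, hx⟩, hx', rfl⟩
    have hPS : preimageAlong θ P' ≤ (S : Subgroup G) := fun x hx => ((hmemP x).mp hx).1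
    constructor
    · rintro ⟨hP'S, hφ'S, gbar, hgbar⟩
      refine ⟨hP'S, ?_⟩
      obtain ⟨g, rfl⟩ := QuotientGroup.mk'_surjective H gbar
      set P := preimageAlong θ P' with hPdef
      set X := P.map (MulAut.conj g).toMonoidHom with hX
      have hXp : IsPGroup p X := (S.isPGroup'.to_le hPS).map _
      have hXM : X ≤ (S : Subgroup G) ⊔ H := by
        rw [hX, map_conj_le_iff]
        intro x hx
        have hx' := (hmemP x).mp hx
        have h1 : (QuotientGroup.mk' H) (g * x * g⁻¹) ∈ (S : Subgroup G).map (QuotientGroup.mk' H) := by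
          have := hφ'S ⟨_, hx'.2⟩
          rw [hgbar] at this
          simpa using this
        have h2 : g * x * g⁻¹ ∈ ((S : Subgroup G).map (QuotientGroup.mk' H)).comap (QuotientGroup.mk' H) := h1
        rw [Subgroup.comap_map_eq, QuotientGroup.ker_mk'] at h2
        exact h2
      obtain ⟨m, hmM, hm⟩ := (Sylow.isSylIn_of_le S le_sup_left).exists_conj_le hXM hXp
      have hm' : m ∈ (((S : Subgroup G) ⊔ H : Subgroup G) : Set G) := hmM
      rw [Subgroup.mul_normal] at hm'
      obtain ⟨s, hs, h, hh, rfl⟩ := Set.mem_mul.mp hm'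
      have hconj : ∀ x ∈ P, (h * g) * x * (h * g)⁻¹ ∈ (S : Subgroup G) := by
        intro x hx
        have h1 := hm (g * x * g⁻¹) (conj_mem_map_conj hx)
        have h2 : (h * g) * x * (h * g)⁻¹ = s⁻¹ * (s * h * (g * x * g⁻¹) * (s * h)⁻¹) * s := by group
        rw [h2]
        exact (S : Subgroup G).mul_mem ((S : Subgroup G).mul_mem ((S : Subgroup G).inv_mem hs) h1) hs
      refine ⟨Cfsg.conjHom P (h * g), ⟨hPS, fun x => hconj x x.2, h * g, fun x => rfl⟩, hPS,
        fun x => hconj x x.2, fun x => ((hmemP x).mp x.2).2, ?_⟩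
      intro x
      rw [hgbar]
      show (QuotientGroup.mk' H) g * (QuotientGroup.mk' H) (x : G) * ((QuotientGroup.mk' H) g)⁻¹ =
        (QuotientGroup.mk' H) ((h * g) * x * (h * g)⁻¹)
      have hh1 : (QuotientGroup.mk' H) h = 1 := by
        rw [QuotientGroup.mk'_apply, QuotientGroup.eq_one_iff]
        exact hh
      simp only [map_mul, map_inv, hh1, one_mul]
    · rintro ⟨hP'S, φ, ⟨-, hφS, g, hg⟩, hP, hφ, hP', hind⟩
      have key : ∀ y : P', ∃ x : preimageAlong θ P', (QuotientGroup.mk' H) (x : G) = y := by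
        intro y
        obtain ⟨x, hx, hxy⟩ := hP'S y.2
        exact ⟨⟨x, (hmemP x).mpr ⟨hx, by rw [hxy]; exact y.2⟩⟩, hxy⟩
      refine ⟨hP'S, ?_, (QuotientGroup.mk' H) g, ?_⟩
      · intro y
        obtain ⟨x, hxy⟩ := key y
        have h1 := hind x
        have h2 : (⟨θ ⟨x, hP x.2⟩, hP' x⟩ : P') = y := Subtype.ext hxy
        rw [h2] at h1
        rw [h1]
        exact ⟨φ x, hφ x, rfl⟩
      · intro y
        obtain ⟨x, hxy⟩ := key y
        have h1 := hind x
        have h2 : (⟨θ ⟨x, hP x.2⟩, hP' x⟩ : P') = y := Subtype.ext hxy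
        rw [h2] at h1
        rw [h1, ← hxy]
        show (QuotientGroup.mk' H) (φ x) = _
        rw [hg]
        simp only [map_mul, map_inv]

end Cfsg.Agent.S5135
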