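import Cfsg.Statements.S5172
import Cfsg.Agent.H88.SUnM

set_option autoImplicit false
open Cfsg

namespace Cfsg.Agent.S5172

/-- For a finite field K with q² elements of characteristic p and n ≥ 4, the p-fusion system of the projective special unitary group PSU_n(q) (realised over K) on a Sylow p-subgroup is simple. -/
theorem result {K : Type*} [Field K] [Fintype K] (p q : ℕ) [Fact p.Prime] [CharP K p] (hK : Fintype.card K = q ^ 2) (n : ℕ) (hn : 4 ≤ n) (S : Sylow p (Cfsg.PSU n K q)) : (Cfsg.groupFusionSystem (S : Subgroup (Cfsg.PSU n K q))).IsSimple p := by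
  obtain ⟨φ, hφ, hinv⟩ := Cfsg.Agent.H7.exists_frob hK
  have : Cfsg.Agent.H88.Un.Invol φ := ⟨hinv⟩
  have hG := Cfsg.Agent.H88.Un.good_frob hK hφ
  obtain ⟨f, -, hf⟩ := FiniteField.card K p
  have hq : q ≠ 0 := by
    have := Cfsg.Agent.H7.two_le_of_card_sq hK
    omega
  obtain ⟨D, hD⟩ := Cfsg.Agent.H88.Un.exists_D (n := n) hG
  exact Cfsg.Agent.H88.Un.PU_simple_equiv hn hG p hf (Cfsg.Agent.H88.Un.toPSU hφ hq D hD) S


end Cfsg.Agent.S5172
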