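import Cfsg.Statements.S5212
import Cfsg.Agent.H29.MetaInner

set_option autoImplicit false
open Cfsg

namespace Cfsg.Agent.S5212

/-- Let S be a finite metacyclic 2-group that is not homocyclic abelian (a direct product of cyclic groups of one common order), not dihedral, not semidihedral and not generalized quaternion. Then every saturated fusion system over S is the inner fusion system of S. -/
theorem result {Ω : Type*} [Group Ω] {S : Subgroup Ω} [Finite S] (hS : IsPGroup 2 S) (F : Cfsg.FusionSystem S) (hF : F.IsSaturated 2) (hm : Cfsg.IsMetacyclic ↥S) (hh : ¬ ∃ n k : ℕ, Nonempty (↥S ≃* Multiplicative (Fin k → ZMod (2 ^ n)))) (hd : ¬ ∃ m : ℕ, Nonempty (↥S ≃* DihedralGroup m)) (hq : ¬ ∃ m : ℕ, Nonempty (↥S ≃* QuaternionGroup m)) (hsd : ¬ Cfsg.IsQuasiDihedral ↥S) : ∀ P : Subgroup Ω, F.Hom P = (Cfsg.innerFusionSystem S).Hom P := by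
  exact Cfsg.Agent.H29.MA.metacyclic_two_inner hS F hF hm
    (fun ⟨n, _, ⟨e⟩⟩ => hh ⟨n, 2, ⟨e.trans (Cfsg.Agent.H29.MA.prodFinTwo _)⟩⟩) hd hq hsd

end Cfsg.Agent.S5212
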