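import Cfsg.Statements.S5214
import Cfsg.Agent.S1137
import Cfsg.Agent.S1138
import Cfsg.Agent.H28.SuzRes

set_option autoImplicit false
open Cfsg

namespace Cfsg.Agent.S5214

/-- Let S be a Suzuki 2-group (a finite nonabelian 2-group with more than one involution admitting a cyclic group of automorphisms permuting its involutions regularly). Then S is normal in every saturated fusion system over S (such a group is resistant). -/
theorem result {Ω : Type*} [Group Ω] {S : Subgroup Ω} [Finite S] (hS : IsPGroup 2 S) (F : Cfsg.FusionSystem S) (hF : F.IsSaturated 2) (hsz : Cfsg.IsSuzukiTwoGroup ↥S) : F.IsNormal S := by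
  obtain ⟨h37a, h37b⟩ := Cfsg.Agent.S1137.result hsz
  obtain ⟨_, hcl, _, _⟩ := Cfsg.Agent.S1138.result hsz
  apply Cfsg.Agent.H28.SuzRes.resistant hS F hF
  · intro x hx hxx y hy
    by_cases h1 : x = 1
    · subst h1; simp
    · have h := (h37a ⟨x, hx⟩).mp ⟨fun h => h1 (congrArg Subtype.val h), Subtype.ext hxx⟩
      have hc := Subgroup.mem_center_iff.mp h.1 ⟨y, hy⟩
      exact (congrArg Subtype.val hc).symm
  · intro x hx y hy z hz
    have h := hcl (⟨x, hx⟩ : S)⁻¹ (⟨y, hy⟩ : S)⁻¹
    have hc := Subgroup.mem_center_iff.mp h ⟨z, hz⟩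
    have hc' := congrArg Subtype.val hc
    simp only [Subgroup.coe_mul, Subgroup.coe_inv, inv_inv] at hc'
    exact hc'.symm
  · intro z hz hzc
    have hzcen : (⟨z, hz⟩ : S) ∈ Subgroup.center S := by
      rw [Subgroup.mem_center_iff]
      intro g
      apply Subtype.ext
      exact (hzc g g.2).symm
    have h := h37b _ hzcen
    exact congrArg Subtype.val h

end Cfsg.Agent.S5214
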