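import Cfsg.Statements.S5222
import Cfsg.Agent.H90.Tate4
import Cfsg.Agent.H88.NormSat

set_option autoImplicit false
open Cfsg

namespace Cfsg.Agent.S5222

open Cfsg.FusionSystem Cfsg.Agent.H86 Cfsg.Agent.H90
open scoped commutatorElement

/-- Let F be a saturated fusion system over a finite p-group S whose normalizer fusion system of S is the inner fusion system of S (Aut_F(S) is a p-group). Then for every subgroup Q of S with [S, S] ≤ Q ≤ Φ(S), the normalizer fusion system of Q in F is the inner fusion system of N_S(Q) = S. -/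
theorem result {Ω : Type*} [Group Ω] {S : Subgroup Ω} [Finite S] (p : ℕ) [Fact p.Prime] (hS : IsPGroup p S) (F : Cfsg.FusionSystem S) (hF : F.IsSaturated p) (hN : ∀ N : Cfsg.FusionSystem (Cfsg.FusionSystem.normalizerIn S S), F.IsNormalizerSystem S N → ∀ P : Subgroup Ω, N.Hom P = (Cfsg.innerFusionSystem (Cfsg.FusionSystem.normalizerIn S S)).Hom P) (Q : Subgroup Ω) (h1 : (commutator ↥S).map S.subtype ≤ Q) (h2 : Q ≤ (frattini ↥S).map S.subtype) : ∀ N : Cfsg.FusionSystem (Cfsg.FusionSystem.normalizerIn S Q), F.IsNormalizerSystem Q N → ∀ P : Subgroup Ω, N.Hom P = (Cfsg.innerFusionSystem (Cfsg.FusionSystem.normalizerIn S Q)).Hom P := by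
  intro N hNQ P
  have hQS : Q ≤ S := h2.trans (Subgroup.map_le_iff_le_comap.2 (fun x _ => x.2))
  -- commutators of `S` lie in `Q`
  have hcomm : ∀ a ∈ S, ∀ b ∈ S, a⁻¹ * (b * a * b⁻¹) ∈ Q := by
    intro a ha b hb
    apply h1
    refine ⟨⁅(⟨a, ha⟩ : S)⁻¹, ⟨b, hb⟩⁆, ?_, ?_⟩
    · rw [SetLike.mem_coe, commutator_def]
      exact Subgroup.commutator_mem_commutator (Subgroup.mem_top _) (Subgroup.mem_top _)
    · rw [commutatorElement_def]
      show a⁻¹ * b * a⁻¹⁻¹ * b⁻¹ = a⁻¹ * (b * a * b⁻¹)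
      group
  -- `Q` is normalized by `S`
  have hconj : ∀ s ∈ S, ∀ q ∈ Q, s * q * s⁻¹ ∈ Q := by
    intro s hs q hq
    have h3 := Q.mul_mem hq (hcomm q (hQS hq) s hs)
    rwa [mul_inv_cancel_left] at h3
  have hS₁ : normalizerIn S Q = S := by
    apply le_antisymm inf_le_left
    intro s hs
    refine mem_normalizerIn_iff.2 ⟨hs, Subgroup.mem_normalizer_iff.2 (fun q => ⟨hconj s hs q, ?_⟩)⟩
    intro h
    have h3 := hconj s⁻¹ (S.inv_mem hs) _ h
    simpa [mul_assoc] using h3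
  have hQfn : F.IsFullyNormalized Q := by
    refine ⟨hQS, fun Q' _ => ?_⟩
    rw [hS₁]
    exact Subgroup.card_le_of_le inf_le_left
  have hNsat : N.IsSaturated p := Cfsg.Agent.H88.normalizerSystem_saturated hS hF hQfn N hNQ
  haveI hfin₁ : Finite (normalizerIn S Q) := finite_of_le (S := S) inf_le_left
  have hS₁p : IsPGroup p (normalizerIn S Q) := hS.to_le inf_le_left
  -- `Q` is strongly closed in `N`
  have hQsc : N.StronglyClosed Q := by
    refine ⟨by rw [hS₁]; exact hQS, fun R hR φ hφ x => ?_⟩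
    rw [hNQ R] at hφ
    obtain ⟨-, -, -, ψ, -, hψφ, hψQ⟩ := hφ
    have h3 : ψ (Subgroup.inclusion le_sup_left x) ∈ (Q.subgroupOf (R ⊔ Q)).map ψ :=
      ⟨_, Subgroup.mem_subgroupOf.2 (hR x.2), rfl⟩
    rw [hψQ] at h3
    rw [← hψφ x]
    exact h3
  have hΦ : ∀ S' : Subgroup Ω, S' = S → Q ≤ (frattini S').map S'.subtype := by
    rintro S' rfl
    exact h2
  have htop : ∀ f, Mor N (normalizerIn S Q) f →
      ∃ g ∈ normalizerIn S Q, ∀ x ∈ normalizerIn S Q, f x = g * x * g⁻¹ := by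
    intro f hf
    have hf' : Mor F (normalizerIn S Q) f := by
      obtain ⟨φ, hφ, hφf⟩ := hf
      rw [hNQ] at hφ
      exact ⟨φ, hφ.1, hφf⟩
    rw [hS₁] at hf' ⊢
    exact top_inner_of_normalizer_inner hN hf'
  exact hom_eq_inner_of_stronglyClosed hS₁p hNsat hQsc (hΦ _ hS₁)
    (fun a ha b hb => hcomm a (hS₁ ▸ ha) b (hS₁ ▸ hb)) htop P

end Cfsg.Agent.S5222
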