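import Cfsg.Statements.S5223
import Cfsg.Agent.S5083
import Cfsg.Agent.H89.Chain

set_option autoImplicit false
open Cfsg

namespace Cfsg.Agent.S5223

open Cfsg.Agent.H89

/-- Let F be a saturated fusion system over a finite p-group S. Suppose there are subgroups Q₀ = S, Q₁, …, Qₙ = 1 (not required to be nested) such that for each i < n the focal subgroup of Qᵢ (generated by the elements x⁻¹φ(x), x ∈ Qᵢ, φ a map of F defined on the cyclic group generated by x) lies in Qᵢ₊₁. Then F is the inner fusion system of S. -/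
theorem result {Ω : Type*} [Group Ω] {S : Subgroup Ω} [Finite S] (p : ℕ) [Fact p.Prime] (hS : IsPGroup p S) (F : Cfsg.FusionSystem S) (hF : F.IsSaturated p) (n : ℕ) (Q : Fin (n + 1) → Subgroup Ω) (hQ0 : Q 0 = S) (hQn : Q (Fin.last n) = ⊥) (hstep : ∀ i : Fin n, Subgroup.closure {y : Ω | ∃ x ∈ Q i.castSucc, ∃ φ ∈ F.Hom (Subgroup.zpowers x), y = x⁻¹ * φ ⟨x, Subgroup.mem_zpowers x⟩} ≤ Q i.succ) : ∀ P : Subgroup Ω, F.Hom P = (Cfsg.innerFusionSystem S).Hom P := by
  have key : ∀ P : Subgroup Ω, P ≤ S → IsPGroup p (F.autGroup P) := by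
    intro P hP
    have hfin : Finite P := Finite.of_injective _ (Subgroup.inclusion_injective hP)
    have hPp : IsPGroup p P := hS.to_le hP
    apply isPGroup_of_coprime_trivial
    intro β hβ m hm hβm
    have hβF : P.subtype.comp β.toMonoidHom ∈ F.Hom P := (mem_autGroup_iff F hP β).1 hβ
    -- the chain of subsets of `P`
    let A : ℕ → Set P := fun i => {u : P | ∃ h : i < n + 1, (u : Ω) ∈ Q ⟨i, h⟩}
    have hfix := fix_of_chain β m hβm (eq_one_of_pow_coprime hPp hm) A n
      (by
        rintro u ⟨h, hu⟩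
        have : (⟨n, h⟩ : Fin (n + 1)) = Fin.last n := rfl
        rw [this, hQn, Subgroup.mem_bot] at hu
        exact Subtype.ext hu)
      (by
        rintro i hi u ⟨h, hu⟩
        refine ⟨by omega, ?_⟩
        have hle : Subgroup.zpowers (u : Ω) ≤ P := by
          rw [Subgroup.zpowers_le]
          exact u.2
        have h1 := hstep ⟨i, hi⟩
        apply h1
        apply Subgroup.subset_closure
        refine ⟨(u : Ω), hu, (P.subtype.comp β.toMonoidHom).comp (Subgroup.inclusion hle),
          restrict_mem F hle hβF, ?_⟩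
        rfl)
    ext u
    have h0 : u ∈ A 0 := by
      refine ⟨Nat.succ_pos n, ?_⟩
      have : (⟨0, Nat.succ_pos n⟩ : Fin (n + 1)) = 0 := rfl
      rw [this, hQ0]
      exact hP u.2
    rw [hfix n 0 (by omega) u h0]
    rfl
  have h := Cfsg.Agent.S5083.result p hS F hF key
  intro P
  rw [h]

end Cfsg.Agent.S5223
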