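-- Statement S5226: Q normal in F iff strongly closed with a central series with weakly closed proper terms.
import Cfsg.Statements.S5226
import Cfsg.Agent.H89.Series

set_option autoImplicit false
open Cfsg

namespace Cfsg.Agent.S5226

open Cfsg.Agent.H86 Cfsg.Agent.H89

/-- Let F be a saturated fusion system over a finite p-group S and Q a subgroup of S. Then Q is normal in F (F equals the normalizer system of Q) if and only if Q is strongly closed in F and admits a central series 1 = Q₀ ≤ Q₁ ≤ ⋯ ≤ Qₙ = Q ([Qᵢ₊₁, Q] ≤ Qᵢ) all of whose proper terms are weakly closed in F. -/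
theorem result {Ω : Type*} [Group Ω] {S : Subgroup Ω} [Finite S] (p : ℕ) [Fact p.Prime] (hS : IsPGroup p S) (F : Cfsg.FusionSystem S) (hF : F.IsSaturated p) (Q : Subgroup Ω) : F.IsNormal Q ↔ F.StronglyClosed Q ∧ ∃ (n : ℕ) (C : Fin (n + 1) → Subgroup Ω), C 0 = ⊥ ∧ C (Fin.last n) = Q ∧ Monotone C ∧ (∀ i : Fin n, ⁅C i.succ, Q⁆ ≤ C i.castSucc) ∧ ∀ i : Fin n, F.WeaklyClosed (C i.castSucc) := by
  constructor
  · intro hQ
    have hQS : Q ≤ S := hQ.1
    have hfinQ : Finite Q := finite_of_le hQS
    have hnil : Group.IsNilpotent Q := (hS.to_le hQS).isNilpotent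
    refine ⟨IsNormal.stronglyClosed hQ, Group.nilpotencyClass Q,
      fun i => (Subgroup.upperCentralSeries Q i).map Q.subtype, ?_, ?_, ?_, ?_, ?_⟩
    · show (Subgroup.upperCentralSeries Q 0).map Q.subtype = ⊥
      rw [Subgroup.upperCentralSeries_zero, Subgroup.map_bot]
    · show (Subgroup.upperCentralSeries Q (Group.nilpotencyClass Q)).map Q.subtype = Q
      rw [Subgroup.upperCentralSeries_nilpotencyClass, ← MonoidHom.range_eq_map, Subgroup.range_subtype]
    · intro i j hij
      exact Subgroup.map_mono (Subgroup.upperCentralSeries_mono Q hij)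
    · intro i
      show ⁅(Subgroup.upperCentralSeries Q (i.1 + 1)).map Q.subtype, Q⁆ ≤
        (Subgroup.upperCentralSeries Q i.1).map Q.subtype
      have hQtop : Q = (⊤ : Subgroup Q).map Q.subtype := by
        rw [← MonoidHom.range_eq_map, Subgroup.range_subtype]
      have h1 : ⁅(Subgroup.upperCentralSeries Q (i.1 + 1)).map Q.subtype, Q⁆ =
          ⁅(Subgroup.upperCentralSeries Q (i.1 + 1)).map Q.subtype, (⊤ : Subgroup Q).map Q.subtype⁆ :=
        congrArg (fun X => ⁅(Subgroup.upperCentralSeries Q (i.1 + 1)).map Q.subtype, X⁆) hQtop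
      rw [h1, ← Subgroup.map_commutator]
      exact Subgroup.map_mono (Subgroup.commutator_upperCentralSeries_top_le Q i.1)
    · intro i
      show F.WeaklyClosed ((Subgroup.upperCentralSeries Q i.1).map Q.subtype)
      apply weaklyClosed_of_stronglyClosed
      apply IsNormal.stronglyClosed
      refine isNormal_of_characteristic hQ (Subgroup.map_subtype_le _) ?_
      have : ((Subgroup.upperCentralSeries Q i.1).map Q.subtype).subgroupOf Q =
          Subgroup.upperCentralSeries Q i.1 := by
        ext x
        rw [Subgroup.mem_subgroupOf]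
        constructor
        · rintro ⟨y, hy, hyx⟩
          have : y = x := Subtype.ext hyx
          rwa [← this]
        · intro hx
          exact ⟨x, hx, rfl⟩
      rw [this]
      infer_instance
  · rintro ⟨hsc, n, C, h0, hlast, hmono, hcomm, hwc⟩
    rw [isNormal_iff_stronglyClosed hS hF]
    refine ⟨hsc, fun P hPc hPr => ?_⟩
    let D : ℕ → Subgroup Ω := fun j => C ⟨min j n, Nat.lt_succ_of_le (min_le_right _ _)⟩
    have hDeq : ∀ (j : ℕ) (x : Fin (n + 1)), min j n = x.1 → D j = C x := by
      intro j x hx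
      show C ⟨min j n, _⟩ = C x
      exact congrArg C (Fin.ext hx)
    have hD0 : D 0 = ⊥ := (hDeq 0 0 (Nat.zero_min n)).trans h0
    have hDn : D n = Q := (hDeq n (Fin.last n) (min_self n)).trans hlast
    have hDsucc : ∀ i (hi : i < n), D (i + 1) = C (Fin.succ ⟨i, hi⟩) := by
      intro i hi
      exact hDeq (i + 1) _ (min_eq_left (by omega))
    have hDcast : ∀ i (hi : i < n), D i = C (Fin.castSucc ⟨i, hi⟩) := by
      intro i hi
      exact hDeq i _ (min_eq_left (by omega))
    refine le_centric_radical_of_series hS hsc D n hD0 hDn ?_ ?_ ?_ hPc hPr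
    · intro i hi
      apply hmono
      show min i n ≤ min (i + 1) n
      exact min_le_min_right n (Nat.le_succ i)
    · intro i hi
      rw [hDsucc i hi, hDcast i hi]
      exact hcomm ⟨i, hi⟩
    · intro i hi
      rw [hDcast i hi]
      exact hwc ⟨i, hi⟩

end Cfsg.Agent.S5226
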