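-- Statement S5236: p odd, P strongly closed: P normal iff Ω₁(P) has a strongly closed P-central chain.
import Cfsg.Statements.S5236
import Cfsg.Agent.H89.OmegaSeries

set_option autoImplicit false
open Cfsg

namespace Cfsg.Agent.S5236

open Cfsg.Agent.H86 Cfsg.Agent.H89
open scoped commutatorElement

/-- Automorphisms of `P` preserve `Ω₁(P)`. -/
theorem omegaOne_aut_mem {Ω : Type*} [Group Ω] (p : ℕ) (P : Subgroup Ω) (φ : P ≃* P) (x : P)
    (hx : (x : Ω) ∈ Cfsg.omegaOne p P) : ((φ x : P) : Ω) ∈ Cfsg.omegaOne p P := by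
  let K : Subgroup P := Subgroup.closure {y : P | y ^ p = 1}
  have hK : Cfsg.omegaOne p P = K.map P.subtype := by
    unfold Cfsg.omegaOne
    rw [MonoidHom.map_closure]
    congr 1
    ext z
    constructor
    · rintro ⟨hzP, hzp⟩
      exact ⟨⟨z, hzP⟩, Subtype.ext hzp, rfl⟩
    · rintro ⟨y, hy, rfl⟩
      refine ⟨y.2, ?_⟩
      have := congrArg Subtype.val (show y ^ p = 1 from hy)
      simpa using this
  have hKφ : ∀ y ∈ K, φ y ∈ K := by
    intro y hy
    induction hy using Subgroup.closure_induction with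
    | mem u hu =>
      apply Subgroup.subset_closure
      show (φ u) ^ p = 1
      rw [← map_pow, show u ^ p = 1 from hu, map_one]
    | one => rw [map_one]; exact Subgroup.one_mem _
    | mul a b _ _ iha ihb => rw [map_mul]; exact Subgroup.mul_mem _ iha ihb
    | inv a _ iha => rw [map_inv]; exact Subgroup.inv_mem _ iha
  rw [hK] at hx ⊢
  obtain ⟨y, hy, hyx⟩ := hx
  have : y = x := Subtype.ext hyx
  subst this
  exact ⟨φ y, hKφ y hy, rfl⟩

/-- Let p be an odd prime, F a saturated fusion system over a finite p-group S and P a subgroup of S strongly closed in F. Then P is normal in F if and only if Ω₁(P) (the subgroup generated by the elements of order p of P) has a chain of subgroups 1 = Q₀ ≤ Q₁ ≤ ⋯ ≤ Qₙ = Ω₁(P), each strongly closed in F, with [Qᵢ₊₁, P] ≤ Qᵢ for all i. -/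
theorem result {Ω : Type*} [Group Ω] {S : Subgroup Ω} [Finite S] (p : ℕ) [Fact p.Prime] (hS : IsPGroup p S) (F : Cfsg.FusionSystem S) (hF : F.IsSaturated p) (hp : p ≠ 2) (P : Subgroup Ω) (hP : F.StronglyClosed P) : F.IsNormal P ↔ ∃ (n : ℕ) (Q : Fin (n + 1) → Subgroup Ω), Q 0 = ⊥ ∧ Q (Fin.last n) = Cfsg.omegaOne p P ∧ Monotone Q ∧ (∀ i : Fin (n + 1), F.StronglyClosed (Q i)) ∧ ∀ i : Fin n, ⁅Q i.succ, P⁆ ≤ Q i.castSucc := by
  have hPS : P ≤ S := hP.1
  have hfinP : Finite P := finite_of_le hPS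
  have hΩP : Cfsg.omegaOne p P ≤ P := by
    unfold Cfsg.omegaOne
    rw [Subgroup.closure_le]
    exact fun x hx => hx.1
  constructor
  · intro hN
    have hnil : Group.IsNilpotent P := (hS.to_le hPS).isNilpotent
    refine ⟨Group.nilpotencyClass P,
      fun i => Cfsg.omegaOne p P ⊓ (Subgroup.upperCentralSeries P i).map P.subtype, ?_, ?_, ?_, ?_, ?_⟩
    · show Cfsg.omegaOne p P ⊓ (Subgroup.upperCentralSeries P 0).map P.subtype = ⊥
      rw [Subgroup.upperCentralSeries_zero, Subgroup.map_bot, inf_bot_eq]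
    · show Cfsg.omegaOne p P ⊓ (Subgroup.upperCentralSeries P (Group.nilpotencyClass P)).map P.subtype =
        Cfsg.omegaOne p P
      rw [Subgroup.upperCentralSeries_nilpotencyClass, ← MonoidHom.range_eq_map, Subgroup.range_subtype]
      exact inf_eq_left.2 hΩP
    · intro i j hij
      exact inf_le_inf_left _ (Subgroup.map_mono (Subgroup.upperCentralSeries_mono P hij))
    · intro i
      show F.StronglyClosed (Cfsg.omegaOne p P ⊓ (Subgroup.upperCentralSeries P i.1).map P.subtype)
      apply IsNormal.stronglyClosed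
      refine isNormal_of_characteristic hN (inf_le_left.trans hΩP) ?_
      rw [Subgroup.characteristic_iff_le_comap]
      intro φ x hx
      rw [Subgroup.mem_subgroupOf] at hx
      rw [Subgroup.mem_comap, Subgroup.mem_subgroupOf]
      obtain ⟨hx1, y, hy, hyx⟩ := hx
      have hyx' : y = x := Subtype.ext hyx
      subst hyx'
      refine ⟨omegaOne_aut_mem p P φ y hx1, φ y, ?_, rfl⟩
      exact Subgroup.characteristic_iff_le_comap.1 inferInstance φ hy
    · intro i
      show ⁅Cfsg.omegaOne p P ⊓ (Subgroup.upperCentralSeries P (i.1 + 1)).map P.subtype, P⁆ ≤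
        Cfsg.omegaOne p P ⊓ (Subgroup.upperCentralSeries P i.1).map P.subtype
      rw [Subgroup.commutator_le]
      rintro a ⟨ha1, a', ha', rfl⟩ b hb
      refine ⟨?_, ⁅a', ⟨b, hb⟩⁆, Subgroup.mem_upperCentralSeries_succ_iff.1 ha' ⟨b, hb⟩, ?_⟩
      · have h1 : ((MulAut.conj (⟨b, hb⟩ : P) a'⁻¹ : P) : Ω) ∈ Cfsg.omegaOne p P :=
          omegaOne_aut_mem p P (MulAut.conj (⟨b, hb⟩ : P)) a'⁻¹ (by
            rw [Subgroup.coe_inv]; exact Subgroup.inv_mem _ ha1)
        have h2 : ((MulAut.conj (⟨b, hb⟩ : P) a'⁻¹ : P) : Ω) = b * (a' : Ω)⁻¹ * b⁻¹ := by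
          simp [MulAut.conj_apply]
        rw [h2] at h1
        have h3 := Subgroup.mul_mem _ ha1 h1
        have h4 : ⁅(a' : Ω), b⁆ = (a' : Ω) * (b * (a' : Ω)⁻¹ * b⁻¹) := by
          rw [commutatorElement_def]; group
        show ⁅(a' : Ω), b⁆ ∈ Cfsg.omegaOne p P
        rw [h4]
        exact h3
      · simp [commutatorElement_def]
  · rintro ⟨n, Q, h0, hlast, hmono, hsc, hcomm⟩
    rw [isNormal_iff_stronglyClosed hS hF]
    refine ⟨hP, fun U hUc hUr => ?_⟩
    let D : ℕ → Subgroup Ω := fun j => Q ⟨min j n, Nat.lt_succ_of_le (min_le_right _ _)⟩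
    have hDeq : ∀ (j : ℕ) (x : Fin (n + 1)), min j n = x.1 → D j = Q x := by
      intro j x hx
      show Q ⟨min j n, _⟩ = Q x
      exact congrArg Q (Fin.ext hx)
    have hD0 : D 0 = ⊥ := (hDeq 0 0 (Nat.zero_min n)).trans h0
    have hDn : D n = Cfsg.omegaOne p P := (hDeq n (Fin.last n) (min_self n)).trans hlast
    have hDsucc : ∀ i (hi : i < n), D (i + 1) = Q (Fin.succ ⟨i, hi⟩) := by
      intro i hi
      exact hDeq (i + 1) _ (min_eq_left (by omega))
    have hDcast : ∀ i (hi : i < n), D i = Q (Fin.castSucc ⟨i, hi⟩) := by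
      intro i hi
      exact hDeq i _ (min_eq_left (by omega))
    refine le_centric_radical_of_omega_series hp hS hP D n hD0 hDn ?_ ?_ ?_ hUc hUr
    · intro i hi
      apply hmono
      show min i n ≤ min (i + 1) n
      exact min_le_min_right n (Nat.le_succ i)
    · intro i _
      exact hsc _
    · intro i hi
      rw [hDsucc i hi, hDcast i hi]
      exact hcomm ⟨i, hi⟩

end Cfsg.Agent.S5236
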