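import Cfsg.Statements.S5244
import Cfsg.Agent.H89.OliverSL2

set_option autoImplicit false
open Cfsg

namespace Cfsg.Agent.S5244

open Cfsg.FusionSystem Cfsg.Agent.H86 Cfsg.Agent.H89 in
open scoped commutatorElement in
/-- Let p be an odd prime, S a finite nonabelian p-group with a unique abelian subgroup A of index p, and F a saturated fusion system over S with no nontrivial normal subgroup (O_p(F) = 1) in which A is not F-essential. Then some subgroup Z(S)⟨x⟩ with x ∈ S outside A is F-essential, the centre Z(S) is contained in the commutator subgroup of S, and S has maximal nilpotency class (if S has order pⁿ with n ≥ 3, the term of index n − 2 of its lower central series, counting S itself as the term of index 0, is nontrivial). -/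
theorem result {Ω : Type*} [Group Ω] {S : Subgroup Ω} [Finite S] (p : ℕ) [Fact p.Prime] (hS : IsPGroup p S) (F : Cfsg.FusionSystem S) (hF : F.IsSaturated p) (hp : p ≠ 2) (hna : ¬ IsMulCommutative ↥S) (A : Subgroup Ω) (hA : A ≤ S ∧ IsMulCommutative ↥A ∧ (A.subgroupOf S).index = p) (huniq : ∀ B : Subgroup Ω, B ≤ S → IsMulCommutative ↥B → (B.subgroupOf S).index = p → B = A) (hcore : F.core = ⊥) (hAe : ¬ F.IsEssential p A) : (∃ x ∈ S, x ∉ A ∧ F.IsEssential p ((S ⊓ Subgroup.centralizer (S : Set Ω)) ⊔ Subgroup.zpowers x)) ∧ (S ⊓ Subgroup.centralizer (S : Set Ω)) ≤ (commutator ↥S).map S.subtype ∧ ∀ n : ℕ, Nat.card S = p ^ n → 3 ≤ n → Subgroup.lowerCentralSeries S (n - 2) ≠ ⊥ := by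
  have h := AbIdx.of_index hS hA
  have hna' := exists_noncomm_of_not_comm hna
  rw [commutator_map_subtype]
  obtain ⟨hH, hZle, hcard⟩ := oliver_core_free hp hS hF h hna' huniq hcore hAe
  refine ⟨hH, hZle, ?_⟩
  intro n hn hn3 hbot
  obtain ⟨x, hxS, hxA, -⟩ := hH
  have hZeq : (S ⊓ Subgroup.centralizer (S : Set Ω)) ⊓ ⁅S, S⁆ =
      S ⊓ Subgroup.centralizer (S : Set Ω) := inf_eq_left.2 hZle
  have hcardZ : Nat.card ↥(S ⊓ Subgroup.centralizer (S : Set Ω)) = p := by
    rw [← hcard, hZeq]
  have hidx : ((S ⊓ Subgroup.centralizer (S : Set Ω)).subgroupOf S).index = p ^ (n - 1) := by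
    have h1 := Subgroup.card_mul_index ((S ⊓ Subgroup.centralizer (S : Set Ω)).subgroupOf S)
    have h2 : Nat.card ((S ⊓ Subgroup.centralizer (S : Set Ω)).subgroupOf S) = p := by
      rw [← hcardZ]
      exact Nat.card_congr (Subgroup.subgroupOfEquivOfLe inf_le_left).toEquiv
    rw [h2, hn] at h1
    have h3 : p ^ n = p * p ^ (n - 1) := by
      rw [← pow_succ']
      congr 1
      omega
    rw [h3] at h1
    exact Nat.eq_of_mul_eq_mul_left (Fact.out : p.Prime).pos h1
  have hle : Subgroup.lowerCentralSeries S (n - 3) ≤ S ⊓ Subgroup.centralizer (S : Set Ω) := by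
    intro g hg
    rw [mem_center_inf_iff]
    refine ⟨Subgroup.lowerCentralSeries_le_self S _ hg, fun s hs => ?_⟩
    have h1 : ⁅g, s⁆ ∈ Subgroup.lowerCentralSeries S (n - 3 + 1) :=
      Subgroup.commutator_mem_commutator hg hs
    have h2 : n - 3 + 1 = n - 2 := by omega
    rw [h2, hbot, Subgroup.mem_bot, commutatorElement_eq_one_iff_mul_comm] at h1
    exact h1.symm
  by_cases hn4 : 4 ≤ n
  · have hmc := h.maxclass hna' hA.2.2 hxS hxA hcard (n - 1) hidx (by omega)
    apply hmc
    have h2 : n - 1 - 2 = n - 3 := by omega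
    rw [h2]
    exact hle
  · have hn' : n = 3 := by omega
    subst hn'
    obtain ⟨g, hg, k, hk, hgk⟩ := hna'
    apply hgk
    have h1 := hle (show g ∈ Subgroup.lowerCentralSeries S (3 - 3) from hg)
    exact ((mem_center_inf_iff.1 h1).2 k hk).symm

end Cfsg.Agent.S5244
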