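-- Statement S5245: extremely sparse fusion systems are split by an automorphism of prime order.
import Cfsg.Statements.S5245
import Cfsg.Agent.S5083
import Cfsg.Agent.H89.Sparse

set_option autoImplicit false
set_option maxHeartbeats 1000000
open Cfsg

namespace Cfsg.Agent.S5245

open Cfsg.Agent.H86 Cfsg.Agent.H89 Cfsg.FusionSystem

/-- Let F be an extremely sparse fusion system over a finite p-group S (saturated, not the inner system, and every saturated fusion system over any subgroup T of S contained in F is F itself or the inner system of T). Then S is normal in F, the focal and hyperfocal subgroups of F are both S, and Aut_F(S) is generated by the inner automorphisms of S together with a single automorphism of prime order q ≠ p (F is the fusion system of the semidirect product of S by a cyclic group of prime order). -/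
theorem result {Ω : Type*} [Group Ω] {S : Subgroup Ω} [Finite S] (p : ℕ) [Fact p.Prime] (hS : IsPGroup p S) (F : Cfsg.FusionSystem S) (hF : F.IsSaturated p) (hxs : ¬ (∀ P : Subgroup Ω, F.Hom P = (Cfsg.innerFusionSystem S).Hom P) ∧ ∀ (T : Subgroup Ω) (E : Cfsg.FusionSystem T), E.IsSaturated p → E.IsSubsystemOf F → (T = S ∧ ∀ P : Subgroup Ω, E.Hom P = F.Hom P) ∨ (∀ P : Subgroup Ω, E.Hom P = (Cfsg.innerFusionSystem T).Hom P)) : F.IsNormal S ∧ F.focalSubgroup = S ∧ F.hyperfocalSubgroup p = S ∧ ∃ (q : ℕ) (β : MulAut ↥S), q.Prime ∧ q ≠ p ∧ β ∈ F.autGroup S ∧ orderOf β = q ∧ (F.autGroup S : Subgroup (MulAut ↥S)) = Cfsg.Inn ↥S ⊔ Subgroup.zpowers β := by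
  have hp : p.Prime := Fact.out
  obtain ⟨hni, hxs⟩ := hxs
  -- some automorphism group is not a `p`-group
  have h1 : ∃ P : Subgroup Ω, P ≤ S ∧ ¬ IsPGroup p (F.autGroup P) := by
    by_contra hcon
    push Not at hcon
    have := Cfsg.Agent.S5083.result p hS F hF hcon
    exact hni (fun P => by rw [this])
  obtain ⟨P, hP, hPA⟩ := h1
  have hPfin : Finite P := finite_of_le hP
  have h2 : ∃ q : ℕ, q.Prime ∧ q ≠ p ∧ q ∣ Nat.card (F.autGroup P) := by
    by_contra hcon
    push Not at hcon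
    apply hPA
    have h3 : Nat.card (F.autGroup P) = p ^ (Nat.card (F.autGroup P)).primeFactorsList.length :=
      Nat.eq_prime_pow_of_unique_prime_dvd Nat.card_pos.ne' (fun {d} hd hdvd => by
        by_contra hne
        exact hcon d hd hne hdvd)
    exact IsPGroup.of_card h3
  obtain ⟨q, hq, hqp, hqdvd⟩ := h2
  have hqF : Fact q.Prime := ⟨hq⟩
  obtain ⟨γ₀, hγ₀⟩ := exists_prime_orderOf_dvd_card' (G := F.autGroup P) q hqdvd
  have hγ₀' : orderOf (γ₀ : MulAut P) = q := by rw [Subgroup.orderOf_coe, hγ₀]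
  obtain ⟨hPS, hHom⟩ := sparse_key hS F hxs hP hq hqp (γ₀ : MulAut P) γ₀.2 hγ₀'
  subst hPS
  obtain ⟨γ, hγdef⟩ : ∃ γ : MulAut P, γ = (γ₀ : MulAut P) := ⟨_, rfl⟩
  rw [← hγdef] at hHom hγ₀'
  have hγA : γ ∈ F.autGroup P := hγdef ▸ γ₀.2
  have hMorIff : ∀ (Q : Subgroup Ω) (f : Ω → Ω),
      Mor F Q f ↔ Mor (autSys P (Inn P ⊔ Subgroup.zpowers γ) le_sup_left) Q f := by
    intro Q f
    unfold Mor
    rw [hHom Q]
  have hcopq : Nat.Coprime q p := (Nat.coprime_primes hq hp).2 hqp
  have hγq : γ ^ q = 1 := by rw [← hγ₀', pow_orderOf_eq_one]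
  have hγ1 : γ ≠ 1 := by
    intro h
    rw [h, orderOf_one] at hγ₀'
    exact hq.one_lt.ne hγ₀'
  refine ⟨?_, ?_, ?_, q, γ, hq, hqp, hγA, hγ₀', ?_⟩
  · -- `S` is normal in `F`
    refine Cfsg.Agent.H90.isNormal_of_extends_aut hS hF le_rfl (fun Q hQ f hf => ?_)
    obtain ⟨-, α, hα, hfα⟩ := mor_autSys_iff.1 ((hMorIff Q f).1 hf)
    have hg : Mor F P (autFun P α) := (hMorIff P _).2 (mor_autSys_autFun le_rfl hα)
    exact ⟨autFun P α, hg, imgS_autFun hg, fun x hx => (hfα x hx).symm⟩
  · -- the focal subgroup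
    refine sparse_sub hS F hxs hq hqp γ hγA hγ₀' (focal_le_top F) (fun x hx => ?_) (fun hfix => ?_)
    · exact Subgroup.mem_subgroupOf.1
        (Cfsg.Agent.H90.aut_mem_focal le_rfl hγA (Subgroup.mem_subgroupOf.2 hx))
    · exact Cfsg.Agent.H90.aut_eq_one_of_fix_focal hS le_rfl hγA hcopq hγq
        (fun x hx => hfix x (Subgroup.mem_subgroupOf.1 hx))
  · -- the hyperfocal subgroup
    refine sparse_sub hS F hxs hq hqp γ hγA hγ₀' (Cfsg.Agent.H87.hyperfocal_le F p)
      (fun x hx => ?_) (fun hfix => ?_)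
    · exact Subgroup.mem_subgroupOf.1
        (Cfsg.Agent.H90.aut_mem_hyperfocal hS hF le_rfl hγA (Subgroup.mem_subgroupOf.2 hx))
    · exact Cfsg.Agent.H90.aut_eq_one_of_fix_hyperfocal hS le_rfl hγA hcopq hγq
        (fun x hx => hfix x (Subgroup.mem_subgroupOf.1 hx))
  · -- the automorphism group of `S`
    ext α
    rw [Cfsg.Agent.H86.mem_autGroup_iff le_rfl, hMorIff, mor_autSys_iff]
    constructor
    · rintro ⟨-, β, hβ, h⟩
      have : α = β := autFun_ext h
      rw [this]
      exact hβ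
    · intro hα
      exact ⟨le_rfl, α, hα, fun _ _ => rfl⟩

end Cfsg.Agent.S5245
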