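import Cfsg.Statements.S5249
import Cfsg.Agent.H29.QdCtl

set_option autoImplicit false
set_option linter.unusedVariables false
open Cfsg

namespace Cfsg.Agent.S5249

theorem mem_normalizer_of_conj_mem' {X : Type*} [Group X] [Finite X] (H : Subgroup X) (n : X)
    (h : ∀ x ∈ H, n * x * n⁻¹ ∈ H) : n ∈ Subgroup.normalizer (H : Set X) := by
  rw [Subgroup.mem_normalizer_iff_map_conj_eq]
  have hle : H.map (MulAut.conj n : X →* X) ≤ H := by
    rintro y ⟨x, hx, rfl⟩
    exact h x hx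
  apply Subgroup.eq_of_le_of_card_ge hle
  rw [Subgroup.card_map_of_injective (MulAut.conj n).injective]

set_option maxHeartbeats 1600000 in
/-- Let p be an odd prime, G a finite group in which Qd(p) (the natural semidirect product of an elementary abelian group of order p² by SL₂(p)) is not involved, and P a Sylow p-subgroup of G. Then the fusion system of G on P is a solvable fusion system. -/
theorem result {G : Type*} [Group G] [Finite G] {p : ℕ} [Fact p.Prime] (hp : p ≠ 2) (hqd : ¬ Cfsg.Involves ↥(Cfsg.qd p) G) (P : Sylow p G) : (Cfsg.groupFusionSystem (P : Subgroup G)).IsSolvableSystem := by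
  classical
  intro R hsc hRne hRn E hfac
  obtain ⟨hRP, hclosed⟩ := hsc
  have hnorm : (P : Subgroup G) ≤ Subgroup.normalizer (R : Set G) :=
    (Subgroup.normal_subgroupOf_iff_le_normalizer hRP).mp hRn
  obtain ⟨W, hRW, hWP, hWR, hctl⟩ := Cfsg.Agent.H29.ZC.rel_ctl hp hqd P R hRP hRne hnorm
  obtain ⟨-, hker, -, hE⟩ := hfac
  set θ : ↥(P : Subgroup G) →* ↥(P : Subgroup G) ⧸ R.subgroupOf (P : Subgroup G) :=
    QuotientGroup.mk' (R.subgroupOf (P : Subgroup G)) with hθ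
  have hθs : Function.Surjective θ := QuotientGroup.mk'_surjective _
  have hθeq : ∀ a b : ↥(P : Subgroup G), θ a = θ b ↔ (a : G)⁻¹ * (b : G) ∈ R := by
    intro a b
    rw [hθ, QuotientGroup.mk'_apply, QuotientGroup.mk'_apply, QuotientGroup.eq]
    exact Subgroup.mem_subgroupOf
  set Wb : Subgroup (↥(P : Subgroup G) ⧸ R.subgroupOf (P : Subgroup G)) :=
    (W.subgroupOf (P : Subgroup G)).map θ with hWb
  have hWbmem : ∀ s : ↥(P : Subgroup G), θ s ∈ Wb ↔ (s : G) ∈ W := by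
    intro s
    constructor
    · rintro ⟨w, hw, he⟩
      have h1 : (w : G)⁻¹ * (s : G) ∈ R := (hθeq w s).mp he
      have h2 : (s : G) = (w : G) * ((w : G)⁻¹ * (s : G)) := by group
      rw [h2]
      exact W.mul_mem (Subgroup.mem_subgroupOf.mp hw) (hRW h1)
    · intro hs
      exact ⟨s, Subgroup.mem_subgroupOf.mpr hs, rfl⟩
  have hWbne : Wb ≠ ⊥ := by
    intro hbot
    apply hWR
    apply le_antisymm _ hRW
    intro w hw
    have h1 : θ ⟨w, hWP hw⟩ ∈ Wb := (hWbmem _).mpr hw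
    rw [hbot, Subgroup.mem_bot] at h1
    exact (hker _).mp h1
  have hnormal : E.IsNormal Wb := by
    refine ⟨le_top, ?_⟩
    intro P' φ' hφ'
    obtain ⟨-, φ, ⟨hAP, hφP, g, hg⟩, hP1, hφ1, hP'1, hcomm⟩ := (hE P' φ').mp hφ'
    -- membership in the preimage
    have hAmem : ∀ s : ↥(P : Subgroup G), θ s ∈ P' →
        (s : G) ∈ Cfsg.FusionSystem.preimageAlong θ P' := fun s hs => ⟨s, hs, rfl⟩
    have hRA : R ≤ Cfsg.FusionSystem.preimageAlong θ P' := by
      intro r hr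
      refine ⟨⟨r, hRP hr⟩, ?_, rfl⟩
      show θ ⟨r, hRP hr⟩ ∈ P'
      rw [(hker _).mpr hr]
      exact Subgroup.one_mem _
    -- `g` normalizes `R`
    have hgN : g ∈ Subgroup.normalizer (R : Set G) := by
      apply mem_normalizer_of_conj_mem'
      intro r hr
      have h1 : conjHom R g ∈ (Cfsg.groupFusionSystem (P : Subgroup G)).Hom R := by
        refine ⟨hRP, fun x => ?_, g, fun x => rfl⟩
        show g * (x : G) * g⁻¹ ∈ (P : Subgroup G)
        have h2 := hφP ⟨x, hRA x.2⟩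
        rw [hg] at h2
        exact h2
      exact hclosed R le_rfl _ h1 ⟨r, hr⟩
    obtain ⟨x, hxR, hxW, hxa⟩ := hctl g hgN
      (Cfsg.FusionSystem.preimageAlong θ P' : Set G) hAP
      (by
        rintro _ ⟨a, ha, rfl⟩
        have h2 := hφP ⟨a, ha⟩
        rw [hg] at h2
        exact h2)
    -- conjugation by `x` keeps the preimage of `P' ⊔ Wb` inside `P`
    have hBP : ∀ b : ↥(P : Subgroup G), θ b ∈ P' ⊔ Wb →
        x * (b : G) * x⁻¹ ∈ (P : Subgroup G) := by
      intro b hb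
      have h1 : (P' ⊔ Wb).comap θ ≤
          (P : Subgroup G).comap ((MulAut.conj x).toMonoidHom.comp (P : Subgroup G).subtype) := by
        rw [← Subgroup.comap_sup_eq θ P' Wb hθs]
        apply sup_le
        · intro s hs
          have hsA := hAmem s hs
          have h3 := hxa _ hsA
          have h4 := hφP ⟨s, hsA⟩
          rw [hg] at h4
          have h5 : x * (s : G) * x⁻¹ =
              (g * (s : G) * g⁻¹) * ((x * (s : G) * x⁻¹)⁻¹ * (g * (s : G) * g⁻¹))⁻¹ := by group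
          show x * (s : G) * x⁻¹ ∈ (P : Subgroup G)
          rw [h5]
          exact Subgroup.mul_mem _ h4 (Subgroup.inv_mem _ (hRP h3))
        · intro s hs
          have hsW : (s : G) ∈ W := (hWbmem s).mp hs
          show x * (s : G) * x⁻¹ ∈ (P : Subgroup G)
          exact hWP ((Subgroup.mem_normalizer_iff.mp hxW _).mp hsW)
      exact h1 hb
    let κ : ↥((P' ⊔ Wb).comap θ) →* ↥(P : Subgroup G) ⧸ R.subgroupOf (P : Subgroup G) :=
      θ.comp (((MulAut.conj x).toMonoidHom.comp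
        ((P : Subgroup G).subtype.comp ((P' ⊔ Wb).comap θ).subtype)).codRestrict (P : Subgroup G)
        (fun b => hBP b.1 b.2))
    have hκ : ∀ (b : ↥(P : Subgroup G)) (hb : θ b ∈ P' ⊔ Wb),
        κ ⟨b, hb⟩ = θ ⟨x * (b : G) * x⁻¹, hBP b hb⟩ := fun b hb => rfl
    let θB : ↥((P' ⊔ Wb).comap θ) →* ↥(P' ⊔ Wb) := θ.subgroupComap (P' ⊔ Wb)
    have hθBs : Function.Surjective θB := θ.subgroupComap_surjective_of_surjective _ hθs
    have hker' : θB.ker ≤ κ.ker := by
      intro b hb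
      rw [MonoidHom.mem_ker] at hb ⊢
      have h1 : θ b.1 = 1 := congrArg Subtype.val hb
      have h2 : (b.1 : G) ∈ R := (hker _).mp h1
      have h3 : x * (b.1 : G) * x⁻¹ ∈ R := (Subgroup.mem_normalizer_iff.mp hxR _).mp h2
      show θ ⟨x * (b.1 : G) * x⁻¹, hBP b.1 b.2⟩ = 1
      exact (hker _).mpr h3
    let ψ : ↥(P' ⊔ Wb) →* ↥(P : Subgroup G) ⧸ R.subgroupOf (P : Subgroup G) :=
      θB.liftOfSurjective hθBs ⟨κ, hker'⟩
    have hψ : ∀ b : ↥((P' ⊔ Wb).comap θ), ψ (θB b) = κ b := fun b =>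
      MonoidHom.liftOfRightInverse_comp_apply _ _ _ ⟨κ, hker'⟩ b
    have hBle : Cfsg.FusionSystem.preimageAlong θ (P' ⊔ Wb) ≤ (P : Subgroup G) := by
      rintro _ ⟨s, hs, rfl⟩
      exact s.2
    have hBval : ∀ b : ↥(Cfsg.FusionSystem.preimageAlong θ (P' ⊔ Wb)),
        conjHom (Cfsg.FusionSystem.preimageAlong θ (P' ⊔ Wb)) x b ∈ (P : Subgroup G) := by
      intro b
      obtain ⟨s, hs, hsb⟩ := b.2
      show x * (b : G) * x⁻¹ ∈ (P : Subgroup G)
      rw [← hsb]
      exact hBP s hs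
    have hB' : ∀ b : ↥(Cfsg.FusionSystem.preimageAlong θ (P' ⊔ Wb)),
        θ ⟨b, hBle b.2⟩ ∈ P' ⊔ Wb := by
      intro b
      obtain ⟨s, hs, hsb⟩ := b.2
      have h1 : (⟨b, hBle b.2⟩ : ↥(P : Subgroup G)) = s := Subtype.ext hsb.symm
      rw [h1]
      exact hs
    have hψmem : ψ ∈ E.Hom (P' ⊔ Wb) := by
      refine (hE _ ψ).mpr ⟨le_top, conjHom (Cfsg.FusionSystem.preimageAlong θ (P' ⊔ Wb)) x,
        ⟨hBle, hBval, x, fun _ => rfl⟩, hBle, hBval, hB', ?_⟩
      intro b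
      exact hψ ⟨⟨b, hBle b.2⟩, hB' b⟩
    refine ⟨ψ, hψmem, ?_, ?_⟩
    · intro y
      obtain ⟨s, hs⟩ := hθs y.1
      have hsP' : θ s ∈ P' := by rw [hs]; exact y.2
      have hsA := hAmem s hsP'
      have h1 := hcomm ⟨s, hsA⟩
      have h2 : (⟨θ ⟨(s : G), hP1 hsA⟩, hP'1 ⟨s, hsA⟩⟩ : ↥P') = y := Subtype.ext hs
      rw [h2] at h1
      rw [h1]
      have hsB : θ s ∈ P' ⊔ Wb := (le_sup_left : P' ≤ P' ⊔ Wb) hsP'
      have h3 : Subgroup.inclusion (le_sup_left : P' ≤ P' ⊔ Wb) y = θB ⟨s, hsB⟩ :=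
        Subtype.ext hs.symm
      rw [h3, hψ, hκ, hθeq]
      show (x * (s : G) * x⁻¹)⁻¹ * (φ ⟨s, hsA⟩ : G) ∈ R
      rw [hg]
      exact hxa _ hsA
    · have hle : (Wb.subgroupOf (P' ⊔ Wb)).map ψ ≤ Wb := by
        rintro _ ⟨y, hy, rfl⟩
        obtain ⟨b, rfl⟩ := hθBs y
        rw [hψ]
        have h1 : θ b.1 ∈ Wb := Subgroup.mem_subgroupOf.mp hy
        have h2 : (b.1 : G) ∈ W := (hWbmem _).mp h1
        have h3 : x * (b.1 : G) * x⁻¹ ∈ W := (Subgroup.mem_normalizer_iff.mp hxW _).mp h2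
        show θ ⟨x * (b.1 : G) * x⁻¹, hBP b.1 b.2⟩ ∈ Wb
        exact (hWbmem _).mpr h3
      apply Subgroup.eq_of_le_of_card_ge hle
      rw [Subgroup.card_map_of_injective (E.injective_of_mem hψmem)]
      exact le_of_eq (Nat.card_congr
        (Subgroup.subgroupOfEquivOfLe (le_sup_right : Wb ≤ P' ⊔ Wb)).toEquiv).symm
  intro hcore
  apply hWbne
  rw [eq_bot_iff, ← hcore]
  exact le_sSup hnormal

end Cfsg.Agent.S5249
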