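-- Statement S5251: F-centric P with P ∩ T not E-centric is not radical (up to conjugacy).
import Cfsg.Statements.S5251
import Cfsg.Agent.H89.NotCentric

set_option autoImplicit false
open Cfsg

namespace Cfsg.Agent.S5251

open Cfsg.Agent.H86 Cfsg.Agent.H89

/-- Let F be a saturated fusion system over a finite p-group S, E a normal subsystem of F over T, and P an F-centric subgroup of S such that P ∩ T is not E-centric. Then some F-conjugate P* of P satisfies Out_S(P*) ∩ O_p(Out_F(P*)) ≠ 1: there is an element of N_S(P*) outside P* whose conjugation action on P* lies in O_p(Aut_F(P*)). In particular P is not both centric and radical in F. -/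
theorem result {Ω : Type*} [Group Ω] {S : Subgroup Ω} [Finite S] (p : ℕ) [Fact p.Prime] (hS : IsPGroup p S) (F : Cfsg.FusionSystem S) (hF : F.IsSaturated p) {T : Subgroup Ω} (E : Cfsg.FusionSystem T) (hE : E.IsNormalIn F p) (P : Subgroup Ω) (hP : F.IsCentric P) (hPT : ¬ E.IsCentric (P ⊓ T)) : (∃ φ ∈ F.Hom P, ∃ x ∈ S ⊓ Subgroup.normalizer (φ.range : Set Ω), x ∉ φ.range ∧ ∃ α ∈ ((Cfsg.pCore p ↥(F.autGroup φ.range)).map (F.autGroup φ.range).subtype : Subgroup (MulAut ↥φ.range)), ∀ y : ↥φ.range, ((α y : ↥φ.range) : Ω) = x * (y : Ω) * x⁻¹) ∧ ¬ F.IsRadical p P := by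
  obtain ⟨⟨-, -, hEF, hT, -, -⟩, -⟩ := hE
  have hPS : P ≤ S := hP.1
  obtain ⟨f, hf, d, hdT, hdC, hdN, hdU⟩ := exists_conj_centralizer_not_le hS hF E hEF hT hPS hPT
  obtain ⟨φ, hφ, hφf⟩ := id hf
  have hrange : φ.range = imgS P f := by
    rw [← Mor.imgS_eq_range hφ]
    exact Mor.imgS_congr (mor_extFun hφ) (fun x hx => by rw [extFun_of_mem P φ hx, hφf])
  have main : ∀ R : Subgroup Ω, R = imgS P f → R ≤ S →
      ∃ x ∈ S ⊓ Subgroup.normalizer (R : Set Ω), x ∉ R ∧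
        ∃ α ∈ ((Cfsg.pCore p ↥(F.autGroup R)).map (F.autGroup R).subtype : Subgroup (MulAut ↥R)),
          ∀ y : ↥R, ((α y : ↥R) : Ω) = x * (y : Ω) * x⁻¹ := by
    rintro R rfl hRS
    obtain ⟨α, hα⟩ := exists_conjAut hdN
    exact ⟨d, ⟨hT.1 hdT, hdN⟩, hdU, α, conj_mem_pCore_of_centralizes hS hT hRS hdT hdC hα, hα⟩
  have hRS : φ.range ≤ S := range_le F hφ
  obtain ⟨x, hx, hxR, α, hα, hαx⟩ := main φ.range hrange hRS
  refine ⟨⟨φ, hφ, x, hx, hxR, α, hα, hαx⟩, fun hrad => ?_⟩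
  have hinn := mem_inn_of_radical_conj hrad hφ hα
  have hC : Cfsg.FusionSystem.centralizerIn S φ.range ≤ φ.range := hP.2 _ ⟨φ, hφ, rfl⟩
  exact hxR (mem_of_induces_inner hRS hC hx.1 hαx hinn)

end Cfsg.Agent.S5251
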