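import Cfsg.Statements.S5254
import Cfsg.Agent.H89.OliverEss

set_option autoImplicit false
open Cfsg

namespace Cfsg.Agent.S5254

open Cfsg.FusionSystem Cfsg.Agent.H86 Cfsg.Agent.H89 in
/-- Let p be an odd prime, S a finite nonabelian p-group with a unique abelian subgroup A of index p, and F a saturated fusion system over S. Then every F-essential subgroup P is A, or Z(S)⟨x⟩ for some x ∈ S outside A, or (when the second centre Z₂(S) lies in A) Z₂(S)⟨x⟩ for some x ∈ S outside A; and P has index p in its normalizer in S. -/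
theorem result {Ω : Type*} [Group Ω] {S : Subgroup Ω} [Finite S] (p : ℕ) [Fact p.Prime] (hS : IsPGroup p S) (F : Cfsg.FusionSystem S) (hF : F.IsSaturated p) (hp : p ≠ 2) (hna : ¬ IsMulCommutative ↥S) (A : Subgroup Ω) (hA : A ≤ S ∧ IsMulCommutative ↥A ∧ (A.subgroupOf S).index = p) (huniq : ∀ B : Subgroup Ω, B ≤ S → IsMulCommutative ↥B → (B.subgroupOf S).index = p → B = A) (P : Subgroup Ω) (hP : F.IsEssential p P) : (P = A ∨ (∃ x ∈ S, x ∉ A ∧ P = (S ⊓ Subgroup.centralizer (S : Set Ω)) ⊔ Subgroup.zpowers x) ∨ (((upperCentralSeries ↥S 2).map S.subtype) ≤ A ∧ ∃ x ∈ S, x ∉ A ∧ P = ((upperCentralSeries ↥S 2).map S.subtype) ⊔ Subgroup.zpowers x)) ∧ (P.subgroupOf (S ⊓ Subgroup.normalizer (P : Set Ω))).index = p := by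
  have h := AbIdx.of_index hS hA
  have hna' := exists_noncomm_of_not_comm hna
  have hZ2 : (upperCentralSeries ↥S 2).map S.subtype =
      (Subgroup.upperCentralSeries ↥S 2).map S.subtype := rfl
  rw [hZ2]
  have hPS : P ≤ S := hP.1.1
  rcases essential_eq_or_exists h hP with hPA | ⟨x, hxP, hxA⟩
  · refine ⟨Or.inl hPA, ?_⟩
    rw [hPA]
    have hN : S ⊓ Subgroup.normalizer (A : Set Ω) = S := by
      apply inf_eq_left.2
      intro s hs
      refine mem_normalizer_of_forall_conj_mem (h.norm s hs) (fun y hy => ?_)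
      have := h.norm s⁻¹ (S.inv_mem hs) y hy
      rwa [inv_inv] at this
    rw [hN]
    exact hA.2.2
  · have hxS := hPS hxP
    refine ⟨Or.inr ?_, oliver_index hS hF h hP hxP hxA⟩
    by_cases hab : ∀ g ∈ P, ∀ k ∈ P, g * k = k * g
    · left
      have hP0 := oliver_abelian h hna' hP hxP hxA hab
      refine ⟨x, hxS, hxA, eq_sup_zpowers ?_ hxP ?_⟩
      · rw [← hP0]; exact inf_le_left
      · rw [← hP0]; exact h.decomp_sub hPS hxP hxA
    · right
      have ha := (saturated_fullyNormalized hS hF hP.2.1).2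
      obtain ⟨γ, hγ, hsep⟩ := exists_sep ha hP
      obtain ⟨-, -, -, hP0, hZ2A⟩ := oliver_nonabelian hS hF h hna' hP hxP hxA hγ hsep hab
      refine ⟨hZ2A, x, hxS, hxA, eq_sup_zpowers ?_ hxP ?_⟩
      · rw [← hP0]; exact inf_le_left
      · rw [← hP0]; exact h.decomp_sub hPS hxP hxA

end Cfsg.Agent.S5254
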