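import Cfsg.Statements.S5257
import Cfsg.Agent.H89.OliverEss
import Cfsg.Agent.H89.IndexPCount

set_option autoImplicit false
open Cfsg

namespace Cfsg.Agent.S5257

open Cfsg.FusionSystem Cfsg.Agent.H86 Cfsg.Agent.H89 in
/-- Let p be an odd prime, S a finite nonabelian p-group with a unique abelian subgroup A of index p, and F a saturated fusion system over S having an F-essential subgroup other than A. Then the second centre Z₂(S) lies in A; Z(S) ∩ [S, S] has order p; Z(S)[S, S] has index p in A; Z(S) has index p in Z₂(S); and S/Z(S) has maximal nilpotency class (if S/Z(S) has order pᵐ with m ≥ 3 then the term of index m − 2 of the lower central series of S, counting S as index 0, is not contained in Z(S)). -/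
theorem result {Ω : Type*} [Group Ω] {S : Subgroup Ω} [Finite S] (p : ℕ) [Fact p.Prime] (hS : IsPGroup p S) (F : Cfsg.FusionSystem S) (hF : F.IsSaturated p) (hp : p ≠ 2) (hna : ¬ IsMulCommutative ↥S) (A : Subgroup Ω) (hA : A ≤ S ∧ IsMulCommutative ↥A ∧ (A.subgroupOf S).index = p) (huniq : ∀ B : Subgroup Ω, B ≤ S → IsMulCommutative ↥B → (B.subgroupOf S).index = p → B = A) (P : Subgroup Ω) (hP : F.IsEssential p P) (hPA : P ≠ A) : ((upperCentralSeries ↥S 2).map S.subtype) ≤ A ∧ Nat.card ↥((S ⊓ Subgroup.centralizer (S : Set Ω)) ⊓ ((commutator ↥S).map S.subtype)) = p ∧ (((S ⊓ Subgroup.centralizer (S : Set Ω)) ⊔ ((commutator ↥S).map S.subtype)).subgroupOf A).index = p ∧ (((S ⊓ Subgroup.centralizer (S : Set Ω))).subgroupOf ((upperCentralSeries ↥S 2).map S.subtype)).index = p ∧ ∀ m : ℕ, ((S ⊓ Subgroup.centralizer (S : Set Ω)).subgroupOf S).index = p ^ m → 3 ≤ m → ¬ Subgroup.lowerCentralSeries S (m - 2) ≤ (S ⊓ Subgroup.centralizer (S : Set Ω)) := by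
  have h := AbIdx.of_index hS hA
  have hna' := exists_noncomm_of_not_comm hna
  have hZ2 : (upperCentralSeries ↥S 2).map S.subtype =
      (Subgroup.upperCentralSeries ↥S 2).map S.subtype := rfl
  rw [hZ2, commutator_map_subtype]
  have hPS : P ≤ S := hP.1.1
  obtain ⟨x, hxP, hxA⟩ : ∃ x ∈ P, x ∉ A := by
    rcases essential_eq_or_exists h hP with hPA' | hx
    · exact absurd hPA' hPA
    · exact hx
  have hxS := hPS hxP
  have hZ2A : (Subgroup.upperCentralSeries ↥S 2).map S.subtype ≤ A := by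
    by_cases hab : ∀ g ∈ P, ∀ k ∈ P, g * k = k * g
    · exact oliver_abelian_Z2 hS hF h hna' huniq hP hxP hxA hab
    · have ha := (saturated_fullyNormalized hS hF hP.2.1).2
      obtain ⟨γ, hγ, hsep⟩ := exists_sep ha hP
      exact (oliver_nonabelian hS hF h hna' hP hxP hxA hγ hsep hab).2.2.2.2
  obtain ⟨w, hw, hwZ, hwp, hgen⟩ := oliver_Z2_gen hS hF h hna' hP hxP hxA hZ2A
  have hcard := h.card_center_inf_commutator hxS hxA hZ2A hw hwZ hwp hgen
  refine ⟨hZ2A, hcard, h.index_center_sup_commutator hna' hxS hxA hcard, ?_,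
    h.maxclass hna' hA.2.2 hxS hxA hcard⟩
  refine index_eq_prime_of_gen ?_ hw hwZ hwp hgen
  intro g hg k hk
  have e : g * k * g⁻¹ = k := by
    rw [(mem_center_inf_iff.1 hk).2 g (mem_Z2_iff.1 hg).1, mul_inv_cancel_right]
  rw [e]
  exact hk

end Cfsg.Agent.S5257
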