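import Cfsg.Statements.S5271
import Cfsg.Agent.H90.WEmbMain
import Cfsg.Agent.H88.NormModel
import Cfsg.Agent.H89.Normalizer
import Cfsg.Agent.H87.DirFactor

set_option autoImplicit false
open Cfsg

namespace Cfsg.Agent.S5271

/-- A nilpotency criterion for fusion systems. Let F be a saturated fusion system over a finite p-group S of order at least p². Call a subgroup Q of S weakly embedded in F when there is a subgroup P of S strongly closed in F such that both the product QP and the intersection Q ∩ P are strongly closed in F. Then F is the inner fusion system of S if and only if there is a subgroup D of S with 1 < D < S such that every subgroup of S of the same order as D is weakly embedded in F and, for every fully normalized subgroup H of S of that order, the normalizer fusion system of H in F is the inner fusion system of N_S(H). -/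
theorem result {Ω : Type*} [Group Ω] {S : Subgroup Ω} [Finite S] (p : ℕ) [Fact p.Prime] (hS : IsPGroup p ↥S) (F : Cfsg.FusionSystem S) (hF : F.IsSaturated p) (hcard : p ^ 2 ≤ Nat.card S) : (∀ P : Subgroup Ω, F.Hom P = (Cfsg.innerFusionSystem S).Hom P) ↔ ∃ D : Subgroup Ω, ⊥ < D ∧ D < S ∧ (∀ Q : Subgroup Ω, Q ≤ S → Nat.card ↥Q = Nat.card ↥D → ∃ P : Subgroup Ω, F.StronglyClosed P ∧ F.StronglyClosed (Q ⊔ P) ∧ F.StronglyClosed (Q ⊓ P)) ∧ (∀ H : Subgroup Ω, F.IsFullyNormalized H → Nat.card ↥H = Nat.card ↥D → ∀ N : Cfsg.FusionSystem (Cfsg.FusionSystem.normalizerIn S H), F.IsNormalizerSystem H N → ∀ P : Subgroup Ω, N.Hom P = (Cfsg.innerFusionSystem (Cfsg.FusionSystem.normalizerIn S H)).Hom P) := by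
  have hp1 : 1 < p := (Fact.out : p.Prime).one_lt
  obtain ⟨m, hm⟩ := IsPGroup.iff_card.1 hS
  constructor
  · intro h
    have hconj : ∀ (D : Subgroup Ω) (f : Ω → Ω), Cfsg.Agent.H86.Mor F D f →
        ∃ g ∈ S, ∀ x ∈ D, f x = g * x * g⁻¹ := by
      rintro D f ⟨φ, hφ, hφf⟩
      rw [h D] at hφ
      obtain ⟨-, g, hg, H⟩ := hφ
      exact ⟨g, hg, fun x hx => by rw [← hφf ⟨x, hx⟩, H]⟩
    have hm2 : 2 ≤ m := by
      rw [hm] at hcard
      exact (Nat.pow_le_pow_iff_right hp1).1 hcard
    obtain ⟨D, -, hDS, hDc⟩ := Cfsg.Agent.H90.we_exists_between hS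
      (bot_le : (⊥ : Subgroup Ω) ≤ S) (k := m - 1)
      (by rw [Subgroup.card_bot]; exact Nat.one_le_pow _ _ (by omega))
      (by rw [hm]; exact Nat.pow_le_pow_right (by omega) (by omega))
    have hpm1 : 1 < p ^ (m - 1) := Nat.one_lt_pow (by omega) hp1
    refine ⟨D, ?_, ?_, ?_, ?_⟩
    · rw [bot_lt_iff_ne_bot]
      rintro rfl
      rw [Subgroup.card_bot] at hDc
      omega
    · refine lt_of_le_of_ne hDS ?_
      rintro rfl
      rw [hm] at hDc
      have hmm := Nat.pow_right_injective hp1 hDc
      omega
    · intro Q hQS hQc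
      have hQn : ∀ s ∈ S, ∀ x ∈ Q, s * x * s⁻¹ ∈ Q := by
        have hcQ : Nat.card (Q.subgroupOf S) = p ^ (m - 1) := by
          rw [Nat.card_congr (Subgroup.subgroupOfEquivOfLe hQS).toEquiv, hQc, hDc]
        have hpm : p ^ m = p ^ (m - 1) * p := by
          rw [← pow_succ]
          congr 1
          omega
        have hidx : (Q.subgroupOf S).index = p := by
          have h1 : Nat.card (Q.subgroupOf S) * (Q.subgroupOf S).index = Nat.card S :=
            Subgroup.card_mul_index _
          rw [hcQ, hm, hpm] at h1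
          exact Nat.eq_of_mul_eq_mul_left (by omega) h1
        have hnorm : (Q.subgroupOf S).Normal := by
          apply Subgroup.normal_of_index_eq_minFac_card
          rw [hidx, hm, Nat.pow_minFac (by omega), (Fact.out : p.Prime).minFac_eq]
        intro s hs x hx
        have h2 := hnorm.conj_mem ⟨x, hQS hx⟩ (Subgroup.mem_subgroupOf.2 hx) ⟨s, hs⟩
        exact Subgroup.mem_subgroupOf.1 h2
      have hQsc : F.StronglyClosed Q := by
        rw [Cfsg.Agent.H86.stronglyClosed_iff]
        refine ⟨hQS, fun R f hR hf x hx => ?_⟩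
        obtain ⟨g, hg, H⟩ := hconj R f hf
        rw [H x hx]
        exact hQn g hg x (hR hx)
      refine ⟨Q, hQsc, ?_, ?_⟩
      · rw [sup_idem]
        exact hQsc
      · rw [inf_idem]
        exact hQsc
    · intro H hH hHc N hN P
      ext φ
      constructor
      · intro hφ
        have hmor : Cfsg.Agent.H86.Mor N P (Cfsg.Agent.H86.extFun P φ) :=
          Cfsg.Agent.H86.mor_extFun hφ
        rw [Cfsg.Agent.H88.mor_normalizerSystem_iff hN] at hmor
        obtain ⟨hPN, -, f', hf', hf'φ, himg⟩ := hmor
        obtain ⟨g, hg, H'⟩ := hconj _ f' hf'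
        have hgN : g ∈ Cfsg.FusionSystem.normalizerIn S H := by
          show g ∈ S ⊓ Subgroup.normalizer (H : Set Ω)
          refine Subgroup.mem_inf.2 ⟨hg, ?_⟩
          rw [Subgroup.mem_normalizer_iff]
          intro h
          constructor
          · intro hh
            rw [← H' h (Subgroup.mem_sup_right hh)]
            have h3 := (hf'.restrict le_sup_right).mem_imgS_of_mem hh
            rw [himg] at h3
            exact h3
          · intro hh
            have hh' : g * h * g⁻¹ ∈ Cfsg.Agent.H86.imgS H f' := by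
              rw [himg]
              exact hh
            obtain ⟨x, hx, hxe⟩ := (hf'.restrict le_sup_right).mem_imgS.1 hh'
            rw [H' x (Subgroup.mem_sup_right hx)] at hxe
            have hxh : x = h := mul_left_cancel (mul_right_cancel hxe)
            rw [← hxh]
            exact hx
        refine ⟨hPN, g, hgN, fun x => ?_⟩
        rw [← Cfsg.Agent.H86.extFun_apply P φ x, ← hf'φ x x.2, H' x (Subgroup.mem_sup_left x.2)]
      · rintro ⟨hP, g, hg, hgx⟩
        have h3 := N.conj_mem hP hg
        have e : φ = Cfsg.conjHom P g := by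
          ext x
          rw [hgx]
          rfl
        rw [e]
        exact h3
  · rintro ⟨D, hD1, hDS, hi, hii⟩
    have hDle : D ≤ S := hDS.le
    haveI : Finite D := Cfsg.Agent.H86.finite_of_le hDle
    obtain ⟨k, hk⟩ := IsPGroup.iff_card.1 (hS.to_le hDle)
    have hk0 : 0 < k := by
      by_contra h0
      have hk' : k = 0 := by omega
      rw [hk', pow_zero] at hk
      exact hD1.ne' (Subgroup.eq_bot_of_card_eq D hk)
    have hkn : p ^ k < Nat.card S := by
      rw [← hk]
      by_contra hge
      exact hDS.ne (Subgroup.eq_of_le_of_card_ge hDle (not_lt.1 hge))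
    have hWi : Cfsg.Agent.H90.WEi F (p ^ k) := by
      intro Q hQ hQc
      exact hi Q hQ (by rw [hQc, hk])
    have hWii : Cfsg.Agent.H90.WEii F (p ^ k) := by
      intro H hH hHc D' f hHD hf
      have hfn : F.IsFullyNormalized H := Cfsg.Agent.H87.fullyNormalized_of_stronglyClosed hH
      have hN := Cfsg.Agent.H89.normalizerSystem_isNormalizerSystem F H hH.1
      have hinner := hii H hfn (by rw [hHc, hk]) _ hN
      have hSN : S ≤ Cfsg.FusionSystem.normalizerIn S H :=
        le_inf le_rfl (Cfsg.Agent.H88.stronglyClosed_le_normalizer hH)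
      have hmor : Cfsg.Agent.H86.Mor (Cfsg.Agent.H89.normalizerSystem F H hH.1) D' f := by
        rw [Cfsg.Agent.H88.mor_normalizerSystem_iff hN]
        refine ⟨hf.le.trans hSN, fun x hx => hSN (hf.mem hx), f, ?_, fun x _ => rfl,
          Cfsg.Agent.H88.imgS_stronglyClosed hH hf hHD⟩
        have e : D' ⊔ H = D' := sup_eq_left.2 hHD
        rw [e]
        exact hf
      obtain ⟨φ, hφ, hφf⟩ := hmor
      rw [hinner D'] at hφ
      obtain ⟨-, g, hg, H'⟩ := hφ
      exact ⟨g, hg.1, fun x hx => by rw [← hφf ⟨x, hx⟩, H']⟩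
    have hhyp := Cfsg.Agent.H90.we_main p (Nat.card S) Ω S F k rfl hS hF hk0 hkn hWi hWii
    exact Cfsg.Agent.H90.hom_eq_inner_of_hyperfocal_eq_bot hS hF hhyp

end Cfsg.Agent.S5271
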