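import Cfsg.Statements.S5272
import Cfsg.Agent.H89.GTAx
import Cfsg.Agent.H90.Tate2
import Cfsg.Agent.H88.Quasi

set_option autoImplicit false
open Cfsg

namespace Cfsg.Agent.S5272

open Cfsg.FusionSystem Cfsg.Agent.H86 Cfsg.Agent.H90 in
/-- An axiomatic Glauberman–Thompson nilpotency criterion for fusion systems. Let p be an odd prime, F a saturated fusion system over a finite p-group S, and 𝒜 a nonempty family of abelian subgroups of S. For Q ≤ S write I(Q) for the intersection of the members of 𝒜 contained in Q. Assume (invariance) that for every Q ≤ S containing a member of 𝒜, every F-automorphism of Q maps I(Q) into itself, and (replacement) that for every subgroup B of S of nilpotency class at most 2, if some member of 𝒜 contains [B,B] but not B, then B normalizes some member of 𝒜 that contains [B,B] but not B. Then F is the inner fusion system of S if and only if the normalizer fusion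 system of I(S) in F is the inner fusion system of N_S(I(S)). -/
theorem result {Ω : Type*} [Group Ω] {S : Subgroup Ω} [Finite S] (p : ℕ) [Fact p.Prime] (hS : IsPGroup p ↥S) (F : Cfsg.FusionSystem S) (hF : F.IsSaturated p) (hp : p ≠ 2) (𝒜 : Set (Subgroup Ω)) (h𝒜 : ∀ A ∈ 𝒜, A ≤ S ∧ IsMulCommutative ↥A) (hne : 𝒜.Nonempty) (hinv : ∀ Q : Subgroup Ω, Q ≤ S → (∃ A ∈ 𝒜, A ≤ Q) → ∀ α ∈ F.autGroup Q, ∀ x : ↥Q, (x : Ω) ∈ (⨅ A ∈ {A : Subgroup Ω | A ∈ 𝒜 ∧ A ≤ Q}, A) → (((α : MulAut ↥Q) x : ↥Q) : Ω) ∈ (⨅ A ∈ {A : Subgroup Ω | A ∈ 𝒜 ∧ A ≤ Q}, A)) (hrep : ∀ B : Subgroup Ω, B ≤ S → ⁅⁅B, B⁆, B⁆ = ⊥ → (∃ A ∈ 𝒜, ⁅B, B⁆ ≤ A ∧ ¬ B ≤ A) → ∃ A ∈ 𝒜, ⁅B, B⁆ ≤ A ∧ ¬ B ≤ A ∧ B ≤ Subgroup.normalizer (A : Set Ω)) : (∀ P : Subgroup Ω, F.Hom P = (Cfsg.innerFusionSystem S).Hom P) ↔ ∀ N : Cfsg.FusionSystem (Cfsg.FusionSystem.normalizerIn S (⨅ A ∈ 𝒜, A)), F.IsNormalizerSystem (⨅ A ∈ 𝒜, A) N → ∀ P : Subgroup Ω, N.Hom P =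 (Cfsg.innerFusionSystem (Cfsg.FusionSystem.normalizerIn S (⨅ A ∈ 𝒜, A))).Hom P := by
  have hax : Cfsg.Agent.H89.AxData S 𝒜 := ⟨h𝒜, hne, hrep⟩
  obtain ⟨A₀, hA₀⟩ := hne
  have hZS : (⨅ A ∈ 𝒜, A : Subgroup Ω) ≤ S := fun x hx =>
    (h𝒜 A₀ hA₀).1 (Cfsg.Agent.H89.mem_iInf_all.1 hx A₀ hA₀)
  have hSN : S ≤ Subgroup.normalizer (((⨅ A ∈ 𝒜, A : Subgroup Ω)) : Set Ω) :=
    Cfsg.Agent.H89.le_normalizer_iInf_of_axInv hax hinv
  constructor
  · intro hin N hN P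
    ext φ
    rw [hN P]
    constructor
    · rintro ⟨hφ, hPN, -, -⟩
      rw [hin P] at hφ
      obtain ⟨-, g, hg, hgx⟩ := hφ
      exact ⟨hPN, g, ⟨hg, hSN hg⟩, hgx⟩
    · rintro ⟨hPN, g, hg, hgx⟩
      have hPS : P ≤ S := hPN.trans inf_le_left
      have hgS : g ∈ S := hg.1
      have hφ : φ ∈ F.Hom P := by
        rw [hin P]
        exact ⟨hPS, g, hgS, hgx⟩
      have hφS : ∀ x : P, φ x ∈ S := (F.le_of_mem hφ).2
      refine ⟨hφ, hPN, fun x => ⟨hφS x, hSN (hφS x)⟩,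
        conjHom (P ⊔ (⨅ A ∈ 𝒜, A)) g, F.conj_mem (sup_le hPS hZS) hgS,
        fun x => (hgx x).symm, ?_⟩
      rw [Cfsg.Agent.H89.map_subgroupOf_eq_iff le_sup_right]
      refine ⟨fun q => ?_, fun y hy => ?_⟩
      · exact conj_mem_of_mem_normalizer (hSN hgS) q.2
      · refine ⟨⟨g⁻¹ * y * g, conj_inv_mem_of_mem_normalizer (hSN hgS) hy⟩, ?_⟩
        show g * (g⁻¹ * y * g) * g⁻¹ = y
        group
  · intro hN P
    have hZ : NAutP p F (⨅ A ∈ 𝒜, A) := by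
      intro T hUT hTN α hα hαU
      have hEn := Cfsg.Agent.H89.normalizerSystem_isNormalizerSystem F (⨅ A ∈ 𝒜, A) hZS
      have hinner := hN _ hEn
      have hα' := mem_autGroup_normalizerSystem hZS hEn hUT hTN hα hαU
      obtain ⟨φ, hφ, hφα⟩ := (Cfsg.Agent.H86.mem_autGroup_iff hTN α).1 hα'
      rw [hinner T] at hφ
      obtain ⟨-, g, hg, hgx⟩ := hφ
      obtain ⟨k, hk⟩ := hS ⟨g, hg.1⟩
      have hk' : g ^ p ^ k = 1 := by
        have := congrArg Subtype.val hk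
        simpa using this
      have H : ∀ x : T, ((α x : T) : Ω) = g * (x : Ω) * g⁻¹ := by
        intro x
        rw [← hgx x, hφα x, autFun_apply]
      refine ⟨k, ?_⟩
      ext x
      rw [autInducedBy_pow H, hk']
      simp
    have hAutP := Cfsg.Agent.H89.autP_of_nautP_ax hp hS hF hax hinv hZ
    exact hom_eq_inner_of_hyperfocal_eq_bot hS hF
      (Cfsg.Agent.H88.hyperfocal_eq_bot_of_autGroups_pGroups
        (fun T hT => hAutP.isPGroup hT)) P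

end Cfsg.Agent.S5272
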