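import Cfsg.Statements.S5275
import Cfsg.Agent.H89.GTStrong
import Cfsg.Agent.H90.Tate2
import Cfsg.Agent.H88.Quasi

set_option autoImplicit false
open Cfsg

namespace Cfsg.Agent.S5275

open Cfsg.FusionSystem Cfsg.Agent.H86 Cfsg.Agent.H90 in
/-- A Glauberman–Thompson nilpotency criterion for fusion systems relative to a strongly closed subgroup. Let p be an odd prime, F a saturated fusion system over a finite p-group S, and D a subgroup of S that is strongly closed in F. Let Z(J(D)) be the centre of the subgroup of D generated by the abelian subgroups of D of largest order. Then F is the inner fusion system of S if and only if the normalizer fusion system of Z(J(D)) in F is the inner fusion system of N_S(Z(J(D))) = S. -/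
theorem result {Ω : Type*} [Group Ω] {S : Subgroup Ω} [Finite S] (p : ℕ) [Fact p.Prime] (hS : IsPGroup p ↥S) (F : Cfsg.FusionSystem S) (hF : F.IsSaturated p) (hp : p ≠ 2) (D : Subgroup Ω) (hD : F.StronglyClosed D) : (∀ P : Subgroup Ω, F.Hom P = (Cfsg.innerFusionSystem S).Hom P) ↔ ∀ N : Cfsg.FusionSystem (Cfsg.FusionSystem.normalizerIn S (Cfsg.centerThompsonAOf D)), F.IsNormalizerSystem (Cfsg.centerThompsonAOf D) N → ∀ P : Subgroup Ω, N.Hom P = (Cfsg.innerFusionSystem (Cfsg.FusionSystem.normalizerIn S (Cfsg.centerThompsonAOf D))).Hom P := by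
  have hZS : centerThompsonAOf D ≤ S := (centerThompsonAOf_le D).trans hD.1
  have hSN : S ≤ Subgroup.normalizer (centerThompsonAOf D : Set Ω) :=
    (Cfsg.Agent.H88.stronglyClosed_le_normalizer hD).trans
      (normalizer_le_normalizer_centerThompsonAOf D)
  constructor
  · intro hin N hN P
    ext φ
    rw [hN P]
    constructor
    · rintro ⟨hφ, hPN, -, -⟩
      rw [hin P] at hφ
      obtain ⟨-, g, hg, hgx⟩ := hφ
      exact ⟨hPN, g, ⟨hg, hSN hg⟩, hgx⟩
    · rintro ⟨hPN, g, hg, hgx⟩
      have hPS : P ≤ S := hPN.trans inf_le_left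
      have hgS : g ∈ S := hg.1
      have hφ : φ ∈ F.Hom P := by
        rw [hin P]
        exact ⟨hPS, g, hgS, hgx⟩
      have hφS : ∀ x : P, φ x ∈ S := (F.le_of_mem hφ).2
      refine ⟨hφ, hPN, fun x => ⟨hφS x, hSN (hφS x)⟩,
        conjHom (P ⊔ centerThompsonAOf D) g, F.conj_mem (sup_le hPS hZS) hgS,
        fun x => (hgx x).symm, ?_⟩
      rw [Cfsg.Agent.H89.map_subgroupOf_eq_iff le_sup_right]
      refine ⟨fun q => ?_, fun y hy => ?_⟩
      · exact conj_mem_of_mem_normalizer (hSN hgS) q.2
      · refine ⟨⟨g⁻¹ * y * g, conj_inv_mem_of_mem_normalizer (hSN hgS) hy⟩, ?_⟩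
        show g * (g⁻¹ * y * g) * g⁻¹ = y
        group
  · intro hN P
    have hZ : NAutP p F (centerThompsonAOf D) := by
      intro T hUT hTN α hα hαU
      have hEn := Cfsg.Agent.H89.normalizerSystem_isNormalizerSystem F (centerThompsonAOf D) hZS
      have hinner := hN _ hEn
      have hα' := mem_autGroup_normalizerSystem hZS hEn hUT hTN hα hαU
      obtain ⟨φ, hφ, hφα⟩ := (Cfsg.Agent.H86.mem_autGroup_iff hTN α).1 hα'
      rw [hinner T] at hφ
      obtain ⟨-, g, hg, hgx⟩ := hφ
      obtain ⟨k, hk⟩ := hS ⟨g, hg.1⟩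
      have hk' : g ^ p ^ k = 1 := by
        have := congrArg Subtype.val hk
        simpa using this
      have H : ∀ x : T, ((α x : T) : Ω) = g * (x : Ω) * g⁻¹ := by
        intro x
        rw [← hgx x, hφα x, autFun_apply]
      refine ⟨k, ?_⟩
      ext x
      rw [autInducedBy_pow H, hk']
      simp
    have hAutP := Cfsg.Agent.H89.autP_of_nautP_stronglyClosed hp hS hF hD hZ
    exact hom_eq_inner_of_hyperfocal_eq_bot hS hF
      (Cfsg.Agent.H88.hyperfocal_eq_bot_of_autGroups_pGroups
        (fun T hT => hAutP.isPGroup hT)) P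

end Cfsg.Agent.S5275
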