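import Cfsg.Statements.S5276
import Cfsg.Agent.H90.Tate4

set_option autoImplicit false
open Cfsg

namespace Cfsg.Agent.S5276

open Cfsg.FusionSystem Cfsg.Agent.H86 Cfsg.Agent.H90

/-- Let p be a prime and F a saturated fusion system over a finite p-group S. Then F is the inner fusion system of S if and only if the normalizer fusion system of S itself in F is the inner fusion system (equivalently, Aut_F(S) is induced by S) and the Frattini subgroup Φ(S) is strongly closed in F. -/
theorem result {Ω : Type*} [Group Ω] {S : Subgroup Ω} [Finite S] (p : ℕ) [Fact p.Prime] (hS : IsPGroup p ↥S) (F : Cfsg.FusionSystem S) (hF : F.IsSaturated p) : (∀ P : Subgroup Ω, F.Hom P = (Cfsg.innerFusionSystem S).Hom P) ↔ (∀ N : Cfsg.FusionSystem (Cfsg.FusionSystem.normalizerIn S S), F.IsNormalizerSystem S N → ∀ P : Subgroup Ω, N.Hom P = (Cfsg.innerFusionSystem (Cfsg.FusionSystem.normalizerIn S S)).Hom P) ∧ F.StronglyClosed ((frattini ↥S).map S.subtype) := by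
  constructor
  · intro hin
    refine ⟨?_, ?_⟩
    · intro N hN P
      ext φ
      rw [hN P]
      constructor
      · rintro ⟨hφ, hPN, -, -⟩
        rw [hin P] at hφ
        obtain ⟨-, g, hg, hgx⟩ := hφ
        exact ⟨hPN, g, ⟨hg, Subgroup.le_normalizer hg⟩, hgx⟩
      · rintro ⟨hPN, g, hg, hgx⟩
        have hPS : P ≤ S := hPN.trans inf_le_left
        have hgS : g ∈ S := hg.1
        have hφ : φ ∈ F.Hom P := by
          rw [hin P]
          exact ⟨hPS, g, hgS, hgx⟩
        have hφS : ∀ x : P, φ x ∈ S := (F.le_of_mem hφ).2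
        refine ⟨hφ, hPN, fun x => ⟨hφS x, Subgroup.le_normalizer (hφS x)⟩,
          conjHom (P ⊔ S) g, F.conj_mem (sup_le hPS le_rfl) hgS, fun x => (hgx x).symm, ?_⟩
        rw [Cfsg.Agent.H89.map_subgroupOf_eq_iff le_sup_right]
        refine ⟨fun q => ?_, fun y hy => ?_⟩
        · exact S.mul_mem (S.mul_mem hgS q.2) (S.inv_mem hgS)
        · refine ⟨⟨g⁻¹ * y * g, S.mul_mem (S.mul_mem (S.inv_mem hgS) hy) hgS⟩, ?_⟩
          show g * (g⁻¹ * y * g) * g⁻¹ = y
          group
    · refine ⟨Subgroup.map_le_iff_le_comap.2 (fun x _ => x.2), fun R hR φ hφ x => ?_⟩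
      rw [hin R] at hφ
      obtain ⟨-, g, hg, hgx⟩ := hφ
      obtain ⟨x', hx', hxe⟩ := hR x.2
      rw [hgx]
      refine ⟨⟨g, hg⟩ * x' * (⟨g, hg⟩ : S)⁻¹, ?_, ?_⟩
      · exact (inferInstance : (frattini S).Normal).conj_mem x' hx' ⟨g, hg⟩
      · show g * (x' : Ω) * g⁻¹ = g * (x : Ω) * g⁻¹
        have : (x' : Ω) = x := hxe
        rw [this]
  · rintro ⟨hN, hΦ⟩ P
    exact hom_eq_inner_of_stronglyClosed hS hF hΦ le_rfl
      (fun a ha b hb => comm_mem_frattini_map hS ha hb)
      (fun f hf => top_inner_of_normalizer_inner hN hf) P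

end Cfsg.Agent.S5276
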