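import Cfsg.Statements.S5283
import Cfsg.Agent.H86.SuperSolFus

set_option autoImplicit false
open Cfsg

namespace Cfsg.Agent.S5283

/-- Call a saturated fusion system F over a finite p-group S supersoluble when S has a chain of subgroups 1 = S_0 ≤ S_1 ≤ … ≤ S_m = S, each strongly closed in F, with each S_{i+1} generated by S_i together with one further element (cyclic steps). Then every saturated fusion system over S is supersoluble if and only if S is normal in every saturated fusion system over S (S is resistant) and every subgroup of Aut(S) of order prime to p is abelian of exponent dividing p − 1. -/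
theorem result {Ω : Type*} [Group Ω] {S : Subgroup Ω} [Finite S] (p : ℕ) [Fact p.Prime] (hS : IsPGroup p ↥S) : (∀ F : Cfsg.FusionSystem S, F.IsSaturated p → (∃ (m : ℕ) (c : Fin (m + 1) → Subgroup Ω), c 0 = ⊥ ∧ c (Fin.last m) = S ∧ (∀ i : Fin (m + 1), F.StronglyClosed (c i)) ∧ ∀ i : Fin m, c i.castSucc ≤ c i.succ ∧ ∃ x ∈ S, c i.succ = c i.castSucc ⊔ Subgroup.zpowers x)) ↔ (∀ F : Cfsg.FusionSystem S, F.IsSaturated p → F.IsNormal S) ∧ ∀ H : Subgroup (MulAut ↥S), (Nat.card ↥H).Coprime p → IsMulCommutative ↥H ∧ ∀ h ∈ H, h ^ (p - 1) = 1 := by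
  constructor
  · intro hyp
    have hchain : ∀ F : Cfsg.FusionSystem S, F.IsSaturated p →
        ∃ (m : ℕ) (C : ℕ → Subgroup S), Cfsg.Agent.H86.CycChain F m C := by
      intro F hF
      obtain ⟨m, c, h0, hm, hsc, hstep⟩ := hyp F hF
      exact ⟨m, Cfsg.Agent.H86.chain_to_nat h0 hm hsc hstep⟩
    refine ⟨fun F hF => ?_, fun H hH => ?_⟩
    · obtain ⟨m, C, hC⟩ := hchain F hF
      exact Cfsg.Agent.H86.isNormal_of_cycChain hS hF hC
    · obtain ⟨hcomm, hexp⟩ := Cfsg.Agent.H86.aut_of_cycChain hS hchain H hH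
      exact ⟨⟨⟨fun a b => Subtype.ext (hcomm a a.2 b b.2)⟩⟩, hexp⟩
  · rintro ⟨ha, hb⟩ F hF
    obtain ⟨m, C, h0, hm, hstep, hsc⟩ := Cfsg.Agent.H86.exists_cycChain_of_normal hS hF (ha F hF)
      (fun H hH => ⟨fun a ha' b hb' => by
        haveI := (hb H hH).1
        exact congrArg Subtype.val (mul_comm' (⟨a, ha'⟩ : H) ⟨b, hb'⟩), (hb H hH).2⟩)
    refine ⟨m, fun i => (C i.val).map S.subtype, ?_, ?_, fun i => hsc _, fun i => ?_⟩
    · show (C ((0 : Fin (m + 1)) : ℕ)).map S.subtype = ⊥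
      rw [Fin.val_zero, h0, Subgroup.map_bot]
    · show (C ((Fin.last m : Fin (m + 1)) : ℕ)).map S.subtype = S
      rw [Fin.val_last, hm, ← MonoidHom.range_eq_map, Subgroup.range_subtype]
    · show (C (i.castSucc : ℕ)).map S.subtype ≤ (C (i.succ : ℕ)).map S.subtype ∧
        ∃ x ∈ S, (C (i.succ : ℕ)).map S.subtype
          = (C (i.castSucc : ℕ)).map S.subtype ⊔ Subgroup.zpowers x
      rw [Fin.val_castSucc, Fin.val_succ]
      obtain ⟨h1, x, hx⟩ := hstep i i.2
      refine ⟨Subgroup.map_mono h1, x, x.2, ?_⟩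
      rw [hx, Subgroup.map_sup, MonoidHom.map_zpowers]
      rfl

end Cfsg.Agent.S5283
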