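import Cfsg.Statements.S5284
import Cfsg.Agent.H86.AbelSS

set_option autoImplicit false
open Cfsg

namespace Cfsg.Agent.S5284

/-- Let S be a finite abelian p-group. Every saturated fusion system over S is supersoluble (S has a chain of F-strongly closed subgroups from 1 to S with cyclic steps) if and only if the invariants of S are pairwise distinct, that is, S is not isomorphic to a direct product (Z/p^n × Z/p^n) × H with n ≥ 1. -/
theorem result {Ω : Type*} [Group Ω] {S : Subgroup Ω} [Finite S] (p : ℕ) [Fact p.Prime] (hS : IsPGroup p ↥S) (hab : IsMulCommutative ↥S) : (∀ F : Cfsg.FusionSystem S, F.IsSaturated p → (∃ (m : ℕ) (c : Fin (m + 1) → Subgroup Ω), c 0 = ⊥ ∧ c (Fin.last m) = S ∧ (∀ i : Fin (m + 1), F.StronglyClosed (c i)) ∧ ∀ i : Fin m, c i.castSucc ≤ c i.succ ∧ ∃ x ∈ S, c i.succ = c i.castSucc ⊔ Subgroup.zpowers x)) ↔ ¬ ∃ (n : ℕ) (H : Type) (_ : CommGroup H), 0 < n ∧ Nonempty (↥S ≃* (Multiplicative (ZMod (p ^ n)) × Multiplicative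 (ZMod (p ^ n))) × H) := by
  have hcomm : ∀ a b : S, a * b = b * a := fun a b => mul_comm' a b
  constructor
  · rintro hyp ⟨n, H, instH, hn, ⟨e⟩⟩
    have hchain : ∀ F : Cfsg.FusionSystem S, F.IsSaturated p →
        ∃ (m : ℕ) (C : ℕ → Subgroup S), Cfsg.Agent.H86.CycChain F m C := by
      intro F hF
      obtain ⟨m, c, h0, hm, hsc, hstep⟩ := hyp F hF
      exact ⟨m, Cfsg.Agent.H86.chain_to_nat h0 hm hsc hstep⟩
    obtain ⟨K, hK1, hK2⟩ := Cfsg.Agent.H86.exists_bad_aut (p := p) hn e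
    exact hK2 (Cfsg.Agent.H86.aut_of_cycChain hS hchain K hK1)
  · intro hno F hF
    obtain ⟨m, C, hC⟩ := Cfsg.Agent.H86.exists_cycChain_of_no_repeat hS hcomm hno hF
    exact ⟨m, Cfsg.Agent.H86.exists_fin_chain hC⟩

end Cfsg.Agent.S5284
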