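import Cfsg.Statements.S5287
import Cfsg.Agent.S5283
import Cfsg.Agent.H29.MetaSS

set_option autoImplicit false
open Cfsg

namespace Cfsg.Agent.S5287

/-- Let S be a finite metacyclic p-group (an extension of a cyclic group by a cyclic group). Every saturated fusion system over S is supersoluble (S has a chain of F-strongly closed subgroups from 1 to S with cyclic steps) if and only if S is not homocyclic of rank two (isomorphic to Z/p^n × Z/p^n with n ≥ 1) and, when p = 2, S is not dihedral of order at least 4, not quasi-dihedral (semidihedral) and not generalized quaternion of order at least 8. -/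
theorem result {Ω : Type*} [Group Ω] {S : Subgroup Ω} [Finite S] (p : ℕ) [Fact p.Prime] (hS : IsPGroup p ↥S) (hm : Cfsg.IsMetacyclic ↥S) : (∀ F : Cfsg.FusionSystem S, F.IsSaturated p → (∃ (m : ℕ) (c : Fin (m + 1) → Subgroup Ω), c 0 = ⊥ ∧ c (Fin.last m) = S ∧ (∀ i : Fin (m + 1), F.StronglyClosed (c i)) ∧ ∀ i : Fin m, c i.castSucc ≤ c i.succ ∧ ∃ x ∈ S, c i.succ = c i.castSucc ⊔ Subgroup.zpowers x)) ↔ ¬ ((∃ n : ℕ, 0 < n ∧ Nonempty (↥S ≃* Multiplicative (ZMod (p ^ n)) × Multiplicative (ZMod (p ^ n)))) ∨ (p = 2 ∧ ((∃ n : ℕ, 2 ≤ n ∧ Nonempty (↥S ≃* DihedralGroup n)) ∨ Cfsg.IsQuasiDihedral ↥S ∨ (∃ n : ℕ, 2 ≤ n ∧ Nonempty (↥S ≃* QuaternionGroup n))))) := by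
  rw [Cfsg.Agent.S5283.result p hS]
  constructor
  · rintro ⟨h1, h2⟩ hbad
    exact Cfsg.Agent.H29.MSS.bad_not p hS hbad h1 h2
  · intro hbad
    refine ⟨fun F hF => Cfsg.Agent.H29.MSS.r1 p hS hm (fun h => hbad (Or.inr h)) F hF,
      fun H hH => ?_⟩
    by_cases hp : p = 2
    · subst hp
      exact Cfsg.Agent.H29.MSS.r2_two hS hm (fun h => hbad (Or.inl h))
        (fun h => hbad (Or.inr ⟨rfl, Or.inr (Or.inr ⟨2, le_rfl, h⟩)⟩)) H hH
    · exact Cfsg.Agent.H29.MSS.r2_odd p hp hS hm (fun h => hbad (Or.inl h)) H hH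

end Cfsg.Agent.S5287
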