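import Cfsg.Statements.S5290
import Cfsg.Agent.H90.NormalAut
import Cfsg.Agent.H90.AbelianFus

set_option autoImplicit false
set_option maxHeartbeats 1000000
open Cfsg

namespace Cfsg.Agent.S5290

open Cfsg.FusionSystem Cfsg.Agent.H86 Cfsg.Agent.H90

/-- Let F be a saturated fusion system over a finite p-group S and Q a subgroup of S. Then Q is normal in F (F = N_F(Q)) if and only if the inner fusion system of Q, consisting of the conjugations by elements of Q on subgroups of Q, is a weakly normal subsystem of F (both saturated, Q strongly closed, invariant under F-conjugation, with the Frattini property). -/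
theorem result {Ω : Type*} [Group Ω] {S : Subgroup Ω} [Finite S] (p : ℕ) [Fact p.Prime] (hS : IsPGroup p S)
    (F : Cfsg.FusionSystem S) (hF : F.IsSaturated p)
    (Q : Subgroup Ω) (hQ : Q ≤ S) :
    F.IsNormal Q ↔ (Cfsg.innerFusionSystem Q).IsWeaklyNormalIn F p := by
  haveI : Finite Q := finite_of_le hQ
  have hQp : IsPGroup p Q := hS.to_le hQ
  constructor
  · intro hN
    refine ⟨innerFusionSystem_saturated Q p hQp, hF, ?_, IsNormal.stronglyClosed hN, ?_, ?_⟩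
    · rintro P φ ⟨hP, g, hg, H⟩
      have : φ = conjHom P g := by
        ext x
        rw [H]; rfl
      rw [this]
      exact F.conj_mem (hP.trans hQ) (hQ hg)
    · rintro P hPT φ ⟨hP, g, hg, H⟩ α _
      have hP' : (P.subgroupOf Q).map (Q.subtype.comp α.toMonoidHom) ≤ Q := by
        rintro _ ⟨y, -, rfl⟩
        exact (α y).2
      refine ⟨conjHom _ ((α ⟨g, hg⟩ : Q) : Ω), (innerFusionSystem Q).conj_mem hP' (α ⟨g, hg⟩).2,
        fun x hφx hαx => ?_⟩
      have h1 : (⟨φ x, hφx⟩ : Q) = ⟨g, hg⟩ * ⟨x, hPT x.2⟩ * (⟨g, hg⟩ : Q)⁻¹ := Subtype.ext (H x)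
      rw [h1, map_mul, map_mul, map_inv]
      rfl
    · intro P hPQ φ hφ
      obtain ⟨g, hg, himg, hgf⟩ := (isNormal_iff_extends_aut hS hF hQ).1 hN P hPQ _ (mor_extFun hφ)
      refine ⟨mkAut hg himg, mkAut_mem hg himg, conjHom P 1, (innerFusionSystem Q).conj_mem hPQ Q.one_mem,
        fun x hx => ?_⟩
      rw [mkAut_apply]
      have h1 : conjHom P (1 : Ω) x = (x : Ω) := by simp [conjHom]
      show φ x = g (conjHom P (1 : Ω) x)
      rw [h1, hgf x x.2, extFun_apply]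
  · rintro ⟨-, -, -, hsc, -, hfr⟩
    apply isNormal_of_extends_aut hS hF hQ
    intro P hPQ f hf
    obtain ⟨φ, hφ, hφf⟩ := hf
    obtain ⟨α, hα, φ₀, ⟨-, q, hq, H⟩, hαφ⟩ := hfr P hPQ φ hφ
    have hαm := (mem_autGroup_iff hQ α).1 hα
    have hg : Mor F Q (autFun Q α ∘ (fun x => q * x * q⁻¹)) :=
      (Mor.conj F hQ (hQ hq)).comp hαm (fun x hx => Q.mul_mem (Q.mul_mem hq hx) (Q.inv_mem hq))
    refine ⟨_, hg, imgS_eq_of_maps hg (fun x hx => autFun_mem α (Q.mul_mem (Q.mul_mem hq hx) (Q.inv_mem hq))),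
      fun x hx => ?_⟩
    have hmem : q * x * q⁻¹ ∈ Q := Q.mul_mem (Q.mul_mem hq (hPQ hx)) (Q.inv_mem hq)
    have hx' : φ₀ ⟨x, hx⟩ ∈ Q := by rw [H]; exact hmem
    have e : (⟨φ₀ ⟨x, hx⟩, hx'⟩ : Q) = ⟨q * x * q⁻¹, hmem⟩ := Subtype.ext (H ⟨x, hx⟩)
    show autFun Q α (q * x * q⁻¹) = f x
    rw [← hφf ⟨x, hx⟩, hαφ ⟨x, hx⟩ hx', e, autFun_of_mem α hmem]

end Cfsg.Agent.S5290
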