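import Cfsg.Statements.S5291
import Cfsg.Agent.H90.NormalAut
import Cfsg.Agent.H86.FusExt
import Cfsg.Agent.H88.Basic

set_option autoImplicit false
set_option maxHeartbeats 2000000
open Cfsg

namespace Cfsg.Agent.S5291

open Cfsg.FusionSystem Cfsg.Agent.H86 Cfsg.Agent.H90

section
variable {Ω : Type*} [Group Ω]

/-- A subgroup generated by elements each lying in a normal subgroup inside it is normal. -/
lemma isNormal_of_generated {T : Subgroup Ω} [Finite T] (E : FusionSystem T) (G : Set Ω)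
    (h : ∀ g ∈ G, ∃ Q' : Subgroup Ω, E.IsNormal Q' ∧ Q' ≤ Subgroup.closure G ∧ g ∈ Q') :
    E.IsNormal (Subgroup.closure G) := by
  classical
  have hfin : {Q' : Subgroup Ω | E.IsNormal Q' ∧ Q' ≤ Subgroup.closure G}.Finite :=
    (H88.finite_subgroups_le T).subset fun Q hQ => hQ.1.1
  have hn := H88.isNormal_finset_sup E hfin.toFinset (fun Q hQ => by
    have := (Set.Finite.mem_toFinset hfin).1 hQ
    exact this.1)
  have he : hfin.toFinset.sup id = Subgroup.closure G := by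
    apply le_antisymm
    · apply Finset.sup_le
      intro Q hQ
      exact ((Set.Finite.mem_toFinset hfin).1 hQ).2
    · rw [Subgroup.closure_le]
      intro g hg
      obtain ⟨Q', hQ'n, hQ'le, hgQ'⟩ := h g hg
      have hmem : Q' ∈ hfin.toFinset := (Set.Finite.mem_toFinset hfin).2 ⟨hQ'n, hQ'le⟩
      exact (Finset.le_sup (f := id) hmem) hgQ'
  rw [← he]
  exact hn

end

/-- Let F be a saturated fusion system over a finite p-group S and E a weakly normal subsystem of F over a subgroup T. Suppose a subgroup R of T is normal in E (E = N_E(R)), and let R* be the subgroup of T generated by the images of R under all maps of F with source R. Then R* is normal in F (F = N_F(R*)). -/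
theorem result {Ω : Type*} [Group Ω] {S : Subgroup Ω} [Finite S] (p : ℕ) [Fact p.Prime] (hS : IsPGroup p S)
    (F : Cfsg.FusionSystem S) (hF : F.IsSaturated p)
    {T : Subgroup Ω} (E : Cfsg.FusionSystem T) (hE : E.IsWeaklyNormalIn F p)
    (R : Subgroup Ω) (hR : E.IsNormal R) :
    F.IsNormal (Subgroup.closure {x : Ω | ∃ φ ∈ F.Hom R, ∃ r : R, x = φ r}) := by
  obtain ⟨hEsat, -, hEF, hT, hinv, hfr⟩ := hE
  have hTS : T ≤ S := hT.1
  haveI : Finite T := finite_of_le hTS
  have hRT : R ≤ T := hR.1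
  haveI : Finite R := finite_of_le (hRT.trans hTS)
  have hT' := (stronglyClosed_iff.1 hT).2
  have hEF' : ∀ (P : Subgroup Ω) (f : Ω → Ω), Mor E P f → Mor F P f := by
    rintro P f ⟨φ, hφ, hφf⟩
    exact ⟨φ, hEF P hφ, hφf⟩
  -- Mor-forms of the Frattini and invariance conditions
  have hfr' : ∀ P : Subgroup Ω, P ≤ T → ∀ f, Mor F P f →
      ∃ α ∈ F.autGroup T, ∃ f₀, Mor E P f₀ ∧ ∀ x ∈ P, f x = autFun T α (f₀ x) := by
    intro P hP f hf
    obtain ⟨φ, hφ, hφf⟩ := hf
    obtain ⟨α, hα, φ₀, hφ₀, H⟩ := hfr P hP φ hφ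
    refine ⟨α, hα, extFun P φ₀, mor_extFun hφ₀, fun x hx => ?_⟩
    have hx' : φ₀ ⟨x, hx⟩ ∈ T := (E.le_of_mem hφ₀).2 ⟨x, hx⟩
    rw [← hφf ⟨x, hx⟩, H ⟨x, hx⟩ hx', extFun_of_mem P φ₀ hx, autFun_of_mem α hx']
  have hinv' : ∀ P : Subgroup Ω, P ≤ T → ∀ f, Mor E P f → ∀ α ∈ F.autGroup T,
      ∃ χ, Mor E (imgS P (autFun T α)) χ ∧ ∀ x ∈ P, χ (autFun T α x) = autFun T α (f x) := by
    intro P hPT f hf α hα
    obtain ⟨φ, hφ, hφf⟩ := hf
    obtain ⟨χ, hχ, H⟩ := hinv P hPT φ hφ α hα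
    have hαm := (mem_autGroup_iff hTS α).1 hα
    have hsub : (P.subgroupOf T).map (T.subtype.comp α.toMonoidHom) = imgS P (autFun T α) := by
      ext y
      rw [(hαm.restrict hPT).mem_imgS, Subgroup.mem_map]
      constructor
      · rintro ⟨t, ht, rfl⟩
        exact ⟨t, Subgroup.mem_subgroupOf.1 ht, autFun_apply α t⟩
      · rintro ⟨x, hx, rfl⟩
        exact ⟨⟨x, hPT hx⟩, Subgroup.mem_subgroupOf.2 hx, (autFun_of_mem α (hPT hx)).symm⟩
    refine ⟨extFun _ χ, hsub ▸ mor_extFun hχ, fun x hx => ?_⟩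
    have hφx : φ ⟨x, hx⟩ ∈ T := (E.le_of_mem hφ).2 ⟨x, hx⟩
    have hαx : ((α ⟨x, hPT hx⟩ : T) : Ω) ∈ (P.subgroupOf T).map (T.subtype.comp α.toMonoidHom) :=
      Subgroup.mem_map.2 ⟨⟨x, hPT hx⟩, Subgroup.mem_subgroupOf.2 hx, rfl⟩
    rw [autFun_of_mem α (hPT hx), extFun_of_mem _ χ hαx, H ⟨x, hx⟩ hφx hαx, ← hφf ⟨x, hx⟩,
      autFun_of_mem α hφx]
  -- images of E-normal subgroups under automorphisms of T in F are E-normal
  have hRsc := IsNormal.stronglyClosed hR
  have himgN : ∀ α ∈ F.autGroup T, E.IsNormal (imgS R (autFun T α)) := by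
    intro α hα
    have hαm := (mem_autGroup_iff hTS α).1 hα
    have hαinv : α⁻¹ ∈ F.autGroup T := inv_mem hα
    have hαinvm := (mem_autGroup_iff hTS α⁻¹).1 hαinv
    have hR'T : imgS R (autFun T α) ≤ T := by
      intro y hy
      obtain ⟨x, hx, rfl⟩ := (hαm.restrict hRT).mem_imgS.1 hy
      exact autFun_mem α (hRT hx)
    haveI : Finite (imgS R (autFun T α)) := finite_of_le (hR'T.trans hTS)
    rw [isNormal_iff]
    refine ⟨hR'T, fun P g hg => ?_⟩
    have hPT : P ≤ T := hg.le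
    obtain ⟨χ, hχ, hχe⟩ := hinv' P hPT g hg α⁻¹ hαinv
    obtain ⟨χ', hχ', hχ'χ, hχ'R⟩ := (isNormal_iff.1 hR).2 _ χ hχ
    have hP₁T : imgS P (autFun T α⁻¹) ⊔ R ≤ T := hχ'.le
    obtain ⟨χ'', hχ'', hχ''e⟩ := hinv' _ hP₁T χ' hχ' α hα
    have himg1 : imgS (imgS P (autFun T α⁻¹)) (autFun T α) = P := by
      ext y
      rw [(hαm.restrict (le_sup_left.trans hP₁T)).mem_imgS]
      constructor
      · rintro ⟨z, hz, rfl⟩
        obtain ⟨x, hx, rfl⟩ := (hαinvm.restrict hPT).mem_imgS.1 hz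
        rw [autFun_apply_inv α (hPT hx)]
        exact hx
      · intro hy
        exact ⟨autFun T α⁻¹ y, (hαinvm.restrict hPT).mem_imgS_of_mem hy, autFun_apply_inv α (hPT hy)⟩
    have himg2 : imgS (imgS P (autFun T α⁻¹) ⊔ R) (autFun T α) = P ⊔ imgS R (autFun T α) := by
      rw [Mor.imgS_sup (hαm.restrict hP₁T), himg1]
    rw [himg2] at hχ''
    refine ⟨χ'', hχ'', fun x hx => ?_, ?_⟩
    · have h1 : autFun T α⁻¹ x ∈ imgS P (autFun T α⁻¹) := (hαinvm.restrict hPT).mem_imgS_of_mem hx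
      have h2 := hχ''e _ (Subgroup.mem_sup_left h1)
      rw [autFun_apply_inv α (hPT hx), hχ'χ _ h1, hχe x hx, autFun_apply_inv α (hg.mem hx)] at h2
      exact h2
    · refine imgS_eq_of_maps (hχ''.restrict le_sup_right) (fun y hy => ?_)
      obtain ⟨r, hr, rfl⟩ := (hαm.restrict hRT).mem_imgS.1 hy
      rw [hχ''e r (Subgroup.mem_sup_right hr)]
      refine (hαm.restrict hRT).mem_imgS_of_mem ?_
      have := (hχ'.restrict le_sup_right).mem_imgS_of_mem hr
      rwa [hχ'R] at this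
  -- each image of R under a map of F is E-normal
  have himgF : ∀ f, Mor F R f → E.IsNormal (imgS R f) := by
    intro f hf
    obtain ⟨α, hα, f₀, hf₀, hff₀⟩ := hfr' R hRT f hf
    have hαm := (mem_autGroup_iff hTS α).1 hα
    have hf₀R : imgS R f₀ = R :=
      imgS_eq_of_maps hf₀ (fun y hy => (stronglyClosed_iff.1 hRsc).2 R f₀ le_rfl hf₀ y hy)
    have : imgS R f = imgS R (autFun T α) := by
      ext y
      rw [hf.mem_imgS, (hαm.restrict hRT).mem_imgS]
      constructor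
      · rintro ⟨x, hx, rfl⟩
        refine ⟨f₀ x, ?_, (hff₀ x hx).symm⟩
        have := hf₀.mem_imgS_of_mem hx
        rwa [hf₀R] at this
      · rintro ⟨z, hz, rfl⟩
        rw [← hf₀R] at hz
        obtain ⟨x, hx, rfl⟩ := hf₀.mem_imgS.1 hz
        exact ⟨x, hx, hff₀ x hx⟩
    rw [this]
    exact himgN α hα
  set G : Set Ω := {x : Ω | ∃ φ ∈ F.Hom R, ∃ r : R, x = φ r} with hG
  have hGX : ∀ f, Mor F R f → imgS R f ≤ Subgroup.closure G := by
    intro f hf y hy
    obtain ⟨x, hx, rfl⟩ := hf.mem_imgS.1 hy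
    obtain ⟨φ, hφ, hφf⟩ := hf
    exact Subgroup.subset_closure ⟨φ, hφ, ⟨x, hx⟩, (hφf ⟨x, hx⟩).symm⟩
  have hXE : E.IsNormal (Subgroup.closure G) := by
    apply isNormal_of_generated E G
    rintro g ⟨φ, hφ, r, rfl⟩
    refine ⟨imgS R (extFun R φ), himgF _ (mor_extFun hφ), hGX _ (mor_extFun hφ), ?_⟩
    rw [← extFun_apply R φ r]
    exact (mor_extFun hφ).mem_imgS_of_mem r.2
  have hXT : Subgroup.closure G ≤ T := hXE.1
  haveI : Finite (Subgroup.closure G) := finite_of_le (hXT.trans hTS)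
  -- invariance of the closure under automorphisms of T
  have hXinv : ∀ α ∈ F.autGroup T, ∀ x ∈ Subgroup.closure G, autFun T α x ∈ Subgroup.closure G := by
    intro α hα x hx
    have hαm := (mem_autGroup_iff hTS α).1 hα
    have key : x ∈ T ∧ autFun T α x ∈ Subgroup.closure G := by
      induction hx using Subgroup.closure_induction with
      | mem y hy =>
        obtain ⟨φ, hφ, r, rfl⟩ := hy
        have hφm := mor_extFun hφ
        have hyT : φ r ∈ T := by
          have := hT' R _ hRT hφm r r.2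
          rwa [extFun_apply] at this
        refine ⟨hyT, ?_⟩
        have hcomp : Mor F R (autFun T α ∘ extFun R φ) :=
          hφm.comp hαm (fun z hz => hT' R _ hRT hφm z hz)
        have h1 := hGX _ hcomp (hcomp.mem_imgS_of_mem r.2)
        have h2 : (autFun T α ∘ extFun R φ) r = autFun T α (φ r) := by
          show autFun T α (extFun R φ r) = _
          rw [extFun_apply]
        rwa [h2] at h1
      | one => exact ⟨T.one_mem, by rw [hαm.map_one]; exact Subgroup.one_mem _⟩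
      | mul y z _ _ hy hz =>
        refine ⟨T.mul_mem hy.1 hz.1, ?_⟩
        rw [hαm.map_mul hy.1 hz.1]
        exact Subgroup.mul_mem _ hy.2 hz.2
      | inv y _ hy =>
        refine ⟨T.inv_mem hy.1, ?_⟩
        rw [hαm.map_inv hy.1]
        exact Subgroup.inv_mem _ hy.2
    exact key.2
  -- normality in F
  apply isNormal_of_extends_aut hS hF (hXT.trans hTS)
  intro P hPX f hf
  obtain ⟨α, hα, f₀, hf₀, hff₀⟩ := hfr' P (hPX.trans hXT) f hf
  have hαm := (mem_autGroup_iff hTS α).1 hα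
  obtain ⟨f₀', hf₀', hf₀'f₀, hf₀'X⟩ := (isNormal_iff.1 hXE).2 P f₀ hf₀
  have hf₀'Xm : Mor E (Subgroup.closure G) f₀' := hf₀'.restrict le_sup_right
  have hmaps : ∀ x ∈ Subgroup.closure G, f₀' x ∈ Subgroup.closure G := by
    intro x hx
    have := hf₀'Xm.mem_imgS_of_mem hx
    rwa [hf₀'X] at this
  have hg : Mor F (Subgroup.closure G) (autFun T α ∘ f₀') :=
    (hEF' _ _ hf₀'Xm).comp hαm (fun x hx => hXT (hmaps x hx))
  refine ⟨_, hg, imgS_eq_of_maps hg (fun x hx => hXinv α hα _ (hmaps x hx)), fun x hx => ?_⟩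
  show autFun T α (f₀' x) = f x
  rw [hf₀'f₀ x hx, hff₀ x hx]

end Cfsg.Agent.S5291
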