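import Cfsg.Statements.S5292
import Cfsg.Agent.H90.PSolvReal

set_option autoImplicit false
universe u
open Cfsg

namespace Cfsg.Agent.S5292

/-- Let F be a saturated fusion system over a finite p-group S. Then F is the fusion system of some finite p-solvable group on a Sylow p-subgroup if and only if F is constrained (some subgroup normal in F is centric in F) and the group of automorphisms that F induces on its largest normal subgroup O_p(F) is p-solvable. -/
theorem result {Ω : Type u} [Group Ω] {S : Subgroup Ω} [Finite S] (p : ℕ) [Fact p.Prime] (hS : IsPGroup p S)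
    (F : Cfsg.FusionSystem S) (hF : F.IsSaturated p) :
    (∃ (G : Type u) (_ : Group G) (_ : Finite G) (ι : S →* G), Cfsg.IsPSolvable p G ∧ F.IsRealizedBy ι ∧
        ∃ T : Sylow p G, (T : Subgroup G) = ι.range) ↔
      (F.IsConstrained p ∧ Cfsg.IsPSolvable p ↥(F.autGroup F.core)) := by
  classical
  constructor
  · rintro ⟨G, _, _, ι, hps, hreal, T, hT⟩
    haveI : (pPrimeCore p G).Normal := Cfsg.Agent.H80.pPrimeCore_normal p G
    have hK : (Nat.card (pPrimeCore p G)).Coprime p := Cfsg.Agent.H80.pPrimeCore_coprime p G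
    have hreal' := Cfsg.Agent.H90.isRealizedBy_quotient hS hreal (pPrimeCore p G) hK
    obtain ⟨T', hT'⟩ := Cfsg.Agent.H90.exists_sylow_quotient_range T hT (pPrimeCore p G)
    have hps' : IsPSolvable p (G ⧸ pPrimeCore p G) :=
      Cfsg.Agent.H80.isPSolvable_quotient p (pPrimeCore p G) hps
    have hred : pPrimeCore p (G ⧸ pPrimeCore p G) = ⊥ := Cfsg.Agent.H80.pPrimeCore_quotient_eq_bot p
    have hcen := Cfsg.Agent.H38.centralizer_pCore_le_of_isPSolvable hps' hred
    have hmodel : F.IsModel p (G ⧸ pPrimeCore p G) ((QuotientGroup.mk' (pPrimeCore p G)).comp ι) :=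
      ⟨inferInstance, hreal', ⟨T', hT'⟩, hcen⟩
    have hcon : F.IsConstrained p := Cfsg.Agent.H87.constrained_of_model hmodel
    refine ⟨hcon, ?_⟩
    obtain ⟨-, Q, hQn, hQc⟩ := hcon
    have hRn : F.IsNormal F.core := Cfsg.Agent.H88.isNormal_core F
    have hRc : F.IsCentric F.core := Cfsg.Agent.H87.isCentric_of_le hQc (le_sSup hQn) hRn.1
    haveI : Finite F.core := Cfsg.Agent.H86.finite_of_le hRn.1
    obtain ⟨hn, -⟩ := Cfsg.Agent.H87.model_normal_centric hmodel hRn hRc
    obtain ⟨ψ, hsurj, -, -⟩ := Cfsg.Agent.H90.exists_autHom hreal' hRn.1 hn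
    exact Cfsg.Agent.H14.isPSolvable_of_surjective p ψ hsurj hps'
  · rintro ⟨⟨-, Q, hQn, hQc⟩, hsol⟩
    have hRn : F.IsNormal F.core := Cfsg.Agent.H88.isNormal_core F
    have hRc : F.IsCentric F.core := Cfsg.Agent.H87.isCentric_of_le hQc (le_sSup hQn) hRn.1
    haveI : Finite F.core := Cfsg.Agent.H86.finite_of_le hRn.1
    obtain ⟨G, _, ι, hmodel, hn, hcen⟩ := Cfsg.Agent.H90.exists_model hS hF hRn hRc
    obtain ⟨hfin, hreal, ⟨T, hT⟩, -⟩ := hmodel
    haveI := hfin
    haveI := hn
    obtain ⟨ψ, hsurj, hker, -⟩ := Cfsg.Agent.H90.exists_autHom hreal hRn.1 hn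
    refine ⟨G, _, hfin, ι, ?_, hreal, T, hT⟩
    have hkp : IsPGroup p ψ.ker := by
      have h1 : ψ.ker ≤ (F.core.subgroupOf S).map ι := hker.trans hcen
      have h2 : IsPGroup p ((F.core.subgroupOf S).map ι) := by
        have h3 : IsPGroup p (F.core.subgroupOf S) := hS.to_subgroup _
        exact h3.map ι
      exact h2.to_le h1
    obtain ⟨m, hm⟩ := IsPGroup.iff_card.1 hkp
    have hq : IsPSolvable p (G ⧸ ψ.ker) :=
      Cfsg.Agent.H14.isPSolvable_of_surjective p
        (QuotientGroup.quotientKerEquivOfSurjective ψ hsurj).symm.toMonoidHom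
        (QuotientGroup.quotientKerEquivOfSurjective ψ hsurj).symm.surjective hsol
    exact Cfsg.Agent.H80.isPSolvable_of_normal p ψ.ker (Or.inl ⟨m, hm⟩) hq

end Cfsg.Agent.S5292
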