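import Cfsg.Statements.S5294
import Cfsg.Agent.H90.TransferSplit
import Cfsg.Agent.H86.FusExt
import Cfsg.Agent.H86.FusChain
import Cfsg.Agent.H86.FusSat
import Cfsg.Agent.H88.Basic

set_option autoImplicit false
set_option maxHeartbeats 2000000
open Cfsg

namespace Cfsg.Agent.S5294

open Cfsg.FusionSystem Cfsg.Agent.H86 Cfsg.Agent.H90
open scoped IsMulCommutative

universe u

/-- Let F be a saturated fusion system over a finite p-group S whose centre Z(S) lies in the largest subgroup O_p(F) normal in F. Then the centre Z(F) of F is a direct factor of Z(S): there is a subgroup K of Z(S) with Z(F) ∩ K = 1 and Z(F)K = Z(S). -/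
theorem result {Ω : Type u} [Group Ω] {S : Subgroup Ω} [Finite S] (p : ℕ) [Fact p.Prime] (hS : IsPGroup p S)
    (F : Cfsg.FusionSystem S) (hF : F.IsSaturated p) (hZ : (S ⊓ Subgroup.centralizer (S : Set Ω)) ≤ F.core) :
    ∃ K : Subgroup Ω, K ≤ (S ⊓ Subgroup.centralizer (S : Set Ω)) ∧ F.center ⊓ K = ⊥ ∧ F.center ⊔ K = (S ⊓ Subgroup.centralizer (S : Set Ω)) := by
  have hQn : F.IsNormal F.core := H88.isNormal_core F
  generalize F.core = Q at hQn hZ
  have hQS : Q ≤ S := hQn.1
  haveI : Finite Q := finite_of_le hQS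
  have hQp : IsPGroup p Q := hS.to_le hQS
  have hQsc := IsNormal.stronglyClosed hQn
  have hfn : F.IsFullyNormalized Q := by
    refine ⟨hQS, fun Q' hconj => ?_⟩
    obtain ⟨f, hf, rfl⟩ := isConj_iff.1 hconj
    have hle : imgS Q f ≤ Q := by
      intro y hy
      obtain ⟨x, hx, rfl⟩ := hf.mem_imgS.1 hy
      exact (stronglyClosed_iff.1 hQsc).2 Q f le_rfl hf x hx
    have heq : imgS Q f = Q := Subgroup.eq_of_le_of_card_ge hle (le_of_eq hf.card_imgS.symm)
    rw [heq]
  obtain ⟨R, hR⟩ := (saturated_fullyNormalized hS hF hfn).2.2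
  -- the action on the centre of Q
  have hcen : ∀ (g : MulAut Q) (v : Q), v ∈ Subgroup.center Q → g v ∈ Subgroup.center Q := by
    intro g v hv
    rw [Subgroup.mem_center_iff] at hv ⊢
    intro y
    have h1 := hv (g⁻¹ y)
    have h2 := congrArg g h1
    rw [map_mul, map_mul, MulAut.apply_inv_self] at h2
    exact h2
  let a : F.autGroup Q → Subgroup.center Q → Subgroup.center Q :=
    fun g v => ⟨(g : MulAut Q) (v : Q), hcen g v v.2⟩
  have ha_mul : ∀ g x y, a g (x * y) = a g x * a g y := by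
    intro g x y
    apply Subtype.ext
    show (g : MulAut Q) ((x : Q) * (y : Q)) = (g : MulAut Q) x * (g : MulAut Q) y
    rw [map_mul]
  have ha_comp : ∀ g h x, a (g * h) x = a g (a h x) := by
    intro g h x
    rfl
  have hMp : IsPGroup p (Subgroup.center Q) := hQp.to_subgroup _
  obtain ⟨k, hk⟩ := IsPGroup.iff_card.1 hMp
  have hcop : Nat.Coprime (R : Subgroup (F.autGroup Q)).index (Nat.card (Subgroup.center Q)) := by
    rw [hk]
    exact Nat.Coprime.pow_right k ((Nat.Prime.coprime_iff_not_dvd Fact.out).2 R.not_dvd_index).symm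
  obtain ⟨m, hm⟩ := exists_pow_inverse (Subgroup.center Q) _ hcop
  obtain ⟨K, hK1, hK2, hK3⟩ := exists_complement_fixSub (R : Subgroup (F.autGroup Q)) a ha_mul ha_comp m hm
  let j : Subgroup.center Q →* Ω := Q.subtype.comp (Subgroup.center Q).subtype
  have hj : Function.Injective j := fun x y h => Subtype.ext (Subtype.ext h)
  have hjv : ∀ v : Subgroup.center Q, j v = ((v : Q) : Ω) := fun v => rfl
  -- elements of Z(S) come from the centre of Q
  have hlift : ∀ x, x ∈ S ⊓ Subgroup.centralizer (S : Set Ω) → ∃ v : Subgroup.center Q, j v = x := by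
    intro x hx
    have hxQ : x ∈ Q := hZ hx
    have hxc := Subgroup.mem_centralizer_iff.1 hx.2
    refine ⟨⟨⟨x, hxQ⟩, ?_⟩, rfl⟩
    rw [Subgroup.mem_center_iff]
    intro y
    exact Subtype.ext (hxc y (hQS y.2))
  have hSN : S ≤ Subgroup.normalizer (Q : Set Ω) := stronglyClosed_le_normalizer hQsc
  have hA : (fixSub a ha_mul ((R : Subgroup (F.autGroup Q)) : Set (F.autGroup Q))).map j
      = S ⊓ Subgroup.centralizer (S : Set Ω) := by
    ext x
    constructor
    · rintro ⟨v, hv, rfl⟩
      refine ⟨hQS (v : Q).2, Subgroup.mem_centralizer_iff.2 ?_⟩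
      intro s hs
      obtain ⟨cs, hcs⟩ := exists_conjAut (hSN hs)
      have hcsA : cs ∈ autInducedBy S Q := (mem_autInducedBy_iff S Q cs).2 ⟨s, hs, hcs⟩
      have hcsF : cs ∈ F.autGroup Q := autInducedBy_le_autGroup F hQS hcsA
      have hcsR : (⟨cs, hcsF⟩ : F.autGroup Q) ∈ (R : Subgroup (F.autGroup Q)) := by
        rw [hR]; exact Subgroup.mem_subgroupOf.2 hcsA
      have h1 := mem_fixSub.1 hv ⟨cs, hcsF⟩ hcsR
      have h2 : ((cs (v : Q) : Q) : Ω) = ((v : Q) : Ω) := congrArg (fun w : Subgroup.center Q => ((w : Q) : Ω)) h1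
      rw [hcs] at h2
      rw [hjv]
      calc s * ((v : Q) : Ω) = (s * ((v : Q) : Ω) * s⁻¹) * s := by group
        _ = ((v : Q) : Ω) * s := by rw [h2]
    · intro hx
      obtain ⟨v, rfl⟩ := hlift x hx
      refine Subgroup.mem_map_of_mem j ?_
      rw [mem_fixSub]
      intro h hh
      have hh' : (h : MulAut Q) ∈ autInducedBy S Q := by
        have : h ∈ (R : Subgroup (F.autGroup Q)) := hh
        rw [hR] at this
        exact Subgroup.mem_subgroupOf.1 this
      obtain ⟨s, hs, Hs⟩ := (mem_autInducedBy_iff S Q _).1 hh'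
      apply Subtype.ext
      apply Subtype.ext
      show (((h : MulAut Q) (v : Q) : Q) : Ω) = ((v : Q) : Ω)
      rw [Hs]
      have hc := Subgroup.mem_centralizer_iff.1 hx.2 s hs
      rw [hjv] at hc
      rw [hc]; group
  have hcentral := H88.isCentral_center F
  have hB : (fixSub a ha_mul (Set.univ : Set (F.autGroup Q))).map j = F.center := by
    apply le_antisymm
    · have hW : F.IsCentral ((fixSub a ha_mul (Set.univ : Set (F.autGroup Q))).map j) := by
        rw [isCentral_iff_conjElt hS hF]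
        refine ⟨?_, ?_⟩
        · rintro _ ⟨v, -, rfl⟩
          exact hQS (v : Q).2
        · rintro _ ⟨v, hv, rfl⟩ y hy
          obtain ⟨f, hf, rfl⟩ := isConjElt_iff.1 hy
          obtain ⟨f', hf', hf'f, hf'Q⟩ := (isNormal_iff.1 hQn).2 _ f hf
          have hf'Qm : Mor F Q f' := hf'.restrict le_sup_right
          have hgF : mkAut hf'Qm hf'Q ∈ F.autGroup Q := mkAut_mem hf'Qm hf'Q
          have h1 := mem_fixSub.1 hv ⟨mkAut hf'Qm hf'Q, hgF⟩ (Set.mem_univ _)
          have h2 : (((mkAut hf'Qm hf'Q) (v : Q) : Q) : Ω) = ((v : Q) : Ω) :=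
            congrArg (fun w : Subgroup.center Q => ((w : Q) : Ω)) h1
          rw [mkAut_apply] at h2
          rw [← hf'f _ (Subgroup.mem_zpowers _), hjv, h2]
      exact le_sSup hW
    · intro x hx
      obtain ⟨hcS, hcext⟩ := isCentral_iff.1 hcentral
      have hxZ : x ∈ S ⊓ Subgroup.centralizer (S : Set Ω) := by
        refine ⟨hcS hx, Subgroup.mem_centralizer_iff.2 ?_⟩
        intro s hs
        obtain ⟨f', hf', hf'f, hf'c⟩ := hcext S _ (Mor.conj F le_rfl hs)
        have h1 := hf'f x (hcS hx)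
        rw [hf'c x hx] at h1
        calc s * x = (s * x * s⁻¹) * s := by group
          _ = x * s := by rw [← h1]
      obtain ⟨v, rfl⟩ := hlift x hxZ
      refine Subgroup.mem_map_of_mem j ?_
      rw [mem_fixSub]
      intro g _
      have hgm : Mor F Q (autFun Q (g : MulAut Q)) := (mem_autGroup_iff hQS _).1 g.2
      obtain ⟨f', hf', hf'f, hf'c⟩ := hcext Q _ hgm
      have h1 := hf'f (j v) (v : Q).2
      rw [hf'c _ hx, hjv, autFun_apply] at h1
      apply Subtype.ext
      apply Subtype.ext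
      exact h1.symm
  refine ⟨K.map j, ?_, ?_, ?_⟩
  · rw [← hA]; exact Subgroup.map_mono hK1
  · rw [← hB, ← Subgroup.map_inf _ _ j hj, hK2, Subgroup.map_bot]
  · rw [← hB, ← Subgroup.map_sup, hK3, hA]

end Cfsg.Agent.S5294
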