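import Cfsg.Statements.S5297
import Cfsg.Agent.H90.SmallFus

set_option autoImplicit false
universe u
open Cfsg

namespace Cfsg.Agent.S5297

open Cfsg.FusionSystem Cfsg.Agent.H86 Cfsg.Agent.H89 Cfsg.Agent.H90

/-- Let F be a saturated fusion system over a finite p-group S. If every map of F between cyclic subgroups of the hyperfocal subgroup of F of order p or 4 is a map of the normalizer system of S (it extends to a map of F defined on all of S), then S is normal in F. -/
theorem result {Ω : Type u} [Group Ω] {S : Subgroup Ω} [Finite S] (p : ℕ) [Fact p.Prime] (hS : IsPGroup p S)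
    (F : Cfsg.FusionSystem S) (hF : F.IsSaturated p)
    (h : ∀ A B : Subgroup Ω, A ≤ (F.hyperfocalSubgroup p) → B ≤ (F.hyperfocalSubgroup p) → IsCyclic ↥A → (Nat.card ↥A = p ∨ Nat.card ↥A = 4) → IsCyclic ↥B → (Nat.card ↥B = p ∨ Nat.card ↥B = 4) →
      F.homSet A B ⊆ F.normalizerHom S A) :
    F.IsNormal S := by
  rw [isNormal_iff_stronglyClosed hS hF]
  refine ⟨⟨le_rfl, fun R _ φ hφ x => (F.le_of_mem hφ).2 x⟩, fun U hUc hUr => ?_⟩
  have hUS : U ≤ S := hUc.1
  apply top_le_centric_radical hS hUc hUr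
  intro d hdS α hα hαA
  apply conjClosure_trivial_of_cyclic hS hF hUS ?_ α hαA (fun x _ _ => ⟨d, hdS, hα x⟩)
  intro x hx hxs γ hγ
  by_cases hx1 : (x : Ω) = 1
  · refine ⟨fun y => y, Mor.id F le_rfl, ?_⟩
    have : x = 1 := Subtype.ext hx1
    rw [this, map_one]
  obtain ⟨φ, hφ, hφx⟩ := exists_hom_zpowers hUS hγ x
  have hγx : ((γ x : U) : Ω) ∈ F.hyperfocalSubgroup p :=
    Subgroup.mem_subgroupOf.1 (aut_mem_hyperfocal hS hF hUS hγ (Subgroup.mem_subgroupOf.2 hx))
  have hγxs : Small p ((γ x : U) : Ω) := small_coe_iff.2 ((small_coe_iff.1 hxs).aut γ)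
  have hγx1 : ((γ x : U) : Ω) ≠ 1 := by
    intro h1
    apply hx1
    have h2 : γ x = 1 := Subtype.ext h1
    have h3 : x = 1 := (map_eq_one_iff γ γ.injective).1 h2
    rw [h3]
    rfl
  have hmem := h (Subgroup.zpowers (x : Ω)) (Subgroup.zpowers ((γ x : U) : Ω))
    ((Subgroup.zpowers_le).2 hx) ((Subgroup.zpowers_le).2 hγx) inferInstance
    (card_zpowers_of_small hxs hx1) inferInstance (card_zpowers_of_small hγxs hγx1) hφ
  obtain ⟨-, -, -, ψ, hψ, hext, -⟩ := hmem
  refine ⟨extFun _ ψ, (mor_extFun hψ).restrict le_sup_right, ?_⟩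
  rw [← hφx, ← hext ⟨x, Subgroup.mem_zpowers _⟩]
  exact extFun_apply _ ψ (Subgroup.inclusion le_sup_left ⟨(x : Ω), Subgroup.mem_zpowers _⟩)

end Cfsg.Agent.S5297
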