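import Cfsg.Statements.S5298
import Cfsg.Agent.H90.SmallFus
import Cfsg.Agent.H88.Quasi

set_option autoImplicit false
universe u
open Cfsg

namespace Cfsg.Agent.S5298

open Cfsg.FusionSystem Cfsg.Agent.H86 Cfsg.Agent.H89 Cfsg.Agent.H90

/-- Let F be a saturated fusion system over a finite p-group S. If every map of F between cyclic subgroups of the hyperfocal subgroup of F of order p or 4 is conjugation by an element of S, then F is the inner fusion system of S. -/
theorem result {Ω : Type u} [Group Ω] {S : Subgroup Ω} [Finite S] (p : ℕ) [Fact p.Prime] (hS : IsPGroup p S)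
    (F : Cfsg.FusionSystem S) (hF : F.IsSaturated p)
    (h : ∀ A B : Subgroup Ω, A ≤ (F.hyperfocalSubgroup p) → B ≤ (F.hyperfocalSubgroup p) → IsCyclic ↥A → (Nat.card ↥A = p ∨ Nat.card ↥A = 4) → IsCyclic ↥B → (Nat.card ↥B = p ∨ Nat.card ↥B = 4) →
      F.homSet A B ⊆ (Cfsg.innerFusionSystem S).Hom A) :
    ∀ P : Subgroup Ω, F.Hom P = (Cfsg.innerFusionSystem S).Hom P := by
  -- small elements of the hyperfocal subgroup are moved like conjugations by elements of `S`
  have hkey : ∀ (U : Subgroup Ω), U ≤ S → ∀ x : U, (x : Ω) ∈ F.hyperfocalSubgroup p →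
      Small p (x : Ω) → ∀ γ ∈ F.autGroup U, ∃ s ∈ S, ((γ x : U) : Ω) = s * x * s⁻¹ := by
    intro U hUS x hx hxs γ hγ
    by_cases hx1 : (x : Ω) = 1
    · refine ⟨1, S.one_mem, ?_⟩
      have : x = 1 := Subtype.ext hx1
      rw [this, map_one]
      simp
    obtain ⟨φ, hφ, hφx⟩ := exists_hom_zpowers hUS hγ x
    have hγx : ((γ x : U) : Ω) ∈ F.hyperfocalSubgroup p :=
      Subgroup.mem_subgroupOf.1 (aut_mem_hyperfocal hS hF hUS hγ (Subgroup.mem_subgroupOf.2 hx))
    have hγxs : Small p ((γ x : U) : Ω) := small_coe_iff.2 ((small_coe_iff.1 hxs).aut γ)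
    have hγx1 : ((γ x : U) : Ω) ≠ 1 := by
      intro h1
      apply hx1
      have h2 : γ x = 1 := Subtype.ext h1
      have h3 : x = 1 := (map_eq_one_iff γ γ.injective).1 h2
      rw [h3]
      rfl
    have hmem := h (Subgroup.zpowers (x : Ω)) (Subgroup.zpowers ((γ x : U) : Ω))
      ((Subgroup.zpowers_le).2 hx) ((Subgroup.zpowers_le).2 hγx) inferInstance
      (card_zpowers_of_small hxs hx1) inferInstance (card_zpowers_of_small hγxs hγx1) hφ
    obtain ⟨-, g, hg, hgφ⟩ := hmem
    exact ⟨g, hg, by rw [← hφx]; exact hgφ _⟩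
  have hpg : ∀ U : Subgroup Ω, U ≤ S → IsPGroup p (F.autGroup U) := by
    intro U hUS
    haveI : Finite U := finite_of_le hUS
    apply isPGroup_of_coprime_trivial
    intro β hβ m hm hβm
    exact conjClosure_trivial_of_cyclic hS hF hUS (fun x hx hxs γ hγ => by
        obtain ⟨s, hs, hsx⟩ := hkey U hUS x hx hxs γ hγ
        exact ⟨fun y => s * y * s⁻¹, Mor.conj F le_rfl hs, hsx.symm⟩) β hβ
      (fun x hx hxs => hkey U hUS x hx hxs β hβ) β (mem_conjClosure_self _ β) m hm hβm
  have hbot := Cfsg.Agent.H88.hyperfocal_eq_bot_of_autGroups_pGroups hpg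
  intro P
  ext φ
  constructor
  · intro hφ
    have hP : P ≤ S := (F.le_of_mem hφ).1
    obtain ⟨s, hs, hsx⟩ := Cfsg.Agent.H87.mor_mod_hyperfocal hS hF (mor_extFun hφ)
    refine ⟨hP, s, hs, fun x => ?_⟩
    have h1 := hsx x x.2
    rw [hbot, Subgroup.mem_bot, inv_mul_eq_one] at h1
    rw [← extFun_apply P φ x]
    exact h1.symm
  · rintro ⟨hP, g, hg, hgφ⟩
    obtain ⟨φ', hφ', h'⟩ := Mor.conj F hP hg
    have : φ = φ' := by
      ext x
      rw [hgφ x, h' x]
    rw [this]
    exact hφ'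

end Cfsg.Agent.S5298
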