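import Cfsg.Statements.S5300
import Cfsg.Agent.H90.SmallFus
import Cfsg.Agent.H86.ConjCyc

set_option autoImplicit false
universe u
open Cfsg

namespace Cfsg.Agent.S5300

/-- Let F be a saturated fusion system over a finite p-group S. If every cyclic subgroup of the focal subgroup of F of order p (of order 2 or 4 when p = 2) is normal in S, then S is normal in F. -/
theorem result {Ω : Type u} [Group Ω] {S : Subgroup Ω} [Finite S] (p : ℕ) [Fact p.Prime] (hS : IsPGroup p S)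
    (F : Cfsg.FusionSystem S) (hF : F.IsSaturated p)
    (hnorm : ∀ x ∈ F.focalSubgroup, (x ^ p = 1 ∨ (p = 2 ∧ x ^ 4 = 1)) → ∀ s ∈ S, s * x * s⁻¹ ∈ Subgroup.zpowers x) :
    F.IsNormal S := by
  rw [Cfsg.Agent.H86.isNormal_iff_stronglyClosed hS hF]
  refine ⟨⟨le_rfl, fun R _ φ hφ x => (F.le_of_mem hφ).2 x⟩, fun U hUc hUr => ?_⟩
  have hUS : U ≤ S := hUc.1
  haveI : Finite U := Cfsg.Agent.H86.finite_of_le hUS
  -- elements of order dividing `p` of the focal subgroup are central in `S`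
  have hcen : ∀ x ∈ F.focalSubgroup, x ^ p = 1 → ∀ s ∈ S, s * x * s⁻¹ = x := by
    intro x hx hxp s hs
    obtain ⟨a, ha⟩ := hS ⟨s, hs⟩
    have hsa : s ^ (p ^ a) = 1 := by
      have := congrArg Subtype.val ha
      simpa using this
    exact Cfsg.Agent.H86.conj_eq_self_of_mem_zpowers hsa hxp (hnorm x hx (Or.inl hxp) s hs)
  apply Cfsg.Agent.H90.top_le_centric_radical hS hUc hUr
  intro d hdS τ hτ hτA β hβ m hm hβm
  have hβA : β ∈ F.autGroup U := Cfsg.Agent.H90.conjClosure_le hτA hβ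
  apply Cfsg.Agent.H90.aut_eq_one_of_fix_focal hS hUS hβA hm hβm
  let Z1 : Subgroup U :=
    { carrier := {z : U | (z : Ω) ^ p = 1 ∧ ∀ s ∈ S, s * (z : Ω) * s⁻¹ = z}
      one_mem' := ⟨by simp, fun s _ => by simp⟩
      mul_mem' := by
        rintro a b ⟨ha1, ha2⟩ ⟨hb1, hb2⟩
        refine ⟨?_, fun s hs => ?_⟩
        · have hcomm : Commute (a : Ω) (b : Ω) := by
            have h1 := hb2 a (hUS a.2)
            show (a : Ω) * b = b * a
            calc (a : Ω) * b = (a * b * (a : Ω)⁻¹) * a := by group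
              _ = b * a := by rw [h1]
          rw [Subgroup.coe_mul, hcomm.mul_pow, ha1, hb1, one_mul]
        · rw [Subgroup.coe_mul]
          calc s * ((a : Ω) * b) * s⁻¹ = (s * a * s⁻¹) * (s * b * s⁻¹) := by group
            _ = a * b := by rw [ha2 s hs, hb2 s hs]
      inv_mem' := by
        rintro a ⟨ha1, ha2⟩
        refine ⟨by rw [Subgroup.coe_inv, inv_pow, ha1, inv_one], fun s hs => ?_⟩
        rw [Subgroup.coe_inv]
        calc s * (a : Ω)⁻¹ * s⁻¹ = (s * a * s⁻¹)⁻¹ := by group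
          _ = (a : Ω)⁻¹ := by rw [ha2 s hs] }
  have hZ1 : ∀ z : U, z ∈ Z1 ↔ ((z : Ω) ^ p = 1 ∧ ∀ s ∈ S, s * (z : Ω) * s⁻¹ = z) := fun z => Iff.rfl
  let Z : ℕ → Subgroup U := fun j => if j = 0 then ⊥ else if j = 1 then Z1 else ⊤
  have hτfix : ∀ x : U, (∀ s ∈ S, s * (x : Ω) * s⁻¹ = x) → τ x = x := by
    intro x hx
    apply Subtype.ext
    rw [hτ x, hx d hdS]
  refine Cfsg.Agent.H90.fix_of_conjClosure (hS.to_le hUS) (F.autGroup U) τ hτA Z 2 rfl
    (F.focalSubgroup.subgroupOf U) (fun x _ => Subgroup.mem_top x) ?_ ?_ _ _ le_rfl le_rfl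
    (fun γ hγ x hx => Cfsg.Agent.H90.aut_mem_focal hUS hγ hx) β hβ m hm hβm
  · intro j hj x hx hxZ hxs γ hγ
    interval_cases j
    · have hx1 : x = 1 := Subgroup.mem_bot.1 hxZ
      show γ x ∈ (⊥ : Subgroup U)
      rw [hx1, map_one]
      exact Subgroup.one_mem _
    · have hxZ1 : x ∈ Z1 := hxZ
      show γ x ∈ Z1
      have hγx : ((γ x : U) : Ω) ∈ F.focalSubgroup :=
        Subgroup.mem_subgroupOf.1 (Cfsg.Agent.H90.aut_mem_focal hUS hγ hx)
      have hxp : x ^ p = 1 := Subtype.ext (by rw [Subgroup.coe_pow, ((hZ1 x).1 hxZ1).1]; rfl)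
      have hγxp : ((γ x : U) : Ω) ^ p = 1 := by
        rw [← Subgroup.coe_pow, ← map_pow, hxp, map_one]
        rfl
      exact (hZ1 _).2 ⟨hγxp, hcen _ hγx hγxp⟩
    · exact Subgroup.mem_top _
  · intro j hj x hx hxZ hxs
    have hxf : (x : Ω) ∈ F.focalSubgroup := Subgroup.mem_subgroupOf.1 hx
    interval_cases j
    · have hxZ1 : x ∈ Z1 := hxZ
      show x⁻¹ * τ x ∈ (⊥ : Subgroup U)
      rw [hτfix x ((hZ1 x).1 hxZ1).2, inv_mul_cancel]
      exact Subgroup.one_mem _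
    · show x⁻¹ * τ x ∈ Z1
      rcases hxs with hxp | ⟨h2, hx4⟩
      · have hxp' : (x : Ω) ^ p = 1 := by rw [← Subgroup.coe_pow, hxp]; rfl
        rw [hτfix x (hcen _ hxf hxp'), inv_mul_cancel]
        exact Subgroup.one_mem _
      · have hx4' : (x : Ω) ^ 4 = 1 := by rw [← Subgroup.coe_pow, hx4]; rfl
        have hmem : d * (x : Ω) * d⁻¹ ∈ Subgroup.zpowers (x : Ω) :=
          hnorm _ hxf (Or.inr ⟨h2, hx4'⟩) d hdS
        have hzle : Subgroup.zpowers (x : Ω) ≤ F.focalSubgroup := (Subgroup.zpowers_le).2 hxf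
        obtain ⟨k, hk⟩ := Subgroup.mem_zpowers_iff.1 hmem
        have hcomm : Commute ((x : Ω)⁻¹) (d * (x : Ω) * d⁻¹) := by
          rw [← hk]
          exact ((Commute.refl (x : Ω)).zpow_right k).inv_left
        have hsq : ((x : Ω) ^ 2) ^ p = 1 := by rw [h2, ← pow_mul]; exact hx4'
        have hx2 : d * (x : Ω) ^ 2 * d⁻¹ = (x : Ω) ^ 2 :=
          hcen _ (F.focalSubgroup.pow_mem hxf 2) hsq d hdS
        have hwp : ((x : Ω)⁻¹ * (d * (x : Ω) * d⁻¹)) ^ p = 1 := by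
          rw [h2, hcomm.mul_pow, conj_pow, hx2, inv_pow, inv_mul_cancel]
        have hwf : (x : Ω)⁻¹ * (d * (x : Ω) * d⁻¹) ∈ F.focalSubgroup :=
          F.focalSubgroup.mul_mem (F.focalSubgroup.inv_mem hxf) (hzle hmem)
        refine (hZ1 _).2 ?_
        rw [Subgroup.coe_mul, Subgroup.coe_inv, hτ x]
        exact ⟨hwp, hcen _ hwf hwp⟩

end Cfsg.Agent.S5300
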