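import Cfsg.Statements.S5301
import Cfsg.Agent.H86.FusBasic
import Cfsg.Agent.H86.FusAut
import Cfsg.Agent.H86.FusNormal
import Cfsg.Agent.H86.FusSylow
import Cfsg.Agent.H86.FusSat
import Cfsg.Agent.H86.FusAlperin
import Cfsg.Agent.H86.GrpLemmas
import Cfsg.Agent.S5080

set_option autoImplicit false
universe u
open Cfsg

namespace Cfsg.Agent.S5301

open Cfsg.FusionSystem Cfsg.Agent.H86

/-- The maps of `F` that extend to maps of `F` defined on all of `S`. -/
def extSys {Ω : Type*} [Group Ω] {S : Subgroup Ω} [Finite S] (F : FusionSystem S) : FusionSystem S where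
  Hom P := {φ | P ≤ S ∧ ∃ f, Mor F S f ∧ ∀ x : P, φ x = f x}
  le_of_mem := by
    rintro P φ ⟨hP, f, hf, H⟩
    exact ⟨hP, fun x => by rw [H]; exact hf.mem (hP x.2)⟩
  injective_of_mem := by
    rintro P φ ⟨hP, f, hf, H⟩ a b hab
    rw [H, H] at hab
    exact Subtype.ext (hf.injOn (hP a.2) (hP b.2) hab)
  conj_mem := by
    intro P g hP hg
    exact ⟨hP, fun x => g * x * g⁻¹, Mor.conj F le_rfl hg, fun x => rfl⟩
  comp_mem := by
    rintro P Q φ ψ ⟨hP, f, hf, Hf⟩ ⟨hQ, g, hg, Hg⟩ h
    refine ⟨hP, g ∘ f, hf.comp hg (fun x hx => hf.mem hx), fun x => ?_⟩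
    show ψ (φ.codRestrict Q h x) = g (f x)
    rw [Hg]
    show g (φ x) = g (f x)
    rw [Hf]
  inv_mem := by
    rintro P φ ⟨hP, f, hf, Hf⟩
    have hφ : φ ∈ F.Hom P := by
      obtain ⟨φ', hφ', hφ'f⟩ := hf.restrict hP
      have : φ = φ' := by
        ext x
        rw [Hf, hφ'f]
      rw [this]; exact hφ'
    obtain ⟨ψ, hψ, hψφ⟩ := F.inv_mem hφ
    have himg : imgS S f = S := imgS_eq_of_maps hf (fun x hx => hf.mem hx)
    have hinv : Mor F S (invOn S f) := by
      have := hf.inv
      rwa [himg] at this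
    refine ⟨ψ, ⟨(F.le_of_mem hψ).1, invOn S f, hinv, ?_⟩, hψφ⟩
    rintro ⟨_, x, rfl⟩
    rw [hψφ]
    show (x : Ω) = invOn S f (φ x)
    rw [Hf, invOn_apply hf.injOn (hP x.2)]

/-- Let F be a saturated fusion system over a finite p-group S. If for every subgroup P of S that is fully normalized, centric and radical in F the automorphism group that F induces on P has a normal Sylow p-subgroup, then S is normal in F. -/
theorem result {Ω : Type u} [Group Ω] {S : Subgroup Ω} [Finite S] (p : ℕ) [Fact p.Prime] (hS : IsPGroup p S)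
    (F : Cfsg.FusionSystem S) (hF : F.IsSaturated p)
    (hcl : ∀ P : Subgroup Ω, F.IsFullyNormalized P → F.IsCentric P → F.IsRadical p P →
      ∃ R : Sylow p ↥(F.autGroup P), (R : Subgroup ↥(F.autGroup P)).Normal) :
    F.IsNormal S := by
  have hness : ∀ P : Subgroup Ω, ¬ F.IsEssential p P := by
    intro P hess
    have hrad : F.IsRadical p P := Cfsg.Agent.S5080.result p hS F hF P hess
    obtain ⟨R, hRn⟩ := hcl P hess.2.1 hess.1 hrad
    obtain ⟨hcen, -, hnorm, E, hE⟩ := hess
    have hPS : P ≤ S := hcen.1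
    have : Finite P := finite_of_le hPS
    have hcore : pCore p (F.autGroup P) = (Inn P).subgroupOf (F.autGroup P) := by
      have h := hrad.2
      ext x
      rw [Subgroup.mem_subgroupOf, ← h]
      constructor
      · intro hx
        exact Subgroup.mem_map_of_mem _ hx
      · rintro ⟨y, hy, hyx⟩
        have : y = x := Subtype.ext hyx
        rw [← this]; exact hy
    have h1 : (R : Subgroup (F.autGroup P)) ≤ (Inn P).subgroupOf (F.autGroup P) := by
      rw [← hcore]
      exact le_pCore hRn R.isPGroup'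
    have h2 : IsPGroup p ((Inn P).subgroupOf (F.autGroup P)) := by
      rw [← hcore]
      exact pCore_isPGroup p _
    have h3 : (Inn P).subgroupOf (F.autGroup P) = (R : Subgroup (F.autGroup P)) := R.is_maximal' h2 h1
    have h4 : p ∣ Nat.card (F.autGroup P ⧸ (Inn P).subgroupOf (F.autGroup P)) := hE.1
    rw [← Subgroup.index_eq_card] at h4
    have h5 := R.not_dvd_index
    rw [← h3] at h5
    exact h5 h4
  have key := alperin hS hF (extSys F) (fun P hP => by
    rcases hP with rfl | hP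
    · intro α hα
      have hM := (mem_autGroup_iff le_rfl α).1 hα
      rw [mem_autGroup_iff le_rfl]
      obtain ⟨φ, hφ, hφf⟩ := id hM
      exact ⟨φ, ⟨le_rfl, autFun P α, hM, hφf⟩, hφf⟩
    · exact absurd hP (hness P))
  rw [isNormal_iff]
  refine ⟨le_rfl, fun P f hf => ?_⟩
  obtain ⟨φ, ⟨hP, f₁, hf₁, H⟩, hφf⟩ := key P f hf
  have hle : P ⊔ S ≤ S := sup_le hP le_rfl
  have heq : P ⊔ S = S := le_antisymm hle le_sup_right
  rw [heq]
  exact ⟨f₁, hf₁, fun x hx => by rw [← H ⟨x, hx⟩, hφf], imgS_eq_of_maps hf₁ (fun x hx => hf₁.mem hx)⟩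

end Cfsg.Agent.S5301
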