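import Cfsg.Statements.S5315
import Cfsg.Agent.H86.FusExt
import Cfsg.Agent.H86.FusSat
import Cfsg.Agent.H87.CentricExt
import Cfsg.Agent.H88.Basic
import Cfsg.Agent.H88.Abelian
import Cfsg.Agent.H88.Factor
import Cfsg.Agent.H88.PPower

set_option autoImplicit false
set_option maxHeartbeats 2000000
open Cfsg

namespace Cfsg.Agent.S5315

open Cfsg.FusionSystem Cfsg.Agent.H86

lemma conj_eq_of_central {G : Type*} [Group G] (u w s : G) (h : (w⁻¹ * u) * s = s * (w⁻¹ * u)) :
    u * s * u⁻¹ = w * s * w⁻¹ := by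
  calc u * s * u⁻¹ = w * ((w⁻¹ * u) * s) * (w⁻¹ * u)⁻¹ * w⁻¹ := by group
    _ = w * (s * (w⁻¹ * u)) * (w⁻¹ * u)⁻¹ * w⁻¹ := by rw [h]
    _ = w * s * w⁻¹ := by group

/-- An analogue of Grün's lemma for fusion systems. Let F be a saturated fusion system over a finite p-group S that is perfect in the sense that its hyperfocal subgroup is all of S (F coincides with its p-residual subsystem). Then the second centre of F equals its centre: every fusion system over S/(Z(F) ∩ S) that is the factor system of F modulo its centre Z(F), read through the quotient map, has trivial centre. -/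
theorem result {Ω : Type*} [Group Ω] {S : Subgroup Ω} [Finite S] (p : ℕ) [Fact p.Prime] (hS : IsPGroup p S) (F : Cfsg.FusionSystem S) (hF : F.IsSaturated p)
    (hperf : F.hyperfocalSubgroup p = S)
    (E : Cfsg.FusionSystem (⊤ : Subgroup (↥S ⧸ (F.center).subgroupOf S)))
    (hE : F.IsFactorSystem F.center (QuotientGroup.mk' ((F.center).subgroupOf S)) E) : E.center = ⊥ := by
  have hZc : F.IsCentral F.center := H88.isCentral_center F
  have hE' := hE
  obtain ⟨hZS, hker, hrange, hiff⟩ := hE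
  have hsurj : Function.Surjective (QuotientGroup.mk' ((F.center).subgroupOf S)) :=
    QuotientGroup.mk'_surjective _
  set θ := QuotientGroup.mk' ((F.center).subgroupOf S) with hθ
  have hthetaeq : ∀ a b : S, θ a = θ b ↔ (a : Ω)⁻¹ * (b : Ω) ∈ F.center := by
    intro a b
    have h := hker (a⁻¹ * b)
    rw [map_mul, map_inv, inv_mul_eq_one] at h
    exact h
  have hZcomm : ∀ z ∈ F.center, ∀ s ∈ S, z * s = s * z := by
    intro z hz s hs
    exact ((Subgroup.mem_centralizer_iff.1 (F.center_le_centralizer hz)) s hs).symm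
  rw [eq_bot_iff]
  apply sSup_le
  intro Qb hQb
  have hWS : preimageAlong θ Qb ≤ S := H88.preimageAlong_le θ Qb
  have hmemW : ∀ {x : Ω}, x ∈ preimageAlong θ Qb ↔ ∃ hx : x ∈ S, θ ⟨x, hx⟩ ∈ Qb := H88.mem_preimageAlong
  have hZW : F.center ≤ preimageAlong θ Qb := by
    intro x hx
    rw [hmemW]
    refine ⟨hZS hx, ?_⟩
    rw [(hker ⟨x, hZS hx⟩).2 hx]
    exact one_mem _
  suffices hWc : F.IsCentral (preimageAlong θ Qb) by
    have hWZ : preimageAlong θ Qb ≤ F.center := le_sSup hWc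
    intro q hq
    obtain ⟨s, rfl⟩ := hsurj q
    have hsW : (s : Ω) ∈ preimageAlong θ Qb := hmemW.2 ⟨s.2, hq⟩
    rw [Subgroup.mem_bot]
    exact (hker s).2 (hWZ hsW)
  have hQbc := (isCentral_iff.1 hQb).2
  -- Step 1
  have step1 : ∀ (D : Subgroup Ω) (f : Ω → Ω), Mor F D f → F.center ≤ D →
      ∀ w ∈ preimageAlong θ Qb, w ∈ D → w⁻¹ * f w ∈ F.center := by
    intro D f hf hZD w hwW hwD
    have hfZ : ∀ x ∈ F.center, f x ∈ F.center := fun x hx => by
      rw [H88.central_fixed hZc hf hZD x hx]; exact hx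
    obtain ⟨fb, hfb, hfbe⟩ := H88.factor_induced hE' hf hZD hfZ
    obtain ⟨fb', hfb', hfb'e, hfb'Q⟩ := hQbc _ fb hfb
    obtain ⟨hwS, hθw⟩ := hmemW.1 hwW
    have hθwD : θ ⟨w, hwS⟩ ∈ imageAlong θ D := ⟨⟨w, hwS⟩, Subgroup.mem_subgroupOf.2 hwD, rfl⟩
    have h1 := hfb'e _ hθwD
    rw [hfb'Q _ hθw] at h1
    have h2 := hfbe w hwD
    exact (hthetaeq ⟨w, hwS⟩ ⟨f w, hf.mem hwD⟩).1 (h1.trans h2)
  -- Step 2: the preimage is central in S
  have hQbcen : ∀ q ∈ Qb, ∀ t : ↥S ⧸ (F.center).subgroupOf S, t * q = q * t := by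
    intro q hq t
    have h1 : Qb ≤ E.center := le_sSup hQb
    have h2 := E.center_le_centralizer (h1 hq)
    exact Subgroup.mem_centralizer_iff.1 h2 t (Subgroup.mem_top t)
  have hWcomm : ∀ w ∈ preimageAlong θ Qb, ∀ s ∈ S, s * w = w * s := by
    intro w hwW
    obtain ⟨hwS, hθw⟩ := hmemW.1 hwW
    have hle : F.hyperfocalSubgroup p ≤ Subgroup.centralizer ({w} : Set Ω) := by
      unfold hyperfocalSubgroup
      rw [Subgroup.closure_le]
      rintro y ⟨P, α, x, hPS, -, rfl⟩
      rw [SetLike.mem_coe, Subgroup.mem_centralizer_iff]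
      intro w' hw'
      rw [Set.mem_singleton_iff] at hw'
      subst hw'
      have hf : Mor F P (autFun P (α : MulAut P)) := (mem_autGroup_iff hPS _).1 α.2
      obtain ⟨f₁, hf₁, hf₁f, hf₁Z⟩ := H88.central_extend hZc hf
      have hf₁Zm : ∀ z ∈ F.center, f₁ z ∈ F.center := fun z hz => by rw [hf₁Z z hz]; exact hz
      obtain ⟨fb₁, hfb₁, hfb₁e⟩ := H88.factor_induced hE' hf₁ le_sup_right hf₁Zm
      obtain ⟨fb₂, hfb₂, hfb₂e, hfb₂Q⟩ := hQbc _ fb₁ hfb₁
      obtain ⟨φ', hφ', hφ'e⟩ := hfb₂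
      obtain ⟨-, hex⟩ := (hiff _ φ').1 hφ'
      obtain ⟨g, hg, hind⟩ := (H88.induced_iff φ').1 hex
      have hDS : preimageAlong θ (imageAlong θ (P ⊔ F.center) ⊔ Qb) ≤ S := hg.le
      have hxP : (x : Ω) ∈ P := x.2
      have hxS : (x : Ω) ∈ S := hPS hxP
      have hθx1 : θ ⟨x, hxS⟩ ∈ imageAlong θ (P ⊔ F.center) :=
        ⟨⟨x, hxS⟩, Subgroup.mem_subgroupOf.2 (Subgroup.mem_sup_left hxP), rfl⟩
      have hθx : θ ⟨x, hxS⟩ ∈ imageAlong θ (P ⊔ F.center) ⊔ Qb := Subgroup.mem_sup_left hθx1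
      have hxD : (x : Ω) ∈ preimageAlong θ (imageAlong θ (P ⊔ F.center) ⊔ Qb) :=
        H88.mem_preimageAlong.2 ⟨hxS, hθx⟩
      have hZD : F.center ≤ preimageAlong θ (imageAlong θ (P ⊔ F.center) ⊔ Qb) := by
        intro z hz
        refine H88.mem_preimageAlong.2 ⟨hZS hz, ?_⟩
        rw [(hker ⟨z, hZS hz⟩).2 hz]
        exact one_mem _
      have hwD : w' ∈ preimageAlong θ (imageAlong θ (P ⊔ F.center) ⊔ Qb) :=
        H88.mem_preimageAlong.2 ⟨hwS, Subgroup.mem_sup_right hθw⟩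
      -- g x ≡ α x mod the centre
      have hgx : (autFun P (α : MulAut P) x)⁻¹ * g x ∈ F.center := by
        have h1 := hind x hxS (hg.mem hxD) hθx
        have h2 := hφ'e ⟨θ ⟨x, hxS⟩, hθx⟩
        have h3 := hfb₂e _ hθx1
        have h4 := hfb₁e x (Subgroup.mem_sup_left hxP)
        have h5 : θ ⟨f₁ x, hf₁.mem (Subgroup.mem_sup_left hxP)⟩ = θ ⟨g x, hg.mem hxD⟩ := by
          rw [← h4, ← h3, ← h1]
          exact h2.symm
        have h6 : (f₁ x)⁻¹ * g x ∈ F.center := (hthetaeq _ _).1 h5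
        rwa [hf₁f x hxP] at h6
      have hgw : w'⁻¹ * g w' ∈ F.center := step1 _ g hg hZD w' hwW hwD
      -- the commutator of w and x lies in the centre
      have hc : w' * x * w'⁻¹ * (x : Ω)⁻¹ ∈ F.center := by
        have h1 : θ (⟨w', hwS⟩ * ⟨x, hxS⟩ * (⟨w', hwS⟩ : S)⁻¹ * (⟨x, hxS⟩ : S)⁻¹) = 1 := by
          rw [map_mul, map_mul, map_mul, map_inv, map_inv, ← hQbcen _ hθw (θ ⟨x, hxS⟩)]
          group
        exact (hker _).1 h1
      have hgc := H88.central_fixed hZc hg hZD _ hc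
      -- conjugation by g w and by g x
      have hgwS : g w' ∈ S := hg.mem hwD
      have hgxS : g x ∈ S := hg.mem hxD
      have e1 : g w' * g x * (g w')⁻¹ = w' * g x * w'⁻¹ :=
        conj_eq_of_central (g w') w' (g x) (hZcomm _ hgw _ hgxS)
      have e2 : g x * w'⁻¹ * (g x)⁻¹ = autFun P (α : MulAut P) x * w'⁻¹ * (autFun P (α : MulAut P) x)⁻¹ :=
        conj_eq_of_central (g x) _ w'⁻¹ (hZcomm _ hgx _ (S.inv_mem hwS))
      have hv : g (w' * x * w'⁻¹) = g w' * g x * (g w')⁻¹ := by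
        rw [hg.map_mul (mul_mem hwD hxD) (inv_mem hwD), hg.map_mul hwD hxD, hg.map_inv hwD]
      have hv' : g (w' * x * w'⁻¹) = (w' * x * w'⁻¹ * (x : Ω)⁻¹) * g x := by
        have : w' * x * w'⁻¹ = (w' * x * w'⁻¹ * (x : Ω)⁻¹) * x := by group
        rw [this, hg.map_mul (hZD hc) hxD, hgc]
        group
      have e3 : w' * g x * w'⁻¹ = (w' * x * w'⁻¹ * (x : Ω)⁻¹) * g x := by
        rw [← e1, ← hv, hv']
      have e4 : g x * w'⁻¹ * (g x)⁻¹ = (x : Ω) * w'⁻¹ * (x : Ω)⁻¹ := by
        calc g x * w'⁻¹ * (g x)⁻¹ = w'⁻¹ * (w' * g x * w'⁻¹) * (g x)⁻¹ := by group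
          _ = w'⁻¹ * ((w' * x * w'⁻¹ * (x : Ω)⁻¹) * g x) * (g x)⁻¹ := by rw [e3]
          _ = (x : Ω) * w'⁻¹ * (x : Ω)⁻¹ := by group
      rw [e2] at e4
      have hax : autFun P (α : MulAut P) x = (((α : MulAut P) x : P) : Ω) := autFun_apply _ x
      rw [hax] at e4
      calc w' * ((x : Ω)⁻¹ * (((α : MulAut P) x : P) : Ω))
          = w' * ((x : Ω)⁻¹ * ((((α : MulAut P) x : P) : Ω) * w'⁻¹ * ((((α : MulAut P) x : P) : Ω))⁻¹)
              * (((α : MulAut P) x : P) : Ω)) * w' := by group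
        _ = w' * ((x : Ω)⁻¹ * ((x : Ω) * w'⁻¹ * (x : Ω)⁻¹) * (((α : MulAut P) x : P) : Ω)) * w' := by rw [e4]
        _ = (x : Ω)⁻¹ * (((α : MulAut P) x : P) : Ω) * w' := by group
    rw [hperf] at hle
    intro s hs
    exact Subgroup.mem_centralizer_iff.1 (hle hs) w (Set.mem_singleton w) |>.symm
  -- Step 3 and 4: Alperin
  refine isCentral_iff.2 ⟨hWS, fun P f hf => ?_⟩
  have hA : ∀ R : Subgroup Ω, (R = S ∨ F.IsEssential p R) → preimageAlong θ Qb ≤ R ∧ ∀ α ∈ F.autGroup R,
      imgS (preimageAlong θ Qb) (autFun R α) = preimageAlong θ Qb ∧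
        (True → ∀ x ∈ preimageAlong θ Qb, autFun R α x = x) := by
    intro R hR
    have hRc : F.IsCentric R := by
      rcases hR with rfl | hR
      · exact centric_top F
      · exact hR.1
    have hRfn : F.IsFullyNormalized R := by
      rcases hR with h | hR
      · rw [h]
        haveI : Finite (normalizerIn S S) := finite_of_le (S := S) inf_le_left
        exact ⟨le_rfl, fun Q _ => Subgroup.card_le_of_le (inf_le_left.trans (le_normalizerIn le_rfl))⟩
      · exact hR.2.1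
    have hRS := hRc.1
    haveI : Finite R := finite_of_le hRS
    have hWR : preimageAlong θ Qb ≤ R := by
      intro w hw
      apply H87.isCentric_self_le hRc
      rw [mem_centralizerIn_iff]
      exact ⟨hWS hw, fun x hx => hWcomm w hw x (hRS hx)⟩
    have hfix : ∀ α ∈ F.autGroup R, ∀ w ∈ preimageAlong θ Qb, autFun R α w = w := by
      obtain ⟨Rs, hRs⟩ := (saturated_fullyNormalized hS hF hRfn).2.2
      intro α hα w hw
      have hwR := hWR hw
      have hle1 : pResidual p (F.autGroup R) ≤ MulAction.stabilizer (F.autGroup R) (⟨w, hwR⟩ : R) := by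
        unfold pResidual
        rw [Subgroup.closure_le]
        intro a ha
        have hacop : Nat.Coprime (orderOf a) p := ha
        rw [SetLike.mem_coe, MulAction.mem_stabilizer_iff]
        have hf : Mor F R (autFun R (a : MulAut R)) := (mem_autGroup_iff hRS _).1 a.2
        have hζ := step1 R _ hf (hZW.trans hWR) w hw hwR
        have hfζ : ∀ k : ℕ, autFun R (a : MulAut R) ((w⁻¹ * autFun R (a : MulAut R) w) ^ k)
            = (w⁻¹ * autFun R (a : MulAut R) w) ^ k := fun k =>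
          H88.central_fixed hZc hf (hZW.trans hWR) _ (pow_mem hζ k)
        have hpow : ∀ k : ℕ, autFun R ((a : MulAut R) ^ k) w = w * (w⁻¹ * autFun R (a : MulAut R) w) ^ k := by
          intro k
          induction k with
          | zero => rw [pow_zero, pow_zero, mul_one, autFun_one hwR]
          | succ k ih =>
            have hfw : autFun R (a : MulAut R) w = w * (w⁻¹ * autFun R (a : MulAut R) w) := by group
            rw [pow_succ', autFun_mul _ _ hwR, ih,
              hf.map_mul hwR (pow_mem ((hZW.trans hWR) hζ) k), hfζ k,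
              pow_succ' (w⁻¹ * autFun R (a : MulAut R) w) k, ← mul_assoc, ← hfw]
        have h1 := hpow (orderOf a)
        have h2 : (a : MulAut R) ^ orderOf a = 1 := by
          rw [← Subgroup.coe_pow, pow_orderOf_eq_one]; rfl
        rw [h2, autFun_one hwR] at h1
        have h3 : (w⁻¹ * autFun R (a : MulAut R) w) ^ orderOf a = 1 := by
          have := mul_left_cancel (a := w) (b := 1) (c := (w⁻¹ * autFun R (a : MulAut R) w) ^ orderOf a)
            (by rw [mul_one]; exact h1)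
          exact this.symm
        obtain ⟨m, hm⟩ := hS ⟨_, hZS hζ⟩
        have h4 : (w⁻¹ * autFun R (a : MulAut R) w) ^ p ^ m = 1 := congrArg Subtype.val hm
        have h5 : orderOf (w⁻¹ * autFun R (a : MulAut R) w) ∣ Nat.gcd (orderOf a) (p ^ m) :=
          Nat.dvd_gcd (orderOf_dvd_of_pow_eq_one h3) (orderOf_dvd_of_pow_eq_one h4)
        have h6 : Nat.gcd (orderOf a) (p ^ m) = 1 := Nat.Coprime.pow_right m hacop
        rw [h6, Nat.dvd_one, orderOf_eq_one_iff] at h5
        apply Subtype.ext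
        show (((a : MulAut R) ⟨w, hwR⟩ : R) : Ω) = w
        rw [← autFun_of_mem (a : MulAut R) hwR]
        calc autFun R (a : MulAut R) w = w * (w⁻¹ * autFun R (a : MulAut R) w) := by group
          _ = w := by rw [h5, mul_one]
      have hle2 : (Rs : Subgroup (F.autGroup R)) ≤ MulAction.stabilizer (F.autGroup R) (⟨w, hwR⟩ : R) := by
        rw [hRs]
        intro a ha
        rw [MulAction.mem_stabilizer_iff]
        obtain ⟨s, hs, Hs⟩ := (mem_autInducedBy_iff S R _).1 (Subgroup.mem_subgroupOf.1 ha)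
        apply Subtype.ext
        show (((a : MulAut R) ⟨w, hwR⟩ : R) : Ω) = w
        rw [Hs, hWcomm w hw s hs]
        group
      have htop : (⊤ : Subgroup (F.autGroup R)) ≤ MulAction.stabilizer (F.autGroup R) (⟨w, hwR⟩ : R) := by
        rw [← H88.pResidual_sup_sylow p Rs]
        exact sup_le hle1 hle2
      have h7 := MulAction.mem_stabilizer_iff.1 (htop (Subgroup.mem_top (⟨α, hα⟩ : F.autGroup R)))
      rw [autFun_of_mem α hwR]
      exact congrArg Subtype.val h7
    refine ⟨hWR, fun α hα => ⟨?_, fun _ x hx => hfix α hα x hx⟩⟩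
    have hαm := (mem_autGroup_iff hRS α).1 hα
    ext y
    rw [(hαm.restrict hWR).mem_imgS]
    constructor
    · rintro ⟨x, hx, rfl⟩
      rw [hfix α hα x hx]
      exact hx
    · intro hy
      exact ⟨y, hy, hfix α hα y hy⟩
  obtain ⟨f', hf', hf'f, -, hf'W⟩ := alperin_ext hS hF (preimageAlong θ Qb) True hA P f hf
  exact ⟨f', hf', hf'f, hf'W trivial⟩

end Cfsg.Agent.S5315
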