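import Cfsg.Statements.S5321
import Cfsg.Agent.H9.J2.FData
import Cfsg.Agent.H9.J2FMain
import Cfsg.Agent.H9.J2FAbs
import Cfsg.Agent.H9.J2FAbs2
import Cfsg.Agent.H34.J2FA5V
import Cfsg.Agent.H34.J2FClV
import Cfsg.Agent.H34.J2FQP
import Cfsg.Agent.H34.J2FSyl
import Cfsg.Agent.H86.J2FClQ
import Cfsg.Agent.H86.J2FGen

set_option autoImplicit false
open Cfsg

namespace Cfsg.Agent.S5321

/-- For a finite group G isomorphic to the Hall–Janko group J₂ (as constructed in the problem's definitions), the 2-fusion system of G on a Sylow 2-subgroup is simple: saturated, over a nontrivial 2-group, with no normal subsystem other than the trivial one and itself. -/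
theorem result {G : Type*} [Group G] [Finite G] (hG : Cfsg.Spor.IsoJ2 G) (S : Sylow 2 G) : (Cfsg.groupFusionSystem (S : Subgroup G)).IsSimple 2 := by
  obtain ⟨e⟩ := hG
  have : Finite Cfsg.Spor.J2 := Finite.of_equiv G e.toEquiv
  exact Cfsg.Agent.H9.J2F.fusion_simple_of_pieces
    Cfsg.Agent.H9.J2F.card_C Cfsg.Agent.H34.J2F.ex Cfsg.Agent.H9.J2F.p128
    Cfsg.Agent.H34.J2F.qP Cfsg.Agent.H34.J2F.conj Cfsg.Agent.H9.J2F.np
    Cfsg.Agent.H9.J2F.a5I Cfsg.Agent.H86.J2F.gen Cfsg.Agent.H9.J2F.pz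
    Cfsg.Agent.H86.J2F.clQ Cfsg.Agent.H9.J2F.clW Cfsg.Agent.H34.J2F.a5V
    Cfsg.Agent.H34.J2F.clV Cfsg.Agent.H9.J2.j2FD e.symm S

end Cfsg.Agent.S5321
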