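import Cfsg.Statements.S5329
import Cfsg.Agent.H90.BisetTransfer
import Cfsg.Agent.H89.Chain

set_option autoImplicit false
open Cfsg

namespace Cfsg.Agent.S5329

open Cfsg.Agent.H86 Cfsg.Agent.H90

/-- For a saturated fusion system F over a finite p-group S, the focal subgroup and the derived subgroup of S meet the centre Z(F) of the system in the same subgroup: foc(F) ∩ Z(F) = S′ ∩ Z(F). -/
theorem result {Ω : Type*} [Group Ω] {S : Subgroup Ω} [Finite S] (p : ℕ) [Fact p.Prime] (hS : IsPGroup p S) (F : Cfsg.FusionSystem S) (hF : F.IsSaturated p) : F.focalSubgroup ⊓ F.center = ⁅(S : Subgroup Ω), (S : Subgroup Ω)⁆ ⊓ F.center := by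
  have hcenS : F.center ≤ S := (Cfsg.Agent.H88.isCentral_center F).1
  apply le_antisymm
  · rintro z ⟨hzf, hzc⟩
    refine ⟨?_, hzc⟩
    have hzS : z ∈ S := hcenS hzc
    obtain ⟨τ, k, hpk, hstab, hτz⟩ := exists_stable_hom hS hF ⟨z, hzS⟩ hzc
    have hfoc : F.focalSubgroup ≤ (τ.ker).map S.subtype := by
      unfold FusionSystem.focalSubgroup
      rw [Subgroup.closure_le]
      rintro y ⟨P, φ, x, hφ, rfl⟩
      have hP : P ≤ S := (F.le_of_mem hφ).1
      have hφS : ∀ x : P, φ x ∈ S := (F.le_of_mem hφ).2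
      refine ⟨(⟨x, hP x.2⟩ : S)⁻¹ * ⟨φ x, hφS x⟩, ?_, rfl⟩
      show τ ((⟨x, hP x.2⟩ : S)⁻¹ * ⟨φ x, hφS x⟩) = 1
      rw [map_mul, map_inv, hstab P hP φ hφS hφ x, inv_mul_cancel]
    obtain ⟨z', hz', hz'z⟩ := hfoc hzf
    have hzz : z' = ⟨z, hzS⟩ := Subtype.ext hz'z
    rw [hzz] at hz'
    have hτ1 : τ ⟨z, hzS⟩ = 1 := hz'
    rw [hτz] at hτ1
    have hpA : IsPGroup p (Abelianization S) := hS.to_quotient (commutator S)
    have hcop : k.Coprime p :=
      Nat.Coprime.symm ((Nat.Prime.coprime_iff_not_dvd Fact.out).2 hpk)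
    have h1 := Cfsg.Agent.H89.eq_one_of_pow_coprime hpA hcop _ hτ1
    have h2 : (⟨z, hzS⟩ : S)⁻¹ ∈ commutator S := by
      rw [← Abelianization.ker_of S]
      exact h1
    have h3 : (⟨z, hzS⟩ : S) ∈ commutator S := by
      have := (commutator S).inv_mem h2
      rwa [inv_inv] at this
    rw [← Subgroup.map_subtype_commutator]
    exact ⟨⟨z, hzS⟩, h3, rfl⟩
  · rintro z ⟨hzc, hzZ⟩
    refine ⟨?_, hzZ⟩
    have : ⁅S, S⁆ ≤ F.focalSubgroup := by
      rw [Subgroup.commutator_le]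
      intro a ha b hb
      refine Subgroup.subset_closure
        ⟨S, conjHom S b, ⟨a⁻¹, S.inv_mem ha⟩, F.conj_mem le_rfl hb, ?_⟩
      rw [commutatorElement_def]
      show a * b * a⁻¹ * b⁻¹ = (a⁻¹)⁻¹ * (b * a⁻¹ * b⁻¹)
      group
    exact this hzc

end Cfsg.Agent.S5329
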