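import Cfsg.Statements.S5331
import Cfsg.Agent.H90.TwoGroupCoord
import Cfsg.Agent.H90.Coprime
import Cfsg.Agent.H90.AbelianFus

set_option autoImplicit false
set_option maxHeartbeats 1000000
open Cfsg

namespace Cfsg.Agent.S5331

open Cfsg.FusionSystem Cfsg.Agent.H86 Cfsg.Agent.H90

/-- An automorphism of odd order of a finite abelian `2`-group whose layers
`Ω₁ ∩ M^{2^k} / Ω₁ ∩ M^{2^{k+1}}` have order at most two is trivial. -/
theorem aut_eq_one_of_odd {M : Type*} [Group M] [Finite M] (hcomm : ∀ x y : M, x * y = y * x)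
    (h2 : IsPGroup 2 M)
    (hL : ∀ (k : ℕ) (x x' : M), x ^ 2 = 1 → x' ^ 2 = 1 → (∃ y, x = y ^ 2 ^ k) → (∃ y, x' = y ^ 2 ^ k) →
      (¬ ∃ z, x = z ^ 2 ^ (k + 1)) → (¬ ∃ z, x' = z ^ 2 ^ (k + 1)) → ∃ w, x * x' = w ^ 2 ^ (k + 1))
    (α : MulAut M) (m : ℕ) (hα : α ^ (2 * m + 1) = 1) : α = 1 := by
  obtain ⟨N, hN⟩ := IsPGroup.iff_card.1 h2
  have hkill : ∀ k, Nat.card M ≤ k → ∀ y : M, y ^ 2 ^ k = 1 := by
    intro k hk y
    have hNK : N ≤ k := by
      have : N < 2 ^ N := Nat.lt_two_pow_self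
      omega
    obtain ⟨d, rfl⟩ := Nat.exists_eq_add_of_le hNK
    rw [pow_add, pow_mul, ← hN, pow_card_eq_one', one_pow]
  have hP : ∀ d k, Nat.card M ≤ k + d → ∀ x : M, x ^ 2 = 1 → (∃ y, x = y ^ 2 ^ k) → α x = x := by
    intro d
    induction d with
    | zero =>
      rintro k hk x - ⟨y, rfl⟩
      rw [hkill k (by omega) y, map_one]
    | succ d ih =>
      intro k hk x hx2 hx
      have ih' := ih (k + 1) (by omega)
      by_cases hx1 : ∃ z, x = z ^ 2 ^ (k + 1)
      · exact ih' x hx2 hx1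
      · have hαx2 : (α x) ^ 2 = 1 := by rw [← map_pow, hx2, map_one]
        have hαx : ∃ y, α x = y ^ 2 ^ k := by
          obtain ⟨y, rfl⟩ := hx
          exact ⟨α y, map_pow α y _⟩
        have hαx1 : ¬ ∃ z, α x = z ^ 2 ^ (k + 1) := by
          rintro ⟨z, hz⟩
          apply hx1
          refine ⟨α⁻¹ z, ?_⟩
          rw [← map_pow, ← hz, MulAut.inv_apply_self]
        obtain ⟨w, hw⟩ := hL k x (α x) hx2 hαx2 hx hαx hx1 hαx1
        have h3 : (x * α x) ^ 2 = 1 := by
          have hc : Commute x (α x) := hcomm x (α x)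
          rw [hc.mul_pow, hx2, hαx2, one_mul]
        have h4 := ih' (x * α x) h3 ⟨w, hw⟩
        rw [map_mul] at h4
        have h5 : α (α x) = x := by
          have : α x * α (α x) = α x * x := by rw [h4, hcomm]
          exact mul_left_cancel this
        have h6 : ∀ j : ℕ, (α ^ (2 * j)) x = x := by
          intro j
          induction j with
          | zero => simp
          | succ j ihj =>
            rw [show 2 * (j + 1) = 2 + 2 * j by ring, pow_add, MulAut.mul_apply, ihj, pow_two,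
              MulAut.mul_apply, h5]
        have h7 : (α ^ (2 * m + 1)) x = α x := by
          rw [pow_succ', MulAut.mul_apply, h6]
        rw [hα] at h7
        exact h7.symm
  have hinv : ∀ x : M, x ^ 2 = 1 → α x = x := fun x hx2 => hP (Nat.card M) 0 (by omega) x hx2 ⟨x, by simp⟩
  -- coprime action
  have hAfix : ∀ x : M, α x = x → ∀ β ∈ Subgroup.zpowers α, β x = x := by
    intro x hx β hβ
    have hle : Subgroup.zpowers α ≤ MulAction.stabilizer (MulAut M) x :=
      Subgroup.zpowers_le.2 (MulAction.mem_stabilizer_iff.2 hx)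
    exact MulAction.mem_stabilizer_iff.1 (hle hβ)
  have hcop : (Nat.card (Subgroup.zpowers α)).Coprime (Nat.card M) := by
    rw [Nat.card_zpowers, hN]
    apply Nat.Coprime.pow_right
    have hd : orderOf α ∣ 2 * m + 1 := orderOf_dvd_of_pow_eq_one hα
    have h2d : ¬ 2 ∣ orderOf α := fun h => by
      have := h.trans hd
      omega
    exact ((Nat.Prime.coprime_iff_not_dvd Nat.prime_two).2 h2d).symm
  have hD : ∀ d ∈ Subgroup.closure (commSet (Subgroup.zpowers α)), d = 1 := by
    by_contra hcon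
    push_neg at hcon
    obtain ⟨d, hd, hd1⟩ := hcon
    have hDp : IsPGroup 2 (Subgroup.closure (commSet (Subgroup.zpowers α))) := h2.to_subgroup _
    haveI : Nontrivial (Subgroup.closure (commSet (Subgroup.zpowers α))) :=
      ⟨⟨⟨d, hd⟩, 1, fun h => hd1 (congrArg Subtype.val h)⟩⟩
    have h2D : 2 ∣ Nat.card (Subgroup.closure (commSet (Subgroup.zpowers α))) :=
      (hDp.card_eq_or_dvd).resolve_left (Finite.one_lt_card_iff_nontrivial.2 inferInstance).ne'
    obtain ⟨t, ht⟩ := exists_prime_orderOf_dvd_card' 2 h2D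
    have ht2 : (t : M) ^ 2 = 1 := by
      have := pow_orderOf_eq_one t
      rw [ht] at this
      exact congrArg Subtype.val this
    have htfix := hAfix (t : M) (hinv _ ht2)
    have h1 := coprime_comm_fix_inter hcomm (Subgroup.zpowers α) hcop (t : M) htfix t.2
    have h1' : t = 1 := Subtype.ext h1
    rw [h1', orderOf_one] at ht
    omega
  ext x
  obtain ⟨c, d, hc, hd, rfl⟩ := coprime_comm_decomp hcomm (Subgroup.zpowers α) hcop x
  rw [hD d hd, mul_one]
  exact hc α (Subgroup.mem_zpowers α)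

/-- Let S be a finite abelian 2-group that is a direct product of cyclic groups of pairwise distinct orders 2^{a_1} < 2^{a_2} < ⋯ < 2^{a_n} (all a_i ≥ 1). Then every saturated fusion system over S is the inner one: its maps are exactly the conjugations by elements of S. -/
theorem result {Ω : Type*} [Group Ω] {S : Subgroup Ω} [Finite S] (n : ℕ) (a : Fin n → ℕ) (ha : StrictMono a) (ha1 : ∀ i, 1 ≤ a i) (e : ↥S ≃* Multiplicative ((i : Fin n) → ZMod (2 ^ a i))) (F : Cfsg.FusionSystem S) (hF : F.IsSaturated 2) (P : Subgroup Ω) : F.Hom P = (Cfsg.innerFusionSystem S).Hom P := by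
  have hinj : Function.Injective a := ha.injective
  have hcomm : ∀ x y : S, x * y = y * x := by
    intro x y
    apply e.injective
    rw [map_mul, map_mul, mul_comm]
  have hab : ∀ x ∈ S, ∀ y ∈ S, x * y = y * x :=
    fun x hx y hy => congrArg Subtype.val (hcomm ⟨x, hx⟩ ⟨y, hy⟩)
  have hpow : ∀ (x : S) (j : ℕ), Multiplicative.toAdd (e (x ^ j)) = j • Multiplicative.toAdd (e x) := by
    intro x j
    rw [map_pow, toAdd_pow]
  have h2 : IsPGroup 2 S := by
    intro g
    refine ⟨∑ i, a i, ?_⟩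
    apply e.injective
    apply Multiplicative.toAdd.injective
    rw [hpow, map_one, toAdd_one]
    funext i
    simp only [Pi.smul_apply, nsmul_eq_mul, Pi.zero_apply]
    have h0 : ((2 ^ (∑ i, a i) : ℕ) : ZMod (2 ^ a i)) = 0 :=
      (ZMod.natCast_eq_zero_iff _ _).2
        (pow_dvd_pow 2 (Finset.single_le_sum (fun _ _ => Nat.zero_le _) (Finset.mem_univ i)))
    rw [h0, zero_mul]
  have hL : ∀ (k : ℕ) (x x' : S), x ^ 2 = 1 → x' ^ 2 = 1 → (∃ y, x = y ^ 2 ^ k) → (∃ y, x' = y ^ 2 ^ k) →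
      (¬ ∃ z, x = z ^ 2 ^ (k + 1)) → (¬ ∃ z, x' = z ^ 2 ^ (k + 1)) → ∃ w, x * x' = w ^ 2 ^ (k + 1) := by
    intro k x x' hx2 hx'2 hx hx' hnx hnx'
    have hsq : ∀ u : S, u ^ 2 = 1 → 2 • Multiplicative.toAdd (e u) = 0 := by
      intro u hu
      rw [← hpow, hu, map_one, toAdd_one]
    have hk : ∀ u : S, (∃ y, u = y ^ 2 ^ k) → ∃ y, Multiplicative.toAdd (e u) = 2 ^ k • y := by
      rintro u ⟨y, rfl⟩
      exact ⟨_, hpow y _⟩
    have hnk : ∀ u : S, (¬ ∃ z, u = z ^ 2 ^ (k + 1)) → ¬ ∃ z, Multiplicative.toAdd (e u) = 2 ^ (k + 1) • z := by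
      rintro u hu ⟨z, hz⟩
      apply hu
      refine ⟨e.symm (Multiplicative.ofAdd z), ?_⟩
      apply e.injective
      apply Multiplicative.toAdd.injective
      rw [hpow, e.apply_symm_apply, toAdd_ofAdd, hz]
    obtain ⟨w, hw⟩ := coord_key a hinj ha1 k _ _ (hsq x hx2) (hsq x' hx'2) (hk x hx) (hk x' hx')
      (hnk x hnx) (hnk x' hnx')
    refine ⟨e.symm (Multiplicative.ofAdd w), ?_⟩
    apply e.injective
    apply Multiplicative.toAdd.injective
    rw [hpow, e.apply_symm_apply, toAdd_ofAdd, map_mul, toAdd_mul, hw]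
  apply Set.Subset.antisymm
  · intro φ hφ
    have hPS := (F.le_of_mem hφ).1
    refine ⟨hPS, 1, S.one_mem, fun x => ?_⟩
    obtain ⟨f', hf', himg, hf'f⟩ := exists_extension_of_abelian hF hab (mor_extFun hφ)
    have hβ := mkAut_mem hf' himg
    have hodd : ¬ 2 ∣ Nat.card (F.autGroup S) := autGroup_card_not_dvd_of_abelian hF hab
    obtain ⟨m, hm⟩ : ∃ m, Nat.card (F.autGroup S) = 2 * m + 1 := ⟨Nat.card (F.autGroup S) / 2, by omega⟩
    have hpow1 : (mkAut hf' himg) ^ (2 * m + 1) = 1 := by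
      have : (⟨mkAut hf' himg, hβ⟩ : F.autGroup S) ^ Nat.card (F.autGroup S) = 1 := pow_card_eq_one'
      rw [hm] at this
      exact congrArg Subtype.val this
    have h1 := aut_eq_one_of_odd hcomm h2 hL (mkAut hf' himg) m hpow1
    have h3 : ((mkAut hf' himg) ⟨x, hPS x.2⟩ : Ω) = f' x := mkAut_apply hf' himg _
    rw [h1] at h3
    simp only [one_mul, inv_one, mul_one]
    rw [← extFun_apply P φ x, ← hf'f x x.2, ← h3]
    rfl
  · rintro φ ⟨hP, g, hg, H⟩
    have : φ = conjHom P g := by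
      ext x
      rw [H]; rfl
    rw [this]
    exact F.conj_mem hP hg

end Cfsg.Agent.S5331
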