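import Cfsg.Statements.S5332
-- import your own Cfsg.Agent.* helpers here
import Cfsg.Agent.H90.GTSparse
import Cfsg.Agent.H90.Tate2
import Cfsg.Agent.H88.Quasi

set_option autoImplicit false
open Cfsg

namespace Cfsg.Agent.S5332

open Cfsg.FusionSystem Cfsg.Agent.H86 Cfsg.Agent.H90

/-- Let p be odd and F a saturated fusion system over a finite p-group S that is not the inner system of S. Then F contains a saturated constrained subsystem over S that is itself not the inner system. -/
theorem result {Ω : Type*} [Group Ω] {S : Subgroup Ω} [Finite S] (p : ℕ) [Fact p.Prime] (hS : IsPGroup p S) (F : Cfsg.FusionSystem S) (hF : F.IsSaturated p) (hp : p ≠ 2) (hne : ∃ P : Subgroup Ω, F.Hom P ≠ (Cfsg.innerFusionSystem S).Hom P) : ∃ E : Cfsg.FusionSystem S, E ≤ F ∧ E.IsConstrained p ∧ ∃ P : Subgroup Ω, E.Hom P ≠ (Cfsg.innerFusionSystem S).Hom P := by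
  have hnot : ¬ AutP p F := by
    intro h
    obtain ⟨P, hP⟩ := hne
    exact hP (hom_eq_inner_of_hyperfocal_eq_bot hS hF
      (Cfsg.Agent.H88.hyperfocal_eq_bot_of_autGroups_pGroups (fun T hT => h.isPGroup hT)) P)
  obtain ⟨E, hEF, hEsat, hEnot, Q, hQn, hQc⟩ :=
    exists_constrained_sub hp hS (Nat.card S) F hF hnot ⊥ (Cfsg.Agent.H88.isNormal_bot F)
      (Nat.sub_le _ _)
  refine ⟨E, hEF, ⟨hEsat, Q, hQn, hQn.1, fun R hR => ?_⟩, ?_⟩
  · rw [Cfsg.Agent.H87.isConj_eq_of_stronglyClosed (IsNormal.stronglyClosed hQn) hR]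
    exact hQc
  · by_contra hall
    push_neg at hall
    exact hEnot (autP_of_hom_eq_inner hS hall)

end Cfsg.Agent.S5332
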