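import Cfsg.Statements.S5521
import Cfsg.Agent.H9.M24b

set_option autoImplicit false
open Cfsg

namespace Cfsg.Agent.S5521

/-- The Mathieu group M₂₄ in its natural action on the 24 coordinate positions of the binary Golay code has minimal base size exactly 7: every set of at most 6 positions is fixed pointwise by some non-identity element of M₂₄, while some set of 7 positions is fixed pointwise only by the identity. -/
theorem result :
    (∀ B : Finset Cfsg.GolayPt, B.card ≤ 6 → ∃ g ∈ Cfsg.M24, g ≠ 1 ∧ ∀ b ∈ B, g b = b) ∧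
    (∃ B : Finset Cfsg.GolayPt, B.card = 7 ∧ ∀ g ∈ Cfsg.M24, (∀ b ∈ B, g b = b) → g = 1) := by
  constructor
  · intro B hB
    by_contra hcon
    push Not at hcon
    have hinj : Function.Injective (fun g : Cfsg.M24 =>
        (⟨fun b : B => (g : Equiv.Perm Cfsg.GolayPt) b,
          fun b b' h => Subtype.ext ((g : Equiv.Perm Cfsg.GolayPt).injective h)⟩ :
          B ↪ Cfsg.GolayPt)) := by
      intro g h hgh
      by_contra hne
      have hne' : ((h⁻¹ * g : Cfsg.M24) : Equiv.Perm Cfsg.GolayPt) ≠ 1 := by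
        intro h1
        apply hne
        have h2 : h⁻¹ * g = 1 := Subtype.ext h1
        rw [inv_mul_eq_one] at h2
        exact h2.symm
      obtain ⟨b, hb, hbne⟩ := hcon _ (h⁻¹ * g).2 hne'
      apply hbne
      have h3 := congrArg (fun f : B ↪ Cfsg.GolayPt => f ⟨b, hb⟩) hgh
      have h4 : (g : Equiv.Perm Cfsg.GolayPt) b = (h : Equiv.Perm Cfsg.GolayPt) b := h3
      change ((h : Equiv.Perm Cfsg.GolayPt)⁻¹ * (g : Equiv.Perm Cfsg.GolayPt)) b = b
      rw [Equiv.Perm.mul_apply, h4]
      exact Equiv.symm_apply_apply _ _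
    have hle := Nat.card_le_card_of_injective _ hinj
    rw [Cfsg.Agent.H9.card_M24, Nat.card_eq_fintype_card, Fintype.card_embedding_eq,
      Fintype.card_coe, Cfsg.Agent.H9.card_golayPt] at hle
    have h1 : Nat.descFactorial 24 B.card ≤ Nat.descFactorial 24 6 := by
      interval_cases B.card <;> decide
    have h6 : Nat.descFactorial 24 6 = 96909120 := by decide
    omega
  · refine ⟨(List.map Cfsg.Agent.H9.gPt [5, 7, 4, 3, 2, 1, 0]).toFinset, by decide, ?_⟩
    intro g hg hfix
    have hmem : g ∈ Cfsg.Agent.H9.Stab [5, 7, 4, 3, 2, 1, 0] := by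
      rw [Cfsg.Agent.H9.mem_Stab]
      refine ⟨hg, fun i hi => hfix _ ?_⟩
      rw [List.mem_toFinset]
      exact List.mem_map_of_mem hi
    rw [Cfsg.Agent.H9.Stab_base_eq_bot, Subgroup.mem_bot] at hmem
    exact hmem

end Cfsg.Agent.S5521
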