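import Cfsg.Statements.S5562
-- import your own Cfsg.Agent.* helpers here

set_option autoImplicit false
open Cfsg

namespace Cfsg.Agent.S5562

/-- In a group, two elements of odd order with equal squares are equal. -/
theorem eq_of_sq_eq_of_odd {G : Type*} [Group G] {g h : G}
    (hg : Odd (orderOf g)) (hh : Odd (orderOf h)) (e : g ^ 2 = h ^ 2) : g = h := by
  obtain ⟨k, hk⟩ := hg
  obtain ⟨l, hl⟩ := hh
  -- g = (g^2)^(k+1), h = (h^2)^(l+1)
  have h1 : g = (g ^ 2) ^ (k + 1) := by
    rw [← pow_mul]
    have : 2 * (k + 1) = orderOf g + 1 := by omega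
    rw [this, pow_succ, pow_orderOf_eq_one, one_mul]
  have h2 : h = (h ^ 2) ^ (l + 1) := by
    rw [← pow_mul]
    have : 2 * (l + 1) = orderOf h + 1 := by omega
    rw [this, pow_succ, pow_orderOf_eq_one, one_mul]
  -- so g is a power of h and h is a power of g; they commute
  have hc : Commute g h := by
    have : Commute (h ^ 2) h := (Commute.refl h).pow_left 2
    rw [h1, e]
    exact this.pow_left _
  -- (g * h⁻¹)^2 = 1 and g * h⁻¹ has odd order
  have h3 : (g * h⁻¹) ^ 2 = 1 := by
    rw [(hc.inv_right).mul_pow, e, inv_pow, mul_inv_cancel]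
  have h4 : (g * h⁻¹) ^ (orderOf g * orderOf h) = 1 := by
    rw [(hc.inv_right).mul_pow, pow_mul, pow_orderOf_eq_one, one_pow, one_mul, mul_comm, pow_mul,
      inv_pow, pow_orderOf_eq_one, inv_one, one_pow]
  have h5 : orderOf (g * h⁻¹) ∣ 2 := orderOf_dvd_of_pow_eq_one h3
  have h6 : orderOf (g * h⁻¹) ∣ orderOf g * orderOf h := orderOf_dvd_of_pow_eq_one h4
  have h7 : Nat.Coprime 2 (orderOf g * orderOf h) := by
    rw [Nat.coprime_two_left]
    rw [hk, hl]
    exact (odd_two_mul_add_one k).mul (odd_two_mul_add_one l)
  have h8 : orderOf (g * h⁻¹) = 1 := Nat.eq_one_of_dvd_coprimes h7 h5 h6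
  rw [orderOf_eq_one_iff] at h8
  exact mul_inv_eq_one.mp h8

/-- Let G be a finite group, d an involution of G whose conjugates pairwise have products of odd order, and x any involution of G. Then the conjugacy class of d is the disjoint union, over the conjugates a of d commuting with x, of the sets of conjugates of d commuting with ax: every conjugate of d commutes with ax for exactly one conjugate a of d that commutes with x. -/
theorem result {G : Type*} [Group G] [Finite G] (d : G) (hd : orderOf d = 2)
    (hodd : ∀ a ∈ conjugatesOf d, ∀ b ∈ conjugatesOf d, Odd (orderOf (a * b)))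
    (x : G) (hx : orderOf x = 2) :
    ∀ e ∈ conjugatesOf d,
      ∃! a : G, a ∈ conjugatesOf d ∧ Commute a x ∧ Commute e (a * x) := by
  intro e he
  have hxx : x * x = 1 := by
    have := pow_orderOf_eq_one x
    rw [hx, pow_two] at this
    exact this
  have hxinv : x⁻¹ = x := inv_eq_of_mul_eq_one_left hxx
  -- every conjugate of d is an involution
  have hinv : ∀ a ∈ conjugatesOf d, a * a = 1 := by
    intro a ha
    have ha' : IsConj d a := ha
    rw [isConj_iff] at ha'
    obtain ⟨c, rfl⟩ := ha'
    have : d * d = 1 := by
      have := pow_orderOf_eq_one d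
      rw [hd, pow_two] at this
      exact this
    calc c * d * c⁻¹ * (c * d * c⁻¹) = c * (d * d) * c⁻¹ := by group
      _ = 1 := by rw [this]; group
  have hconj : ∀ a ∈ conjugatesOf d, ∀ c : G, c * a * c⁻¹ ∈ conjugatesOf d := by
    intro a ha c
    have ha' : IsConj d a := ha
    show IsConj d (c * a * c⁻¹)
    exact ha'.trans (isConj_iff.mpr ⟨c, rfl⟩)
  have hee : e * e = 1 := hinv e he
  have heinv : e⁻¹ = e := inv_eq_of_mul_eq_one_left hee
  -- t = x e x
  set t : G := x * e * x with ht
  have htD : t ∈ conjugatesOf d := by
    have := hconj e he x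
    rwa [hxinv] at this
  have htt : t * t = 1 := hinv t htD
  set r : G := e * t with hr
  have hrodd : Odd (orderOf r) := hodd e he t htD
  obtain ⟨k, hk⟩ := hrodd
  -- s = r^(k+1), s^2 = r
  set s : G := r ^ (k + 1) with hs
  have hs2 : s * s = r := by
    rw [hs, ← pow_add]
    have : k + 1 + (k + 1) = orderOf r + 1 := by omega
    rw [this, pow_succ, pow_orderOf_eq_one, one_mul]
  -- e inverts r
  have her : e * r * e = r⁻¹ := by
    rw [hr]
    have : (e * t)⁻¹ = t * e := by
      rw [mul_inv_rev, heinv, inv_eq_of_mul_eq_one_left htt]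
    rw [this]
    calc e * (e * t) * e = (e * e) * t * e := by group
      _ = t * e := by rw [hee, one_mul]
  have hes : e * s * e = s⁻¹ := by
    rw [hs, ← inv_pow, ← her]
    have : ∀ n : ℕ, e * r ^ n * e = (e * r * e) ^ n := by
      intro n
      induction n with
      | zero => simp [hee]
      | succ n ih =>
        rw [pow_succ, pow_succ, ← ih]
        calc e * (r ^ n * r) * e = e * r ^ n * (1) * r * e := by group
          _ = e * r ^ n * (e * e) * r * e := by rw [hee]
          _ = e * r ^ n * e * (e * r * e) := by group
    exact this _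
  -- x inverts r
  have hxe : x * e * x = t := rfl
  have hxt : x * t * x = e := by
    rw [ht]
    calc x * (x * e * x) * x = (x * x) * e * (x * x) := by group
      _ = e := by rw [hxx, one_mul, mul_one]
  have hxr : x * r * x = r⁻¹ := by
    have : (e * t)⁻¹ = t * e := by
      rw [mul_inv_rev, heinv, inv_eq_of_mul_eq_one_left htt]
    rw [hr, this]
    calc x * (e * t) * x = x * e * 1 * t * x := by group
      _ = x * e * (x * x) * t * x := by rw [hxx]
      _ = (x * e * x) * (x * t * x) := by group
      _ = t * e := by rw [hxt]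
  have hxs : x * s * x = s⁻¹ := by
    rw [hs, ← inv_pow, ← hxr]
    have : ∀ n : ℕ, x * r ^ n * x = (x * r * x) ^ n := by
      intro n
      induction n with
      | zero => simp [hxx]
      | succ n ih =>
        rw [pow_succ, pow_succ, ← ih]
        calc x * (r ^ n * r) * x = x * r ^ n * (1) * r * x := by group
          _ = x * r ^ n * (x * x) * r * x := by rw [hxx]
          _ = x * r ^ n * x * (x * r * x) := by group
    exact this _
  -- q with q^2 = s, e inverts q
  set q : G := s ^ (k + 1) with hq
  have hsr : s ^ orderOf r = 1 := by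
    rw [hs, ← pow_mul, mul_comm, pow_mul, pow_orderOf_eq_one, one_pow]
  have hq2 : q * q = s := by
    rw [hq, ← pow_add]
    have : k + 1 + (k + 1) = orderOf r + 1 := by omega
    rw [this, pow_succ, hsr, one_mul]
  have heq : e * q * e = q⁻¹ := by
    rw [hq, ← inv_pow, ← hes]
    have : ∀ n : ℕ, e * s ^ n * e = (e * s * e) ^ n := by
      intro n
      induction n with
      | zero => simp [hee]
      | succ n ih =>
        rw [pow_succ, pow_succ, ← ih]
        calc e * (s ^ n * s) * e = e * s ^ n * (1) * s * e := by group
          _ = e * s ^ n * (e * e) * s * e := by rw [hee]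
          _ = e * s ^ n * e * (e * s * e) := by group
    exact this _
  -- a = e * s
  have haD : e * s ∈ conjugatesOf d := by
    have h1 := hconj e he q⁻¹
    have h2 : q⁻¹ * e * q⁻¹⁻¹ = e * s := by
      rw [inv_inv]
      calc q⁻¹ * e * q = (e * q * e) * e * q := by rw [heq]
        _ = e * q * (e * e) * q := by group
        _ = e * (q * q) := by rw [hee]; group
        _ = e * s := by rw [hq2]
    rwa [h2] at h1
  have hax : Commute (e * s) x := by
    show e * s * x = x * (e * s)
    have h1 : s * x = x * s⁻¹ := by
      have : x * (x * s * x) = x * s⁻¹ := by rw [hxs]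
      rw [← this]
      calc s * x = (x * x) * s * x := by rw [hxx, one_mul]
        _ = x * (x * s * x) := by group
    have h2 : x * e = t * x := by
      rw [ht]
      calc x * e = x * e * (x * x) := by rw [hxx, mul_one]
        _ = x * e * x * x := by group
    have h3 : t = e * r := by
      rw [hr]
      calc t = (e * e) * t := by rw [hee, one_mul]
        _ = e * (e * t) := by group
    calc e * s * x = e * (s * x) := by group
      _ = e * (x * s⁻¹) := by rw [h1]
      _ = e * x * s⁻¹ := by group
      _ = e * x * s⁻¹ * 1 := by group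
      _ = x * (e * s) := ?_
    -- need e * x * s⁻¹ = x * e * s; x * e = t * x = e * r * x
    have h4 : x * (e * s) = e * r * x * s := by
      calc x * (e * s) = (x * e) * s := by group
        _ = t * x * s := by rw [h2]
        _ = e * r * x * s := by rw [h3]
    have h5 : r * x = x * r⁻¹ := by
      have : x * (x * r * x) = x * r⁻¹ := by rw [hxr]
      rw [← this]
      calc r * x = (x * x) * r * x := by rw [hxx, one_mul]
        _ = x * (x * r * x) := by group
    rw [h4]
    calc e * x * s⁻¹ * 1 = e * x * s⁻¹ := by group
      _ = e * x * ((s * s)⁻¹ * s) := by group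
      _ = e * x * (r⁻¹ * s) := by rw [hs2]
      _ = e * (x * r⁻¹) * s := by group
      _ = e * (r * x) * s := by rw [h5]
      _ = e * r * x * s := by group
  have h3 : t = e * r := by
    rw [hr]
    calc t = (e * e) * t := by rw [hee, one_mul]
      _ = e * (e * t) := by group
  have hse : s * e = e * s⁻¹ := by
    have : e * (e * s * e) = e * s⁻¹ := by rw [hes]
    rw [← this]
    calc s * e = (e * e) * s * e := by rw [hee, one_mul]
      _ = e * (e * s * e) := by group
  have hae : (e * s) * t * (e * s)⁻¹ = e := by
    rw [h3]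
    calc e * s * (e * r) * (e * s)⁻¹ = e * (s * e) * r * s⁻¹ * e⁻¹ := by group
      _ = e * (e * s⁻¹) * r * s⁻¹ * e := by rw [hse, heinv]
      _ = (e * e) * s⁻¹ * (s * s) * s⁻¹ * e := by rw [hs2]; group
      _ = e := by rw [hee]; group
  have hcomm : Commute e (e * s * x) := by
    show e * (e * s * x) = e * s * x * e
    have h1 : x * e = t * x := by
      rw [ht]
      calc x * e = x * e * (x * x) := by rw [hxx, mul_one]
        _ = x * e * x * x := by group
    have h2 : (e * s) * t = e * (e * s) := by
      calc (e * s) * t = ((e * s) * t * (e * s)⁻¹) * (e * s) := by group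
        _ = e * (e * s) := by rw [hae]
    calc e * (e * s * x) = (e * (e * s)) * x := by group
      _ = (e * s) * t * x := by rw [h2]
      _ = (e * s) * (t * x) := by group
      _ = (e * s) * (x * e) := by rw [h1]
      _ = e * s * x * e := by group
  refine ⟨e * s, ⟨haD, hax, hcomm⟩, ?_⟩
  -- uniqueness
  rintro a' ⟨ha'D, ha'x, ha'c⟩
  have ha'a' : a' * a' = 1 := hinv a' ha'D
  have ha'inv : a'⁻¹ = a' := inv_eq_of_mul_eq_one_left ha'a'
  -- a' t a' = e
  have h1 : a' * t * a' = e := by
    have hc : e * (a' * x) = a' * x * e := ha'c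
    have hxa : a' * x = x * a' := ha'x
    -- (a' x) e (a' x)⁻¹ = e
    calc a' * t * a' = a' * (x * e * x) * a' := by rw [ht]
      _ = (a' * x) * e * (x * a') := by group
      _ = (e * (a' * x)) * (x * a') := by rw [hc]
      _ = e * a' * (x * x) * a' := by group
      _ = e * (a' * a') := by rw [hxx]; group
      _ = e := by rw [ha'a', mul_one]
  -- (a' e)^2 = t e = ((e s) e)^2
  have hA : ∀ a : G, a * a = 1 → a * t * a = e → (a * e) ^ 2 = t * e := by
    intro a haa hat
    have : a * e * a = t := by
      rw [← hat]
      calc a * (a * t * a) * a = (a * a) * t * (a * a) := by group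
        _ = t := by rw [haa, one_mul, mul_one]
    rw [pow_two]
    calc a * e * (a * e) = (a * e * a) * e := by group
      _ = t * e := by rw [this]
  have hesinv : (e * s)⁻¹ = e * s := inv_eq_of_mul_eq_one_left (hinv _ haD)
  have h2 : (e * s) * t * (e * s) = e := by
    have := hae
    rwa [hesinv] at this
  have e1 := hA a' ha'a' h1
  have e2 := hA (e * s) (hinv _ haD) h2
  have := eq_of_sq_eq_of_odd (hodd a' ha'D e he) (hodd (e * s) haD e he) (e1.trans e2.symm)
  exact mul_right_cancel this

end Cfsg.Agent.S5562
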