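import Cfsg.Statements.S5596
import Cfsg.Agent.H94.LargeExtra
import Cfsg.Agent.H94.Coord

set_option autoImplicit false
open Cfsg

namespace Cfsg.Agent.S5596

open Cfsg.Agent.H94 in
/-- Setting: `z` is an involution of the finite group `G`; for each element `x`, `Q x` is the largest normal 2-subgroup of the centralizer of `x`; `Q z` is extraspecial and contains its own centralizer in `G`. A subgroup `U` is singular when it is elementary abelian, every non-identity element of `U` is conjugate to `z`, and any two non-identity elements `u`, `v` of `U` are orthogonal (`v ∈ Q u`). Write `QU` for the intersection of the `Q u` and `LU` for the join of the `Q u` over the non-identity `u` in `U`. If `U` is singular of order `2 ^ n` with `n ≥ 2`, then `U ≤ QU ≤ LU`, `LU` normalizes `U`, and `LU` induces on `U` its full automorphism group (the general linear group of dimension `n` over the field with two elements): every automorphism of `U` is conjugation by some element of `LU`. -/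
theorem result {G : Type*} [Group G] [Finite G]
    (Q : G → Subgroup G)
    (hQ : ∀ x : G, Q x = (Cfsg.pCore 2 ↥(Subgroup.centralizer ({x} : Set G))).map (Subgroup.centralizer ({x} : Set G)).subtype)
    (z : G) (hz : orderOf z = 2) (hE : Cfsg.IsExtraspecial 2 ↥(Q z))
    (hC : Subgroup.centralizer ((Q z : Subgroup G) : Set G) ≤ Q z)
    (U : Subgroup G) (hU2 : ∀ u ∈ U, u * u = 1)
    (hS : ∀ u ∈ U, u ≠ 1 → ∃ g : G, g * z * g⁻¹ = u)
    (hO : ∀ u ∈ U, ∀ v ∈ U, u ≠ 1 → v ≠ 1 → v ∈ Q u)
    (QU LU : Subgroup G) (hQU : QU = ⨅ u ∈ ((U : Set G) \ {1}), Q u) (hLU : LU = ⨆ u ∈ ((U : Set G) \ {1}), Q u)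
    (n : ℕ) (hn : 2 ≤ n) (hcard : Nat.card ↥U = 2 ^ n) :
    U ≤ QU ∧ QU ≤ LU ∧ LU ≤ Subgroup.normalizer (U : Set G) ∧
      ∀ φ : ↥U ≃* ↥U, ∃ g ∈ LU, ∀ u : ↥U, g * (u : G) * g⁻¹ = ((φ u : ↥U) : G) := by
  have hXL : ∀ u ∈ U, u ≠ 1 → XL (Q u) u := by
    intro u hu hu1
    obtain ⟨g, rfl⟩ := hS u hu hu1
    exact setup_XL Q hQ z hz hE hC g
  have hmemS : ∀ u ∈ U, u ≠ 1 → u ∈ (U : Set G) \ {1} := by
    intro u hu hu1
    exact ⟨hu, fun h => hu1 (Set.mem_singleton_iff.1 h)⟩
  have hQUle : ∀ u ∈ U, u ≠ 1 → QU ≤ Q u := by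
    intro u hu hu1
    rw [hQU]
    exact iInf₂_le u (hmemS u hu hu1)
  have hleLU : ∀ u ∈ U, u ≠ 1 → Q u ≤ LU := by
    intro u hu hu1
    rw [hLU]
    exact le_iSup₂ (f := fun u (_ : u ∈ (U : Set G) \ {1}) => Q u) u (hmemS u hu hu1)
  have hUQ : ∀ u ∈ U, u ≠ 1 → U ≤ Q u := by
    intro u hu hu1 v hv
    by_cases hv1 : v = 1
    · rw [hv1]; exact (Q u).one_mem
    · exact hO u hu v hv hu1 hv1
  have hnorm : ∀ u ∈ U, u ≠ 1 → ∀ g ∈ Q u, ∀ h ∈ U, g * h * g⁻¹ ∈ U := by
    intro u hu hu1 g hg h hh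
    have e : g * h * g⁻¹ = (g * h * g⁻¹ * h⁻¹) * h := by group
    rw [e]
    apply U.mul_mem _ hh
    rcases (hXL u hu hu1).comm hg (hUQ u hu hu1 hh) with e1 | e1 <;> rw [e1]
    · exact U.one_mem
    · exact hu
  have hLN : LU ≤ Subgroup.normalizer (U : Set G) := by
    rw [hLU]
    apply iSup₂_le
    intro u hu g hg
    have hu1 : u ≠ 1 := fun h => hu.2 (Set.mem_singleton_iff.2 h)
    rw [Subgroup.mem_normalizer_iff]
    intro h
    constructor
    · exact hnorm u hu.1 hu1 g hg h
    · intro hh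
      have := hnorm u hu.1 hu1 g⁻¹ ((Q u).inv_mem hg) _ hh
      have e : g⁻¹ * (g * h * g⁻¹) * g⁻¹⁻¹ = h := by group
      rw [e] at this
      exact this
  -- a non-identity element of `U`
  have hex : ∃ u0 ∈ U, u0 ≠ 1 := by
    by_contra hcon
    push Not at hcon
    have hsub : Subsingleton ↥U := ⟨fun a b => Subtype.ext ((hcon a a.2).trans (hcon b b.2).symm)⟩
    have h1 : Nat.card ↥U = 1 := Nat.card_unique
    rw [hcard] at h1
    have : 2 ^ 2 ≤ 2 ^ n := Nat.pow_le_pow_right (by norm_num) hn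
    omega
  refine ⟨?_, ?_, hLN, ?_⟩
  · rw [hQU]
    intro v hv
    simp only [Subgroup.mem_iInf]
    intro u hu
    exact hUQ u hu.1 (fun h => hu.2 (Set.mem_singleton_iff.2 h)) hv
  · obtain ⟨u0, hu0, hu01⟩ := hex
    exact (hQUle u0 hu0 hu01).trans (hleLU u0 hu0 hu01)
  · -- every automorphism of `U` is induced by `LU`
    have hN : ∀ g ∈ LU, ∀ u : ↥U, g * (u : G) * g⁻¹ ∈ U := by
      intro g hg u
      exact (Subgroup.mem_normalizer_iff.1 (hLN hg) _).1 u.2
    obtain ⟨E, hEmul⟩ := exists_coord (A := ↥U) n (fun a => Subtype.ext (hU2 a a.2)) hcard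
    have hE1 : E 1 = 0 := by
      have := hEmul 1 1
      rw [mul_one] at this
      exact left_eq_add.1 this
    let P : Matrix (Fin n) (Fin n) (ZMod 2) → Prop := fun M =>
      ∃ g, ∃ hg : g ∈ LU, ∀ u : ↥U, E ⟨g * (u : G) * g⁻¹, hN g hg u⟩ = M.mulVec (E u)
    have hP1 : P 1 := by
      refine ⟨1, LU.one_mem, fun u => ?_⟩
      rw [Matrix.one_mulVec]
      congr 1
      apply Subtype.ext
      show (1 : G) * (u : G) * 1⁻¹ = u
      group
    have hPmul : ∀ A B, P A → P B → P (A * B) := by
      rintro A B ⟨gA, hgA, hA⟩ ⟨gB, hgB, hB⟩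
      refine ⟨gA * gB, LU.mul_mem hgA hgB, fun u => ?_⟩
      rw [← Matrix.mulVec_mulVec, ← hB u, ← hA]
      congr 1
      apply Subtype.ext
      show gA * gB * (u : G) * (gA * gB)⁻¹ = gA * (gB * (u : G) * gB⁻¹) * gA⁻¹
      group
    have hz2 : ∀ c : ZMod 2, c = 0 ∨ c = 1 := by decide
    have hPtr : ∀ i j : Fin n, i ≠ j → P (Matrix.transvection i j 1) := by
      intro i j hij
      -- the centre `u0` and the element `x` with `j`-th coordinate 1
      set u0 : ↥U := E.symm (Pi.single i 1) with hu0def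
      set x : ↥U := E.symm (Pi.single j 1) with hxdef
      have hEu0 : E u0 = Pi.single i 1 := E.apply_symm_apply _
      have hEx : E x = Pi.single j 1 := E.apply_symm_apply _
      have hu01 : (u0 : G) ≠ 1 := by
        intro h
        have h' : u0 = 1 := Subtype.ext h
        rw [h', hE1] at hEu0
        have := congrFun hEu0 i
        simp at this
      have hX := hXL u0 u0.2 hu01
      let S : Subgroup G :=
        { carrier := {s | ∃ hs : s ∈ U, E ⟨s, hs⟩ j = 0}
          one_mem' := ⟨U.one_mem, by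
            have : (⟨1, U.one_mem⟩ : ↥U) = 1 := rfl
            rw [this, hE1]; rfl⟩
          mul_mem' := by
            rintro a b ⟨ha, ha'⟩ ⟨hb, hb'⟩
            refine ⟨U.mul_mem ha hb, ?_⟩
            have : (⟨a * b, U.mul_mem ha hb⟩ : ↥U) = ⟨a, ha⟩ * ⟨b, hb⟩ := rfl
            rw [this, hEmul, Pi.add_apply, ha', hb', add_zero]
          inv_mem' := by
            rintro a ⟨ha, ha'⟩
            have e : a⁻¹ = a := inv_eq_of_mul_eq_one_right (hU2 a ha)
            refine ⟨U.inv_mem ha, ?_⟩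
            have : (⟨a⁻¹, U.inv_mem ha⟩ : ↥U) = ⟨a, ha⟩ := Subtype.ext e
            rw [this, ha'] }
      have hSU : S ≤ U := fun s hs => hs.1
      have hu0S : (u0 : G) ∈ S := ⟨u0.2, by
        show E u0 j = 0
        rw [hEu0]; exact Pi.single_eq_of_ne (Ne.symm hij) 1⟩
      have hxS : (x : G) ∉ S := by
        rintro ⟨_, h⟩
        have h' : E x j = 0 := h
        rw [hEx, Pi.single_eq_same] at h'
        exact one_ne_zero h'
      obtain ⟨g, hg, hgS, hgx⟩ := hX.dual S (hSU.trans (hUQ u0 u0.2 hu01)) hu0S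
        (hUQ u0 u0.2 hu01 x.2) hxS
      have hgx' := hX.anti hg (hUQ u0 u0.2 hu01 x.2) hgx
      have hgLU : g ∈ LU := hleLU u0 u0.2 hu01 hg
      refine ⟨g, hgLU, fun u => ?_⟩
      rw [transvection_mulVec]
      rcases hz2 (E u j) with h0 | h1
      · rw [h0, zero_smul, add_zero]
        congr 1
        apply Subtype.ext
        show g * (u : G) * g⁻¹ = u
        have : (u : G) ∈ S := ⟨u.2, h0⟩
        rw [hgS _ this]; group
      · rw [h1, one_smul, ← hEu0, ← hEmul]
        congr 1
        apply Subtype.ext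
        show g * (u : G) * g⁻¹ = (u : G) * (u0 : G)
        have hux : ((u * x : ↥U) : G) ∈ S := ⟨(u * x).2, by
          show E (u * x) j = 0
          rw [hEmul, Pi.add_apply, h1, hEx, Pi.single_eq_same]
          decide⟩
        have h3 : g * ((u : G) * (x : G)) = (u : G) * (x : G) * g := hgS _ hux
        have hxx : (x : G) * (x : G) = 1 := hU2 _ x.2
        have hxu0 : (x : G) * (u0 : G) = (u0 : G) * (x : G) := hX.central (hUQ u0 u0.2 hu01 x.2)
        calc g * (u : G) * g⁻¹ = g * ((u : G) * ((x : G) * (x : G))) * g⁻¹ := by rw [hxx, mul_one]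
          _ = (g * ((u : G) * (x : G))) * (x : G) * g⁻¹ := by group
          _ = (u : G) * (x : G) * g * (x : G) * g⁻¹ := by rw [h3]
          _ = (u : G) * (x : G) * (g * (x : G)) * g⁻¹ := by group
          _ = (u : G) * (x : G) * ((u0 : G) * ((x : G) * g)) * g⁻¹ := by rw [hgx']
          _ = (u : G) * ((x : G) * (u0 : G)) * (x : G) := by group
          _ = (u : G) * ((u0 : G) * (x : G)) * (x : G) := by rw [hxu0]
          _ = (u : G) * (u0 : G) * ((x : G) * (x : G)) := by group
          _ = (u : G) * (u0 : G) := by rw [hxx, mul_one]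
    intro φ
    -- the matrix of `φ` in the coordinates `E`
    have hEsymm : ∀ v w : Fin n → ZMod 2, E.symm (v + w) = E.symm v * E.symm w := by
      intro v w
      apply E.injective
      rw [hEmul, E.apply_symm_apply, E.apply_symm_apply, E.apply_symm_apply]
    let F : (Fin n → ZMod 2) →+ (Fin n → ZMod 2) :=
      AddMonoidHom.mk' (fun v => E (φ (E.symm v))) (by
        intro v w
        show E (φ (E.symm (v + w))) = E (φ (E.symm v)) + E (φ (E.symm w))
        rw [hEsymm, map_mul, hEmul])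
    let F' : (Fin n → ZMod 2) →+ (Fin n → ZMod 2) :=
      AddMonoidHom.mk' (fun v => E (φ.symm (E.symm v))) (by
        intro v w
        show E (φ.symm (E.symm (v + w))) = E (φ.symm (E.symm v)) + E (φ.symm (E.symm w))
        rw [hEsymm, map_mul, hEmul])
    let fl := F.toZModLinearMap 2
    let fl' := F'.toZModLinearMap 2
    have hcomp : fl ∘ₗ fl' = LinearMap.id := by
      apply LinearMap.ext
      intro v
      show E (φ (E.symm (E (φ.symm (E.symm v))))) = v
      simp
    have hdet : (LinearMap.toMatrix' fl).det ≠ 0 := by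
      have h1 : LinearMap.toMatrix' fl * LinearMap.toMatrix' fl' = 1 := by
        rw [← LinearMap.toMatrix'_comp, hcomp, LinearMap.toMatrix'_id]
      have := Matrix.isUnit_det_of_right_inverse h1
      exact this.ne_zero
    obtain ⟨g, hg, hgu⟩ := gl2_induction P hP1 hPmul hPtr (LinearMap.toMatrix' fl) hdet
    refine ⟨g, hg, fun u => ?_⟩
    have h1 := hgu u
    have h2 : (LinearMap.toMatrix' fl).mulVec (E u) = E (φ u) := by
      rw [← Matrix.toLin'_apply, Matrix.toLin'_toMatrix']
      show E (φ (E.symm (E u))) = E (φ u)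
      simp
    rw [h2] at h1
    have h3 := E.injective h1
    exact congrArg Subtype.val h3

end Cfsg.Agent.S5596
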