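import Cfsg.Statements.S5597
import Cfsg.Agent.H94.LargeExtra

set_option autoImplicit false
open Cfsg

namespace Cfsg.Agent.S5597

open Cfsg.Agent.H94 in
/-- Setting: `z` is an involution of the finite group `G`; for each element `x`, `Q x` is the largest normal 2-subgroup of the centralizer of `x`; `Q z` is extraspecial and contains its own centralizer in `G`. A subgroup `U` is singular when it is elementary abelian, every non-identity element of `U` is conjugate to `z`, and any two non-identity elements `u`, `v` of `U` are orthogonal (`v ∈ Q u`). Write `QU` for the intersection of the `Q u` and `LU` for the join of the `Q u` over the non-identity `u` in `U`. If `U` is a non-trivial singular subgroup, then `LU` acts trivially on `QU / U` (every commutator of an element of `LU` with an element of `QU` lies in `U`), and for every `x` in `QU` outside `U` the centralizer of `U` in `LU` permutes the coset `x U` transitively: each `x u` with `u ∈ U` is a conjugate of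 `x` by an element of `LU` centralizing `U`. -/
theorem result {G : Type*} [Group G] [Finite G]
    (Q : G → Subgroup G)
    (hQ : ∀ x : G, Q x = (Cfsg.pCore 2 ↥(Subgroup.centralizer ({x} : Set G))).map (Subgroup.centralizer ({x} : Set G)).subtype)
    (z : G) (hz : orderOf z = 2) (hE : Cfsg.IsExtraspecial 2 ↥(Q z))
    (hC : Subgroup.centralizer ((Q z : Subgroup G) : Set G) ≤ Q z)
    (U : Subgroup G) (hU2 : ∀ u ∈ U, u * u = 1)
    (hS : ∀ u ∈ U, u ≠ 1 → ∃ g : G, g * z * g⁻¹ = u)
    (hO : ∀ u ∈ U, ∀ v ∈ U, u ≠ 1 → v ≠ 1 → v ∈ Q u)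
    (QU LU : Subgroup G) (hQU : QU = ⨅ u ∈ ((U : Set G) \ {1}), Q u) (hLU : LU = ⨆ u ∈ ((U : Set G) \ {1}), Q u)
    (hU : U ≠ ⊥) :
    (∀ g ∈ LU, ∀ x ∈ QU, g * x * g⁻¹ * x⁻¹ ∈ U) ∧
      ∀ x ∈ QU, x ∉ U → ∀ u ∈ U, ∃ g ∈ LU ⊓ Subgroup.centralizer (U : Set G), g * x * g⁻¹ = x * u := by
  have hXL : ∀ u ∈ U, u ≠ 1 → XL (Q u) u := by
    intro u hu hu1
    obtain ⟨g, rfl⟩ := hS u hu hu1
    exact setup_XL Q hQ z hz hE hC g
  have hmemS : ∀ u ∈ U, u ≠ 1 → u ∈ (U : Set G) \ {1} := by
    intro u hu hu1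
    exact ⟨hu, fun h => hu1 (Set.mem_singleton_iff.1 h)⟩
  have hQUle : ∀ u ∈ U, u ≠ 1 → QU ≤ Q u := by
    intro u hu hu1
    rw [hQU]
    exact iInf₂_le u (hmemS u hu hu1)
  have hleLU : ∀ u ∈ U, u ≠ 1 → Q u ≤ LU := by
    intro u hu hu1
    rw [hLU]
    exact le_iSup₂ (f := fun u (_ : u ∈ (U : Set G) \ {1}) => Q u) u (hmemS u hu hu1)
  have hUQ : ∀ u ∈ U, u ≠ 1 → U ≤ Q u := by
    intro u hu hu1 v hv
    by_cases hv1 : v = 1
    · rw [hv1]; exact (Q u).one_mem
    · exact hO u hu v hv hu1 hv1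
  -- each `Q u` normalizes `U`
  have hnorm : ∀ u ∈ U, u ≠ 1 → ∀ g ∈ Q u, ∀ h ∈ U, g * h * g⁻¹ ∈ U := by
    intro u hu hu1 g hg h hh
    have e : g * h * g⁻¹ = (g * h * g⁻¹ * h⁻¹) * h := by group
    rw [e]
    apply U.mul_mem _ hh
    rcases (hXL u hu hu1).comm hg (hUQ u hu hu1 hh) with e1 | e1 <;> rw [e1]
    · exact U.one_mem
    · exact hu
  constructor
  · let N : Subgroup G :=
      { carrier := {g | g ∈ Subgroup.normalizer (U : Set G) ∧ ∀ x ∈ QU, g * x * g⁻¹ * x⁻¹ ∈ U}
        one_mem' := by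
          refine ⟨Subgroup.one_mem _, fun x _ => ?_⟩
          have e : (1 : G) * x * 1⁻¹ * x⁻¹ = 1 := by group
          rw [e]; exact U.one_mem
        mul_mem' := by
          rintro a b ⟨ha, ha'⟩ ⟨hb, hb'⟩
          refine ⟨Subgroup.mul_mem _ ha hb, fun x hx => ?_⟩
          have e : a * b * x * (a * b)⁻¹ * x⁻¹ = (a * (b * x * b⁻¹ * x⁻¹) * a⁻¹) * (a * x * a⁻¹ * x⁻¹) := by
            group
          rw [e]
          apply U.mul_mem _ (ha' x hx)
          exact (Subgroup.mem_normalizer_iff.1 ha _).1 (hb' x hx)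
        inv_mem' := by
          rintro a ⟨ha, ha'⟩
          refine ⟨Subgroup.inv_mem _ ha, fun x hx => ?_⟩
          have e : a⁻¹ * x * a⁻¹⁻¹ * x⁻¹ = a⁻¹ * (a * x * a⁻¹ * x⁻¹)⁻¹ * a⁻¹⁻¹ := by group
          rw [e]
          exact (Subgroup.mem_normalizer_iff.1 (Subgroup.inv_mem _ ha) _).1 (U.inv_mem (ha' x hx)) }
    have hLN : LU ≤ N := by
      rw [hLU]
      apply iSup₂_le
      intro u hu g hg
      have hu1 : u ≠ 1 := fun h => hu.2 (Set.mem_singleton_iff.2 h)
      refine ⟨?_, fun x hx => ?_⟩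
      · rw [Subgroup.mem_normalizer_iff]
        intro h
        constructor
        · exact hnorm u hu.1 hu1 g hg h
        · intro hh
          have := hnorm u hu.1 hu1 g⁻¹ ((Q u).inv_mem hg) _ hh
          have e : g⁻¹ * (g * h * g⁻¹) * g⁻¹⁻¹ = h := by group
          rw [e] at this
          exact this
      · rcases (hXL u hu.1 hu1).comm hg (hQUle u hu.1 hu1 hx) with e1 | e1 <;> rw [e1]
        · exact U.one_mem
        · exact hu.1
    intro g hg x hx
    exact (hLN hg).2 x hx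
  · intro x hx hxU u hu
    by_cases hu1 : u = 1
    · refine ⟨1, Subgroup.one_mem _, ?_⟩
      rw [hu1]; group
    · have hX := hXL u hu hu1
      have hxQ : x ∈ Q u := hQUle u hu hu1 hx
      obtain ⟨g, hg, hgU, hgx⟩ := hX.dual U (hUQ u hu hu1) hu hxQ hxU
      have hgc : g ∈ Subgroup.centralizer (U : Set G) := by
        rw [Subgroup.mem_centralizer_iff]
        intro s hs
        exact (hgU s hs).symm
      refine ⟨g, Subgroup.mem_inf.2 ⟨hleLU u hu hu1 hg, hgc⟩, ?_⟩
      · have h1 := hX.anti hg hxQ hgx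
        calc g * x * g⁻¹ = u * (x * g) * g⁻¹ := by rw [h1]
          _ = u * x := by group
          _ = x * u := (hX.central hxQ).symm

end Cfsg.Agent.S5597
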