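import Cfsg.Statements.S5598
import Cfsg.Agent.H94.LargeExtra

set_option autoImplicit false
open Cfsg

namespace Cfsg.Agent.S5598

open Cfsg.Agent.H94 in
/-- Setting: `z` is an involution of the finite group `G`; for each element `x`, `Q x` is the largest normal 2-subgroup of the centralizer of `x`; `Q z` is extraspecial and contains its own centralizer in `G`. A subgroup `U` is singular when it is elementary abelian, every non-identity element of `U` is conjugate to `z`, and any two non-identity elements `u`, `v` of `U` are orthogonal (`v ∈ Q u`). Write `QU` for the intersection of the `Q u` and `LU` for the join of the `Q u` over the non-identity `u` in `U`. If the singular subgroup `U` is generated by a set `T` of non-identity elements, then `QU` is already the intersection of the `Q t` over `t ∈ T`. -/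
theorem result {G : Type*} [Group G] [Finite G]
    (Q : G → Subgroup G)
    (hQ : ∀ x : G, Q x = (Cfsg.pCore 2 ↥(Subgroup.centralizer ({x} : Set G))).map (Subgroup.centralizer ({x} : Set G)).subtype)
    (z : G) (hz : orderOf z = 2) (hE : Cfsg.IsExtraspecial 2 ↥(Q z))
    (hC : Subgroup.centralizer ((Q z : Subgroup G) : Set G) ≤ Q z)
    (U : Subgroup G) (hU2 : ∀ u ∈ U, u * u = 1)
    (hS : ∀ u ∈ U, u ≠ 1 → ∃ g : G, g * z * g⁻¹ = u)
    (hO : ∀ u ∈ U, ∀ v ∈ U, u ≠ 1 → v ≠ 1 → v ∈ Q u)
    (QU LU : Subgroup G) (hQU : QU = ⨅ u ∈ ((U : Set G) \ {1}), Q u) (hLU : LU = ⨆ u ∈ ((U : Set G) \ {1}), Q u)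
    (T : Set G) (hT : Subgroup.closure T = U) (hT1 : (1 : G) ∉ T) :
    QU = ⨅ t ∈ T, Q t := by
  have hXL : ∀ u ∈ U, u ≠ 1 → XL (Q u) u := by
    intro u hu hu1
    obtain ⟨g, rfl⟩ := hS u hu hu1
    exact setup_XL Q hQ z hz hE hC g
  have hTU : ∀ t ∈ T, t ∈ U := by
    intro t ht; rw [← hT]; exact Subgroup.subset_closure ht
  rw [hQU]
  apply le_antisymm
  · apply le_iInf₂
    intro t ht
    have h1 : t ∈ (U : Set G) \ {1} := by
      refine ⟨hTU t ht, ?_⟩
      intro h
      rw [Set.mem_singleton_iff] at h
      exact hT1 (h ▸ ht)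
    exact iInf₂_le t h1
  · intro y hy
    simp only [Subgroup.mem_iInf] at hy ⊢
    have key : ∀ u : G, u ∈ Subgroup.closure T → u ≠ 1 → y ∈ Q u := by
      intro u hu
      induction hu using Subgroup.closure_induction with
      | mem t ht => intro _; exact hy t ht
      | one => intro h; exact absurd rfl h
      | mul a b ha hb iha ihb =>
        intro hab
        rw [hT] at ha hb
        by_cases ha1 : a = 1
        · rw [ha1, one_mul] at hab ⊢; exact ihb hab
        by_cases hb1 : b = 1
        · rw [hb1, mul_one] at hab ⊢; exact iha hab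
        have hya := iha ha1
        have hyb := ihb hb1
        have hXa := hXL a ha ha1
        have hbQa : b ∈ Q a := hO a ha b hb ha1 hb1
        have haQb : a ∈ Q b := hO b hb a ha hb1 ha1
        have hba : b ≠ a := by
          intro e
          apply hab
          rw [e]; exact hU2 a ha
        obtain ⟨q, hq, hqb, _⟩ := hXa.exists_conj hbQa hb1 hba
        -- q * b * q⁻¹ = a * b
        have hconj : q * b * q⁻¹ = a * b := by
          calc q * b * q⁻¹ = a * (b * q) * q⁻¹ := by rw [hqb]
            _ = a * b := by group
        -- y' = q⁻¹ y q lies in Q a and Q b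
        have hy'a : q⁻¹ * y * q ∈ Q a :=
          (Q a).mul_mem ((Q a).mul_mem ((Q a).inv_mem hq) hya) hq
        have hy'b : q⁻¹ * y * q ∈ Q b := by
          have e : q⁻¹ * y * q = (q⁻¹ * y * q⁻¹⁻¹ * y⁻¹) * y := by group
          rw [e]
          apply (Q b).mul_mem _ hyb
          rcases hXa.comm ((Q a).inv_mem hq) hya with e1 | e1 <;> rw [e1]
          · exact (Q b).one_mem
          · exact haQb
        have := setup_conj_mem Q hQ q b hy'b
        rw [hconj] at this
        have e2 : q * (q⁻¹ * y * q) * q⁻¹ = y := by group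
        rw [e2] at this
        exact this
      | inv a ha iha =>
        intro h
        rw [hT] at ha
        have e : a⁻¹ = a := inv_eq_of_mul_eq_one_right (hU2 a ha)
        rw [e] at h ⊢
        exact iha h
    intro u hu
    obtain ⟨hu1, hu2⟩ := hu
    apply key u (by rw [hT]; exact hu1)
    intro h
    exact hu2 (Set.mem_singleton_iff.2 h)

end Cfsg.Agent.S5598
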