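import Cfsg.Statements.S5713
import Cfsg.Agent.H95.MinDeg

set_option autoImplicit false
open Cfsg

namespace Cfsg.Agent.S5713

/-- A classification-free minimal-degree bound. Let G be a finite group acting faithfully and primitively on a finite set Ω with n elements, and suppose that the image of G in the symmetric group on Ω does not contain the alternating group on Ω. Then every non-identity element of G moves at least (√n − 1)/2 points of Ω, that is, it fixes at most n − (√n − 1)/2 points. -/
theorem result {G Ω : Type*} [Group G] [Finite G] [MulAction G Ω] [FaithfulSMul G Ω] [Fintype Ω] [DecidableEq Ω]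
    (hprim : MulAction.IsPreprimitive G Ω)
    (hA : ¬ alternatingGroup Ω ≤ (MulAction.toPermHom G Ω).range)
    (g : G) (hg : g ≠ 1) :
    (Real.sqrt (Fintype.card Ω) - 1) / 2 ≤ (Fintype.card Ω : ℝ) - Nat.card (MulAction.fixedBy Ω g) := by
  classical
  obtain ⟨a, ha⟩ : ∃ a : Ω, g • a ≠ a := by
    by_contra hcon
    push Not at hcon
    apply hg
    apply FaithfulSMul.eq_of_smul_eq_smul (α := Ω)
    intro a
    rw [hcon a, one_smul]
  have h1 := Cfsg.Agent.H95.card_le_sq_supp hprim hA g a ha
  obtain ⟨m, hm⟩ : ∃ m : ℕ, m = (Finset.univ.filter (fun c : Ω => g • c ≠ c)).card := ⟨_, rfl⟩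
  rw [← hm] at h1
  have hfix : Nat.card (MulAction.fixedBy Ω g) =
      (Finset.univ.filter (fun c : Ω => g • c = c)).card := by
    rw [Nat.card_eq_fintype_card, Fintype.card_subtype]
    rfl
  have hsum : (Finset.univ.filter (fun c : Ω => g • c = c)).card + m = Fintype.card Ω := by
    rw [hm]
    have := Finset.card_filter_add_card_filter_not (s := (Finset.univ : Finset Ω))
      (p := fun c : Ω => g • c = c)
    rw [Finset.card_univ] at this
    exact this
  rw [hfix]
  have h2 : (Fintype.card Ω : ℝ) ≤ (2 * (m : ℝ)) ^ 2 := by exact_mod_cast h1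
  have h3 : Real.sqrt (Fintype.card Ω) ≤ 2 * (m : ℝ) := by
    calc Real.sqrt (Fintype.card Ω) ≤ Real.sqrt ((2 * (m : ℝ)) ^ 2) := Real.sqrt_le_sqrt h2
      _ = 2 * (m : ℝ) := Real.sqrt_sq (by positivity)
  have h4 : (Fintype.card Ω : ℝ) =
      ((Finset.univ.filter (fun c : Ω => g • c = c)).card : ℝ) + (m : ℝ) := by
    exact_mod_cast hsum.symm
  linarith

end Cfsg.Agent.S5713
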