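import Cfsg.Statements.S5729

set_option autoImplicit false
open Cfsg

namespace Cfsg.Agent.S5729

open MulAction

/-- The fixed points of `g` on `Ω × Ω` are the pairs of fixed points. -/
theorem card_fixedBy_prod {G Ω : Type*} [Group G] [MulAction G Ω] [Fintype Ω] [DecidableEq Ω] (g : G) :
    Fintype.card (fixedBy (Ω × Ω) g) = Fintype.card (fixedBy Ω g) ^ 2 := by
  rw [sq, ← Fintype.card_prod]
  refine Fintype.card_congr
    { toFun := fun x => (⟨x.1.1, ?_⟩, ⟨x.1.2, ?_⟩)
      invFun := fun y => ⟨(y.1.1, y.2.1), ?_⟩
      left_inv := fun x => rfl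
      right_inv := fun y => rfl }
  · have := x.2
    rw [mem_fixedBy] at this ⊢
    exact congrArg Prod.fst this
  · have := x.2
    rw [mem_fixedBy] at this ⊢
    exact congrArg Prod.snd this
  · rw [mem_fixedBy]
    have h1 := y.1.2
    have h2 := y.2.2
    rw [mem_fixedBy] at h1 h2
    exact Prod.ext h1 h2

/-- Let a finite group G act faithfully and transitively on a set with n ≥ 3 points. Then either G is a Frobenius permutation group (Frobenius as a permutation group: transitive, some non-identity element fixes a point, and no non-identity element fixes two points) of order n(n − 1) and exactly |G|/n of its elements are derangements (fix no point), or the number of derangements is greater than |G|/n. -/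
theorem result {G Ω : Type*} [Group G] [Finite G] [MulAction G Ω] [FaithfulSMul G Ω] [Fintype Ω] (htr : MulAction.IsPretransitive G Ω) (hn : 3 ≤ Fintype.card Ω) :
    ((MulAction.IsPretransitive G Ω ∧ (∃ g : G, g ≠ 1 ∧ ∃ ω : Ω, g • ω = ω) ∧ ∀ g : G, g ≠ 1 → Nat.card (MulAction.fixedBy Ω g) ≤ 1) ∧ Nat.card G = Fintype.card Ω * (Fintype.card Ω - 1) ∧ Fintype.card Ω * Nat.card {g : G // ∀ ω : Ω, g • ω ≠ ω} = Nat.card G) ∨
    Nat.card G < Fintype.card Ω * Nat.card {g : G // ∀ ω : Ω, g • ω ≠ ω} := by
  classical
  have : Fintype G := Fintype.ofFinite G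
  set n := Fintype.card Ω with hn_def
  obtain ⟨ω₁, ω₂, hω⟩ : ∃ a b : Ω, a ≠ b := by
    have : 1 < Fintype.card Ω := by omega
    exact Fintype.one_lt_card_iff.mp this
  -- Burnside on Ω
  have hB1 : ∑ g : G, Fintype.card (fixedBy Ω g) = Fintype.card G := by
    have h := sum_card_fixedBy_eq_card_orbits_mul_card_group G Ω
    have h1 : Fintype.card (Quotient (orbitRel G Ω)) = 1 := by
      have hsub : Subsingleton (orbitRel.Quotient G Ω) :=
        (pretransitive_iff_subsingleton_quotient G Ω).mp htr
      have hne : Nonempty (Quotient (orbitRel G Ω)) := ⟨Quotient.mk _ ω₁⟩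
      exact le_antisymm (Fintype.card_le_one_iff_subsingleton.mpr hsub) Fintype.card_pos
    rw [h, h1, one_mul]
  -- Burnside on Ω × Ω
  have hB2 : ∑ g : G, Fintype.card (fixedBy Ω g) ^ 2
      = Fintype.card (Quotient (orbitRel G (Ω × Ω))) * Fintype.card G := by
    rw [← sum_card_fixedBy_eq_card_orbits_mul_card_group G (Ω × Ω)]
    exact Finset.sum_congr rfl fun g _ => (card_fixedBy_prod g).symm
  set r := Fintype.card (Quotient (orbitRel G (Ω × Ω))) with hr_def
  have hr : 2 ≤ r := by
    have : 1 < r := by
      rw [hr_def, Fintype.one_lt_card_iff]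
      refine ⟨Quotient.mk _ (ω₁, ω₁), Quotient.mk _ (ω₁, ω₂), ?_⟩
      intro h
      have h' : (ω₁, ω₁) ∈ orbit G (ω₁, ω₂) := Quotient.exact h
      obtain ⟨g, hg⟩ := h'
      have h1 : g • ω₁ = ω₁ := congrArg Prod.fst hg
      have h2 : g • ω₂ = ω₁ := congrArg Prod.snd hg
      exact hω (smul_left_cancel g (h1.trans h2.symm))
    omega
  -- notation
  set f : G → ℕ := fun g => Fintype.card (fixedBy Ω g) with hf_def
  have hfle : ∀ g, f g ≤ n := fun g => Fintype.card_subtype_le _
  have hfn : ∀ g, f g = n → g = 1 := by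
    intro g hg
    apply FaithfulSMul.eq_of_smul_eq_smul (α := Ω)
    intro a
    rw [one_smul]
    have huniv : (fixedBy Ω g) = Set.univ := by
      rw [Set.eq_univ_iff_ncard, Nat.card_eq_fintype_card, Set.ncard_eq_toFinset_card',
        Set.toFinset_card]
      exact hg
    have : a ∈ fixedBy Ω g := by rw [huniv]; trivial
    exact this
  have hf1 : f 1 = n := by
    simp only [hf_def, hn_def]
    apply Fintype.card_of_subtype Finset.univ
    intro x
    simp
  have hf0 : ∀ g : G, f g = 0 ↔ ∀ ω : Ω, g • ω ≠ ω := by
    intro g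
    simp only [hf_def]
    rw [Fintype.card_eq_zero_iff]
    constructor
    · intro h ω hω'
      exact h.false ⟨ω, hω'⟩
    · intro h
      exact ⟨fun x => h x.1 x.2⟩
  set D : Finset G := Finset.univ.filter (fun g => f g = 0) with hD_def
  have hDcard : Nat.card {g : G // ∀ ω : Ω, g • ω ≠ ω} = D.card := by
    rw [Nat.card_eq_fintype_card, Fintype.card_subtype]
    congr 1
    ext g
    simp [hD_def, hf0]
  rw [hDcard, Nat.card_eq_fintype_card]
  have hDsum : (D.card : ℤ) = ∑ g : G, (if f g = 0 then (1 : ℤ) else 0) := by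
    rw [hD_def, Finset.card_filter]
    push_cast
    rfl
  -- integer versions of Burnside
  have hB1' : ∑ g : G, (f g : ℤ) = (Fintype.card G : ℤ) := by
    exact_mod_cast hB1
  have hB2' : ∑ g : G, (f g : ℤ) ^ 2 = (r : ℤ) * (Fintype.card G : ℤ) := by
    exact_mod_cast hB2
  -- the pointwise nonnegative defect
  set e : G → ℤ := fun g => (n : ℤ) * (if f g = 0 then (1 : ℤ) else 0) - ((f g : ℤ) - 1) * ((f g : ℤ) - n)
    with he_def
  have he_nonneg : ∀ g, 0 ≤ e g := by
    intro g
    simp only [he_def]
    by_cases h0 : f g = 0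
    · simp [h0]
    · have h1 : (1 : ℤ) ≤ f g := by
        have : 1 ≤ f g := Nat.one_le_iff_ne_zero.mpr h0
        exact_mod_cast this
      have h2 : (f g : ℤ) ≤ n := by exact_mod_cast hfle g
      simp only [h0, if_false, mul_zero, zero_sub]
      nlinarith
  have hsum_e : ∑ g : G, e g = (n : ℤ) * D.card - ((r : ℤ) - 1) * Fintype.card G := by
    simp only [he_def]
    rw [Finset.sum_sub_distrib, ← Finset.mul_sum, ← hDsum]
    have : ∑ g : G, ((f g : ℤ) - 1) * ((f g : ℤ) - n)
        = ∑ g : G, (f g : ℤ) ^ 2 - ((n : ℤ) + 1) * ∑ g : G, (f g : ℤ) + ∑ g : G, (n : ℤ) := by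
      rw [Finset.mul_sum, ← Finset.sum_sub_distrib, ← Finset.sum_add_distrib]
      apply Finset.sum_congr rfl
      intro g _
      ring
    rw [this, hB2', hB1', Finset.sum_const, Finset.card_univ, nsmul_eq_mul]
    ring
  have hsum_nonneg : 0 ≤ ∑ g : G, e g := Finset.sum_nonneg fun g _ => he_nonneg g
  have hGpos : (0 : ℤ) < Fintype.card G := by
    exact_mod_cast Fintype.card_pos
  by_cases hlt : Fintype.card G < n * D.card
  · right; exact hlt
  · left
    push Not at hlt
    have hlt' : (n : ℤ) * D.card ≤ Fintype.card G := by exact_mod_cast hlt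
    have hr' : (2 : ℤ) ≤ r := by exact_mod_cast hr
    -- r = 2 and the sum of e is zero
    have hkey : (n : ℤ) * D.card = Fintype.card G ∧ ∑ g : G, e g = 0 := by
      have h1 : ((r : ℤ) - 1) * Fintype.card G ≤ (n : ℤ) * D.card := by linarith
      have h2 : (1 : ℤ) * Fintype.card G ≤ ((r : ℤ) - 1) * Fintype.card G := by
        apply mul_le_mul_of_nonneg_right _ hGpos.le
        linarith
      constructor
      · linarith
      · nlinarith
    obtain ⟨hnD, hsum0⟩ := hkey
    have he0 : ∀ g, e g = 0 := by
      intro g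
      exact (Finset.sum_eq_zero_iff_of_nonneg (fun g _ => he_nonneg g)).mp hsum0 g (Finset.mem_univ g)
    -- consequences: every g has f g = 0, 1 or n
    have hf01 : ∀ g : G, g ≠ 1 → f g ≤ 1 := by
      intro g hg
      by_contra hcon
      push Not at hcon
      have h0 : f g ≠ 0 := by omega
      have hne : f g ≠ n := fun h => hg (hfn g h)
      have hlt : f g < n := lt_of_le_of_ne (hfle g) hne
      have := he0 g
      simp only [he_def, h0, if_false, mul_zero, zero_sub, neg_eq_zero] at this
      rcases mul_eq_zero.mp this with h | h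
      · have : (f g : ℤ) = 1 := by linarith
        have : f g = 1 := by exact_mod_cast this
        omega
      · have : (f g : ℤ) = n := by linarith
        have : f g = n := by exact_mod_cast this
        omega
    -- count: ∑ f + |D| = |G| + (n - 1)
    have hcount : ∑ g : G, ((f g : ℤ) + (if f g = 0 then (1 : ℤ) else 0))
        = ∑ g : G, ((1 : ℤ) + (if g = 1 then ((n : ℤ) - 1) else 0)) := by
      apply Finset.sum_congr rfl
      intro g _
      by_cases hg : g = 1
      · subst hg
        have hn0 : n ≠ 0 := by omega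
        simp [hf1, hn0]
      · have h1 := hf01 g hg
        by_cases h0 : f g = 0
        · simp [h0, hg]
        · have : f g = 1 := by omega
          simp [this, hg]
    rw [Finset.sum_add_distrib, Finset.sum_add_distrib, hB1', ← hDsum] at hcount
    simp only [Finset.sum_const, Finset.card_univ, nsmul_eq_mul, mul_one, Finset.sum_ite_eq',
      Finset.mem_univ, if_true] at hcount
    have hDn : (D.card : ℤ) = (n : ℤ) - 1 := by linarith
    have hDn' : D.card = n - 1 := by omega
    have hGn : Fintype.card G = n * (n - 1) := by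
      have : (Fintype.card G : ℤ) = (n : ℤ) * ((n : ℤ) - 1) := by rw [← hnD, hDn]
      have h3 : ((n - 1 : ℕ) : ℤ) = (n : ℤ) - 1 := by omega
      rw [← h3] at this
      exact_mod_cast this
    refine ⟨⟨htr, ?_, ?_⟩, hGn, ?_⟩
    · -- some non-identity element has a fixed point
      by_contra hcon
      push Not at hcon
      have hsub : (Finset.univ : Finset G).erase 1 ⊆ D := by
        intro g hg
        rw [Finset.mem_erase] at hg
        rw [hD_def, Finset.mem_filter]
        refine ⟨Finset.mem_univ _, ?_⟩
        rw [hf0]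
        exact hcon g hg.1
      have hcard := Finset.card_le_card hsub
      rw [Finset.card_erase_of_mem (Finset.mem_univ _), Finset.card_univ, hDn', hGn] at hcard
      have h3 : 3 * (n - 1) ≤ n * (n - 1) := Nat.mul_le_mul_right _ hn
      omega
    · intro g hg
      rw [Nat.card_eq_fintype_card]
      exact hf01 g hg
    · rw [hDn', hGn]

end Cfsg.Agent.S5729
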