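import Cfsg.Statements.S5738
import Cfsg.Agent.Lib.Helper96.Singer

set_option autoImplicit false
open Cfsg

namespace Cfsg.Agent.S5738

open Cfsg.Agent.Lib.Helper96

/-- Let F ⊆ K be finite fields with |F| = q and [K : F] = n ≥ 2, so |K| = q^n. Regard K as an n-dimensional F-vector space; the multiplications by non-zero elements of K form a cyclic subgroup of GL_F(K) of order q^n − 1 acting regularly on the non-zero vectors (a Singer group). Its normaliser in GL_F(K) has order n·(q^n − 1). -/
theorem result {F K : Type*} [Field F] [Fintype F] [Field K] [Fintype K] [Algebra F K] (n : ℕ) (hn : 2 ≤ n) (hdim : Module.finrank F K = n) :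
    Nat.card (Subgroup.normalizer (((Units.map ((Algebra.lmul F K : K →ₐ[F] Module.End F K) : K →* Module.End F K)).range : Subgroup (Module.End F K)ˣ) : Set (Module.End F K)ˣ)) = n * (Fintype.card K - 1) := by
  classical
  let ψ : Kˣ × (K ≃ₐ[F] K) → (Module.End F K)ˣ := fun p =>
    Units.map ((Algebra.lmul F K : K →ₐ[F] Module.End F K) : K →* Module.End F K) p.1 *
      LinearMap.GeneralLinearGroup.ofLinearEquiv p.2.toLinearEquiv
  have hψ : ∀ (p : Kˣ × (K ≃ₐ[F] K)) (x : K), ((ψ p : (Module.End F K)ˣ) : Module.End F K) x = p.1 * p.2 x := by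
    intro p x
    simp [ψ]
  have hinj : Function.Injective ψ := by
    rintro ⟨c, σ⟩ ⟨c', σ'⟩ h
    have h1 : ∀ x, (c : K) * σ x = c' * σ' x := fun x => by
      rw [← hψ (c, σ) x, ← hψ (c', σ') x, h]
    have hc : (c : K) = c' := by simpa using h1 1
    have hcc : c = c' := Units.ext hc
    subst hcc
    congr 1
    ext x
    exact mul_left_cancel₀ c.ne_zero (h1 x)
  have hrange : Set.range ψ = (Subgroup.normalizer (((Units.map ((Algebra.lmul F K : K →ₐ[F] Module.End F K) : K →* Module.End F K)).range : Subgroup (Module.End F K)ˣ) : Set (Module.End F K)ˣ) : Set (Module.End F K)ˣ) := by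
    ext u
    constructor
    · rintro ⟨p, rfl⟩
      exact mem_normalizer_singer_of _ p.1 p.1.ne_zero p.2 (hψ p)
    · intro hu
      obtain ⟨c, hc, σ, h⟩ := exists_of_mem_normalizer_singer u hu
      refine ⟨(Units.mk0 c hc, σ), ?_⟩
      apply Units.ext
      apply LinearMap.ext
      intro x
      rw [hψ, h]
      rfl
  have hcard : Nat.card (Subgroup.normalizer (((Units.map ((Algebra.lmul F K : K →ₐ[F] Module.End F K) : K →* Module.End F K)).range : Subgroup (Module.End F K)ˣ) : Set (Module.End F K)ˣ)) = Nat.card (Set.range ψ) := by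
    rw [hrange]
    rfl
  rw [hcard, Nat.card_congr (Equiv.ofInjective ψ hinj).symm, Nat.card_prod, Nat.card_units,
    IsGalois.card_aut_eq_finrank, hdim, Nat.card_eq_fintype_card, mul_comm]

end Cfsg.Agent.S5738
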