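import Cfsg.Statements.S5739
import Cfsg.Agent.Lib.Helper96.Singer

set_option autoImplicit false
open Cfsg

namespace Cfsg.Agent.S5739

open Cfsg.Agent.Lib.Helper96

variable {F K : Type*} [Field F] [Field K] [Algebra F K]

/-- The field of those `k` such that multiplication by `k` lies in the conjugate by `g` of the
algebra of multiplications. -/
def conjField (g : (Module.End F K)ˣ) : IntermediateField F K where
  carrier := {k | ∃ k' : K, ∀ y, (g : Module.End F K) (k' * y) = k * (g : Module.End F K) y}
  mul_mem' := by
    rintro a b ⟨a', ha⟩ ⟨b', hb⟩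
    refine ⟨a' * b', fun y => ?_⟩
    rw [mul_assoc, ha, hb, mul_assoc]
  one_mem' := ⟨1, fun y => by simp⟩
  add_mem' := by
    rintro a b ⟨a', ha⟩ ⟨b', hb⟩
    refine ⟨a' + b', fun y => ?_⟩
    rw [add_mul, map_add, ha, hb, add_mul]
  zero_mem' := ⟨0, fun y => by simp⟩
  algebraMap_mem' := by
    intro f
    refine ⟨algebraMap F K f, fun y => ?_⟩
    rw [← Algebra.smul_def, map_smul, Algebra.smul_def]
  inv_mem' := by
    rintro a ⟨a', ha⟩
    by_cases h0 : a = 0
    · subst h0
      exact ⟨0, fun y => by simp⟩
    · have ha' : a' ≠ 0 := by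
        rintro rfl
        have h1 := ha (((g⁻¹ : (Module.End F K)ˣ) : Module.End F K) 1)
        rw [unit_apply_inv, zero_mul, map_zero, mul_one] at h1
        exact h0 h1.symm
      refine ⟨a'⁻¹, fun y => ?_⟩
      have h1 := ha (a'⁻¹ * y)
      rw [mul_inv_cancel_left₀ ha'] at h1
      rw [h1, inv_mul_cancel_left₀ h0]

theorem mem_conjField (g : (Module.End F K)ˣ) (k : K) :
    k ∈ conjField g ↔ ∃ k' : K, ∀ y, (g : Module.End F K) (k' * y) = k * (g : Module.End F K) y :=
  Iff.rfl

/-- Membership of a multiplication in the conjugate Singer group. -/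
theorem mem_map_conj_singer_iff (g : (Module.End F K)ˣ) (k : K) (hk : k ≠ 0) :
    Units.map ((Algebra.lmul F K : K →ₐ[F] Module.End F K) : K →* Module.End F K) (Units.mk0 k hk)
      ∈ ((Units.map ((Algebra.lmul F K : K →ₐ[F] Module.End F K) : K →* Module.End F K)).range).map (MulAut.conj g).toMonoidHom
    ↔ k ∈ conjField g := by
  rw [Subgroup.mem_map, mem_conjField]
  constructor
  · rintro ⟨d, hd, hdk⟩
    rw [mem_singer_iff] at hd
    obtain ⟨k', hk', h⟩ := hd
    refine ⟨k', fun y => ?_⟩
    have h1 : g * d = Units.map ((Algebra.lmul F K : K →ₐ[F] Module.End F K) : K →* Module.End F K) (Units.mk0 k hk) * g := by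
      rw [← hdk]
      simp [MulAut.conj_apply]
    have h2 := congrArg (fun u : (Module.End F K)ˣ => (u : Module.End F K) y) h1
    simp only [Units.val_mul, Module.End.mul_apply, h] at h2
    rw [h2]
    simp
  · rintro ⟨k', h⟩
    have hk' : k' ≠ 0 := by
      rintro rfl
      have h1 := h (((g⁻¹ : (Module.End F K)ˣ) : Module.End F K) 1)
      rw [unit_apply_inv, zero_mul, map_zero, mul_one] at h1
      exact hk h1.symm
    refine ⟨Units.map ((Algebra.lmul F K : K →ₐ[F] Module.End F K) : K →* Module.End F K) (Units.mk0 k' hk'), ⟨_, rfl⟩, ?_⟩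
    have h1 : g * Units.map ((Algebra.lmul F K : K →ₐ[F] Module.End F K) : K →* Module.End F K) (Units.mk0 k' hk')
        = Units.map ((Algebra.lmul F K : K →ₐ[F] Module.End F K) : K →* Module.End F K) (Units.mk0 k hk) * g := by
      apply Units.ext
      apply LinearMap.ext
      intro y
      simp only [Units.val_mul, Module.End.mul_apply]
      simpa using h y
    simp only [MulEquiv.coe_toMonoidHom, MulAut.conj_apply]
    rw [h1, mul_inv_cancel_right]

/-- Let F ⊆ K be finite fields with |F| = q and [K : F] = n ≥ 2, and let M ≤ GL_F(K) be the Singer group of multiplications by non-zero elements of K. If g ∈ GL_F(K) does not normalise M, then the order of M ∩ gMg⁻¹ divides q^r − 1 for some proper divisor r of n. In particular, when n is prime, that order divides q − 1. -/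
theorem result {F K : Type*} [Field F] [Fintype F] [Field K] [Fintype K] [Algebra F K] (n : ℕ) (hn : 2 ≤ n) (hdim : Module.finrank F K = n)
    (g : (Module.End F K)ˣ) (hg : ((Units.map ((Algebra.lmul F K : K →ₐ[F] Module.End F K) : K →* Module.End F K)).range).map (MulAut.conj g).toMonoidHom ≠ (Units.map ((Algebra.lmul F K : K →ₐ[F] Module.End F K) : K →* Module.End F K)).range) :
    ∃ r : ℕ, 1 ≤ r ∧ r ∣ n ∧ r < n ∧ Nat.card ↥(((Units.map ((Algebra.lmul F K : K →ₐ[F] Module.End F K) : K →* Module.End F K)).range).map (MulAut.conj g).toMonoidHom ⊓ (Units.map ((Algebra.lmul F K : K →ₐ[F] Module.End F K) : K →* Module.End F K)).range) ∣ Fintype.card F ^ r - 1 := by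
  classical
  have hfinE : Finite (Module.End F K) :=
    Finite.of_injective (fun f : Module.End F K => (f : K → K)) DFunLike.coe_injective
  have hfinU : Finite (Module.End F K)ˣ := Finite.of_injective _ Units.val_injective
  set f : Kˣ →* (Module.End F K)ˣ := Units.map ((Algebra.lmul F K : K →ₐ[F] Module.End F K) : K →* Module.End F K) with hf
  have hfinj : Function.Injective f := by
    intro a b hab
    have h1 := congrArg (fun u : (Module.End F K)ˣ => (u : Module.End F K) 1) hab
    apply Units.ext
    simpa [hf] using h1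
  set K₁ : IntermediateField F K := conjField g with hK₁
  set r := Module.finrank F K₁ with hr
  have htower : r * Module.finrank K₁ K = n := by
    rw [hr, Module.finrank_mul_finrank, hdim]
  have hrpos : 1 ≤ r := Module.finrank_pos
  have hrdvd : r ∣ n := Dvd.intro _ htower
  refine ⟨r, hrpos, hrdvd, ?_, ?_⟩
  · -- r < n
    have hle : r ≤ n := Nat.le_of_dvd (by omega) hrdvd
    rcases lt_or_eq_of_le hle with h | h
    · exact h
    · exfalso
      have h1 : Module.finrank K₁ K = 1 := by
        rw [h] at htower
        have hn0 : 0 < n := by omega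
        exact Nat.eq_of_mul_eq_mul_left hn0 (by rw [htower, mul_one])
      have htop : K₁ = ⊤ := IntermediateField.finrank_eq_one_iff_eq_top.mp h1
      apply hg
      symm
      apply Subgroup.eq_of_le_of_card_ge
      · rintro d ⟨k, rfl⟩
        have hk : (k : K) ∈ conjField g := by rw [← hK₁, htop]; trivial
        have := (mem_map_conj_singer_iff g (k : K) k.ne_zero).mpr hk
        simpa using this
      · rw [Subgroup.card_map_of_injective (MulAut.conj g).injective]
  · -- the divisibility
    set D' : Subgroup Kˣ := (f.range.map (MulAut.conj g).toMonoidHom).comap f with hD'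
    have hD : f.range.map (MulAut.conj g).toMonoidHom ⊓ f.range = D'.map f := by
      rw [hD', Subgroup.map_comap_eq, inf_comm]
    rw [hD, Subgroup.card_map_of_injective hfinj]
    set U : Subgroup Kˣ := (Units.map ((algebraMap K₁ K : K₁ →+* K) : K₁ →* K)).range with hU
    have hle : D' ≤ U := by
      intro k hk
      rw [hD', Subgroup.mem_comap] at hk
      have hk1 : (k : K) ∈ K₁ := by
        have := (mem_map_conj_singer_iff g (k : K) k.ne_zero).mp (by simpa [hf] using hk)
        exact this
      have hk2 : ((k⁻¹ : Kˣ) : K) ∈ K₁ := by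
        rw [Units.val_inv_eq_inv_val]
        exact K₁.inv_mem hk1
      refine ⟨⟨⟨(k : K), hk1⟩, ⟨((k⁻¹ : Kˣ) : K), hk2⟩, ?_, ?_⟩, ?_⟩
      · apply Subtype.ext; simp
      · apply Subtype.ext; simp
      · apply Units.ext; rfl
    have hUcard : Nat.card U = Fintype.card F ^ r - 1 := by
      have hinj : Function.Injective (Units.map ((algebraMap K₁ K : K₁ →+* K) : K₁ →* K)) := by
        apply Units.map_injective
        exact (algebraMap K₁ K).injective
      rw [hU, Nat.card_congr (MonoidHom.ofInjective hinj).toEquiv.symm, Nat.card_units,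
        Module.natCard_eq_pow_finrank (K := F) (V := K₁), Nat.card_eq_fintype_card]
    rw [← hUcard]
    exact Subgroup.card_dvd_of_le hle

end Cfsg.Agent.S5739
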