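import Cfsg.Statements.S5746
import Cfsg.Agent.H9.G2Only
import Cfsg.Agent.S1059
import Cfsg.Agent.H13.PGHom
import Cfsg.Agent.H13.PGRho
import Cfsg.Agent.H53.PGR1
import Cfsg.Agent.H53.PGR2
import Cfsg.Agent.H53.PGSymp
import Cfsg.Agent.H85.PGCent
import Cfsg.Agent.H35.PGField
import Cfsg.Agent.H9.XPMain
import Cfsg.Agent.H9.XPMat
import Cfsg.Agent.H9.XPJ
import Cfsg.Agent.H28.XPDC
import Cfsg.Agent.H28.XPR3
import Cfsg.Agent.H18.XPIso
import Cfsg.Agent.H5.XPPsi
import Cfsg.Agent.H15.XPInj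
import Cfsg.Agent.H15.XPCent

set_option autoImplicit false
open Cfsg

namespace Cfsg.Agent.S5746

/-- The Chevalley group G₂(4) (over the field with 4 elements) has a maximal subgroup H isomorphic to the Hall–Janko group J₂ such that for every x outside H the intersection H ∩ xHx⁻¹ is a maximal subgroup of H; that is, the action of G₂(4) on the cosets of H is extremely primitive. -/
theorem result {F : Type*} [Field F] [Fintype F] (hF : Fintype.card F = 4) :
    ∃ H : Subgroup (Cfsg.Lie.chevG2.group F), IsCoatom H ∧ Cfsg.Spor.IsoJ2 H ∧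
      ∀ x : Cfsg.Lie.chevG2.group F, x ∉ H → IsCoatom ((H ⊓ H.map (MulAut.conj x).toMonoidHom).subgroupOf H) := by
  -- `F ≃+* K4` (helper94's computable field with 4 elements)
  obtain ⟨e⟩ := Cfsg.Agent.H35.PG.field F hF
  have hne : ∃ a : F, a ≠ 0 ∧ a ≠ 1 := by
    refine ⟨e.symm Cfsg.Agent.H94.HS.F4.w, fun h => ?_, fun h => ?_⟩
    · have h' := congrArg e h
      rw [RingEquiv.apply_symm_apply, map_zero] at h'
      exact absurd h' (by decide)
    · have h' := congrArg e h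
      rw [RingEquiv.apply_symm_apply, map_one] at h'
      exact absurd h' (by decide)
  -- the Steinberg cover of `chevG2.group F` and simplicity (the `G₂` branches of S2396 and S1055,
  -- `H9/G2Only.lean`), and the order (S1059)
  have hθ := Cfsg.Agent.H9.G2Only.cover F
  have hsimple := (Cfsg.Agent.H9.G2Only.simple hne).1
  have hcard : Nat.card ↥(Cfsg.Lie.chevG2.group F) = 251596800 := by
    rw [Cfsg.Agent.S1059.result hF]; norm_num
  -- the faithful 6-dimensional representation over `K4` through the Steinberg cover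
  obtain ⟨ρ, x, hinj, hx⟩ :=
    Cfsg.Agent.H13.PG.rho Cfsg.Agent.H53.PG.symp Cfsg.Agent.H85.PG2.cent F e hθ hsimple
      (Cfsg.Agent.H13.PG.hom Cfsg.Agent.H53.PG.r1 Cfsg.Agent.H53.PG.r2 F e)
  have : Finite ↥(Cfsg.Lie.chevG2.group F) :=
    Nat.finite_of_card_ne_zero (by rw [hcard]; norm_num)
  -- `J₂ = ⟨five long root elements⟩`, with `416 = 1 + 100 + 315` (team project XP)
  obtain ⟨H, h1, h2, h3⟩ := Cfsg.Agent.H9.XP.main Cfsg.Agent.H28.XP.dc Cfsg.Agent.H18.XP.iso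
    Cfsg.Agent.H5.XP.psi Cfsg.Agent.H9.XP.stW Cfsg.Agent.H9.XP.stTB Cfsg.Agent.H9.XP.stCJ
    Cfsg.Agent.H15.XP.inj Cfsg.Agent.H15.XP.centJ Cfsg.Agent.H9.XP.stNA Cfsg.Agent.H9.XP.stWA
    Cfsg.Agent.H9.XP.stWB Cfsg.Agent.H9.XP.stB Cfsg.Agent.H53.PG.symp
    Cfsg.Spor.J2 Cfsg.Agent.H9.J2.card_J2 (Cfsg.Agent.H9.XP.jside Cfsg.Agent.H28.XP.r3)
    ↥(Cfsg.Lie.chevG2.group F) hcard ρ (fun r t => x r (e.symm t)) hinj
    (fun r t => by rw [hx, RingEquiv.apply_symm_apply])
  exact ⟨H, h1, h2, h3⟩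

end Cfsg.Agent.S5746
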