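import Cfsg.Statements.S5747

set_option autoImplicit false
open Cfsg

namespace Cfsg.Agent.S5747

variable (G : Type*) {Ω : Type*} [Group G] [MulAction G Ω]

/-- The pointwise stabiliser of the sequence is trivial. -/
def BaseSeq {t : ℕ} (f : Fin t → Ω) : Prop :=
  ∀ g : G, (∀ i : Fin t, g • f i = f i) → g = 1

/-- Every point of the sequence is moved by an element fixing the earlier ones. -/
def Irred {t : ℕ} (f : Fin t → Ω) : Prop :=
  ∀ i : Fin t, ∃ g : G, (∀ j : Fin t, j < i → g • f j = f j) ∧ g • f i ≠ f i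

/-- Every base contains an irredundant base, shorter if the base is not irredundant. -/
theorem exists_irred_sub : ∀ (t : ℕ) (h : Fin t → Ω), BaseSeq G h →
    ∃ (t' : ℕ) (h' : Fin t' → Ω), BaseSeq G h' ∧ Irred G h' ∧ t' ≤ t ∧ (¬ Irred G h → t' < t) := by
  intro t
  induction t with
  | zero =>
    intro h hb
    exact ⟨0, h, hb, fun i => i.elim0, le_refl _, fun hn => absurd (fun i => i.elim0) hn⟩
  | succ m ih =>
    intro h hb
    by_cases hirr : Irred G h
    · exact ⟨m + 1, h, hb, hirr, le_refl _, fun hn => absurd hirr hn⟩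
    · unfold Irred at hirr
      push Not at hirr
      obtain ⟨i, hi⟩ := hirr
      have hb' : BaseSeq G (h ∘ i.succAbove) := by
        intro g hg
        apply hb g
        have hne : ∀ j, j ≠ i → g • h j = h j := by
          intro j hj
          obtain ⟨k, rfl⟩ := Fin.exists_succAbove_eq hj
          exact hg k
        intro j
        by_cases hj : j = i
        · subst hj
          exact hi g (fun j' hj' => hne j' (ne_of_lt hj'))
        · exact hne j hj
      obtain ⟨t', h', hb'', hirr', hle, -⟩ := ih (h ∘ i.succAbove) hb'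
      exact ⟨t', h', hb'', hirr', Nat.le_succ_of_le hle, fun _ => Nat.lt_succ_of_le hle⟩

/-- If all irredundant bases have the same size, irredundant bases can be reordered. -/
theorem reorder_of_same_size
    (ha : ∀ (t t' : ℕ) (f : Fin t → Ω) (f' : Fin t' → Ω),
      (BaseSeq G f ∧ Irred G f) → (BaseSeq G f' ∧ Irred G f') → t = t') :
    ∀ (t : ℕ) (f : Fin t → Ω) (σ : Equiv.Perm (Fin t)),
      (BaseSeq G f ∧ Irred G f) → (BaseSeq G (f ∘ σ) ∧ Irred G (f ∘ σ)) := by
  rintro t f σ ⟨hb, hirr⟩
  have hb' : BaseSeq G (f ∘ σ) := by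
    intro g hg
    apply hb g
    intro i
    have := hg (σ.symm i)
    simpa using this
  obtain ⟨t', h', hb'', hirr', hle, hlt⟩ := exists_irred_sub G t (f ∘ σ) hb'
  have heq := ha t t' f h' ⟨hb, hirr⟩ ⟨hb'', hirr'⟩
  refine ⟨hb', ?_⟩
  by_contra hn
  have := hlt hn
  omega

theorem injective_of_irred {t : ℕ} (f : Fin t → Ω) (h : Irred G f) : Function.Injective f := by
  have key : ∀ i j : Fin t, j < i → f i ≠ f j := by
    intro i j hlt hij
    obtain ⟨g, hg1, hg2⟩ := h i
    apply hg2
    rw [hij]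
    exact hg1 j hlt
  intro i j hij
  by_contra hne
  rcases lt_or_gt_of_ne hne with hlt | hlt
  · exact key j i hlt hij.symm
  · exact key i j hlt hij

section Finsets

variable [DecidableEq Ω]

/-- The pointwise stabiliser of the set is trivial. -/
def IsBaseS (S : Finset Ω) : Prop :=
  ∀ g : G, (∀ x ∈ S, g • x = x) → g = 1

/-- Every point of the set is moved by an element fixing the others. -/
def IndepS (S : Finset Ω) : Prop :=
  ∀ x ∈ S, ∃ g : G, (∀ y ∈ S, y ≠ x → g • y = y) ∧ g • x ≠ x

/-- The set can be built up one point at a time, each moved by the stabiliser of the previous ones. -/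
inductive IrrSet : Finset Ω → Prop
  | empty : IrrSet ∅
  | insert (S : Finset Ω) (x : Ω) : IrrSet S → (∃ g : G, (∀ y ∈ S, g • y = y) ∧ g • x ≠ x) →
      IrrSet (insert x S)

theorem exists_seq_of_irrSet (S : Finset Ω) (h : IrrSet G S) :
    ∃ (t : ℕ) (f : Fin t → Ω), Irred G f ∧ ∀ x, x ∈ S ↔ ∃ i, f i = x := by
  induction h with
  | empty => exact ⟨0, Fin.elim0, fun i => i.elim0, fun x => by simp⟩
  | insert S x _ hg ih =>
    obtain ⟨t, f, hirr, hmem⟩ := ih
    obtain ⟨g₀, hg₀, hg₀x⟩ := hg
    refine ⟨t + 1, Fin.snoc f x, ?_, ?_⟩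
    · intro i
      refine Fin.lastCases ?_ (fun i' => ?_) i
      · refine ⟨g₀, fun j hj => ?_, by simpa using hg₀x⟩
        obtain ⟨j', rfl⟩ : ∃ j' : Fin t, j = j'.castSucc := ⟨j.castPred (ne_of_lt hj), by simp⟩
        rw [Fin.snoc_castSucc]
        exact hg₀ _ ((hmem _).mpr ⟨j', rfl⟩)
      · obtain ⟨g, hg1, hg2⟩ := hirr i'
        refine ⟨g, fun j hj => ?_, by simpa using hg2⟩
        have hjl : j ≠ Fin.last t := by
          intro h
          rw [h] at hj
          exact absurd hj (not_lt.mpr (Fin.le_last _))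
        obtain ⟨j', rfl⟩ : ∃ j' : Fin t, j = j'.castSucc := ⟨j.castPred hjl, by simp⟩
        rw [Fin.snoc_castSucc]
        exact hg1 j' (by simpa using hj)
    · intro y
      rw [Finset.mem_insert, hmem]
      constructor
      · rintro (rfl | ⟨i, rfl⟩)
        · exact ⟨Fin.last t, by simp⟩
        · exact ⟨i.castSucc, by simp⟩
      · rintro ⟨i, rfl⟩
        refine Fin.lastCases ?_ (fun i' => ?_) i
        · left; simp
        · right; exact ⟨i', by simp⟩

theorem irrSet_of_subset_indep (S : Finset Ω) (hS : IndepS G S) :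
    ∀ T : Finset Ω, T ⊆ S → IrrSet G T := by
  intro T
  induction T using Finset.induction_on with
  | empty => intro _; exact IrrSet.empty
  | insert x T' hx ih =>
    intro hsub
    have hT' : T' ⊆ S := (Finset.subset_insert x T').trans hsub
    have hxS : x ∈ S := hsub (Finset.mem_insert_self x T')
    obtain ⟨g, hg1, hg2⟩ := hS x hxS
    refine IrrSet.insert T' x (ih hT') ⟨g, fun y hy => hg1 y (hT' hy) ?_, hg2⟩
    rintro rfl
    exact hx hy

/-- Under the reordering property, an irredundant base is an independent set. -/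
theorem indep_of_seq
    (hb : ∀ (t : ℕ) (f : Fin t → Ω) (σ : Equiv.Perm (Fin t)),
      (BaseSeq G f ∧ Irred G f) → (BaseSeq G (f ∘ σ) ∧ Irred G (f ∘ σ)))
    {t : ℕ} (f : Fin t → Ω) (hf : BaseSeq G f ∧ Irred G f) (S : Finset Ω)
    (hS : ∀ x, x ∈ S ↔ ∃ i, f i = x) : IndepS G S := by
  intro x hx
  obtain ⟨i, rfl⟩ := (hS x).mp hx
  cases t with
  | zero => exact i.elim0
  | succ m =>
    set σ : Equiv.Perm (Fin (m + 1)) := Equiv.swap i (Fin.last m) with hσ
    obtain ⟨g, hg1, hg2⟩ := (hb (m + 1) f σ hf).2 (Fin.last m)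
    have hlast : (f ∘ σ) (Fin.last m) = f i := by
      simp [hσ]
    rw [hlast] at hg2
    refine ⟨g, fun y hy hne => ?_, hg2⟩
    obtain ⟨k, rfl⟩ := (hS y).mp hy
    have hki : k ≠ i := by
      rintro rfl
      exact hne rfl
    have hσk : σ k ≠ Fin.last m := by
      intro h
      have : σ (σ k) = σ (Fin.last m) := by rw [h]
      rw [hσ, Equiv.swap_apply_self, Equiv.swap_apply_right] at this
      exact hki this
    have h1 := hg1 (σ k) (Fin.lt_last_iff_ne_last.mpr hσk)
    simp only [Function.comp_apply, hσ, Equiv.swap_apply_self] at h1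
    exact h1

/-- Under the reordering property, a base that can be built irredundantly is independent. -/
theorem indep_of_irrSet
    (hb : ∀ (t : ℕ) (f : Fin t → Ω) (σ : Equiv.Perm (Fin t)),
      (BaseSeq G f ∧ Irred G f) → (BaseSeq G (f ∘ σ) ∧ Irred G (f ∘ σ)))
    (S : Finset Ω) (hbase : IsBaseS G S) (hirr : IrrSet G S) : IndepS G S := by
  obtain ⟨t, f, hf, hmem⟩ := exists_seq_of_irrSet G S hirr
  refine indep_of_seq G hb f ⟨?_, hf⟩ S hmem
  intro g hg
  apply hbase g
  intro x hx
  obtain ⟨i, rfl⟩ := (hmem x).mp hx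
  exact hg i

/-- The exchange property. -/
theorem exchange
    (hb : ∀ (t : ℕ) (f : Fin t → Ω) (σ : Equiv.Perm (Fin t)),
      (BaseSeq G f ∧ Irred G f) → (BaseSeq G (f ∘ σ) ∧ Irred G (f ∘ σ)))
    (A B : Finset Ω) (hA : IsBaseS G A) (hAi : IndepS G A) (hB : IsBaseS G B) (a : Ω) (ha : a ∈ A) :
    ∃ b ∈ B, b ∉ A.erase a ∧ IsBaseS G (insert b (A.erase a)) ∧ IndepS G (insert b (A.erase a)) := by
  obtain ⟨g₀, hg₀, hg₀a⟩ := hAi a ha
  have hg₀1 : g₀ ≠ 1 := by
    rintro rfl
    exact hg₀a (one_smul _ _)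
  have : ¬ ∀ x ∈ B, g₀ • x = x := fun h => hg₀1 (hB g₀ h)
  push Not at this
  obtain ⟨b, hbB, hb₀⟩ := this
  have hbA : b ∉ A.erase a := by
    intro h
    rw [Finset.mem_erase] at h
    exact hb₀ (hg₀ b h.2 h.1)
  have hirr1 : IrrSet G (A.erase a) := irrSet_of_subset_indep G A hAi _ (Finset.erase_subset a A)
  have hirr2 : IrrSet G (insert b (A.erase a)) :=
    IrrSet.insert _ b hirr1 ⟨g₀, fun y hy => hg₀ y (Finset.mem_of_mem_erase hy) (Finset.ne_of_mem_erase hy), hb₀⟩
  refine ⟨b, hbB, hbA, ?_⟩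
  by_cases hbase : IsBaseS G (insert b (A.erase a))
  · exact ⟨hbase, indep_of_irrSet G hb _ hbase hirr2⟩
  · exfalso
    unfold IsBaseS at hbase
    push Not at hbase
    obtain ⟨g₁, hg₁, hg₁1⟩ := hbase
    have hg₁a : g₁ • a ≠ a := by
      intro h
      apply hg₁1
      apply hA g₁
      intro x hx
      by_cases hxa : x = a
      · rw [hxa]; exact h
      · exact hg₁ x (Finset.mem_insert_of_mem (Finset.mem_erase.mpr ⟨hxa, hx⟩))
    have hab : a ≠ b := by
      rintro rfl
      exact hg₁a (hg₁ a (Finset.mem_insert_self _ _))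
    have hirr3 : IrrSet G (insert a (insert b (A.erase a))) :=
      IrrSet.insert _ a hirr2 ⟨g₁, hg₁, hg₁a⟩
    have hsub : ∀ x ∈ A, x ∈ insert a (insert b (A.erase a)) := by
      intro x hx
      by_cases hxa : x = a
      · rw [hxa]; exact Finset.mem_insert_self _ _
      · exact Finset.mem_insert_of_mem (Finset.mem_insert_of_mem (Finset.mem_erase.mpr ⟨hxa, hx⟩))
    have hbase3 : IsBaseS G (insert a (insert b (A.erase a))) := by
      intro g hg
      exact hA g (fun x hx => hg x (hsub x hx))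
    have hind3 := indep_of_irrSet G hb _ hbase3 hirr3
    obtain ⟨g, hg1, hg2⟩ := hind3 b (Finset.mem_insert_of_mem (Finset.mem_insert_self _ _))
    apply hg2
    have : g = 1 := by
      apply hA g
      intro x hx
      apply hg1 x (hsub x hx)
      rintro rfl
      by_cases hxa : x = a
      · exact hab hxa.symm
      · exact hbA (Finset.mem_erase.mpr ⟨hxa, hx⟩)
    rw [this, one_smul]

/-- Under the reordering property, all independent bases have the same size. -/
theorem card_eq_of_indep_base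
    (hb : ∀ (t : ℕ) (f : Fin t → Ω) (σ : Equiv.Perm (Fin t)),
      (BaseSeq G f ∧ Irred G f) → (BaseSeq G (f ∘ σ) ∧ Irred G (f ∘ σ))) :
    ∀ (n : ℕ) (A B : Finset Ω), (A \ B).card = n → IsBaseS G A → IndepS G A → IsBaseS G B →
      IndepS G B → A.card = B.card := by
  intro n
  induction n with
  | zero =>
    intro A B hcard hA _ _ hBi
    have hsub : A ⊆ B := by
      rw [Finset.card_eq_zero, Finset.sdiff_eq_empty_iff_subset] at hcard
      exact hcard
    have hsub' : B ⊆ A := by
      intro b hbB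
      by_contra hbA
      obtain ⟨g, hg1, hg2⟩ := hBi b hbB
      apply hg2
      have : g = 1 := by
        apply hA g
        intro x hx
        apply hg1 x (hsub hx)
        rintro rfl
        exact hbA hx
      rw [this, one_smul]
    rw [Finset.Subset.antisymm hsub hsub']
  | succ n ih =>
    intro A B hcard hA hAi hB hBi
    have hne : (A \ B).Nonempty := by
      rw [← Finset.card_pos, hcard]
      exact Nat.succ_pos n
    obtain ⟨a, haAB⟩ := hne
    have haA : a ∈ A := (Finset.mem_sdiff.mp haAB).1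
    obtain ⟨b, hbB, hbA, hbase, hind⟩ := exchange G hb A B hA hAi hB a haA
    have h1 : (insert b (A.erase a)).card = A.card := by
      rw [Finset.card_insert_of_notMem hbA, Finset.card_erase_of_mem haA]
      have : 0 < A.card := Finset.card_pos.mpr ⟨a, haA⟩
      omega
    have h2 : insert b (A.erase a) \ B = (A \ B).erase a := by
      ext x
      simp only [Finset.mem_sdiff, Finset.mem_insert, Finset.mem_erase]
      constructor
      · rintro ⟨rfl | ⟨hxa, hxA⟩, hxB⟩
        · exact absurd hbB hxB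
        · exact ⟨hxa, hxA, hxB⟩
      · rintro ⟨hxa, hxA, hxB⟩
        exact ⟨Or.inr ⟨hxa, hxA⟩, hxB⟩
    have h3 : (insert b (A.erase a) \ B).card = n := by
      rw [h2, Finset.card_erase_of_mem haAB, hcard]
      rfl
    rw [← h1]
    exact ih _ B h3 hbase hind hB hBi

end Finsets

/-- If irredundant bases can be reordered, they all have the same size. -/
theorem same_size_of_reorder
    (hb : ∀ (t : ℕ) (f : Fin t → Ω) (σ : Equiv.Perm (Fin t)),
      (BaseSeq G f ∧ Irred G f) → (BaseSeq G (f ∘ σ) ∧ Irred G (f ∘ σ))) :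
    ∀ (t t' : ℕ) (f : Fin t → Ω) (f' : Fin t' → Ω),
      (BaseSeq G f ∧ Irred G f) → (BaseSeq G f' ∧ Irred G f') → t = t' := by
  classical
  intro t t' f f' hf hf'
  have key : ∀ (s : ℕ) (h : Fin s → Ω), (BaseSeq G h ∧ Irred G h) →
      IsBaseS G (Finset.univ.image h) ∧ IndepS G (Finset.univ.image h) ∧ (Finset.univ.image h).card = s := by
    intro s h hh
    have hmem : ∀ x, x ∈ Finset.univ.image h ↔ ∃ i, h i = x := by
      intro x; simp
    refine ⟨?_, indep_of_seq G hb h hh _ hmem, ?_⟩
    · intro g hg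
      apply hh.1 g
      intro i
      exact hg (h i) ((hmem _).mpr ⟨i, rfl⟩)
    · rw [Finset.card_image_of_injective _ (injective_of_irred G h hh.2), Finset.card_univ,
        Fintype.card_fin]
  obtain ⟨h1, h2, h3⟩ := key t f hf
  obtain ⟨h1', h2', h3'⟩ := key t' f' hf'
  rw [← h3, ← h3']
  exact card_eq_of_indep_base G hb _ _ _ rfl h1 h2 h1' h2'

/-- Let a finite group G act on a finite set Ω. An irredundant base is a sequence of points ω₁, …, ω_t whose pointwise stabiliser is trivial and in which each ω_i is moved by some element fixing ω₁, …, ω_{i−1}. Then all irredundant bases have the same length if and only if every reordering of an irredundant base is again an irredundant base. -/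
theorem result {G Ω : Type*} [Group G] [Finite G] [MulAction G Ω] [Fintype Ω] :
    (∀ (t t' : ℕ) (f : Fin t → Ω) (f' : Fin t' → Ω), ((∀ g : G, (∀ i : Fin t, g • f i = f i) → g = 1) ∧ ∀ i : Fin t, ∃ g : G, (∀ j : Fin t, j < i → g • f j = f j) ∧ g • f i ≠ f i) → ((∀ g : G, (∀ i : Fin t', g • f' i = f' i) → g = 1) ∧ ∀ i : Fin t', ∃ g : G, (∀ j : Fin t', j < i → g • f' j = f' j) ∧ g • f' i ≠ f' i) → t = t') ↔
    (∀ (t : ℕ) (f : Fin t → Ω) (σ : Equiv.Perm (Fin t)), ((∀ g : G, (∀ i : Fin t, g • f i = f i) → g = 1) ∧ ∀ i : Fin t, ∃ g : G, (∀ j : Fin t, j < i → g • f j = f j) ∧ g • f i ≠ f i) → ((∀ g : G, (∀ i : Fin t, g • (f ∘ σ) i = (f ∘ σ) i) → g = 1) ∧ ∀ i : Fin t, ∃ g : G, (∀ j : Fin t, j < i → g • (f ∘ σ) j = (f ∘ σ) j) ∧ g • (f ∘ σ) i ≠ (f ∘ σ) i)) :=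
  ⟨fun ha => reorder_of_same_size G ha, fun hb => same_size_of_reorder G hb⟩

end Cfsg.Agent.S5747
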