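import Cfsg.Statements.S5751
import Cfsg.Agent.H23.IcGlue
import Cfsg.Agent.H23.IcWD
import Cfsg.Agent.H96.IcAbs
import Cfsg.Agent.H95.IcCoat
import Cfsg.Agent.H93.IcBasic
import Cfsg.Agent.H93.IcFiltP
import Cfsg.Agent.H93.IcLevi
import Cfsg.Agent.H79.IcNotin
import Cfsg.Agent.H79.IcLowC
import Cfsg.Agent.H46.IcGrad
import Cfsg.Agent.H85.IcTab
import Cfsg.Agent.H88.IcLowT
import Cfsg.Agent.H88.IcEnd
import Cfsg.Agent.H88.IcLT
import Cfsg.Agent.H78.IcStep0
import Cfsg.Agent.H63.IcLowN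

set_option autoImplicit false
open Cfsg

namespace Cfsg.Agent.S5751

/-- An extremal example for iterated cores of conjugate maximal subgroups: there exist a finite group G and two distinct conjugate maximal subgroups M₁, M₂ of G, with M₁ having trivial core in G, such that, if we define two descending sequences of subgroups by A₀ = M₁, B₀ = M₂ and, for every i, A_{i+1} = the core in M₁ of A_i ∩ B_i and B_{i+1} = the core in M₂ of A_i ∩ B_i (the core in M of a subgroup Y ≤ M is the largest normal subgroup of M contained in Y), the subgroup A₆ is trivial while A₅ is not (so the index 6 cannot be lowered to 5). (One example is a maximal parabolic subgroup of the Chevalley group of type E₈ over a finite field and a suitable conjugate of it.) -/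
theorem result :
    ∃ (G : Type) (_ : Group G) (_ : Finite G) (M₁ M₂ : Subgroup G) (g : G) (A B : ℕ → Subgroup G),
      IsCoatom M₁ ∧ M₂ = M₁.map (MulAut.conj g).toMonoidHom ∧ M₁ ≠ M₂ ∧ M₁.normalCore = ⊥ ∧ A 0 = M₁ ∧ B 0 = M₂ ∧
      (∀ i, A (i + 1) = ((A i ⊓ B i).subgroupOf M₁).normalCore.map M₁.subtype) ∧
      (∀ i, B (i + 1) = ((A i ⊓ B i).subgroupOf M₂).normalCore.map M₂.subtype) ∧ A 6 = ⊥ ∧ A 5 ≠ ⊥ := by
  have hBasic : Cfsg.Agent.H23.Ic.StBasic := Cfsg.Agent.H93.Ic.basic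
  have hGrad : Cfsg.Agent.H23.Ic.StGrad := Cfsg.Agent.H46.Ic.grad
  have hTab : Cfsg.Agent.H23.Ic.StTab := Cfsg.Agent.H85.Ic.tab
  have hLT : Cfsg.Agent.H23.Ic.StLT := Cfsg.Agent.H88.Ic.lt
  exact Cfsg.Agent.H23.Ic.ic_main Cfsg.Agent.H96.Ic.abs hBasic Cfsg.Agent.H79.Ic.notin
    Cfsg.Agent.H95.Ic.coat Cfsg.Agent.H63.Ic.lowN Cfsg.Agent.H79.Ic.lowC Cfsg.Agent.H88.Ic.lowT
    (Cfsg.Agent.H78.Ic.step0 hBasic Cfsg.Agent.H93.Ic.filtP Cfsg.Agent.H93.Ic.levi hGrad hTab
      Cfsg.Agent.H23.Ic.wd hLT)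
    (Cfsg.Agent.H78.Ic.stepK hBasic hGrad hTab) (Cfsg.Agent.H88.Ic.endp hTab hLT)

end Cfsg.Agent.S5751
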