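import Mathlib
import Cfsg.Statements.S5752
import Cfsg.Agent.H56.TWC

set_option autoImplicit false
open Cfsg

namespace Cfsg.Agent.S5752

/-- A form of the Thompson–Wielandt Theorem on primitive permutation groups. Let G be a finite group and M₁, M₂ two distinct conjugate maximal subgroups of G with trivial core in G; define two descending sequences of subgroups by A₀ = M₁, B₀ = M₂ and, for every i, A_{i+1} = the core in M₁ of A_i ∩ B_i and B_{i+1} = the core in M₂ of A_i ∩ B_i (the core in M of a subgroup Y ≤ M is the largest normal subgroup of M contained in Y). If A₂ and B₂ are both non-trivial, then for some prime p the subgroup generated by A₂ and B₂ is a p-group, and for each j the generalized Fitting subgroups of M_j and of its first core (A₁, resp. B₁) are their largest normal p-subgroups. -/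
theorem result {G : Type*} [Group G] [Finite G] (M₁ M₂ : Subgroup G) (hmax : IsCoatom M₁) (g : G)
    (hconj : M₂ = M₁.map (MulAut.conj g).toMonoidHom) (hne : M₁ ≠ M₂) (hcore : M₁.normalCore = ⊥)
    (A B : ℕ → Subgroup G) (hA0 : A 0 = M₁) (hB0 : B 0 = M₂)
    (hA : ∀ i, A (i + 1) = ((A i ⊓ B i).subgroupOf M₁).normalCore.map M₁.subtype)
    (hB : ∀ i, B (i + 1) = ((A i ⊓ B i).subgroupOf M₂).normalCore.map M₂.subtype) (hA2 : A 2 ≠ ⊥) (hB2 : B 2 ≠ ⊥) :
    ∃ p : ℕ, p.Prime ∧ IsPGroup p ↥(A 2 ⊔ B 2) ∧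
      Cfsg.generalizedFittingSubgroup ↥M₁ = Cfsg.pCore p ↥M₁ ∧ Cfsg.generalizedFittingSubgroup ↥(A 1) = Cfsg.pCore p ↥(A 1) ∧
      Cfsg.generalizedFittingSubgroup ↥M₂ = Cfsg.pCore p ↥M₂ ∧ Cfsg.generalizedFittingSubgroup ↥(B 1) = Cfsg.pCore p ↥(B 1) := by
  have hmax2 : IsCoatom M₂ := by
    have h := ((MulAut.conj g).mapSubgroup.isCoatom_iff M₁).mpr hmax
    rw [hconj]
    exact h
  have hcore2 : M₂.normalCore = ⊥ := by
    rw [← le_bot_iff, ← hcore]
    apply Subgroup.normal_le_normalCore.mpr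
    intro x hx
    have h1 : g * x * g⁻¹ ∈ M₂ :=
      Subgroup.normalCore_le M₂ ((Subgroup.normalCore_normal M₂).conj_mem x hx g)
    rw [hconj] at h1
    obtain ⟨m, hm, hmx⟩ := h1
    simp only [MulEquiv.coe_toMonoidHom, MulAut.conj_apply] at hmx
    have : m = x := by
      have h2 : g⁻¹ * (g * m * g⁻¹) * g = g⁻¹ * (g * x * g⁻¹) * g := by rw [hmx]
      rw [show g⁻¹ * (g * m * g⁻¹) * g = m by group, show g⁻¹ * (g * x * g⁻¹) * g = x by group]
        at h2
      exact h2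
    rw [← this]; exact hm
  have hPM := Cfsg.Agent.H56.TW.prim_of_coatom hmax hcore
  have hPN := Cfsg.Agent.H56.TW.prim_of_coatom hmax2 hcore2
  have hMN : ¬ M₁ ≤ M₂ := fun h => hne ((hmax.le_iff_eq hmax2.1).mp h).symm
  have hNM : ¬ M₂ ≤ M₁ := fun h => hne ((hmax2.le_iff_eq hmax.1).mp h)
  have e : ↥M₁ ≃* ↥M₂ :=
    (Subgroup.equivMapOfInjective M₁ (MulAut.conj g).toMonoidHom (MulAut.conj g).injective).trans
      (MulEquiv.subgroupCongr hconj.symm)
  have h1A : A 1 = Cfsg.Agent.H56.TW.coreIn (M₁ ⊓ M₂) M₁ := by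
    have h := hA 0
    rw [hA0, hB0] at h
    exact h
  have h1B : B 1 = Cfsg.Agent.H56.TW.coreIn (M₁ ⊓ M₂) M₂ := by
    have h := hB 0
    rw [hA0, hB0] at h
    exact h
  have h2A : A 2 = Cfsg.Agent.H56.TW.coreIn (A 1 ⊓ B 1) M₁ := hA 1
  have h2B : B 2 = Cfsg.Agent.H56.TW.coreIn (A 1 ⊓ B 1) M₂ := hB 1
  exact Cfsg.Agent.H56.TW.tw_main hPM hPN hMN hNM e h1A h1B h2A h2B hA2 hB2

end Cfsg.Agent.S5752
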