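import Cfsg.Statements.S5754

set_option autoImplicit false
open Cfsg

namespace Cfsg.Agent.S5754

open QuadraticMap

variable {F V : Type*} [Field F] [AddCommGroup V] [Module F V]

/-- The underlying function of the reflection along `w`. -/
noncomputable def reflFun (Q : QuadraticForm F V) (w : V) (x : V) : V :=
  x - (polar Q x w / Q w) • w

theorem polar_reflFun (Q : QuadraticForm F V) (w : V) (hw : Q w ≠ 0) (x : V) :
    polar Q (reflFun Q w x) w = - polar Q x w := by
  unfold reflFun
  rw [polar_sub_left, polar_smul_left, polar_self, smul_eq_mul, nsmul_eq_mul]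
  field_simp
  ring

theorem reflFun_involutive (Q : QuadraticForm F V) (w : V) (hw : Q w ≠ 0) (x : V) :
    reflFun Q w (reflFun Q w x) = x := by
  have h := polar_reflFun Q w hw x
  change reflFun Q w x - (polar Q (reflFun Q w x) w / Q w) • w = x
  rw [h]
  unfold reflFun
  rw [neg_div, neg_smul]
  abel

theorem map_reflFun (Q : QuadraticForm F V) (w : V) (hw : Q w ≠ 0) (x : V) :
    Q (reflFun Q w x) = Q x := by
  unfold reflFun
  rw [sub_eq_add_neg, ← neg_smul, QuadraticMap.map_add (⇑Q), QuadraticMap.map_smul, polar_smul_right,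
    smul_eq_mul, smul_eq_mul]
  field_simp
  ring

/-- The reflection along an anisotropic vector, as an isometry. -/
noncomputable def refl (Q : QuadraticForm F V) (w : V) (hw : Q w ≠ 0) : Q.IsometryEquiv Q where
  toFun := reflFun Q w
  map_add' x y := by
    unfold reflFun
    rw [polar_add_left, add_div, add_smul]
    abel
  map_smul' c x := by
    unfold reflFun
    simp only [RingHom.id_apply]
    rw [polar_smul_left, smul_eq_mul, mul_div_assoc, mul_smul, smul_sub]
  invFun := reflFun Q w
  left_inv := reflFun_involutive Q w hw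
  right_inv := reflFun_involutive Q w hw
  map_app' := map_reflFun Q w hw

theorem refl_apply (Q : QuadraticForm F V) (w : V) (hw : Q w ≠ 0) (x : V) :
    refl Q w hw x = x - (polar Q x w / Q w) • w := rfl

theorem polar_isometry (Q : QuadraticForm F V) (ψ : Q.IsometryEquiv Q) (a b : V) :
    polar Q (ψ a) (ψ b) = polar Q a b := by
  unfold polar
  rw [← map_add, ψ.map_app, ψ.map_app, ψ.map_app]

theorem map_sub_eq (Q : QuadraticForm F V) (x y : V) :
    Q (x - y) = Q x + Q y - polar Q x y := by
  rw [sub_eq_add_neg, QuadraticMap.map_add (⇑Q), QuadraticMap.map_neg, polar_neg_right]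
  ring

theorem polar_eq_sub (Q : QuadraticForm F V) (x y : V) :
    polar Q x y = Q x + Q y - Q (x - y) := by
  rw [map_sub_eq]; ring

/-- Witt's theorem for anisotropic forms: two families of vectors with the same Gram data are
related by an isometry. -/
theorem exists_isometry (Q : QuadraticForm F V) (hQ : Q.Anisotropic) (n : ℕ) (v v' : Fin n → V)
    (hq : ∀ i, Q (v i) = Q (v' i)) (hp : ∀ i j, polar Q (v i) (v j) = polar Q (v' i) (v' j))
    (k : ℕ) : ∃ φ : Q.IsometryEquiv Q, ∀ i : Fin n, i.val < k → φ (v i) = v' i := by
  induction k with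
  | zero => exact ⟨QuadraticMap.IsometryEquiv.refl Q, fun i hi => absurd hi (Nat.not_lt_zero _)⟩
  | succ k ih =>
    obtain ⟨ψ, hψ⟩ := ih
    by_cases hk : k < n
    · set m : Fin n := ⟨k, hk⟩ with hm
      by_cases hxy : ψ (v m) = v' m
      · refine ⟨ψ, fun i hi => ?_⟩
        rcases Nat.lt_succ_iff_lt_or_eq.mp hi with h | h
        · exact hψ i h
        · have : i = m := Fin.ext h
          rw [this]; exact hxy
      · set x := ψ (v m) with hx
        set y := v' m with hy
        have hw0 : x - y ≠ 0 := sub_ne_zero.mpr hxy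
        have hw : Q (x - y) ≠ 0 := fun h => hw0 (hQ _ h)
        have hQx : Q x = Q y := by rw [hx, ψ.map_app, hq]
        refine ⟨ψ.trans (refl Q (x - y) hw), fun i hi => ?_⟩
        change refl Q (x - y) hw (ψ (v i)) = v' i
        rw [refl_apply]
        rcases Nat.lt_succ_iff_lt_or_eq.mp hi with h | h
        · rw [hψ i h]
          have : polar Q (v' i) (x - y) = 0 := by
            rw [polar_sub_right, hx, ← hψ i h, polar_isometry, hψ i h, hy, hp, sub_self]
          rw [this, zero_div, zero_smul, sub_zero]
        · have him : i = m := Fin.ext h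
          rw [him, ← hx]
          have h1 : polar Q x (x - y) = Q (x - y) := by
            rw [polar_sub_right, polar_self, map_sub_eq, ← hQx, nsmul_eq_mul]
            ring
          rw [h1, div_self hw, one_smul]
          abel
    · refine ⟨ψ, fun i hi => hψ i ?_⟩
      have := i.2
      omega

/-- Let V be a finite-dimensional vector space over a finite field F carrying an anisotropic quadratic form Q (Q(v) = 0 only for v = 0). Then the group of all maps v ↦ φ(v) + c, with φ an isometry of Q and c ∈ V, acts on V as a binary permutation group: given n ≥ 2 and two n-tuples u, u' of vectors such that every pair of corresponding entries of u is carried to that of u' by such a map, one such map carries u to u'. -/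
theorem result {F V : Type*} [Field F] [Finite F] [AddCommGroup V] [Module F V] [Module.Finite F V]
    (Q : QuadraticForm F V) (hQ : Q.Anisotropic) (n : ℕ) (hn : 2 ≤ n) (u u' : Fin n → V)
    (h2 : ∀ i j : Fin n, i ≠ j → ∃ (φ : Q.IsometryEquiv Q) (c : V), φ (u i) + c = u' i ∧ φ (u j) + c = u' j) :
    ∃ (φ : Q.IsometryEquiv Q) (c : V), ∀ i, φ (u i) + c = u' i := by
  have hdiff : ∀ i j : Fin n, Q (u i - u j) = Q (u' i - u' j) := by
    intro i j
    by_cases hij : i = j
    · subst hij; simp
    · obtain ⟨φ, c, h1, h2'⟩ := h2 i j hij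
      rw [← h1, ← h2', add_sub_add_right_eq_sub, ← map_sub, φ.map_app]
  set i₀ : Fin n := ⟨0, by omega⟩ with hi₀
  set v : Fin n → V := fun i => u i - u i₀ with hv
  set v' : Fin n → V := fun i => u' i - u' i₀ with hv'
  have hq : ∀ i, Q (v i) = Q (v' i) := fun i => hdiff i i₀
  have hp : ∀ i j, polar Q (v i) (v j) = polar Q (v' i) (v' j) := by
    intro i j
    have e1 : polar Q (v i) (v j) = Q (v i) + Q (v j) - Q (v i - v j) := polar_eq_sub Q _ _
    have e2 : polar Q (v' i) (v' j) = Q (v' i) + Q (v' j) - Q (v' i - v' j) := polar_eq_sub Q _ _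
    rw [e1, e2, hq i, hq j]
    have e3 : v i - v j = u i - u j := by simp [hv]
    have e4 : v' i - v' j = u' i - u' j := by simp [hv']
    rw [e3, e4, hdiff i j]
  obtain ⟨φ, hφ⟩ := exists_isometry Q hQ n v v' hq hp n
  refine ⟨φ, u' i₀ - φ (u i₀), fun i => ?_⟩
  have h := hφ i i.2
  simp only [hv, hv'] at h
  rw [map_sub] at h
  have : φ (u i) = u' i - u' i₀ + φ (u i₀) := by
    rw [← h]; abel
  rw [this]
  abel

end Cfsg.Agent.S5754
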