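import Cfsg.Statements.S5763

set_option autoImplicit false
open Cfsg

namespace Cfsg.Agent.S5763

/-! ### A kernel-checked finite computation

A "tree structure" on eight points (four pairs grouped into two quadruples) is coded by a labelling
`L : Fin 8 → {0,1,2,3}` (pairs are the fibres, quadruples the fibres of `L / 2`), stored as a
number with base-4 digits.  Candidate automorphisms are stored with base-8 digits. -/

/-- The `i`-th base-4 digit. -/
def dig2 (n i : ℕ) : ℕ := Nat.mod (Nat.shiftRight n (Nat.mul 2 i)) 4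

/-- The `i`-th base-8 digit. -/
def dig3 (c i : ℕ) : ℕ := Nat.mod (Nat.shiftRight c (Nat.mul 3 i)) 8

/-- Bounded universal quantifier on booleans. -/
def allB : ℕ → (ℕ → Bool) → Bool
  | 0, _ => true
  | k + 1, p => p k && allB k p

def presPair (n c a b : ℕ) : Bool :=
  (!((Nat.beq (dig2 n a) (dig2 n b)) ^^ (Nat.beq (dig2 n (dig3 c a)) (dig2 n (dig3 c b))))) &&
  (!((Nat.beq (Nat.div (dig2 n a) 2) (Nat.div (dig2 n b) 2)) ^^
    (Nat.beq (Nat.div (dig2 n (dig3 c a)) 2) (Nat.div (dig2 n (dig3 c b)) 2))))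

def presB (n c : ℕ) : Bool := allB 8 fun a => allB a fun b => presPair n c a b

def balB (n : ℕ) : Bool :=
  Nat.beq (Nat.add (Nat.add (Nat.add (Nat.add (Nat.add (Nat.add (Nat.add (Nat.pow 8 (dig2 n 0))
    (Nat.pow 8 (dig2 n 1))) (Nat.pow 8 (dig2 n 2))) (Nat.pow 8 (dig2 n 3))) (Nat.pow 8 (dig2 n 4)))
    (Nat.pow 8 (dig2 n 5))) (Nat.pow 8 (dig2 n 6))) (Nat.pow 8 (dig2 n 7))) 1170

/-- Codes of 21 involutions preserving the standard tree structure. -/
def codes : List ℕ := [16434817, 16434376, 16406152, 14599816, 14570689, 11789505, 9925825,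
  14570010, 11788826, 9925146, 14569555, 11788371, 9924691, 6852524, 5017068, 6823845, 4988389,
  2206526, 2177406, 371511, 342391]

def checkN (n : ℕ) : Bool := !balB n || codes.any (presB n)

/-- Each code is an involution, not the identity, preserving the standard structure (code 64080). -/
def goodCode (c : ℕ) : Bool :=
  allB 8 (fun i => Nat.beq (dig3 c (dig3 c i)) i) && (!(allB 8 (fun i => Nat.beq (dig3 c i) i))) &&
    presB 64080 c

set_option maxRecDepth 100000 in
theorem check_all : allB 256 (fun a => allB 256 (fun b => checkN (Nat.add (Nat.mul 256 a) b))) = true := by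
  decide +kernel

theorem codes_good : codes.all goodCode = true := by
  decide +kernel

theorem allB_spec : ∀ (N : ℕ) (p : ℕ → Bool), allB N p = true → ∀ k, k < N → p k = true := by
  intro N
  induction N with
  | zero => intro p _ k hk; omega
  | succ N ih =>
    intro p h k hk
    simp only [allB, Bool.and_eq_true] at h
    rcases Nat.lt_succ_iff_lt_or_eq.mp hk with h1 | rfl
    · exact ih p h.2 k h1
    · exact h.1

theorem allB_of_forall : ∀ (N : ℕ) (p : ℕ → Bool), (∀ k, k < N → p k = true) → allB N p = true := by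
  intro N
  induction N with
  | zero => intro p _; rfl
  | succ N ih =>
    intro p h
    simp only [allB, Bool.and_eq_true]
    exact ⟨h N (Nat.lt_succ_self N), ih p (fun k hk => h k (Nat.lt_succ_of_lt hk))⟩

theorem dig2_eq (n i : ℕ) : dig2 n i = n / 4 ^ i % 4 := by
  unfold dig2
  change (n >>> (2 * i)) % 4 = _
  rw [Nat.shiftRight_eq_div_pow, pow_mul]
  norm_num

theorem checkN_true (n : ℕ) (hn : n < 65536) : checkN n = true := by
  have h1 := allB_spec 256 _ check_all (n / 256) (by omega)
  have h2 := allB_spec 256 _ h1 (n % 256) (Nat.mod_lt _ (by norm_num))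
  have h3 : Nat.add (Nat.mul 256 (n / 256)) (n % 256) = n := Nat.div_add_mod n 256
  rw [h3] at h2
  exact h2

/-! ### Structures and their automorphisms -/

/-- `h` preserves the two equivalence relations defined by the labelling `L`. -/
def Pres (L : Fin 8 → ℕ) (h : Fin 8 → Fin 8) : Prop :=
  ∀ a b : Fin 8, (L a = L b ↔ L (h a) = L (h b)) ∧ (L a / 2 = L b / 2 ↔ L (h a) / 2 = L (h b) / 2)

/-- The function coded by `c`. -/
def hfun (c : ℕ) (i : Fin 8) : Fin 8 := ⟨dig3 c i.val, Nat.mod_lt _ (by norm_num)⟩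

theorem bool_xor_lemma (p q : Bool) : (!(p ^^ q)) = true ↔ (p = true ↔ q = true) := by
  cases p <;> cases q <;> simp

theorem pres_of_presB (n c : ℕ) (L : Fin 8 → ℕ) (hL : ∀ i : Fin 8, dig2 n i.val = L i)
    (h : presB n c = true) : Pres L (hfun c) := by
  have key : ∀ a b : Fin 8, b.val < a.val →
      ((L a = L b ↔ L (hfun c a) = L (hfun c b)) ∧
        (L a / 2 = L b / 2 ↔ L (hfun c a) / 2 = L (hfun c b) / 2)) := by
    intro a b hab
    have h1 := allB_spec 8 _ h a.val a.2
    have h2 := allB_spec a.val _ h1 b.val hab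
    simp only [presPair, Bool.and_eq_true, bool_xor_lemma, Nat.beq_eq] at h2
    have e1 : dig2 n (dig3 c a.val) = L (hfun c a) := hL (hfun c a)
    have e2 : dig2 n (dig3 c b.val) = L (hfun c b) := hL (hfun c b)
    rw [hL a, hL b, e1, e2] at h2
    exact h2
  intro a b
  rcases lt_trichotomy a.val b.val with hlt | heq | hgt
  · have := key b a hlt
    constructor
    · rw [eq_comm, this.1, eq_comm]
    · rw [eq_comm, this.2, eq_comm]
  · have hab : a = b := Fin.ext heq
    subst hab
    simp
  · exact key a b hgt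

/-- The pair labelling of the standard structure. -/
def pr (i : Fin 8) : ℕ := i.val / 2

theorem pr_code : ∀ i : Fin 8, dig2 64080 i.val = pr i := by decide

theorem good_of_mem (c : ℕ) (hc : c ∈ codes) :
    (∀ i : Fin 8, hfun c (hfun c i) = i) ∧ (∃ i : Fin 8, hfun c i ≠ i) ∧ Pres pr (hfun c) := by
  have h := List.all_eq_true.mp codes_good c hc
  simp only [goodCode, Bool.and_eq_true, Bool.not_eq_true'] at h
  obtain ⟨⟨h1, h2⟩, h3⟩ := h
  refine ⟨fun i => ?_, ?_, pres_of_presB 64080 c pr pr_code h3⟩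
  · have := allB_spec 8 _ h1 i.val i.2
    rw [Nat.beq_eq] at this
    exact Fin.ext this
  · by_contra hcon
    push Not at hcon
    have : allB 8 (fun i => Nat.beq (dig3 c i) i) = true := by
      apply allB_of_forall
      intro k hk
      rw [Nat.beq_eq]
      exact congrArg Fin.val (hcon ⟨k, hk⟩)
    rw [this] at h2
    exact Bool.noConfusion h2

theorem Pres.comp {L : Fin 8 → ℕ} {g h : Fin 8 → Fin 8} (hg : Pres L g) (hh : Pres L h) :
    Pres L (g ∘ h) := by
  intro a b
  exact ⟨(hh a b).1.trans (hg (h a) (h b)).1, (hh a b).2.trans (hg (h a) (h b)).2⟩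

/-- The automorphism group of the standard structure. -/
def H0 : Subgroup (Equiv.Perm (Fin 8)) where
  carrier := {g | Pres pr g}
  mul_mem' := by
    intro g h hg hh a b
    exact Pres.comp (g := ⇑g) (h := ⇑h) hg hh a b
  one_mem' := by
    intro a b
    simp
  inv_mem' := by
    intro g hg a b
    have := hg (g⁻¹ a) (g⁻¹ b)
    simp only [Equiv.Perm.coe_inv, Equiv.apply_symm_apply] at this
    exact ⟨this.1.symm, this.2.symm⟩

theorem mem_H0 (g : Equiv.Perm (Fin 8)) : g ∈ H0 ↔ Pres pr g := Iff.rfl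

theorem pow_eight (g : Equiv.Perm (Fin 8)) (hg : g ∈ H0) : g ^ 8 = 1 := by
  -- step A: g² fixes each quadruple
  have hA : ∀ i : Fin 8, (g (g i)).val / 4 = i.val / 4 := by
    intro i
    have h := (hg i (g i)).2
    simp only [pr] at h
    have h1 := (g i).2
    have h2 := (g (g i)).2
    have h3 := i.2
    omega
  have hg2 : (g * g) ∈ H0 := H0.mul_mem hg hg
  -- step B: g⁴ fixes each pair
  have hB : ∀ i : Fin 8, ((g * g) ((g * g) i)).val / 2 = i.val / 2 := by
    intro i
    have h := (hg2 i ((g * g) i)).1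
    simp only [pr] at h
    have h1 := hA i
    have h2 := hA ((g * g) i)
    simp only [Equiv.Perm.mul_apply] at h h1 h2 ⊢
    have h3 := i.2
    have h4 := (g (g i)).2
    have h5 := (g (g (g (g i)))).2
    omega
  -- step C: g⁸ fixes each point
  set k : Equiv.Perm (Fin 8) := (g * g) * (g * g) with hk
  have hk1 : ∀ i : Fin 8, (k i).val / 2 = i.val / 2 := by
    intro i
    have := hB i
    simpa [hk, Equiv.Perm.mul_apply] using this
  have hC : ∀ i : Fin 8, k (k i) = i := by
    intro i
    by_cases hfix : k i = i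
    · rw [hfix, hfix]
    · have h1 := hk1 i
      have h2 := hk1 (k i)
      have h3 : (k i).val ≠ i.val := fun h => hfix (Fin.ext h)
      have h4 : (k (k i)).val ≠ (k i).val := by
        intro h
        apply hfix
        exact k.injective (Fin.ext h)
      apply Fin.ext
      omega
  have h8 : g ^ 8 = k * k := by
    rw [hk]
    simp only [pow_succ, pow_zero, one_mul, mul_assoc]
  rw [h8]
  ext i
  simp [Equiv.Perm.mul_apply, hC]

theorem isPGroup_H0 : IsPGroup 2 H0 := by
  intro g
  refine ⟨3, ?_⟩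
  apply Subtype.ext
  have := pow_eight g.1 g.2
  simpa using this

/-- The key fact: the standard structure and any of its translates share a non-trivial
automorphism. -/
theorem exists_common (x : Equiv.Perm (Fin 8)) :
    ∃ h ∈ H0, h ≠ 1 ∧ x⁻¹ * h * x ∈ H0 := by
  set L : Fin 8 → ℕ := fun i => pr (x⁻¹ i) with hLdef
  have hL4 : ∀ i, L i < 4 := by
    intro i
    simp only [hLdef, pr]
    have := (x⁻¹ i).2
    omega
  set n : ℕ := L 0 + 4 * L 1 + 16 * L 2 + 64 * L 3 + 256 * L 4 + 1024 * L 5 + 4096 * L 6 + 16384 * L 7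
    with hn
  have h0 := hL4 0
  have h1 := hL4 1
  have h2 := hL4 2
  have h3 := hL4 3
  have h4 := hL4 4
  have h5 := hL4 5
  have h6 := hL4 6
  have h7 := hL4 7
  have hn_lt : n < 65536 := by omega
  have e0 : dig2 n 0 = L 0 := by rw [dig2_eq]; norm_num; omega
  have e1 : dig2 n 1 = L 1 := by rw [dig2_eq]; norm_num; omega
  have e2 : dig2 n 2 = L 2 := by rw [dig2_eq]; norm_num; omega
  have e3 : dig2 n 3 = L 3 := by rw [dig2_eq]; norm_num; omega
  have e4 : dig2 n 4 = L 4 := by rw [dig2_eq]; norm_num; omega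
  have e5 : dig2 n 5 = L 5 := by rw [dig2_eq]; norm_num; omega
  have e6 : dig2 n 6 = L 6 := by rw [dig2_eq]; norm_num; omega
  have e7 : dig2 n 7 = L 7 := by rw [dig2_eq]; norm_num; omega
  have hdig : ∀ i : Fin 8, dig2 n i.val = L i := by
    intro i
    fin_cases i
    · exact e0
    · exact e1
    · exact e2
    · exact e3
    · exact e4
    · exact e5
    · exact e6
    · exact e7
  have hcheck := checkN_true n hn_lt
  have hbal : balB n = true := by
    unfold balB
    rw [Nat.beq_eq]
    rw [e0, e1, e2, e3, e4, e5, e6, e7]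
    have hsum : ∑ i : Fin 8, 8 ^ (L i) = ∑ i : Fin 8, 8 ^ (pr i) :=
      Equiv.sum_comp (x⁻¹ : Equiv.Perm (Fin 8)) (fun i => 8 ^ (pr i))
    have hsum2 : ∑ i : Fin 8, 8 ^ (pr i) = 1170 := by decide
    rw [hsum2, Fin.sum_univ_eight] at hsum
    exact hsum
  simp only [checkN, hbal, Bool.not_true, Bool.false_or, List.any_eq_true] at hcheck
  obtain ⟨c, hc, hpres⟩ := hcheck
  have hP : Pres L (hfun c) := pres_of_presB n c L hdig hpres
  obtain ⟨hinv, ⟨i₀, hi₀⟩, hpr⟩ := good_of_mem c hc
  set h : Equiv.Perm (Fin 8) := ⟨hfun c, hfun c, hinv, hinv⟩ with hh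
  have hh_apply : ∀ i, h i = hfun c i := fun i => rfl
  refine ⟨h, hpr, ?_, ?_⟩
  · intro h1
    apply hi₀
    rw [← hh_apply, h1]
    rfl
  · intro a b
    have := hP (x a) (x b)
    simp only [hLdef, Equiv.Perm.coe_inv, Equiv.symm_apply_apply] at this
    exact this

/-- In the symmetric group on 8 letters any two Sylow 2-subgroups have non-trivial intersection: for a Sylow 2-subgroup H and every element x, H ∩ xHx⁻¹ ≠ 1. -/
theorem result (H : Sylow 2 (Equiv.Perm (Fin 8))) (x : Equiv.Perm (Fin 8)) :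
    (H : Subgroup (Equiv.Perm (Fin 8))) ⊓ (H : Subgroup (Equiv.Perm (Fin 8))).map (MulAut.conj x).toMonoidHom ≠ ⊥ := by
  obtain ⟨Q, hQ⟩ := isPGroup_H0.exists_le_sylow
  obtain ⟨c, hc⟩ := MulAction.exists_smul_eq (Equiv.Perm (Fin 8)) H Q
  -- every element of H0 is conjugate by c⁻¹ into H
  have hconj : ∀ h ∈ H0, c⁻¹ * h * c ∈ (H : Subgroup (Equiv.Perm (Fin 8))) := by
    intro h hh
    have h1 : h ∈ (Q : Subgroup (Equiv.Perm (Fin 8))) := hQ hh
    rw [← hc, Sylow.coe_subgroup_smul, Subgroup.mem_pointwise_smul_iff_inv_smul_mem] at h1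
    simpa [MulAut.smul_def, MulAut.conj_apply] using h1
  obtain ⟨h, hh, hne, hh'⟩ := exists_common (c * x * c⁻¹)
  intro hbot
  have hk : c⁻¹ * h * c ∈ (H : Subgroup (Equiv.Perm (Fin 8))) ⊓
      (H : Subgroup (Equiv.Perm (Fin 8))).map (MulAut.conj x).toMonoidHom := by
    refine ⟨hconj h hh, ?_⟩
    refine ⟨c⁻¹ * ((c * x * c⁻¹)⁻¹ * h * (c * x * c⁻¹)) * c, hconj _ hh', ?_⟩
    simp only [MulEquiv.coe_toMonoidHom, MulAut.conj_apply]
    group
  rw [hbot, Subgroup.mem_bot] at hk
  apply hne
  have : h = c * (c⁻¹ * h * c) * c⁻¹ := by group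
  rw [this, hk]
  group

end Cfsg.Agent.S5763
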