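import Cfsg.Statements.S5885
-- import your own Cfsg.Agent.* helpers here

set_option autoImplicit false
open Cfsg

namespace Cfsg.Agent.S5885

open scoped Pointwise

/-- Every 3-cycle of `Ω` is induced by an element of `G`. -/
def Lifts3 (G : Type*) [Group G] (Ω : Type*) [MulAction G Ω] : Prop :=
  ∀ x y z : Ω, x ≠ y → y ≠ z → x ≠ z →
    ∃ g : G, g • x = y ∧ g • y = z ∧ g • z = x ∧ ∀ ω, ω ≠ x → ω ≠ y → ω ≠ z → g • ω = ω

theorem lifts3_of_hA {G : Type*} [Group G] [Finite G] (n : ℕ)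
    (hA : ∀ P : Subgroup (Equiv.Perm (Fin n)), MulAction.IsPreprimitive P (Fin n) → alternatingGroup (Fin n) ≤ P)
    (M : Subgroup G) (hM : IsCoatom M) (hn : M.index = n) : Lifts3 G (G ⧸ M) := by
  classical
  haveI : Fintype (G ⧸ M) := Fintype.ofFinite _
  have hcard : Nat.card (G ⧸ M) = n := hn
  let e : (G ⧸ M) ≃ Fin n := Finite.equivFinOfCardEq hcard
  haveI : Nontrivial (G ⧸ M) := by
    rw [← Finite.one_lt_card_iff_nontrivial]
    have h1 : M.index ≠ 1 := fun h => hM.1 (Subgroup.index_eq_one.mp h)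
    have h0 : M.index ≠ 0 := Subgroup.index_ne_zero_of_finite
    change 1 < M.index
    omega
  haveI hprim : MulAction.IsPreprimitive G (G ⧸ M) := by
    rw [← MulAction.isCoatom_stabilizer_iff_preprimitive G ((1 : G) : G ⧸ M), MulAction.stabilizer_quotient]
    exact hM
  let c : Equiv.Perm (G ⧸ M) ≃* Equiv.Perm (Fin n) := e.permCongrHom
  let ρ : G →* Equiv.Perm (Fin n) := c.toMonoidHom.comp (MulAction.toPermHom G (G ⧸ M))
  let P : Subgroup (Equiv.Perm (Fin n)) := ρ.range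
  have hρ : ∀ (g : G) (ω : G ⧸ M), ρ g (e ω) = e (g • ω) := by
    intro g ω
    simp [ρ, c, Equiv.permCongrHom]
  let φ : G → P := fun g => ⟨ρ g, g, rfl⟩
  let f : (G ⧸ M) →ₑ[φ] Fin n :=
    { toFun := e
      map_smul' := fun g ω => (hρ g ω).symm }
  haveI : MulAction.IsPreprimitive P (Fin n) :=
    MulAction.IsPreprimitive.of_surjective (f := f) e.surjective
  have hAP := hA P inferInstance
  have hlift : ∀ σ : Equiv.Perm (G ⧸ M), Equiv.Perm.sign σ = 1 → ∃ g : G, ∀ ω, g • ω = σ ω := by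
    intro σ hσ
    have h1 : c σ ∈ alternatingGroup (Fin n) := by
      rw [Equiv.Perm.mem_alternatingGroup]
      exact (Equiv.Perm.sign_permCongr e σ).trans hσ
    obtain ⟨g, hg⟩ := hAP h1
    refine ⟨g, fun ω => ?_⟩
    have : MulAction.toPermHom G (G ⧸ M) g = σ := c.injective hg
    rw [← this]; rfl
  intro x y z hxy hyz hxz
  obtain ⟨g, hg⟩ := hlift (Equiv.swap x y * Equiv.swap y z) (by
    rw [map_mul, Equiv.Perm.sign_swap hxy, Equiv.Perm.sign_swap hyz]; rfl)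
  refine ⟨g, ?_, ?_, ?_, ?_⟩
  · rw [hg, Equiv.Perm.mul_apply, Equiv.swap_apply_of_ne_of_ne hxy hxz, Equiv.swap_apply_left]
  · rw [hg, Equiv.Perm.mul_apply, Equiv.swap_apply_left, Equiv.swap_apply_of_ne_of_ne hxz.symm hyz.symm]
  · rw [hg, Equiv.Perm.mul_apply, Equiv.swap_apply_right, Equiv.swap_apply_right]
  · intro ω h1 h2 h3
    rw [hg, Equiv.Perm.mul_apply, Equiv.swap_apply_of_ne_of_ne h2 h3, Equiv.swap_apply_of_ne_of_ne h1 h2]


theorem core {G : Type*} [Group G] {Ω : Type*} [MulAction G Ω] [Finite Ω] [MulAction.IsPretransitive G Ω]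
    (h3 : Lifts3 G Ω) (hodd : Odd (Nat.card Ω)) (α : Ω) (M H K L : Subgroup G)
    (hMα : ∀ g : G, g ∈ M ↔ g • α = α) (hHeq : H = K ⊓ M)
    (hmax : ∀ X : Subgroup G, H ≤ X → X ≤ M → X ≤ H ∨ M ≤ X) (hK : IsCoatom K)
    (hHL : H ≤ L) (hLK : L ≤ K) (hLH : ¬ L ≤ H) : K ≤ L := by
  classical
  by_contra hKL
  obtain ⟨k₀, hk₀K, hk₀L⟩ := SetLike.not_le_iff_exists.mp hKL
  obtain ⟨l₀, hl₀L, hl₀H⟩ := SetLike.not_le_iff_exists.mp hLH
  have hHK : ∀ h ∈ H, h ∈ K := fun h hh => (hHeq ▸ hh : h ∈ K ⊓ M).1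
  have hHM : ∀ h ∈ H, h ∈ M := fun h hh => (hHeq ▸ hh : h ∈ K ⊓ M).2
  have hKMH : ∀ g, g ∈ K → g ∈ M → g ∈ H := fun g h1 h2 => by rw [hHeq]; exact ⟨h1, h2⟩
  obtain ⟨B, hB⟩ : ∃ B : Set Ω, B = {ω | ∃ l ∈ L, l • α = ω} := ⟨_, rfl⟩
  have hBmem : ∀ ω, ω ∈ B ↔ ∃ l ∈ L, l • α = ω := fun ω => by rw [hB]; rfl
  have hαB : α ∈ B := (hBmem α).mpr ⟨1, L.one_mem, one_smul _ _⟩
  have F1 : ∀ k ∈ K, k • α ∈ B → k ∈ L := by
    intro k hk hkB
    obtain ⟨l, hl, hlk⟩ := (hBmem _).mp hkB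
    have h1 : (l⁻¹ * k) • α = α := by rw [mul_smul, ← hlk, inv_smul_smul]
    have h2 : l⁻¹ * k ∈ H := hKMH _ (K.mul_mem (K.inv_mem (hLK hl)) hk) ((hMα _).mpr h1)
    have e : k = l * (l⁻¹ * k) := by group
    rw [e]; exact L.mul_mem hl (hHL h2)
  have F2' : ∀ l ∈ L, ∀ b ∈ B, l • b ∈ B := by
    intro l hl b hb
    obtain ⟨l', hl', rfl⟩ := (hBmem _).mp hb
    exact (hBmem _).mpr ⟨l * l', L.mul_mem hl hl', mul_smul _ _ _⟩
  have F2 : ∀ k ∈ K, ∀ b ∈ B, k • b ∈ B → k ∈ L := by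
    intro k hk b hb hkb
    obtain ⟨l, hl, rfl⟩ := (hBmem _).mp hb
    rw [← mul_smul] at hkb
    have h1 := F1 (k * l) (K.mul_mem hk (hLK hl)) hkb
    have e : k = (k * l) * l⁻¹ := by group
    rw [e]; exact L.mul_mem h1 (L.inv_mem hl)
  obtain ⟨β, hβ⟩ : ∃ β : Ω, l₀ • α = β := ⟨_, rfl⟩
  have hβB : β ∈ B := (hBmem _).mpr ⟨l₀, hl₀L, hβ⟩
  have hβα : β ≠ α := by
    intro h
    exact hl₀H (hKMH _ (hLK hl₀L) ((hMα _).mpr (hβ.trans h)))
  obtain ⟨γ, hγ⟩ : ∃ γ : Ω, k₀ • α = γ := ⟨_, rfl⟩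
  obtain ⟨γ', hγ'⟩ : ∃ γ' : Ω, k₀ • β = γ' := ⟨_, rfl⟩
  have hγB : γ ∉ B := fun h => hk₀L (F1 k₀ hk₀K (hγ ▸ h))
  have hγ'B : γ' ∉ B := fun h => hk₀L (F2 k₀ hk₀K β hβB (hγ' ▸ h))
  have hγγ' : γ ≠ γ' := by
    intro h
    rw [← hγ, ← hγ'] at h
    exact hβα ((MulAction.injective k₀) h).symm
  have hγα : γ ≠ α := fun h => hγB (h ▸ hαB)
  have hγβ : γ ≠ β := fun h => hγB (h ▸ hβB)
  have hγ'α : γ' ≠ α := fun h => hγ'B (h ▸ hαB)
  have hγ'β : γ' ≠ β := fun h => hγ'B (h ▸ hβB)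
  by_cases hΔ : ∀ ω : Ω, ∃ k ∈ K, k • α = ω
  · -- `K` is transitive
    have hH_MB : H ≤ M ⊓ MulAction.stabilizer G B := by
      intro h hh
      refine Subgroup.mem_inf.mpr ⟨hHM h hh, ?_⟩
      rw [MulAction.mem_stabilizer_set]
      intro b
      constructor
      · intro hb
        have := F2' h⁻¹ (L.inv_mem (hHL hh)) _ hb
        rwa [inv_smul_smul] at this
      · exact F2' h (hHL hh) b
    rcases hmax (M ⊓ MulAction.stabilizer G B) hH_MB inf_le_left with h1 | h1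
    · -- third block
      have hz : ∃ z : Ω, z ∉ B ∧ ∀ b ∈ B, z ≠ k₀ • b := by
        by_contra hcon
        push Not at hcon
        have hcover : (Set.univ : Set Ω) = B ∪ (fun b => k₀ • b) '' B := by
          ext z
          simp only [Set.mem_univ, Set.mem_union, Set.mem_image, true_iff]
          by_cases hzB : z ∈ B
          · exact Or.inl hzB
          · obtain ⟨b, hb, hzb⟩ := hcon z hzB
            exact Or.inr ⟨b, hb, hzb.symm⟩
        have hdisj : Disjoint B ((fun b => k₀ • b) '' B) := by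
          rw [Set.disjoint_left]
          rintro x hx ⟨b, hb, rfl⟩
          exact hk₀L (F2 k₀ hk₀K b hb hx)
        have hcard : Nat.card Ω = B.ncard + B.ncard := by
          rw [← Set.ncard_univ, hcover, Set.ncard_union_eq hdisj (Set.toFinite _) (Set.toFinite _),
            Set.ncard_image_of_injective _ (MulAction.injective k₀)]
        rw [hcard] at hodd
        exact (Nat.not_even_iff_odd.mpr hodd) ⟨_, rfl⟩
      obtain ⟨z, hzB, hzk⟩ := hz
      have hzγ : z ≠ γ := hγ ▸ hzk α hαB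
      have hzγ' : z ≠ γ' := hγ' ▸ hzk β hβB
      obtain ⟨g, hg1, hg2, hg3, hg4⟩ := h3 γ γ' z hγγ' hzγ'.symm hzγ.symm
      have hgfix : ∀ b ∈ B, g • b = b := by
        intro b hb
        apply hg4
        · rintro rfl; exact hγB hb
        · rintro rfl; exact hγ'B hb
        · rintro rfl; exact hzB hb
      have hgMB : g ∈ M ⊓ MulAction.stabilizer G B := by
        refine Subgroup.mem_inf.mpr ⟨(hMα g).mpr (hgfix α hαB), ?_⟩
        rw [MulAction.mem_stabilizer_set]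
        intro b
        constructor
        · intro hb
          by_cases hb1 : b = γ
          · rw [hb1, hg1] at hb; exact absurd hb hγ'B
          by_cases hb2 : b = γ'
          · rw [hb2, hg2] at hb; exact absurd hb hzB
          by_cases hb3 : b = z
          · rw [hb3, hg3] at hb; exact absurd hb hγB
          rwa [hg4 b hb1 hb2 hb3] at hb
        · intro hb; rw [hgfix b hb]; exact hb
      have hgH : g ∈ H := h1 hgMB
      have hgK : g ∈ K := hHK g hgH
      have hc : k₀⁻¹ * g * k₀ ∈ K := K.mul_mem (K.mul_mem (K.inv_mem hk₀K) hgK) hk₀K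
      have hcα : (k₀⁻¹ * g * k₀) • α = β := by
        rw [mul_smul, mul_smul, hγ, hg1, ← hγ', inv_smul_smul]
      have hcL : k₀⁻¹ * g * k₀ ∈ L := F1 _ hc (hcα ▸ hβB)
      have h5 := F2' _ hcL β hβB
      rw [mul_smul, mul_smul, hγ', hg2] at h5
      apply hzk (k₀⁻¹ • z) h5
      rw [smul_inv_smul]
    · -- `M` stabilises `B`
      obtain ⟨g, hg1, hg2, hg3, hg4⟩ := h3 β γ γ' hγβ.symm hγγ' hγ'β.symm
      have hgα : g • α = α := hg4 α hβα.symm hγα.symm hγ'α.symm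
      have hgM : g ∈ M := (hMα g).mpr hgα
      have hgB := (Subgroup.mem_inf.mp (h1 hgM)).2
      rw [MulAction.mem_stabilizer_set] at hgB
      have h5 := (hgB β).mpr hβB
      rw [hg1] at h5
      exact hγB h5
  · -- `K` is intransitive
    push Not at hΔ
    obtain ⟨ω₀, hω₀⟩ := hΔ
    obtain ⟨Δ, hΔdef⟩ : ∃ Δ : Set Ω, Δ = {ω | ∃ k ∈ K, k • α = ω} := ⟨_, rfl⟩
    have hΔmem : ∀ ω, ω ∈ Δ ↔ ∃ k ∈ K, k • α = ω := fun ω => by rw [hΔdef]; rfl
    have hKS : K ≤ MulAction.stabilizer G Δ := by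
      intro k hk
      rw [MulAction.mem_stabilizer_set]
      intro b
      constructor
      · intro hb
        obtain ⟨k', hk', h⟩ := (hΔmem _).mp hb
        refine (hΔmem _).mpr ⟨k⁻¹ * k', K.mul_mem (K.inv_mem hk) hk', ?_⟩
        rw [mul_smul, h, inv_smul_smul]
      · intro hb
        obtain ⟨k', hk', rfl⟩ := (hΔmem _).mp hb
        exact (hΔmem _).mpr ⟨k * k', K.mul_mem hk hk', mul_smul _ _ _⟩
    have hSne : MulAction.stabilizer G Δ ≠ ⊤ := by
      intro h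
      obtain ⟨g, hg⟩ := MulAction.exists_smul_eq G α ω₀
      have hgS : g ∈ MulAction.stabilizer G Δ := h ▸ Subgroup.mem_top g
      rw [MulAction.mem_stabilizer_set] at hgS
      have hα : α ∈ Δ := (hΔmem _).mpr ⟨1, K.one_mem, one_smul _ _⟩
      obtain ⟨k, hk, hk'⟩ := (hΔmem _).mp ((hgS α).mpr hα)
      exact hω₀ k hk (hk'.trans hg)
    have hSK : MulAction.stabilizer G Δ = K := (hK.le_iff_eq hSne).mp hKS
    obtain ⟨g, hg1, hg2, hg3, hg4⟩ := h3 β γ γ' hγβ.symm hγγ' hγ'β.symm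
    have hβΔ : β ∈ Δ := (hΔmem _).mpr ⟨l₀, hLK hl₀L, hβ⟩
    have hγΔ : γ ∈ Δ := (hΔmem _).mpr ⟨k₀, hk₀K, hγ⟩
    have hγ'Δ : γ' ∈ Δ := (hΔmem _).mpr ⟨k₀ * l₀, K.mul_mem hk₀K (hLK hl₀L), by rw [mul_smul, hβ, hγ']⟩
    have hgK : g ∈ K := by
      rw [← hSK, MulAction.mem_stabilizer_set]
      intro b
      by_cases hb1 : b = β
      · rw [hb1, hg1]; exact ⟨fun _ => hβΔ, fun _ => hγΔ⟩
      by_cases hb2 : b = γ
      · rw [hb2, hg2]; exact ⟨fun _ => hγΔ, fun _ => hγ'Δ⟩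
      by_cases hb3 : b = γ'
      · rw [hb3, hg3]; exact ⟨fun _ => hγ'Δ, fun _ => hβΔ⟩
      rw [hg4 b hb1 hb2 hb3]
    have hgα : g • α = α := hg4 α hβα.symm hγα.symm hγ'α.symm
    have hgL : g ∈ L := F2 g hgK α hαB (hgα.symm ▸ hαB)
    have h5 := F2' g hgL β hβB
    rw [hg1] at h5
    exact hγB h5


/-- Let n be an odd positive integer such that every primitive permutation group of degree n contains the alternating group (so the symmetric and alternating groups are the only primitive groups of degree n). Let G be a finite group, M a maximal subgroup of G of index n, and H a maximal subgroup of M. Then H is a second maximal subgroup of G: H is maximal in every maximal subgroup K of G containing H. -/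
theorem result {G : Type*} [Group G]
    [Finite G] (n : ℕ) (hodd : Odd n)
    (hA : ∀ P : Subgroup (Equiv.Perm (Fin n)), MulAction.IsPreprimitive P (Fin n) → alternatingGroup (Fin n) ≤ P)
    (M : Subgroup G) (hM : IsCoatom M) (hn : M.index = n) (H : Subgroup G) (hHM : H ≤ M)
    (hmax : IsCoatom (H.subgroupOf M)) (K : Subgroup G) (hK : IsCoatom K) (hHK : H ≤ K) :
    IsCoatom (H.subgroupOf K) := by
  classical
  by_cases hKM : K = M
  · subst hKM; exact hmax
  have hMK : ¬ M ≤ K := fun h => hKM ((hM.le_iff_eq hK.1).mp h)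
  have hKM' : ¬ K ≤ M := fun h => hKM ((hK.le_iff_eq hM.1).mp h).symm
  have hmax' : ∀ X : Subgroup G, H ≤ X → X ≤ M → X ≤ H ∨ M ≤ X := by
    intro X hHX hXM
    have h1 : H.subgroupOf M ≤ X.subgroupOf M := fun x hx => hHX hx
    rcases hmax.le_iff.mp h1 with h2 | h2
    · right; exact Subgroup.subgroupOf_eq_top.mp h2
    · left
      intro x hx
      have h3 : (⟨x, hXM hx⟩ : M) ∈ X.subgroupOf M := hx
      rw [h2] at h3
      exact h3
  have hHeq : H = K ⊓ M := by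
    apply le_antisymm (le_inf hHK hHM)
    rcases hmax' (K ⊓ M) (le_inf hHK hHM) inf_le_right with h | h
    · exact h
    · exact absurd (h.trans inf_le_left) hMK
  have h3 : Lifts3 G (G ⧸ M) := lifts3_of_hA n hA M hM hn
  have hodd' : Odd (Nat.card (G ⧸ M)) := by
    have : Nat.card (G ⧸ M) = n := hn
    rw [this]; exact hodd
  have hMα : ∀ g : G, g ∈ M ↔ g • ((1 : G) : G ⧸ M) = ((1 : G) : G ⧸ M) := by
    intro g
    rw [← MulAction.mem_stabilizer_iff, MulAction.stabilizer_quotient]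
  refine ⟨?_, ?_⟩
  · rw [Ne, Subgroup.subgroupOf_eq_top]
    intro h
    exact hKM' (h.trans hHM)
  · intro b hb
    rw [eq_top_iff]
    have hL1 : H ≤ b.map K.subtype := by
      intro x hx
      exact ⟨⟨x, hHK hx⟩, hb.le (show (⟨x, hHK hx⟩ : K) ∈ H.subgroupOf K from hx), rfl⟩
    have hL2 : b.map K.subtype ≤ K := by
      rintro x ⟨y, -, rfl⟩
      exact y.2
    have hL3 : ¬ b.map K.subtype ≤ H := by
      intro h
      apply hb.not_ge
      intro x hx
      exact h ⟨x, hx, rfl⟩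
    have hKL := core h3 hodd' ((1 : G) : G ⧸ M) M H K (b.map K.subtype) hMα hHeq hmax' hK hL1 hL2 hL3
    intro x _
    obtain ⟨y, hy, hyx⟩ := hKL x.2
    have hxy : y = x := Subtype.ext hyx
    exact hxy ▸ hy

end Cfsg.Agent.S5885
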