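import Cfsg.Statements.S5887
-- import your own Cfsg.Agent.* helpers here

set_option autoImplicit false
open Cfsg

namespace Cfsg.Agent.S5887

open Matrix

variable {F : Type*} [Field F] {n : ℕ}

/-- A subalgebra of the matrix algebra that is commutative and in which every non-zero element is invertible. -/
def FieldLike (A : Subalgebra F (Matrix (Fin n) (Fin n) F)) : Prop :=
  (∀ x ∈ A, ∀ y ∈ A, x * y = y * x) ∧ (∀ x ∈ A, x ≠ 0 → ∃ y ∈ A, x * y = 1)

theorem FieldLike.isField {A : Subalgebra F (Matrix (Fin n) (Fin n) F)} (hA : FieldLike A)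
    [Nontrivial A] : IsField A where
  exists_pair_ne := ⟨0, 1, zero_ne_one⟩
  mul_comm := fun x y => Subtype.ext (hA.1 x x.2 y y.2)
  mul_inv_cancel := fun {a} ha => by
    obtain ⟨y, hy, hxy⟩ := hA.2 a a.2 (fun h => ha (Subtype.ext h))
    exact ⟨⟨y, hy⟩, Subtype.ext hxy⟩

/-- a non-zero element of a field-like subalgebra kills no non-zero vector -/
theorem FieldLike.eq_zero_of_mulVec_eq_zero {A : Subalgebra F (Matrix (Fin n) (Fin n) F)} (hA : FieldLike A)
    {c : Matrix (Fin n) (Fin n) F} (hc : c ∈ A) {v : Fin n → F} (hv : v ≠ 0) (hcv : c *ᵥ v = 0) : c = 0 := by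
  by_contra hc0
  obtain ⟨y, -, hxy⟩ := hA.2 c hc hc0
  have hyx : y * c = 1 := mul_eq_one_comm.mp hxy
  apply hv
  calc v = (y * c) *ᵥ v := by rw [hyx, Matrix.one_mulVec]
    _ = y *ᵥ (c *ᵥ v) := by rw [Matrix.mulVec_mulVec]
    _ = 0 := by rw [hcv, Matrix.mulVec_zero]

theorem exists_centralizing [Fintype F] (A B : Subalgebra F (Matrix (Fin n) (Fin n) F)) (hA : FieldLike A)
    (hB : FieldLike B) (hAB : A ≤ B) (hne : A ≠ B) (hcard : Nat.card A ^ 2 < Fintype.card F ^ n) :
    ∃ g : GL (Fin n) F, Matrix.GeneralLinearGroup.det g = 1 ∧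
      (∀ k ∈ A, (g : Matrix (Fin n) (Fin n) F) * k = k * (g : Matrix (Fin n) (Fin n) F)) ∧
      ¬ (∀ k : Matrix (Fin n) (Fin n) F, k ∈ B ↔
        (g : Matrix (Fin n) (Fin n) F) * k * ((g⁻¹ : GL (Fin n) F) : Matrix (Fin n) (Fin n) F) ∈ B) := by
  classical
  have hn : 0 < n := by
    by_contra h0
    have : n = 0 := by omega
    subst this
    have h1 : 0 < Nat.card A := Nat.card_pos
    have : 1 ≤ Nat.card A ^ 2 := Nat.one_le_pow _ _ h1
    simp at hcard
  haveI : NeZero n := ⟨by omega⟩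
  haveI : Nontrivial A := inferInstance
  letI : Field A := (hA.isField).toField
  obtain ⟨a, haB, haA⟩ := SetLike.exists_of_lt (lt_of_le_of_ne hAB hne)
  obtain ⟨v, hv⟩ := exists_ne (0 : Fin n → F)
  set w : Fin n → F := a *ᵥ v with hw
  set P : Submodule A (Fin n → F) := Submodule.span A {v, w} with hP
  obtain ⟨u, hu⟩ : ∃ u : Fin n → F, u ∉ P := by
    by_contra hall
    push Not at hall
    have hsurj : Function.Surjective (fun kk : A × A => kk.1 • v + kk.2 • w) := by
      intro x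
      have hx := hall x
      rw [hP, Submodule.mem_span_pair] at hx
      obtain ⟨k, k', hk⟩ := hx
      exact ⟨(k, k'), hk⟩
    have h1 := Nat.card_le_card_of_surjective _ hsurj
    rw [Nat.card_prod, Nat.card_eq_fintype_card (α := Fin n → F), Fintype.card_pi_const] at h1
    rw [sq] at hcard
    omega
  have hproj : Module.Projective A ((Fin n → F) ⧸ P) := inferInstance
  obtain ⟨φ, hφu, hφP⟩ := Submodule.exists_dual_map_eq_bot_of_notMem hu hproj
  have hφ0 : ∀ x ∈ P, φ x = 0 := by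
    intro x hx
    have : φ x ∈ P.map φ := Submodule.mem_map_of_mem hx
    rw [hφP] at this
    simpa using this
  have hφv : φ v = 0 := hφ0 v (Submodule.subset_span (by simp))
  have hφw : φ w = 0 := hφ0 w (Submodule.subset_span (by simp))
  -- the F-linear map x ↦ φ x • v
  let N : (Fin n → F) →ₗ[F] (Fin n → F) :=
    { toFun := fun x => (φ x) • v
      map_add' := fun x y => by rw [map_add, add_smul]
      map_smul' := fun c x => by
        rw [LinearMap.map_smul_of_tower, RingHom.id_apply, smul_assoc] }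
  set Nm : Matrix (Fin n) (Fin n) F := LinearMap.toMatrix' N with hNmdef
  have hNm : ∀ x, Nm *ᵥ x = (φ x) • v := fun x => by
    rw [← Matrix.toLin'_apply, hNmdef, Matrix.toLin'_toMatrix']; rfl
  have hNN : Nm * Nm = 0 := by
    rw [Matrix.ext_iff_mulVec]
    intro x
    rw [← Matrix.mulVec_mulVec, hNm, hNm, map_smul, hφv, smul_zero, zero_smul, Matrix.zero_mulVec]
  have h1 : (1 + Nm) * (1 - Nm) = 1 := by
    calc (1 + Nm) * (1 - Nm) = 1 - Nm * Nm := by noncomm_ring
      _ = 1 := by rw [hNN, sub_zero]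
  have h2 : (1 - Nm) * (1 + Nm) = 1 := by
    calc (1 - Nm) * (1 + Nm) = 1 - Nm * Nm := by noncomm_ring
      _ = 1 := by rw [hNN, sub_zero]
  have hcomm : ∀ k ∈ A, Nm * k = k * Nm := by
    intro k hk
    rw [Matrix.ext_iff_mulVec]
    intro x
    rw [← Matrix.mulVec_mulVec, ← Matrix.mulVec_mulVec, hNm, hNm]
    have e1 : k *ᵥ x = (⟨k, hk⟩ : A) • x := rfl
    rw [e1, map_smul, smul_eq_mul, mul_smul]
    rfl
  refine ⟨⟨1 + Nm, 1 - Nm, h1, h2⟩, ?_, ?_, ?_⟩
  · -- determinant one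
    obtain ⟨p, hp⟩ := CharP.exists F
    haveI : Fact p.Prime := ⟨CharP.char_is_prime F p⟩
    haveI : CharP (Matrix (Fin n) (Fin n) F) p := Matrix.charP p
    have hpow : (1 + Nm) ^ p = 1 := by
      rw [add_pow_char_of_commute _ (Commute.one_left _), one_pow,
        pow_eq_zero_of_le (Fact.out : p.Prime).two_le (by rw [sq, hNN]), add_zero]
    have hd : (Matrix.det (1 + Nm)) ^ p = 1 := by rw [← Matrix.det_pow, hpow, Matrix.det_one]
    have hd1 : Matrix.det (1 + Nm) = 1 := by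
      apply frobenius_inj F p
      rw [frobenius_def, frobenius_def, hd, one_pow]
    apply Units.ext
    exact hd1
  · intro k hk
    show (1 + Nm) * k = k * (1 + Nm)
    rw [add_mul, mul_add, hcomm k hk, one_mul, mul_one]
  · intro hnorm
    have hcB : (1 + Nm) * a * (1 - Nm) - a ∈ B := B.sub_mem ((hnorm a).mp haB) haB
    have hcv : ((1 + Nm) * a * (1 - Nm) - a) *ᵥ v = 0 := by
      rw [Matrix.sub_mulVec, ← Matrix.mulVec_mulVec, ← Matrix.mulVec_mulVec, Matrix.sub_mulVec,
        Matrix.one_mulVec, hNm, hφv, zero_smul, sub_zero, ← hw, Matrix.add_mulVec, Matrix.one_mulVec,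
        hNm, hφw, zero_smul, add_zero, sub_self]
    have hc0 := hB.eq_zero_of_mulVec_eq_zero hcB hv hcv
    have hNa : Nm * a = a * Nm := by
      have e : (1 + Nm) * a * (1 - Nm) = a := sub_eq_zero.mp hc0
      have e2 : (1 + Nm) * a = a * (1 + Nm) := by
        calc (1 + Nm) * a = (1 + Nm) * a * ((1 - Nm) * (1 + Nm)) := by rw [h2, mul_one]
          _ = ((1 + Nm) * a * (1 - Nm)) * (1 + Nm) := by rw [mul_assoc, mul_assoc, mul_assoc]
          _ = a * (1 + Nm) := by rw [e]
      rw [add_mul, mul_add, one_mul, mul_one] at e2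
      exact add_left_cancel e2
    have hφuB : ((φ u : A) : Matrix (Fin n) (Fin n) F) ∈ B := hAB (φ u).2
    have e3 : (φ (a *ᵥ u)) • v = (φ u) • w := by
      have := congrArg (fun M : Matrix (Fin n) (Fin n) F => M *ᵥ u) hNa
      rw [← Matrix.mulVec_mulVec, ← Matrix.mulVec_mulVec, hNm, hNm] at this
      rw [this]
      show a *ᵥ (((φ u : A) : Matrix (Fin n) (Fin n) F) *ᵥ v) = ((φ u : A) : Matrix (Fin n) (Fin n) F) *ᵥ w
      rw [hw, Matrix.mulVec_mulVec, Matrix.mulVec_mulVec, hB.1 a haB _ hφuB]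
    set k : A := (φ u)⁻¹ * φ (a *ᵥ u) with hk
    have e4 : k • v = w := by
      rw [hk, mul_smul, e3, inv_smul_smul₀ hφu]
    have e5 : (a - (k : Matrix (Fin n) (Fin n) F)) *ᵥ v = 0 := by
      rw [Matrix.sub_mulVec, ← hw]
      have : (k : Matrix (Fin n) (Fin n) F) *ᵥ v = w := e4
      rw [this, sub_self]
    have e6 := hB.eq_zero_of_mulVec_eq_zero (B.sub_mem haB (hAB k.2)) hv e5
    apply haA
    rw [sub_eq_zero.mp e6]
    exact k.2


/-- The elements of a commutative subalgebra fixed by `x ↦ x ^ (|F| ^ s)`. -/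
def fixSub [Fintype F] [NeZero n] (K : Subalgebra F (Matrix (Fin n) (Fin n) F))
    (hK : ∀ x ∈ K, ∀ y ∈ K, x * y = y * x) (s : ℕ) : Subalgebra F (Matrix (Fin n) (Fin n) F) where
  carrier := {x | x ∈ K ∧ x ^ (Fintype.card F ^ s) = x}
  mul_mem' := by
    rintro x y ⟨hx, hx'⟩ ⟨hy, hy'⟩
    refine ⟨K.mul_mem hx hy, ?_⟩
    rw [(show Commute x y from hK x hx y hy).mul_pow, hx', hy']
  one_mem' := ⟨K.one_mem, one_pow _⟩
  add_mem' := by
    rintro x y ⟨hx, hx'⟩ ⟨hy, hy'⟩
    refine ⟨K.add_mem hx hy, ?_⟩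
    obtain ⟨p, hp⟩ := CharP.exists F
    obtain ⟨e, hpp, hq⟩ := FiniteField.card F p
    haveI : Fact p.Prime := ⟨hpp⟩
    haveI : CharP (Matrix (Fin n) (Fin n) F) p := Matrix.charP p
    have hxy : Commute x y := hK x hx y hy
    have e1 : Fintype.card F ^ s = p ^ ((e : ℕ) * s) := by rw [hq, pow_mul]
    rw [e1] at hx' hy' ⊢
    rw [add_pow_char_pow_of_commute _ _ hxy, hx', hy']
  zero_mem' := ⟨K.zero_mem, zero_pow (pow_ne_zero _ Fintype.card_ne_zero)⟩
  algebraMap_mem' := fun c => ⟨K.algebraMap_mem c, by rw [← map_pow, FiniteField.pow_card_pow]⟩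

theorem mem_fixSub [Fintype F] [NeZero n] {K : Subalgebra F (Matrix (Fin n) (Fin n) F)}
    {hK : ∀ x ∈ K, ∀ y ∈ K, x * y = y * x} {s : ℕ} {x : Matrix (Fin n) (Fin n) F} :
    x ∈ fixSub K hK s ↔ x ∈ K ∧ x ^ (Fintype.card F ^ s) = x := Iff.rfl

theorem fixSub_le [Fintype F] [NeZero n] (K : Subalgebra F (Matrix (Fin n) (Fin n) F))
    (hK : ∀ x ∈ K, ∀ y ∈ K, x * y = y * x) (s : ℕ) : fixSub K hK s ≤ K := fun _ hx => hx.1

theorem fieldLike_fixSub [Fintype F] [NeZero n] (K : Subalgebra F (Matrix (Fin n) (Fin n) F))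
    (hK : FieldLike K) (s : ℕ) : FieldLike (fixSub K hK.1 s) := by
  refine ⟨fun x hx y hy => hK.1 x hx.1 y hy.1, fun x hx hx0 => ?_⟩
  obtain ⟨y, hy, hxy⟩ := hK.2 x hx.1 hx0
  refine ⟨y, ⟨hy, ?_⟩, hxy⟩
  have hyx : y * x = 1 := by rw [← hK.1 x hx.1 y hy]; exact hxy
  have hc : Commute x y := hK.1 x hx.1 y hy
  have e1 : x * y ^ (Fintype.card F ^ s) = 1 := by
    have := hc.mul_pow (Fintype.card F ^ s)
    rw [hxy, one_pow, hx.2] at this
    exact this.symm
  calc y ^ (Fintype.card F ^ s) = (y * x) * y ^ (Fintype.card F ^ s) := by rw [hyx, one_mul]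
    _ = y * (x * y ^ (Fintype.card F ^ s)) := by rw [mul_assoc]
    _ = y := by rw [e1, mul_one]

theorem fieldLike_bot [NeZero n] : FieldLike (⊥ : Subalgebra F (Matrix (Fin n) (Fin n) F)) := by
  refine ⟨?_, ?_⟩
  · intro x hx y hy
    rw [Algebra.mem_bot] at hx hy
    obtain ⟨c, rfl⟩ := hx
    obtain ⟨d, rfl⟩ := hy
    rw [← map_mul, ← map_mul, mul_comm]
  · intro x hx hx0
    rw [Algebra.mem_bot] at hx
    obtain ⟨c, rfl⟩ := hx
    have hc : c ≠ 0 := by
      rintro rfl
      exact hx0 (map_zero _)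
    refine ⟨algebraMap F _ c⁻¹, Subalgebra.algebraMap_mem _ _, ?_⟩
    rw [← map_mul, mul_inv_cancel₀ hc, map_one]

/-- normalisers, for an arbitrary subalgebra, are monotone along `fixSub` -/
theorem normalizer_le_fixSub [Fintype F] [NeZero n] (K : Subalgebra F (Matrix (Fin n) (Fin n) F))
    (hK : ∀ x ∈ K, ∀ y ∈ K, x * y = y * x) (s : ℕ) :
    Cfsg.Geo.subalgebraNormalizer K ≤ Cfsg.Geo.subalgebraNormalizer (fixSub K hK s) := by
  intro g hg
  have hg' : ∀ k : Matrix (Fin n) (Fin n) F, k ∈ K ↔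
      (g : Matrix (Fin n) (Fin n) F) * k * ((g⁻¹ : GL (Fin n) F) : Matrix (Fin n) (Fin n) F) ∈ K := hg
  show ∀ k : Matrix (Fin n) (Fin n) F, k ∈ fixSub K hK s ↔
      (g : Matrix (Fin n) (Fin n) F) * k * ((g⁻¹ : GL (Fin n) F) : Matrix (Fin n) (Fin n) F) ∈ fixSub K hK s
  intro k
  rw [mem_fixSub, mem_fixSub, Units.conj_pow, ← hg' k]
  constructor
  · rintro ⟨h1, h2⟩
    exact ⟨h1, by rw [h2]⟩
  · rintro ⟨h1, h2⟩
    refine ⟨h1, ?_⟩
    have := congrArg (fun M => ((g⁻¹ : GL (Fin n) F) : Matrix (Fin n) (Fin n) F) * M * (g : Matrix (Fin n) (Fin n) F)) h2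
    simp only [mul_assoc, Units.inv_mul, mul_one, Units.inv_mul_cancel_left] at this
    exact this


/-- In a field-like subalgebra of dimension `r` there are an element not fixed by `x ↦ x ^ (|F| ^ s)`
(`0 < s < r`) and, for `2 ≤ s ∣ r`, a non-scalar element fixed by it. -/
theorem exists_elements [Fintype F] [NeZero n] (K : Subalgebra F (Matrix (Fin n) (Fin n) F))
    (hK : FieldLike K) {r s : ℕ} (hr : Module.finrank F K = r) (hs2 : 2 ≤ s) (hsr : s ∣ r) (hlt : s < r) :
    (∃ z ∈ K, z ^ (Fintype.card F ^ s) ≠ z) ∧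
    (∃ x ∈ K, x ^ (Fintype.card F ^ s) = x ∧ x ∉ (⊥ : Subalgebra F (Matrix (Fin n) (Fin n) F))) := by
  classical
  haveI : Nontrivial K := inferInstance
  letI : Field K := hK.isField.toField
  have hq : 2 ≤ Fintype.card F := Fintype.one_lt_card
  have hcardK : Nat.card K = Fintype.card F ^ r := by
    rw [Module.natCard_eq_pow_finrank (K := F) (V := K), hr, Nat.card_eq_fintype_card]
  have hcardU : Nat.card Kˣ = Fintype.card F ^ r - 1 := by rw [Nat.card_units, hcardK]
  obtain ⟨ζ, hζ⟩ := IsCyclic.exists_ofOrder_eq_natCard (α := Kˣ)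
  rw [hcardU] at hζ
  have hqs : Fintype.card F ^ 1 < Fintype.card F ^ s := Nat.pow_lt_pow_right hq (by omega)
  have hqr : Fintype.card F ^ s < Fintype.card F ^ r := Nat.pow_lt_pow_right hq hlt
  rw [pow_one] at hqs
  have hsplit : Fintype.card F ^ s = (Fintype.card F ^ s - 1) + 1 := by omega
  constructor
  · refine ⟨((ζ : K) : Matrix (Fin n) (Fin n) F), (ζ : K).2, ?_⟩
    intro h
    have h1 : (ζ : K) ^ (Fintype.card F ^ s) = (ζ : K) := Subtype.ext (by rw [← h]; rfl)
    have h2 : ζ ^ (Fintype.card F ^ s - 1) = 1 := by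
      have h3 : ζ ^ (Fintype.card F ^ s) = ζ := Units.ext (by rw [Units.val_pow_eq_pow_val, h1])
      rw [hsplit, pow_succ] at h3
      exact mul_eq_right.mp h3
    have h4 := orderOf_dvd_of_pow_eq_one h2
    rw [hζ] at h4
    have := Nat.le_of_dvd (by omega) h4
    omega
  · have hdvd : Fintype.card F ^ s - 1 ∣ Fintype.card F ^ r - 1 := by
      obtain ⟨t, rfl⟩ := hsr
      have := Nat.sub_dvd_pow_sub_pow (Fintype.card F ^ s) 1 t
      rwa [one_pow, ← pow_mul] at this
    have hζ0 : orderOf ζ ≠ 0 := by rw [hζ]; omega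
    have hord := orderOf_pow_orderOf_div hζ0 (hζ ▸ hdvd)
    set x : Kˣ := ζ ^ (orderOf ζ / (Fintype.card F ^ s - 1)) with hx
    have hx1 : x ^ (Fintype.card F ^ s - 1) = 1 := by rw [← hord]; exact pow_orderOf_eq_one x
    have hx2 : x ^ (Fintype.card F ^ s) = x := by rw [hsplit, pow_succ, hx1, one_mul]
    refine ⟨((x : K) : Matrix (Fin n) (Fin n) F), (x : K).2, ?_, ?_⟩
    · have : ((x ^ (Fintype.card F ^ s) : Kˣ) : K) = (x : K) := by rw [hx2]
      rw [Units.val_pow_eq_pow_val] at this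
      have h5 := congrArg (Subtype.val) this
      exact h5
    · intro hbot
      rw [Algebra.mem_bot] at hbot
      obtain ⟨c, hc⟩ := hbot
      have hc0 : c ≠ 0 := by
        rintro rfl
        rw [map_zero] at hc
        have : (x : K) = 0 := Subtype.ext hc.symm
        exact x.ne_zero this
      have h6 : ((x : K) : Matrix (Fin n) (Fin n) F) ^ (Fintype.card F - 1) = 1 := by
        rw [← hc, ← map_pow, FiniteField.pow_card_sub_one_eq_one c hc0, map_one]
      have h7 : (x : K) ^ (Fintype.card F - 1) = 1 := Subtype.ext h6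
      have h8 : x ^ (Fintype.card F - 1) = 1 := Units.ext (by rw [Units.val_pow_eq_pow_val, h7]; rfl)
      have h9 := orderOf_dvd_of_pow_eq_one h8
      rw [hord] at h9
      have := Nat.le_of_dvd (by omega) h9
      omega

theorem card_lt_of_lt [Fintype F] {A B : Subalgebra F (Matrix (Fin n) (Fin n) F)} (hAB : A < B) :
    Nat.card A ≤ Fintype.card F ^ (Module.finrank F B - 1) := by
  have h1 : Module.finrank F A < Module.finrank F B := by
    have h2 : Subalgebra.toSubmodule A < Subalgebra.toSubmodule B := hAB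
    have := Submodule.finrank_lt_finrank_of_lt h2
    exact this
  rw [Module.natCard_eq_pow_finrank (K := F) (V := A), Nat.card_eq_fintype_card]
  exact Nat.pow_le_pow_right Fintype.card_pos (by omega)


/-- Let F be a finite field, n a positive integer and r a composite number (r > 1, not prime) that divides n with r < n. Let K be a subalgebra of the algebra of n × n matrices over F which is a field of degree r over F (commutative, every non-zero element invertible, of dimension r over F). Then the normaliser N of K in GL_n(F) (a group of type ΓL_{n/r}(F_{q^r})) is not a maximal subgroup of GL_n(F), and N ∩ SL_n(F) is not a maximal subgroup of SL_n(F): both lie properly inside the normaliser of an intermediate subfield of prime degree over F. -/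
theorem result {F : Type*} [Field F]
    [Fintype F] (n r : ℕ) (hr1 : 1 < r) (hrp : ¬ r.Prime) (hrn : r ∣ n) (hlt : r < n)
    (K : Subalgebra F (Matrix (Fin n) (Fin n) F)) (hK : Cfsg.Geo.IsFieldSubalgebra r K) :
    ¬ IsCoatom (Cfsg.Geo.subalgebraNormalizer K) ∧
      ¬ Cfsg.Geo.IsMaximalIn (Cfsg.Geo.specialLinear (Fin n) F)
        (Cfsg.Geo.subalgebraNormalizer K ⊓ Cfsg.Geo.specialLinear (Fin n) F) := by
  classical
  have hKF : FieldLike K := ⟨hK.comm, hK.inv⟩
  obtain ⟨s, hsr, hs2, hsr'⟩ := Nat.exists_dvd_of_not_prime2 hr1 hrp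
  obtain ⟨j, rfl⟩ := hrn
  have hj : 2 ≤ j := by
    by_contra hj
    have : j = 0 ∨ j = 1 := by omega
    rcases this with rfl | rfl <;> omega
  have hn : 2 * r ≤ r * j := by nlinarith
  haveI : NeZero (r * j) := ⟨by omega⟩
  have hq : 2 ≤ Fintype.card F := Fintype.one_lt_card
  obtain ⟨⟨z, hzK, hz⟩, ⟨x, hxK, hxfix, hxbot⟩⟩ := exists_elements K hKF hK.finrank_eq hs2 hsr hsr'
  set K₀ := fixSub K hKF.1 s with hK₀
  have hK₀F : FieldLike K₀ := fieldLike_fixSub K hKF s
  have hle : K₀ ≤ K := fixSub_le K hKF.1 s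
  have hne : K₀ ≠ K := by
    intro h
    have : z ∈ K₀ := by rw [h]; exact hzK
    exact hz this.2
  have hbotne : (⊥ : Subalgebra F (Matrix (Fin (r * j)) (Fin (r * j)) F)) ≠ K₀ := by
    intro h
    apply hxbot
    rw [h]
    exact ⟨hxK, hxfix⟩
  have hcard1 : Nat.card K₀ ^ 2 < Fintype.card F ^ (r * j) := by
    have h1 := card_lt_of_lt (lt_of_le_of_ne hle hne)
    rw [hK.finrank_eq] at h1
    calc Nat.card K₀ ^ 2 ≤ (Fintype.card F ^ (r - 1)) ^ 2 := Nat.pow_le_pow_left h1 2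
      _ = Fintype.card F ^ ((r - 1) * 2) := by rw [pow_mul]
      _ < Fintype.card F ^ (r * j) := Nat.pow_lt_pow_right hq (by omega)
  have hcard2 : Nat.card (⊥ : Subalgebra F (Matrix (Fin (r * j)) (Fin (r * j)) F)) ^ 2
      < Fintype.card F ^ (r * j) := by
    have h1 : Nat.card (⊥ : Subalgebra F (Matrix (Fin (r * j)) (Fin (r * j)) F)) = Fintype.card F := by
      rw [Module.natCard_eq_pow_finrank (K := F), Subalgebra.finrank_bot, pow_one, Nat.card_eq_fintype_card]
    rw [h1]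
    exact Nat.pow_lt_pow_right hq (by omega)
  obtain ⟨g₁, hg₁det, hg₁comm, hg₁⟩ := exists_centralizing K₀ K hK₀F hKF hle hne hcard1
  obtain ⟨g₂, hg₂det, -, hg₂⟩ := exists_centralizing ⊥ K₀ fieldLike_bot hK₀F bot_le hbotne hcard2
  have hNle : Cfsg.Geo.subalgebraNormalizer K ≤ Cfsg.Geo.subalgebraNormalizer K₀ :=
    normalizer_le_fixSub K hKF.1 s
  have hg₁N : g₁ ∈ Cfsg.Geo.subalgebraNormalizer K₀ := by
    show ∀ k : Matrix (Fin (r * j)) (Fin (r * j)) F, k ∈ K₀ ↔
      (g₁ : Matrix (Fin (r * j)) (Fin (r * j)) F) * k *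
        ((g₁⁻¹ : GL (Fin (r * j)) F) : Matrix (Fin (r * j)) (Fin (r * j)) F) ∈ K₀
    intro k
    constructor
    · intro hk
      rw [hg₁comm k hk, mul_assoc, Units.mul_inv, mul_one]
      exact hk
    · intro hk
      have e := hg₁comm _ hk
      have e2 : k = (g₁ : Matrix (Fin (r * j)) (Fin (r * j)) F) * k *
          ((g₁⁻¹ : GL (Fin (r * j)) F) : Matrix (Fin (r * j)) (Fin (r * j)) F) := by
        calc k = ((g₁⁻¹ : GL (Fin (r * j)) F) : Matrix (Fin (r * j)) (Fin (r * j)) F) *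
              (((g₁ : Matrix (Fin (r * j)) (Fin (r * j)) F) * k *
                ((g₁⁻¹ : GL (Fin (r * j)) F) : Matrix (Fin (r * j)) (Fin (r * j)) F)) *
                  (g₁ : Matrix (Fin (r * j)) (Fin (r * j)) F)) := by
              rw [mul_assoc, mul_assoc, Units.inv_mul, mul_one, ← mul_assoc, Units.inv_mul, one_mul]
          _ = ((g₁⁻¹ : GL (Fin (r * j)) F) : Matrix (Fin (r * j)) (Fin (r * j)) F) *
              ((g₁ : Matrix (Fin (r * j)) (Fin (r * j)) F) *
                ((g₁ : Matrix (Fin (r * j)) (Fin (r * j)) F) * k *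
                  ((g₁⁻¹ : GL (Fin (r * j)) F) : Matrix (Fin (r * j)) (Fin (r * j)) F))) := by rw [← e]
          _ = (g₁ : Matrix (Fin (r * j)) (Fin (r * j)) F) * k *
              ((g₁⁻¹ : GL (Fin (r * j)) F) : Matrix (Fin (r * j)) (Fin (r * j)) F) := by
              rw [← mul_assoc, Units.inv_mul, one_mul]
      rw [e2]
      exact hk
  have hg₁K : g₁ ∉ Cfsg.Geo.subalgebraNormalizer K := hg₁
  have hg₂K₀ : g₂ ∉ Cfsg.Geo.subalgebraNormalizer K₀ := hg₂
  have hg₁SL : g₁ ∈ Cfsg.Geo.specialLinear (Fin (r * j)) F := MonoidHom.mem_ker.mpr hg₁det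
  have hg₂SL : g₂ ∈ Cfsg.Geo.specialLinear (Fin (r * j)) F := MonoidHom.mem_ker.mpr hg₂det
  constructor
  · intro hco
    have hlt' : Cfsg.Geo.subalgebraNormalizer K < Cfsg.Geo.subalgebraNormalizer K₀ :=
      lt_of_le_of_ne hNle (fun h => hg₁K (h ▸ hg₁N))
    have htop := hco.2 _ hlt'
    exact hg₂K₀ (htop ▸ Subgroup.mem_top g₂)
  · rintro ⟨-, hmax⟩
    rcases hmax (Cfsg.Geo.subalgebraNormalizer K₀ ⊓ Cfsg.Geo.specialLinear (Fin (r * j)) F)
      (inf_le_inf_right _ hNle) inf_le_right with h | h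
    · have : g₁ ∈ Cfsg.Geo.subalgebraNormalizer K ⊓ Cfsg.Geo.specialLinear (Fin (r * j)) F := by
        rw [← h]; exact ⟨hg₁N, hg₁SL⟩
      exact hg₁K this.1
    · have : g₂ ∈ Cfsg.Geo.subalgebraNormalizer K₀ ⊓ Cfsg.Geo.specialLinear (Fin (r * j)) F := by
        rw [h]; exact hg₂SL
      exact hg₂K₀ this.1

end Cfsg.Agent.S5887
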