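import Cfsg.Statements.S5894
import Cfsg.Agent.H98.PartStab
import Cfsg.Agent.H98.SubgroupOf

set_option autoImplicit false
open Cfsg
open scoped Pointwise

namespace Cfsg.Agent.S5894

open Cfsg.Agent.H98

/-- The labelling of `Fin (2 * m)` by two blocks of size `m`. -/
def lab (m : ℕ) (x : Fin (2 * m)) : Fin 2 := (finProdFinEquiv.symm x).1

/-- The fibres of `lab m` are in bijection with `Fin m`. -/
def fibE (m : ℕ) (i : Fin 2) : {x : Fin (2 * m) // lab m x = i} ≃ Fin m where
  toFun x := (finProdFinEquiv.symm x.1).2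
  invFun j := ⟨finProdFinEquiv (i, j), by simp [lab]⟩
  left_inv x := by
    obtain ⟨x, h⟩ := x
    subst h
    apply Subtype.ext
    exact finProdFinEquiv.apply_symm_apply x
  right_inv j := by simp

theorem card_fib (m : ℕ) (i : Fin 2) : Nat.card {x : Fin (2 * m) // lab m x = i} = m := by
  rw [Nat.card_congr (fibE m i), Nat.card_fin]

/-- With two labels, a permutation preserving one block preserves the partition. -/
theorem mem_partStab_of_block {Ω : Type*} (f : Ω → Fin 2) (c : Fin 2) (g : Equiv.Perm Ω)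
    (h : ∀ x, f (g x) = c ↔ f x = c) : g ∈ partStab f := by
  intro x y
  have key : ∀ a b c : Fin 2, (a = b ↔ (a = c ↔ b = c)) := by decide
  rw [key (f x) (f y) c, key (f (g x)) (f (g y)) c, h x, h y]

/-- For every m ≥ 2 the symmetric group on 2m letters has a maximal subgroup M of index 2m together with a maximal subgroup H of M that is not second maximal: some maximal subgroup K of the symmetric group contains H without H being maximal in K. (One may take M the stabiliser of a letter, H ≅ S_m × S_{m−1} inside it, and K ≅ S_m ≀ S₂ the stabiliser of a partition into two m-sets, with H < S_m × S_m < K.) So the prime-index hypothesis in the second-maximality criterion cannot be relaxed to any even index ≥ 4. -/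
theorem result (m : ℕ) (hm : 2 ≤ m) :
    ∃ M H K : Subgroup (Equiv.Perm (Fin (2 * m))), IsCoatom M ∧ M.index = 2 * m ∧ H ≤ M ∧ IsCoatom (H.subgroupOf M) ∧
      IsCoatom K ∧ H ≤ K ∧ ¬ IsCoatom (H.subgroupOf K) := by
  classical
  set f := lab m with hfdef
  have hf : ∀ i : Fin 2, Nat.card {x : Fin (2 * m) // f x = i} = m := card_fib m
  have hnt : ∀ i : Fin 2, Nontrivial {x : Fin (2 * m) // f x = i} := fun i =>
    Finite.one_lt_card_iff_nontrivial.mp (by rw [hf i]; omega)
  have : Nontrivial (Fin (2 * m)) := Fin.nontrivial_iff_two_le.mpr (by omega)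
  -- base point
  set a₀ : Fin (2 * m) := ⟨0, by omega⟩ with ha₀
  -- another point in the block of a₀
  obtain ⟨x₁, hx₁, hx₁a⟩ : ∃ x₁, f x₁ = f a₀ ∧ x₁ ≠ a₀ := by
    obtain ⟨⟨y, hy⟩, hne⟩ := exists_ne (⟨a₀, rfl⟩ : {x : Fin (2 * m) // f x = f a₀})
    exact ⟨y, hy, fun h => hne (Subtype.ext h)⟩
  -- a point in the other block
  obtain ⟨x₂, hx₂⟩ : ∃ x₂, f x₂ ≠ f a₀ := by
    obtain ⟨j, hj⟩ := exists_ne (f a₀)
    obtain ⟨⟨y, hy⟩, -⟩ := (hnt j).exists_pair_ne
    exact ⟨y, by rw [hy]; exact hj⟩
  have hx₂a : x₂ ≠ a₀ := fun h => hx₂ (by rw [h])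
  set φ : Equiv.Perm {x : Fin (2 * m) // x ≠ a₀} →* Equiv.Perm (Fin (2 * m)) :=
    Equiv.Perm.ofSubtype with hφ
  have hφinj : Function.Injective φ := Equiv.Perm.ofSubtype_injective
  set A' : Set {x : Fin (2 * m) // x ≠ a₀} := {x | f x.1 = f a₀} with hA'
  set O : Set (Fin (2 * m)) := {x | f x = f a₀} with hO
  -- M is the point stabilizer
  have hM : φ.range = MulAction.stabilizer (Equiv.Perm (Fin (2 * m))) a₀ := by
    ext g
    rw [MulAction.mem_stabilizer_iff, Equiv.Perm.smul_def]
    constructor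
    · rintro ⟨σ, rfl⟩
      exact Equiv.Perm.ofSubtype_apply_of_not_mem σ (by simp)
    · intro hg
      have h₁ : ∀ x, g x ≠ a₀ ↔ x ≠ a₀ := by
        intro x
        rw [not_iff_not]
        constructor
        · intro h
          exact g.injective (h.trans hg.symm)
        · intro h
          rw [h, hg]
      have h₂ : ∀ x, g x ≠ x → x ≠ a₀ := by
        intro x hx h
        exact hx (by rw [h, hg])
      exact ⟨Equiv.Perm.subtypePerm g h₁, Equiv.Perm.ofSubtype_subtypePerm h₁ h₂⟩
  -- elements of H preserve the block O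
  have hHO : ∀ σ ∈ MulAction.stabilizer (Equiv.Perm {x : Fin (2 * m) // x ≠ a₀}) A',
      ∀ x, f (φ σ x) = f a₀ ↔ f x = f a₀ := by
    intro σ hσ x
    by_cases hx : x = a₀
    · rw [hx]
      have : φ σ a₀ = a₀ := Equiv.Perm.ofSubtype_apply_of_not_mem σ (by simp)
      rw [this]
    · have h1 : φ σ x = (σ ⟨x, hx⟩ : Fin (2 * m)) := Equiv.Perm.ofSubtype_apply_of_mem σ hx
      rw [h1]
      exact (MulAction.mem_stabilizer_set.mp hσ) ⟨x, hx⟩
  refine ⟨φ.range, (MulAction.stabilizer (Equiv.Perm {x : Fin (2 * m) // x ≠ a₀}) A').map φ,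
    Subgroup.closure {g : Equiv.Perm (Fin (2 * m)) | ∀ x y, f x = f y ↔ f (g x) = f (g y)},
    ?_, ?_, ?_, ?_, ?_, ?_, ?_⟩
  · rw [hM]
    exact MulAction.IsPreprimitive.isCoatom_stabilizer_of_isPreprimitive _ a₀
  · rw [hM, MulAction.index_stabilizer_of_transitive, Nat.card_fin]
  · exact Subgroup.map_le_range _ _
  · rw [isCoatom_map_subgroupOf_range φ hφinj]
    apply Equiv.Perm.isCoatom_stabilizer
    · exact ⟨⟨x₁, hx₁a⟩, hx₁⟩
    · exact ⟨⟨x₂, hx₂a⟩, hx₂⟩
    · have hc : Nat.card {x : Fin (2 * m) // x ≠ a₀} = 2 * m - 1 := by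
        rw [Nat.card_eq_fintype_card, Fintype.card_subtype_compl, Fintype.card_subtype_eq,
          Fintype.card_fin]
      rw [hc]
      omega
  · rw [closure_partStab]
    exact isCoatom_partStab hm le_rfl f hf
  · rw [closure_partStab]
    rintro g ⟨σ, hσ, rfl⟩
    exact mem_partStab_of_block f (f a₀) _ (hHO σ hσ)
  · rw [closure_partStab]
    apply not_isCoatom_subgroupOf (Y := MulAction.stabilizer (Equiv.Perm (Fin (2 * m))) O)
    · refine lt_of_le_of_ne ?_ ?_
      · rintro g ⟨σ, hσ, rfl⟩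
        rw [MulAction.mem_stabilizer_set]
        exact hHO σ hσ
      · intro heq
        have h1 : Equiv.swap a₀ x₁ ∈ MulAction.stabilizer (Equiv.Perm (Fin (2 * m))) O :=
          Equiv.Perm.swap_mem_stabilizer (s := O) rfl hx₁
        rw [← heq] at h1
        have h2 : Equiv.swap a₀ x₁ ∈ φ.range := Subgroup.map_le_range _ _ h1
        rw [hM, MulAction.mem_stabilizer_iff, Equiv.Perm.smul_def, Equiv.swap_apply_left] at h2
        exact hx₁a h2
    · refine lt_of_le_of_ne ?_ ?_
      · intro g hg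
        rw [MulAction.mem_stabilizer_set] at hg
        exact mem_partStab_of_block f (f a₀) g hg
      · intro heq
        obtain ⟨k, hk, hkf⟩ := exists_mem_partStab_perm f hf (Equiv.swap 0 1)
        rw [← heq, MulAction.mem_stabilizer_set] at hk
        have h1 : f (k a₀) = f a₀ := (hk a₀).mpr rfl
        rw [hkf] at h1
        have key : ∀ c : Fin 2, Equiv.swap (0 : Fin 2) 1 c ≠ c := by decide
        exact key _ h1

end Cfsg.Agent.S5894
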