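import Cfsg.Statements.S5895
import Cfsg.Agent.H98.SubgroupOf

set_option autoImplicit false
open Cfsg

namespace Cfsg.Agent.S5895

open SemidirectProduct

section General

variable {N Q : Type*} [Group N] [Group Q] (φ : Q →* MulAut N)

/-- If `N` has no proper nontrivial `Q`-invariant subgroup, the complement `Q` is maximal in
`N ⋊ Q`. -/
theorem isCoatom_range_inr [Nontrivial N]
    (hirr : ∀ U : Subgroup N, (∀ q n, n ∈ U → φ q n ∈ U) → U = ⊥ ∨ U = ⊤) :
    IsCoatom (inr : Q →* N ⋊[φ] Q).range := by
  constructor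
  · intro htop
    obtain ⟨n, hn⟩ := exists_ne (1 : N)
    have : (inl n : N ⋊[φ] Q) ∈ (inr : Q →* N ⋊[φ] Q).range := by rw [htop]; trivial
    obtain ⟨q, hq⟩ := this
    have := congrArg SemidirectProduct.left hq
    rw [left_inr, left_inl] at this
    exact hn this.symm
  · intro X hX
    have hinv : ∀ q n, n ∈ X.comap (inl : N →* N ⋊[φ] Q) →
        φ q n ∈ X.comap (inl : N →* N ⋊[φ] Q) := by
      intro q n hn
      rw [Subgroup.mem_comap] at hn ⊢
      rw [inl_aut]
      have hq : (inr q : N ⋊[φ] Q) ∈ X := hX.le ⟨q, rfl⟩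
      exact X.mul_mem (X.mul_mem hq hn) (by rw [map_inv]; exact X.inv_mem hq)
    rcases hirr _ hinv with hbot | htop
    · exfalso
      obtain ⟨g, hgX, hgM⟩ := SetLike.exists_of_lt hX
      have h1 : (inl g.left : N ⋊[φ] Q) ∈ X := by
        have : (inl g.left : N ⋊[φ] Q) = g * (inr g.right)⁻¹ := by
          rw [eq_mul_inv_iff_mul_eq, inl_left_mul_inr_right]
        rw [this]
        exact X.mul_mem hgX (X.inv_mem (hX.le ⟨g.right, rfl⟩))
      have h2 : g.left ∈ X.comap (inl : N →* N ⋊[φ] Q) := h1
      rw [hbot, Subgroup.mem_bot] at h2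
      apply hgM
      refine ⟨g.right, ?_⟩
      rw [← inl_left_mul_inr_right g, h2, map_one, one_mul, right_inr]
    · rw [eq_top_iff]
      intro g _
      rw [← inl_left_mul_inr_right g]
      have h1 : g.left ∈ X.comap (inl : N →* N ⋊[φ] Q) := by rw [htop]; trivial
      exact X.mul_mem h1 (hX.le ⟨g.right, rfl⟩)

/-- The subgroup `W ⋊ H` for an `H`-invariant subgroup `W`. -/
def semiSub (W : Subgroup N) (H : Subgroup Q) (hW : ∀ q ∈ H, ∀ n ∈ W, φ q n ∈ W) :
    Subgroup (N ⋊[φ] Q) where
  carrier := {g | g.left ∈ W ∧ g.right ∈ H}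
  one_mem' := ⟨W.one_mem, H.one_mem⟩
  mul_mem' := by
    rintro a b ⟨ha1, ha2⟩ ⟨hb1, hb2⟩
    exact ⟨W.mul_mem ha1 (hW _ ha2 _ hb1), H.mul_mem ha2 hb2⟩
  inv_mem' := by
    rintro a ⟨ha1, ha2⟩
    exact ⟨hW _ (H.inv_mem ha2) _ (W.inv_mem ha1), H.inv_mem ha2⟩

theorem mem_semiSub {W : Subgroup N} {H : Subgroup Q} {hW : ∀ q ∈ H, ∀ n ∈ W, φ q n ∈ W}
    {g : N ⋊[φ] Q} : g ∈ semiSub φ W H hW ↔ g.left ∈ W ∧ g.right ∈ H := Iff.rfl

end General

section Field

variable {F : Type*} [Field F]

/-- The action of a group of units on the additive group of the field. -/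
def act (L : Subgroup Fˣ) : ↥L →* MulAut (Multiplicative F) where
  toFun u :=
    { toFun := fun x => Multiplicative.ofAdd (((u : Fˣ) : F) * Multiplicative.toAdd x)
      invFun := fun x => Multiplicative.ofAdd ((((u : Fˣ)⁻¹ : Fˣ) : F) * Multiplicative.toAdd x)
      left_inv := by
        intro x
        simp
      right_inv := by
        intro x
        simp
      map_mul' := by
        intro x y
        simp [mul_add] }
  map_one' := by
    ext x
    simp
  map_mul' := by
    intro u v
    ext x
    simp [mul_assoc]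

theorem act_apply (L : Subgroup Fˣ) (u : ↥L) (x : Multiplicative F) :
    act L u x = Multiplicative.ofAdd (((u : Fˣ) : F) * Multiplicative.toAdd x) := rfl

/-- If `L` generates the field additively, then the additive group is an irreducible
`L`-module. -/
theorem act_irred (L : Subgroup Fˣ)
    (hL : AddSubgroup.closure ((fun u : Fˣ => (u : F)) '' (L : Set Fˣ)) = ⊤)
    (U : Subgroup (Multiplicative F)) (hU : ∀ q n, n ∈ U → act L q n ∈ U) :
    U = ⊥ ∨ U = ⊤ := by
  by_cases hbot : U = ⊥
  · exact Or.inl hbot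
  right
  obtain ⟨⟨n, hnU⟩, hn1'⟩ := Subgroup.ne_bot_iff_exists_ne_one.mp hbot
  have hn1 : n ≠ 1 := fun h => hn1' (Subtype.ext h)
  set x₀ : F := Multiplicative.toAdd n with hx₀
  have hx₀ne : x₀ ≠ 0 := by
    intro h
    apply hn1
    have : n = Multiplicative.ofAdd x₀ := rfl
    rw [this, h]
    rfl
  let S : AddSubgroup F :=
    { carrier := {a | Multiplicative.ofAdd (a * x₀) ∈ U}
      zero_mem' := by
        change Multiplicative.ofAdd (0 * x₀) ∈ U
        rw [zero_mul]
        exact U.one_mem
      add_mem' := by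
        intro a b ha hb
        change Multiplicative.ofAdd ((a + b) * x₀) ∈ U
        rw [add_mul, ofAdd_add]
        exact U.mul_mem ha hb
      neg_mem' := by
        intro a ha
        change Multiplicative.ofAdd (-a * x₀) ∈ U
        rw [neg_mul, ofAdd_neg]
        exact U.inv_mem ha }
  have hS : S = ⊤ := by
    rw [eq_top_iff, ← hL, AddSubgroup.closure_le]
    rintro _ ⟨u, hu, rfl⟩
    exact hU ⟨u, hu⟩ n hnU
  rw [eq_top_iff]
  intro m _
  have h1 : Multiplicative.toAdd m * x₀⁻¹ ∈ S := by rw [hS]; trivial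
  have h2 : Multiplicative.ofAdd (Multiplicative.toAdd m * x₀⁻¹ * x₀) ∈ U := h1
  rw [inv_mul_cancel_right₀ hx₀ne] at h2
  exact h2

end Field

/-- For every prime p and every d ≥ 2 there is a finite group G with a maximal subgroup M of index p^d and a maximal subgroup H of M that is not second maximal in G: some maximal subgroup K of G contains H without H being maximal in K. (One may take G the affine group V ⋊ GL(V) of V = 𝔽_p^d, M = GL(V), H the stabiliser in M of a line W of V, and K = V ⋊ H, with H < W ⋊ H < K.) So the prime-index hypothesis in the second-maximality criterion cannot be relaxed to prime-power index. -/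
theorem result (p d : ℕ) (hp : p.Prime)
    (hd : 2 ≤ d) :
    ∃ (G : Type) (_ : Group G) (_ : Finite G) (M H K : Subgroup G), IsCoatom M ∧ M.index = p ^ d ∧ H ≤ M ∧
      IsCoatom (H.subgroupOf M) ∧ IsCoatom K ∧ H ≤ K ∧ ¬ IsCoatom (H.subgroupOf K) := by
  have : Fact p.Prime := Fact.mk hp
  have hcard : Nat.card (GaloisField p d) = p ^ d := GaloisField.card p d (by omega)
  have : Finite (GaloisField p d) := Nat.finite_of_card_ne_zero (by
    rw [hcard]; exact pow_ne_zero _ hp.ne_zero)
  -- the property of additively generating the field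
  let P : Subgroup (GaloisField p d)ˣ → Prop := fun L =>
    AddSubgroup.closure ((fun u : (GaloisField p d)ˣ => (u : GaloisField p d)) '' (L : Set (GaloisField p d)ˣ)) = ⊤
  have hPtop : P ⊤ := by
    change AddSubgroup.closure _ = ⊤
    rw [eq_top_iff]
    intro x _
    by_cases hx : x = 0
    · rw [hx]; exact AddSubgroup.zero_mem _
    · exact AddSubgroup.subset_closure ⟨Units.mk0 x hx, trivial, rfl⟩
  obtain ⟨L, hLP, hLmin⟩ := exists_minimal_of_wellFoundedLT P ⟨⊤, hPtop⟩
  have hLP' : AddSubgroup.closure ((fun u : (GaloisField p d)ˣ => (u : GaloisField p d)) '' (L : Set (GaloisField p d)ˣ)) = ⊤ := hLP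
  -- `L` is not trivial
  have hLne : L ≠ ⊥ := by
    intro hbot
    have hsurj : Function.Surjective (algebraMap (ZMod p) (GaloisField p d)) := by
      intro x
      have hx : x ∈ AddSubgroup.closure ((fun u : (GaloisField p d)ˣ => (u : GaloisField p d)) '' (L : Set (GaloisField p d)ˣ)) := by
        rw [hLP']; trivial
      have himg : ((fun u : (GaloisField p d)ˣ => (u : GaloisField p d)) '' (L : Set (GaloisField p d)ˣ)) = {1} := by
        rw [hbot]
        ext y
        simp
      rw [himg, AddSubgroup.mem_closure_singleton] at hx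
      obtain ⟨n, rfl⟩ := hx
      exact ⟨(n : ZMod p), by simp⟩
    have h1 := Nat.card_le_card_of_surjective _ hsurj
    rw [hcard, Nat.card_zmod] at h1
    have h2 : p ^ 2 ≤ p ^ d := Nat.pow_le_pow_right hp.pos hd
    nlinarith [hp.two_le]
  have : Nontrivial ↥L := (Subgroup.nontrivial_iff_ne_bot L).mpr hLne
  obtain ⟨H, hH, -⟩ := (eq_top_or_exists_le_coatom (⊥ : Subgroup L)).resolve_left bot_ne_top
  -- the span of `H`
  set W : AddSubgroup (GaloisField p d) :=
    AddSubgroup.closure ((fun u : (GaloisField p d)ˣ => (u : GaloisField p d)) '' ((H.map L.subtype : Subgroup (GaloisField p d)ˣ) : Set (GaloisField p d)ˣ)) with hW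
  have hWtop : W ≠ ⊤ := by
    intro hWt
    have hle : L ≤ H.map L.subtype := hLmin hWt (Subgroup.map_subtype_le H)
    apply hH.1
    rw [eq_top_iff]
    intro l _
    obtain ⟨h, hh, hhl⟩ := hle l.2
    have : h = l := Subtype.ext hhl
    rw [← this]
    exact hh
  have hW1 : (1 : GaloisField p d) ∈ W :=
    AddSubgroup.subset_closure ⟨1, (H.map L.subtype).one_mem, rfl⟩
  have hWinv : ∀ q ∈ H, ∀ x ∈ W, (((q : ↥L) : (GaloisField p d)ˣ) : GaloisField p d) * x ∈ W := by
    intro q hq x hx
    induction hx using AddSubgroup.closure_induction with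
    | mem y hy =>
      obtain ⟨u, hu, rfl⟩ := hy
      refine AddSubgroup.subset_closure ⟨(q : (GaloisField p d)ˣ) * u, ?_, by simp⟩
      exact (H.map L.subtype).mul_mem ⟨q, hq, rfl⟩ hu
    | zero => rw [mul_zero]; exact W.zero_mem
    | add a b _ _ ha hb => rw [mul_add]; exact W.add_mem ha hb
    | neg a _ ha => rw [mul_neg]; exact W.neg_mem ha
  have hinv : ∀ q ∈ H, ∀ n ∈ AddSubgroup.toSubgroup W, act L q n ∈ AddSubgroup.toSubgroup W := by
    intro q hq n hn
    exact hWinv q hq _ hn
  obtain ⟨x₁, hx₁⟩ : ∃ x, x ∉ W := by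
    by_contra hcon
    apply hWtop
    rw [eq_top_iff]
    intro x _
    by_contra hx
    exact hcon ⟨x, hx⟩
  have hfin : Finite (Multiplicative (GaloisField p d) ⋊[act L] ↥L) :=
    Finite.of_equiv _ SemidirectProduct.equivProd.symm
  refine ⟨Multiplicative (GaloisField p d) ⋊[act L] ↥L, inferInstance, hfin,
    (inr : ↥L →* Multiplicative (GaloisField p d) ⋊[act L] ↥L).range,
    H.map (inr : ↥L →* Multiplicative (GaloisField p d) ⋊[act L] ↥L),
    H.comap (rightHom : Multiplicative (GaloisField p d) ⋊[act L] ↥L →* ↥L),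
    isCoatom_range_inr (act L) (act_irred L hLP'), ?_, Subgroup.map_le_range _ _,
    (Cfsg.Agent.H98.isCoatom_map_subgroupOf_range _ inr_injective H).mpr hH,
    Subgroup.isCoatom_comap_of_surjective rightHom_surjective hH, ?_, ?_⟩
  · have h1 := Subgroup.index_mul_card
      (inr : ↥L →* Multiplicative (GaloisField p d) ⋊[act L] ↥L).range
    have h2 : Nat.card (inr : ↥L →* Multiplicative (GaloisField p d) ⋊[act L] ↥L).range
        = Nat.card ↥L :=
      (Nat.card_congr (MonoidHom.ofInjective inr_injective).toEquiv).symm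
    have h3 : Nat.card (Multiplicative (GaloisField p d) ⋊[act L] ↥L) = p ^ d * Nat.card ↥L := by
      rw [SemidirectProduct.card, Nat.card_congr Multiplicative.toAdd, hcard]
    rw [h2, h3] at h1
    exact Nat.eq_of_mul_eq_mul_right Nat.card_pos h1
  · rintro _ ⟨h, hh, rfl⟩
    rw [Subgroup.mem_comap, rightHom_inr]
    exact hh
  · apply Cfsg.Agent.H98.not_isCoatom_subgroupOf
      (Y := semiSub (act L) (AddSubgroup.toSubgroup W) H hinv)
    · refine lt_of_le_of_ne ?_ ?_
      · rintro _ ⟨h, hh, rfl⟩
        exact ⟨(AddSubgroup.toSubgroup W).one_mem, hh⟩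
      · intro heq
        have hmem : (inl (Multiplicative.ofAdd (1 : GaloisField p d)) :
            Multiplicative (GaloisField p d) ⋊[act L] ↥L) ∈
            semiSub (act L) (AddSubgroup.toSubgroup W) H hinv := ⟨hW1, H.one_mem⟩
        rw [← heq] at hmem
        obtain ⟨h, -, hh⟩ := hmem
        have := congrArg SemidirectProduct.left hh
        rw [left_inr, left_inl] at this
        exact one_ne_zero (α := GaloisField p d) (Multiplicative.ofAdd.injective this.symm)
    · refine lt_of_le_of_ne ?_ ?_
      · intro g hg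
        exact hg.2
      · intro heq
        have hmem : (inl (Multiplicative.ofAdd x₁) :
            Multiplicative (GaloisField p d) ⋊[act L] ↥L) ∈
            H.comap (rightHom : Multiplicative (GaloisField p d) ⋊[act L] ↥L →* ↥L) := by
          rw [Subgroup.mem_comap, rightHom_inl]
          exact H.one_mem
        rw [← heq] at hmem
        exact hx₁ hmem.1

end Cfsg.Agent.S5895
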