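import Cfsg.Statements.S5896
import Cfsg.Agent.H98.Perfect

set_option autoImplicit false
open Cfsg

namespace Cfsg.Agent.S5896

open SemidirectProduct
open scoped commutatorElement

/-- The action of `A₅` on functions `Fin 5 → S` by permuting coordinates. -/
def permAct (S : Type*) [Group S] : alternatingGroup (Fin 5) →* MulAut (Fin 5 → S) where
  toFun q :=
    { toFun := fun b x => b ((q : Equiv.Perm (Fin 5)).symm x)
      invFun := fun b x => b ((q : Equiv.Perm (Fin 5)) x)
      left_inv := fun b => by funext x; simp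
      right_inv := fun b => by funext x; simp
      map_mul' := fun _ _ => rfl }
  map_one' := rfl
  map_mul' := fun _ _ => rfl

theorem permAct_apply (S : Type*) [Group S] (q : alternatingGroup (Fin 5)) (b : Fin 5 → S)
    (x : Fin 5) : permAct S q b x = b ((q : Equiv.Perm (Fin 5)).symm x) := rfl

/-- The even permutation `(0 2)(3 4)`. -/
def q₁ : alternatingGroup (Fin 5) := ⟨Equiv.swap 0 2 * Equiv.swap 3 4, by
  rw [Equiv.Perm.mem_alternatingGroup, Equiv.Perm.sign_mul, Equiv.Perm.sign_swap (by decide),
    Equiv.Perm.sign_swap (by decide)]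
  rfl⟩

/-- The even permutation `(1 3)(1 0)`. -/
def q₂ : alternatingGroup (Fin 5) := ⟨Equiv.swap 1 3 * Equiv.swap 1 0, by
  rw [Equiv.Perm.mem_alternatingGroup, Equiv.Perm.sign_mul, Equiv.Perm.sign_swap (by decide),
    Equiv.Perm.sign_swap (by decide)]
  rfl⟩

theorem q₁_symm : ∀ t : Fin 5, (q₁ : Equiv.Perm (Fin 5)).symm t = ![2, 1, 0, 4, 3] t := by
  decide

theorem q₂_symm : ∀ t : Fin 5, (q₂ : Equiv.Perm (Fin 5)).symm t = ![1, 3, 2, 0, 4] t := by
  decide

section Construction

variable (S : Type*) [Group S]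

/-- The generators `e₀(s) e₁(s)⁻¹` in the base group. -/
def u0 (s : S) : (Fin 5 → S) ⋊[permAct S] alternatingGroup (Fin 5) :=
  inl (Pi.mulSingle 0 s * Pi.mulSingle 1 s⁻¹)

/-- The perfect subgroup of the wreath product. -/
def G₀ : Subgroup ((Fin 5 → S) ⋊[permAct S] alternatingGroup (Fin 5)) :=
  Subgroup.closure (Set.range (inr : alternatingGroup (Fin 5) →
    (Fin 5 → S) ⋊[permAct S] alternatingGroup (Fin 5)) ∪ Set.range (u0 S))

theorem inr_mem (q : alternatingGroup (Fin 5)) :
    (inr q : (Fin 5 → S) ⋊[permAct S] alternatingGroup (Fin 5)) ∈ G₀ S :=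
  Subgroup.subset_closure (Or.inl ⟨q, rfl⟩)

theorem u0_mem (s : S) : u0 S s ∈ G₀ S := Subgroup.subset_closure (Or.inr ⟨s, rfl⟩)

theorem conj_inl (q : alternatingGroup (Fin 5)) (b : Fin 5 → S) :
    (inr q * inl b * (inr q)⁻¹ : (Fin 5 → S) ⋊[permAct S] alternatingGroup (Fin 5)) =
      inl (permAct S q b) := by
  rw [inl_aut, map_inv]

theorem comm_inl_inr (q : alternatingGroup (Fin 5)) (b : Fin 5 → S) :
    ⁅(inl b : (Fin 5 → S) ⋊[permAct S] alternatingGroup (Fin 5)),
      (inr q : (Fin 5 → S) ⋊[permAct S] alternatingGroup (Fin 5))⁆ =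
      inl (b * permAct S q b⁻¹) := by
  rw [commutatorElement_def, map_mul, inl_aut, map_inv, map_inv]
  group

theorem u0_eq_comm (s : S) :
    u0 S s = ⁅inr q₁ * u0 S s * (inr q₁)⁻¹,
      (inr q₂ : (Fin 5 → S) ⋊[permAct S] alternatingGroup (Fin 5))⁆ := by
  unfold u0
  rw [conj_inl, comm_inl_inr]
  congr 1
  funext t
  simp only [Pi.mul_apply, permAct_apply, Pi.inv_apply, q₁_symm, q₂_symm]
  fin_cases t <;> simp [Pi.mulSingle_apply]

theorem G₀_perfect : commutator (G₀ S) = ⊤ := by
  have key : G₀ S ≤ ⁅G₀ S, G₀ S⁆ := by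
    have h0 : G₀ S = Subgroup.closure (Set.range (inr : alternatingGroup (Fin 5) →
      (Fin 5 → S) ⋊[permAct S] alternatingGroup (Fin 5)) ∪ Set.range (u0 S)) := rfl
    conv_lhs => rw [h0]
    rw [Subgroup.closure_le]
    rintro w (⟨q, rfl⟩ | ⟨s, rfl⟩)
    · have hq : q ∈ commutator (alternatingGroup (Fin 5)) := by
        rw [commutator_alternatingGroup_eq_top (by simp)]
        trivial
      rw [commutator_def] at hq
      have h1 : (inr q : (Fin 5 → S) ⋊[permAct S] alternatingGroup (Fin 5)) ∈
          Subgroup.map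
            (inr : alternatingGroup (Fin 5) →* (Fin 5 → S) ⋊[permAct S] alternatingGroup (Fin 5))
            ⁅(⊤ : Subgroup (alternatingGroup (Fin 5))), (⊤ : Subgroup (alternatingGroup (Fin 5)))⁆ :=
        Subgroup.mem_map_of_mem _ hq
      rw [Subgroup.map_commutator] at h1
      have h2 : (⊤ : Subgroup (alternatingGroup (Fin 5))).map
          (inr : alternatingGroup (Fin 5) →* (Fin 5 → S) ⋊[permAct S] alternatingGroup (Fin 5))
          ≤ G₀ S := by
        rintro _ ⟨q', -, rfl⟩
        exact inr_mem S q'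
      exact Subgroup.commutator_mono h2 h2 h1
    · rw [SetLike.mem_coe, u0_eq_comm]
      exact Subgroup.commutator_mem_commutator
        ((G₀ S).mul_mem ((G₀ S).mul_mem (inr_mem S _) (u0_mem S s)) ((G₀ S).inv_mem (inr_mem S _)))
        (inr_mem S _)
  rw [eq_top_iff]
  intro g _
  have h1 : (g : (Fin 5 → S) ⋊[permAct S] alternatingGroup (Fin 5)) ∈ ⁅G₀ S, G₀ S⁆ := key g.2
  have h2 : ⁅G₀ S, G₀ S⁆ = (commutator (G₀ S)).map (G₀ S).subtype := by
    rw [commutator_def, Subgroup.map_commutator, ← MonoidHom.range_eq_map, Subgroup.range_subtype]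
  rw [h2] at h1
  obtain ⟨g', hg', heq⟩ := h1
  have : g' = g := Subtype.ext heq
  rwa [← this]

end Construction

open Cfsg.Agent.H98 in
/-- Finite perfect groups have solvable maximal subgroups of unbounded derived length: for every d there is a finite perfect group G (equal to its commutator subgroup) with a solvable maximal subgroup H whose derived length exceeds d, i.e. the d-th term of the derived series of H is non-trivial. (Take the derived subgroup of a wreath product S ≀ A₅ with S solvable of large derived length, and H the preimage of a maximal subgroup of A₅.) -/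
theorem result (d : ℕ) :
    ∃ (G : Type) (_ : Group G) (_ : Finite G) (H : Subgroup G), commutator G = ⊤ ∧ IsCoatom H ∧ Group.IsSolvable H ∧
      derivedSeries H d ≠ ⊥ := by
  obtain ⟨S, hS, hfin, ⟨k, hk⟩, hd⟩ := exists_two_group d
  obtain ⟨M, hM, hMsolv⟩ := exists_solvable_coatom_A5
  have hWfin : Finite ((Fin 5 → S) ⋊[permAct S] alternatingGroup (Fin 5)) :=
    Finite.of_equiv _ SemidirectProduct.equivProd.symm
  have hp2 : Fact (Nat.Prime 2) := ⟨by norm_num⟩
  -- the base group is solvable
  have hbase : Group.IsSolvable (Fin 5 → S) := by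
    have hp : IsPGroup 2 (Fin 5 → S) := by
      apply IsPGroup.of_card (n := k * 5)
      rw [Nat.card_fun, hk, Nat.card_fin, pow_mul]
    have := hp.isNilpotent
    infer_instance
  have hker : Group.IsSolvable (rightHom : (Fin 5 → S) ⋊[permAct S] alternatingGroup (Fin 5) →*
      alternatingGroup (Fin 5)).ker := by
    rw [← range_inl_eq_ker_rightHom]
    exact Group.isSolvable_of_surjective
      (inl : (Fin 5 → S) →* (Fin 5 → S) ⋊[permAct S] alternatingGroup (Fin 5)).rangeRestrict_surjective
  -- the hom onto `A₅`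
  set ρ : G₀ S →* alternatingGroup (Fin 5) :=
    (rightHom : (Fin 5 → S) ⋊[permAct S] alternatingGroup (Fin 5) →*
      alternatingGroup (Fin 5)).comp (G₀ S).subtype with hρ
  have hρsurj : Function.Surjective ρ := fun q => ⟨⟨inr q, inr_mem S q⟩,
    rightHom_inr (φ := permAct S) q⟩
  refine ⟨G₀ S, inferInstance, inferInstance, M.comap ρ, G₀_perfect S,
    Subgroup.isCoatom_comap_of_surjective hρsurj hM, ?_, ?_⟩
  · -- solvable
    set g : (M.comap ρ) →* M := (ρ.comp (M.comap ρ).subtype).codRestrict M (fun w => w.2) with hg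
    have hgker : ∀ w : g.ker, rightHom (((w : M.comap ρ) : G₀ S) :
        (Fin 5 → S) ⋊[permAct S] alternatingGroup (Fin 5)) = 1 := by
      intro w
      have h1 : g (w : M.comap ρ) = 1 := w.2
      exact congrArg Subtype.val h1
    set ι : g.ker →* (rightHom : (Fin 5 → S) ⋊[permAct S] alternatingGroup (Fin 5) →*
        alternatingGroup (Fin 5)).ker :=
      (((G₀ S).subtype.comp (M.comap ρ).subtype).comp g.ker.subtype).codRestrict _ hgker with hι
    have hιinj : Function.Injective ι := by
      intro a b hab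
      have h1 := congrArg Subtype.val hab
      exact (((G₀ S).subtype_injective.comp (M.comap ρ).subtype_injective).comp
        g.ker.subtype_injective) h1
    have hkersolv : Group.IsSolvable g.ker := Group.isSolvable_of_isSolvable_injective hιinj
    exact Group.isSolvable_of_ker_le_range g.ker.subtype g (by simp)
  · -- derived length
    set B : Subgroup ((Fin 5 → S) ⋊[permAct S] alternatingGroup (Fin 5)) :=
      G₀ S ⊓ (rightHom : (Fin 5 → S) ⋊[permAct S] alternatingGroup (Fin 5) →*
        alternatingGroup (Fin 5)).ker with hB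
    have hBright : ∀ b : B, (b : (Fin 5 → S) ⋊[permAct S] alternatingGroup (Fin 5)).right = 1 :=
      fun b => b.2.2
    set ι₁ : B →* G₀ S := Subgroup.inclusion inf_le_left with hι₁
    have hι₁mem : ∀ b : B, ι₁ b ∈ M.comap ρ := by
      intro b
      have h1 : ρ (ι₁ b) = 1 := hBright b
      rw [Subgroup.mem_comap, h1]
      exact M.one_mem
    set ι₂ : B →* M.comap ρ := ι₁.codRestrict _ hι₁mem with hι₂
    have hι₂inj : Function.Injective ι₂ := by
      intro a b hab
      have h1 := congrArg Subtype.val hab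
      exact Subgroup.inclusion_injective _ h1
    let ψ : B →* S :=
      { toFun := fun b => (b : (Fin 5 → S) ⋊[permAct S] alternatingGroup (Fin 5)).left 0
        map_one' := rfl
        map_mul' := by
          intro a b
          show ((a : (Fin 5 → S) ⋊[permAct S] alternatingGroup (Fin 5)) * b).left 0 = _
          rw [mul_left, hBright a, map_one]
          rfl }
    have hψ : Function.Surjective ψ := by
      intro s
      refine ⟨⟨u0 S s, Subgroup.mem_inf.mpr ⟨u0_mem S s, ?_⟩⟩, ?_⟩
      · rw [MonoidHom.mem_ker]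
        exact rightHom_inl _
      · show (Pi.mulSingle (0 : Fin 5) s * Pi.mulSingle (1 : Fin 5) s⁻¹ : Fin 5 → S) 0 = s
        simp [Pi.mulSingle_apply]
    exact derivedSeries_ne_bot_of_section ι₂ hι₂inj ψ hψ d hd

end Cfsg.Agent.S5896
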