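import Cfsg.Statements.S5902
import Cfsg.Agent.S5901

set_option autoImplicit false
open Cfsg

namespace Cfsg.Agent.S5902

/-- Conjugating a complement. -/
theorem exists_compl_of_conj {G : Type*} [Group G] (H : Subgroup G) (b : G)
    (h : ∃ C : Subgroup G, H.map (MulAut.conj b).toMonoidHom ⊔ C = ⊤ ∧
      H.map (MulAut.conj b).toMonoidHom ⊓ C = ⊥) :
    ∃ C : Subgroup G, H ⊔ C = ⊤ ∧ H ⊓ C = ⊥ := by
  obtain ⟨C, h1, h2⟩ := h
  let e : Subgroup G ≃o Subgroup G := MulEquiv.mapSubgroup (MulAut.conj b)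
  have he : ∀ K : Subgroup G, e K = K.map (MulAut.conj b).toMonoidHom := fun K => rfl
  refine ⟨e.symm C, ?_, ?_⟩
  · apply e.injective
    rw [map_sup, OrderIso.apply_symm_apply, he, h1, map_top]
  · apply e.injective
    rw [map_inf, OrderIso.apply_symm_apply, he, h2, map_bot]

/-- Let G be a finite group, X a subgroup whose own subgroup lattice is complemented, and suppose X lies in exactly one maximal subgroup M of G. Then every subgroup H of G not contained in the normal core of M has a complement in the subgroup lattice of G (some C with H ⊔ C = G and H ⊓ C = 1); in particular the subgroup lattice of G modulo the normal core of M is complemented. -/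
theorem result {G : Type*} [Group G] [Finite G] (X M : Subgroup G)
    (hK : ComplementedLattice (Subgroup X))
    (hM : IsCoatom M) (hXM : X ≤ M) (huniq : ∀ M' : Subgroup G, IsCoatom M' → X ≤ M' → M' = M) :
    (∀ H : Subgroup G, ¬ H ≤ M.normalCore → ∃ C : Subgroup G, H ⊔ C = ⊤ ∧ H ⊓ C = ⊥) ∧
    ComplementedLattice (Subgroup (G ⧸ M.normalCore)) := by
  have hX : X ≠ ⊤ := fun h => hM.1 (top_le_iff.mp (h ▸ hXM))
  have hint : ∀ Y : Subgroup G, (⊥ : Subgroup G) ≤ Y → Y ≤ X →
      ∃ C : Subgroup G, ⊥ ≤ C ∧ C ≤ X ∧ Y ⊔ C = X ∧ Y ⊓ C = ⊥ := by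
    intro Y _ hYX
    obtain ⟨C', hC'⟩ := exists_isCompl (Y.subgroupOf X)
    refine ⟨C'.map X.subtype, bot_le, ?_, ?_, ?_⟩
    · exact (Subgroup.map_subtype_le C')
    · have h1 : (Y.subgroupOf X ⊔ C').map X.subtype = X := by
        rw [hC'.sup_eq_top, ← MonoidHom.range_eq_map, Subgroup.range_subtype]
      rw [Subgroup.map_sup, Subgroup.map_subgroupOf_eq_of_le hYX] at h1
      exact h1
    · have h1 : (Y.subgroupOf X ⊓ C').map X.subtype = ⊥ := by
        rw [hC'.inf_eq_bot, Subgroup.map_bot]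
      rw [Subgroup.map_inf _ _ _ X.subtype_injective, Subgroup.map_subgroupOf_eq_of_le hYX] at h1
      exact h1
  have key : ∀ H : Subgroup G, ¬ H ≤ M.normalCore → ∃ C : Subgroup G, H ⊔ C = ⊤ ∧ H ⊓ C = ⊥ := by
    intro H hH
    obtain ⟨h, hh, hnot⟩ := SetLike.not_le_iff_exists.mp hH
    have : ∃ b : G, b * h * b⁻¹ ∉ M := by
      by_contra hcon
      exact hnot (fun b => not_not.mp (fun hb => hcon ⟨b, hb⟩))
    obtain ⟨b, hb⟩ := this
    apply exists_compl_of_conj H b
    apply Cfsg.Agent.S5901.result ⊥ X M bot_le hX hint hM hXM huniq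
    · intro hle
      apply hb
      apply hle
      exact ⟨h, hh, rfl⟩
    · exact inf_bot_eq _
  refine ⟨key, ⟨fun Hb => ?_⟩⟩
  by_cases hHb : Hb = ⊥
  · exact ⟨⊤, hHb ▸ isCompl_bot_top⟩
  · have hsurj : Function.Surjective (QuotientGroup.mk' M.normalCore) := QuotientGroup.mk'_surjective _
    have hnot : ¬ Hb.comap (QuotientGroup.mk' M.normalCore) ≤ M.normalCore := by
      intro hle
      apply hHb
      rw [← Subgroup.map_comap_eq_self_of_surjective hsurj Hb, eq_bot_iff]
      calc (Hb.comap (QuotientGroup.mk' M.normalCore)).map (QuotientGroup.mk' M.normalCore)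
          ≤ (M.normalCore).map (QuotientGroup.mk' M.normalCore) := Subgroup.map_mono hle
        _ = ⊥ := QuotientGroup.map_mk'_self _
    obtain ⟨C, hC1, hC2⟩ := key _ hnot
    refine ⟨C.map (QuotientGroup.mk' M.normalCore), ?_, ?_⟩
    · rw [disjoint_iff, eq_bot_iff]
      rintro x ⟨hx1, c, hc, rfl⟩
      have : c ∈ Hb.comap (QuotientGroup.mk' M.normalCore) ⊓ C := ⟨hx1, hc⟩
      rw [hC2, Subgroup.mem_bot] at this
      rw [this, map_one]
      exact Subgroup.one_mem _
    · rw [codisjoint_iff]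
      have := congrArg (Subgroup.map (QuotientGroup.mk' M.normalCore)) hC1
      rw [Subgroup.map_sup, Subgroup.map_comap_eq_self_of_surjective hsurj,
        Subgroup.map_top_of_surjective _ hsurj] at this
      exact this

end Cfsg.Agent.S5902
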