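import Cfsg.Statements.S5903
import Cfsg.Agent.S5902

set_option autoImplicit false
open Cfsg

namespace Cfsg.Agent.S5903

/-- The interval `[N, X]` is complemented when the subgroup lattice of `X/N` is. -/
theorem interval_complemented {G : Type*} [Group G] (X N : Subgroup G) (hNX : N ≤ X)
    [(N.subgroupOf X).Normal] (hK : ComplementedLattice (Subgroup (X ⧸ N.subgroupOf X))) :
    ∀ Y : Subgroup G, N ≤ Y → Y ≤ X → ∃ C : Subgroup G, N ≤ C ∧ C ≤ X ∧ Y ⊔ C = X ∧ Y ⊓ C = N := by
  intro Y hNY hYX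
  set π := QuotientGroup.mk' (N.subgroupOf X) with hπ
  have hsurj : Function.Surjective π := QuotientGroup.mk'_surjective _
  have hker : π.ker = N.subgroupOf X := QuotientGroup.ker_mk' _
  have hN'Y' : N.subgroupOf X ≤ Y.subgroupOf X := fun x hx => hNY hx
  obtain ⟨Cb, hCb⟩ := exists_isCompl ((Y.subgroupOf X).map π)
  have hY' : ((Y.subgroupOf X).map π).comap π = Y.subgroupOf X := by
    rw [Subgroup.comap_map_eq, hker, sup_eq_left]
    exact hN'Y'
  have hsup : Y.subgroupOf X ⊔ Cb.comap π = ⊤ := by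
    conv_lhs => rw [← hY']
    rw [Subgroup.comap_sup_eq π _ _ hsurj, hCb.sup_eq_top, Subgroup.comap_top]
  have hinf : Y.subgroupOf X ⊓ Cb.comap π = N.subgroupOf X := by
    conv_lhs => rw [← hY']
    rw [← Subgroup.comap_inf, hCb.inf_eq_bot]
    exact hker
  refine ⟨(Cb.comap π).map X.subtype, ?_, Subgroup.map_subtype_le _, ?_, ?_⟩
  · have h0 : (N.subgroupOf X).map X.subtype ≤ (Cb.comap π).map X.subtype :=
      Subgroup.map_mono (hker.ge.trans (MonoidHom.ker_le_comap π Cb))
    exact (Subgroup.map_subgroupOf_eq_of_le hNX).ge.trans h0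
  · have h1 := congrArg (Subgroup.map X.subtype) hsup
    rw [Subgroup.map_sup, Subgroup.map_subgroupOf_eq_of_le hYX, ← MonoidHom.range_eq_map,
      Subgroup.range_subtype] at h1
    exact h1
  · have h1 := congrArg (Subgroup.map X.subtype) hinf
    rw [Subgroup.map_inf _ _ _ X.subtype_injective, Subgroup.map_subgroupOf_eq_of_le hYX,
      Subgroup.map_subgroupOf_eq_of_le hNX] at h1
    exact h1

/-- Key lemma: some conjugate of `H` avoids both `M` and `N`. -/
theorem exists_conj {G : Type*} [Group G] [Finite G] [IsSimpleGroup G] (M N : Subgroup G)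
    (hM : IsCoatom M) (hN : (Nat.card N).Prime) (hcen : ∀ n ∈ N, ∀ m ∈ M, m * n = n * m)
    (H : Subgroup G) (hHbot : H ≠ ⊥) (hHtop : H ≠ ⊤) :
    ∃ c : G, (∃ h ∈ H, c⁻¹ * h * c ∉ M) ∧ (∃ n ∈ N, c * n * c⁻¹ ∉ H) := by
  by_contra hcon
  have hyp : ∀ c : G, (∀ h ∈ H, c⁻¹ * h * c ∈ M) ∨ (∀ n ∈ N, c * n * c⁻¹ ∈ H) := by
    intro c
    by_contra h
    rw [not_or] at h
    apply hcon
    refine ⟨c, ?_, ?_⟩
    · by_contra h'
      exact h.1 (fun x hx => not_not.mp (fun hx' => h' ⟨x, hx, hx'⟩))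
    · by_contra h'
      exact h.2 (fun x hx => not_not.mp (fun hx' => h' ⟨x, hx, hx'⟩))
  -- the set of elements of conjugates of N contained in H
  set S : Set G := {x | ∃ c n, n ∈ N ∧ x = c * n * c⁻¹ ∧ ∀ n' ∈ N, c * n' * c⁻¹ ∈ H} with hS
  have hSH : S ⊆ H := by
    rintro x ⟨c, n, hn, rfl, hc⟩
    exact hc n hn
  have claim1 : ∀ c n, n ∈ N → ∀ x ∈ S, (c * n * c⁻¹) * x * (c * n * c⁻¹)⁻¹ ∈ S := by
    intro c n hn x hx
    rcases hyp c with hA | hB
    · -- x ∈ H, so c⁻¹ x c ∈ M commutes with n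
      have hxH : x ∈ H := hSH hx
      have hcomm := hcen n hn _ (hA x hxH)
      have : (c * n * c⁻¹) * x * (c * n * c⁻¹)⁻¹ = x := by
        have h1 : (c * n * c⁻¹) * x * (c * n * c⁻¹)⁻¹ = c * (n * (c⁻¹ * x * c)) * n⁻¹ * c⁻¹ := by
          group
        rw [h1, ← hcomm]
        group
      rw [this]
      exact hx
    · obtain ⟨a, n₁, hn₁, rfl, ha⟩ := hx
      have hyH : c * n * c⁻¹ ∈ H := hB n hn
      refine ⟨(c * n * c⁻¹) * a, n₁, hn₁, by group, ?_⟩
      intro n' hn'
      have : (c * n * c⁻¹) * a * n' * ((c * n * c⁻¹) * a)⁻¹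
          = (c * n * c⁻¹) * (a * n' * a⁻¹) * (c * n * c⁻¹)⁻¹ := by group
      rw [this]
      exact H.mul_mem (H.mul_mem hyH (ha n' hn')) (H.inv_mem hyH)
  set K : Subgroup G := Subgroup.closure S with hK
  have hKH : K ≤ H := (Subgroup.closure_le H).mpr hSH
  have claim2 : ∀ c n, n ∈ N → ∀ k ∈ K, (c * n * c⁻¹) * k * (c * n * c⁻¹)⁻¹ ∈ K := by
    intro c n hn k hk
    induction hk using Subgroup.closure_induction with
    | mem x hx => exact Subgroup.subset_closure (claim1 c n hn x hx)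
    | one => simp
    | mul a b _ _ iha ihb =>
      have : (c * n * c⁻¹) * (a * b) * (c * n * c⁻¹)⁻¹
          = ((c * n * c⁻¹) * a * (c * n * c⁻¹)⁻¹) * ((c * n * c⁻¹) * b * (c * n * c⁻¹)⁻¹) := by
        group
      rw [this]
      exact K.mul_mem iha ihb
    | inv a _ iha =>
      have : (c * n * c⁻¹) * a⁻¹ * (c * n * c⁻¹)⁻¹ = ((c * n * c⁻¹) * a * (c * n * c⁻¹)⁻¹)⁻¹ := by
        group
      rw [this]
      exact K.inv_mem iha
  -- N is nontrivial
  have hNbot : N ≠ ⊥ := by
    intro h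
    rw [h, Subgroup.card_bot] at hN
    exact Nat.not_prime_one hN
  -- the normal closure of N is everything
  have hnc : Subgroup.normalClosure (N : Set G) = ⊤ := by
    rcases (Subgroup.normalClosure_normal (s := (N : Set G))).eq_bot_or_eq_top with h | h
    · exfalso
      apply hNbot
      rw [eq_bot_iff, ← h]
      exact Subgroup.le_normalClosure
    · exact h
  -- K is normal
  have hnorm : Subgroup.normalizer (K : Set G) = ⊤ := by
    rw [eq_top_iff, ← hnc, Subgroup.normalClosure, Subgroup.closure_le]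
    intro y hy
    rw [Group.mem_conjugatesOfSet_iff] at hy
    obtain ⟨n, hn, hconj⟩ := hy
    rw [isConj_iff] at hconj
    obtain ⟨c, rfl⟩ := hconj
    rw [SetLike.mem_coe, Subgroup.mem_normalizer_iff]
    intro k
    constructor
    · exact claim2 c n hn k
    · intro hk
      have := claim2 c n⁻¹ (N.inv_mem hn) _ hk
      have h2 : c * n⁻¹ * c⁻¹ * (c * n * c⁻¹ * k * (c * n * c⁻¹)⁻¹) * (c * n⁻¹ * c⁻¹)⁻¹ = k := by
        group
      rw [h2] at this
      exact this
  have hKnormal : K.Normal := Subgroup.normalizer_eq_top_iff.mp hnorm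
  -- core of M is trivial
  have hcore : M.normalCore = ⊥ := by
    rcases (Subgroup.normalCore_normal M).eq_bot_or_eq_top with h | h
    · exact h
    · exfalso
      apply hM.1
      rw [eq_top_iff, ← h]
      exact Subgroup.normalCore_le M
  -- some element of S is nontrivial
  have hHcore : ¬ H ≤ M.normalCore := by
    rw [hcore, le_bot_iff]
    exact hHbot
  obtain ⟨h, hh, hnot⟩ := SetLike.not_le_iff_exists.mp hHcore
  have : ∃ b : G, b * h * b⁻¹ ∉ M := by
    by_contra hcon'
    exact hnot (fun b => not_not.mp (fun hb => hcon' ⟨b, hb⟩))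
  obtain ⟨b, hb⟩ := this
  have hB : ∀ n ∈ N, b⁻¹ * n * b⁻¹⁻¹ ∈ H := by
    rcases hyp b⁻¹ with hA | hB
    · exfalso
      apply hb
      have := hA h hh
      rw [inv_inv] at this
      exact this
    · exact hB
  obtain ⟨n, hn, hn1⟩ : ∃ n ∈ N, n ≠ 1 := by
    by_contra hcon'
    apply hNbot
    rw [eq_bot_iff]
    intro x hx
    rw [Subgroup.mem_bot]
    by_contra hx1
    exact hcon' ⟨x, hx, hx1⟩
  have hxS : b⁻¹ * n * b⁻¹⁻¹ ∈ S := ⟨b⁻¹, n, hn, rfl, hB⟩
  rcases hKnormal.eq_bot_or_eq_top with h | h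
  · have : b⁻¹ * n * b⁻¹⁻¹ ∈ K := Subgroup.subset_closure hxS
    rw [h, Subgroup.mem_bot] at this
    apply hn1
    have h3 : n = b * (b⁻¹ * n * b⁻¹⁻¹) * b⁻¹ := by group
    rw [h3, this]
    group
  · apply hHtop
    rw [eq_top_iff, ← h]
    exact hKH

/-- Let G be a finite simple group, X a subgroup lying in exactly one maximal subgroup M of G, and N a subgroup of prime order with N ≤ X that is central in M. If the subgroup lattice of X/N is complemented, then the subgroup lattice of G is complemented. -/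
theorem result {G : Type*} [Group G] [Finite G] [IsSimpleGroup G] (X M N : Subgroup G)
    (hM : IsCoatom M) (hXM : X ≤ M) (huniq : ∀ M' : Subgroup G, IsCoatom M' → X ≤ M' → M' = M)
    (hNX : N ≤ X) (hN : (Nat.card N).Prime) (hcen : ∀ n ∈ N, ∀ m ∈ M, m * n = n * m)
    [(N.subgroupOf X).Normal] (hK : ComplementedLattice (Subgroup (X ⧸ N.subgroupOf X))) :
    ComplementedLattice (Subgroup G) := by
  have hX : X ≠ ⊤ := fun h => hM.1 (top_le_iff.mp (h ▸ hXM))
  have hint := interval_complemented X N hNX hK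
  refine ⟨fun H => ?_⟩
  by_cases hHbot : H = ⊥
  · exact ⟨⊤, hHbot ▸ isCompl_bot_top⟩
  by_cases hHtop : H = ⊤
  · exact ⟨⊥, hHtop ▸ isCompl_top_bot⟩
  obtain ⟨c, ⟨h, hh, hhM⟩, ⟨n, hn, hnH⟩⟩ := exists_conj M N hM hN hcen H hHbot hHtop
  have hex : ∃ C : Subgroup G, H ⊔ C = ⊤ ∧ H ⊓ C = ⊥ := by
    apply Cfsg.Agent.S5902.exists_compl_of_conj H c⁻¹
    apply Cfsg.Agent.S5901.result N X M hNX hX hint hM hXM huniq
    · intro hle
      apply hhM
      apply hle
      refine ⟨h, hh, ?_⟩
      simp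
    · -- the intersection with N is trivial since N has prime order
      have hle : H.map (MulAut.conj c⁻¹).toMonoidHom ⊓ N ≤ N := inf_le_right
      have hdvd : Nat.card ↥(H.map (MulAut.conj c⁻¹).toMonoidHom ⊓ N) ∣ Nat.card N :=
        Subgroup.card_dvd_of_le hle
      rcases (Nat.dvd_prime hN).mp hdvd with h1 | h1
      · exact Subgroup.eq_bot_of_card_eq _ h1
      · exfalso
        have heq : H.map (MulAut.conj c⁻¹).toMonoidHom ⊓ N = N :=
          Subgroup.eq_of_le_of_card_ge hle (le_of_eq h1.symm)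
        have hnmem : n ∈ H.map (MulAut.conj c⁻¹).toMonoidHom := by
          have : n ∈ H.map (MulAut.conj c⁻¹).toMonoidHom ⊓ N := by
            rw [heq]
            exact hn
          exact this.1
        obtain ⟨y, hy, hyn⟩ := hnmem
        apply hnH
        have : c * n * c⁻¹ = y := by
          rw [← hyn]
          simp
          group
        rw [this]
        exact hy
  obtain ⟨C, h1, h2⟩ := hex
  exact ⟨C, disjoint_iff.mpr h2, codisjoint_iff.mpr h1⟩

end Cfsg.Agent.S5903
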