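import Cfsg.Statements.S5904

set_option autoImplicit false
open scoped Pointwise
open Cfsg

namespace Cfsg.Agent.S5904

/-- A permutation exchanging a set with its complement, when they have the same cardinality. -/
theorem exists_perm_swap_compl {Ω : Type*} [Finite Ω] (O : Set Ω)
    (hO : Nat.card O = Nat.card ↥Oᶜ) : ∃ g : Equiv.Perm Ω, ∀ x, g x ∈ O ↔ x ∉ O := by
  classical
  obtain ⟨e⟩ := Finite.card_eq.mp hO
  refine ⟨(Equiv.Set.sumCompl O).symm.trans ((Equiv.sumComm _ _).trans
    ((Equiv.sumCongr e.symm e).trans (Equiv.Set.sumCompl O))), fun x => ?_⟩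
  by_cases hx : x ∈ O
  · simp only [Equiv.trans_apply, Equiv.Set.sumCompl_symm_apply_of_mem hx, Equiv.sumComm_apply,
      Sum.swap_inl, Equiv.sumCongr_apply, Sum.map_inr, Equiv.Set.sumCompl_apply_inr]
    have := (e ⟨x, hx⟩).2
    simp only [Set.mem_compl_iff] at this
    simp [this, hx]
  · simp only [Equiv.trans_apply, Equiv.Set.sumCompl_symm_apply_of_notMem hx, Equiv.sumComm_apply,
      Sum.swap_inr, Equiv.sumCongr_apply, Sum.map_inl, Equiv.Set.sumCompl_apply_inl]
    have := (e.symm ⟨x, hx⟩).2
    simp [this, hx]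

/-- The stabilizer of the partition `{O, Oᶜ}`. -/
def partStab {Ω : Type*} (O : Set Ω) : Subgroup (Equiv.Perm Ω) where
  carrier := {g | g • O = O ∨ g • O = Oᶜ}
  one_mem' := Or.inl (one_smul _ _)
  mul_mem' := by
    rintro g h hg hh
    simp only [Set.mem_setOf_eq] at hg hh ⊢
    rw [mul_smul]
    rcases hh with hh | hh
    · rw [hh]; exact hg
    · rw [hh, Set.smul_set_compl]
      rcases hg with hg | hg
      · rw [hg]; exact Or.inr rfl
      · rw [hg, compl_compl]; exact Or.inl rfl
  inv_mem' := by
    rintro g hg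
    simp only [Set.mem_setOf_eq] at hg ⊢
    rcases hg with hg | hg
    · left
      rw [inv_smul_eq_iff, hg]
    · right
      rw [inv_smul_eq_iff, Set.smul_set_compl, hg, compl_compl]

/-- Let Ω be a finite set with more than two elements and O ⊆ Ω a subset with exactly as many elements as its complement. Then the setwise stabilizer of O in the symmetric group on Ω is not a maximal subgroup (it is properly contained in the stabilizer of the partition {O, Ω ∖ O}, which is proper). -/
theorem result {Ω : Type*} [Fintype Ω] [DecidableEq Ω] (hΩ : 2 < Fintype.card Ω)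
    (O : Set Ω) (hO : Nat.card O = Nat.card ↥Oᶜ) :
    ¬ IsCoatom (MulAction.stabilizer (Equiv.Perm Ω) O) := by
  intro hco
  -- cardinalities
  have hcard : O.ncard + Oᶜ.ncard = Fintype.card Ω := by
    rw [Set.ncard_add_ncard_compl, Nat.card_eq_fintype_card]
  have hO' : O.ncard = Oᶜ.ncard := by
    rw [← Nat.card_coe_set_eq, ← Nat.card_coe_set_eq]
    exact hO
  have h2 : 1 < O.ncard := by omega
  obtain ⟨a, a', ha, ha', haa'⟩ := (Set.one_lt_ncard_iff (Set.toFinite O)).mp h2
  have hc : 0 < Oᶜ.ncard := by omega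
  obtain ⟨b, hb⟩ := (Set.ncard_pos (Set.toFinite _)).mp hc
  rw [Set.mem_compl_iff] at hb
  -- stabilizer < partStab
  have hlt : MulAction.stabilizer (Equiv.Perm Ω) O < partStab O := by
    refine lt_of_le_of_ne (fun g hg => Or.inl (MulAction.mem_stabilizer_iff.mp hg)) ?_
    intro heq
    obtain ⟨g, hg⟩ := exists_perm_swap_compl O hO
    have hgO : g • O = Oᶜ := by
      ext y
      rw [Set.mem_smul_set_iff_inv_smul_mem, Set.mem_compl_iff]
      have := hg (g⁻¹ • y)
      rw [Equiv.Perm.smul_def] at this ⊢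
      have h3 : g (g⁻¹ y) = y := g.apply_symm_apply y
      rw [h3] at this
      tauto
    have hmem : g ∈ partStab O := Or.inr hgO
    rw [← heq, MulAction.mem_stabilizer_iff, hgO] at hmem
    have : a ∈ Oᶜ := by rw [hmem]; exact ha
    exact this ha
  have htop := hco.2 _ hlt
  -- but swap a b is not in partStab
  have hmem : Equiv.swap a b ∈ partStab O := htop ▸ Subgroup.mem_top _
  have hab : a ≠ b := fun h => hb (h ▸ ha)
  have ha'b : a' ≠ b := fun h => hb (h ▸ ha')
  have hb_mem : b ∈ Equiv.swap a b • O := by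
    rw [Set.mem_smul_set]
    exact ⟨a, ha, by rw [Equiv.Perm.smul_def, Equiv.swap_apply_left]⟩
  have ha'_mem : a' ∈ Equiv.swap a b • O := by
    rw [Set.mem_smul_set]
    exact ⟨a', ha', by
      rw [Equiv.Perm.smul_def, Equiv.swap_apply_of_ne_of_ne (Ne.symm haa') ha'b]⟩
  rcases hmem with h | h
  · rw [h] at hb_mem
    exact hb hb_mem
  · rw [h] at ha'_mem
    exact ha'_mem ha'

end Cfsg.Agent.S5904
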