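import Cfsg.Statements.S5908
import Cfsg.Agent.H98.U32

set_option autoImplicit false
open Cfsg

namespace Cfsg.Agent.S5908

/-- U3(2) (order 72, ≅ 3²:Q8) does not have a complemented subgroup lattice. -/
theorem result {F : Type*} [Field F] [Fintype F] (hF : Fintype.card F = 4) :
    ¬ ComplementedLattice (Subgroup (Cfsg.PSU 3 F 2)) := by
  intro hc
  set Z : Subgroup (Cfsg.SU 3 F 2) := Subgroup.center (Cfsg.SU 3 F 2) with hZ
  set H : Subgroup (Cfsg.PSU 3 F 2) := (H98.monoSU F).map (QuotientGroup.mk' Z) with hH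
  obtain ⟨K, hK⟩ := hc.exists_isCompl H
  have hZM : Z ≤ H98.monoSU F := H98.center_le_monoSU hF
  have key1 : ∀ g : Cfsg.SU 3 F 2, QuotientGroup.mk' Z g ∈ H → g ∈ H98.monoSU F := by
    intro g hg
    obtain ⟨m, hm, hmg⟩ := hg
    have h1 : m⁻¹ * g ∈ Z := QuotientGroup.eq.1 hmg
    have h2 := (H98.monoSU F).mul_mem hm (hZM h1)
    rwa [mul_inv_cancel_left] at h2
  have hKbot : K = ⊥ := by
    rw [eq_bot_iff]
    intro k hk
    obtain ⟨g, rfl⟩ := QuotientGroup.mk'_surjective Z k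
    have h2 : QuotientGroup.mk' Z (g * g) ∈ H :=
      Subgroup.mem_map_of_mem _ (H98.sq_mem_monoSU hF g)
    have h3 : QuotientGroup.mk' Z (g * g) ∈ H ⊓ K :=
      ⟨h2, by rw [map_mul]; exact K.mul_mem hk hk⟩
    rw [hK.disjoint.eq_bot, Subgroup.mem_bot] at h3
    have h5 : g * g ∈ Z := (QuotientGroup.eq_one_iff _).1 h3
    have h6 : g ∈ H98.monoSU F := H98.mem_monoSU_of_sq_center hF g h5
    have h7 : QuotientGroup.mk' Z g ∈ H ⊓ K := ⟨Subgroup.mem_map_of_mem _ h6, hk⟩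
    rw [hK.disjoint.eq_bot] at h7
    exact h7
  have hHtop : H = ⊤ := by
    have h := hK.codisjoint.eq_top
    rwa [hKbot, sup_bot_eq] at h
  obtain ⟨g, hg⟩ := H98.exists_not_rowMono hF
  exact hg (key1 g (hHtop ▸ Subgroup.mem_top _)).1

end Cfsg.Agent.S5908
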