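import Cfsg.Statements.S5910
import Cfsg.Agent.H98.PartStab
import Cfsg.Agent.H98.SubgroupOf
import Cfsg.Agent.H98.Affine8

set_option autoImplicit false
open Cfsg

namespace Cfsg.Agent.S5910

open Cfsg.Agent.H98 in
/-- Let Ω be a set with 8 elements and f : Ω → Fin 4 a labelling whose four fibres all have size 2 (a partition of the 8 points into 4 pairs). Then the group of even permutations preserving this partition, (S₂ ≀ S₄) ∩ A₈, is not a maximal subgroup of the alternating group A₈ (it lies in a subgroup isomorphic to the affine group AGL₃(2)). -/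
theorem result {Ω : Type*} [Fintype Ω] [DecidableEq Ω] (h8 : Fintype.card Ω = 8)
    (f : Ω → Fin 4) (hf : ∀ i : Fin 4, Nat.card {x : Ω // f x = i} = 2) :
    ¬ IsCoatom ((Subgroup.closure {g : Equiv.Perm Ω | ∀ x y : Ω, f x = f y ↔ f (g x) = f (g y)} ⊓ alternatingGroup Ω).subgroupOf (alternatingGroup Ω)) := by
  rw [closure_partStab]
  set e : Ω ≃ P8 := fibEquiv f hf with he
  have hfst : ∀ x, (e x).1 = f x := fibEquiv_fst f hf
  set φ : Equiv.Perm Ω ≃* Equiv.Perm P8 := e.permCongrHom with hφ
  have hφapp : ∀ (g : Equiv.Perm Ω) (p : P8), φ g p = e (g (e.symm p)) := fun g p => rfl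
  have hφsign : ∀ g : Equiv.Perm Ω, Equiv.Perm.sign (φ g) = Equiv.Perm.sign g :=
    fun g => Equiv.Perm.sign_permCongr e g
  have hφpart : ∀ g : Equiv.Perm Ω, g ∈ partStab f ↔ φ g ∈ partStab (Prod.fst : P8 → Fin 4) := by
    intro g
    constructor
    · intro hg p q
      rw [hφapp, hφapp, hfst, hfst, ← hg (e.symm p) (e.symm q), ← hfst, ← hfst,
        e.apply_symm_apply, e.apply_symm_apply]
    · intro hg x y
      have := hg (e x) (e y)
      rw [hφapp, hφapp, hfst, hfst, hfst, hfst, e.symm_apply_apply, e.symm_apply_apply] at this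
      exact this
  -- the intermediate subgroup
  set Y : Subgroup (Equiv.Perm Ω) := aff8.comap φ.toMonoidHom ⊓ alternatingGroup Ω with hY
  have hKY : partStab f ⊓ alternatingGroup Ω < Y := by
    refine lt_of_le_of_ne ?_ ?_
    · intro g hg
      obtain ⟨hg1, hg2⟩ := Subgroup.mem_inf.mp hg
      refine Subgroup.mem_inf.mpr ⟨?_, hg2⟩
      change φ g ∈ aff8
      apply partStab_inf_alt_le_aff8
      refine Subgroup.mem_inf.mpr ⟨(hφpart g).mp hg1, ?_⟩
      rw [Equiv.Perm.mem_alternatingGroup] at hg2 ⊢
      rw [hφsign, hg2]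
    · intro heq
      have hmem : φ.symm aff8Wit ∈ Y := by
        refine Subgroup.mem_inf.mpr ⟨?_, ?_⟩
        · change φ (φ.symm aff8Wit) ∈ aff8
          rw [φ.apply_symm_apply]
          exact aff8Wit_mem
        · rw [Equiv.Perm.mem_alternatingGroup, ← hφsign, φ.apply_symm_apply]
          exact aff8Wit_sign
      rw [← heq] at hmem
      have := (hφpart _).mp (Subgroup.mem_inf.mp hmem).1
      rw [φ.apply_symm_apply] at this
      exact aff8Wit_not_mem this
  have hYA : Y < alternatingGroup Ω := by
    refine lt_of_le_of_ne inf_le_right ?_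
    intro heq
    have hmem : φ.symm nonAff8Wit ∈ alternatingGroup Ω := by
      rw [Equiv.Perm.mem_alternatingGroup, ← hφsign, φ.apply_symm_apply]
      exact nonAff8Wit_sign
    rw [← heq] at hmem
    have : φ (φ.symm nonAff8Wit) ∈ aff8 := (Subgroup.mem_inf.mp hmem).1
    rw [φ.apply_symm_apply] at this
    exact nonAff8Wit_not_mem this
  exact not_isCoatom_subgroupOf hKY hYA

end Cfsg.Agent.S5910
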