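import Cfsg.Statements.S5913

set_option autoImplicit false
open Cfsg

namespace Cfsg.Agent.S5913

/-- In a non-abelian simple group, every non-identity element fails to commute with something. -/
theorem exists_not_commute {S : Type*} [Group S] [IsSimpleGroup S] (hS : ¬ IsMulCommutative S)
    (z : S) (hz : z ≠ 1) : ∃ s : S, s * z ≠ z * s := by
  have hcen : Subgroup.center S = ⊥ := by
    rcases (inferInstance : (Subgroup.center S).Normal).eq_bot_or_eq_top with h | h
    · exact h
    · exfalso
      apply hS
      refine ⟨⟨fun a b => ?_⟩⟩
      have hb : b ∈ Subgroup.center S := h ▸ Subgroup.mem_top b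
      exact (Subgroup.mem_center_iff.mp hb a)
  by_contra hcon
  apply hz
  have : z ∈ Subgroup.center S := by
    rw [Subgroup.mem_center_iff]
    intro g
    by_contra h
    exact hcon ⟨g, h⟩
  rw [hcen, Subgroup.mem_bot] at this
  exact this

/-- Let S be a non-abelian simple group and n a natural number. Every normal subgroup N of the direct power S^n (functions Fin n → S) is a subproduct: there is a set T of coordinates such that N consists exactly of the elements whose coordinates outside T are trivial. In particular the minimal normal subgroups of S^n are its n factors. -/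
theorem result {S : Type*} [Group S] [IsSimpleGroup S] (hS : ¬ IsMulCommutative S) (n : ℕ)
    (N : Subgroup (Fin n → S)) [N.Normal] :
    ∃ T : Finset (Fin n), ∀ x : Fin n → S, x ∈ N ↔ ∀ i, i ∉ T → x i = 1 := by
  classical
  refine ⟨Finset.univ.filter (fun i => ∃ y ∈ N, y i ≠ 1), fun x => ⟨?_, ?_⟩⟩
  · intro hx i hi
    by_contra h
    apply hi
    rw [Finset.mem_filter]
    exact ⟨Finset.mem_univ i, x, hx, h⟩
  · intro hx
    have key : ∀ i : Fin n, Pi.mulSingle i (x i) ∈ N := by
      intro i
      by_cases hi : i ∈ Finset.univ.filter (fun i => ∃ y ∈ N, y i ≠ 1)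
      · rw [Finset.mem_filter] at hi
        obtain ⟨-, y, hy, hyi⟩ := hi
        obtain ⟨s, hs⟩ := exists_not_commute hS (y i) hyi
        have hnorm : (N.comap (MonoidHom.mulSingle (fun _ : Fin n => S) i)).Normal :=
          Subgroup.Normal.comap inferInstance _
        have hmem : y i * s * (y i)⁻¹ * s⁻¹ ∈ N.comap (MonoidHom.mulSingle (fun _ : Fin n => S) i) := by
          rw [Subgroup.mem_comap]
          have h1 : MonoidHom.mulSingle (fun _ : Fin n => S) i (y i * s * (y i)⁻¹ * s⁻¹)
              = y * (Pi.mulSingle i s * y⁻¹ * (Pi.mulSingle i s)⁻¹) := by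
            funext j
            by_cases hj : j = i
            · subst hj
              simp [mul_assoc]
            · simp [Pi.mulSingle_eq_of_ne hj]
          rw [h1]
          exact N.mul_mem hy (Subgroup.Normal.conj_mem inferInstance _ (N.inv_mem hy) _)
        have hne : y i * s * (y i)⁻¹ * s⁻¹ ≠ 1 := by
          intro h
          apply hs
          have h2 : y i * s = s * y i := by
            have := congrArg (fun t => t * s * y i) h
            simpa [mul_assoc] using this
          exact h2.symm
        rcases hnorm.eq_bot_or_eq_top with h | h
        · exfalso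
          rw [h, Subgroup.mem_bot] at hmem
          exact hne hmem
        · have : x i ∈ N.comap (MonoidHom.mulSingle (fun _ : Fin n => S) i) := h ▸ Subgroup.mem_top _
          exact this
      · rw [hx i hi, Pi.mulSingle_one]
        exact N.one_mem
    have hprod := Finset.noncommProd_mulSingle x
    rw [← hprod]
    exact Subgroup.noncommProd_mem N _ (fun i _ => key i)

end Cfsg.Agent.S5913
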