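import Mathlib
import Cfsg.Agent.H65.CharSimple
import Cfsg.Statements.S5914

set_option autoImplicit false
open Cfsg

namespace Cfsg.Agent.S5914

section
variable {S : Type*} [Group S] {n : ℕ}

/-- transvection automorphism of a commutative power -/
def transv (hc : ∀ a b : S, a * b = b * a) (i j : Fin n) (hij : i ≠ j) :
    (Fin n → S) ≃* (Fin n → S) where
  toFun x := x * Pi.mulSingle j (x i)
  invFun x := x * Pi.mulSingle j (x i)⁻¹
  left_inv x := by
    funext l
    by_cases hl : l = j
    · subst hl; simp [Pi.mulSingle_eq_of_ne hij]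
    · simp [Pi.mulSingle_eq_of_ne hl]
  right_inv x := by
    funext l
    by_cases hl : l = j
    · subst hl; simp [Pi.mulSingle_eq_of_ne hij]
    · simp [Pi.mulSingle_eq_of_ne hl]
  map_mul' x y := by
    funext l
    by_cases hl : l = j
    · subst hl
      simp only [Pi.mul_apply, Pi.mulSingle_eq_same]
      simp only [mul_assoc]; congr 1
      rw [← mul_assoc, hc (y l) (x i), mul_assoc]
    · simp [Pi.mulSingle_eq_of_ne hl]

theorem char_power [IsSimpleGroup S] (H' : Subgroup (Fin n → S))
    (hchar : ∀ ψ : (Fin n → S) ≃* (Fin n → S), ∀ y ∈ H', ψ y ∈ H') : H' = ⊥ ∨ H' = ⊤ := by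
  classical
  by_cases hbot : H' = ⊥
  · exact Or.inl hbot
  right
  obtain ⟨h, hh, hne⟩ : ∃ h ∈ H', h ≠ 1 := by
    by_contra hcon
    push Not at hcon
    exact hbot ((Subgroup.eq_bot_iff_forall H').mpr hcon)
  obtain ⟨i, hi⟩ : ∃ i, h i ≠ 1 := by
    by_contra hcon
    push Not at hcon
    exact hne (funext hcon)
  have hconj : ∀ u y : Fin n → S, y ∈ H' → u * y * u⁻¹ ∈ H' :=
    fun u y hy => hchar (MulAut.conj u) y hy
  have claim : ∃ k, ∃ c : S, c ≠ 1 ∧ Pi.mulSingle k c ∈ H' := by
    by_cases hcen : ∃ s : S, s * h i ≠ h i * s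
    · obtain ⟨s, hs⟩ := hcen
      refine ⟨i, s * h i * s⁻¹ * (h i)⁻¹, ?_, ?_⟩
      · intro h1
        apply hs
        have h2 := mul_inv_eq_one.mp h1
        calc s * h i = (s * h i * s⁻¹) * s := by group
          _ = h i * s := by rw [h2]
      · have hmem : Pi.mulSingle i s * h * (Pi.mulSingle i s)⁻¹ * h⁻¹ ∈ H' :=
          H'.mul_mem (hconj _ _ hh) (H'.inv_mem hh)
        convert hmem using 1
        funext l
        by_cases hl : l = i
        · subst hl; simp
        · simp [Pi.mulSingle_eq_of_ne hl]
    · push Not at hcen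
      have hcomm : ∀ a b : S, a * b = b * a := by
        have hz : Subgroup.center S = ⊤ := by
          rcases (inferInstance : (Subgroup.center S).Normal).eq_bot_or_eq_top with h0 | h0
          · exfalso; apply hi
            have : h i ∈ Subgroup.center S := Subgroup.mem_center_iff.mpr (fun s => hcen s)
            rw [h0] at this; exact Subgroup.mem_bot.mp this
          · exact h0
        intro a b
        have : b ∈ Subgroup.center S := hz ▸ Subgroup.mem_top b
        exact Subgroup.mem_center_iff.mp this a
      by_cases hj : ∃ j, j ≠ i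
      · obtain ⟨j, hj⟩ := hj
        refine ⟨j, h i, hi, ?_⟩
        have hmem : transv hcomm i j (Ne.symm hj) h * h⁻¹ ∈ H' :=
          H'.mul_mem (hchar _ h hh) (H'.inv_mem hh)
        convert hmem using 1
        funext l
        show (Pi.mulSingle j (h i) : Fin n → S) l
          = ((h * Pi.mulSingle j (h i) : Fin n → S) l) * ((h⁻¹ : Fin n → S) l)
        simp only [Pi.mul_apply, Pi.inv_apply]
        rw [hcomm (h l), mul_assoc, mul_inv_cancel, mul_one]
      · push Not at hj
        refine ⟨i, h i, hi, ?_⟩
        convert hh using 1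
        funext l
        rw [hj l]; simp
  obtain ⟨k, c, hc, hkc⟩ := claim
  have hK : ∀ s : S, Pi.mulSingle k s ∈ H' := by
    set K : Subgroup S := H'.comap (MonoidHom.mulSingle (fun _ : Fin n => S) k) with hKdef
    have hKn : K.Normal := by
      constructor
      intro x hx g
      rw [hKdef, Subgroup.mem_comap] at hx ⊢
      have := hconj (Pi.mulSingle k g) _ hx
      convert this using 1
      simp [← Pi.mulSingle_mul, ← Pi.mulSingle_inv]
    rcases hKn.eq_bot_or_eq_top with h0 | h0
    · exfalso; apply hc
      have : c ∈ K := by rw [hKdef, Subgroup.mem_comap]; exact hkc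
      rw [h0] at this; exact Subgroup.mem_bot.mp this
    · intro s
      have : s ∈ K := h0 ▸ Subgroup.mem_top s
      exact this
  have hall : ∀ (j : Fin n) (s : S), Pi.mulSingle j s ∈ H' := by
    intro j s
    have := hchar (MulEquiv.arrowCongr (Equiv.swap k j) (MulEquiv.refl S)) _ (hK s)
    convert this using 1
    funext l
    simp only [MulEquiv.arrowCongr_apply, MulEquiv.refl_apply, Equiv.symm_swap]
    by_cases hl : l = j
    · subst hl; simp
    · rw [Pi.mulSingle_eq_of_ne hl, Pi.mulSingle_eq_of_ne]
      intro h'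
      apply hl
      have := congrArg (Equiv.swap k j) h'
      simpa using this
  rw [eq_top_iff]
  intro x _
  exact Subgroup.pi_mem_of_mulSingle_mem x (fun j => hall j (x j))

end

/-- A non-trivial finite group G is characteristically simple (its only characteristic subgroups are 1 and G) if and only if G is isomorphic to a direct power S^n (n ≥ 1) of some simple group S (possibly cyclic of prime order). -/
theorem result {G : Type*} [Group G] [Finite G] [Nontrivial G] :
    (∀ H : Subgroup G, H.Characteristic → H = ⊥ ∨ H = ⊤) ↔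
    ∃ (S : Type) (_ : Group S) (_ : IsSimpleGroup S) (n : ℕ), 1 ≤ n ∧ Nonempty (G ≃* (Fin n → S)) := by
  constructor
  · intro hchar
    obtain ⟨T, m, hT, hm, ⟨e⟩⟩ := H65.exists_simple_power (N := G) ⊤ (by
      intro M _ hM
      exact hchar M (Subgroup.characteristic_iff_map_le.mpr (fun φ => hM φ (Subgroup.mem_top _))))
    obtain ⟨T', _, ⟨eT⟩⟩ := H65.exists_type_zero T
    exact ⟨T', inferInstance, eT.symm.isSimpleGroup, m, hm,
      ⟨e.trans (MulEquiv.piCongrRight (fun _ => eT))⟩⟩
  · rintro ⟨S, _, hS, n, hn, ⟨e⟩⟩ H hH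
    have key := char_power (H.map e.toMonoidHom) (by
      intro ψ y hy
      obtain ⟨x, hx, rfl⟩ := hy
      have h1 := (Subgroup.characteristic_iff_map_le.mp hH) (e.trans (ψ.trans e.symm))
      have h2 := h1 (Subgroup.mem_map_of_mem _ hx)
      refine ⟨_, h2, ?_⟩
      simp)
    rcases key with h | h
    · left; exact (Subgroup.map_eq_bot_iff_of_injective H e.injective).mp h
    · right
      rw [eq_top_iff]; intro x _
      have : e x ∈ H.map e.toMonoidHom := by rw [h]; exact Subgroup.mem_top _
      obtain ⟨y, hy, hyx⟩ := this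
      exact (e.injective hyx) ▸ hy

end Cfsg.Agent.S5914
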