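import Cfsg.Statements.S5946

set_option autoImplicit false
open Cfsg

namespace Cfsg.Agent.S5946

/-- Let F ⊆ K be finite fields with [K : F] = n ≥ 2 and regard K as an n-dimensional F-vector space. The Singer group M ≤ GL_F(K) of multiplications by the non-zero elements of K is self-centralizing: every F-linear automorphism of K commuting with all of M lies in M. -/
theorem result {F K : Type*} [Field F] [Fintype F] [Field K] [Fintype K] [Algebra F K] (n : ℕ) (hn : 2 ≤ n) (hdim : Module.finrank F K = n) :
    Subgroup.centralizer (((Units.map ((Algebra.lmul F K : K →ₐ[F] Module.End F K) : K →* Module.End F K)).range : Subgroup (Module.End F K)ˣ) : Set (Module.End F K)ˣ) = (Units.map ((Algebra.lmul F K : K →ₐ[F] Module.End F K) : K →* Module.End F K)).range := by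
  set φ : K →* Module.End F K := ((Algebra.lmul F K : K →ₐ[F] Module.End F K) : K →* Module.End F K) with hφ
  have hφapp : ∀ k x : K, φ k x = k * x := fun k x => rfl
  ext T
  rw [Subgroup.mem_centralizer_iff]
  constructor
  · intro hT
    have hTinj : Function.Injective (T : Module.End F K) := by
      intro a b hab
      have h2 : ∀ x : K, ((T⁻¹ : (Module.End F K)ˣ) : Module.End F K) ((T : Module.End F K) x) = x := by
        intro x
        rw [← Module.End.mul_apply, ← Units.val_mul, inv_mul_cancel, Units.val_one,
          Module.End.one_apply]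
      rw [← h2 a, ← h2 b, hab]
    have hk : (T : Module.End F K) 1 ≠ 0 := by
      intro h0
      have : (1 : K) = 0 := hTinj (by rw [h0, map_zero])
      exact one_ne_zero this
    refine ⟨Units.mk0 _ hk, ?_⟩
    apply Units.ext
    apply LinearMap.ext
    intro x
    rw [Units.coe_map]
    show φ ((T : Module.End F K) 1) x = (T : Module.End F K) x
    rw [hφapp]
    by_cases hx : x = 0
    · rw [hx, mul_zero, map_zero]
    · have hcomm := hT (Units.map φ (Units.mk0 x hx)) ⟨Units.mk0 x hx, rfl⟩
      have := congrArg (fun U : (Module.End F K)ˣ => (U : Module.End F K) 1) hcomm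
      simp only [Units.val_mul, Units.coe_map, Module.End.mul_apply, Units.val_mk0] at this
      rw [hφapp, hφapp, mul_one] at this
      rw [← this, mul_comm]
  · rintro ⟨u, rfl⟩ h ⟨v, rfl⟩
    rw [← map_mul, ← map_mul, mul_comm]

end Cfsg.Agent.S5946
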