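import Cfsg.Statements.S5947
import Cfsg.Agent.H98.Singer

set_option autoImplicit false
open Cfsg

namespace Cfsg.Agent.S5947

/-- Let F ⊆ K be finite fields with |F| = q and [K : F] = n ≥ 2, regard K as an n-dimensional F-vector space, and let M ≤ GL_F(K) be the Singer group of multiplications by non-zero elements of K (cyclic of order q^n − 1). Assume (n, q) ≠ (6, 2), and that it is not the case that n = 2 with q a prime such that q + 1 is a power of 2. Then every abelian subgroup of GL_F(K) of order q^n − 1 is conjugate to M. -/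
theorem result {F K : Type*} [Field F] [Fintype F] [Field K] [Fintype K] [Algebra F K] (n : ℕ) (hn : 2 ≤ n) (hdim : Module.finrank F K = n)
    (hex1 : ¬ (n = 6 ∧ Fintype.card F = 2))
    (hex2 : ¬ (n = 2 ∧ (Fintype.card F).Prime ∧ ∃ a : ℕ, Fintype.card F + 1 = 2 ^ a))
    (U : Subgroup (Module.End F K)ˣ) (hU : IsMulCommutative U) (hcard : Nat.card U = Fintype.card K - 1) :
    ∃ g : (Module.End F K)ˣ, U.map (MulAut.conj g).toMonoidHom = (Units.map ((Algebra.lmul F K : K →ₐ[F] Module.End F K) : K →* Module.End F K)).range := by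
  have hcomm : ∀ a ∈ U, ∀ b ∈ U, a * b = b * a := fun a ha b hb => setLike_mul_comm ha hb
  have hK : 1 ≤ Fintype.card K := Fintype.card_pos
  have hcard' : Nat.card U + 1 = Nat.card K := by
    rw [hcard, Nat.card_eq_fintype_card]; omega
  have hp : ((Nat.card U : ℕ) : F) ≠ 0 := by
    have h1 : ((Fintype.card K : ℕ) : F) = 0 := by
      rw [Module.card_eq_pow_finrank (K := F) (V := K), Nat.cast_pow,
        FiniteField.cast_card_eq_zero, zero_pow (by rw [hdim]; omega)]
    have h2 : ((Nat.card U : ℕ) : F) + 1 = 0 := by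
      have h3 : ((Nat.card U + 1 : ℕ) : F) = 0 := by
        rw [hcard', Nat.card_eq_fintype_card, h1]
      rw [← h3, Nat.cast_add, Nat.cast_one]
    intro h
    rw [h, zero_add] at h2
    exact one_ne_zero h2
  exact H98.singer_conj U hcomm
    (fun x hx => H98.singer_trans U hcomm hp hcard' 1 one_ne_zero x hx) hcard'

end Cfsg.Agent.S5947
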